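import Cfsg.Statements.S4252
import Mathlib
import Cfsg.Agent.Lib.FGSBasic
-- import your own Cfsg.Agent.* helpers here

set_option autoImplicit false
open Cfsg

namespace Cfsg.Agent.S4252

open scoped Pointwise in
theorem hmem_aux {G Ω : Type*} [Group G] [MulAction G Ω] (α : Ω) (g x : G) :
    x ∈ MulAut.conj g • MulAction.stabilizer G α ↔ x • (g • α) = g • α := by
  rw [Cfsg.Agent.Lib.FGSBasic.mem_conj_smul_iff, MulAction.mem_stabilizer_iff]
  simp only [mul_smul]
  constructor
  · intro h
    have := congrArg (fun w => g • w) h
    simpa using this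
  · intro h
    rw [h]; simp

/-- Let a finite group G act on a finite set Ω with more than one point, transitively but not regularly, so that no non-identity element of G fixes two distinct points. Then the stabilizer H of any point is a Frobenius complement in G (nontrivial, proper, meeting its other conjugates trivially), and the Frobenius kernel of G with respect to H (the identity together with the elements lying in no conjugate of H) is exactly the set consisting of the identity and the elements fixing no point. -/
theorem result {G Ω : Type*} [Group G] [Finite G] [Fintype Ω] [MulAction G Ω] (hΩ : 1 < Fintype.card Ω)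
    (htrans : ∀ α β : Ω, ∃ g : G, g • α = β) (hnreg : ∃ g : G, g ≠ 1 ∧ ∃ α : Ω, g • α = α)
    (hfix : ∀ g : G, g ≠ 1 → ∀ α β : Ω, g • α = α → g • β = β → α = β) (α : Ω) :
    Cfsg.IsFrobeniusComplement (MulAction.stabilizer G α) ∧
      Cfsg.frobeniusKernel (MulAction.stabilizer G α) = {g : G | g = 1 ∨ ∀ ω : Ω, g • ω ≠ ω} := by
  classical
  have hmem := hmem_aux (G := G) α
  refine ⟨⟨?_, ?_, ?_⟩, ?_⟩
  · intro hb
    obtain ⟨g, hg1, β, hβ⟩ := hnreg
    obtain ⟨h, hh⟩ := htrans β α
    have h1 : h * g * h⁻¹ ∈ MulAction.stabilizer G α := by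
      rw [MulAction.mem_stabilizer_iff, mul_smul, mul_smul, ← hh]
      simp [hβ]
    rw [hb, Subgroup.mem_bot] at h1
    apply hg1
    have h2 : g = h⁻¹ * (h * g * h⁻¹) * h := by group
    rw [h2, h1]; group
  · intro ht
    obtain ⟨β, hβ⟩ := Fintype.exists_ne_of_one_lt_card hΩ α
    obtain ⟨g, hg⟩ := htrans α β
    have : g ∈ MulAction.stabilizer G α := by rw [ht]; trivial
    rw [MulAction.mem_stabilizer_iff, hg] at this
    exact hβ this
  · intro g hg
    rw [eq_bot_iff]
    intro x hx
    obtain ⟨h1, h2⟩ := Subgroup.mem_inf.mp hx
    rw [hmem] at h2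
    rw [MulAction.mem_stabilizer_iff] at h1 hg
    by_contra hx1
    have := hfix x hx1 α (g • α) h1 h2
    exact hg this.symm
  · ext x
    simp only [Cfsg.frobeniusKernel, Set.mem_setOf_eq, hmem]
    constructor
    · rintro (h | h)
      · exact Or.inl h
      · right
        intro ω
        obtain ⟨g, rfl⟩ := htrans α ω
        exact h g
    · rintro (h | h)
      · exact Or.inl h
      · right
        intro g
        exact h _

end Cfsg.Agent.S4252
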