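import Cfsg.Statements.S0039
import Cfsg.Agent.Lib.H1Frob

set_option autoImplicit false
open Cfsg

namespace Cfsg.Agent.S0039

/-- In a finite group that is a semidirect product of a normal subgroup K by a nontrivial subgroup H, H is a Frobenius complement exactly when each nonidentity element of H acts without nonidentity fixed points on K by conjugation. -/
theorem result {G : Type*} [Group G] [Finite G] (K H : Subgroup G) [K.Normal]
    (hc : Subgroup.IsComplement' K H) (hK : K ≠ ⊥) (hH : H ≠ ⊥) :
    Cfsg.IsFrobeniusComplement H ↔ ∀ h ∈ H, h ≠ 1 → K ⊓ Subgroup.centralizer {h} = ⊥ := by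
  classical
  open Cfsg.Agent.Lib.H1Core Cfsg.Agent.Lib.H1Frob in
  have hinf : ∀ x, x ∈ K → x ∈ H → x = 1 := by
    intro x h1 h2
    have := hc.disjoint
    exact Subgroup.disjoint_def.mp this h1 h2
  constructor
  · intro hF h hh hne
    rw [eq_bot_iff]
    rintro k ⟨hk1, hk2⟩
    rw [Subgroup.mem_bot]
    have hcomm : k⁻¹ * h * k = h := by
      have := Subgroup.mem_centralizer_iff.mp hk2 h rfl
      calc k⁻¹ * h * k = k⁻¹ * (h * k) := by group
        _ = k⁻¹ * (k * h) := by rw [this]
        _ = h := by group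
    have h1 := frob_eq hF hne (p := k) (q := 1) (by rw [hcomm]; exact hh) (by simpa using hh)
    have h2 : k ∈ H := by simpa using h1
    exact hinf k hk1 h2
  · intro hfpf
    refine ⟨hH, ?_, ?_⟩
    · intro htop
      apply hK
      rw [eq_bot_iff]
      intro x hx
      exact Subgroup.mem_bot.mpr (hinf x hx (by rw [htop]; trivial))
    · intro g hg
      rw [eq_bot_iff]
      rintro y ⟨hy1, hy2⟩
      rw [Subgroup.mem_bot]
      by_contra hy
      apply hg
      obtain ⟨⟨⟨k, hk⟩, ⟨u, hu⟩⟩, hku, -⟩ := hc.existsUnique g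
      have hku' : k * u = g := hku
      have hy3 : g⁻¹ * y * g ∈ H := mem_conj_smul.mp hy2
      have hy4 : k⁻¹ * y * k ∈ H := by
        have e : k⁻¹ * y * k = u * (g⁻¹ * y * g) * u⁻¹ := by rw [← hku']; group
        rw [e]
        exact H.mul_mem (H.mul_mem hu hy3) (H.inv_mem hu)
      have h1 : k⁻¹ * y * k * y⁻¹ ∈ K := by
        have h2 := ‹K.Normal›.conj_mem k⁻¹ (K.inv_mem hk) y
        have e : k⁻¹ * y * k * y⁻¹ = k⁻¹ * (y * k * y⁻¹) := by group
        rw [e]
        exact K.mul_mem (K.inv_mem hk) (‹K.Normal›.conj_mem k hk y)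
      have h2 : k⁻¹ * y * k * y⁻¹ ∈ H := H.mul_mem hy4 (H.inv_mem hy1)
      have h3 := hinf _ h1 h2
      have h4 : k * y = y * k := by
        have : k⁻¹ * y * k = y := by
          have := mul_inv_eq_one.mp h3
          exact this
        calc k * y = k * (k⁻¹ * y * k) := by rw [this]
          _ = y * k := by group
      have h5 : k ∈ K ⊓ Subgroup.centralizer {y} := by
        refine ⟨hk, Subgroup.mem_centralizer_iff.mpr ?_⟩
        intro z hz
        rw [Set.mem_singleton_iff] at hz
        rw [hz]
        exact h4.symm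
      rw [hfpf y hy1 hy, Subgroup.mem_bot] at h5
      rw [← hku', h5, one_mul]
      exact hu

end Cfsg.Agent.S0039
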