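import Cfsg.Statements.S1304
import Mathlib

set_option autoImplicit false
open Cfsg

namespace Cfsg.Agent.S1304

open scoped commutatorElement

/-- Let X be a perfect group and α an automorphism of X with α(x) x⁻¹ central for every x. Then α is the identity. -/
theorem result {X : Type*} [Group X] (hperf : commutator X = ⊤) (α : X ≃* X) (h : ∀ x : X, α x * x⁻¹ ∈ Subgroup.center X) : ∀ x : X, α x = x := by
  -- f x = α x * x⁻¹ is a homomorphism into the centre
  let f : X →* Subgroup.center X :=
    { toFun := fun x => ⟨α x * x⁻¹, h x⟩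
      map_one' := by ext; simp
      map_mul' := by
        intro x y
        apply Subtype.ext
        show α (x * y) * (x * y)⁻¹ = (α x * x⁻¹) * (α y * y⁻¹)
        have hc := Subgroup.mem_center_iff.mp (h y) (α x)
        rw [map_mul, mul_inv_rev]
        calc α x * α y * (y⁻¹ * x⁻¹) = α x * (α y * y⁻¹) * x⁻¹ := by group
          _ = (α y * y⁻¹) * α x * x⁻¹ := by rw [hc]
          _ = (α x * x⁻¹) * (α y * y⁻¹) := by
            have hc2 := Subgroup.mem_center_iff.mp (h y) (α x * x⁻¹)
            rw [hc2]; group }
  have hle : commutator X ≤ f.ker := by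
    rw [commutator_def, Subgroup.commutator_le]
    intro a _ b _
    rw [MonoidHom.mem_ker, map_commutatorElement, commutatorElement_eq_one_iff_mul_comm]
    exact Subtype.ext (Subgroup.mem_center_iff.mp (f a).2 (f b : X)).symm
  intro x
  have hx : x ∈ f.ker := hle (by rw [hperf]; trivial)
  have h1 : α x * x⁻¹ = 1 := congrArg Subtype.val (MonoidHom.mem_ker.mp hx)
  exact mul_inv_eq_one.mp h1

end Cfsg.Agent.S1304
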