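import Cfsg.Statements.S0752
import Mathlib

set_option autoImplicit false
open Cfsg

namespace Cfsg.Agent.S0752

variable {F V : Type*} [Field F] [AddCommGroup V] [Module F V] [FiniteDimensional F V]

/-- The claim, for subspaces. -/
theorem aux (B : LinearMap.BilinForm F V) (hA : B.IsAlt) (W : Submodule F V) :
    ∃ (m k : ℕ) (e f : Fin m → V) (r : Fin k → V),
      (∀ i, e i ∈ W) ∧ (∀ i, f i ∈ W) ∧ (∀ j, r j ∈ W) ∧
      LinearIndependent F (Sum.elim (Sum.elim e f) r) ∧
      Submodule.span F (Set.range (Sum.elim (Sum.elim e f) r)) = W ∧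
      (∀ i j, B (e i) (f j) = if i = j then 1 else 0) ∧ (∀ i j, B (e i) (e j) = 0) ∧
      (∀ i j, B (f i) (f j) = 0) ∧ (∀ j, ∀ v ∈ W, B (r j) v = 0) := by
  classical
  induction' h : Module.finrank F W using Nat.strong_induction_on with n ih generalizing W
  by_cases hW : ∀ u ∈ W, ∀ v ∈ W, B u v = 0
  · -- the form vanishes on W
    let b := Module.finBasis F W
    refine ⟨0, Module.finrank F W, Fin.elim0, Fin.elim0, fun j => (b j : V), fun i => i.elim0, fun i => i.elim0, fun j => (b j).2, ?_, ?_,
      fun i => i.elim0, fun i => i.elim0, fun i => i.elim0, fun j v hv => hW _ (b j).2 v hv⟩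
    · rw [Fintype.linearIndependent_iff]
      intro g hg
      have hg' : ∑ j, g (Sum.inr j) • b j = 0 := by
        apply Subtype.ext
        simpa [Fintype.sum_sum_type] using hg
      have := (Fintype.linearIndependent_iff.mp b.linearIndependent) _ hg'
      rintro (i | j)
      · rcases i with i | i <;> exact i.elim0
      · exact this j
    · apply le_antisymm
      · rw [Submodule.span_le]
        rintro _ ⟨(i | j), rfl⟩
        · rcases i with i | i <;> exact i.elim0
        · exact (b j).2
      · intro w hw
        have h1 : (⟨w, hw⟩ : W) = ∑ j, (b.repr ⟨w, hw⟩ j) • b j := (b.sum_repr _).symm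
        have h2 : w = ∑ j, (b.repr ⟨w, hw⟩ j) • (b j : V) := by
          have := congrArg Subtype.val h1
          simp only [AddSubmonoidClass.coe_finset_sum, SetLike.val_smul] at this
          exact this
        rw [h2]
        refine Submodule.sum_mem _ fun j _ => Submodule.smul_mem _ _ (Submodule.subset_span ⟨Sum.inr j, rfl⟩)
  · push Not at hW
    obtain ⟨u, hu, v0, hv0, huv0⟩ := hW
    -- normalise
    set v := (B u v0)⁻¹ • v0 with hv
    have hvW : v ∈ W := W.smul_mem _ hv0
    have huv : B u v = 1 := by
      rw [hv, map_smul, smul_eq_mul, inv_mul_cancel₀ huv0]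
    have hvu : B v u = -1 := by
      rw [← hA.neg_eq, huv]
    have huu : B u u = 0 := hA u
    have hvv : B v v = 0 := hA v
    -- the complement
    let W' : Submodule F V := W ⊓ LinearMap.ker (B u) ⊓ LinearMap.ker (B v)
    have hW'mem : ∀ {x}, x ∈ W' ↔ x ∈ W ∧ B u x = 0 ∧ B v x = 0 := by
      intro x
      simp only [W', Submodule.mem_inf, LinearMap.mem_ker]
      tauto
    have hlt : W' < W := by
      refine lt_of_le_of_ne (fun x hx => (hW'mem.mp hx).1) ?_
      intro heq
      have : v ∈ W' := by rw [heq]; exact hvW
      have := (hW'mem.mp this).2.1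
      rw [huv] at this
      exact one_ne_zero this
    have hdim : Module.finrank F W' < n := h ▸ Submodule.finrank_lt_finrank_of_lt hlt
    obtain ⟨m, k, e', f', r', he', hf', hr', hli, hsp, h1, h2, h3, h4⟩ := ih _ hdim W' rfl
    have hskew : ∀ x y, B y x = - B x y := fun x y => (hA.neg_eq x y).symm
    have hule : ∀ x ∈ W', B u x = 0 := fun x hx => (hW'mem.mp hx).2.1
    have hvle : ∀ x ∈ W', B v x = 0 := fun x hx => (hW'mem.mp hx).2.2
    have hule' : ∀ x ∈ W', B x u = 0 := fun x hx => by rw [hskew u x, hule x hx, neg_zero]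
    have hvle' : ∀ x ∈ W', B x v = 0 := fun x hx => by rw [hskew v x, hvle x hx, neg_zero]
    refine ⟨m + 1, k, Fin.cons u e', Fin.cons v f', r', ?_, ?_, ?_, ?_, ?_, ?_, ?_, ?_, ?_⟩
    · intro i
      refine Fin.cases ?_ (fun i => ?_) i
      · simpa using hu
      · simpa using (hW'mem.mp (he' i)).1
    · intro i
      refine Fin.cases ?_ (fun i => ?_) i
      · simpa using hvW
      · simpa using (hW'mem.mp (hf' i)).1
    · intro j
      exact (hW'mem.mp (hr' j)).1
    · rw [Fintype.linearIndependent_iff]
      intro g hg
      simp only [Fintype.sum_sum_type, Sum.elim_inl, Sum.elim_inr, Fin.sum_univ_succ, Fin.cons_zero, Fin.cons_succ] at hg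
      set α := g (Sum.inl (Sum.inl 0))
      set β := g (Sum.inl (Sum.inr 0))
      set S' : V := ∑ i, g (Sum.inl (Sum.inl i.succ)) • e' i + ∑ i, g (Sum.inl (Sum.inr i.succ)) • f' i + ∑ j, g (Sum.inr j) • r' j with hS'
      have hS'mem : S' ∈ W' := by
        refine W'.add_mem (W'.add_mem ?_ ?_) ?_
        · exact Submodule.sum_mem _ fun i _ => W'.smul_mem _ (he' i)
        · exact Submodule.sum_mem _ fun i _ => W'.smul_mem _ (hf' i)
        · exact Submodule.sum_mem _ fun i _ => W'.smul_mem _ (hr' i)
      have hsum : α • u + β • v + S' = 0 := by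
        rw [hS', ← hg]
        abel
      have hβ : β = 0 := by
        have := congrArg (B u) hsum
        simpa [huu, huv, hule _ hS'mem] using this
      have hα : α = 0 := by
        have := congrArg (B v) hsum
        simpa [hvu, hvv, hvle _ hS'mem] using this
      have hS0 : S' = 0 := by
        rw [hα, hβ] at hsum
        simpa using hsum
      have hg' := (Fintype.linearIndependent_iff.mp hli)
        (Sum.elim (Sum.elim (fun i => g (Sum.inl (Sum.inl i.succ))) (fun i => g (Sum.inl (Sum.inr i.succ)))) (fun j => g (Sum.inr j)))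
        (by simpa [Fintype.sum_sum_type] using hS0)
      rintro ((i | i) | j)
      · refine Fin.cases ?_ (fun i => ?_) i
        · exact hα
        · exact hg' (Sum.inl (Sum.inl i))
      · refine Fin.cases ?_ (fun i => ?_) i
        · exact hβ
        · exact hg' (Sum.inl (Sum.inr i))
      · exact hg' (Sum.inr j)
    · apply le_antisymm
      · rw [Submodule.span_le]
        rintro _ ⟨((i | i) | j), rfl⟩
        · refine Fin.cases ?_ (fun i => ?_) i
          · simpa using hu
          · simpa using (hW'mem.mp (he' i)).1
        · refine Fin.cases ?_ (fun i => ?_) i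
          · simpa using hvW
          · simpa using (hW'mem.mp (hf' i)).1
        · exact (hW'mem.mp (hr' j)).1
      · intro w hw
        set T := Submodule.span F (Set.range (Sum.elim (Sum.elim (Fin.cons u e' : Fin (m + 1) → V) (Fin.cons v f' : Fin (m + 1) → V)) r')) with hT
        have huT : u ∈ T := Submodule.subset_span ⟨Sum.inl (Sum.inl 0), by simp⟩
        have hvT : v ∈ T := Submodule.subset_span ⟨Sum.inl (Sum.inr 0), by simp⟩
        have hW'T : W' ≤ T := by
          rw [← hsp, Submodule.span_le]
          rintro _ ⟨((i | i) | j), rfl⟩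
          · exact Submodule.subset_span ⟨Sum.inl (Sum.inl i.succ), by simp⟩
          · exact Submodule.subset_span ⟨Sum.inl (Sum.inr i.succ), by simp⟩
          · exact Submodule.subset_span ⟨Sum.inr j, by simp⟩
        have hw' : w + (B v w) • u - (B u w) • v ∈ W' := by
          rw [hW'mem]
          refine ⟨?_, ?_, ?_⟩
          · exact W.sub_mem (W.add_mem hw (W.smul_mem _ hu)) (W.smul_mem _ hvW)
          · simp [huu, huv]
          · simp [hvu, hvv]
        have := hW'T hw'
        have h5 : w = (w + (B v w) • u - (B u w) • v) - (B v w) • u + (B u w) • v := by abel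
        rw [h5]
        exact T.add_mem (T.sub_mem this (T.smul_mem _ huT)) (T.smul_mem _ hvT)
    · intro i j
      refine Fin.cases ?_ (fun i => ?_) i <;> refine Fin.cases ?_ (fun j => ?_) j
      · simpa using huv
      · simpa [(Fin.succ_ne_zero j).symm] using hule _ (hf' j)
      · simpa [Fin.succ_ne_zero] using hvle' _ (he' i)
      · simpa [Fin.succ_inj] using h1 i j
    · intro i j
      refine Fin.cases ?_ (fun i => ?_) i <;> refine Fin.cases ?_ (fun j => ?_) j
      · simpa using huu
      · simpa using hule _ (he' j)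
      · simpa using hule' _ (he' i)
      · simpa using h2 i j
    · intro i j
      refine Fin.cases ?_ (fun i => ?_) i <;> refine Fin.cases ?_ (fun j => ?_) j
      · simpa using hvv
      · simpa using hvle _ (hf' j)
      · simpa using hvle' _ (hf' i)
      · simpa using h3 i j
    · intro j w hw
      have hw' : w + (B v w) • u - (B u w) • v ∈ W' := by
        rw [hW'mem]
        refine ⟨?_, ?_, ?_⟩
        · exact W.sub_mem (W.add_mem hw (W.smul_mem _ hu)) (W.smul_mem _ hvW)
        · simp [huu, huv]
        · simp [hvu, hvv]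
      have h5 := h4 j _ hw'
      have h6 := hule' _ (hr' j)
      have h7 := hvle' _ (hr' j)
      simpa [h6, h7] using h5

/-- Classification of alternating forms: for an alternating bilinear form B on a finite-dimensional space over any field there is a basis indexed by (Fin m ⊕ Fin m) ⊕ Fin k such that B (e_i, f_j) = δ_ij, the e's are pairwise orthogonal, the f's are pairwise orthogonal, and the last k basis vectors are orthogonal to everything (they span the radical). -/
theorem result {F V : Type*} [Field F] [AddCommGroup V] [Module F V] [FiniteDimensional F V] (B : LinearMap.BilinForm F V) (hA : B.IsAlt) : ∃ (m k : ℕ) (b : Module.Basis ((Fin m ⊕ Fin m) ⊕ Fin k) F V), (∀ i j : Fin m, B (b (Sum.inl (Sum.inl i))) (b (Sum.inl (Sum.inr j))) = if i = j then 1 else 0) ∧ (∀ i j : Fin m, B (b (Sum.inl (Sum.inl i))) (b (Sum.inl (Sum.inl j))) = 0) ∧ (∀ i j : Fin m, B (b (Sum.inl (Sum.inr i))) (b (Sum.inl (Sum.inr j))) = 0) ∧ (∀ (j : Fin k) (v : V), B (b (Sum.inr j)) v = 0) := by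
  obtain ⟨m, k, e, f, r, -, -, -, hli, hsp, h1, h2, h3, h4⟩ := aux B hA ⊤
  refine ⟨m, k, Module.Basis.mk hli (by rw [hsp]), ?_, ?_, ?_, ?_⟩
  · intro i j
    simpa using h1 i j
  · intro i j
    simpa using h2 i j
  · intro i j
    simpa using h3 i j
  · intro j v
    simpa using h4 j v trivial

end Cfsg.Agent.S0752
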