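import Cfsg.Statements.S2167
import Cfsg.Agent.S0752
import Cfsg.Agent.Lib.SympBasic

set_option autoImplicit false
open Cfsg Matrix

namespace Cfsg.Agent.S2167


open Cfsg.Agent.Lib.SympBasic in
theorem even_rank_of_alt {F : Type*} [Field F] {ι : Type*} [Fintype ι] [DecidableEq ι] (M : Matrix ι ι F)
    (hM : ∀ u : ι → F, u ⬝ᵥ M.mulVec u = 0) : Even M.rank := by
  classical
  let B : LinearMap.BilinForm F (ι → F) := Matrix.toBilin' M
  have hB : ∀ x y, B x y = x ⬝ᵥ M.mulVec y := fun x y => Matrix.toBilin'_apply' M x y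
  have hAlt : B.IsAlt := fun u => by rw [hB]; exact hM u
  obtain ⟨m, k, b, h1, h2, h3, h4⟩ := Cfsg.Agent.S0752.result B hAlt
  have hR : ∀ u k', B u (b (Sum.inr k')) = 0 := fun u k' => by
    rw [← hAlt.neg_eq, h4, neg_zero]
  let φ : (ι → F) →ₗ[F] (Fin m ⊕ Fin m → F) :=
    (LinearMap.funLeft F F Sum.inl) ∘ₗ (b.equivFun : (ι → F) →ₗ[F] ((Fin m ⊕ Fin m) ⊕ Fin k → F))
  have hφ : ∀ x j, φ x j = b.repr x (Sum.inl j) := fun x j => rfl
  have hsum : ∀ u x, B u x = ∑ j : Fin m ⊕ Fin m, (b.repr x (Sum.inl j)) * B u (b (Sum.inl j)) := by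
    intro u x
    conv_lhs => rw [← b.sum_repr x]
    rw [map_sum, Fintype.sum_sum_type]
    simp [hR]
  have hker : LinearMap.ker M.mulVecLin = LinearMap.ker φ := by
    ext x
    simp only [LinearMap.mem_ker, Matrix.mulVecLin_apply]
    constructor
    · intro hx
      have hB0 : ∀ u, B u x = 0 := fun u => by rw [hB, hx, dotProduct_zero]
      ext j
      rw [hφ, Pi.zero_apply]
      rcases j with i | i
      · have h5 := hB0 (b (Sum.inl (Sum.inr i)))
        rw [hsum, Fintype.sum_sum_type] at h5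
        have h6 : ∀ j, B (b (Sum.inl (Sum.inr i))) (b (Sum.inl (Sum.inl j))) = - (if j = i then 1 else 0) := by
          intro j
          rw [← hAlt.neg_eq, h1]
        simp [h6, h3] at h5
        exact h5
      · have h5 := hB0 (b (Sum.inl (Sum.inl i)))
        rw [hsum, Fintype.sum_sum_type] at h5
        simp [h1, h2] at h5
        exact h5
    · intro hx
      have h5 : ∀ j, b.repr x (Sum.inl j) = 0 := fun j => by
        rw [← hφ, hx]
        rfl
      have h6 : ∀ u, u ⬝ᵥ M.mulVec x = 0 := fun u => by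
        rw [← hB, hsum]
        simp [h5]
      exact dotProduct_eq_zero_iff.1 (fun w => by rw [dotProduct_comm]; exact h6 w)
  have hsurj : Function.Surjective φ := by
    intro w
    refine ⟨∑ j : Fin m ⊕ Fin m, w j • b (Sum.inl j), ?_⟩
    ext j
    rw [hφ, map_sum, Finsupp.finset_sum_apply]
    simp [Finsupp.single_apply]
  have e1 := LinearMap.finrank_range_add_finrank_ker M.mulVecLin
  have e2 := LinearMap.finrank_range_add_finrank_ker φ
  rw [LinearMap.range_eq_top.2 hsurj, finrank_top, Module.finrank_fintype_fun_eq_card, Fintype.card_sum, Fintype.card_fin] at e2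
  rw [hker] at e1
  have : M.rank = m + m := by
    show Module.finrank F (LinearMap.range M.mulVecLin) = m + m
    omega
  exact ⟨m, this⟩


/-- For an involution t of the symplectic group Sp_{2m}(F), m ≥ 2, F a finite field of characteristic two (matrices A with A J Aᵀ = J acting on column vectors, alternating form f(u, v) = u ⬝ (J v)): the set V(t) of vectors v with f(v, t v) = 0 has either q^{2m} or q^{2m−1} elements, q the order of F (it is a subspace of codimension at most 1), and if it is the whole space then t − 1 has even rank. -/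
theorem result {F : Type*} [Field F] [Fintype F] [CharP F 2] {m : ℕ} (hm : 2 ≤ m) (a : ↥(Matrix.symplecticGroup (Fin m) F)) (ha : orderOf a = 2) :
    (Nat.card {v : Fin m ⊕ Fin m → F // Cfsg.sympForm m F v (Matrix.mulVec ((a : ↥(Matrix.symplecticGroup (Fin m) F)) : Matrix (Fin m ⊕ Fin m) (Fin m ⊕ Fin m) F) v) = 0} = Fintype.card F ^ (2 * m) ∨ Nat.card {v : Fin m ⊕ Fin m → F // Cfsg.sympForm m F v (Matrix.mulVec ((a : ↥(Matrix.symplecticGroup (Fin m) F)) : Matrix (Fin m ⊕ Fin m) (Fin m ⊕ Fin m) F) v) = 0} * Fintype.card F = Fintype.card F ^ (2 * m)) ∧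
    ((∀ v : Fin m ⊕ Fin m → F, Cfsg.sympForm m F v (Matrix.mulVec ((a : ↥(Matrix.symplecticGroup (Fin m) F)) : Matrix (Fin m ⊕ Fin m) (Fin m ⊕ Fin m) F) v) = 0) → Even (((a : ↥(Matrix.symplecticGroup (Fin m) F)) : Matrix (Fin m ⊕ Fin m) (Fin m ⊕ Fin m) F) - 1).rank) := by
  classical
  set A : Matrix (Fin m ⊕ Fin m) (Fin m ⊕ Fin m) F := (a : Matrix (Fin m ⊕ Fin m) (Fin m ⊕ Fin m) F) with hA
  have hAA : A * A = 1 := by
    have h0 : a ^ 2 = 1 := by rw [← ha]; exact pow_orderOf_eq_one a
    have h1 := congrArg (fun x : ↥(Matrix.symplecticGroup (Fin m) F) => (x : Matrix (Fin m ⊕ Fin m) (Fin m ⊕ Fin m) F)) h0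
    simpa [pow_two] using h1
  have hpres := (Cfsg.Agent.Lib.SympBasic.preserves_iff_mem A).2 a.2
  have hAAv : ∀ v, A.mulVec (A.mulVec v) = v := by
    intro v
    rw [Matrix.mulVec_mulVec, hAA, Matrix.one_mulVec]
  let g : (Fin m ⊕ Fin m → F) → F := fun v => Cfsg.sympForm m F v (A.mulVec v)
  have h2 : (2 : F) = 0 := CharTwo.two_eq_zero
  have hcross : ∀ u v, Cfsg.sympForm m F v (A.mulVec u) = Cfsg.sympForm m F u (A.mulVec v) := by
    intro u v
    have h3 := hpres v (A.mulVec u)
    rw [hAAv] at h3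
    rw [← h3, Cfsg.Agent.Lib.SympBasic.sympForm_skew, neg_eq_iff_add_eq_zero]
    rw [← two_mul, h2, zero_mul]
  have hgadd : ∀ u v, g (u + v) = g u + g v := by
    intro u v
    simp only [g]
    rw [Matrix.mulVec_add, Cfsg.Agent.Lib.SympBasic.sympForm_add_left, Cfsg.Agent.Lib.SympBasic.sympForm_add_right,
      Cfsg.Agent.Lib.SympBasic.sympForm_add_right, hcross u v]
    linear_combination (Cfsg.sympForm m F u (A.mulVec v)) * h2
  have hgsmul : ∀ (c : F) v, g (c • v) = c ^ 2 * g v := by
    intro c v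
    simp only [g]
    rw [Matrix.mulVec_smul, Cfsg.Agent.Lib.SympBasic.sympForm_smul_left, Cfsg.Agent.Lib.SympBasic.sympForm_smul_right]
    ring
  let sq := frobeniusEquiv F 2
  have hsq : ∀ x : F, (sq.symm x) ^ 2 = x := fun x => frobeniusEquiv_symm_pow_p F 2 x
  let h : (Fin m ⊕ Fin m → F) →ₗ[F] F :=
    { toFun := fun v => sq.symm (g v)
      map_add' := by
        intro u v
        rw [hgadd, map_add]
      map_smul' := by
        intro c v
        simp only [RingHom.id_apply, smul_eq_mul]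
        rw [hgsmul]
        rw [map_mul]
        congr 1
        have : (c ^ 2 : F) = sq c := rfl
        rw [this, RingEquiv.symm_apply_apply] }
  have hker : ∀ v, v ∈ LinearMap.ker h ↔ Cfsg.sympForm m F v (A.mulVec v) = 0 := by
    intro v
    rw [LinearMap.mem_ker]
    show sq.symm (g v) = 0 ↔ g v = 0
    exact map_eq_zero_iff _ sq.symm.injective
  have hcard : Nat.card {v : Fin m ⊕ Fin m → F // Cfsg.sympForm m F v (A.mulVec v) = 0} = Nat.card (LinearMap.ker h) :=
    Nat.card_congr (Equiv.subtypeEquivRight (fun v => (hker v).symm))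
  have hV : Module.finrank F (Fin m ⊕ Fin m → F) = 2 * m := by
    rw [Module.finrank_fintype_fun_eq_card, Fintype.card_sum, Fintype.card_fin]
    ring
  refine ⟨?_, ?_⟩
  · rw [hcard]
    by_cases h0 : h = 0
    · left
      have : LinearMap.ker h = ⊤ := by rw [h0, LinearMap.ker_zero]
      rw [this, Nat.card_eq_fintype_card, Module.card_eq_pow_finrank (K := F), finrank_top, hV]
    · right
      have hsurj : Function.Surjective h := LinearMap.surjective h0
      have e2 := LinearMap.finrank_range_add_finrank_ker h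
      rw [LinearMap.range_eq_top.2 hsurj, finrank_top, Module.finrank_self, hV] at e2
      rw [Nat.card_eq_fintype_card, Module.card_eq_pow_finrank (K := F) (V := ↥(LinearMap.ker h)), ← pow_succ]
      congr 1
      omega
  · intro hall
    let M : Matrix (Fin m ⊕ Fin m) (Fin m ⊕ Fin m) F := Matrix.J (Fin m) F * (A - 1)
    have hM : M.rank = (A - 1).rank :=
      Matrix.rank_mul_eq_right_of_isUnit_det _ _ (Matrix.isUnit_det_J (Fin m) F)
    rw [← hM]
    apply even_rank_of_alt
    intro u
    show u ⬝ᵥ (Matrix.J (Fin m) F * (A - 1)).mulVec u = 0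
    rw [← Matrix.mulVec_mulVec, Matrix.sub_mulVec, Matrix.one_mulVec, Matrix.mulVec_sub, dotProduct_sub]
    have h1 : u ⬝ᵥ (Matrix.J (Fin m) F).mulVec (A.mulVec u) = 0 := hall u
    have h3 : u ⬝ᵥ (Matrix.J (Fin m) F).mulVec u = 0 := Cfsg.Agent.Lib.SympBasic.sympForm_self u
    rw [h1, h3, sub_zero]

end Cfsg.Agent.S2167
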