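import Cfsg.Statements.S0228
import Mathlib
import Cfsg.Agent.Lib.InvolSylow

set_option autoImplicit false
open Cfsg

namespace Cfsg.Agent.S0228

open Cfsg.Agent.Lib.Invol Cfsg.Agent.Lib.InvolSylow

variable {G : Type*} [Group G] [Finite G]

lemma card_sylow3 (hG : Nat.card G = 12) (P : Sylow 3 G) : Nat.card P = 3 := by
  obtain ⟨k, hk⟩ := IsPGroup.iff_card.mp P.isPGroup'
  have h1 := Subgroup.card_mul_index (P : Subgroup G)
  have h2 := P.not_dvd_index
  rw [hG] at h1
  have hk' : Nat.card (P : Subgroup G) = 3 ^ k := hk
  rw [hk'] at h1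
  have hk2 : k ≤ 1 := by
    by_contra hcon
    have : 3 ^ 2 ∣ 3 ^ k := pow_dvd_pow 3 (by omega)
    have h3 : 3 ^ 2 ∣ 12 := by
      rw [← h1]; exact this.trans (Dvd.intro _ rfl)
    omega
  interval_cases k
  · exfalso
    apply h2
    simp at h1
    rw [h1]; norm_num
  · simpa using hk'

lemma card_sylow2 (hG : Nat.card G = 12) (P : Sylow 2 G) : Nat.card P = 4 := by
  obtain ⟨k, hk⟩ := IsPGroup.iff_card.mp P.isPGroup'
  have h1 := Subgroup.card_mul_index (P : Subgroup G)
  have h2 := P.not_dvd_index
  rw [hG] at h1
  have hk' : Nat.card (P : Subgroup G) = 2 ^ k := hk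
  rw [hk'] at h1
  have hk2 : k ≤ 2 := by
    by_contra hcon
    have : 2 ^ 3 ∣ 2 ^ k := pow_dvd_pow 2 (by omega)
    have h3 : 2 ^ 3 ∣ 12 := by
      rw [← h1]; exact this.trans (Dvd.intro _ rfl)
    omega
  interval_cases k
  · exfalso
    apply h2
    simp at h1
    rw [h1]; norm_num
  · exfalso
    apply h2
    have : (P : Subgroup G).index = 6 := by omega
    rw [this]; norm_num
  · simpa using hk'

/-- If a Sylow 3-subgroup is normal there is a central involution. -/
lemma central_inv_of_normal (hG : Nat.card G = 12) (P : Sylow 3 G) (hn : (P : Subgroup G).Normal) :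
    ∃ z : G, orderOf z = 2 ∧ z ∈ Subgroup.center G := by
  have hcard := card_sylow3 hG P
  have hcard' : Nat.card (P : Subgroup G) = 3 := hcard
  have hp3 : Fact (Nat.Prime 3) := ⟨by norm_num⟩
  have hcyc : IsCyclic (P : Subgroup G) := isCyclic_of_prime_card hcard'
  obtain ⟨p, hp⟩ := hcyc.exists_generator
  have hp1 : (p : G) ≠ 1 := by
    intro h
    have h1 : p = 1 := Subtype.ext h
    have h2 : ∀ x : (P : Subgroup G), x = 1 := fun x => by
      have := hp x
      rw [h1] at this
      simpa using this
    have h3 : Nat.card (P : Subgroup G) = 1 := Nat.card_eq_one_iff_unique.mpr ⟨⟨fun a b => by rw [h2 a, h2 b]⟩, ⟨1⟩⟩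
    omega
  -- class of p lies in P \ {1}
  have hclass : Nat.card {y : G // IsConj (p : G) y} ≤ 2 := by
    have h1 : Nat.card {y : G // IsConj (p : G) y} + 1 ≤ Nat.card (P : Subgroup G) := by
      refine card_add_one_le (fun y => (⟨y.1, ?_⟩ : (P : Subgroup G))) ?_ 1 ?_
      · obtain ⟨g, hg⟩ := isConj_iff.mp y.2
        rw [← hg]
        exact hn.conj_mem _ p.2 g
      · intro a b h
        have : a.1 = b.1 := by simpa using h
        exact Subtype.ext this
      · intro a h
        have h2 : a.1 = 1 := by simpa using congrArg Subtype.val h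
        obtain ⟨g, hg⟩ := isConj_iff.mp a.2
        rw [h2] at hg
        apply hp1
        have : (p : G) = g⁻¹ * (g * p * g⁻¹) * g := by group
        rw [this, hg]; group
    omega
  have hC := orbit_conj_card (p : G)
  rw [hG] at hC
  -- the centralizer of p has even order
  have hC2 : 2 ∣ Nat.card (Subgroup.centralizer ({(p : G)} : Set G)) := by
    have h0 : Nat.card {y : G // IsConj (p : G) y} ≠ 0 := by
      intro h
      rw [h] at hC
      omega
    have : Nat.card {y : G // IsConj (p : G) y} = 1 ∨ Nat.card {y : G // IsConj (p : G) y} = 2 := by omega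
    rcases this with h | h <;> rw [h] at hC <;> omega
  obtain ⟨s, hs⟩ := exists_prime_orderOf_dvd_card' 2 hC2
  have hs2 : orderOf (s : G) = 2 := by rw [← Subgroup.orderOf_coe] at hs; exact hs
  have hsp : Commute (s : G) (p : G) := Subgroup.mem_centralizer_singleton_iff.mp s.2
  refine ⟨s, hs2, ?_⟩
  -- s lies in a Sylow 2-subgroup Q, which is abelian
  obtain ⟨Q, hQ⟩ := (isPGroup_zpowers_of_pow (p := 2) (c := (s : G)) (r := 1) (by simpa using sq_eq_one hs2)).exists_le_sylow
  have hsQ : (s : G) ∈ Q := hQ (Subgroup.mem_zpowers _)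
  have hQ4 : Nat.card (Q : Subgroup G) = 4 := card_sylow2 hG Q
  have hQab : IsMulCommutative (Q : Subgroup G) := by
    have : Nat.card (Q : Subgroup G) = 2 ^ 2 := by rw [hQ4]; norm_num
    exact IsPGroup.isMulCommutative_of_card_eq_prime_sq this
  -- the centralizer of s contains Q and P
  have hQle : (Q : Subgroup G) ≤ Subgroup.centralizer ({(s : G)} : Set G) := by
    intro q hq
    rw [Subgroup.mem_centralizer_singleton_iff]
    have := hQab.is_comm.comm ⟨q, hq⟩ ⟨s, hsQ⟩
    simpa using congrArg Subtype.val this
  have hPle : (P : Subgroup G) ≤ Subgroup.centralizer ({(s : G)} : Set G) := by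
    intro q hq
    rw [Subgroup.mem_centralizer_singleton_iff]
    obtain ⟨k, hk⟩ := hp ⟨q, hq⟩
    have hk' : (p : G) ^ k = q := by simpa using congrArg Subtype.val hk
    rw [← hk']
    exact (hsp.symm.zpow_left k).eq
  have h4 := Subgroup.card_dvd_of_le hQle
  have h3 := Subgroup.card_dvd_of_le hPle
  rw [hQ4] at h4
  rw [hcard'] at h3
  have h12 : 12 ∣ Nat.card (Subgroup.centralizer ({(s : G)} : Set G)) :=
    Nat.Coprime.mul_dvd_of_dvd_of_dvd (by norm_num) h3 h4
  have htop : Subgroup.centralizer ({(s : G)} : Set G) = ⊤ := by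
    apply Subgroup.eq_top_of_card_eq
    apply le_antisymm (Subgroup.card_le_card_group _)
    rw [hG]
    exact Nat.le_of_dvd Nat.card_pos h12
  rw [Subgroup.mem_center_iff]
  intro g
  have : g ∈ Subgroup.centralizer ({(s : G)} : Set G) := by rw [htop]; trivial
  exact Subgroup.mem_centralizer_singleton_iff.mp this

/-- A group of order 12 in which no involution is central is isomorphic to the alternating group on four letters. -/
theorem result {G : Type*} [Group G] [Finite G] (hG : Nat.card G = 12) (hz : ∀ z : G, orderOf z = 2 → z ∉ Subgroup.center G) : Nonempty (G ≃* alternatingGroup (Fin 4)) := by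
  classical
  have hp3 : Fact (Nat.Prime 3) := ⟨by norm_num⟩
  have : Fintype G := Fintype.ofFinite G
  -- number of Sylow 3-subgroups
  obtain ⟨P⟩ : Nonempty (Sylow 3 G) := inferInstance
  have hidx := Sylow.card_eq_index_normalizer P
  have hmod := card_sylow_modEq_one 3 G
  have hPcard := card_sylow3 hG P
  have hPcard' : Nat.card (P : Subgroup G) = 3 := hPcard
  have hdvd := Sylow.card_dvd_index P
  have hindex : (P : Subgroup G).index = 4 := by
    have := Subgroup.card_mul_index (P : Subgroup G)
    rw [hPcard', hG] at this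
    omega
  rw [hindex] at hdvd
  have hcases : Nat.card (Sylow 3 G) = 1 ∨ Nat.card (Sylow 3 G) = 4 := by
    have h1 : Nat.card (Sylow 3 G) ≤ 4 := Nat.le_of_dvd (by norm_num) hdvd
    have h2 : Nat.card (Sylow 3 G) % 3 = 1 := hmod
    have h3 : 0 < Nat.card (Sylow 3 G) := Nat.card_pos
    interval_cases (Nat.card (Sylow 3 G)) <;> omega
  rcases hcases with h1 | h4
  · exfalso
    have hn : (P : Subgroup G).Normal := by
      constructor
      intro x hx g
      have : Subsingleton (Sylow 3 G) := (Nat.card_eq_one_iff_unique.mp h1).1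
      have h5 : g • P = P := Subsingleton.elim _ _
      have h6 : g * x * g⁻¹ ∈ g • P := by
        rw [mem_sylow_smul_iff]
        have h7 : g⁻¹ * (g * x * g⁻¹) * g = x := by group
        rw [h7]; exact hx
      rwa [h5] at h6
    obtain ⟨z, hz1, hz2⟩ := central_inv_of_normal hG P hn
    exact hz z hz1 hz2
  · -- the action on Sylow 3-subgroups is faithful
    have hinj : Function.Injective (MulAction.toPermHom G (Sylow 3 G)) := by
      rw [injective_iff_map_eq_one]
      intro g hg
      by_contra hg1
      have hfix : ∀ Q : Sylow 3 G, g • Q = Q := by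
        intro Q
        have := congrArg (fun f : Equiv.Perm (Sylow 3 G) => f Q) hg
        simpa using this
      -- g lies in each Sylow 3-subgroup
      have hmem : ∀ Q : Sylow 3 G, g ∈ Q := by
        intro Q
        have h5 : g ∈ Subgroup.normalizer ((Q : Subgroup G) : Set G) := Sylow.smul_eq_iff_mem_normalizer.mp (hfix Q)
        have hQcard : Nat.card (Q : Subgroup G) = 3 := card_sylow3 hG Q
        have h6 : Nat.card (Sylow 3 G) = (Subgroup.normalizer ((Q : Subgroup G) : Set G)).index :=
          Sylow.card_eq_index_normalizer Q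
        rw [h4] at h6
        have h7 : Nat.card (Subgroup.normalizer ((Q : Subgroup G) : Set G)) = 3 := by
          have := Subgroup.card_mul_index (Subgroup.normalizer ((Q : Subgroup G) : Set G))
          rw [← h6, hG] at this
          omega
        have h8 : (Q : Subgroup G) = Subgroup.normalizer ((Q : Subgroup G) : Set G) := by
          apply Subgroup.eq_of_le_of_card_ge Subgroup.le_normalizer
          rw [h7, hQcard]
        rw [← h8] at h5
        exact h5
      -- two different Sylows coincide
      have hone : 1 < Nat.card (Sylow 3 G) := by omega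
      rw [Finite.one_lt_card_iff_nontrivial] at hone
      obtain ⟨Q₁, Q₂, hne⟩ := hone
      apply hne
      have hzp : ∀ Q : Sylow 3 G, Subgroup.zpowers g = (Q : Subgroup G) := by
        intro Q
        have hQcard : Nat.card (Q : Subgroup G) = 3 := card_sylow3 hG Q
        have hle : Subgroup.zpowers g ≤ (Q : Subgroup G) := by
          rw [Subgroup.zpowers_le]; exact hmem Q
        have h9 : Nat.card (Subgroup.zpowers g) ∣ 3 := by
          rw [← hQcard]; exact Subgroup.card_dvd_of_le hle
        have h10 : Nat.card (Subgroup.zpowers g) ≠ 1 := by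
          rw [Nat.card_zpowers]
          intro h
          exact hg1 (orderOf_eq_one_iff.mp h)
        have h11 : Nat.card (Subgroup.zpowers g) = 3 := by
          rcases (Nat.dvd_prime (by norm_num : Nat.Prime 3)).mp h9 with h | h
          · exact absurd h h10
          · exact h
        apply Subgroup.eq_of_le_of_card_ge hle
        rw [hQcard, h11]
      exact Sylow.ext ((hzp Q₁).symm.trans (hzp Q₂))
    -- identify the permutation group with S₄
    have e0 : Sylow 3 G ≃ Fin 4 := by
      have : Fintype (Sylow 3 G) := Fintype.ofFinite _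
      apply Fintype.equivFinOfCardEq
      rw [← Nat.card_eq_fintype_card]; exact h4
    let f : G →* Equiv.Perm (Fin 4) := (e0.permCongrHom).toMonoidHom.comp (MulAction.toPermHom G (Sylow 3 G))
    have hf : Function.Injective f := (e0.permCongrHom).injective.comp hinj
    have hrange : f.range = alternatingGroup (Fin 4) := by
      apply Equiv.Perm.eq_alternatingGroup_of_index_eq_two
      have h1 := Subgroup.card_mul_index f.range
      have h2 : Nat.card f.range = 12 := by
        rw [← hG]
        exact (Nat.card_congr (MonoidHom.ofInjective hf).toEquiv).symm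
      have h3 : Nat.card (Equiv.Perm (Fin 4)) = 24 := by
        rw [Nat.card_eq_fintype_card, Fintype.card_perm]; rfl
      rw [h2, h3] at h1
      omega
    exact ⟨(MonoidHom.ofInjective hf).trans (MulEquiv.subgroupCongr hrange)⟩

end Cfsg.Agent.S0228
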