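import Cfsg.Statements.S0338
import Cfsg.Agent.Lib.H1Zass2

set_option autoImplicit false
open Cfsg

namespace Cfsg.Agent.S0338

open MulAction Cfsg.Agent.Lib.H1Zass2

theorem card_fix_odd {G Ω : Type*} [Group G] [MulAction G Ω] [Fintype Ω] (hodd : Odd (Fintype.card Ω))
    {v : G} (hv : v * v = 1) : ∃ c : Ω, v • c = c := by
  classical
  by_contra hno
  push Not at hno
  let σ : Equiv.Perm Ω := MulAction.toPerm v
  have h2 : σ * σ = 1 := by
    ext x
    show v • (v • x) = x
    rw [← mul_smul, hv, one_smul]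
  have hsupp : σ.support = Finset.univ := by
    ext x
    simp only [Equiv.Perm.mem_support, Finset.mem_univ, iff_true]
    exact hno x
  have h3 : 2 ∣ σ.support.card := Equiv.Perm.two_dvd_card_support (by rw [pow_two]; exact h2)
  rw [hsupp, Finset.card_univ] at h3
  exact (Nat.not_even_iff_odd.mpr hodd) (even_iff_two_dvd.mpr h3)

theorem third_fix {G Ω : Type*} [Group G] [MulAction G Ω] [Fintype Ω] (hodd : Odd (Fintype.card Ω))
    {t : G} (ht : t * t = 1) {a b : Ω} (hab : a ≠ b) (hta : t • a = a) (htb : t • b = b) :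
    ∃ c : Ω, c ≠ a ∧ c ≠ b ∧ t • c = c := by
  classical
  by_contra hno
  push Not at hno
  let σ : Equiv.Perm Ω := MulAction.toPerm t
  have h2 : σ * σ = 1 := by
    ext x
    show t • (t • x) = x
    rw [← mul_smul, ht, one_smul]
  have hsupp : σ.support = Finset.univ \ {a, b} := by
    ext x
    simp only [Equiv.Perm.mem_support, Finset.mem_sdiff, Finset.mem_univ, true_and,
      Finset.mem_insert, Finset.mem_singleton, not_or]
    constructor
    · intro hx
      constructor
      · rintro rfl; exact hx hta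
      · rintro rfl; exact hx htb
    · rintro ⟨h1, h2⟩
      exact hno x h1 h2
  have h3 : 2 ∣ σ.support.card := Equiv.Perm.two_dvd_card_support (by rw [pow_two]; exact h2)
  rw [hsupp, Finset.card_sdiff_of_subset (Finset.subset_univ _), Finset.card_univ, Finset.card_pair hab] at h3
  have h4 : 2 ≤ Fintype.card Ω := by
    rw [← Finset.card_pair hab, ← Finset.card_univ]
    exact Finset.card_le_card (Finset.subset_univ _)
  obtain ⟨k, hk⟩ := hodd
  omega

/-- A Zassenhaus group of odd degree is a simple group. -/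
theorem result {G Ω : Type*} [Group G] [MulAction G Ω] [Fintype Ω]
    (hZ : Cfsg.IsZassenhausGroup G Ω) (hodd : Odd (Fintype.card Ω)) : IsSimpleGroup G := by

  classical
  have hZ' := hZ
  obtain ⟨hf, h2', h3, ⟨x₀, hx₀, a, b, hab, hx₀a, hx₀b⟩, hreg⟩ := hZ'
  haveI : Finite G := finite_of_faithful hf
  haveI : Nontrivial G := ⟨⟨x₀, 1, hx₀⟩⟩
  have h2 : ∀ {a b a' b' : Ω}, a ≠ b → a' ≠ b' → ∃ g : G, g • a = a' ∧ g • b = b' :=
    fun h h' => Cfsg.Agent.Lib.H1JordanN.exists_move2 h2' h h'
  refine ⟨fun N hNn => ?_⟩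
  by_cases hNb : N = ⊥
  · left; exact hNb
  right
  haveI := hNn
  obtain ⟨htr, -⟩ := normal_data hZ N hNb
  -- no involution in a two-point stabiliser
  have hnoinv : ∀ t : G, t * t = 1 → ∀ p q : Ω, p ≠ q → t • p = p → t • q = q → t = 1 := by
    intro t ht p q hpq htp htq
    obtain ⟨c, hcp, hcq, htc⟩ := third_fix hodd ht hpq htp htq
    exact h3 t p q c hpq (Ne.symm hcq) (Ne.symm hcp) htp htq htc
  let H : Subgroup G := stabilizer G a ⊓ stabilizer G b
  have hHodd : Odd (Nat.card H) := by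
    by_contra hne
    rw [Nat.not_odd_iff_even] at hne
    haveI : Fact (Nat.Prime 2) := ⟨Nat.prime_two⟩
    obtain ⟨t, ht⟩ := exists_prime_orderOf_dvd_card' (G := H) 2 (even_iff_two_dvd.mp hne)
    have ht2 : t * t = 1 := by
      rw [← pow_two, ← ht]; exact pow_orderOf_eq_one t
    have ht1 := hnoinv (t : G) (congrArg Subtype.val ht2) a b hab t.2.1 t.2.2
    have : t = 1 := Subtype.ext ht1
    rw [this, orderOf_one] at ht
    omega
  obtain ⟨x, hxa, hxb⟩ := h2 hab (Ne.symm hab)
  have hx2 : x * x ∈ H := ⟨by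
    show (x * x) • a = a
    rw [mul_smul, hxa, hxb], by
    show (x * x) • b = b
    rw [mul_smul, hxb, hxa]⟩
  obtain ⟨k, hk⟩ := hHodd
  let v : G := x ^ (2 * k + 1)
  have hve : v = (x * x) ^ k * x := by
    show x ^ (2 * k + 1) = _
    rw [pow_succ, pow_mul, pow_two]
  have hpowfix : ∀ m : ℕ, (x * x) ^ m ∈ H := fun m => H.pow_mem hx2 m
  have hva : v • a = b := by
    rw [hve, mul_smul, hxa]
    exact (hpowfix k).2
  have hvb : v • b = a := by
    rw [hve, mul_smul, hxb]
    exact (hpowfix k).1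
  have hv2 : v * v = 1 := by
    have h1 : v * v = (x * x) ^ (Nat.card H) := by
      show x ^ (2 * k + 1) * x ^ (2 * k + 1) = _
      rw [hk, ← pow_add, ← pow_two, ← pow_mul]
      congr 1
      ring
    rw [h1]
    have : ((⟨x * x, hx2⟩ : H) ^ Nat.card H : H) = 1 := pow_card_eq_one'
    have h := congrArg Subtype.val this
    simpa only [SubmonoidClass.coe_pow, OneMemClass.coe_one] using h
  have hv1 : v ≠ 1 := by
    intro e
    rw [e, one_smul] at hva
    exact hab hva
  obtain ⟨c, hc⟩ := card_fix_odd hodd hv2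
  have hca : c ≠ a := by
    rintro rfl
    rw [hva] at hc
    exact hab hc.symm
  have hcb : c ≠ b := by
    rintro rfl
    rw [hvb] at hc
    exact hab hc
  -- c is the only fixed point of v
  have honly : ∀ d : Ω, v • d = d → d = c := by
    intro d hd
    by_contra hne
    exact hv1 (hnoinv v hv2 d c hne hd hc)
  -- v lies in N
  obtain ⟨Uc, hUcm, hUcn, -⟩ := kernel_of_zass hZ hca
  have hUcN : Uc ≤ N := kernel_le_of_normal hZ N hNb hUcm hUcn
  have hvN : v ∈ N := by
    apply hUcN
    rw [hUcm]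
    refine ⟨hc, Or.inr ?_⟩
    intro d hd hfix
    exact hd (honly d hfix)
  -- H ≤ N
  have hvnorm : ∀ h ∈ H, v * h * v⁻¹ ∈ H := by
    intro h hh
    have hva' : v⁻¹ • a = b := by rw [inv_smul_eq_iff, hvb]
    have hvb' : v⁻¹ • b = a := by rw [inv_smul_eq_iff, hva]
    refine ⟨?_, ?_⟩
    · show (v * h * v⁻¹) • a = a
      rw [mul_smul, mul_smul, hva']
      have : h • b = b := hh.2
      rw [this, hvb]
    · show (v * h * v⁻¹) • b = b
      rw [mul_smul, mul_smul, hvb']
      have : h • a = a := hh.1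
      rw [this, hva]
  have hHN : H ≤ N := by
    let ψ : H → H := fun k => ⟨(k : G)⁻¹ * (v * (k : G) * v⁻¹), H.mul_mem (H.inv_mem k.2) (hvnorm _ k.2)⟩
    have hinj : Function.Injective ψ := by
      intro k₁ k₂ hkk
      have h1 : (k₁ : G)⁻¹ * (v * (k₁ : G) * v⁻¹) = (k₂ : G)⁻¹ * (v * (k₂ : G) * v⁻¹) :=
        congrArg Subtype.val hkk
      let z : G := (k₂ : G) * (k₁ : G)⁻¹
      have hz : z ∈ H := H.mul_mem k₂.2 (H.inv_mem k₁.2)
      have hcomm : z * v = v * z := by
        have h2 : (k₁ : G)⁻¹ * v * (k₁ : G) = (k₂ : G)⁻¹ * v * (k₂ : G) := by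
          have := congrArg (fun w => w * v) h1
          simp only [mul_assoc, inv_mul_cancel, mul_one] at this
          simpa only [mul_assoc] using this
        have h3' : (k₂ : G) * ((k₁ : G)⁻¹ * v * (k₁ : G)) * (k₁ : G)⁻¹ = z * v := by
          simp only [z]; group
        have h4' : (k₂ : G) * ((k₂ : G)⁻¹ * v * (k₂ : G)) * (k₁ : G)⁻¹ = v * z := by
          simp only [z]; group
        rw [← h3', ← h4', h2]
      have hzc : z • c = c := by
        apply honly
        rw [← mul_smul, ← hcomm, mul_smul, hc]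
      have hz1 : z = 1 := h3 z a b c hab (Ne.symm hcb) (Ne.symm hca) hz.1 hz.2 hzc
      have : (k₂ : G) = k₁ := by
        have h5 : z * (k₁ : G) = k₂ := by simp [z]
        rw [hz1, one_mul] at h5
        exact h5.symm
      exact (Subtype.ext this).symm
    have hsurj := Finite.injective_iff_surjective.mp hinj
    intro h hh
    obtain ⟨k, hk'⟩ := hsurj ⟨h, hh⟩
    have h1 : (k : G)⁻¹ * (v * (k : G) * v⁻¹) = h := congrArg Subtype.val hk'
    rw [← h1]
    have e : (k : G)⁻¹ * (v * (k : G) * v⁻¹) = ((k : G)⁻¹ * v * ((k : G)⁻¹)⁻¹) * v⁻¹ := by group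
    rw [e]
    exact N.mul_mem (hNn.conj_mem v hvN _) (N.inv_mem hvN)
  obtain ⟨Ua, hUam, hUan, hUat⟩ := kernel_of_zass hZ hab
  have hUaN : Ua ≤ N := kernel_le_of_normal hZ N hNb hUam hUan
  have hstab : ∀ g : G, g • a = a → g ∈ N := by
    intro g hg
    have hgb : g • b ≠ a := by
      intro e
      have : g • b = g • a := by rw [hg]; exact e
      exact hab (smul_left_cancel g this).symm
    obtain ⟨u, hu, hub⟩ := hUat b (g • b) (Ne.symm hab) hgb
    have huH : u⁻¹ * g ∈ H := by
      have hua : u • a = a := ((hUam u).mp hu).1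
      refine ⟨?_, ?_⟩
      · show (u⁻¹ * g) • a = a
        rw [mul_smul, hg, inv_smul_eq_iff, hua]
      · show (u⁻¹ * g) • b = b
        rw [mul_smul, inv_smul_eq_iff, hub]
    have := N.mul_mem (hUaN hu) (hHN huH)
    simpa using this
  rw [eq_top_iff]
  intro g _
  obtain ⟨n, hn, hne⟩ := htr a (g • a)
  have h5 : n⁻¹ * g ∈ N := by
    apply hstab
    rw [mul_smul, inv_smul_eq_iff, hne]
  have := N.mul_mem hn h5
  simpa using this

end Cfsg.Agent.S0338
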