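import Cfsg.Statements.S0339
import Cfsg.Agent.Lib.H1Zass2

set_option autoImplicit false
open Cfsg

namespace Cfsg.Agent.S0339

open MulAction Cfsg.Agent.Lib.H1Zass2
open scoped Pointwise

/-- A non-trivial normal subgroup of a Zassenhaus group is itself a Zassenhaus group on the same set. -/
theorem result {G Ω : Type*} [Group G] [MulAction G Ω] [Finite Ω]
    (hZ : Cfsg.IsZassenhausGroup G Ω) (N : Subgroup G) [N.Normal] (hN : N ≠ ⊥) :
    Cfsg.IsZassenhausGroup N Ω := by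

  classical
  have hZ' := hZ
  obtain ⟨hf, h2', h3, ⟨x₀, hx₀, a₀, b₀, hab₀, hx₀a, hx₀b⟩, hreg⟩ := hZ'
  haveI : Finite G := finite_of_faithful hf
  obtain ⟨htr, y, hy, hy1, p, q, hpq, hyp, hyq⟩ := normal_data hZ N hN
  have hUfor : ∀ a c : Ω, a ≠ c → ∃ U : Subgroup G, (∀ x, x ∈ U ↔ x • a = a ∧ (x = 1 ∨ ∀ c, c ≠ a → x • c ≠ c)) ∧
      (∀ c d : Ω, c ≠ a → d ≠ a → ∃ u ∈ U, u • c = d) ∧ U ≤ N := by
    intro a c hac
    obtain ⟨U, h1, h2, h4⟩ := kernel_of_zass hZ hac
    exact ⟨U, h1, h4, kernel_le_of_normal hZ N hN h1 h2⟩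
  have hpair : ∀ {a b a' b' : Ω}, a ≠ b → a' ≠ b' → ∃ g ∈ N, g • a = a' ∧ g • b = b' := by
    intro a b a' b' hab hab'
    obtain ⟨n, hn, hna⟩ := htr a a'
    have hc : n • b ≠ a' := by
      rw [← hna]
      exact fun e => hab (smul_left_cancel n e).symm
    obtain ⟨U, h1, h2, h4⟩ := hUfor a' b' hab'
    obtain ⟨u, hu, hub⟩ := h2 (n • b) b' hc (Ne.symm hab')
    refine ⟨u * n, N.mul_mem (h4 hu) hn, ?_, ?_⟩
    · rw [mul_smul, hna]; exact ((h1 u).mp hu).1
    · rw [mul_smul, hub]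
  refine ⟨⟨fun {m₁ m₂} h => Subtype.ext (hf.eq_of_smul_eq_smul h)⟩, ?_, ?_, ?_, ?_⟩
  · rw [MulAction.is_two_pretransitive_iff]
    intro a b c d hab hcd
    obtain ⟨g, hg, h1, h2⟩ := hpair hab hcd
    exact ⟨⟨g, hg⟩, h1, h2⟩
  · intro g a b c hab hbc hac h1 h2 h4
    exact Subtype.ext (h3 g a b c hab hbc hac h1 h2 h4)
  · refine ⟨⟨y, hy⟩, ?_, p, q, hpq, hyp, hyq⟩
    intro e
    exact hy1 (congrArg Subtype.val e)
  · intro M hMn hMt
    by_contra hall
    push Not at hall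
    let M' : Subgroup G := M.map N.subtype
    have hM'N : M' ≤ N := by
      rintro _ ⟨m, _, rfl⟩
      exact m.2
    have hM'tr : ∀ c d : Ω, ∃ m ∈ M', m • c = d := by
      intro c d
      obtain ⟨m, hm⟩ := hMt.exists_smul_eq c d
      exact ⟨((m : N) : G), ⟨m, m.2, rfl⟩, hm⟩
    have hM'r : ∀ m ∈ M', ∀ c : Ω, m • c = c → m = 1 := by
      rintro _ ⟨m, hm, rfl⟩ c hc
      have h1 : (⟨m, hm⟩ : M) ∈ stabilizer M c := hc
      rw [hall c, Subgroup.mem_bot] at h1
      have h2 : m = 1 := congrArg Subtype.val h1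
      rw [h2]; rfl
    have hM'n : ∀ n ∈ N, ∀ m ∈ M', n * m * n⁻¹ ∈ M' := by
      rintro n hn _ ⟨m, hm, rfl⟩
      exact ⟨⟨n, hn⟩ * m * ⟨n, hn⟩⁻¹, hMn.conj_mem m hm ⟨n, hn⟩, rfl⟩
    have huniq : ∀ m ∈ M', ∀ m₁ ∈ M', ∀ c : Ω, m • c = m₁ • c → m = m₁ := by
      intro m hm m₁ hm₁ c hc
      have h1 : m₁⁻¹ * m = 1 := by
        apply hM'r _ (M'.mul_mem (M'.inv_mem hm₁) hm) c
        rw [mul_smul, hc, inv_smul_smul]
      exact (eq_of_inv_mul_eq_one h1).symm
    -- the element sending p to q is an involution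
    obtain ⟨m₀, hm₀, hm₀p⟩ := hM'tr p q
    have hycomm : y * m₀ * y⁻¹ = m₀ := by
      apply huniq _ (hM'n y hy m₀ hm₀) _ hm₀ p
      rw [mul_smul, mul_smul, inv_smul_eq_iff.mpr hyp.symm, hm₀p, hyq]
    have hm₀q : m₀ • q = p := by
      by_contra hne
      have hne2 : m₀ • q ≠ q := by
        intro e
        have := hM'r m₀ hm₀ q e
        rw [this, one_smul] at hm₀p
        exact hpq hm₀p
      have hfix : y • (m₀ • q) = m₀ • q := by
        have : y * m₀ = m₀ * y := by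
          have h9 := hycomm
          rw [mul_inv_eq_iff_eq_mul] at h9
          exact h9
        rw [← mul_smul, this, mul_smul, hyq]
      exact hy1 (h3 y p q (m₀ • q) hpq (Ne.symm hne2) (Ne.symm hne) hyp hyq hfix)
    have hm₀2 : m₀ * m₀ = 1 := by
      apply hM'r _ (M'.mul_mem hm₀ hm₀) p
      rw [mul_smul, hm₀p, hm₀q]
    obtain ⟨U, hU1, hU2, hU4⟩ := hUfor p q hpq
    -- any two non-identity elements of M' are conjugate under N
    have hconj : ∀ m ∈ M', m ≠ 1 → ∀ m₁ ∈ M', m₁ ≠ 1 → ∃ n ∈ N, n * m * n⁻¹ = m₁ := by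
      intro m hm hm1 m₁ hm₁ hm₁1
      have h1 : m • p ≠ p := fun e => hm1 (hM'r m hm p e)
      have h4 : m₁ • p ≠ p := fun e => hm₁1 (hM'r m₁ hm₁ p e)
      obtain ⟨u, hu, hue⟩ := hU2 (m • p) (m₁ • p) h1 h4
      refine ⟨u, hU4 hu, ?_⟩
      apply huniq _ (hM'n u (hU4 hu) m hm) _ hm₁ p
      have hup : u⁻¹ • p = p := by
        rw [inv_smul_eq_iff]
        exact ((hU1 u).mp hu).1.symm
      rw [mul_smul, mul_smul, hup, hue]
    have hm₀1 : m₀ ≠ 1 := by
      intro e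
      rw [e, one_smul] at hm₀p
      exact hpq hm₀p
    have hinv : ∀ m ∈ M', m * m = 1 := by
      intro m hm
      by_cases hm1 : m = 1
      · rw [hm1, one_mul]
      obtain ⟨n, _, rfl⟩ := hconj m₀ hm₀ hm₀1 m hm hm1
      have : n * m₀ * n⁻¹ * (n * m₀ * n⁻¹) = n * (m₀ * m₀) * n⁻¹ := by group
      rw [this, hm₀2]
      group
    have hcommM : ∀ m ∈ M', ∀ m₁ ∈ M', m * m₁ = m₁ * m := by
      intro m hm m₁ hm₁
      have h1 := hinv _ (M'.mul_mem hm hm₁)
      have h2 := hinv m hm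
      have h4 := hinv m₁ hm₁
      have h5 : m⁻¹ = m := inv_eq_of_mul_eq_one_left h2
      have h6 : m₁⁻¹ = m₁ := inv_eq_of_mul_eq_one_left h4
      have h7 : (m * m₁)⁻¹ = m * m₁ := inv_eq_of_mul_eq_one_left h1
      rw [mul_inv_rev, h5, h6] at h7
      exact h7.symm
    -- M' is normal in G
    have hnormal : M'.Normal := by
      constructor
      intro x hx g
      let W : Subgroup G := MulAut.conj g • M'
      have hWN : W ≤ N := by
        intro w hw
        rw [Subgroup.mem_smul_pointwise_iff_exists] at hw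
        obtain ⟨s, hs, rfl⟩ := hw
        exact ‹N.Normal›.conj_mem s (hM'N hs) g
      have hWn : ∀ n ∈ N, ∀ w ∈ W, n * w * n⁻¹ ∈ W := by
        intro n hn w hw
        rw [Subgroup.mem_smul_pointwise_iff_exists] at hw ⊢
        obtain ⟨s, hs, rfl⟩ := hw
        refine ⟨(g⁻¹ * n * g) * s * (g⁻¹ * n * g)⁻¹, hM'n _ ?_ s hs, ?_⟩
        · have := ‹N.Normal›.conj_mem n hn g⁻¹
          simpa using this
        · simp only [MulAut.smul_def, MulAut.conj_apply]
          group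
      have hmem : g * x * g⁻¹ ∈ W := by
        rw [Subgroup.mem_smul_pointwise_iff_exists]
        exact ⟨x, hx, by simp only [MulAut.smul_def, MulAut.conj_apply]⟩
      have hcardW : Nat.card W = Nat.card M' :=
        Nat.card_congr (Subgroup.equivSMul (MulAut.conj g) M').toEquiv.symm
      by_cases hint : ∃ z ∈ W, z ∈ M' ∧ z ≠ 1
      · obtain ⟨z, hzW, hzM, hz1⟩ := hint
        have hle : M' ≤ W := by
          intro m hm
          by_cases hm1 : m = 1
          · rw [hm1]; exact W.one_mem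
          obtain ⟨n, hn, rfl⟩ := hconj z hzM hz1 m hm hm1
          exact hWn n hn z hzW
        have heq : M' = W := Subgroup.eq_of_le_of_card_ge hle hcardW.le
        rw [heq]
        exact hmem
      · exfalso
        push Not at hint
        have hcomm : ∀ w ∈ W, ∀ m ∈ M', w * m = m * w := by
          intro w hw m hm
          have h1 : w * m * w⁻¹ * m⁻¹ ∈ M' := M'.mul_mem (hM'n w (hWN hw) m hm) (M'.inv_mem hm)
          have h2 : w * m * w⁻¹ * m⁻¹ ∈ W := by
            have e : w * m * w⁻¹ * m⁻¹ = w * (m * w⁻¹ * m⁻¹) := by group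
            rw [e]
            exact W.mul_mem hw (hWn m (hM'N hm) _ (W.inv_mem hw))
          have h4 := hint _ h2 h1
          have h5 := mul_inv_eq_one.mp h4
          exact mul_inv_eq_iff_eq_mul.mp h5
        have hw₀ : g * m₀ * g⁻¹ ∈ W := by
          rw [Subgroup.mem_smul_pointwise_iff_exists]
          exact ⟨m₀, hm₀, by simp only [MulAut.smul_def, MulAut.conj_apply]⟩
        have hw₀1 : g * m₀ * g⁻¹ ≠ 1 := by
          intro e
          apply hm₀1
          have : m₀ = g⁻¹ * (g * m₀ * g⁻¹) * g := by group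
          rw [this, e]; group
        obtain ⟨m, hm, hmp⟩ := hM'tr p ((g * m₀ * g⁻¹) • p)
        -- t = m⁻¹ w acts trivially
        have htriv : m⁻¹ * (g * m₀ * g⁻¹) = 1 := by
          apply hf.eq_of_smul_eq_smul
          intro d
          rw [one_smul]
          obtain ⟨m', hm', hm'd⟩ := hM'tr p d
          rw [← hm'd, ← mul_smul]
          have h1 : m⁻¹ * (g * m₀ * g⁻¹) * m' = m' * (m⁻¹ * (g * m₀ * g⁻¹)) := by
            calc m⁻¹ * (g * m₀ * g⁻¹) * m' = m⁻¹ * ((g * m₀ * g⁻¹) * m') := by group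
              _ = m⁻¹ * (m' * (g * m₀ * g⁻¹)) := by rw [hcomm _ hw₀ m' hm']
              _ = (m⁻¹ * m') * (g * m₀ * g⁻¹) := by group
              _ = (m' * m⁻¹) * (g * m₀ * g⁻¹) := by
                rw [hcommM _ (M'.inv_mem hm) m' hm']
              _ = m' * (m⁻¹ * (g * m₀ * g⁻¹)) := by group
          rw [h1, mul_smul, mul_smul, ← hmp, inv_smul_smul]
        have hwm : g * m₀ * g⁻¹ = m := by
          have := eq_of_inv_mul_eq_one htriv
          exact this.symm
        exact hw₀1 (hint _ hw₀ (hwm ▸ hm) |>.trans rfl)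
    obtain ⟨r, hr⟩ := hreg M' hnormal ⟨fun c d => by
      obtain ⟨n, hn, he⟩ := hM'tr c d
      exact ⟨⟨n, hn⟩, he⟩⟩
    obtain ⟨z, hz1⟩ := Subgroup.ne_bot_iff_exists_ne_one.mp hr
    apply hz1
    exact Subtype.ext (Subtype.ext (hM'r _ (z : M').2 r z.2))

end Cfsg.Agent.S0339
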