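import Cfsg.Statements.S0436

set_option autoImplicit false
open Cfsg

namespace Cfsg.Agent.S0436

/-- For distinct commuting members a, b of a set of 3-transpositions E, a member e of E centralises the product a * b if and only if it centralises both a and b. -/
theorem result {G : Type*} [Group G] {E : Set G} (hE : Cfsg.IsThreeTranspositionSet E) {a b e : G} (ha : a ∈ E) (hb : b ∈ E) (he : e ∈ E) (hab : a ≠ b) (hcomm : Commute a b) : Commute e (a * b) ↔ (Commute e a ∧ Commute e b) := by
  have inv2 : ∀ x ∈ E, x * x = 1 := by
    intro x hx
    have := pow_orderOf_eq_one x
    rw [hE.1 x hx, pow_two] at this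
    exact this
  have ia := inv2 a ha
  have ib := inv2 b hb
  have ie := inv2 e he
  have ia' : ∀ x, a * (a * x) = x := fun x => by rw [← mul_assoc, ia, one_mul]
  have ib' : ∀ x, b * (b * x) = x := fun x => by rw [← mul_assoc, ib, one_mul]
  have ie' : ∀ x, e * (e * x) = x := fun x => by rw [← mul_assoc, ie, one_mul]
  have braid : ∀ x ∈ E, ¬ Commute e x → e * (x * e) = x * (e * x) := by
    intro x hx hne
    have ix := inv2 x hx
    have ix' : ∀ y, x * (x * y) = y := fun y => by rw [← mul_assoc, ix, one_mul]
    rcases hE.2 e he x hx with h2 | h3
    · exfalso
      apply hne
      rw [pow_two] at h2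
      have h4 : e * (x * (e * x)) = 1 := by simpa [mul_assoc] using h2
      show e * x = x * e
      have h5 : x * (e * x) = e := by
        have := congrArg (fun z => e * z) h4
        simpa [ie', mul_one] using this
      have h6 := congrArg (fun z => x * z) h5
      simpa [ix'] using h6
    · have h4 : e * (x * (e * (x * (e * x)))) = 1 := by
        simpa [pow_succ, mul_assoc] using h3
      have h5 : x * (e * (x * (e * x))) = e := by
        have := congrArg (fun z => e * z) h4
        simpa [ie', mul_one] using this
      have h6 : e * (x * (e * x)) = x * e := by
        have := congrArg (fun z => x * z) h5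
        simpa [ix'] using this
      have h7 : x * (e * x) = e * (x * e) := by
        have := congrArg (fun z => e * z) h6
        simpa [ie'] using this
      exact h7.symm
  constructor
  · intro h
    by_cases h1 : Commute e a
    · refine ⟨h1, ?_⟩
      have h2 : b = a⁻¹ * (a * b) := by simp
      rw [h2]
      exact (h1.inv_right).mul_right h
    · exfalso
      by_cases h2 : Commute e b
      · apply h1
        have h3 : a = (a * b) * b⁻¹ := by simp
        rw [h3]
        exact h.mul_right h2.inv_right
      · apply hab
        have b1 := braid a ha h1
        have b2 := braid b hb h2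
        -- a e a b e b = a b
        have c1 : e * (a * (b * e)) = a * b := by
          have : e * (a * b) = a * b * e := h
          calc e * (a * (b * e)) = (e * (a * b)) * e := by simp [mul_assoc]
            _ = a * b * e * e := by rw [this]
            _ = a * b := by rw [mul_assoc _ e e, ie, mul_one]
        have c2 : e * (a * (b * e)) = (e * (a * e)) * (e * (b * e)) := by
          simp [mul_assoc, ie']
        rw [b1, b2] at c2
        have c3 : a * (e * a) * (b * (e * b)) = a * b := by rw [← c2, c1]
        have c4 : e * (a * (b * (e * b))) = b := by
          have := congrArg (fun z => a * z) c3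
          simpa [mul_assoc, ia'] using this
        have c5 : e * (a * (b * e)) = 1 := by
          have := congrArg (fun z => z * b) c4
          simpa [mul_assoc, ib] using this
        rw [c1] at c5
        have c6 := congrArg (fun z => a * z) c5
        simpa [ia'] using c6.symm
  · rintro ⟨h1, h2⟩
    exact h1.mul_right h2

end Cfsg.Agent.S0436
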