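import Cfsg.Statements.S0437
import Cfsg.Agent.S0436

set_option autoImplicit false
open Cfsg

namespace Cfsg.Agent.S0437

/-- For three distinct, pairwise commuting members a, b, c of a set of 3-transpositions E, a member e of E centralises a * b * c if and only if it centralises each of a, b and c. -/
theorem result {G : Type*} [Group G] {E : Set G} (hE : Cfsg.IsThreeTranspositionSet E) {a b c e : G} (ha : a ∈ E) (hb : b ∈ E) (hc : c ∈ E) (he : e ∈ E) (hab : a ≠ b) (hac : a ≠ c) (hbc : b ≠ c) (h₁ : Commute a b) (h₂ : Commute a c) (h₃ : Commute b c) : Commute e (a * b * c) ↔ (Commute e a ∧ Commute e b ∧ Commute e c) := by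
  have inv2 : ∀ x ∈ E, x * x = 1 := by
    intro x hx
    have := pow_orderOf_eq_one x
    rw [hE.1 x hx, pow_two] at this
    exact this
  have two := @Cfsg.Agent.S0436.result G _ E hE
  constructor
  · intro h
    have ia := inv2 a ha
    have ib := inv2 b hb
    have ic := inv2 c hc
    have ie := inv2 e he
    have iai : a⁻¹ = a := inv_eq_of_mul_eq_one_left ia
    have ibi : b⁻¹ = b := inv_eq_of_mul_eq_one_left ib
    have ici : c⁻¹ = c := inv_eq_of_mul_eq_one_left ic
    have iei : e⁻¹ = e := inv_eq_of_mul_eq_one_left ie
    by_cases ca : Commute e a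
    · have hbc' : Commute e (b * c) := by
        have : b * c = a⁻¹ * (a * b * c) := by group
        rw [this]
        exact (ca.inv_right).mul_right h
      have := (two hb hc he hbc h₃).mp hbc'
      exact ⟨ca, this.1, this.2⟩
    by_cases cb : Commute e b
    · have hac' : Commute e (a * c) := by
        have : a * c = b⁻¹ * (a * b * c) := by
          rw [h₁.eq]; group
        rw [this]
        exact (cb.inv_right).mul_right h
      have := (two ha hc he hac h₂).mp hac'
      exact ⟨this.1, cb, this.2⟩
    by_cases cc : Commute e c
    · have hab' : Commute e (a * b) := by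
        have : a * b = (a * b * c) * c⁻¹ := by group
        rw [this]
        exact h.mul_right cc.inv_right
      have := (two ha hb he hab h₁).mp hab'
      exact ⟨this.1, this.2, cc⟩
    exfalso
    -- order three facts
    have ord3 : ∀ x ∈ E, ¬ Commute e x → (e * x) ^ 3 = 1 := by
      intro x hx hne
      rcases hE.2 e he x hx with h2 | h3
      · exfalso
        apply hne
        have ix := inv2 x hx
        have ixi : x⁻¹ = x := inv_eq_of_mul_eq_one_left ix
        rw [pow_two] at h2
        have : e * x = (e * x)⁻¹ := eq_inv_of_mul_eq_one_left h2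
        rw [mul_inv_rev, ixi, iei] at this
        exact this
      · exact h3
    have o3a := ord3 a ha ca
    have o3b := ord3 b hb cb
    have o3c := ord3 c hc cc
    -- braid relations
    have braid : ∀ x ∈ E, (e * x) ^ 3 = 1 → x * e * x = e * x * e := by
      intro x hx h3
      have ix := inv2 x hx
      have ixi : x⁻¹ = x := inv_eq_of_mul_eq_one_left ix
      have h4 : e * x * e * x * e * x = 1 := by
        have : (e * x) ^ 3 = e * x * e * x * e * x := by
          simp only [pow_succ, pow_zero, one_mul, mul_assoc]
        rwa [this] at h3
      have h5 : e * x * e = (x * e * x)⁻¹ := by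
        apply eq_inv_of_mul_eq_one_left
        calc e * x * e * (x * e * x) = e * x * e * x * e * x := by simp only [mul_assoc]
          _ = 1 := h4
      rw [h5, mul_inv_rev, mul_inv_rev, ixi, iei, mul_assoc]
    have ba := braid a ha o3a
    have bb := braid b hb o3b
    -- (a c) e (a c) = b e b
    have key : a * (c * e * c) * a = b * e * b := by
      have h6 : e * (a * b * c) = (a * b * c) * e := h
      have h7 : (a * c) * b * e * b * (a * c) = e := by
        have hh : a * b * c = (a * c) * b := by
          rw [mul_assoc, h₃.eq, ← mul_assoc]
        have hh2 : a * b * c = b * (a * c) := by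
          rw [h₁.eq, mul_assoc]
        calc (a * c) * b * e * b * (a * c)
            = ((a * c) * b) * e * (b * (a * c)) := by simp only [mul_assoc]
          _ = (a * b * c) * e * (a * b * c) := by rw [← hh, ← hh2]
          _ = e * (a * b * c) * (a * b * c) := by rw [h6]
          _ = e * ((a * b * c) * (a * b * c)) := by rw [mul_assoc]
          _ = e := by
            rw [show (a * b * c) * (a * b * c) = 1 from ?_, mul_one]
            calc (a * b * c) * (a * b * c) = ((a * c) * b) * (b * (a * c)) := by rw [← hh, ← hh2]
              _ = 1 := by
                rw [mul_assoc (a * c) b, ← mul_assoc b b, ib, one_mul, mul_assoc a c, ← mul_assoc c a,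
                  ← h₂.eq, mul_assoc a c c, ic, mul_one, ia]
      have h8 : a * (c * e * c) * a = (a * c) * e * (a * c) := by
        have : c * a = a * c := h₂.eq.symm
        calc a * (c * e * c) * a = (a * c) * e * (c * a) := by simp only [mul_assoc]
          _ = (a * c) * e * (a * c) := by rw [this]
      rw [h8]
      have h9 : (a * c) * (a * c) = 1 := by
        rw [mul_assoc a c, ← mul_assoc c a, ← h₂.eq, mul_assoc a c c, ic, mul_one, ia]
      -- from h7 : (ac) (beb) (ac) = e we conjugate by ac
      calc (a * c) * e * (a * c)
          = (a * c) * ((a * c) * b * e * b * (a * c)) * (a * c) := by rw [h7]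
        _ = ((a * c) * (a * c)) * (b * e * b) * ((a * c) * (a * c)) := by simp only [mul_assoc]
        _ = b * e * b := by rw [h9, one_mul, mul_one]
    -- (e C)^3 = 1
    have hC : (e * (c * e * c)) ^ 3 = 1 := by
      have : e * (c * e * c) = (e * c) ^ 2 := by
        simp only [pow_two, mul_assoc]
      rw [this, ← pow_mul, mul_comm, pow_mul, o3c, one_pow]
    -- conj by a
    have hAB : ((a * e * a) * (b * e * b)) ^ 3 = 1 := by
      have h1 : (a * e * a) * (b * e * b) = a * (e * (c * e * c)) * a⁻¹ := by
        rw [iai, ← key]
        calc (a * e * a) * (a * (c * e * c) * a) = a * e * (a * a) * (c * e * c) * a := by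
              simp only [mul_assoc]
          _ = a * (e * (c * e * c)) * a := by rw [ia, mul_one]; simp only [mul_assoc]
      rw [h1, conj_pow, hC]
      group
    have hAB2 : ((a * e * a) * (b * e * b)) ^ 2 = 1 := by
      rw [ba, bb]
      have : (e * a * e) * (e * b * e) = e * (a * b) * e := by
        calc (e * a * e) * (e * b * e) = e * a * (e * e) * b * e := by simp only [mul_assoc]
          _ = e * (a * b) * e := by rw [ie, mul_one]; simp only [mul_assoc]
      rw [this, pow_two]
      calc e * (a * b) * e * (e * (a * b) * e) = e * (a * b) * (e * e) * (a * b) * e := by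
            simp only [mul_assoc]
        _ = e * ((a * b) * (a * b)) * e := by rw [ie, mul_one]; simp only [mul_assoc]
        _ = 1 := by
          rw [mul_assoc a b, ← mul_assoc b a, ← h₁.eq, mul_assoc a b b, ib, mul_one, ia, mul_one, ie]
    have hone : (a * e * a) * (b * e * b) = 1 := by
      have : ((a * e * a) * (b * e * b)) ^ 3 = ((a * e * a) * (b * e * b)) * ((a * e * a) * (b * e * b)) ^ 2 := by
        rw [pow_succ' _ 2]
      rw [hAB2, mul_one] at this
      rw [← this, hAB]
    apply hab
    rw [ba, bb] at hone
    have h10 : e * (a * b) * e = 1 := by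
      calc e * (a * b) * e = e * a * (e * e) * b * e := by rw [ie, mul_one]; simp only [mul_assoc]
        _ = (e * a * e) * (e * b * e) := by simp only [mul_assoc]
        _ = 1 := hone
    have h11 : a * b = 1 := by
      have h12 : e * (e * (a * b) * e) * e = e * 1 * e := by rw [h10]
      have h13 : e * (e * (a * b) * e) * e = (e * e) * (a * b) * (e * e) := by simp only [mul_assoc]
      rw [h13, ie, one_mul, mul_one, mul_one, ie] at h12
      exact h12
    calc a = a * (b * b) := by rw [ib, mul_one]
      _ = (a * b) * b := (mul_assoc _ _ _).symm
      _ = b := by rw [h11, one_mul]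
  · rintro ⟨h1, h2, h3⟩
    exact (h1.mul_right h2).mul_right h3

end Cfsg.Agent.S0437
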