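import Cfsg.Statements.S0438

set_option autoImplicit false
open Cfsg

namespace Cfsg.Agent.S0438

/-- Let E be a set of 3-transpositions closed under conjugation, and x an involutory automorphism of the group mapping E to itself. If some a in E fails to commute with its image x a, then x fixes an element of E. -/
theorem result {G : Type*} [Group G] {E : Set G} (hE : Cfsg.IsThreeTranspositionSet E) (hconj : ∀ g : G, ∀ d ∈ E, g * d * g⁻¹ ∈ E) (x : G ≃* G) (hx : ∀ g : G, x (x g) = g) (hxE : ∀ d ∈ E, x d ∈ E) {a : G} (ha : a ∈ E) (h : ¬ Commute a (x a)) : ∃ d ∈ E, x d = d := by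
  have inv2 : ∀ y ∈ E, y * y = 1 := by
    intro y hy
    have := pow_orderOf_eq_one y
    rw [hE.1 y hy, pow_two] at this
    exact this
  have hb := hxE a ha
  set b := x a with hbdef
  have ia := inv2 a ha
  have ib := inv2 b hb
  have ia' : ∀ y, a * (a * y) = y := fun y => by rw [← mul_assoc, ia, one_mul]
  have ib' : ∀ y, b * (b * y) = y := fun y => by rw [← mul_assoc, ib, one_mul]
  have hxb : x b = a := hx a
  have hainv : a⁻¹ = a := inv_eq_of_mul_eq_one_left ia
  refine ⟨a * b * a, ?_, ?_⟩
  · have := hconj a b hb
    rwa [hainv] at this
  · rw [map_mul, map_mul, hxb, ← hbdef]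
    rcases hE.2 a ha b hb with h2 | h3
    · exfalso
      apply h
      rw [pow_two] at h2
      have h4 : a * (b * (a * b)) = 1 := by simpa [mul_assoc] using h2
      show a * b = b * a
      have h5 : b * (a * b) = a := by
        have := congrArg (fun z => a * z) h4
        simpa [ia', mul_one] using this
      have h6 := congrArg (fun z => b * z) h5
      simpa [ib'] using h6
    · have h4 : a * (b * (a * (b * (a * b)))) = 1 := by
        simpa [pow_succ, mul_assoc] using h3
      have h5 : b * (a * (b * (a * b))) = a := by
        have := congrArg (fun z => a * z) h4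
        simpa [ia', mul_one] using this
      have h6 : a * (b * (a * b)) = b * a := by
        have := congrArg (fun z => b * z) h5
        simpa [ib'] using this
      have h7 : b * (a * b) = a * (b * a) := by
        have := congrArg (fun z => a * z) h6
        simpa [ia'] using this
      simpa [mul_assoc] using h7

end Cfsg.Agent.S0438
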