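import Cfsg.Statements.S0494
import Cfsg.Agent.Lib.H1Rigid

set_option autoImplicit false
open Cfsg

namespace Cfsg.Agent.S0494


set_option maxRecDepth 100000 in
theorem chk5 : Cfsg.Agent.Lib.H1Rigid.Chk 5 4 2 2 0 := by decide +kernel

set_option maxRecDepth 100000 in
theorem cov5 : ∀ x : ZMod 5, x ≠ 0 → (∃ i < 2, (4 : ZMod 5) ^ i * 1 = x) ∨ (∃ i < 2, (4 : ZMod 5) ^ i * 2 = x) := by decide +kernel

theorem four5 : (4 : ZMod 5) ≠ 0 := by decide
theorem two5 : (2 : ZMod 5) ≠ 0 := by decide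
theorem pow5 : (4 : ZMod 5) ^ 2 = 1 := by decide

theorem iso5 {H : Type*} [Group H] [Finite H] [IsSimpleGroup H] (h : Nat.card H = 60) {F : Type*} [Field F] [Fintype F] (hF : Fintype.card F = 5) :
    Nonempty (H ≃* Matrix.ProjectiveSpecialLinearGroup (Fin 2) F) := by
  haveI : Fact (Nat.Prime 5) := ⟨by norm_num⟩
  let r : (ZMod 5)ˣ := Units.mk0 4 four5
  let n : (ZMod 5)ˣ := Units.mk0 2 two5
  exact Cfsg.Agent.Lib.H1Rigid.iso_PSL2 (q := 5) hF 12 (by rw [h]) (by norm_num) (by norm_num) (by norm_num) (by decide) (by norm_num)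
    (by decide +kernel) r n (by apply Units.ext; exact pow5) cov5 chk5


/-- A simple group of order 60 is isomorphic to the alternating group of degree 5. -/
theorem result {G : Type*} [Group G] [Finite G] [IsSimpleGroup G]
    (h : Nat.card G = 60) : Nonempty (G ≃* alternatingGroup (Fin 5)) := by
  haveI : Fact (Nat.Prime 5) := ⟨by norm_num⟩
  haveI : IsSimpleGroup (alternatingGroup (Fin 5)) := alternatingGroup.isSimpleGroup (by simp)
  have h5 : Nat.card (alternatingGroup (Fin 5)) = 60 := by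
    rw [Nat.card_eq_fintype_card]
    decide
  obtain ⟨e₁⟩ := iso5 h (F := ZMod 5) (ZMod.card 5)
  obtain ⟨e₂⟩ := iso5 h5 (F := ZMod 5) (ZMod.card 5)
  exact ⟨e₁.trans e₂.symm⟩

end Cfsg.Agent.S0494
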