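import Cfsg.Statements.S0713
import Cfsg.Agent.Lib.H1Wagner

set_option autoImplicit false
open Cfsg

namespace Cfsg.Agent.S0713

lemma sq_not_dvd_factorial {p : ℕ} (hp : p.Prime) : ¬ p * p ∣ p.factorial := by
  obtain ⟨q, rfl⟩ : ∃ q, p = q + 1 := ⟨p - 1, by have := hp.pos; omega⟩
  rw [Nat.factorial_succ]
  intro h
  have h1 : (q + 1) ∣ q.factorial := Nat.dvd_of_mul_dvd_mul_left (Nat.succ_pos q) h
  have := (hp.dvd_factorial).mp h1
  omega

variable {α : Type*} [Fintype α] [DecidableEq α]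

/-- The subgroup of elements of `G` fixing everything outside the support of `g`. -/
def fixOut (G : Subgroup (Equiv.Perm α)) (g : Equiv.Perm α) : Subgroup (Equiv.Perm α) where
  carrier := {h | h ∈ G ∧ ∀ x, x ∉ g.support → h x = x}
  mul_mem' := by
    rintro a b ⟨ha, ha'⟩ ⟨hb, hb'⟩
    refine ⟨G.mul_mem ha hb, fun x hx => ?_⟩
    rw [Equiv.Perm.mul_apply, hb' x hx, ha' x hx]
  one_mem' := ⟨G.one_mem, fun _ _ => rfl⟩
  inv_mem' := by
    rintro a ⟨ha, ha'⟩
    refine ⟨G.inv_mem ha, fun x hx => ?_⟩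
    rw [Equiv.Perm.inv_eq_iff_eq]
    exact (ha' x hx).symm

lemma card_fixOut_dvd (G : Subgroup (Equiv.Perm α)) (g : Equiv.Perm α) :
    Nat.card (fixOut G g) ∣ (g.support.card).factorial := by
  let f : Equiv.Perm {x // x ∈ g.support} →* Equiv.Perm α := Equiv.Perm.ofSubtype
  have hf : Function.Injective f := Equiv.Perm.ofSubtype_injective
  have hle : fixOut G g ≤ f.range := by
    rintro h ⟨-, hh⟩
    have h1 : ∀ x, x ∈ g.support ↔ h x ∈ g.support := by
      intro x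
      constructor
      · intro hx
        by_contra hcon
        have := hh _ hcon
        exact hcon (by rwa [h.injective this])
      · intro hx
        by_contra hcon
        rw [hh x hcon] at hx
        exact hcon hx
    refine ⟨h.subtypePerm (fun x => (h1 x).symm), ?_⟩
    apply Equiv.Perm.ofSubtype_subtypePerm
    intro x hx
    by_contra hcon
    exact hx (hh x hcon)
  have h2 := Subgroup.card_dvd_of_le hle
  have h3 : Nat.card f.range = (g.support.card).factorial := by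
    rw [Nat.card_congr (MonoidHom.ofInjective hf).toEquiv.symm, Nat.card_perm,
      Nat.card_eq_fintype_card, Fintype.card_coe]
  rwa [h3] at h2

lemma exists_norm (G : Subgroup (Equiv.Perm α)) {g : Equiv.Perm α} (hgc : g.IsCycle)
    {p : ℕ} (hp : p.Prime) (hgp : g.support.card = p) (hg : g ∈ G)
    (τ h : Equiv.Perm α) (hh : h ∈ G) (hτ1 : ∀ x, x ∉ g.support → τ x ∉ g.support)
    (hτ2 : ∀ x, x ∉ g.support → τ⁻¹ x ∉ g.support)
    (hhτ : ∀ x, x ∉ g.support → h x = τ x) :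
    ∃ n ∈ G, (∀ x, x ∉ g.support → n x = τ x) ∧ ∃ j : ℤ, n * g * n⁻¹ = g ^ j := by
  haveI : Fact p.Prime := ⟨hp⟩
  have hord : orderOf g = p := by rw [hgc.orderOf, hgp]
  have hhinv : ∀ y, y ∉ g.support → h⁻¹ y = τ⁻¹ y := by
    intro y hy
    rw [Equiv.Perm.inv_eq_iff_eq, hhτ _ (hτ2 y hy)]
    simp
  have hfixz : ∀ (s : Equiv.Perm α), s ∈ Subgroup.zpowers g → ∀ x, x ∉ g.support → s x = x := by
    rintro s ⟨j, rfl⟩ x hx
    have : g x = x := by simpa using hx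
    exact Equiv.Perm.zpow_apply_eq_self_of_apply_eq_self this j
  have hSK : Subgroup.zpowers g ≤ fixOut G g := by
    intro s hs
    refine ⟨?_, hfixz s hs⟩
    exact (Subgroup.zpowers_le.mpr hg) hs
  have hSp : IsPGroup p (Subgroup.zpowers g) :=
    IsPGroup.of_card (n := 1) (by rw [Nat.card_zpowers, hord, pow_one])
  have hi : ¬ p ∣ (Subgroup.zpowers g).relIndex (fixOut G g) := by
    intro hd
    have h1 := Cfsg.Agent.Lib.H1Wagner.relIndex_card (Subgroup.zpowers g) (fixOut G g) hSK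
    rw [Nat.card_zpowers, hord] at h1
    have h2 := card_fixOut_dvd G g
    rw [hgp, ← h1] at h2
    exact sq_not_dvd_factorial hp ((Nat.mul_dvd_mul_right hd p).trans h2)
  obtain ⟨u, hu, hu2⟩ := Cfsg.Agent.Lib.H1Wagner.conj_sylow (fixOut G g) (Subgroup.zpowers g) h hSK (by
    intro s hs
    refine ⟨G.mul_mem (G.mul_mem hh ((Subgroup.zpowers_le.mpr hg) hs)) (G.inv_mem hh), ?_⟩
    intro y hy
    rw [Equiv.Perm.mul_apply, Equiv.Perm.mul_apply, hhinv y hy, hfixz s hs _ (hτ2 y hy),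
      hhτ _ (hτ2 y hy)]
    simp) hSp hi
  refine ⟨u * h, G.mul_mem hu.1 hh, ?_, ?_⟩
  · intro x hx
    rw [Equiv.Perm.mul_apply, hhτ x hx, hu.2 _ (hτ1 x hx)]
  · have := (hu2 g).mp (Subgroup.mem_zpowers g)
    obtain ⟨j, hj⟩ := this
    exact ⟨j, hj.symm⟩

lemma swap_pres (s : Finset α) {u v x : α} (hu : u ∉ s) (hv : v ∉ s) (hx : x ∉ s) :
    Equiv.swap u v x ∉ s := by
  rw [Equiv.swap_apply_def]
  split_ifs <;> assumption

theorem core (G : Subgroup (Equiv.Perm α)) {g : Equiv.Perm α} (hgc : g.IsCycle)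
    {p : ℕ} (hp : p.Prime) (hgp : g.support.card = p) (hg : g ∈ G)
    (hext : ∀ τ : Equiv.Perm α, ∃ h ∈ G, ∀ x, x ∉ g.support → h x = τ x)
    {u v w : α} (hu : u ∉ g.support) (hv : v ∉ g.support) (hw : w ∉ g.support)
    (huv : v ≠ u) (hvw : v ≠ w) (huw : u ≠ w) :
    ∃ σ ∈ G, Equiv.Perm.IsThreeCycle σ := by
  have hsw : ∀ {a b : α}, a ∉ g.support → b ∉ g.support →
      ∃ n ∈ G, (∀ x, x ∉ g.support → n x = Equiv.swap a b x) ∧
        (∀ x, x ∉ g.support → n⁻¹ x = Equiv.swap a b x) ∧ ∃ j : ℤ, n * g * n⁻¹ = g ^ j := by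
    intro a b ha hb
    obtain ⟨h, hh, hhτ⟩ := hext (Equiv.swap a b)
    obtain ⟨n, hn, hn1, hn2⟩ := exists_norm G hgc hp hgp hg (Equiv.swap a b) h hh
      (fun x hx => swap_pres _ ha hb hx)
      (fun x hx => by rw [Equiv.swap_inv]; exact swap_pres _ ha hb hx) hhτ
    refine ⟨n, hn, hn1, ?_, hn2⟩
    intro x hx
    rw [Equiv.Perm.inv_eq_iff_eq, hn1 _ (swap_pres _ ha hb hx), Equiv.swap_apply_self]
  obtain ⟨n₁, hn₁, h11, h12, j₁, hj₁⟩ := hsw hv hu
  obtain ⟨n₂, hn₂, h21, h22, j₂, hj₂⟩ := hsw hv hw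
  set τ₁ := Equiv.swap v u with hτ₁
  set τ₂ := Equiv.swap v w with hτ₂
  have hτ1p : ∀ x, x ∉ g.support → τ₁ x ∉ g.support := fun x hx => swap_pres _ hv hu hx
  have hτ2p : ∀ x, x ∉ g.support → τ₂ x ∉ g.support := fun x hx => swap_pres _ hv hw hx
  -- the commutator
  set c := n₁⁻¹ * n₂⁻¹ * n₁ * n₂ with hc
  have hcG : c ∈ G :=
    G.mul_mem (G.mul_mem (G.mul_mem (G.inv_mem hn₁) (G.inv_mem hn₂)) hn₁) hn₂
  have hcomm : c * g = g * c := by
    have e1 : (n₁ * n₂) * g * (n₁ * n₂)⁻¹ = g ^ (j₁ * j₂) := by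
      calc (n₁ * n₂) * g * (n₁ * n₂)⁻¹ = n₁ * (n₂ * g * n₂⁻¹) * n₁⁻¹ := by group
        _ = n₁ * g ^ j₂ * n₁⁻¹ := by rw [hj₂]
        _ = (n₁ * g * n₁⁻¹) ^ j₂ := (conj_zpow).symm
        _ = g ^ (j₁ * j₂) := by rw [hj₁, zpow_mul]
    have e2 : (n₂ * n₁) * g * (n₂ * n₁)⁻¹ = g ^ (j₁ * j₂) := by
      calc (n₂ * n₁) * g * (n₂ * n₁)⁻¹ = n₂ * (n₁ * g * n₁⁻¹) * n₂⁻¹ := by group
        _ = n₂ * g ^ j₁ * n₂⁻¹ := by rw [hj₁]
        _ = (n₂ * g * n₂⁻¹) ^ j₁ := (conj_zpow).symm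
        _ = g ^ (j₁ * j₂) := by rw [hj₂, ← zpow_mul, mul_comm]
    have e3 : c = (n₂ * n₁)⁻¹ * (n₁ * n₂) := by rw [hc]; group
    have e4 : (n₁ * n₂) * g = g ^ (j₁ * j₂) * (n₁ * n₂) := by
      rw [← e1]; group
    have e5 : (n₂ * n₁) * g = g ^ (j₁ * j₂) * (n₂ * n₁) := by
      rw [← e2]; group
    have e6 : (n₂ * n₁)⁻¹ * g ^ (j₁ * j₂) = g * (n₂ * n₁)⁻¹ := by
      rw [inv_mul_eq_iff_eq_mul, ← mul_assoc, e5, mul_inv_cancel_right]
    calc c * g = (n₂ * n₁)⁻¹ * ((n₁ * n₂) * g) := by rw [e3, mul_assoc]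
      _ = (n₂ * n₁)⁻¹ * (g ^ (j₁ * j₂) * (n₁ * n₂)) := by rw [e4]
      _ = ((n₂ * n₁)⁻¹ * g ^ (j₁ * j₂)) * (n₁ * n₂) := by rw [mul_assoc]
      _ = (g * (n₂ * n₁)⁻¹) * (n₁ * n₂) := by rw [e6]
      _ = g * c := by rw [e3, mul_assoc]
  have hcσ : ∀ x, x ∉ g.support → c x = (τ₁ * τ₂ * τ₁ * τ₂) x := by
    intro x hx
    have a1 := hτ2p x hx
    have a2 := hτ1p _ a1
    have a3 := hτ2p _ a2
    simp only [hc, Equiv.Perm.mul_apply]
    rw [h21 x hx, h11 _ a1, h22 _ a2, h12 _ a3]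
  have hcpres : ∀ y, g y ≠ y → g (c y) ≠ c y := by
    intro y hy h
    have h1 : (c * g) y = (g * c) y := by rw [hcomm]
    have h2 : c (g y) = g (c y) := h1
    rw [h] at h2
    exact hy (c.injective h2)
  obtain ⟨γ₀, hγ₀, hcyc⟩ := hgc
  obtain ⟨i, hi⟩ := hcyc (hcpres γ₀ hγ₀)
  have hcz : Commute c g := hcomm
  have hcy : ∀ y, g y ≠ y → c y = (g ^ i) y := by
    intro y hy
    obtain ⟨l, hl⟩ := hcyc hy
    rw [← hl]
    have e1 : c * g ^ l = g ^ l * c := (Commute.zpow_right hcz l).eq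
    calc c ((g ^ l) γ₀) = (c * g ^ l) γ₀ := rfl
      _ = (g ^ l * c) γ₀ := by rw [e1]
      _ = (g ^ l) (c γ₀) := rfl
      _ = (g ^ l) ((g ^ i) γ₀) := by rw [hi]
      _ = (g ^ l * g ^ i) γ₀ := rfl
      _ = (g ^ i * g ^ l) γ₀ := by rw [zpow_mul_comm]
      _ = (g ^ i) ((g ^ l) γ₀) := rfl
  have hfix : ∀ (j : ℤ) x, x ∉ g.support → (g ^ j) x = x := by
    intro j x hx
    have : g x = x := by simpa using hx
    exact Equiv.Perm.zpow_apply_eq_self_of_apply_eq_self this j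
  have hτ1f : ∀ x, x ∈ g.support → τ₁ x = x := by
    intro x hx
    apply Equiv.swap_apply_of_ne_of_ne
    · rintro rfl; exact hv hx
    · rintro rfl; exact hu hx
  have hτ2f : ∀ x, x ∈ g.support → τ₂ x = x := by
    intro x hx
    apply Equiv.swap_apply_of_ne_of_ne
    · rintro rfl; exact hv hx
    · rintro rfl; exact hw hx
  have hb : g ^ (-i) * c = τ₁ * τ₂ * τ₁ * τ₂ := by
    ext x
    by_cases hx : x ∈ g.support
    · have hx' : g x ≠ x := by simpa using hx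
      rw [Equiv.Perm.mul_apply, hcy x hx']
      rw [← Equiv.Perm.mul_apply, ← zpow_add, neg_add_cancel, zpow_zero]
      simp only [Equiv.Perm.mul_apply, Equiv.Perm.one_apply]
      rw [hτ2f x hx, hτ1f x hx, hτ2f x hx, hτ1f x hx]
    · rw [Equiv.Perm.mul_apply, hcσ x hx, hfix]
      simp only [Equiv.Perm.mul_apply]
      exact hτ1p _ (hτ2p _ (hτ1p _ (hτ2p _ hx)))
  refine ⟨τ₁ * τ₂ * τ₁ * τ₂, ?_, ?_⟩
  · rw [← hb]
    exact G.mul_mem (G.zpow_mem hg _) hcG
  · have h3 : Equiv.Perm.IsThreeCycle (τ₁ * τ₂) :=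
      Equiv.Perm.isThreeCycle_swap_mul_swap_same huv hvw huw
    have := h3.isThreeCycle_sq
    rwa [← mul_assoc] at this

/-- Jordan's Theorem: a primitive permutation group of degree `n ≥ 5` containing a `p`-cycle for a prime `p ≤ n - 3` contains the alternating group. -/
theorem result {α : Type*} [Fintype α] [DecidableEq α] (G : Subgroup (Equiv.Perm α)) (hG : MulAction.IsPreprimitive G α) {p : ℕ} (hp : p.Prime) (hn : 5 ≤ Fintype.card α) (hpn : p + 3 ≤ Fintype.card α) {g : Equiv.Perm α} (hgc : g.IsCycle) (hgp : g.support.card = p) (hg : g ∈ G) : alternatingGroup α ≤ G := by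

  classical
  obtain ⟨m, hm⟩ : ∃ m, Fintype.card α = p + (m + 1) := ⟨Fintype.card α - p - 1, by omega⟩
  have hm2 : 2 ≤ m := by omega
  have hp2 := hp.two_le
  have hsc : Set.ncard ((g.support : Set α)ᶜ) = m + 1 := by
    apply Nat.add_left_cancel (n := p)
    rw [← hm, ← Nat.card_eq_fintype_card, ← Set.ncard_add_ncard_compl (g.support : Set α),
      Set.ncard_coe_finset, hgp]
  have hsn' : m + 2 < Nat.card α := by rw [Nat.card_eq_fintype_card]; omega
  have hprim : MulAction.IsPreprimitive (fixingSubgroup G (g.support : Set α)ᶜ)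
      (SubMulAction.ofFixingSubgroup G (g.support : Set α)ᶜ) := by
    have := Equiv.Perm.isPretransitive_of_isCycle_mem hgc hg
    apply MulAction.IsPreprimitive.of_prime_card
    have h4 : ∀ x, x ∈ SubMulAction.ofFixingSubgroup G (g.support : Set α)ᶜ ↔ x ∈ g.support := by
      intro x
      rw [SubMulAction.mem_ofFixingSubgroup_iff]
      simp
    have h5 : Nat.card (SubMulAction.ofFixingSubgroup G (g.support : Set α)ᶜ) = p := by
      rw [← hgp, Nat.card_congr (Equiv.subtypeEquivRight h4), Nat.card_eq_fintype_card,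
        Fintype.card_coe]
    rw [h5]
    exact hp
  have hmulti := hG.isMultiplyPreprimitive hsc hsn' hprim
  have ht : MulAction.IsMultiplyPretransitive G α (m + 2) := hmulti.isMultiplyPretransitive
  have ht2 : MulAction.IsMultiplyPretransitive G α (m + 1) :=
    Cfsg.Agent.Lib.H1JordanN.multi_of_le ht (by omega) hsn'.le
  have hcard : Fintype.card {x // x ∉ g.support} = m + 1 := by
    rw [Fintype.card_subtype_compl, Fintype.card_coe, hm, hgp]; omega
  have hext : ∀ τ : Equiv.Perm α, ∃ h ∈ G, ∀ x, x ∉ g.support → h x = τ x := by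
    intro τ
    let e : {x // x ∉ g.support} ≃ Fin (m + 1) := Fintype.equivFinOfCardEq hcard
    let x : Fin (m + 1) ↪ α := e.symm.toEmbedding.trans (Function.Embedding.subtype _)
    let y : Fin (m + 1) ↪ α := x.trans τ.toEmbedding
    obtain ⟨h, hh⟩ := ht2.exists_smul_eq x y
    refine ⟨h, h.2, fun z hz => ?_⟩
    have := DFunLike.congr_fun hh (e ⟨z, hz⟩)
    have h6 : h • z = τ z := by simpa [x, y] using this
    exact h6
  have h3 : 2 < (g.supportᶜ).card := by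
    rw [Finset.card_compl, hgp]; omega
  obtain ⟨u, v, w, hu, hv, hw, huv, huw, hvw⟩ := Finset.two_lt_card_iff.mp h3
  rw [Finset.mem_compl] at hu hv hw
  obtain ⟨σ, hσ, h3c⟩ := core G hgc hp hgp hg hext hu hv hw huv.symm hvw huw
  exact Equiv.Perm.alternatingGroup_le_of_isPreprimitive_of_isThreeCycle_mem hG h3c hσ

end Cfsg.Agent.S0713
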