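import Cfsg.Statements.S0678
import Cfsg.Agent.S0713
import Cfsg.Agent.S0675
import Cfsg.Agent.S0144
import Cfsg.Agent.Lib.SubCount
import Cfsg.Agent.Lib.PermOrb
import Cfsg.Agent.Lib.H1Wagner
import Mathlib

set_option autoImplicit false
open Cfsg

namespace Cfsg.Agent.S0678

lemma free_dvd {H X : Type*} [Group H] [Finite H] [Finite X] [MulAction H X]
    (hfree : ∀ (h : H) (x : X), h • x = x → h = 1) : Nat.card H ∣ Nat.card X := by
  have h1 := Cfsg.Agent.Lib.SubCount.dvd_card_of_invariant (G := H) (X := X) (fun _ => True)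
    (fun _ _ _ => trivial) (Nat.card H) (by
      intro x _
      have h2 := Cfsg.Agent.Lib.PermOrb.card_orbit_mul_stab (G := H) x
      have h3 : MulAction.stabilizer H x = ⊥ := by
        ext h
        rw [MulAction.mem_stabilizer_iff, Subgroup.mem_bot]
        exact ⟨hfree h x, by rintro rfl; simp⟩
      rw [h3, Subgroup.card_bot, mul_one] at h2
      rw [h2])
  rwa [Nat.card_congr (Equiv.subtypeUnivEquiv (fun _ => trivial))] at h1

lemma trans_dvd {H X : Type*} [Group H] [Finite H] [Finite X] [MulAction H X] (x : X)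
    (h : ∀ y : X, ∃ g : H, g • x = y) : Nat.card X ∣ Nat.card H := by
  have h1 := Cfsg.Agent.Lib.PermOrb.card_orbit_mul_stab (G := H) x
  have horb : MulAction.orbit H x = Set.univ := by
    ext y
    simp only [Set.mem_univ, iff_true]
    obtain ⟨g, hg⟩ := h y
    exact ⟨g, hg⟩
  rw [horb, Nat.card_coe_set_eq, Set.ncard_univ] at h1
  exact ⟨_, h1.symm⟩

variable {α : Type*} [Fintype α] [DecidableEq α]

lemma prime7 : Prime (7 : ℤ) := by
  have h : Nat.Prime 7 := by norm_num
  exact_mod_cast Nat.prime_iff_prime_int.mp h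

lemma zpow7 {c : Equiv.Perm α} (hord : orderOf c = 7) : c ^ (7 : ℤ) = 1 := by
  have : c ^ (7 : ℕ) = 1 := by rw [← hord]; exact pow_orderOf_eq_one c
  exact_mod_cast this

lemma fix_dvd {c : Equiv.Perm α} (hord : orderOf c = 7) (hc : ∀ x, c x ≠ x) {m : ℤ} {y : α}
    (h : (c ^ m) y = y) : (7 : ℤ) ∣ m := by
  by_contra hd
  have hco : IsCoprime (7 : ℤ) m := (Prime.coprime_iff_not_dvd prime7).mpr hd
  obtain ⟨u, v, huv⟩ := hco
  have h7 := zpow7 hord
  have this : c = (c ^ m) ^ v := by
    calc c = c ^ (1 : ℤ) := (zpow_one c).symm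
      _ = c ^ (u * 7 + v * m) := by rw [huv]
      _ = (c ^ (7 : ℤ)) ^ u * (c ^ m) ^ v := by
        rw [zpow_add, mul_comm u, zpow_mul, mul_comm v, zpow_mul]
      _ = (c ^ m) ^ v := by rw [h7, one_zpow, one_mul]
  apply hc y
  rw [this]
  exact Equiv.Perm.zpow_apply_eq_self_of_apply_eq_self h v

lemma norm_free {c n : Equiv.Perm α} (hcyc : c.IsCycle) (hord : orderOf c = 7)
    (hc : ∀ x, c x ≠ x) (j : ℤ) (hj : n * c * n⁻¹ = c ^ j) {x z : α} (hnx : n x = x)
    (hnz : n z = z) (hxz : x ≠ z) : n = 1 := by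
  have hsame : ∀ y, ∃ i : ℤ, (c ^ i) x = y := fun y => hcyc.sameCycle (hc x) (hc y)
  have h7 := zpow7 hord
  have hconj : ∀ i : ℤ, n * c ^ i = c ^ (j * i) * n := by
    intro i
    have this : (n * c * n⁻¹) ^ i = n * c ^ i * n⁻¹ := conj_zpow
    rw [hj, ← zpow_mul] at this
    rw [this, inv_mul_cancel_right]
  obtain ⟨i, hi⟩ := hsame z
  have h1 : (c ^ (j * i)) x = z := by
    have := congrArg (fun f : Equiv.Perm α => f x) (hconj i)
    simp only [Equiv.Perm.mul_apply, hi, hnz, hnx] at this
    exact this.symm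
  have h2 : (c ^ (-i + j * i)) x = x := by
    rw [zpow_add, Equiv.Perm.mul_apply, h1, ← hi, ← Equiv.Perm.mul_apply, ← zpow_add,
      neg_add_cancel, zpow_zero, Equiv.Perm.one_apply]
  have hd := fix_dvd hord hc h2
  rw [show -i + j * i = i * (j - 1) by ring] at hd
  rcases prime7.dvd_or_dvd hd with hd | hd
  · exfalso
    obtain ⟨k, rfl⟩ := hd
    rw [zpow_mul, h7, one_zpow, Equiv.Perm.one_apply] at hi
    exact hxz hi
  · obtain ⟨k, hk⟩ := hd
    have hj1 : j = 1 + 7 * k := by omega
    have hcj : c ^ j = c := by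
      rw [hj1, zpow_add, zpow_one, zpow_mul, h7, one_zpow, mul_one]
    have hcomm : Commute n c := by
      rw [hcj] at hj
      exact (mul_inv_eq_iff_eq_mul.mp hj)
    ext y
    obtain ⟨k', rfl⟩ := hsame y
    have e1 : n * c ^ k' = c ^ k' * n := (Commute.zpow_right hcomm k').eq
    have : (n * c ^ k') x = (c ^ k' * n) x := by rw [e1]
    simpa [Equiv.Perm.mul_apply, hnx] using this

lemma small_support (hα : Fintype.card α = 7) (G : Subgroup (Equiv.Perm α))
    (hprim : MulAction.IsPreprimitive G α) (hA : ¬ alternatingGroup α ≤ G)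
    {g : Equiv.Perm α} (hg : g ∈ G) (hs : g.support.card ≤ 3) : g = 1 := by
  by_contra hne
  have h2 := Equiv.Perm.two_le_card_support_of_ne_one hne
  have h3 : g.support.card = 2 ∨ g.support.card = 3 := by omega
  rcases h3 with h3 | h3
  · have hsw := Equiv.Perm.card_support_eq_two.mp h3
    exact hA (Cfsg.Agent.S0713.result G hprim Nat.prime_two (by omega) (by omega) hsw.isCycle h3 hg)
  · have hsw := card_support_eq_three_iff.mp h3
    exact hA (Cfsg.Agent.S0713.result G hprim Nat.prime_three (by omega) (by omega) hsw.isCycle h3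
      hg)

lemma seven_dvd_of_normal {G : Subgroup (Equiv.Perm α)} (hcard : Nat.card α = 7)
    (hprim : MulAction.IsPreprimitive G α) (M : Subgroup G) [M.Normal] (hM : M ≠ ⊥) :
    7 ∣ Nat.card M := by
  obtain ⟨x, hx⟩ := Subgroup.ne_bot_iff_exists_ne_one.mp hM
  obtain ⟨h, hh, hne⟩ : ∃ h : G, h ∈ M ∧ h ≠ 1 := ⟨x.1, x.2, fun e => hx (Subtype.ext e)⟩
  have hne' : (h : Equiv.Perm α) ≠ 1 := fun e => hne (Subtype.ext e)
  obtain ⟨a, ha⟩ : ∃ a, (h : Equiv.Perm α) a ≠ a := by
    by_contra hcon
    push Not at hcon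
    exact hne' (Equiv.ext hcon)
  have hfix : MulAction.fixedPoints M α ≠ Set.univ := by
    intro e
    have : a ∈ MulAction.fixedPoints M α := by rw [e]; trivial
    exact ha (this ⟨h, hh⟩)
  have htr : MulAction.IsPretransitive M α :=
    MulAction.IsQuasiPreprimitive.isPretransitive_of_normal hfix
  have h1 := Cfsg.Agent.Lib.PermOrb.card_orbit_mul_stab (G := M) a
  rw [MulAction.orbit_eq_univ M a, Nat.card_coe_set_eq, Set.ncard_univ, hcard] at h1
  exact ⟨_, h1.symm⟩

section main

variable (G : Subgroup (Equiv.Perm α))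

lemma card_sylow {P : Sylow 7 G} [Fact (Nat.Prime 7)] (h7 : 7 ∣ Nat.card G) (h840 : Nat.card G ∣ 840) :
    Nat.card P = 7 := by
  have h1 : 7 ^ 1 ∣ Nat.card P := P.pow_dvd_card_of_pow_dvd_card (by simpa using h7)
  obtain ⟨k, hk⟩ := (IsPGroup.iff_card (p := 7)).mp P.2
  have h2 : Nat.card P ∣ 840 := (Subgroup.card_subgroup_dvd_card _).trans h840
  rw [hk] at h1 h2
  have hk2 : k < 2 := by
    by_contra hcon
    have : 7 ^ 2 ∣ 7 ^ k := pow_dvd_pow 7 (by omega)
    have := this.trans h2
    norm_num at this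
  have hk1 : k ≠ 0 := by
    rintro rfl
    norm_num at h1
  have : k = 1 := by omega
  rw [hk, this, pow_one]

lemma sylow_gen {P : Sylow 7 G} [Fact (Nat.Prime 7)] (hP : Nat.card P = 7) :
    ∃ c : G, orderOf c = 7 ∧ c ∈ P ∧ ∀ x ∈ P, ∃ j : ℤ, c ^ j = x := by
  obtain ⟨x, hx⟩ := exists_prime_orderOf_dvd_card' (G := P) 7 (by rw [hP])
  have hord : orderOf (x : G) = 7 := by rw [Subgroup.orderOf_coe, hx]
  refine ⟨x, hord, x.2, ?_⟩
  have hle : Subgroup.zpowers (x : G) ≤ P := Subgroup.zpowers_le.mpr x.2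
  have heq : Subgroup.zpowers (x : G) = P :=
    Subgroup.eq_of_le_of_card_ge hle (by rw [hP, Nat.card_zpowers, hord])
  intro y hy
  have hy' : y ∈ Subgroup.zpowers (x : G) := by rw [heq]; exact hy
  exact Subgroup.mem_zpowers_iff.mp hy'

end main

lemma norm_dvd (hα : Fintype.card α = 7) (G : Subgroup (Equiv.Perm α)) [Fact (Nat.Prime 7)]
    (h7G : 7 ∣ Nat.card G) (h840 : Nat.card G ∣ 840) (P : Sylow 7 G) :
    Nat.card (Subgroup.normalizer ((P : Subgroup G) : Set G)) ∣ 42 := by
  have h7 : Nat.Prime 7 := by norm_num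
  have hP := card_sylow G (P := P) h7G h840
  obtain ⟨c, hord, hcP, hgen⟩ := sylow_gen G hP
  have hord' : orderOf (c : Equiv.Perm α) = 7 := by rw [Subgroup.orderOf_coe, hord]
  have hcyc : (c : Equiv.Perm α).IsCycle :=
    Equiv.Perm.isCycle_of_prime_order' (by rw [hord']; exact h7) (by rw [hord', hα]; omega)
  have hsupp : (c : Equiv.Perm α).support = Finset.univ := by
    apply Finset.eq_univ_of_card
    rw [← hcyc.orderOf, hord', hα]
  have hc : ∀ x, (c : Equiv.Perm α) x ≠ x := by
    intro x
    have : x ∈ (c : Equiv.Perm α).support := by rw [hsupp]; exact Finset.mem_univ _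
    exact Equiv.Perm.mem_support.mp this
  have h3 := free_dvd (H := Subgroup.normalizer ((P : Subgroup G) : Set G)) (X := Fin 2 ↪ α) (by
    intro n x hx
    obtain ⟨j, hj⟩ := hgen _ ((Subgroup.mem_normalizer_iff.mp n.2 c).mp hcP)
    have hj' : ((n : G) : Equiv.Perm α) * (c : Equiv.Perm α) * ((n : G) : Equiv.Perm α)⁻¹
        = (c : Equiv.Perm α) ^ j := by
      have := congrArg Subtype.val hj
      simpa using this.symm
    have h0 : ((n : G) : Equiv.Perm α) (x 0) = x 0 := DFunLike.congr_fun hx 0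
    have h1 : ((n : G) : Equiv.Perm α) (x 1) = x 1 := DFunLike.congr_fun hx 1
    have hne : x 0 ≠ x 1 := fun e => by
      have := x.injective e
      simp at this
    apply Subtype.ext
    apply Subtype.ext
    exact norm_free hcyc hord' hc j hj' h0 h1 hne)
  have h4 : Nat.card (Fin 2 ↪ α) = 42 := by
    rw [Nat.card_eq_fintype_card, Fintype.card_embedding_eq, Fintype.card_fin, hα]; rfl
  rwa [h4] at h3

/-- A non-solvable transitive permutation group on 7 points that does not contain the alternating group is a simple group of order 168. -/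
theorem result {α : Type*} [Fintype α] [DecidableEq α] (hα : Fintype.card α = 7) (G : Subgroup (Equiv.Perm α)) [MulAction.IsPretransitive G α] (hG : ¬ Group.IsSolvable G) (hA : ¬ alternatingGroup α ≤ G) : Nat.card G = 168 ∧ IsSimpleGroup G := by

  classical
  have h7 : Nat.Prime 7 := by norm_num
  haveI : Fact (Nat.Prime 7) := ⟨h7⟩
  have hcardN : Nat.card α = 7 := by rw [Nat.card_eq_fintype_card, hα]
  have hprim : MulAction.IsPreprimitive G α :=
    MulAction.IsPreprimitive.of_prime_card (by rw [hcardN]; exact h7)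
  have h2 : MulAction.IsMultiplyPretransitive G α 2 :=
    (Cfsg.Agent.S0675.result (by rw [hα]; exact h7) G).resolve_left hG
  have h840 : Nat.card G ∣ 840 := by
    have h1 := free_dvd (H := G) (X := Fin 4 ↪ α) (by
      intro g x hx
      apply Subtype.ext
      apply small_support hα G hprim hA g.2
      have hsub : (g : Equiv.Perm α).support ⊆ (Finset.univ.image x)ᶜ := by
        intro y hy
        rw [Finset.mem_compl, Finset.mem_image]
        rintro ⟨i, -, rfl⟩
        have h5 : (g : Equiv.Perm α) (x i) = x i := DFunLike.congr_fun hx i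
        rw [Equiv.Perm.mem_support] at hy
        exact hy h5
      have h2 := Finset.card_le_card hsub
      rw [Finset.card_compl, Finset.card_image_of_injective _ x.injective, Finset.card_univ,
        Fintype.card_fin, hα] at h2
      omega)
    have h3 : Nat.card (Fin 4 ↪ α) = 840 := by
      rw [Nat.card_eq_fintype_card, Fintype.card_embedding_eq, Fintype.card_fin, hα]; rfl
    rwa [h3] at h1
  have h42 : 42 ∣ Nat.card G := by
    have hne : Nonempty (Fin 2 ↪ α) :=
      Function.Embedding.nonempty_of_card_le (by rw [Fintype.card_fin, hα]; omega)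
    obtain ⟨x⟩ := hne
    have h1 : Nat.card (Fin 2 ↪ α) ∣ Nat.card G :=
      trans_dvd (H := G) x (fun y => h2.exists_smul_eq x y)
    have h3 : Nat.card (Fin 2 ↪ α) = 42 := by
      rw [Nat.card_eq_fintype_card, Fintype.card_embedding_eq, Fintype.card_fin, hα]; rfl
    rwa [h3] at h1
  have h7G : 7 ∣ Nat.card G := (by norm_num : 7 ∣ 42).trans h42
  have hkey : ∀ P : Sylow 7 G, ∃ d n, Nat.card (Subgroup.normalizer ((P : Subgroup G) : Set G)) = d ∧
      (d = 7 ∨ d = 14 ∨ d = 21 ∨ d = 42) ∧ d * n = Nat.card G ∧ n % 7 = 1 := by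
    intro P
    refine ⟨_, Nat.card (Sylow 7 G), rfl, ?_, ?_, ?_⟩
    · have h3 := norm_dvd hα G h7G h840 P
      have h4 : Nat.card P ∣ Nat.card (Subgroup.normalizer ((P : Subgroup G) : Set G)) :=
        Subgroup.card_dvd_of_le Subgroup.le_normalizer
      rw [card_sylow G h7G h840] at h4
      generalize Nat.card (Subgroup.normalizer ((P : Subgroup G) : Set G)) = d at h3 h4
      have hle : d ≤ 42 := Nat.le_of_dvd (by norm_num) h3
      interval_cases d <;> omega
    · rw [P.card_eq_index_normalizer]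
      exact Subgroup.card_mul_index _
    · exact card_sylow_modEq_one (p := 7) (G := G)
  have hN : Nat.card G = 42 ∨ Nat.card G = 84 ∨ Nat.card G = 168 ∨ Nat.card G = 210 ∨
      Nat.card G = 420 ∨ Nat.card G = 840 := by
    obtain ⟨d, hd⟩ := h42
    rw [hd] at h840 ⊢
    have h3 : d ∣ 20 := Nat.dvd_of_mul_dvd_mul_left (k := 42) (by norm_num) (by simpa using h840)
    have hle : d ≤ 20 := Nat.le_of_dvd (by norm_num) h3
    interval_cases d <;> omega
  obtain ⟨P₀⟩ : Nonempty (Sylow 7 G) := inferInstance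
  obtain ⟨d₀, n₀, hd₀, hd₀', hdn₀, hn₀⟩ := hkey P₀
  have hN168 : Nat.card G = 168 := by
    rcases hN with h | h | h | h | h | h
    · exfalso
      haveI : IsZGroup G := IsZGroup.of_squarefree (by
        rw [h, Nat.squarefree_iff_prime_squarefree]
        intro x hx hd
        have h1 := Nat.le_of_dvd (by norm_num) hd
        have h2 : x ≤ 14 := by nlinarith
        interval_cases x <;> first | omega | exact absurd hx (by norm_num))
      exact hG inferInstance
    · exfalso
      rw [h] at hdn₀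
      rcases hd₀' with rfl | rfl | rfl | rfl <;> omega
    · exact h
    · exfalso
      haveI : IsZGroup G := IsZGroup.of_squarefree (by
        rw [h, Nat.squarefree_iff_prime_squarefree]
        intro x hx hd
        have h1 := Nat.le_of_dvd (by norm_num) hd
        have h2 : x ≤ 14 := by nlinarith
        interval_cases x <;> first | omega | exact absurd hx (by norm_num))
      exact hG inferInstance
    · exfalso
      rw [h] at hdn₀
      rcases hd₀' with rfl | rfl | rfl | rfl <;> omega
    · exfalso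
      have hd7 : d₀ = 7 := by
        rw [h] at hdn₀
        rcases hd₀' with rfl | rfl | rfl | rfl <;> omega
      have hP₀ := card_sylow G (P := P₀) h7G h840
      have heq : (P₀ : Subgroup G) = Subgroup.normalizer ((P₀ : Subgroup G) : Set G) :=
        Subgroup.eq_of_le_of_card_ge Subgroup.le_normalizer (by rw [hd₀, hd7, hP₀])
      obtain ⟨c, hord, hcP, hgen⟩ := sylow_gen G hP₀
      have hPc : Subgroup.normalizer ((P₀ : Subgroup G) : Set G)
          ≤ Subgroup.centralizer ((P₀ : Subgroup G) : Set G) := by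
        rw [← heq]
        intro x hx
        rw [Subgroup.mem_centralizer_iff]
        intro y hy
        obtain ⟨a, rfl⟩ := hgen x hx
        obtain ⟨b, rfl⟩ := hgen y hy
        exact zpow_mul_comm _ _ _
      have hcompl := MonoidHom.ker_transferSylow_isComplement' P₀ hPc
      have hcm := hcompl.card_mul
      set K := (MonoidHom.transferSylow P₀ hPc).ker with hK
      have hKne : K ≠ ⊥ := by
        intro hbot
        rw [hbot, Subgroup.card_bot, one_mul, hP₀, h] at hcm
        omega
      have hK7 := seven_dvd_of_normal hcardN hprim K hKne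
      have : P₀.1 = (P₀ : Subgroup G) := rfl
      rw [h] at hcm
      have hcP' : Nat.card K * 7 = 840 := by
        have h8 : Nat.card (P₀ : Subgroup G) = 7 := hP₀
        rw [← h8]; exact hcm
      omega
  have hd21 : ∀ Q : Sylow 7 G,
      Nat.card (Subgroup.normalizer ((Q : Subgroup G) : Set G)) = 21 := by
    intro Q
    obtain ⟨d, n, hd, hd', hdn, hn⟩ := hkey Q
    rw [hd]
    rw [hN168] at hdn
    rcases hd' with rfl | rfl | rfl | rfl <;> omega
  refine ⟨hN168, ?_⟩
  haveI : Nontrivial G := by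
    rw [← Finite.one_lt_card_iff_nontrivial, hN168]
    norm_num
  refine ⟨fun M hM => ?_⟩
  by_cases hbot : M = ⊥
  · exact Or.inl hbot
  right
  have hM7 := seven_dvd_of_normal hcardN hprim M hbot
  obtain ⟨x, hx⟩ := exists_prime_orderOf_dvd_card' (G := M) 7 hM7
  have hxo : orderOf (x : G) = 7 := by rw [Subgroup.orderOf_coe, hx]
  have hzp : IsPGroup 7 (Subgroup.zpowers (x : G)) :=
    IsPGroup.of_card (n := 1) (by rw [Nat.card_zpowers, hxo, pow_one])
  obtain ⟨Q, hQ⟩ := hzp.exists_le_sylow
  have hQ7 := card_sylow G (P := Q) h7G h840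
  have hzQ : Subgroup.zpowers (x : G) = Q :=
    Subgroup.eq_of_le_of_card_ge hQ (by
      rw [Nat.card_zpowers, hxo]; exact hQ7.le)
  have hQM : (Q : Subgroup G) ≤ M := by
    rw [← hzQ]
    exact Subgroup.zpowers_le.mpr x.2
  have hsup : Subgroup.normalizer ((Q : Subgroup G) : Set G) ⊔ M = ⊤ :=
    Sylow.normalizer_sup_eq_top' Q hQM
  have e1 := Subgroup.relIndex_sup_right (Subgroup.normalizer ((Q : Subgroup G) : Set G)) M
  rw [hsup, Subgroup.relIndex_top_right] at e1
  have e2 : M.relIndex (Subgroup.normalizer ((Q : Subgroup G) : Set G))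
      ∣ (Q : Subgroup G).relIndex (Subgroup.normalizer ((Q : Subgroup G) : Set G)) :=
    Subgroup.relIndex_dvd_of_le_left _ hQM
  have e3 := Cfsg.Agent.Lib.H1Wagner.relIndex_card (Q : Subgroup G)
    (Subgroup.normalizer ((Q : Subgroup G) : Set G)) Subgroup.le_normalizer
  rw [hd21 Q] at e3
  have e3' : (Q : Subgroup G).relIndex (Subgroup.normalizer ((Q : Subgroup G) : Set G)) * 7 = 21 := by
    have h8 : Nat.card (Q : Subgroup G) = 7 := hQ7
    rw [h8] at e3; exact e3
  have e4 : (Q : Subgroup G).relIndex (Subgroup.normalizer ((Q : Subgroup G) : Set G)) = 3 := by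
    omega
  rw [e4, ← e1] at e2
  have e5 : M.index = 1 ∨ M.index = 3 := (Nat.dvd_prime Nat.prime_three).mp e2
  rcases e5 with e5 | e5
  · exact Subgroup.index_eq_one.mp e5
  · exfalso
    have h56 := Subgroup.card_mul_index M
    rw [e5, hN168] at h56
    have h56' : Nat.card M = 2 ^ 3 * 7 ^ 1 := by omega
    have hQs : Nat.card (G ⧸ M) = 3 ^ 1 * 2 ^ 0 := by
      rw [← Subgroup.index_eq_card, e5]; norm_num
    haveI hs1 : Group.IsSolvable M := Cfsg.Agent.S0144.result 2 7 3 1 Nat.prime_two h7 h56'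
    haveI hs2 : Group.IsSolvable (G ⧸ M) :=
      Cfsg.Agent.S0144.result 3 2 1 0 Nat.prime_three Nat.prime_two hQs
    exact hG (solvable_of_ker_le_range M.subtype (QuotientGroup.mk' M) (by
      rw [QuotientGroup.ker_mk', Subgroup.range_subtype]))

end Cfsg.Agent.S0678
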