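import Cfsg.Statements.S0697
import Cfsg.Agent.Lib.H1JordanP

set_option autoImplicit false
open Cfsg

namespace Cfsg.Agent.S0697

/-- In a `k`-primitive permutation group which is not the whole symmetric group, a non-trivial non-regular normal subgroup is `k`-transitive. -/
theorem result {α : Type*} [Fintype α] [DecidableEq α] (G : Subgroup (Equiv.Perm α)) {k : ℕ} (hk : 1 ≤ k) (hkn : k ≤ Fintype.card α) (hG : MulAction.IsMultiplyPreprimitive G α k) (htop : G ≠ ⊤) (H : Subgroup G) [H.Normal] (hH : H ≠ ⊥) (hnr : ∃ a : α, MulAction.stabilizer H a ≠ ⊥) : MulAction.IsMultiplyPretransitive H α k := by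
  haveI hf : FaithfulSMul G α := ⟨fun {g g'} h => Subtype.ext (Equiv.ext h)⟩
  have hsurj : ¬ Function.Surjective (MulAction.toPerm : G → Equiv.Perm α) := by
    intro h
    apply htop
    rw [eq_top_iff]
    intro π _
    obtain ⟨g, hg⟩ := h π
    have : (g : Equiv.Perm α) = π := Equiv.ext fun x => congrArg (fun t : Equiv.Perm α => t x) hg
    rw [← this]
    exact g.2
  obtain ⟨a, ha⟩ := hnr
  obtain ⟨x, hx, hx1⟩ := (Subgroup.bot_or_exists_ne_one _).resolve_left ha
  refine Lib.H1JordanP.prim_aux k hk G α H hH (by rwa [Nat.card_eq_fintype_card]) hG hsurj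
    ⟨a, (x : H), x.2, fun h => hx1 (Subtype.ext h), hx⟩

end Cfsg.Agent.S0697
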