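import Cfsg.Statements.S0699
import Cfsg.Agent.Lib.H1Wagner

set_option autoImplicit false
open Cfsg

namespace Cfsg.Agent.S0699

/-- Wagner's Theorem: a non-trivial normal subgroup of a triply transitive permutation group of odd degree at least 5 is triply transitive. -/
theorem result {α : Type*} [Fintype α] [DecidableEq α] (G : Subgroup (Equiv.Perm α)) (hodd : Odd (Fintype.card α)) (h5 : 5 ≤ Fintype.card α) (hG : MulAction.IsMultiplyPretransitive G α 3) (N : Subgroup G) [N.Normal] (hN : N ≠ ⊥) : MulAction.IsMultiplyPretransitive N α 3 := by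
  open Lib.H1Wagner Lib.H1JordanN in
  have hG3 : Trans3 G := by
    intro a b c a' b' c' h1 h2 h3 h4 h5' h6
    obtain ⟨g, hg1, hg2, hg3⟩ := exists_move3 hG h1 h2 h3 h4 h5' h6
    exact ⟨g, g.2, hg1, hg2, hg3⟩
  let N' : Subgroup (Equiv.Perm α) := N.map G.subtype
  have hN'G : N' ≤ G := by
    rintro _ ⟨n, _, rfl⟩
    exact n.2
  have hnorm : ∀ g ∈ G, ∀ n ∈ N', g * n * g⁻¹ ∈ N' := by
    rintro g hg _ ⟨n, hn, rfl⟩
    exact ⟨⟨g, hg⟩ * n * ⟨g, hg⟩⁻¹, ‹N.Normal›.conj_mem n hn _, rfl⟩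
  have hN' : N' ≠ ⊥ := by
    intro h
    apply hN
    rw [eq_bot_iff]
    intro n hn
    have h1 : (n : Equiv.Perm α) ∈ N' := ⟨n, hn, rfl⟩
    rw [h, Subgroup.mem_bot] at h1
    rw [Subgroup.mem_bot]
    exact Subtype.ext h1
  have h3 := wagner_aux _ α G N' rfl (by rwa [Nat.card_eq_fintype_card]) (by rwa [Nat.card_eq_fintype_card])
    hG3 hN'G hnorm hN'
  refine ⟨fun x y => ?_⟩
  obtain ⟨g, hg, h0, h1, h2⟩ := h3 (x 0) (x 1) (x 2) (y 0) (y 1) (y 2)
    (x.injective.ne (by decide)) (x.injective.ne (by decide)) (x.injective.ne (by decide))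
    (y.injective.ne (by decide)) (y.injective.ne (by decide)) (y.injective.ne (by decide))
  obtain ⟨n, hn, rfl⟩ := hg
  refine ⟨⟨n, hn⟩, ?_⟩
  ext i
  fin_cases i
  · exact h0
  · exact h1
  · exact h2

end Cfsg.Agent.S0699
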