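import Cfsg.Statements.S0700
import Cfsg.Agent.Lib.H1Burn2

set_option autoImplicit false
open Cfsg

namespace Cfsg.Agent.S0700

/-- Burnside's Theorem on doubly transitive groups: a minimal normal subgroup of a finite doubly transitive permutation group is elementary abelian and regular, or simple and primitive. -/
theorem result {α : Type*} [Fintype α] [DecidableEq α] (G : Subgroup (Equiv.Perm α)) (hG : MulAction.IsMultiplyPretransitive G α 2) (N : Subgroup G) [N.Normal] (hN : N ≠ ⊥) (hmin : ∀ M : Subgroup G, M.Normal → M ≤ N → M = ⊥ ∨ M = N) : (IsMulCommutative N ∧ (∃ p : ℕ, p.Prime ∧ ∀ n ∈ N, n ^ p = 1) ∧ ∀ a : α, MulAction.stabilizer N a = ⊥) ∨ (IsSimpleGroup N ∧ MulAction.IsPreprimitive N α) := by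
  open Lib.H1Burn2 Lib.H1JordanN in
  haveI hf : FaithfulSMul G α := ⟨fun {g g'} h => Subtype.ext (Equiv.ext h)⟩
  haveI hfin : Finite G := inferInstance
  have hcard : 2 ≤ Nat.card α := by
    by_contra hc
    apply hN
    rw [eq_bot_iff]
    intro n _
    rw [Subgroup.mem_bot]
    have h1 : Subsingleton α := Finite.card_le_one_iff_subsingleton.mp (by omega)
    apply eq_of_smul_eq_smul (α := α)
    intro a
    exact Subsingleton.elim _ _
  have htr : MulAction.IsPretransitive N α := trans_of_normal (k := 2) le_rfl hcard hG N hN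
  by_cases hab : ∀ x ∈ N, ∀ y ∈ N, x * y = y * x
  · left
    refine ⟨⟨⟨fun a b => Subtype.ext (hab a a.2 b b.2)⟩⟩, abelian_case N hN hmin hab, fun a => ?_⟩
    rw [eq_bot_iff]
    intro x hx
    have hxa : x • a = a := hx
    rw [Subgroup.mem_bot]
    apply Subtype.ext
    apply eq_of_smul_eq_smul (α := α)
    intro b
    obtain ⟨n, rfl⟩ := htr.exists_smul_eq a b
    have h1 : ((x : G) * (n : G)) = (n : G) * (x : G) := hab _ x.2 _ n.2
    show (x : G) • ((n : G) • a) = (1 : G) • ((n : G) • a)
    rw [← mul_smul, h1, mul_smul]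
    have h3 : (x : G) • a = a := hxa
    rw [h3, one_smul]
  · right
    obtain ⟨a⟩ : Nonempty α := by
      by_contra hc
      rw [not_nonempty_iff] at hc
      have : Nat.card α = 0 := Nat.card_of_isEmpty
      omega
    have hprim := primitive_of_nonabelian hG N hN hmin htr hab a
    exact ⟨simple_of_primitive hG N hN hmin hprim a, hprim⟩

end Cfsg.Agent.S0700
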