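import Cfsg.Statements.S0708
import Cfsg.Agent.Lib.H1JordanN
import Mathlib

set_option autoImplicit false
open Cfsg

namespace Cfsg.Agent.S0708

open Cfsg.Agent.Lib.H1JordanN in
lemma fix4 {G Ω : Type*} [Group G] [MulAction G Ω]
    (hsharp : ∀ x : Fin 4 ↪ Ω, MulAction.stabilizer G x = ⊥) {g : G} {a b c d : Ω}
    (hab : a ≠ b) (hac : a ≠ c) (had : a ≠ d) (hbc : b ≠ c) (hbd : b ≠ d) (hcd : c ≠ d)
    (ha : g • a = a) (hb : g • b = b) (hc : g • c = c) (hd : g • d = d) : g = 1 := by
  have : g ∈ MulAction.stabilizer G (emb4 a b c d hab hac had hbc hbd hcd) := by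
    rw [MulAction.mem_stabilizer_iff]
    ext i
    fin_cases i
    · exact ha
    · exact hb
    · exact hc
    · exact hd
  rw [hsharp] at this
  exact Subgroup.mem_bot.mp this

lemma agree4 {G Ω : Type*} [Group G] [MulAction G Ω]
    (hsharp : ∀ x : Fin 4 ↪ Ω, MulAction.stabilizer G x = ⊥) {g g' : G} {a b c d : Ω}
    (hab : a ≠ b) (hac : a ≠ c) (had : a ≠ d) (hbc : b ≠ c) (hbd : b ≠ d) (hcd : c ≠ d)
    (ha : g • a = g' • a) (hb : g • b = g' • b) (hc : g • c = g' • c) (hd : g • d = g' • d) :
    g = g' := by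
  have := fix4 hsharp (g := g'⁻¹ * g) hab hac had hbc hbd hcd
    (by rw [mul_smul, ha, inv_smul_smul]) (by rw [mul_smul, hb, inv_smul_smul])
    (by rw [mul_smul, hc, inv_smul_smul]) (by rw [mul_smul, hd, inv_smul_smul])
  rw [inv_mul_eq_one] at this
  exact this.symm

lemma fix_card {G Ω : Type*} [Group G] [MulAction G Ω]
    (hsharp : ∀ x : Fin 4 ↪ Ω, MulAction.stabilizer G x = ⊥) {g : G} (hg : g ≠ 1) :
    {y : Ω | g • y = y}.Finite ∧ {y : Ω | g • y = y}.ncard ≤ 3 := by
  classical
  have key : ∀ T : Finset Ω, (↑T : Set Ω) ⊆ {y : Ω | g • y = y} → T.card = 4 → False := by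
    intro T hT hc
    let e := T.equivFinOfCardEq hc
    let p : Fin 4 → Ω := fun i => (e.symm i : Ω)
    have hp : ∀ i j, p i = p j → i = j := fun i j h => e.symm.injective (Subtype.ext h)
    have hf : ∀ i, g • p i = p i := fun i => hT (e.symm i).2
    apply hg
    exact fix4 hsharp (a := p 0) (b := p 1) (c := p 2) (d := p 3)
      (fun h => absurd (hp _ _ h) (by decide)) (fun h => absurd (hp _ _ h) (by decide))
      (fun h => absurd (hp _ _ h) (by decide)) (fun h => absurd (hp _ _ h) (by decide))
      (fun h => absurd (hp _ _ h) (by decide)) (fun h => absurd (hp _ _ h) (by decide))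
      (hf _) (hf _) (hf _) (hf _)
  have hfin : {y : Ω | g • y = y}.Finite := by
    by_contra hinf
    obtain ⟨T, hT, hc⟩ := Set.Infinite.exists_subset_card_eq hinf 4
    exact key T hT hc
  refine ⟨hfin, ?_⟩
  by_contra hcon
  push Not at hcon
  rw [Set.ncard_eq_toFinset_card _ hfin] at hcon
  obtain ⟨T, hT, hc⟩ := Finset.exists_subset_card_eq (n := 4) (s := hfin.toFinset) hcon
  refine key T ?_ hc
  intro x hx
  have := hT hx
  simpa using this

section main

variable {G Ω : Type*} [Group G] [MulAction G Ω]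

open Cfsg.Agent.Lib.H1JordanN in
lemma fix_third (h4 : MulAction.IsMultiplyPretransitive G Ω 4)
    (hsharp : ∀ x : Fin 4 ↪ Ω, MulAction.stabilizer G x = ⊥) {ω ι m x : Ω} (hωι : ω ≠ ι)
    (hωm : ω ≠ m) (hιm : ι ≠ m) {u t : G} (huω : u • ω = ω) (huι : u • ι = ι) (hum : u • m = m)
    (hu2 : u * u = 1) (hux : u • x ≠ x) (htω : t • ω = ι) (htι : t • ι = ω) (htx : t • x = x)
    (hty : t • (u • x) = u • x) : t • m = m := by
  have hxω : x ≠ ω := fun e => hux (by rw [e, huω])
  have hxι : x ≠ ι := fun e => hux (by rw [e, huι])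
  have hyω : u • x ≠ ω := fun e => hxω (by
    have := congrArg (fun z => u • z) e
    simp only [← mul_smul, hu2, one_smul, huω] at this
    exact this)
  have hyι : u • x ≠ ι := fun e => hxι (by
    have := congrArg (fun z => u • z) e
    simp only [← mul_smul, hu2, one_smul, huι] at this
    exact this)
  have huu : u • (u • x) = x := by rw [← mul_smul, hu2, one_smul]
  have hcomm : t * u = u * t := by
    apply agree4 hsharp (a := ω) (b := ι) (c := x) (d := u • x) hωι hxω.symm hyω.symm hxι.symm
      hyι.symm hux.symm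
    · rw [mul_smul, mul_smul, huω, htω, huι]
    · rw [mul_smul, mul_smul, huι, htι, huω]
    · rw [mul_smul, mul_smul, htx, hty]
    · rw [mul_smul, mul_smul, huu, htx, hty, huu]
  have hfix : u • (t • m) = t • m := by
    rw [← mul_smul, ← hcomm, mul_smul, hum]
  by_contra hne
  have hm1 : ω ≠ t • m := fun e => hιm (by
    have := congrArg (fun z => t • z) e
    simp only [← mul_smul] at this
    have ht2 : t * t = 1 := by
      apply fix4 hsharp (a := ω) (b := ι) (c := x) (d := u • x) hωι hxω.symm hyω.symm hxι.symm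
        hyι.symm hux.symm
      · rw [mul_smul, htω, htι]
      · rw [mul_smul, htι, htω]
      · rw [mul_smul, htx, htx]
      · rw [mul_smul, hty, hty]
    rw [ht2, one_smul, htω] at this
    exact this)
  have hm2 : ι ≠ t • m := fun e => hωm (by
    have := congrArg (fun z => t • z) e
    simp only [← mul_smul] at this
    have ht2 : t * t = 1 := by
      apply fix4 hsharp (a := ω) (b := ι) (c := x) (d := u • x) hωι hxω.symm hyω.symm hxι.symm
        hyι.symm hux.symm
      · rw [mul_smul, htω, htι]
      · rw [mul_smul, htι, htω]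
      · rw [mul_smul, htx, htx]
      · rw [mul_smul, hty, hty]
    rw [ht2, one_smul, htι] at this
    exact this)
  have := fix4 hsharp (g := u) (a := ω) (b := ι) (c := m) (d := t • m) hωι hωm hm1 hιm hm2
    (Ne.symm hne) huω huι hum hfix
  rw [this, one_smul] at hux
  exact hux rfl

open Cfsg.Agent.Lib.H1JordanN in
/-- Uniqueness of the involution with three given fixed points. -/
lemma uniq_inv (h4 : MulAction.IsMultiplyPretransitive G Ω 4)
    (hsharp : ∀ x : Fin 4 ↪ Ω, MulAction.stabilizer G x = ⊥) {ω ι m x : Ω} (hωι : ω ≠ ι)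
    (hωm : ω ≠ m) (hιm : ι ≠ m) {u v : G} (huω : u • ω = ω) (huι : u • ι = ι) (hum : u • m = m)
    (hu2 : u * u = 1) (hux : u • x ≠ x) (hvω : v • ω = ω) (hvι : v • ι = ι) (hvm : v • m = m)
    (hv2 : v * v = 1) (hv1 : v ≠ 1) : u = v := by
  have hxω : x ≠ ω := fun e => hux (by rw [e, huω])
  have hxι : x ≠ ι := fun e => hux (by rw [e, huι])
  have hxm : x ≠ m := fun e => hux (by rw [e, hum])
  have hvx : v • x ≠ x := fun e => hv1
    (fix4 hsharp (a := ω) (b := ι) (c := m) (d := x) hωι hωm hxω.symm hιm hxι.symm hxm.symm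
      hvω hvι hvm e)
  -- images
  have hinj : ∀ {w : G} {a b : Ω}, w • a = b → ∀ c, w • c = b → c = a := by
    intro w a b hab c hc
    exact smul_left_cancel w (hc.trans hab.symm)
  have hyω : u • x ≠ ω := fun e => hxω (hinj huω x e)
  have hyι : u • x ≠ ι := fun e => hxι (hinj huι x e)
  have hym : u • x ≠ m := fun e => hxm (hinj hum x e)
  have hzω : v • x ≠ ω := fun e => hxω (hinj hvω x e)
  have hzι : v • x ≠ ι := fun e => hxι (hinj hvι x e)
  have hzm : v • x ≠ m := fun e => hxm (hinj hvm x e)
  by_cases hyz : u • x = v • x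
  · exact agree4 hsharp (a := ω) (b := ι) (c := m) (d := x) hωι hωm hxω.symm hιm hxι.symm hxm.symm
      (by rw [huω, hvω]) (by rw [huι, hvι]) (by rw [hum, hvm]) hyz
  · exfalso
    obtain ⟨t₁, h1, h2, h3, h4'⟩ := exists_move4 h4 (a := ω) (b := ι) (c := x) (d := u • x)
      (a' := ι) (b' := ω) (c' := x) (d' := u • x) hωι hxω.symm hyω.symm hxι.symm hyι.symm hux.symm
      hωι.symm hxι.symm hyι.symm hxω.symm hyω.symm hux.symm
    obtain ⟨t₂, k1, k2, k3, k4⟩ := exists_move4 h4 (a := ω) (b := ι) (c := x) (d := v • x)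
      (a' := ι) (b' := ω) (c' := x) (d' := v • x) hωι hxω.symm hzω.symm hxι.symm hzι.symm hvx.symm
      hωι.symm hxι.symm hzι.symm hxω.symm hzω.symm hvx.symm
    have hm1 := fix_third h4 hsharp hωι hωm hιm huω huι hum hu2 hux h1 h2 h3 h4'
    have hm2 := fix_third h4 hsharp hωι hωm hιm hvω hvι hvm hv2 hvx k1 k2 k3 k4
    have heq : t₁ = t₂ := agree4 hsharp (a := ω) (b := ι) (c := x) (d := m) hωι hxω.symm hωm
      hxι.symm hιm hxm (by rw [h1, k1]) (by rw [h2, k2]) (by rw [h3, k3]) (by rw [hm1, hm2])
    subst heq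
    have := fix4 hsharp (g := t₁) (a := x) (b := u • x) (c := v • x) (d := m) hux.symm hvx.symm hxm
      hyz hym hzm h3 h4' k4 hm1
    rw [this, one_smul] at h1
    exact hωι h1

end main

open Cfsg.Agent.Lib.H1JordanN in
theorem tits {G Ω : Type*} [Group G] [MulAction G Ω] (h4 : MulAction.IsMultiplyPretransitive G Ω 4)
    (hsharp : ∀ x : Fin 4 ↪ Ω, MulAction.stabilizer G x = ⊥) (hne : Nonempty (Fin 4 ↪ Ω)) :
    Finite Ω ∧ Nat.card Ω ≤ 11 ∧ (Even (Nat.card Ω) → Nat.card Ω ≤ 6) := by
  classical
  obtain ⟨p⟩ := hne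
  have hp : ∀ i j, p i = p j → i = j := fun i j h => p.injective h
  obtain ⟨ω, ι, c, d, hωι, hωc, hωd, hιc, hιd, hcd⟩ : ∃ ω ι c d : Ω, ω ≠ ι ∧ ω ≠ c ∧ ω ≠ d ∧ ι ≠ c ∧
      ι ≠ d ∧ c ≠ d := ⟨p 0, p 1, p 2, p 3, fun h => absurd (hp _ _ h) (by decide),
        fun h => absurd (hp _ _ h) (by decide), fun h => absurd (hp _ _ h) (by decide),
        fun h => absurd (hp _ _ h) (by decide), fun h => absurd (hp _ _ h) (by decide),
        fun h => absurd (hp _ _ h) (by decide)⟩
  obtain ⟨t, htω, htι, htc, htd⟩ := exists_move4 h4 (a := ω) (b := ι) (c := c) (d := d)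
      (a' := ι) (b' := ω) (c' := c) (d' := d) hωι hωc hωd hιc hιd hcd
      hωι.symm hιc hιd hωc hωd hcd
  have ht2 : t * t = 1 := by
    apply fix4 hsharp (a := ω) (b := ι) (c := c) (d := d) hωι hωc hωd hιc hιd hcd
    · rw [mul_smul, htω, htι]
    · rw [mul_smul, htι, htω]
    · rw [mul_smul, htc, htc]
    · rw [mul_smul, htd, htd]
  have ht1 : t ≠ 1 := by
    rintro rfl
    rw [one_smul] at htω
    exact hωι htω
  have htt : ∀ x : Ω, t • (t • x) = x := fun x => by rw [← mul_smul, ht2, one_smul]
  -- the involutions `s_x`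
  have hsx : ∀ y : Ω, y ≠ ω → y ≠ ι → t • y ≠ y → ∃ s : G, s • ω = ω ∧ s • ι = ι ∧ s • y = t • y ∧
      s • (t • y) = y ∧ s * s = 1 ∧ s * t = t * s := by
    intro y hyω hyι hty
    have h1 : t • y ≠ ω := fun e => hyι (smul_left_cancel t (e.trans htι.symm))
    have h2 : t • y ≠ ι := fun e => hyω (smul_left_cancel t (e.trans htω.symm))
    obtain ⟨s, hs1, hs2, hs3, hs4⟩ := exists_move4 h4 (a := ω) (b := ι) (c := y) (d := t • y)
      (a' := ω) (b' := ι) (c' := t • y) (d' := y) hωι hyω.symm h1.symm hyι.symm h2.symm hty.symm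
      hωι h1.symm hyω.symm h2.symm hyι.symm hty
    refine ⟨s, hs1, hs2, hs3, hs4, ?_, ?_⟩
    · apply fix4 hsharp (a := ω) (b := ι) (c := y) (d := t • y) hωι hyω.symm h1.symm hyι.symm
        h2.symm hty.symm
      · rw [mul_smul, hs1, hs1]
      · rw [mul_smul, hs2, hs2]
      · rw [mul_smul, hs3, hs4]
      · rw [mul_smul, hs4, hs3]
    · apply agree4 hsharp (a := ω) (b := ι) (c := y) (d := t • y) hωι hyω.symm h1.symm hyι.symm
        h2.symm hty.symm
      · rw [mul_smul, mul_smul, htω, hs2, hs1, htω]
      · rw [mul_smul, mul_smul, htι, hs1, hs2, htι]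
      · rw [mul_smul, mul_smul, hs4, hs3, htt]
      · rw [mul_smul, mul_smul, htt, hs4, hs3]
  by_cases h3 : ∃ e : Ω, t • e = e ∧ e ≠ c ∧ e ≠ d
  · -- three fixed points
    obtain ⟨e, hte, hec, hed⟩ := h3
    have heω : e ≠ ω := by rintro rfl; exact hωι (hte.symm.trans htω)
    have heι : e ≠ ι := by rintro rfl; exact hωι (htι.symm.trans hte)
    have hfixset : ∀ z : Ω, t • z = z → z = c ∨ z = d ∨ z = e := by
      intro z hz
      by_contra hcon
      push Not at hcon
      obtain ⟨h1, h2, h3⟩ := hcon
      exact ht1 (fix4 hsharp (a := c) (b := d) (c := e) (d := z) hcd hec.symm (Ne.symm h1) hed.symm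
        (Ne.symm h2) (Ne.symm h3) htc htd hte hz)
    let A : Ω → Set Ω := fun m => {x | x ≠ ω ∧ x ≠ ι ∧ t • x ≠ x ∧ ∃ s : G, s • ω = ω ∧ s • ι = ι ∧
      s • x = t • x ∧ s • (t • x) = x ∧ s * s = 1 ∧ s • m = m}
    have hA : ∀ m : Ω, t • m = m → (A m).Finite ∧ (A m).ncard ≤ 2 := by
      intro m hm
      have hmω : ω ≠ m := by rintro rfl; exact hωι (hm.symm.trans htω)
      have hmι : ι ≠ m := by rintro rfl; exact hωι (htι.symm.trans hm)
      by_cases hemp : (A m).Nonempty
      · obtain ⟨x₀, -, -, hx₀t, s₀, h1, h2, h3, h4', h5, h6⟩ := hemp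
        have hs₀ : s₀ ≠ 1 := by
          rintro rfl
          rw [one_smul] at h3
          exact hx₀t h3.symm
        have hw : s₀ * t ≠ 1 := by
          intro h
          have := congrArg (fun g : G => g • ω) h
          simp only [mul_smul, htω, h2, one_smul] at this
          exact hωι this.symm
        have hsub : insert m (A m) ⊆ {y : Ω | (s₀ * t) • y = y} := by
          intro x hx
          rcases Set.mem_insert_iff.mp hx with rfl | hx
          · change (s₀ * t) • x = x
            rw [mul_smul, hm, h6]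
          · obtain ⟨-, -, hxt, s, k1, k2, k3, k4, k5, k6⟩ := hx
            have hss := uniq_inv h4 hsharp (x := x) hωι hmω hmι k1 k2 k6 k5
              (by rw [k3]; exact hxt) h1 h2 h6 h5 hs₀
            subst hss
            change (s * t) • x = x
            rw [mul_smul, k4]
        obtain ⟨hfin, hle⟩ := fix_card hsharp hw
        have hf1 : (insert m (A m)).Finite := hfin.subset hsub
        have hf2 : (A m).Finite := hf1.subset (Set.subset_insert _ _)
        refine ⟨hf2, ?_⟩
        have h7 : m ∉ A m := by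
          rintro ⟨-, -, h8, -⟩
          exact h8 hm
        have h8 := Set.ncard_le_ncard hsub hfin
        rw [Set.ncard_insert_of_notMem h7 hf2] at h8
        omega
      · rw [Set.not_nonempty_iff_eq_empty] at hemp
        rw [hemp]
        simp
    have hcover : ∀ y : Ω, y = ω ∨ y = ι ∨ y = c ∨ y = d ∨ y = e ∨ y ∈ A c ∨ y ∈ A d ∨ y ∈ A e := by
      intro y
      by_cases hyω : y = ω
      · exact Or.inl hyω
      by_cases hyι : y = ι
      · exact Or.inr (Or.inl hyι)
      by_cases hty : t • y = y
      · rcases hfixset y hty with h | h | h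
        · exact Or.inr (Or.inr (Or.inl h))
        · exact Or.inr (Or.inr (Or.inr (Or.inl h)))
        · exact Or.inr (Or.inr (Or.inr (Or.inr (Or.inl h))))
      obtain ⟨s, s1, s2, s3, s4, s5, s6⟩ := hsx y hyω hyι hty
      have hperm : ∀ m : Ω, t • m = m → t • (s • m) = s • m := by
        intro m hm
        rw [← mul_smul, ← s6, mul_smul, hm]
      have hss : ∀ z : Ω, s • (s • z) = z := fun z => by rw [← mul_smul, s5, one_smul]
      have mem : ∀ m : Ω, s • m = m → y ∈ A m := fun m hm => ⟨hyω, hyι, hty, s, s1, s2, s3, s4, s5, hm⟩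
      right; right; right; right; right
      rcases hfixset (s • c) (hperm c htc) with h1 | h1 | h1
      · exact Or.inl (mem c h1)
      · have h2 : s • d = c := by rw [← h1, hss]
        rcases hfixset (s • e) (hperm e hte) with h3 | h3 | h3
        · exact absurd (smul_left_cancel s (h3.trans h2.symm)) hed
        · exact absurd (smul_left_cancel s (h3.trans h1.symm)) hec
        · exact Or.inr (Or.inr (mem e h3))
      · have h2 : s • e = c := by rw [← h1, hss]
        rcases hfixset (s • d) (hperm d htd) with h3 | h3 | h3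
        · exact absurd (smul_left_cancel s (h3.trans h2.symm)) hed.symm
        · exact Or.inr (Or.inl (mem d h3))
        · exact absurd (smul_left_cancel s (h3.trans h1.symm)) hcd.symm
    have hfc := hA c htc
    have hfd := hA d htd
    have hfe := hA e hte
    have hBfin : (A c ∪ A d ∪ A e).Finite := (hfc.1.union hfd.1).union hfe.1
    have hBcard : (A c ∪ A d ∪ A e).ncard ≤ 6 := by
      have h1 := Set.ncard_union_le (A c ∪ A d) (A e)
      have h2 := Set.ncard_union_le (A c) (A d)
      omega
    have hUfin : (insert ω (insert ι (insert c (insert d (insert e (A c ∪ A d ∪ A e)))))).Finite :=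
      ((((hBfin.insert _).insert _).insert _).insert _).insert _
    have hU : insert ω (insert ι (insert c (insert d (insert e (A c ∪ A d ∪ A e))))) = Set.univ := by
      rw [Set.eq_univ_iff_forall]
      intro y
      simp only [Set.mem_insert_iff, Set.mem_union]
      rcases hcover y with h | h | h | h | h | h | h | h
      · exact Or.inl h
      · exact Or.inr (Or.inl h)
      · exact Or.inr (Or.inr (Or.inl h))
      · exact Or.inr (Or.inr (Or.inr (Or.inl h)))
      · exact Or.inr (Or.inr (Or.inr (Or.inr (Or.inl h))))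
      · exact Or.inr (Or.inr (Or.inr (Or.inr (Or.inr (Or.inl (Or.inl h))))))
      · exact Or.inr (Or.inr (Or.inr (Or.inr (Or.inr (Or.inl (Or.inr h))))))
      · exact Or.inr (Or.inr (Or.inr (Or.inr (Or.inr (Or.inr h)))))
    have hUcard := Set.ncard_insert_le ω
      (insert ι (insert c (insert d (insert e (A c ∪ A d ∪ A e)))))
    have hUcard2 := Set.ncard_insert_le ι (insert c (insert d (insert e (A c ∪ A d ∪ A e))))
    have hUcard3 := Set.ncard_insert_le c (insert d (insert e (A c ∪ A d ∪ A e)))
    have hUcard4 := Set.ncard_insert_le d (insert e (A c ∪ A d ∪ A e))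
    have hUcard5 := Set.ncard_insert_le e (A c ∪ A d ∪ A e)
    rw [hU] at hUcard hUfin
    have hfinΩ : Finite Ω := Set.finite_univ_iff.mp hUfin
    have hcard : Nat.card Ω ≤ 11 := by
      rw [← Set.ncard_univ]
      omega
    refine ⟨hfinΩ, hcard, fun heven => ?_⟩
    exfalso
    haveI := Fintype.ofFinite Ω
    let σ : Equiv.Perm Ω := MulAction.toPerm t
    have hσ : ∀ x, σ x = t • x := fun _ => rfl
    have hσ2 : σ ^ 2 = 1 := by
      ext x
      rw [sq, Equiv.Perm.mul_apply, hσ, hσ, htt]
      rfl
    have h2 := Equiv.Perm.two_dvd_card_support hσ2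
    have hcompl : σ.supportᶜ = {c, d, e} := by
      ext z
      simp only [Finset.mem_compl, Equiv.Perm.mem_support, ne_eq, not_not, hσ, Finset.mem_insert,
        Finset.mem_singleton]
      constructor
      · exact hfixset z
      · rintro (rfl | rfl | rfl)
        · exact htc
        · exact htd
        · exact hte
    have h3 : ({c, d, e} : Finset Ω).card = 3 :=
      Finset.card_eq_three.mpr ⟨c, d, e, hcd, hec.symm, hed.symm, rfl⟩
    have h4' := Finset.card_compl σ.support
    rw [hcompl, h3] at h4'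
    have h5 := Finset.card_le_univ σ.support
    rw [Nat.card_eq_fintype_card] at heven
    obtain ⟨k, hk⟩ := heven
    omega
  · -- two fixed points
    push Not at h3
    have hfixset : ∀ z : Ω, t • z = z → z = c ∨ z = d := by
      intro z hz
      by_cases h : z = c
      · exact Or.inl h
      · exact Or.inr (h3 z hz h)
    obtain ⟨u₀, hu1, hu2, hu3, hu4⟩ := exists_move4 h4 (a := ω) (b := ι) (c := c) (d := d)
      (a' := ω) (b' := ι) (c' := d) (d' := c) hωι hωc hωd hιc hιd hcd
      hωι hωd hωc hιd hιc hcd.symm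
    have hw : u₀ * t ≠ 1 := by
      intro h
      have := congrArg (fun g : G => g • ω) h
      simp only [mul_smul, htω, hu2, one_smul] at this
      exact hωι this.symm
    have hcover : ∀ y : Ω, y = ω ∨ y = ι ∨ y = c ∨ y = d ∨ y ∈ {y : Ω | (u₀ * t) • y = y} := by
      intro y
      by_cases hyω : y = ω
      · exact Or.inl hyω
      by_cases hyι : y = ι
      · exact Or.inr (Or.inl hyι)
      by_cases hty : t • y = y
      · rcases hfixset y hty with h | h
        · exact Or.inr (Or.inr (Or.inl h))
        · exact Or.inr (Or.inr (Or.inr (Or.inl h)))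
      obtain ⟨s, s1, s2, s3, s4, s5, s6⟩ := hsx y hyω hyι hty
      have hperm : ∀ m : Ω, t • m = m → t • (s • m) = s • m := by
        intro m hm
        rw [← mul_smul, ← s6, mul_smul, hm]
      have hss : ∀ z : Ω, s • (s • z) = z := fun z => by rw [← mul_smul, s5, one_smul]
      right; right; right; right
      rcases hfixset (s • c) (hperm c htc) with h1 | h1
      · exfalso
        rcases hfixset (s • d) (hperm d htd) with h2 | h2
        · exact hcd (smul_left_cancel s (h1.trans h2.symm))
        · have hs1 := fix4 hsharp (g := s) hωι hωc hωd hιc hιd hcd s1 s2 h1 h2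
          rw [hs1, one_smul] at s3
          exact hty s3.symm
      · have h2 : s • d = c := by rw [← h1, hss]
        have hs : s = u₀ := agree4 hsharp hωι hωc hωd hιc hιd hcd (by rw [s1, hu1]) (by rw [s2, hu2])
          (by rw [h1, hu3]) (by rw [h2, hu4])
        subst hs
        change (s * t) • y = y
        rw [mul_smul, s4]
    obtain ⟨hfin, hle⟩ := fix_card hsharp hw
    set F := {y : Ω | (u₀ * t) • y = y} with hF
    have hUfin : (insert ω (insert ι (insert c (insert d F)))).Finite :=
      (((hfin.insert _).insert _).insert _).insert _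
    have hU : insert ω (insert ι (insert c (insert d F))) = Set.univ := by
      rw [Set.eq_univ_iff_forall]
      intro y
      simp only [Set.mem_insert_iff]
      exact hcover y
    have hUcard := Set.ncard_insert_le ω (insert ι (insert c (insert d F)))
    have hUcard2 := Set.ncard_insert_le ι (insert c (insert d F))
    have hUcard3 := Set.ncard_insert_le c (insert d F)
    have hUcard4 := Set.ncard_insert_le d F
    rw [hU] at hUcard hUfin
    have hfinΩ : Finite Ω := Set.finite_univ_iff.mp hUfin
    have hcard : Nat.card Ω ≤ 7 := by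
      rw [← Set.ncard_univ]
      omega
    haveI := Fintype.ofFinite Ω
    let σ : Equiv.Perm Ω := MulAction.toPerm t
    have hσ : ∀ x, σ x = t • x := fun _ => rfl
    have hσ2 : σ ^ 2 = 1 := by
      ext x
      rw [sq, Equiv.Perm.mul_apply, hσ, hσ, htt]
      rfl
    have h2 := Equiv.Perm.two_dvd_card_support hσ2
    have hcompl : σ.supportᶜ = {c, d} := by
      ext z
      simp only [Finset.mem_compl, Equiv.Perm.mem_support, ne_eq, not_not, hσ, Finset.mem_insert,
        Finset.mem_singleton]
      constructor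
      · exact hfixset z
      · rintro (rfl | rfl)
        · exact htc
        · exact htd
    have h3' : ({c, d} : Finset Ω).card = 2 := Finset.card_pair hcd
    have h4' := Finset.card_compl σ.support
    rw [hcompl, h3'] at h4'
    have h5 := Finset.card_le_univ σ.support
    have h6 : Nat.card Ω ≤ 6 := by
      rw [Nat.card_eq_fintype_card] at hcard ⊢
      omega
    exact ⟨hfinΩ, by omega, fun _ => h6⟩

/-- Tits' argument: a sharply 4-transitive group (no finiteness assumed) has finite degree at most 11, and at most 6 when the degree is even. -/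
theorem result {G : Type*} [Group G] {Ω : Type*} [MulAction G Ω] (h4 : MulAction.IsMultiplyPretransitive G Ω 4) (hsharp : ∀ x : Fin 4 ↪ Ω, MulAction.stabilizer G x = ⊥) (hne : Nonempty (Fin 4 ↪ Ω)) : Finite Ω ∧ Nat.card Ω ≤ 11 ∧ (Even (Nat.card Ω) → Nat.card Ω ≤ 6) := by

  exact tits h4 hsharp hne

end Cfsg.Agent.S0708
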