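import Cfsg.Statements.S0982
import Cfsg.Agent.Lib.H1Rigid

set_option autoImplicit false
open Cfsg

namespace Cfsg.Agent.S0982

set_option maxRecDepth 100000 in
theorem chk23 : Cfsg.Agent.Lib.H1Rigid.Chk 23 2 5 11 0 := by decide +kernel

set_option maxRecDepth 100000 in
theorem cov23 : ∀ x : ZMod 23, x ≠ 0 → (∃ i < 11, (2 : ZMod 23) ^ i * 1 = x) ∨ (∃ i < 11, (2 : ZMod 23) ^ i * 5 = x) := by decide +kernel

theorem two23 : (2 : ZMod 23) ≠ 0 := by decide
theorem three23 : (5 : ZMod 23) ≠ 0 := by decide
theorem pow23 : (2 : ZMod 23) ^ 11 = 1 := by decide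

/-- A simple group of order 6072 is isomorphic to the projective special linear group of dimension 2 over the field with 23 elements. -/
theorem result {G : Type*} [Group G] [Finite G] [IsSimpleGroup G] (h : Nat.card G = 6072) {F : Type*} [Field F] [Fintype F] (hF : Fintype.card F = 23) : Nonempty (G ≃* Matrix.ProjectiveSpecialLinearGroup (Fin 2) F) := by

  haveI : Fact (Nat.Prime 23) := ⟨by norm_num⟩
  let r : (ZMod 23)ˣ := Units.mk0 2 two23
  let n : (ZMod 23)ˣ := Units.mk0 5 three23
  exact Cfsg.Agent.Lib.H1Rigid.iso_PSL2 (q := 23) hF 264 (by rw [h]) (by norm_num) (by norm_num) (by norm_num) (by decide) (by norm_num)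
    (by decide +kernel) r n (by apply Units.ext; exact pow23) cov23 chk23

end Cfsg.Agent.S0982
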