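import Cfsg.Statements.S1020
import Cfsg.Agent.Lib.H1Rigid

set_option autoImplicit false
open Cfsg

namespace Cfsg.Agent.S1020

set_option maxRecDepth 100000 in
theorem chk17 : Cfsg.Agent.Lib.H1Rigid.Chk 17 2 3 8 0 := by decide +kernel

set_option maxRecDepth 100000 in
theorem cov17 : ∀ x : ZMod 17, x ≠ 0 → (∃ i < 8, (2 : ZMod 17) ^ i * 1 = x) ∨ (∃ i < 8, (2 : ZMod 17) ^ i * 3 = x) := by decide +kernel

theorem two17 : (2 : ZMod 17) ≠ 0 := by decide
theorem three17 : (3 : ZMod 17) ≠ 0 := by decide
theorem pow17 : (2 : ZMod 17) ^ 8 = 1 := by decide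

/-- A simple group of order 2448 is isomorphic to the projective special linear group of dimension 2 over the field with 17 elements. -/
theorem result {G : Type*} [Group G] [Finite G] [IsSimpleGroup G] (h : Nat.card G = 2448) {F : Type*} [Field F] [Fintype F] (hF : Fintype.card F = 17) : Nonempty (G ≃* Matrix.ProjectiveSpecialLinearGroup (Fin 2) F) := by

  haveI : Fact (Nat.Prime 17) := ⟨by norm_num⟩
  let r : (ZMod 17)ˣ := Units.mk0 2 two17
  let n : (ZMod 17)ˣ := Units.mk0 3 three17
  exact Cfsg.Agent.Lib.H1Rigid.iso_PSL2 (q := 17) hF 144 (by rw [h]) (by norm_num) (by norm_num) (by norm_num) (by decide) (by norm_num)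
    (by decide +kernel) r n (by apply Units.ext; exact pow17) cov17 chk17

end Cfsg.Agent.S1020
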