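import Cfsg.Statements.S1021
import Cfsg.Agent.Lib.H1Rigid

set_option autoImplicit false
open Cfsg

namespace Cfsg.Agent.S1021

set_option maxRecDepth 100000 in
theorem chk19 : Cfsg.Agent.Lib.H1Rigid.Chk 19 4 2 9 0 := by decide +kernel

set_option maxRecDepth 100000 in
theorem cov19 : ∀ x : ZMod 19, x ≠ 0 → (∃ i < 9, (4 : ZMod 19) ^ i * 1 = x) ∨ (∃ i < 9, (4 : ZMod 19) ^ i * 2 = x) := by decide +kernel

theorem two19 : (4 : ZMod 19) ≠ 0 := by decide
theorem three19 : (2 : ZMod 19) ≠ 0 := by decide
theorem pow19 : (4 : ZMod 19) ^ 9 = 1 := by decide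

/-- A simple group of order 3420 is isomorphic to the projective special linear group of dimension 2 over the field with 19 elements. -/
theorem result {G : Type*} [Group G] [Finite G] [IsSimpleGroup G] (h : Nat.card G = 3420) {F : Type*} [Field F] [Fintype F] (hF : Fintype.card F = 19) : Nonempty (G ≃* Matrix.ProjectiveSpecialLinearGroup (Fin 2) F) := by

  haveI : Fact (Nat.Prime 19) := ⟨by norm_num⟩
  let r : (ZMod 19)ˣ := Units.mk0 4 two19
  let n : (ZMod 19)ˣ := Units.mk0 2 three19
  exact Cfsg.Agent.Lib.H1Rigid.iso_PSL2 (q := 19) hF 180 (by rw [h]) (by norm_num) (by norm_num) (by norm_num) (by decide) (by norm_num)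
    (by decide +kernel) r n (by apply Units.ext; exact pow19) cov19 chk19

end Cfsg.Agent.S1021
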