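import Cfsg.Statements.S1302
import Mathlib
import Cfsg.Agent.Lib.H9Baer2
import Cfsg.Agent.Lib.Comp3
import Cfsg.Agent.Lib.H1Cop
import Cfsg.Agent.Lib.H1Fit

set_option autoImplicit false
open Cfsg

namespace Cfsg.Agent.S1302

open Cfsg Subgroup
open scoped commutatorElement

section
variable {Y : Type*} [Group Y] [Finite Y] {p : ℕ} [hp : Fact p.Prime]

/-- The statement in the quotient. -/
theorem main_quot (hp2 : p ≠ 2) (hO : pPrimeCore p Y = ⊥)
    (hC : centralizer (pCore p Y : Set Y) ≤ pCore p Y) (A : Subgroup Y) (hAp : IsPGroup p A)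
    (hΩ : ∀ x ∈ centralizer (A : Set Y), orderOf x = p → x ∈ A) (Q : Subgroup Y) (hQ : ¬ p ∣ Nat.card Q)
    (hAQ : A ≤ normalizer (Q : Set Y)) : Q = ⊥ := by
  classical
  haveI hPn : (pCore p Y).Normal := Cfsg.Agent.Lib.H1Core.pCore_normal p Y
  set P := pCore p Y with hP
  have hPp : IsPGroup p P := Cfsg.Agent.Lib.H1Core.pCore_isPGroup p
  have hpp : Nat.Prime p := hp.out
  let φ : Y →* MulAut P := MulAut.conjNormal
  have hφ : ∀ (g : Y) (x : P), ((φ g x : P) : Y) = g * x * g⁻¹ := fun g x => MulAut.conjNormal_apply g x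
  have hinf : ∀ x ∈ P, x ∈ Q → x = 1 := by
    intro x hx hxQ
    obtain ⟨k, hk⟩ := hPp ⟨x, hx⟩
    have hk' : x ^ p ^ k = 1 := congrArg Subtype.val hk
    have h2 : x ^ Nat.card Q = 1 := by
      have := pow_card_eq_one' (G := Q) (x := ⟨x, hxQ⟩)
      exact congrArg Subtype.val this
    have hcop : (Nat.card Q).Coprime p := ((Nat.Prime.coprime_iff_not_dvd hpp).2 hQ).symm
    have hd1 := orderOf_dvd_of_pow_eq_one hk'
    have hd2 := orderOf_dvd_of_pow_eq_one h2
    exact orderOf_eq_one_iff.1 (Nat.eq_one_of_dvd_coprimes (hcop.pow_right k) hd2 hd1)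
  have hmain := Cfsg.Agent.Lib.H9Baer2.crit_fixed hp2 hPp (Q.map φ) (A.map φ)
    (Nat.Coprime.coprime_dvd_left (Subgroup.card_map_dvd _ _) ((Nat.Prime.coprime_iff_not_dvd hpp).2 hQ).symm)
    (hAp.map φ)
    (by
      rintro _ ⟨a, ha, rfl⟩ _ ⟨q, hq, rfl⟩
      exact ⟨a * q * a⁻¹, (Subgroup.le_normalizer_iff.1 hAQ) a ha q hq, by simp⟩)
    (by
      intro x hxp hxb _ hr
      obtain ⟨q, hq, rfl⟩ := hr
      by_cases hx1 : x = 1
      · rw [hx1, map_one]
      have hx1' : (x : Y) ≠ 1 := fun h => hx1 (Subtype.ext h)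
      have hxA : (x : Y) ∈ A := by
        apply hΩ
        · rw [mem_centralizer_iff]
          intro a ha
          have h1 := hxb (φ a) ⟨a, ha, rfl⟩
          have h2 := congrArg Subtype.val h1
          rw [hφ] at h2
          calc a * (x : Y) = (a * x * a⁻¹) * a := by group
            _ = x * a := by rw [h2]
        · exact orderOf_eq_prime (by exact_mod_cast congrArg Subtype.val hxp) hx1'
      apply Subtype.ext
      rw [hφ]
      have h3 : q * x * q⁻¹ * (x : Y)⁻¹ ∈ P :=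
        P.mul_mem (hPn.conj_mem _ x.2 q) (P.inv_mem x.2)
      have h4 : q * x * q⁻¹ * (x : Y)⁻¹ ∈ Q := by
        have e : q * (x : Y) * q⁻¹ * (x : Y)⁻¹ = q * ((x : Y) * q⁻¹ * (x : Y)⁻¹) := by group
        rw [e]
        exact Q.mul_mem hq ((Subgroup.le_normalizer_iff.1 hAQ) _ hxA _ (Q.inv_mem hq))
      have h5 := hinf _ h3 h4
      exact mul_inv_eq_one.1 h5)
  rw [eq_bot_iff]
  intro q hq
  rw [Subgroup.mem_bot]
  have h1 := hmain (φ q) ⟨q, hq, rfl⟩
  apply hinf q _ hq
  apply hC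
  rw [mem_centralizer_iff]
  intro x hx
  have h2 : φ q ⟨x, hx⟩ = ⟨x, hx⟩ := by rw [h1]; rfl
  have h3 := congrArg Subtype.val h2
  rw [hφ] at h3
  have h4 : q * x * q⁻¹ = x := h3
  calc x * q = (q * x * q⁻¹) * q := by rw [h4]
    _ = q * x := by group

end

/-- Let X be a finite p-constrained group, p an odd prime, and A an abelian p-subgroup of X containing every element of order p of C_X(A). Then every subgroup of X of order prime to p that is normalized by A lies in O_{p'}(X). -/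
theorem result {X : Type*} [Group X] [Finite X] (p : ℕ) [Fact p.Prime] (hp : p ≠ 2) (hX : Cfsg.IsPConstrained p X) (A : Subgroup X) (hA : IsMulCommutative ↥A) (hAp : IsPGroup p ↥A) (hΩ : ∀ x ∈ Subgroup.centralizer (A : Set X), orderOf x = p → x ∈ A) (Q : Subgroup X) (hQ : ¬ p ∣ Nat.card ↥Q) (hAQ : A ≤ Subgroup.normalizer (Q : Set X)) : Q ≤ Cfsg.pPrimeCore p X := by
  classical
  set N := pPrimeCore p X with hN
  set π := QuotientGroup.mk' N with hπ
  have hπs : Function.Surjective π := QuotientGroup.mk'_surjective N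
  have hO : pPrimeCore p (X ⧸ N) = ⊥ := Cfsg.Agent.Lib.H1Fit.pPrimeCore_quotient p
  have hpp : Nat.Prime p := Fact.out
  have hNcop : (Nat.card N).Coprime p := Cfsg.Agent.Lib.H1Core.pPrimeCore_coprime p
  -- `O_p` is self-centralizing
  have hC : centralizer (pCore p (X ⧸ N) : Set (X ⧸ N)) ≤ pCore p (X ⧸ N) := by
    have h1 := Cfsg.Agent.Lib.Comp3.pConstrained_iff.1 hX
    have h2 : layer (X ⧸ N) = ⊥ := by
      rw [← Cfsg.Agent.Lib.Comp2.pLayer_map, h1, Subgroup.map_bot]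
    have h3 := Cfsg.Agent.Lib.Comp.centralizer_fitting_le_iff.2 h2
    rwa [Cfsg.Agent.Lib.H1Fit.fitting_eq_pCore_of_pPrimeCore_eq_bot p hO] at h3
  -- the conditions in the quotient
  have hAsolv : Group.IsSolvable A := by
    haveI := hAp.isNilpotent
    infer_instance
  have hAN : A ≤ normalizer (N : Set X) := by
    rw [Subgroup.le_normalizer_iff]
    intro a _ x hx
    exact (Cfsg.Agent.Lib.H1Core.pPrimeCore_normal p X).conj_mem x hx a
  have hcopAN : (Nat.card A).Coprime (Nat.card N) := by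
    obtain ⟨k, hk⟩ := IsPGroup.iff_card.1 hAp
    rw [hk]
    exact Nat.Coprime.pow_left k hNcop.symm
  have hΩ' : ∀ x ∈ centralizer ((A.map π : Subgroup _) : Set (X ⧸ N)), orderOf x = p → x ∈ A.map π := by
    intro y hy hyo
    obtain ⟨k, rfl⟩ := hπs y
    have hk : ∀ a ∈ A, a * k * a⁻¹ * k⁻¹ ∈ N := by
      intro a ha
      have h1 := mem_centralizer_iff.1 hy (π a) (mem_map_of_mem _ ha)
      apply (QuotientGroup.eq_one_iff _).1
      show π (a * k * a⁻¹ * k⁻¹) = 1
      simp only [map_mul, map_inv]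
      rw [h1]; group
    obtain ⟨n, hn, hnk⟩ := Cfsg.Agent.Lib.H1Cop.coset_fixed hAN hcopAN (Or.inl hAsolv) hk
    set c := n * k with hc
    have hπc : π c = π k := by
      rw [hc, map_mul]
      have : π n = 1 := (QuotientGroup.eq_one_iff _).2 hn
      rw [this, one_mul]
    -- `c` centralizes `A`
    have hcC : c ∈ centralizer (A : Set X) := by
      rw [mem_centralizer_iff]
      intro a ha
      have h1 : c * a * c⁻¹ * a⁻¹ ∈ A :=
        A.mul_mem ((Subgroup.le_normalizer_iff.1 (Subgroup.zpowers_le.2 hnk)) c (mem_zpowers c) a ha) (A.inv_mem ha)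
      have h2 : c * a * c⁻¹ * a⁻¹ ∈ N := by
        apply (QuotientGroup.eq_one_iff _).1
        show π (c * a * c⁻¹ * a⁻¹) = 1
        have h3 := mem_centralizer_iff.1 hy (π a) (mem_map_of_mem _ ha)
        simp only [map_mul, map_inv, hπc]
        rw [← h3]; group
      have h4 : c * a * c⁻¹ * a⁻¹ = 1 := by
        obtain ⟨t, ht⟩ := hAp ⟨_, h1⟩
        have ht' : (c * a * c⁻¹ * a⁻¹) ^ p ^ t = 1 := congrArg Subtype.val ht
        have h5 : (c * a * c⁻¹ * a⁻¹) ^ Nat.card N = 1 := congrArg Subtype.val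
          (pow_card_eq_one' (G := N) (x := ⟨_, h2⟩))
        exact orderOf_eq_one_iff.1 (Nat.eq_one_of_dvd_coprimes (hNcop.pow_right t)
          (orderOf_dvd_of_pow_eq_one h5) (orderOf_dvd_of_pow_eq_one ht'))
      have h6 : c * a * c⁻¹ = a := mul_inv_eq_one.1 h4
      calc a * c = (c * a * c⁻¹) * c := by rw [h6]
        _ = c * a := by group
    -- take the `p`-part of `c`
    have hord : orderOf c ≠ 0 := (orderOf_pos c).ne'
    obtain ⟨a', m, hm, hcm⟩ : ∃ a' m, ¬ p ∣ m ∧ orderOf c = p ^ a' * m := by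
      obtain ⟨a', m, hm, h⟩ := Nat.exists_eq_pow_mul_and_not_dvd hord p hpp.ne_one
      exact ⟨a', m, hm, h⟩
    have hmcop : m.Coprime p := ((Nat.Prime.coprime_iff_not_dvd hpp).2 hm).symm
    obtain ⟨e, -, he⟩ := Nat.exists_mul_mod_eq_one_of_coprime hmcop hpp.one_lt
    set c₁ := c ^ (m * e) with hc₁
    have hyo' : (π k) ^ p = 1 := orderOf_dvd_iff_pow_eq_one.1 (dvd_of_eq hyo)
    have hπc₁ : π c₁ = π k := by
      rw [hc₁, map_pow, hπc]
      rw [← Nat.div_add_mod (m * e) p, he, pow_add, pow_mul, hyo', one_pow, one_mul, pow_one]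
    have hc₁C : c₁ ∈ centralizer (A : Set X) := pow_mem hcC _
    have hc₁1 : c₁ ≠ 1 := by
      intro h
      have : π k = 1 := by rw [← hπc₁, h, map_one]
      rw [this, orderOf_one] at hyo
      exact hpp.ne_one hyo.symm
    have hc₁pk : c₁ ^ p ^ a' = 1 := by
      have e1 : m * e * p ^ a' = orderOf c * e := by rw [hcm]; ring
      rw [hc₁, ← pow_mul, e1, pow_mul, pow_orderOf_eq_one, one_pow]
    have hc₁p : c₁ ^ p = 1 := by
      have h1 : c₁ ^ p ∈ N := by
        apply (QuotientGroup.eq_one_iff _).1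
        show π (c₁ ^ p) = 1
        rw [map_pow, hπc₁, hyo']
      have h2 : (c₁ ^ p) ^ Nat.card N = 1 := congrArg Subtype.val
        (pow_card_eq_one' (G := N) (x := ⟨_, h1⟩))
      have h3 : (c₁ ^ p) ^ p ^ a' = 1 := by
        rw [← pow_mul, mul_comm, pow_mul, hc₁pk, one_pow]
      exact orderOf_eq_one_iff.1 (Nat.eq_one_of_dvd_coprimes (hNcop.pow_right a')
          (orderOf_dvd_of_pow_eq_one h2) (orderOf_dvd_of_pow_eq_one h3))
    have hc₁o : orderOf c₁ = p := orderOf_eq_prime hc₁p hc₁1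
    have hc₁A : c₁ ∈ A := hΩ c₁ hc₁C hc₁o
    exact ⟨c₁, hc₁A, hπc₁⟩
  have hQ' : ¬ p ∣ Nat.card (Q.map π) := fun h => hQ (h.trans (Subgroup.card_map_dvd _ _))
  have hAQ' : A.map π ≤ normalizer ((Q.map π : Subgroup _) : Set (X ⧸ N)) := by
    rw [Subgroup.le_normalizer_iff]
    rintro _ ⟨a, ha, rfl⟩ _ ⟨q, hq, rfl⟩
    exact ⟨a * q * a⁻¹, (Subgroup.le_normalizer_iff.1 hAQ) a ha q hq, by simp⟩
  have hmain := main_quot hp hO hC (A.map π) (hAp.map π) hΩ' (Q.map π) hQ' hAQ'
  intro q hq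
  apply (QuotientGroup.eq_one_iff _).1
  have : π q ∈ Q.map π := mem_map_of_mem _ hq
  rw [hmain] at this
  exact this

end Cfsg.Agent.S1302
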