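import Cfsg.Statements.S1313
import Mathlib
import Cfsg.Agent.Lib.Comp

set_option autoImplicit false
open Cfsg

namespace Cfsg.Agent.S1313

open Cfsg.Agent.Lib.Comp

theorem card_ne_one {α : Type*} [Finite α] (a : α) : Nat.card {x : α // x ≠ a} = Nat.card α - 1 := by
  classical
  haveI := Fintype.ofFinite α
  rw [Nat.card_eq_fintype_card, Nat.card_eq_fintype_card, Fintype.card_subtype_compl]
  simp

/-- For a finite group H, |H| ≤ |F*(H)|!. -/
theorem result {H : Type*} [Group H] [Finite H] : Nat.card H ≤ Nat.factorial (Nat.card ↥(Cfsg.generalizedFittingSubgroup H)) := by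
  classical
  set F := Cfsg.generalizedFittingSubgroup H with hF
  haveI hFn : F.Normal := by rw [hF]; infer_instance
  let act : H → {x : ↥F // x ≠ 1} → {x : ↥F // x ≠ 1} := fun h x =>
    ⟨⟨h * (x.1 : H) * h⁻¹, hFn.conj_mem _ x.1.2 h⟩, by
      intro h1
      apply x.2
      have h2 := congrArg Subtype.val h1
      simp only [OneMemClass.coe_one] at h2
      apply Subtype.ext
      rw [mul_inv_eq_one, mul_eq_left] at h2
      exact h2⟩
  have hact1 : ∀ x, act 1 x = x := by
    intro x
    apply Subtype.ext
    apply Subtype.ext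
    simp [act]
  have hactm : ∀ g h x, act (g * h) x = act g (act h x) := by
    intro g h x
    apply Subtype.ext
    apply Subtype.ext
    simp [act, mul_assoc]
  let φ : H →* Equiv.Perm {x : ↥F // x ≠ 1} :=
    { toFun := fun h =>
        { toFun := act h
          invFun := act h⁻¹
          left_inv := fun x => by rw [← hactm, inv_mul_cancel, hact1]
          right_inv := fun x => by rw [← hactm, mul_inv_cancel, hact1] }
      map_one' := by
        ext x
        simp [hact1]
      map_mul' := by
        intro g h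
        ext x
        simp [hactm] }
  have hker : φ.ker ≤ F := by
    intro h hh
    apply centralizer_Fstar_le
    rw [Subgroup.mem_centralizer_iff]
    intro x hx
    by_cases hx1 : x = 1
    · simp [hx1]
    · have h1 : φ h ⟨⟨x, hx⟩, fun h2 => hx1 (congrArg Subtype.val h2)⟩ =
          ⟨⟨x, hx⟩, fun h2 => hx1 (congrArg Subtype.val h2)⟩ := by
        rw [MonoidHom.mem_ker.mp hh]
        rfl
      have h2 : h * x * h⁻¹ = x := congrArg (fun y => ((y : ↥F) : H)) (congrArg Subtype.val h1)
      rw [mul_inv_eq_iff_eq_mul] at h2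
      exact h2.symm
  have h1 : Nat.card H = Nat.card φ.ker * Nat.card φ.range := by
    rw [← Subgroup.index_ker, Subgroup.card_mul_index]
  have h2 : Nat.card φ.ker ≤ Nat.card F := Subgroup.card_le_of_le hker
  have h3 : Nat.card φ.range ≤ Nat.factorial (Nat.card F - 1) := by
    have h4 : Nat.card φ.range ≤ Nat.card (Equiv.Perm {x : ↥F // x ≠ 1}) :=
      Subgroup.card_le_card_group _
    have h5 : Nat.card (Equiv.Perm {x : ↥F // x ≠ 1}) = Nat.factorial (Nat.card F - 1) := by
      rw [← card_ne_one (1 : ↥F)]
      haveI := Fintype.ofFinite {x : ↥F // x ≠ 1}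
      rw [Nat.card_eq_fintype_card, Nat.card_eq_fintype_card, Fintype.card_perm]
    rwa [h5] at h4
  have hpos : 0 < Nat.card F := Nat.card_pos
  rw [h1]
  calc Nat.card φ.ker * Nat.card φ.range ≤ Nat.card F * Nat.factorial (Nat.card F - 1) :=
        Nat.mul_le_mul h2 h3
    _ = Nat.factorial (Nat.card F) := Nat.mul_factorial_pred hpos.ne'

end Cfsg.Agent.S1313
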