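import Cfsg.Statements.S1349
import Mathlib
import Cfsg.Agent.Lib.H9Hyp
import Cfsg.Agent.Lib.Comp
import Cfsg.Agent.Lib.H1Fit
import Cfsg.Agent.Lib.H1Frat
import Cfsg.Agent.Lib.H1Cop
import Cfsg.Agent.Lib.H1Cop2
import Cfsg.Agent.Lib.PMaxClass3

set_option autoImplicit false
open Cfsg

namespace Cfsg.Agent.S1349

open Cfsg Subgroup

section
variable {H : Type*} [Group H] [Finite H]

lemma card_lt_of_lt {X Y : Subgroup H} (h : X ≤ Y) (hne : X ≠ Y) : Nat.card X < Nat.card Y := by
  by_contra hlt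
  push Not at hlt
  exact hne (Subgroup.eq_of_le_of_card_ge h hlt)

/-- Eigenvector lemma modulo `W`. -/
theorem eigen_aux (A W : Subgroup H) (hA2 : ∀ a ∈ A, a * a = 1) (hAc : ∀ a ∈ A, ∀ b ∈ A, a * b = b * a)
    (hAW : A ≤ normalizer (W : Set H)) :
    ∀ (n : ℕ) (T : Subgroup H), Nat.card T = n → W ≤ T → T ≤ normalizer (W : Set H) →
      A ≤ normalizer (T : Set H) → (∀ x ∈ T, ∀ y ∈ T, x * y * x⁻¹ * y⁻¹ ∈ W) → T ≠ W →
      ∃ t ∈ T, t ∉ W ∧ ∀ a ∈ A, a * t * a⁻¹ * t⁻¹ ∈ W ∨ a * t * a⁻¹ * t ∈ W := by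
  intro n
  induction n using Nat.strong_induction_on with
  | _ n ih =>
    intro T hn hWT hTW hAT hcomm hne
    have hWn : ∀ g ∈ T, ∀ w ∈ W, g * w * g⁻¹ ∈ W := fun g hg w hw =>
      (Subgroup.le_normalizer_iff.1 hTW) g hg w hw
    have hAWn : ∀ g ∈ A, ∀ w ∈ W, g * w * g⁻¹ ∈ W := fun g hg w hw =>
      (Subgroup.le_normalizer_iff.1 hAW) g hg w hw
    have hATn : ∀ g ∈ A, ∀ w ∈ T, g * w * g⁻¹ ∈ T := fun g hg w hw =>
      (Subgroup.le_normalizer_iff.1 hAT) g hg w hw
    by_cases hall : ∀ x ∈ T, ∀ a ∈ A, a * x * a⁻¹ * x⁻¹ ∈ W ∨ a * x * a⁻¹ * x ∈ W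
    · have : ∃ t ∈ T, t ∉ W := by
        by_contra hcon
        push Not at hcon
        exact hne (le_antisymm hcon hWT)
      obtain ⟨t, ht, htW⟩ := this
      exact ⟨t, ht, htW, fun a ha => hall t ht a ha⟩
    · push Not at hall
      obtain ⟨x, hx, a, ha, h1, h2⟩ := hall
      let Tp : Subgroup H :=
        { carrier := {z | z ∈ T ∧ a * z * a⁻¹ * z⁻¹ ∈ W}
          one_mem' := ⟨T.one_mem, by simp [W.one_mem]⟩
          mul_mem' := by
            rintro z₁ z₂ ⟨hz₁, hz₁'⟩ ⟨hz₂, hz₂'⟩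
            refine ⟨T.mul_mem hz₁ hz₂, ?_⟩
            have e : a * (z₁ * z₂) * a⁻¹ * (z₁ * z₂)⁻¹ =
                (a * z₁ * a⁻¹ * z₁⁻¹) * (z₁ * (a * z₂ * a⁻¹ * z₂⁻¹) * z₁⁻¹) := by group
            rw [e]
            exact W.mul_mem hz₁' (hWn z₁ hz₁ _ hz₂')
          inv_mem' := by
            rintro z ⟨hz, hz'⟩
            refine ⟨T.inv_mem hz, ?_⟩
            have e : a * z⁻¹ * a⁻¹ * z⁻¹⁻¹ = z⁻¹ * (a * z * a⁻¹ * z⁻¹)⁻¹ * z⁻¹⁻¹ := by group
            rw [e]
            exact hWn z⁻¹ (T.inv_mem hz) _ (W.inv_mem hz') }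
      have hTp : ∀ z, z ∈ Tp ↔ z ∈ T ∧ a * z * a⁻¹ * z⁻¹ ∈ W := fun z => Iff.rfl
      have hTpT : Tp ≤ T := fun z hz => hz.1
      have hWTp : W ≤ Tp := fun w hw =>
        ⟨hWT hw, W.mul_mem (hAWn a ha w hw) (W.inv_mem hw)⟩
      have haxa : a * x * a⁻¹ ∈ T := hATn a ha x hx
      have haa : a * (a * x * a⁻¹) * a⁻¹ = x := by
        have : a⁻¹ = a := inv_eq_of_mul_eq_one_left (hA2 a ha)
        rw [this]
        calc a * (a * x * a) * a = (a * a) * x * (a * a) := by group
          _ = x := by rw [hA2 a ha]; group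
      set y := x * (a * x * a⁻¹) with hy
      have hyTp : y ∈ Tp := by
        refine ⟨T.mul_mem hx haxa, ?_⟩
        have e : a * y * a⁻¹ * y⁻¹ = (a * x * a⁻¹) * x * (a * x * a⁻¹)⁻¹ * x⁻¹ := by
          have e1 : a * y * a⁻¹ = (a * x * a⁻¹) * (a * (a * x * a⁻¹) * a⁻¹) := by rw [hy]; group
          rw [e1, haa, hy]; group
        rw [e]
        exact hcomm _ haxa _ hx
      have hyW : y ∉ W := by
        intro hyW
        apply h2
        have e : a * x * a⁻¹ * x = ((a * x * a⁻¹) * x * (a * x * a⁻¹)⁻¹ * x⁻¹) * y := by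
          rw [hy]; group
        rw [e]
        exact W.mul_mem (hcomm _ haxa _ hx) hyW
      have hxTp : x ∉ Tp := fun h => h1 h.2
      have hTpne : Tp ≠ T := fun h => hxTp (h ▸ hx)
      have hlt : Nat.card Tp < n := hn ▸ card_lt_of_lt hTpT hTpne
      have hATp : A ≤ normalizer (Tp : Set H) := by
        rw [Subgroup.le_normalizer_iff]
        rintro b hb z ⟨hz, hz'⟩
        refine ⟨hATn b hb z hz, ?_⟩
        have e : a * (b * z * b⁻¹) * a⁻¹ * (b * z * b⁻¹)⁻¹ = b * (a * z * a⁻¹ * z⁻¹) * b⁻¹ := by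
          have hab := hAc a ha b hb
          have e2 : (a * b)⁻¹ = a⁻¹ * b⁻¹ := by rw [hab]; group
          calc a * (b * z * b⁻¹) * a⁻¹ * (b * z * b⁻¹)⁻¹ = (a * b) * z * (a * b)⁻¹ * b * z⁻¹ * b⁻¹ := by group
            _ = (a * b) * z * (a⁻¹ * b⁻¹) * b * z⁻¹ * b⁻¹ := by rw [e2]
            _ = (a * b) * z * a⁻¹ * z⁻¹ * b⁻¹ := by group
            _ = (b * a) * z * a⁻¹ * z⁻¹ * b⁻¹ := by rw [hab]
            _ = b * (a * z * a⁻¹ * z⁻¹) * b⁻¹ := by group
        rw [e]
        exact hAWn b hb _ hz'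
      obtain ⟨t, ht, htW, hte⟩ := ih _ hlt Tp rfl hWTp (hTpT.trans hTW) hATp
        (fun p hp q hq => hcomm p (hTpT hp) q (hTpT hq)) (fun h => hyW (h ▸ hyTp))
      exact ⟨t, hTpT ht, htW, hte⟩

/-- Lifting a centralizing involution. -/
theorem lift_cent {X Y : Subgroup H} {a : H} (hn : ∀ g ∈ Y, ∀ x ∈ X, g * x * g⁻¹ ∈ X)
    (hc : ∀ y ∈ Y, (∀ x ∈ X, y * x = x * y) → y ∈ X) (hXY : X ≤ Y) (hodd : Odd (Nat.card Y))
    (haY : ∀ y ∈ Y, a * y * a⁻¹ ∈ Y) (ha2 : a * a = 1) (hax : ∀ x ∈ X, a * x = x * a) :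
    ∀ y ∈ Y, a * y = y * a := by
  intro y hy
  have hy' := haY y hy
  set z := y⁻¹ * (a * y * a⁻¹) with hz
  have hzY : z ∈ Y := Y.mul_mem (Y.inv_mem hy) hy'
  have hzX : z ∈ X := by
    refine hc z hzY fun x hx => ?_
    have h1 := hn y hy x hx
    have h2 : a * (y * x * y⁻¹) * a⁻¹ = y * x * y⁻¹ := by
      rw [hax _ h1]; group
    have h3 : a * x * a⁻¹ = x := by rw [hax x hx]; group
    have h4 : (a * y * a⁻¹) * x * (a * y * a⁻¹)⁻¹ = y * x * y⁻¹ := by
      calc (a * y * a⁻¹) * x * (a * y * a⁻¹)⁻¹ = a * y * (a⁻¹ * x * a) * y⁻¹ * a⁻¹ := by group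
        _ = a * y * x * y⁻¹ * a⁻¹ := by
            have : a⁻¹ * x * a = x := by
              calc a⁻¹ * x * a = a⁻¹ * (x * a) := by group
                _ = a⁻¹ * (a * x) := by rw [hax x hx]
                _ = x := by group
            rw [this]
        _ = a * (y * x * y⁻¹) * a⁻¹ := by group
        _ = y * x * y⁻¹ := h2
    calc z * x = y⁻¹ * ((a * y * a⁻¹) * x * (a * y * a⁻¹)⁻¹) * (a * y * a⁻¹) := by rw [hz]; group
      _ = y⁻¹ * (y * x * y⁻¹) * (a * y * a⁻¹) := by rw [h4]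
      _ = x * z := by rw [hz]; group
  have haz : a * z * a⁻¹ = z := by rw [hax z hzX]; group
  have hainv : a⁻¹ = a := inv_eq_of_mul_eq_one_left ha2
  have h5 : a * y * a⁻¹ = y * z := by rw [hz]; group
  have h6 : a * (a * y * a⁻¹) * a⁻¹ = y := by
    rw [hainv]
    calc a * (a * y * a) * a = (a * a) * y * (a * a) := by group
      _ = y := by rw [ha2]; group
  have h7 : y = y * z * z := by
    calc y = a * (a * y * a⁻¹) * a⁻¹ := h6.symm
      _ = a * (y * z) * a⁻¹ := by rw [h5]
      _ = (a * y * a⁻¹) * (a * z * a⁻¹) := by group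
      _ = y * z * z := by rw [h5, haz]
  have h8 : z * z = 1 := by
    have : y * 1 = y * (z * z) := by rw [mul_one, ← mul_assoc]; exact h7
    exact (mul_left_cancel this).symm
  have h9 : z = 1 := by
    have hz2 : z ^ 2 = 1 := by rw [pow_two]; exact h8
    have hd1 : orderOf z ∣ 2 := orderOf_dvd_of_pow_eq_one hz2
    have hd2 : orderOf z ∣ Nat.card Y := by
      have := orderOf_dvd_natCard (⟨z, hzY⟩ : Y)
      rwa [Subgroup.orderOf_mk] at this
    have hc : Nat.Coprime (Nat.card Y) 2 := Nat.coprime_two_right.2 hodd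
    exact orderOf_eq_one_iff.1 (Nat.eq_one_of_dvd_coprimes hc hd2 hd1)
  have h10 : a * y * a⁻¹ = y := by rw [h5, h9, mul_one]
  calc a * y = (a * y * a⁻¹) * a := by group
    _ = y * a := by rw [h10]

/-- A maximal abelian `A`-invariant normal subgroup of a nilpotent group is self-centralizing. -/
theorem exists_W (A F : Subgroup H) (hA2 : ∀ a ∈ A, a * a = 1) (hAc : ∀ a ∈ A, ∀ b ∈ A, a * b = b * a)
    (hAF : A ≤ normalizer (F : Set H)) (hnil : Group.IsNilpotent F) :
    ∃ W : Subgroup H, W ≤ F ∧ (∀ x ∈ W, ∀ y ∈ W, x * y = y * x) ∧ F ≤ normalizer (W : Set H) ∧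
      A ≤ normalizer (W : Set H) ∧ ∀ y ∈ F, (∀ x ∈ W, y * x = x * y) → y ∈ W := by
  classical
  let S : Set (Subgroup H) := {W | W ≤ F ∧ (∀ x ∈ W, ∀ y ∈ W, x * y = y * x) ∧
    F ≤ normalizer (W : Set H) ∧ A ≤ normalizer (W : Set H)}
  have hbot : (⊥ : Subgroup H) ∈ S := by
    refine ⟨bot_le, ?_, ?_, ?_⟩
    · intro x hx y hy
      rw [Subgroup.mem_bot] at hx hy
      rw [hx, hy]
    · rw [Subgroup.le_normalizer_iff]
      intro g _ x hx
      rw [Subgroup.mem_bot] at hx ⊢
      rw [hx]; group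
    · rw [Subgroup.le_normalizer_iff]
      intro g _ x hx
      rw [Subgroup.mem_bot] at hx ⊢
      rw [hx]; group
  obtain ⟨W, -, hW⟩ := S.toFinite.exists_le_maximal hbot
  obtain ⟨hWF, hWab, hFW, hAW⟩ := hW.prop
  refine ⟨W, hWF, hWab, hFW, hAW, ?_⟩
  intro y hyF hyc
  by_contra hyW
  have hFWn : ∀ g ∈ F, ∀ w ∈ W, g * w * g⁻¹ ∈ W := fun g hg w hw =>
    (Subgroup.le_normalizer_iff.1 hFW) g hg w hw
  have hAWn : ∀ g ∈ A, ∀ w ∈ W, g * w * g⁻¹ ∈ W := fun g hg w hw =>
    (Subgroup.le_normalizer_iff.1 hAW) g hg w hw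
  have hAFn : ∀ g ∈ A, ∀ w ∈ F, g * w * g⁻¹ ∈ F := fun g hg w hw =>
    (Subgroup.le_normalizer_iff.1 hAF) g hg w hw
  -- a central element of `C_F(W)/W`
  have hcentral : ∃ c ∈ F, c ∉ W ∧ (∀ x ∈ W, c * x = x * c) ∧ ∀ f ∈ F, f * c * f⁻¹ * c⁻¹ ∈ W := by
    haveI hWn : (W.subgroupOf F).Normal :=
      (Subgroup.normal_subgroupOf_iff_le_normalizer hWF).2 hFW
    haveI := hnil
    let C' : Subgroup F := (Subgroup.centralizer (W : Set H)).subgroupOf F
    haveI hC'n : C'.Normal := by
      refine ⟨fun n hn g => ?_⟩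
      have hn' : (n : H) ∈ Subgroup.centralizer (W : Set H) := hn
      show ((g * n * g⁻¹ : F) : H) ∈ Subgroup.centralizer (W : Set H)
      rw [Subgroup.mem_centralizer_iff] at hn' ⊢
      intro w hw
      have h1 : (g : H)⁻¹ * w * g ∈ W := by
        have := hFWn (g : H)⁻¹ (F.inv_mem g.2) w hw
        simpa using this
      have h2 := hn' _ h1
      simp only [Subgroup.coe_mul, Subgroup.coe_inv]
      calc w * ((g : H) * n * (g : H)⁻¹) = (g : H) * ((g : H)⁻¹ * w * g * n) * (g : H)⁻¹ := by group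
        _ = (g : H) * (n * ((g : H)⁻¹ * w * g)) * (g : H)⁻¹ := by rw [h2]
        _ = (g : H) * n * (g : H)⁻¹ * w := by group
    let Q := F ⧸ W.subgroupOf F
    let C2 : Subgroup Q := C'.map (QuotientGroup.mk' (W.subgroupOf F))
    haveI hC2n : C2.Normal := hC'n.map _ (QuotientGroup.mk'_surjective _)
    have hC2ne : C2 ≠ ⊥ := by
      intro h
      have h1 : QuotientGroup.mk' (W.subgroupOf F) (⟨y, hyF⟩ : F) ∈ C2 :=
        ⟨⟨y, hyF⟩, by
          show y ∈ Subgroup.centralizer (W : Set H)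
          rw [Subgroup.mem_centralizer_iff]
          intro w hw
          exact (hyc w hw).symm, rfl⟩
      rw [h, Subgroup.mem_bot, QuotientGroup.mk'_apply, QuotientGroup.eq_one_iff] at h1
      exact hyW h1
    have h2 := Cfsg.Agent.Lib.H1Frat.normal_inf_center_ne_bot C2 hC2ne
    rcases (C2 ⊓ Subgroup.center Q).bot_or_exists_ne_one with h | ⟨z, ⟨hz, hzc⟩, hz1⟩
    · exact absurd h h2
    obtain ⟨c, hc, rfl⟩ := hz
    have hcW : (c : H) ∉ W := by
      intro hcW
      apply hz1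
      rw [QuotientGroup.mk'_apply, QuotientGroup.eq_one_iff]
      exact hcW
    have hcC : (c : H) ∈ Subgroup.centralizer (W : Set H) := hc
    rw [Subgroup.mem_centralizer_iff] at hcC
    refine ⟨c, c.2, hcW, fun x hx => (hcC x hx).symm, fun f hf => ?_⟩
    have h3 := (Subgroup.mem_center_iff.1 hzc) (QuotientGroup.mk' (W.subgroupOf F) (⟨f, hf⟩ : F))
    have h4 : QuotientGroup.mk' (W.subgroupOf F) ((⟨f, hf⟩ : F) * c * (⟨f, hf⟩ : F)⁻¹ * c⁻¹) = 1 := by
      simp only [map_mul, map_inv]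
      rw [h3]
      group
    rw [QuotientGroup.mk'_apply, QuotientGroup.eq_one_iff] at h4
    exact h4
  obtain ⟨c, hcF, hcW, hcc, hcf⟩ := hcentral
  -- the subgroup `D`
  let D : Subgroup H :=
    { carrier := {d | d ∈ F ∧ (∀ x ∈ W, d * x = x * d) ∧ ∀ f ∈ F, f * d * f⁻¹ * d⁻¹ ∈ W}
      one_mem' := ⟨F.one_mem, by simp, by simp [W.one_mem]⟩
      mul_mem' := by
        rintro d₁ d₂ ⟨h1, h2, h3⟩ ⟨h4, h5, h6⟩
        refine ⟨F.mul_mem h1 h4, fun x hx => ?_, fun f hf => ?_⟩
        · rw [mul_assoc, h5 x hx, ← mul_assoc, h2 x hx, mul_assoc]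
        · have e : f * (d₁ * d₂) * f⁻¹ * (d₁ * d₂)⁻¹ =
              (f * d₁ * f⁻¹ * d₁⁻¹) * (d₁ * (f * d₂ * f⁻¹ * d₂⁻¹) * d₁⁻¹) := by group
          rw [e]
          exact W.mul_mem (h3 f hf) (hFWn d₁ h1 _ (h6 f hf))
      inv_mem' := by
        rintro d ⟨h1, h2, h3⟩
        refine ⟨F.inv_mem h1, fun x hx => ?_, fun f hf => ?_⟩
        · calc d⁻¹ * x = d⁻¹ * (x * d) * d⁻¹ := by group
            _ = d⁻¹ * (d * x) * d⁻¹ := by rw [h2 x hx]
            _ = x * d⁻¹ := by group
        · have e : f * d⁻¹ * f⁻¹ * d⁻¹⁻¹ = d⁻¹ * (f * d * f⁻¹ * d⁻¹)⁻¹ * d⁻¹⁻¹ := by group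
          rw [e]
          exact hFWn d⁻¹ (F.inv_mem h1) _ (W.inv_mem (h3 f hf)) }
  have hDmem : ∀ d, d ∈ D ↔ d ∈ F ∧ (∀ x ∈ W, d * x = x * d) ∧ ∀ f ∈ F, f * d * f⁻¹ * d⁻¹ ∈ W :=
    fun d => Iff.rfl
  have hWD : W ≤ D := fun w hw =>
    ⟨hWF hw, fun x hx => hWab w hw x hx, fun f hf => W.mul_mem (hFWn f hf w hw) (W.inv_mem hw)⟩
  have hDF : D ≤ F := fun d hd => hd.1
  have hcD : c ∈ D := ⟨hcF, hcc, hcf⟩
  have hAD : A ≤ normalizer (D : Set H) := by
    rw [Subgroup.le_normalizer_iff]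
    rintro a ha d ⟨h1, h2, h3⟩
    refine ⟨hAFn a ha d h1, fun x hx => ?_, fun f hf => ?_⟩
    · have h4 : a⁻¹ * x * a ∈ W := by
        have := hAWn a⁻¹ (A.inv_mem ha) x hx
        simpa using this
      have h5 := h2 _ h4
      calc a * d * a⁻¹ * x = a * (d * (a⁻¹ * x * a)) * a⁻¹ := by group
        _ = a * ((a⁻¹ * x * a) * d) * a⁻¹ := by rw [h5]
        _ = x * (a * d * a⁻¹) := by group
    · have h4 : a⁻¹ * f * a ∈ F := by
        have := hAFn a⁻¹ (A.inv_mem ha) f hf
        simpa using this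
      have e : f * (a * d * a⁻¹) * f⁻¹ * (a * d * a⁻¹)⁻¹ =
          a * ((a⁻¹ * f * a) * d * (a⁻¹ * f * a)⁻¹ * d⁻¹) * a⁻¹ := by group
      rw [e]
      exact hAWn a ha _ (h3 _ h4)
  obtain ⟨d, hdD, hdW, hde⟩ := eigen_aux A W hA2 hAc hAW _ D rfl hWD (hDF.trans hFW) hAD
    (fun x hx y hy => hy.2.2 x hx.1) (fun h => hcW (h ▸ hcD))
  obtain ⟨hdF, hdc, hdf⟩ := hdD
  -- the new subgroup
  have hmemW1 : d ∈ W ⊔ Subgroup.zpowers d := (le_sup_right : Subgroup.zpowers d ≤ _) (Subgroup.mem_zpowers d)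
  have hwW1 : W ≤ W ⊔ Subgroup.zpowers d := le_sup_left
  have hW1S : W ⊔ Subgroup.zpowers d ∈ S := by
    have hstab : ∀ g : H, (∀ w ∈ W, g * w * g⁻¹ ∈ W ⊔ Subgroup.zpowers d) →
        g * d * g⁻¹ ∈ W ⊔ Subgroup.zpowers d →
        ∀ x ∈ W ⊔ Subgroup.zpowers d, g * x * g⁻¹ ∈ W ⊔ Subgroup.zpowers d := by
      intro g h1 h2 x hx
      have hle : W ⊔ Subgroup.zpowers d ≤ (W ⊔ Subgroup.zpowers d).comap (MulAut.conj g).toMonoidHom := by
        refine sup_le (fun w hw => h1 w hw) ?_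
        rw [Subgroup.zpowers_le]
        exact h2
      exact hle hx
    refine ⟨sup_le hWF (by rw [Subgroup.zpowers_le]; exact hdF), ?_, ?_, ?_⟩
    · -- abelian
      have h1 : W ⊔ Subgroup.zpowers d ≤ Subgroup.centralizer (W : Set H) := by
        refine sup_le ?_ ?_
        · intro w hw
          rw [Subgroup.mem_centralizer_iff]
          intro x hx
          exact hWab x hx w hw
        · rw [Subgroup.zpowers_le, Subgroup.mem_centralizer_iff]
          intro x hx
          exact (hdc x hx).symm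
      have h2 : W ⊔ Subgroup.zpowers d ≤ Subgroup.centralizer ((Subgroup.zpowers d : Subgroup H) : Set H) := by
        refine sup_le ?_ ?_
        · intro w hw
          rw [Subgroup.mem_centralizer_iff]
          intro x hx
          obtain ⟨k, rfl⟩ := Subgroup.mem_zpowers_iff.1 hx
          have : Commute d w := hdc w hw
          exact (this.zpow_left k)
        · intro x hx
          rw [Subgroup.mem_centralizer_iff]
          intro y hy
          obtain ⟨k, rfl⟩ := Subgroup.mem_zpowers_iff.1 hx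
          obtain ⟨l, rfl⟩ := Subgroup.mem_zpowers_iff.1 hy
          exact (Commute.refl d).zpow_zpow l k
      have h3 : W ⊔ Subgroup.zpowers d ≤ Subgroup.centralizer ((W ⊔ Subgroup.zpowers d : Subgroup H) : Set H) := by
        rw [Subgroup.le_centralizer_iff]
        refine sup_le ?_ ?_
        · exact Subgroup.le_centralizer_iff.1 h1
        · exact Subgroup.le_centralizer_iff.1 h2
      intro x hx y hy
      have := Subgroup.mem_centralizer_iff.1 (h3 hy) x hx
      exact this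
    · rw [Subgroup.le_normalizer_iff]
      intro f hf
      refine hstab f (fun w hw => hwW1 (hFWn f hf w hw)) ?_
      have e : f * d * f⁻¹ = (f * d * f⁻¹ * d⁻¹) * d := by group
      rw [e]
      exact Subgroup.mul_mem _ (hwW1 (hdf f hf)) hmemW1
    · rw [Subgroup.le_normalizer_iff]
      intro a ha
      refine hstab a (fun w hw => hwW1 (hAWn a ha w hw)) ?_
      rcases hde a ha with h | h
      · have e : a * d * a⁻¹ = (a * d * a⁻¹ * d⁻¹) * d := by group
        rw [e]
        exact Subgroup.mul_mem _ (hwW1 h) hmemW1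
      · have e : a * d * a⁻¹ = (a * d * a⁻¹ * d) * d⁻¹ := by group
        rw [e]
        exact Subgroup.mul_mem _ (hwW1 h) (Subgroup.inv_mem _ hmemW1)
  have := hW.le_of_ge hW1S le_sup_left
  exact hdW (this hmemW1)

/-- index two lemma -/
theorem card_inf_cent {K : Subgroup H} {w a : H} (hwne : w ≠ w⁻¹)
    (he : ∀ b ∈ K, b * w * b⁻¹ = w ∨ b * w * b⁻¹ = w⁻¹) (ha : a ∈ K) (hi : a * w * a⁻¹ = w⁻¹) :
    Nat.card K = Nat.card (K ⊓ Subgroup.centralizer ({w} : Set H) : Subgroup H) * 2 := by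
  have hfix : ∀ b : H, b ∈ Subgroup.centralizer ({w} : Set H) ↔ b * w * b⁻¹ = w := by
    intro b
    rw [Subgroup.mem_centralizer_iff]
    constructor
    · intro h
      have := h w rfl
      rw [← this]; group
    · intro h x hx
      have hx' : x = w := hx
      subst hx'
      calc x * b = (b * x * b⁻¹) * b := by rw [h]
        _ = b * x := by group
  have hrel : (K ⊓ Subgroup.centralizer ({w} : Set H) : Subgroup H).relIndex K = 2 := by
    rw [Subgroup.relIndex, Subgroup.index_eq_two_iff]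
    refine ⟨⟨a, ha⟩, fun b => ?_⟩
    have hmem : ∀ c : K, c ∈ (K ⊓ Subgroup.centralizer ({w} : Set H) : Subgroup H).subgroupOf K ↔
        (c : H) * w * (c : H)⁻¹ = w := by
      intro c
      rw [Subgroup.mem_subgroupOf, Subgroup.mem_inf, hfix]
      exact ⟨fun h => h.2, fun h => ⟨c.2, h⟩⟩
    rw [hmem, hmem]
    have hprod : ((b * ⟨a, ha⟩ : K) : H) * w * ((b * ⟨a, ha⟩ : K) : H)⁻¹ = (b : H) * w⁻¹ * (b : H)⁻¹ := by
      simp only [Subgroup.coe_mul]
      rw [← hi]; group
    rw [hprod]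
    have hinv : (b : H) * w⁻¹ * (b : H)⁻¹ = ((b : H) * w * (b : H)⁻¹)⁻¹ := by group
    rw [hinv]
    rcases he b b.2 with h | h
    · rw [h]
      right
      exact ⟨rfl, fun h2 => hwne h2.symm⟩
    · rw [h, inv_inv]
      left
      exact ⟨rfl, fun h2 => hwne h2.symm⟩
  have := Cfsg.Agent.Lib.H9Hyp.rel_card (inf_le_left : K ⊓ Subgroup.centralizer ({w} : Set H) ≤ K)
  rw [hrel] at this
  rw [← this, mul_comm]

theorem card_inf_cent_le {K : Subgroup H} {w : H} (hwne : w ≠ w⁻¹)
    (he : ∀ b ∈ K, b * w * b⁻¹ = w ∨ b * w * b⁻¹ = w⁻¹) :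
    Nat.card K ≤ Nat.card (K ⊓ Subgroup.centralizer ({w} : Set H) : Subgroup H) * 2 := by
  by_cases h : ∃ a ∈ K, a * w * a⁻¹ = w⁻¹
  · obtain ⟨a, ha, hi⟩ := h
    exact (card_inf_cent hwne he ha hi).le
  · push Not at h
    have hle : K ≤ Subgroup.centralizer ({w} : Set H) := by
      intro b hb
      rw [Subgroup.mem_centralizer_iff]
      intro x hx
      have hx' : x = w := hx
      subst hx'
      have h1 : b * x * b⁻¹ = x := (he b hb).resolve_right (h b hb)
      calc x * b = (b * x * b⁻¹) * b := by rw [h1]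
        _ = b * x := by group
    rw [inf_eq_left.2 hle]
    omega

end

/-- Let G be finite, L ≤ G solvable of odd order, and A an elementary abelian 2-subgroup of order 2^d (d ≥ 1) normalizing L with C_A(L) = 1. Then there are subgroups A_1, …, A_d of A of order 2 generating A and subgroups L_1, …, L_d of L such that each A_i ⊔ L_i is dihedral of order 2 n_i with n_i odd and at least 3, and A_i ⊔ L_i commutes elementwise with A_j ⊔ L_j for i ≠ j. -/
theorem result {G : Type*} [Group G] [Finite G] (L A : Subgroup G) (hLs : Group.IsSolvable ↥L) (hLodd : Odd (Nat.card ↥L)) (hA : Cfsg.IsElementaryAbelian 2 A) (d : ℕ) (hd : 1 ≤ d) (hAd : Nat.card ↥A = 2 ^ d) (hAL : A ≤ Subgroup.normalizer (L : Set G)) (hfaith : A ⊓ Subgroup.centralizer (L : Set G) = ⊥) : ∃ (Ai : Fin d → Subgroup G) (Li : Fin d → Subgroup G) (n : Fin d → ℕ), (∀ i, Ai i ≤ A ∧ Nat.card ↥(Ai i) = 2 ∧ Li i ≤ L ∧ Odd (n i) ∧ 3 ≤ n i ∧ Nonempty (↥(Ai i ⊔ Li i) ≃* DihedralGroup (n i))) ∧ (⨆ i, Ai i) =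 A ∧ ∀ i j, i ≠ j → ∀ x ∈ Ai i ⊔ Li i, ∀ y ∈ Ai j ⊔ Li j, x * y = y * x := by
  classical
  haveI := hLs
  haveI hfact : Fact (Nat.Prime 2) := ⟨Nat.prime_two⟩
  have hA2 : ∀ a ∈ A, a * a = 1 := fun a ha => by rw [← pow_two]; exact hA.2 a ha
  have hAc : ∀ a ∈ A, ∀ b ∈ A, a * b = b * a := fun a ha b hb => Cfsg.Agent.Lib.H9Hyp.comm_of_ea hA ha hb
  -- the Fitting subgroup
  haveI hchar := Cfsg.Agent.Lib.Comp.fitting_characteristic (G := ↥L)
  set F : Subgroup G := (fittingSubgroup ↥L).map L.subtype with hF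
  have hFL : F ≤ L := Subgroup.map_subtype_le _
  have hAF : A ≤ normalizer (F : Set G) :=
    hAL.trans (Cfsg.Agent.Lib.H1Cop2.normalizer_le_normalizer_map_of_characteristic _)
  have hLF : ∀ g ∈ L, ∀ x ∈ F, g * x * g⁻¹ ∈ F := by
    intro g hg x hx
    obtain ⟨y, hy, rfl⟩ := hx
    refine ⟨⟨g, hg⟩ * y * ⟨g, hg⟩⁻¹, ?_, rfl⟩
    exact (Cfsg.Agent.Lib.Comp.fitting_normal' (G := ↥L)).conj_mem y hy _
  have hFc : ∀ y ∈ L, (∀ x ∈ F, y * x = x * y) → y ∈ F := by
    intro y hy hc
    refine ⟨⟨y, hy⟩, ?_, rfl⟩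
    apply Cfsg.Agent.Lib.H1Fit.centralizer_fitting_le
    rw [Subgroup.mem_centralizer_iff]
    intro x hx
    apply Subtype.ext
    exact (hc x ⟨x, hx, rfl⟩).symm
  have hnil : Group.IsNilpotent F :=
    Cfsg.Agent.Lib.Comp.map_subtype_nilp _ Cfsg.Agent.Lib.H1Core.fittingSubgroup_isNilpotent
  obtain ⟨W, hWF, hWab, hFW, hAW, hWc⟩ := exists_W A F hA2 hAc hAF hnil
  have hFodd : Odd (Nat.card F) := Odd.of_dvd_nat hLodd (Subgroup.card_dvd_of_le hFL)
  have hALn : ∀ a ∈ A, ∀ y ∈ L, a * y * a⁻¹ ∈ L := fun a ha y hy =>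
    (Subgroup.le_normalizer_iff.1 hAL) a ha y hy
  have hAFn : ∀ a ∈ A, ∀ y ∈ F, a * y * a⁻¹ ∈ F := fun a ha y hy =>
    (Subgroup.le_normalizer_iff.1 hAF) a ha y hy
  have hAWn : ∀ a ∈ A, ∀ y ∈ W, a * y * a⁻¹ ∈ W := fun a ha y hy =>
    (Subgroup.le_normalizer_iff.1 hAW) a ha y hy
  have hfaithW : ∀ a ∈ A, (∀ x ∈ W, a * x = x * a) → a = 1 := by
    intro a ha hax
    have h1 := lift_cent (X := W) (Y := F) (a := a) (fun g hg x hx => (Subgroup.le_normalizer_iff.1 hFW) g hg x hx)
      hWc hWF hFodd (hAFn a ha) (hA2 a ha) hax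
    have h2 := lift_cent (X := F) (Y := L) (a := a) hLF hFc hFL hLodd (hALn a ha) (hA2 a ha) h1
    have h3 : a ∈ A ⊓ Subgroup.centralizer (L : Set G) :=
      ⟨ha, by
        show a ∈ Subgroup.centralizer (L : Set G)
        rw [Subgroup.mem_centralizer_iff]
        intro x hx
        exact (h2 x hx).symm⟩
    rw [hfaith] at h3
    simpa using h3
  have hWL : W ≤ L := hWF.trans hFL
  have hne : ∀ w ∈ L, w ≠ 1 → w ≠ w⁻¹ := by
    intro w hw hw1 h
    have h2 : w ^ 2 = 1 := by
      rw [pow_two]; nth_rewrite 2 [h]; group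
    have hd1 : orderOf w ∣ 2 := orderOf_dvd_of_pow_eq_one h2
    have hd2 : orderOf w ∣ Nat.card L := by
      have := orderOf_dvd_natCard (⟨w, hw⟩ : L)
      rwa [Subgroup.orderOf_mk] at this
    have hc : Nat.Coprime (Nat.card L) 2 := Nat.coprime_two_right.2 hLodd
    exact hw1 (orderOf_eq_one_iff.1 (Nat.eq_one_of_dvd_coprimes hc hd2 hd1))
  let eig : G → Prop := fun w => w ∈ W ∧ w ≠ 1 ∧ ∀ b ∈ A, b * w * b⁻¹ = w ∨ b * w * b⁻¹ = w⁻¹
  have hsep : ∀ a ∈ A, a ≠ 1 → ∃ w, eig w ∧ a * w * a⁻¹ = w⁻¹ := by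
    intro a ha ha1
    have h0 : ∃ w₀ ∈ W, a * w₀ ≠ w₀ * a := by
      by_contra hcon
      push Not at hcon
      exact ha1 (hfaithW a ha hcon)
    obtain ⟨w₀, hw₀, hw₀a⟩ := h0
    have hainv : a⁻¹ = a := inv_eq_of_mul_eq_one_left (hA2 a ha)
    let T : Subgroup G :=
      { carrier := {x | x ∈ W ∧ a * x * a⁻¹ = x⁻¹}
        one_mem' := ⟨W.one_mem, by simp⟩
        mul_mem' := by
          rintro x y ⟨h1, h2⟩ ⟨h3, h4⟩
          refine ⟨W.mul_mem h1 h3, ?_⟩
          have e : a * (x * y) * a⁻¹ = (a * x * a⁻¹) * (a * y * a⁻¹) := by group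
          rw [e, h2, h4, hWab x h1 y h3]
          group
        inv_mem' := by
          rintro x ⟨h1, h2⟩
          refine ⟨W.inv_mem h1, ?_⟩
          have e : a * x⁻¹ * a⁻¹ = (a * x * a⁻¹)⁻¹ := by group
          rw [e, h2] }
    set t := w₀⁻¹ * (a * w₀ * a⁻¹) with ht
    have htT : t ∈ T := by
      have hm : a * w₀ * a⁻¹ ∈ W := hAWn a ha w₀ hw₀
      refine ⟨W.mul_mem (W.inv_mem hw₀) hm, ?_⟩
      have e1 : a * t * a⁻¹ = (a * w₀ * a⁻¹)⁻¹ * (a * (a * w₀ * a⁻¹) * a⁻¹) := by rw [ht]; group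
      have e2 : a * (a * w₀ * a⁻¹) * a⁻¹ = w₀ := by
        rw [hainv]
        calc a * (a * w₀ * a) * a = (a * a) * w₀ * (a * a) := by group
          _ = w₀ := by rw [hA2 a ha]; group
      rw [e1, e2, ht]
      group
    have ht1 : t ≠ 1 := by
      intro h
      apply hw₀a
      have : w₀⁻¹ * (a * w₀ * a⁻¹) = 1 := h
      have h2 : a * w₀ * a⁻¹ = w₀ := by
        have := eq_of_inv_mul_eq_one this
        exact this.symm
      calc a * w₀ = (a * w₀ * a⁻¹) * a := by group
        _ = w₀ * a := by rw [h2]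
    have hTne : T ≠ ⊥ := by
      intro h
      rw [h, Subgroup.mem_bot] at htT
      exact ht1 htT
    have hbotN : A ≤ normalizer ((⊥ : Subgroup G) : Set G) := by
      rw [Subgroup.le_normalizer_iff]
      intro g _ x hx
      rw [Subgroup.mem_bot] at hx ⊢
      rw [hx]; group
    have hTbotN : T ≤ normalizer ((⊥ : Subgroup G) : Set G) := by
      rw [Subgroup.le_normalizer_iff]
      intro g _ x hx
      rw [Subgroup.mem_bot] at hx ⊢
      rw [hx]; group
    have hAT : A ≤ normalizer (T : Set G) := by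
      rw [Subgroup.le_normalizer_iff]
      rintro b hb x ⟨h1, h2⟩
      refine ⟨hAWn b hb x h1, ?_⟩
      have hab := hAc a ha b hb
      have hab' : (a * b)⁻¹ = (b * a)⁻¹ := by rw [hab]
      calc a * (b * x * b⁻¹) * a⁻¹ = (a * b) * x * (a * b)⁻¹ := by group
        _ = (b * a) * x * (b * a)⁻¹ := by rw [hab]
        _ = b * (a * x * a⁻¹) * b⁻¹ := by group
        _ = b * x⁻¹ * b⁻¹ := by rw [h2]
        _ = (b * x * b⁻¹)⁻¹ := by group
    obtain ⟨w, hwT, hwb, hwe⟩ := eigen_aux A ⊥ hA2 hAc hbotN _ T rfl bot_le hTbotN hAT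
      (fun x hx y hy => by
        rw [hWab x hx.1 y hy.1]
        simp) hTne
    rw [Subgroup.mem_bot] at hwb
    refine ⟨w, ⟨hwT.1, hwb, fun b hb => ?_⟩, hwT.2⟩
    rcases hwe b hb with h | h
    · left
      rw [Subgroup.mem_bot] at h
      exact eq_of_mul_inv_eq_one h
    · right
      rw [Subgroup.mem_bot] at h
      exact eq_inv_of_mul_eq_one_left h
  -- counting
  have hwne : ∀ w, eig w → w ≠ w⁻¹ := fun w hw => hne w (hWL hw.1) hw.2.1
  have hK_insert : ∀ (T : Finset G) (w : G), A ⊓ Subgroup.centralizer (((insert w T : Finset G) : Finset G) : Set G) =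
      (A ⊓ Subgroup.centralizer ((T : Finset G) : Set G)) ⊓ Subgroup.centralizer ({w} : Set G) := by
    intro T w
    ext x
    simp only [Subgroup.mem_inf, Subgroup.mem_centralizer_iff, Finset.coe_insert, Set.mem_insert_iff,
      Finset.mem_coe, Set.mem_singleton_iff, forall_eq_or_imp, forall_eq]
    tauto
  have hcount : ∀ T : Finset G, (∀ w ∈ T, eig w) →
      Nat.card A ≤ Nat.card (A ⊓ Subgroup.centralizer ((T : Finset G) : Set G) : Subgroup G) * 2 ^ T.card := by
    intro T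
    induction T using Finset.induction_on with
    | empty =>
      intro _
      have : A ⊓ Subgroup.centralizer (((∅ : Finset G) : Finset G) : Set G) = A := by
        apply inf_eq_left.2
        intro x _
        rw [Subgroup.mem_centralizer_iff]
        intro y hy
        simp at hy
      rw [this]
      simp
    | insert w T hw ih =>
      intro hall
      have h1 := ih (fun x hx => hall x (Finset.mem_insert_of_mem hx))
      have hw' := hall w (Finset.mem_insert_self _ _)
      rw [hK_insert, Finset.card_insert_of_notMem hw]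
      have h2 := card_inf_cent_le (K := A ⊓ Subgroup.centralizer ((T : Finset G) : Set G)) (hwne w hw')
        (fun b hb => hw'.2.2 b hb.1)
      calc Nat.card A ≤ _ := h1
        _ ≤ (Nat.card ((A ⊓ Subgroup.centralizer ((T : Finset G) : Set G)) ⊓ Subgroup.centralizer ({w} : Set G) : Subgroup G) * 2) * 2 ^ T.card :=
            Nat.mul_le_mul_right _ h2
        _ = _ := by rw [pow_succ]; ring
  have hgreedy : ∀ k, k ≤ d → ∃ T : Finset G, T.card = k ∧ (∀ w ∈ T, eig w) ∧
      Nat.card (A ⊓ Subgroup.centralizer ((T : Finset G) : Set G) : Subgroup G) * 2 ^ k = 2 ^ d := by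
    intro k
    induction k with
    | zero =>
      intro _
      refine ⟨∅, rfl, by simp, ?_⟩
      have : A ⊓ Subgroup.centralizer (((∅ : Finset G) : Finset G) : Set G) = A := by
        apply inf_eq_left.2
        intro x _
        rw [Subgroup.mem_centralizer_iff]
        intro y hy
        simp at hy
      rw [this, hAd]
      simp
    | succ k ih =>
      intro hk
      obtain ⟨T, hTc, hTe, hTk⟩ := ih (by omega)
      have hKne : A ⊓ Subgroup.centralizer ((T : Finset G) : Set G) ≠ ⊥ := by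
        intro h
        rw [h, Subgroup.card_bot, one_mul] at hTk
        have := Nat.pow_right_injective (le_refl 2) hTk
        omega
      rcases (A ⊓ Subgroup.centralizer ((T : Finset G) : Set G)).bot_or_exists_ne_one with h | ⟨a, ⟨haA, haT⟩, ha1⟩
      · exact absurd h hKne
      obtain ⟨w, hw, hwa⟩ := hsep a haA ha1
      have hwT : w ∉ T := by
        intro hmem
        have h1 := Subgroup.mem_centralizer_iff.1 haT w hmem
        apply hwne w hw
        rw [← hwa, ← h1]
        group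
      refine ⟨insert w T, by rw [Finset.card_insert_of_notMem hwT, hTc], ?_, ?_⟩
      · intro x hx
        rcases Finset.mem_insert.1 hx with rfl | hx
        · exact hw
        · exact hTe x hx
      · rw [hK_insert]
        have h2 := card_inf_cent (K := A ⊓ Subgroup.centralizer ((T : Finset G) : Set G)) (hwne w hw)
          (fun b hb => hw.2.2 b hb.1) (a := a) ⟨haA, haT⟩ hwa
        rw [h2] at hTk
        rw [← hTk, pow_succ]
        ring
  obtain ⟨S, hSc, hSe, hSk⟩ := hgreedy d le_rfl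
  have hKS : A ⊓ Subgroup.centralizer ((S : Finset G) : Set G) = ⊥ := by
    have h1 : Nat.card (A ⊓ Subgroup.centralizer ((S : Finset G) : Set G) : Subgroup G) = 1 := by
      have h2 : 0 < 2 ^ d := by positivity
      exact Nat.eq_of_mul_eq_mul_right h2 (by rw [hSk, one_mul])
    exact Subgroup.eq_bot_of_card_eq _ h1
  have hdual : ∀ w ∈ S, ∃ a ∈ A, a ≠ 1 ∧ (∀ w' ∈ S, w' ≠ w → a * w' = w' * a) ∧ a * w * a⁻¹ = w⁻¹ := by
    intro w hw
    have hdpos : 1 ≤ d := hd
    have h1 := hcount (S.erase w) (fun x hx => hSe x (Finset.mem_of_mem_erase hx))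
    rw [Finset.card_erase_of_mem hw, hSc, hAd] at h1
    have h2 : (2 : ℕ) ^ d = 2 * 2 ^ (d - 1) := by
      conv_lhs => rw [show d = (d - 1) + 1 by omega, pow_succ]
      ring
    have h3 : 2 ≤ Nat.card (A ⊓ Subgroup.centralizer (((S.erase w) : Finset G) : Set G) : Subgroup G) := by
      rw [h2] at h1
      have h4 : 0 < 2 ^ (d - 1) := by positivity
      exact Nat.le_of_mul_le_mul_right h1 h4
    rcases (A ⊓ Subgroup.centralizer (((S.erase w) : Finset G) : Set G)).bot_or_exists_ne_one with h | ⟨a, ⟨haA, haT⟩, ha1⟩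
    · rw [h, Subgroup.card_bot] at h3
      omega
    have hanotfix : a * w * a⁻¹ ≠ w := by
      intro hfix
      apply ha1
      have : a ∈ A ⊓ Subgroup.centralizer ((S : Finset G) : Set G) := by
        refine ⟨haA, ?_⟩
        show a ∈ Subgroup.centralizer _
        rw [Subgroup.mem_centralizer_iff]
        intro x hx
        by_cases hxw : x = w
        · subst hxw
          calc x * a = (a * x * a⁻¹) * a := by rw [hfix]
            _ = a * x := by group
        · exact Subgroup.mem_centralizer_iff.1 haT x (by simp [hxw]; exact hx)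
      rw [hKS] at this
      simpa using this
    refine ⟨a, haA, ha1, fun w' hw' hne' => ?_, ((hSe w hw).2.2 a haA).resolve_left hanotfix⟩
    exact (Subgroup.mem_centralizer_iff.1 haT w' (by simp [hne']; exact hw')).symm
  choose! f hfA hf1 hfc hfi using hdual
  let e : S ≃ Fin d := Finset.equivFinOfCardEq hSc
  let wf : Fin d → G := fun i => ((e.symm i : S) : G)
  have hwS : ∀ i, wf i ∈ S := fun i => (e.symm i).2
  have hwinj : Function.Injective wf := fun i j h => e.symm.injective (Subtype.ext h)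
  have hsurj : ∀ w ∈ S, ∃ i, wf i = w := fun w hw => ⟨e ⟨w, hw⟩, by simp [wf]⟩
  refine ⟨fun i => Subgroup.zpowers (f (wf i)), fun i => Subgroup.zpowers (wf i), fun i => orderOf (wf i), ?_, ?_, ?_⟩
  · intro i
    show Subgroup.zpowers (f (wf i)) ≤ A ∧ Nat.card (Subgroup.zpowers (f (wf i))) = 2 ∧ Subgroup.zpowers (wf i) ≤ L ∧
      Odd (orderOf (wf i)) ∧ 3 ≤ orderOf (wf i) ∧
      Nonempty (↥(Subgroup.zpowers (f (wf i)) ⊔ Subgroup.zpowers (wf i)) ≃* DihedralGroup (orderOf (wf i)))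
    have hw := hSe _ (hwS i)
    have hwSi := hwS i
    generalize wf i = w at hw hwSi
    have haA := hfA w hwSi
    have ha1 := hf1 w hwSi
    have hai := hfi w hwSi
    generalize f w = a at haA ha1 hai
    have hord2 : orderOf a = 2 := orderOf_eq_prime (hA.2 a haA) ha1
    have hwL := hWL hw.1
    have hdvdn : orderOf w ∣ Nat.card L := by
      have := orderOf_dvd_natCard (⟨w, hwL⟩ : L)
      rwa [Subgroup.orderOf_mk] at this
    have hoddn : Odd (orderOf w) := Odd.of_dvd_nat hLodd hdvdn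
    have hn1 : orderOf w ≠ 1 := fun h => hw.2.1 (orderOf_eq_one_iff.1 h)
    have haa := hA2 a haA
    have hainv : a⁻¹ = a := inv_eq_of_mul_eq_one_left haa
    refine ⟨Subgroup.zpowers_le.2 haA, by rw [Nat.card_zpowers, hord2], Subgroup.zpowers_le.2 hwL, hoddn, ?_, ?_⟩
    · obtain ⟨m, hm⟩ := hoddn
      omega
    · haveI : NeZero (orderOf w) := ⟨by
        obtain ⟨m, hm⟩ := hoddn
        omega⟩
      have hwQ : w ∈ Subgroup.zpowers a ⊔ Subgroup.zpowers w :=
        (le_sup_right : Subgroup.zpowers w ≤ _) (Subgroup.mem_zpowers w)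
      have haQ : a ∈ Subgroup.zpowers a ⊔ Subgroup.zpowers w :=
        (le_sup_left : Subgroup.zpowers a ≤ _) (Subgroup.mem_zpowers a)
      have hAK : Subgroup.zpowers a ≤ normalizer ((Subgroup.zpowers w : Subgroup G) : Set G) := by
        rw [Subgroup.le_normalizer_iff]
        intro h hh k hk
        obtain ⟨m, rfl⟩ := Subgroup.mem_zpowers_iff.1 hh
        obtain ⟨l, rfl⟩ := Subgroup.mem_zpowers_iff.1 hk
        have hconj : a * w ^ l * a⁻¹ = (w⁻¹) ^ l := by rw [← hai, conj_zpow]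
        rcases Int.even_or_odd' m with ⟨c, rfl | rfl⟩
        · have e1 : a ^ (2 * c) = 1 := by
            rw [zpow_mul]
            have : a ^ (2 : ℤ) = 1 := by
              rw [show (2 : ℤ) = ((2 : ℕ) : ℤ) from rfl, zpow_natCast, pow_two, haa]
            rw [this, one_zpow]
          rw [e1]
          simp
        · have e1 : a ^ (2 * c + 1) = a := by
            rw [zpow_add, zpow_mul, zpow_one]
            have : a ^ (2 : ℤ) = 1 := by
              rw [show (2 : ℤ) = ((2 : ℕ) : ℤ) from rfl, zpow_natCast, pow_two, haa]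
            rw [this, one_zpow, one_mul]
          rw [e1, hconj]
          exact Subgroup.zpow_mem _ (Subgroup.inv_mem _ (Subgroup.mem_zpowers w)) l
      have hcop : (Nat.card (Subgroup.zpowers a)).Coprime (Nat.card (Subgroup.zpowers w)) := by
        rw [Nat.card_zpowers, Nat.card_zpowers, hord2]
        exact Nat.coprime_two_left.2 hoddn
      have hcard := Cfsg.Agent.Lib.H1Cop.card_sup_of_coprime hAK hcop
      rw [Nat.card_zpowers, Nat.card_zpowers, hord2] at hcard
      refine Cfsg.Agent.Lib.PMaxClass.dihedral_iso (Q := ↥(Subgroup.zpowers a ⊔ Subgroup.zpowers w)) (m := orderOf w)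
        ⟨w, hwQ⟩ ⟨a, haQ⟩ ?_ ?_ ?_ ?_ ?_
      · rw [Subgroup.orderOf_mk]
      · exact Subtype.ext haa
      · exact Subtype.ext hai
      · intro hmem
        obtain ⟨k, hk⟩ := Subgroup.mem_zpowers_iff.1 hmem
        have hk' : w ^ k = a := by
          have := congrArg Subtype.val hk
          simpa using this
        have hd : orderOf a ∣ orderOf w := orderOf_dvd_of_mem_zpowers (Subgroup.mem_zpowers_iff.2 ⟨k, hk'⟩)
        rw [hord2] at hd
        exact (Nat.not_even_iff_odd.2 hoddn) (even_iff_two_dvd.2 hd)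
      · rw [sup_comm, hcard, mul_comm]
  · -- generation
    apply le_antisymm
    · refine iSup_le fun i => Subgroup.zpowers_le.2 (hfA _ (hwS i))
    · intro b hb
      set G₀ : Subgroup G := ⨆ i, Subgroup.zpowers (f (wf i)) with hG₀
      have hfG : ∀ w ∈ S, f w ∈ G₀ := by
        intro w hw
        obtain ⟨i, rfl⟩ := hsurj w hw
        exact (le_iSup (fun i => Subgroup.zpowers (f (wf i))) i) (Subgroup.mem_zpowers _)
      have hG₀A : G₀ ≤ A := iSup_le fun i => Subgroup.zpowers_le.2 (hfA _ (hwS i))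
      have key : ∀ T : Finset G, T ⊆ S → ∃ c ∈ G₀, ∀ w ∈ T, (b * w * b⁻¹ = w ↔ c * w * c⁻¹ = w) := by
        intro T
        induction T using Finset.induction_on with
        | empty =>
          intro _
          exact ⟨1, G₀.one_mem, by simp⟩
        | insert w T hw ih =>
          intro hsub
          have hwS' : w ∈ S := hsub (Finset.mem_insert_self _ _)
          obtain ⟨c, hc, hcT⟩ := ih (fun x hx => hsub (Finset.mem_insert_of_mem hx))
          by_cases hag : b * w * b⁻¹ = w ↔ c * w * c⁻¹ = w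
          · refine ⟨c, hc, fun x hx => ?_⟩
            rcases Finset.mem_insert.1 hx with rfl | hx
            · exact hag
            · exact hcT x hx
          · refine ⟨c * f w, G₀.mul_mem hc (hfG w hwS'), fun x hx => ?_⟩
            have hconj : ∀ y, (c * f w) * y * (c * f w)⁻¹ = c * (f w * y * (f w)⁻¹) * c⁻¹ := fun y => by group
            rcases Finset.mem_insert.1 hx with rfl | hx
            · rw [hconj, hfi x hwS']
              have hinv : c * x⁻¹ * c⁻¹ = (c * x * c⁻¹)⁻¹ := by group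
              rw [hinv]
              have hcA := hG₀A hc
              rcases (hSe x hwS').2.2 c hcA with h1 | h1
              · rw [h1]
                constructor
                · intro h2
                  exact absurd ⟨fun _ => h1, fun _ => h2⟩ hag
                · intro h2
                  exact absurd h2.symm (hwne x (hSe x hwS'))
              · rw [h1, inv_inv]
                constructor
                · intro _; rfl
                · intro _
                  by_contra h3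
                  apply hag
                  constructor
                  · intro h4; exact absurd h4 h3
                  · intro h4
                    rw [h1] at h4
                    exact absurd h4.symm (hwne x (hSe x hwS'))
            · have hxS := hsub (Finset.mem_insert_of_mem hx)
              have hxw : x ≠ w := fun h => hw (h ▸ hx)
              have h1 : f w * x * (f w)⁻¹ = x := by
                rw [hfc w hwS' x hxS hxw]; group
              rw [hconj, h1]
              exact hcT x hx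
      obtain ⟨c, hc, hcS⟩ := key S (Finset.Subset.refl _)
      have hcA := hG₀A hc
      have hone : c⁻¹ * b ∈ A ⊓ Subgroup.centralizer ((S : Finset G) : Set G) := by
        refine ⟨A.mul_mem (A.inv_mem hcA) hb, ?_⟩
        show c⁻¹ * b ∈ Subgroup.centralizer _
        rw [Subgroup.mem_centralizer_iff]
        intro w hw
        have hwS' : w ∈ S := hw
        have hag := hcS w hwS'
        have heq : b * w * b⁻¹ = c * w * c⁻¹ := by
          rcases (hSe w hwS').2.2 b hb with h1 | h1 <;> rcases (hSe w hwS').2.2 c hcA with h2 | h2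
          · rw [h1, h2]
          · exact absurd (hag.1 h1) (fun h3 => hwne w (hSe w hwS') (h3.symm.trans h2))
          · exact absurd (hag.2 h2) (fun h3 => hwne w (hSe w hwS') (h3.symm.trans h1))
          · rw [h1, h2]
        calc w * (c⁻¹ * b) = c⁻¹ * (c * w * c⁻¹) * b := by group
          _ = c⁻¹ * (b * w * b⁻¹) * b := by rw [heq]
          _ = c⁻¹ * b * w := by group
      rw [hKS, Subgroup.mem_bot] at hone
      have : b = c := (eq_of_inv_mul_eq_one hone).symm
      rw [this]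
      exact hc
  · -- commuting
    intro i j hij x hx y hy
    have hwi := hwS i
    have hwj := hwS j
    have hne' : wf i ≠ wf j := fun h => hij (hwinj h)
    have h1 : Subgroup.zpowers (f (wf j)) ⊔ Subgroup.zpowers (wf j) ≤ Subgroup.centralizer ({f (wf i)} : Set G) := by
      refine sup_le ?_ ?_
      · rw [Subgroup.zpowers_le, Subgroup.mem_centralizer_iff]
        rintro _ rfl
        exact hAc _ (hfA _ hwi) _ (hfA _ hwj)
      · rw [Subgroup.zpowers_le, Subgroup.mem_centralizer_iff]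
        rintro _ rfl
        exact hfc _ hwi _ hwj hne'.symm
    have h2 : Subgroup.zpowers (f (wf j)) ⊔ Subgroup.zpowers (wf j) ≤ Subgroup.centralizer ({wf i} : Set G) := by
      refine sup_le ?_ ?_
      · rw [Subgroup.zpowers_le, Subgroup.mem_centralizer_iff]
        rintro _ rfl
        exact (hfc _ hwj _ hwi hne').symm
      · rw [Subgroup.zpowers_le, Subgroup.mem_centralizer_iff]
        rintro _ rfl
        exact hWab _ (hSe _ hwi).1 _ (hSe _ hwj).1
    have h3 : Subgroup.zpowers (f (wf i)) ⊔ Subgroup.zpowers (wf i) ≤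
        Subgroup.centralizer ((Subgroup.zpowers (f (wf j)) ⊔ Subgroup.zpowers (wf j) : Subgroup G) : Set G) := by
      refine sup_le ?_ ?_
      · rw [Subgroup.zpowers_le, Subgroup.mem_centralizer_iff]
        intro z hz
        have := Subgroup.mem_centralizer_iff.1 (h1 hz) _ rfl
        exact this.symm
      · rw [Subgroup.zpowers_le, Subgroup.mem_centralizer_iff]
        intro z hz
        have := Subgroup.mem_centralizer_iff.1 (h2 hz) _ rfl
        exact this.symm
    exact (Subgroup.mem_centralizer_iff.1 (h3 hx) y hy).symm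

end Cfsg.Agent.S1349
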