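import Cfsg.Statements.S1892
import Mathlib
import Cfsg.Agent.Lib.PSolv
import Cfsg.Agent.Lib.Comp2

set_option autoImplicit false
open Cfsg

namespace Cfsg.Agent.S1892

open Cfsg Cfsg.Agent.Lib.H1Core Cfsg.Agent.Lib.Comp2 Cfsg.Agent.Lib.PSolv
open scoped commutatorElement

/-- Let S be a finite p-solvable group with no nontrivial normal subgroup of order prime to p, A a p-subgroup of S, and Q a nontrivial A-invariant subgroup of order prime to p with [A, Q] = Q. Then the commutator [O_p(S), A, Q] is nontrivial. -/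
theorem result {S : Type*} [Group S] [Finite S] {p : ℕ} [Fact p.Prime]
    (hS : Cfsg.IsPSolvable p S) (hred : Cfsg.pPrimeCore p S = ⊥)
    (A Q : Subgroup S) (hA : IsPGroup p A) (hQ : ¬ p ∣ Nat.card Q) (hQ1 : Q ≠ ⊥)
    (hinv : ∀ a ∈ A, ∀ x ∈ Q, a * x * a⁻¹ ∈ Q) (hAQ : ⁅A, Q⁆ = Q) :
    ⁅⁅Cfsg.pCore p S, A⁆, Q⁆ ≠ ⊥ := by
  intro hbot
  apply hQ1
  set P := pCore p S with hP
  haveI hPn : P.Normal := pCore_normal p S
  have hPp : IsPGroup p P := pCore_isPGroup p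
  set C : Subgroup S := P ⊓ Subgroup.centralizer (Q : Set S) with hC
  have hPA : ∀ u ∈ P, ∀ a ∈ A, u * a * u⁻¹ * a⁻¹ ∈ C := by
    intro u hu a ha
    have h1 : ⁅u, a⁆ ∈ ⁅P, A⁆ := Subgroup.commutator_mem_commutator hu ha
    refine ⟨?_, ?_⟩
    · have e : u * a * u⁻¹ * a⁻¹ = u * (a * u⁻¹ * a⁻¹) := by group
      rw [e]
      exact P.mul_mem hu (hPn.conj_mem _ (P.inv_mem hu) a)
    · refine Subgroup.mem_centralizer_iff.mpr ?_
      intro x hx
      have h2 : ⁅⁅u, a⁆, x⁆ ∈ ⁅⁅P, A⁆, Q⁆ := Subgroup.commutator_mem_commutator h1 hx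
      rw [hbot, Subgroup.mem_bot, commutatorElement_eq_one_iff_commute] at h2
      exact (h2.eq).symm
  have hCa : ∀ c ∈ C, ∀ a ∈ A, a * c * a⁻¹ ∈ C := by
    rintro c ⟨hcP, hcC⟩ a ha
    refine ⟨hPn.conj_mem _ hcP a, ?_⟩
    refine Subgroup.mem_centralizer_iff.mpr ?_
    intro x hx
    have h1 := Subgroup.mem_centralizer_iff.mp hcC (a⁻¹ * x * a) (by simpa using hinv a⁻¹ (A.inv_mem ha) x hx)
    calc x * (a * c * a⁻¹) = a * ((a⁻¹ * x * a) * c) * a⁻¹ := by group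
      _ = a * (c * (a⁻¹ * x * a)) * a⁻¹ := by rw [h1]
      _ = a * c * a⁻¹ * x := by group
  -- the action on cosets of `C`
  let D : Subgroup S := Subgroup.closure {g | g ∈ Q ∧ ∀ u ∈ P, ∃ c ∈ C, g * u * g⁻¹ = u * c}
  have hcomm : ∀ c ∈ C, ∀ x ∈ Q, x * c * x⁻¹ = c := by
    rintro c ⟨_, hcC⟩ x hx
    rw [Subgroup.mem_centralizer_iff.mp hcC x hx]; group
  have hD : ∀ g ∈ D, g ∈ Q ∧ ∀ u ∈ P, ∃ c ∈ C, g * u * g⁻¹ = u * c := by
    intro g hg
    induction hg using Subgroup.closure_induction with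
    | mem g hg => exact hg
    | one => exact ⟨Q.one_mem, fun u _ => ⟨1, C.one_mem, by group⟩⟩
    | mul g h _ _ hg hh =>
      refine ⟨Q.mul_mem hg.1 hh.1, fun u hu => ?_⟩
      obtain ⟨c, hc, hce⟩ := hh.2 u hu
      obtain ⟨c', hc', hce'⟩ := hg.2 u hu
      refine ⟨c' * c, C.mul_mem hc' hc, ?_⟩
      calc g * h * u * (g * h)⁻¹ = g * (h * u * h⁻¹) * g⁻¹ := by group
        _ = (g * u * g⁻¹) * (g * c * g⁻¹) := by rw [hce]; group
        _ = u * (c' * c) := by rw [hce', hcomm c hc g hg.1]; group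
    | inv g _ hg =>
      refine ⟨Q.inv_mem hg.1, fun u hu => ?_⟩
      obtain ⟨c', hc', hce'⟩ := hg.2 (g⁻¹ * u * g) (by simpa using hPn.conj_mem u hu g⁻¹)
      refine ⟨c'⁻¹, C.inv_mem hc', ?_⟩
      have h1 : g * (g⁻¹ * u * g) * g⁻¹ = u := by group
      rw [h1] at hce'
      rw [inv_inv]
      calc g⁻¹ * u * g = (g⁻¹ * u * g * c') * c'⁻¹ := by group
        _ = u * c'⁻¹ := by rw [← hce']
  have hgen : Q ≤ D := by
    rw [← hAQ, Subgroup.commutator_le]
    intro a ha x hx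
    apply Subgroup.subset_closure
    have hQmem : ⁅a, x⁆ ∈ Q := by
      rw [commutatorElement_def]
      exact Q.mul_mem (hinv a ha x hx) (Q.inv_mem hx)
    refine ⟨hQmem, fun u hu => ?_⟩
    -- compute
    set v := x⁻¹ * u * x with hv
    have hvP : v ∈ P := by simpa [hv] using hPn.conj_mem u hu x⁻¹
    have hc1 := hPA v⁻¹ (P.inv_mem hvP) a⁻¹ (A.inv_mem ha)
    have hc2 := hPA u hu a ha
    set c₁ := v⁻¹ * a⁻¹ * v⁻¹⁻¹ * a⁻¹⁻¹ with hc1d
    set c₂ := u * a * u⁻¹ * a⁻¹ with hc2d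
    have hc3 := hCa _ hc1 a ha
    have hxc := hcomm _ hc1 x hx
    refine ⟨u⁻¹ * (a * u * a⁻¹) * (a * c₁ * a⁻¹), C.mul_mem ?_ hc3, ?_⟩
    · have e : u⁻¹ * (a * u * a⁻¹) = (u⁻¹ * a * u⁻¹⁻¹ * a⁻¹) := by group
      rw [e]
      exact hPA _ (P.inv_mem hu) a ha
    · have e1 : a⁻¹ * v * a = v * c₁ := by rw [hc1d]; group
      have e2 : x * v * x⁻¹ = u := by rw [hv]; group
      calc ⁅a, x⁆ * u * ⁅a, x⁆⁻¹ = a * (x * (a⁻¹ * v * a) * x⁻¹) * a⁻¹ := by
            rw [commutatorElement_def, hv]; group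
        _ = a * ((x * v * x⁻¹) * (x * c₁ * x⁻¹)) * a⁻¹ := by rw [e1]; group
        _ = a * (u * c₁) * a⁻¹ := by rw [e2, hxc]
        _ = u * (u⁻¹ * (a * u * a⁻¹) * (a * c₁ * a⁻¹)) := by group
  -- now `Q` centralizes `P`
  have hQP : Q ≤ Subgroup.centralizer (P : Set S) := by
    intro x hx
    rw [Subgroup.mem_centralizer_iff]
    intro u hu
    obtain ⟨c, hc, hce⟩ := (hD x (hgen hx)).2 u hu
    have hpow : ∀ k : ℕ, x ^ k * u * (x ^ k)⁻¹ = u * c ^ k := by
      intro k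
      induction k with
      | zero => simp
      | succ k ih =>
        calc x ^ (k + 1) * u * (x ^ (k + 1))⁻¹ = x * (x ^ k * u * (x ^ k)⁻¹) * x⁻¹ := by
              rw [pow_succ']; group
          _ = (x * u * x⁻¹) * (x * c ^ k * x⁻¹) := by rw [ih]; group
          _ = u * c * (x * c ^ k * x⁻¹) := by rw [hce]
          _ = u * c ^ (k + 1) := by
            have : x * c ^ k * x⁻¹ = c ^ k := by rw [← conj_pow, hcomm c hc x hx]
            rw [this, pow_succ']; group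
    have h1 := hpow (orderOf x)
    rw [pow_orderOf_eq_one] at h1
    simp only [one_mul, inv_one, mul_one] at h1
    have h2 : c ^ orderOf x = 1 := by
      have := mul_left_cancel (a := u) (b := c ^ orderOf x) (c := 1) (by rw [← h1]; simp)
      exact this
    have hco : (orderOf x).Coprime p := by
      have h3 : orderOf x ∣ Nat.card Q := Subgroup.orderOf_dvd_natCard Q hx
      have h4 : (Nat.card Q).Coprime p := by
        rw [Nat.coprime_comm]
        exact (Nat.Prime.coprime_iff_not_dvd Fact.out).mpr hQ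
      exact Nat.Coprime.coprime_dvd_left h3 h4
    obtain ⟨k, hk⟩ := hPp ⟨c, hc.1⟩
    have hk' : c ^ p ^ k = 1 := congrArg Subtype.val hk
    have hc1 : c = 1 := eq_one_of_pow_of_coprime hk' h2 hco
    rw [hc1, mul_one] at hce
    symm
    calc x * u = (x * u * x⁻¹) * x := by group
      _ = u * x := by rw [hce]
  have hle := centralizer_le_of_isPSolvable hred (isPSolvable_subgroup hS _)
  rw [eq_bot_iff]
  intro x hx
  have hxP : x ∈ P := hle (hQP hx)
  have h4 : (Nat.card Q).Coprime p := by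
    rw [Nat.coprime_comm]
    exact (Nat.Prime.coprime_iff_not_dvd Fact.out).mpr hQ
  exact eq_one_of_mem_pgroup_coprime hPp h4 hxP hx

end Cfsg.Agent.S1892
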