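import Cfsg.Statements.S1894
import Mathlib
import Cfsg.Agent.Lib.KInf

set_option autoImplicit false
open Cfsg

namespace Cfsg.Agent.S1894

open Cfsg.Agent.Lib.KInf
open scoped commutatorElement

/-- Let P be a finite p-group, A a normal subgroup of P and B an abelian subgroup of A that is normal in P. Then some subgroup C of A containing B is normal in P and is self-centralizing and normal in A (C ∈ SCN(A)). -/
theorem result {P : Type*} [Group P] [Finite P] {p : ℕ} [Fact p.Prime] (hP : IsPGroup p P)
    (A : Subgroup P) [A.Normal] (B : Subgroup P) [B.Normal] (hBA : B ≤ A) (hB : IsMulCommutative B) :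
    ∃ C : Subgroup P, C.Normal ∧ B ≤ C ∧ Cfsg.IsSCN A C := by
  classical
  haveI : Group.IsNilpotent P := hP.isNilpotent
  obtain ⟨C, hBC, hC, hmax⟩ := Set.Finite.exists_le_maximal
    (s := {C : Subgroup P | C.Normal ∧ IsMulCommutative ↥C ∧ C ≤ A}) (Set.toFinite _)
    (a := B) ⟨inferInstance, hB, hBA⟩
  obtain ⟨hCn, hCc, hCA⟩ := hC
  haveI := hCn
  have hCC : C ≤ Subgroup.centralizer (C : Set P) := by
    intro c hc
    rw [Subgroup.mem_centralizer_iff]
    intro d hd
    have := hCc.is_comm.comm ⟨d, hd⟩ ⟨c, hc⟩
    exact congrArg Subtype.val this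
  refine ⟨C, hCn, hBC, hCA, ?_, ?_⟩
  · intro a _
    exact Subgroup.mem_normalizer_iff.mpr (fun x => by
      constructor
      · intro hx; exact hCn.conj_mem x hx a
      · intro hx
        have := hCn.conj_mem _ hx a⁻¹
        simpa [mul_assoc] using this)
  · apply le_antisymm
    · by_contra hne
      have hDn : ∀ g : P, g ∈ Subgroup.normalizer ((A ⊓ Subgroup.centralizer (C : Set P) : Subgroup P) : Set P) := by
        intro g
        have hcen : (Subgroup.centralizer (C : Set P)).Normal := inferInstance
        have hinf : (A ⊓ Subgroup.centralizer (C : Set P)).Normal := inferInstance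
        exact Subgroup.mem_normalizer_iff.mpr (fun x => by
          constructor
          · intro hx; exact hinf.conj_mem x hx g
          · intro hx
            have := hinf.conj_mem _ hx g⁻¹
            simpa [mul_assoc] using this)
      obtain ⟨x, hxD, hxC, hq⟩ := exists_commutator_mem (Q := ⊤)
        (C := A ⊓ Subgroup.centralizer (C : Set P)) (Z := C) (fun g _ => hDn g) hne
      have hxcen : x ∈ Subgroup.centralizer (C : Set P) := (Subgroup.mem_inf.mp hxD).2
      have hC₁ : C ⊔ Subgroup.zpowers x ∈ {C : Subgroup P | C.Normal ∧ IsMulCommutative ↥C ∧ C ≤ A} := by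
        refine ⟨?_, ?_, ?_⟩
        · constructor
          intro y hy g
          obtain ⟨c, hc, k, rfl⟩ := (mem_sup_zpowers hxcen).mp hy
          have h1 : g * c * g⁻¹ ∈ C := hCn.conj_mem c hc g
          have h2 : g * x * g⁻¹ ∈ C ⊔ Subgroup.zpowers x := by
            have h3 : g * x * g⁻¹ = ⁅x, g⁆⁻¹ * x := by
              simp only [commutatorElement_def]; group
            rw [h3]
            exact Subgroup.mul_mem _ (Subgroup.inv_mem _ (Subgroup.mem_sup_left (hq g (Subgroup.mem_top g))))
              (Subgroup.mem_sup_right (Subgroup.mem_zpowers x))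
          have h4 : g * (c * x ^ k) * g⁻¹ = (g * c * g⁻¹) * (g * x * g⁻¹) ^ k := by
            rw [conj_zpow]; group
          rw [h4]
          exact Subgroup.mul_mem _ (Subgroup.mem_sup_left h1) (Subgroup.zpow_mem _ h2 k)
        · refine IsMulCommutative.of_comm ?_
          rintro ⟨u, hu⟩ ⟨v, hv⟩
          obtain ⟨c, hc, k, rfl⟩ := (mem_sup_zpowers hxcen).mp hu
          obtain ⟨d, hd, l, rfl⟩ := (mem_sup_zpowers hxcen).mp hv
          apply Subtype.ext
          show c * x ^ k * (d * x ^ l) = d * x ^ l * (c * x ^ k)
          have hcd : c * d = d * c := by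
            have := hCc.is_comm.comm ⟨c, hc⟩ ⟨d, hd⟩
            exact congrArg Subtype.val this
          have hdk : d * x ^ k = x ^ k * d :=
            (Commute.zpow_right (Subgroup.mem_centralizer_iff.mp hxcen d hd) k).eq
          have hcl : c * x ^ l = x ^ l * c :=
            (Commute.zpow_right (Subgroup.mem_centralizer_iff.mp hxcen c hc) l).eq
          have hkl : x ^ k * x ^ l = x ^ l * x ^ k := (Commute.refl x).zpow_zpow k l
          calc c * x ^ k * (d * x ^ l) = c * (x ^ k * d) * x ^ l := by group
            _ = c * (d * x ^ k) * x ^ l := by rw [hdk]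
            _ = (c * d) * (x ^ k * x ^ l) := by group
            _ = (d * c) * (x ^ l * x ^ k) := by rw [hcd, hkl]
            _ = d * (c * x ^ l) * x ^ k := by group
            _ = d * (x ^ l * c) * x ^ k := by rw [hcl]
            _ = d * x ^ l * (c * x ^ k) := by group
        · exact sup_le hCA (by
            rw [Subgroup.zpowers_le]
            exact (Subgroup.mem_inf.mp hxD).1)
      have hle := hmax hC₁ le_sup_left
      exact hxC (hle (Subgroup.mem_sup_right (Subgroup.mem_zpowers x)))
    · exact le_inf hCA hCC

end Cfsg.Agent.S1894
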