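import Cfsg.Statements.S1896
import Mathlib
import Cfsg.Agent.Lib.LdAut2
import Cfsg.Agent.Lib.PGrp2
import Cfsg.Agent.Lib.Frob72

set_option autoImplicit false
open Cfsg

namespace Cfsg.Agent.S1896

open Subgroup
open scoped commutatorElement

theorem five {V : Type*} [Finite V] (hcard : Nat.card V ≤ 4) (a b c d e : V)
    (h1 : a ≠ b) (h2 : a ≠ c) (h3 : a ≠ d) (h4 : a ≠ e) (h5 : b ≠ c) (h6 : b ≠ d) (h7 : b ≠ e)
    (h8 : c ≠ d) (h9 : c ≠ e) (h10 : d ≠ e) : False := by
  classical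
  haveI := Fintype.ofFinite V
  have hc : ({a, b, c, d, e} : Finset V).card = 5 := by
    rw [Finset.card_insert_of_notMem (by simp [h1, h2, h3, h4]),
      Finset.card_insert_of_notMem (by simp [h5, h6, h7]),
      Finset.card_insert_of_notMem (by simp [h8, h9]),
      Finset.card_insert_of_notMem (by simp [h10]), Finset.card_singleton]
  have h := Finset.card_le_univ ({a, b, c, d, e} : Finset V)
  rw [hc, ← Nat.card_eq_fintype_card] at h
  omega

theorem cover {V : Type*} [Finite V] (hcard : Nat.card V ≤ 4) (a b c d : V)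
    (h1 : a ≠ b) (h2 : a ≠ c) (h3 : a ≠ d) (h5 : b ≠ c) (h6 : b ≠ d) (h8 : c ≠ d) (z : V) :
    z = a ∨ z = b ∨ z = c ∨ z = d := by
  by_contra hz
  push Not at hz
  exact five hcard a b c d z h1 h2 h3 hz.1.symm h5 h6 hz.2.1.symm h8 hz.2.2.1.symm hz.2.2.2.symm

theorem fix_of_sq {V : Type*} [Group V] (β : MulAut V) (k : ℕ) (hβ : β ^ (2 * k + 1) = 1) (y : V)
    (h : β (β y) = y) : β y = y := by
  have h1 : ∀ i : ℕ, (β ^ (2 * i)) y = y := by
    intro i
    induction i with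
    | zero => simp
    | succ i ih =>
      rw [show 2 * (i + 1) = 2 + 2 * i by ring, pow_add, MulAut.mul_apply, ih, pow_two, MulAut.mul_apply, h]
  have h2 : (β ^ (2 * k + 1)) y = β y := by
    rw [pow_succ', MulAut.mul_apply, h1]
  rw [← h2, hβ]
  rfl

theorem v_lemma {V : Type*} [Group V] [Finite V] (hsq : ∀ v : V, v * v = 1) (hcard : Nat.card V ≤ 4)
    (β : MulAut V) (k : ℕ) (hβ : β ^ (2 * k + 1) = 1) (hne : β ≠ 1) (v : V) (hv : v ≠ 1) :
    β v ≠ v ∧ β (β v) = v * β v ∧ ∀ y : V, y = 1 ∨ y = v ∨ y = β v ∨ y = v * β v := by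
  have hinv : ∀ x : V, x⁻¹ = x := fun x => inv_eq_of_mul_eq_one_left (hsq x)
  have hcomm : ∀ a b : V, a * b = b * a := by
    intro a b
    calc a * b = (a * b)⁻¹ := (hinv _).symm
      _ = b⁻¹ * a⁻¹ := mul_inv_rev _ _
      _ = b * a := by rw [hinv, hinv]
  have hprod : ∀ a b : V, a ≠ b → a * b ≠ 1 := by
    intro a b hab h
    apply hab
    have := eq_inv_of_mul_eq_one_left h
    rwa [hinv] at this
  have hne1 : ∀ w : V, w ≠ 1 → β w ≠ w := by
    intro w hw hfix
    apply hne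
    ext y
    change β y = y
    by_cases hy1 : y = 1
    · rw [hy1, map_one]
    by_cases hyw : y = w
    · rw [hyw, hfix]
    have hall := cover hcard 1 y w (y * w) (Ne.symm hy1) (Ne.symm hw) (Ne.symm (hprod y w hyw)) hyw
      (fun h => hw (by simpa using h)) (fun h => hy1 (by
        have h' : 1 * w = y * w := by rw [one_mul]; exact h
        exact (mul_right_cancel h').symm))
    apply fix_of_sq β k hβ y
    rcases hall (β y) with h | h | h | h
    · exact absurd ((map_eq_one_iff β β.injective).1 h) hy1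
    · rw [h, h]
    · exact absurd (β.injective (h.trans hfix.symm)) hyw
    · rw [h, map_mul, h, hfix, mul_assoc, hsq, mul_one]
  have hv' := hne1 v hv
  have hβv1 : β v ≠ 1 := fun h => hv ((map_eq_one_iff β β.injective).1 h)
  have hall := cover hcard 1 v (β v) (v * β v) (Ne.symm hv) (Ne.symm hβv1) (Ne.symm (hprod v (β v) (Ne.symm hv')))
    (Ne.symm hv') (fun h => hβv1 (by simpa using h)) (fun h => hv (by
        have h' : 1 * β v = v * β v := by rw [one_mul]; exact h
        exact (mul_right_cancel h').symm))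
  refine ⟨hv', ?_, hall⟩
  rcases hall (β (β v)) with h | h | h | h
  · exact absurd ((map_eq_one_iff β β.injective).1 h) hβv1
  · exact absurd (fix_of_sq β k hβ v h) hv'
  · exact absurd h (hne1 _ hβv1)
  · exact h

variable {X : Type*} [Group X] [Finite X]

theorem fixed_in_coset (hX : IsPGroup 2 X) (α : MulAut X) (q : ℕ) (hq : q.Prime) (hq2 : q ≠ 2) (hαq : α ^ q = 1)
    (h : ∀ x, x⁻¹ * α x ∈ frattini X) (x : X) : ∃ y, x⁻¹ * y ∈ frattini X ∧ α y = y := by
  classical
  let S := {y : X // x⁻¹ * y ∈ frattini X}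
  have hinv : ∀ y : S, x⁻¹ * α y.1 ∈ frattini X := fun y => by
    have : x⁻¹ * α y.1 = (x⁻¹ * y.1) * (y.1⁻¹ * α y.1) := by group
    rw [this]
    exact mul_mem y.2 (h _)
  let f : Function.End S := fun y => ⟨α y.1, hinv y⟩
  haveI : Fact q.Prime := ⟨hq⟩
  have hfi : ∀ i : ℕ, ∀ y : S, ((f ^ i) y).1 = (α ^ i) y.1 := by
    intro i
    induction i with
    | zero => intro y; rfl
    | succ i ih =>
      intro y
      rw [pow_succ', pow_succ', MulAut.mul_apply]
      change α ((f ^ i) y).1 = _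
      rw [ih]
  have hf : f ^ q ^ 1 = 1 := by
    rw [pow_one]
    funext y
    apply Subtype.ext
    rw [hfi, hαq]
    rfl
  haveI := Fintype.ofFinite S
  have h1 := Equiv.Perm.card_fixedPoints_modEq hf
  rw [← Nat.card_eq_fintype_card, ← Nat.card_eq_fintype_card] at h1
  by_contra hno
  push Not at hno
  have hempty : IsEmpty (Function.fixedPoints f) :=
    ⟨fun y => hno y.1.1 y.1.2 (congrArg Subtype.val y.2)⟩
  have h0 : Nat.card (Function.fixedPoints f) = 0 := Nat.card_of_isEmpty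
  have h1' : Nat.card S ≡ 0 [MOD q] := by
    rw [← h0]
    exact h1
  have hcS : Nat.card S = Nat.card (frattini X) := by
    apply Nat.card_congr
    exact
      { toFun := fun y => ⟨x⁻¹ * y.1, y.2⟩
        invFun := fun z => ⟨x * z.1, by simpa using z.2⟩
        left_inv := fun y => by apply Subtype.ext; simp
        right_inv := fun z => by apply Subtype.ext; simp }
  obtain ⟨m, hm⟩ := IsPGroup.iff_card.1 (hX.to_subgroup (frattini X))
  rw [hcS, hm] at h1'
  have h2 : q ∣ 2 ^ m := (Nat.modEq_zero_iff_dvd).1 h1'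
  have h3 := hq.dvd_of_dvd_pow h2
  exact hq2 ((Nat.prime_dvd_prime_iff_eq hq Nat.prime_two).1 h3)

theorem bar_ne (hX : IsPGroup 2 X) (α : MulAut X) (q : ℕ) (hq : q.Prime) (hq2 : q ≠ 2) (hαq : α ^ q = 1)
    (hne : α ≠ 1) : ∃ x, x⁻¹ * α x ∉ frattini X := by
  by_contra h
  push Not at h
  apply hne
  let C : Subgroup X :=
    { carrier := {x | α x = x}
      mul_mem' := by
        intro a b ha hb
        change α (a * b) = a * b
        rw [map_mul, show α a = a from ha, show α b = b from hb]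
      one_mem' := map_one α
      inv_mem' := by
        intro a ha
        change α a⁻¹ = a⁻¹
        rw [map_inv, show α a = a from ha] }
  have hC : C ⊔ frattini X = ⊤ := by
    rw [eq_top_iff]
    intro x _
    obtain ⟨y, hy1, hy2⟩ := fixed_in_coset hX α q hq hq2 hαq h x
    have : x = y * (x⁻¹ * y)⁻¹ := by group
    rw [this]
    exact mul_mem_sup (show y ∈ C from hy2) (inv_mem hy1)
  have hC' := frattini_nongenerating hC
  ext x
  have : x ∈ C := by rw [hC']; trivial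
  exact this

theorem pow_two_cases {W : Type*} [Monoid W] (w : W) (h : w * w = 1) (i : ℕ) : w ^ i = 1 ∨ w ^ i = w := by
  induction i with
  | zero => left; simp
  | succ i ih =>
    rcases ih with h1 | h1
    · right; rw [pow_succ, h1, one_mul]
    · left; rw [pow_succ, h1, h]

/-- The key consequences on the Frattini quotient. -/
theorem key_b (hX : IsPGroup 2 X) (t c : X) (hgen : ∀ x : X, ∃ i j : ℕ, x = t ^ i * c ^ j)
    (α : MulAut X) (k : ℕ) (hk : (2 * k + 1).Prime) (hk2 : 2 * k + 1 ≠ 2) (hα : α ^ (2 * k + 1) = 1) (hne : α ≠ 1)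
    (b : X) (hb : b ∉ frattini X) :
    (∃ φ ∈ frattini X, α (α b) = b * α b * φ) ∧
      ∀ y : X, ∃ φ ∈ frattini X, y = φ ∨ y = b * φ ∨ y = α b * φ ∨ y = b * α b * φ := by
  haveI : Fact (Nat.Prime 2) := ⟨Nat.prime_two⟩
  let V := X ⧸ frattini X
  let mk : X → V := fun x => (x : X ⧸ frattini X)
  have hmk : ∀ x y : X, mk (x * y) = mk x * mk y := fun _ _ => rfl
  have hmk1 : ∀ x : X, mk x = 1 ↔ x ∈ frattini X := fun x => QuotientGroup.eq_one_iff x
  have hsurj : ∀ v : V, ∃ x, mk x = v := fun v => QuotientGroup.mk_surjective v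
  have hsq : ∀ v : V, v * v = 1 := by
    intro v
    obtain ⟨x, rfl⟩ := hsurj v
    rw [← hmk, hmk1, ← pow_two]
    exact Cfsg.Agent.Lib.PGrp.pow_mem_frattini hX x
  have hcard : Nat.card V ≤ 4 := by
    classical
    haveI := Fintype.ofFinite V
    have h1 : (Finset.univ : Finset V) = {1, mk t, mk c, mk t * mk c} := by
      ext v
      simp only [Finset.mem_univ, Finset.mem_insert, Finset.mem_singleton, true_iff]
      obtain ⟨x, rfl⟩ := hsurj v
      obtain ⟨i, j, rfl⟩ := hgen x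
      have h2 : mk (t ^ i * c ^ j) = mk t ^ i * mk c ^ j := rfl
      rw [h2]
      rcases pow_two_cases (mk t) (hsq _) i with h3 | h3 <;>
        rcases pow_two_cases (mk c) (hsq _) j with h4 | h4 <;> rw [h3, h4] <;> simp
    rw [Nat.card_eq_fintype_card, ← Finset.card_univ, h1]
    exact Finset.card_le_four
  have hbar : ∀ x, Cfsg.Agent.Lib.LdAut2.barβ α (mk x) = mk (α x) := fun x => Cfsg.Agent.Lib.LdAut2.barβ_mk α x
  have hβ : (Cfsg.Agent.Lib.LdAut2.barβ α) ^ (2 * k + 1) = 1 := by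
    ext v
    obtain ⟨x, rfl⟩ := hsurj v
    rw [show mk x = (x : X ⧸ frattini X) from rfl, Cfsg.Agent.Lib.LdAut2.barβ_pow, hα]
    rfl
  have hβne : Cfsg.Agent.Lib.LdAut2.barβ α ≠ 1 := by
    intro h
    obtain ⟨x, hx⟩ := bar_ne hX α _ hk hk2 hα hne
    apply hx
    have h2 : mk (α x) = mk x := by
      rw [← hbar, h]
      rfl
    exact QuotientGroup.eq.1 h2.symm
  have hb1 : mk b ≠ 1 := fun h => hb ((hmk1 b).1 h)
  obtain ⟨-, h2, h3⟩ := v_lemma hsq hcard _ k hβ hβne (mk b) hb1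
  rw [hbar, hbar] at h2
  rw [hbar] at h3
  constructor
  · refine ⟨(b * α b)⁻¹ * α (α b), ?_, by group⟩
    exact QuotientGroup.eq.1 h2.symm
  · intro y
    rcases h3 (mk y) with h | h | h | h
    · exact ⟨y, (hmk1 y).1 h, Or.inl rfl⟩
    · exact ⟨b⁻¹ * y, QuotientGroup.eq.1 h.symm, Or.inr (Or.inl (by group))⟩
    · exact ⟨(α b)⁻¹ * y, QuotientGroup.eq.1 h.symm, Or.inr (Or.inr (Or.inl (by group)))⟩
    · exact ⟨(b * α b)⁻¹ * y, QuotientGroup.eq.1 h.symm, Or.inr (Or.inr (Or.inr (by group)))⟩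


theorem exists_not_mem (hX : IsPGroup 2 X) (t c : X) (hgen : ∀ x : X, ∃ i j : ℕ, x = t ^ i * c ^ j)
    (α : MulAut X) (k : ℕ) (hk : (2 * k + 1).Prime) (hk2 : 2 * k + 1 ≠ 2) (hα : α ^ (2 * k + 1) = 1) (hne : α ≠ 1)
    (K : Subgroup X) (hK : K ≠ ⊤) : ∃ x, x⁻¹ * α x ∉ K := by
  by_contra h
  push Not at h
  rcases eq_top_or_exists_le_coatom K with h1 | ⟨M, hM, hKM⟩
  · exact hK h1
  have hΦ : frattini X ≤ M := frattini_le_coatom hM
  obtain ⟨b, hb⟩ : ∃ b, b ∉ M := by
    by_contra hn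
    push Not at hn
    exact hM.1 (eq_top_iff.2 (fun x _ => hn x))
  obtain ⟨⟨φ, hφ, h2⟩, -⟩ := key_b hX t c hgen α k hk hk2 hα hne b (fun h3 => hb (hΦ h3))
  have hu := hKM (h b)
  have hw := hKM (h (α b))
  apply hb
  have : b = (b⁻¹ * α b) * ((α b)⁻¹ * α (α b)) * φ⁻¹ * (b⁻¹ * α b)⁻¹ := by
    rw [h2]
    group
  rw [this]
  exact mul_mem (mul_mem (mul_mem hu hw) (inv_mem (hΦ hφ))) (inv_mem hu)

theorem fix_cyclic (D : Subgroup X) (hc : IsCyclic D) (hX : IsPGroup 2 X) (α : MulAut X)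
    (h1 : ∀ x ∈ D, α x ∈ D) (h2 : ∀ x ∈ D, α⁻¹ x ∈ D) (k : ℕ) (hα : α ^ (2 * k + 1) = 1) :
    ∀ x ∈ D, α x = x := by
  haveI : Fact (Nat.Prime 2) := ⟨Nat.prime_two⟩
  let α' : MulAut D :=
    { toFun := fun x => ⟨α x.1, h1 x.1 x.2⟩
      invFun := fun x => ⟨α⁻¹ x.1, h2 x.1 x.2⟩
      left_inv := fun x => by apply Subtype.ext; simp
      right_inv := fun x => by apply Subtype.ext; simp
      map_mul' := fun x y => by apply Subtype.ext; simp }
  have hpow : ∀ i : ℕ, ∀ x : D, ((α' ^ i) x).1 = (α ^ i) x.1 := by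
    intro i
    induction i with
    | zero => intro x; rfl
    | succ i ih =>
      intro x
      rw [pow_succ', pow_succ', MulAut.mul_apply, MulAut.mul_apply]
      change α ((α' ^ i) x).1 = _
      rw [ih]
  have h3 : α' ^ (2 * k + 1) = 1 := by
    ext x
    rw [hpow, hα]
    rfl
  have hP : IsPGroup 2 (MulAut D) := by
    obtain ⟨m, hm⟩ := IsPGroup.iff_card.1 (hX.to_subgroup D)
    rw [IsPGroup.iff_card, IsCyclic.card_mulAut, hm]
    rcases Nat.eq_zero_or_pos m with rfl | hpos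
    · exact ⟨0, by simp⟩
    · exact ⟨m - 1, by rw [Nat.totient_prime_pow Nat.prime_two hpos]; simp⟩
  obtain ⟨s, hs⟩ := IsPGroup.iff_orderOf.1 hP α'
  have h4 : orderOf α' ∣ 2 * k + 1 := orderOf_dvd_of_pow_eq_one h3
  have h5 : orderOf α' = 1 := by
    rw [hs] at h4 ⊢
    have hcop : Nat.Coprime (2 ^ s) (2 * k + 1) := Nat.Coprime.pow_left _ (by simp)
    exact Nat.Coprime.eq_one_of_dvd hcop h4
  rw [orderOf_eq_one_iff] at h5
  intro x hx
  have := DFunLike.congr_fun h5 ⟨x, hx⟩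
  exact congrArg Subtype.val this

theorem char_mem (D : Subgroup X) [D.Characteristic] (α : MulAut X) {x : X} (hx : x ∈ D) : α x ∈ D :=
  (Subgroup.characteristic_iff_map_le.1 inferInstance α) ⟨x, hx, rfl⟩

theorem comm_central (hX : IsPGroup 2 X) (t c : X) (hgen : ∀ x : X, ∃ i j : ℕ, x = t ^ i * c ^ j)
    (α : MulAut X) (k : ℕ) (hk : (2 * k + 1).Prime) (hk2 : 2 * k + 1 ≠ 2) (hα : α ^ (2 * k + 1) = 1) (hne : α ≠ 1)
    (hfix : ∀ x ∈ commutator X, α x = x) : commutator X ≤ center X := by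
  have hK : centralizer (commutator X : Set X) = ⊤ := by
    by_contra hK
    obtain ⟨x, hx⟩ := exists_not_mem hX t c hgen α k hk hk2 hα hne _ hK
    apply hx
    rw [mem_centralizer_iff]
    intro d hd
    have h1 : x * d * x⁻¹ ∈ commutator X := (inferInstance : (commutator X).Normal).conj_mem d hd x
    have h2 := hfix _ h1
    rw [map_mul, map_mul, map_inv, hfix d hd] at h2
    calc d * (x⁻¹ * α x) = x⁻¹ * (x * d * x⁻¹) * α x := by group
      _ = x⁻¹ * (α x * d * (α x)⁻¹) * α x := by rw [h2]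
      _ = x⁻¹ * α x * d := by group
  intro d hd
  rw [mem_center_iff]
  intro g
  have : g ∈ centralizer (commutator X : Set X) := by rw [hK]; trivial
  exact (mem_centralizer_iff.1 this d hd).symm

theorem pow_mul' (hcz : commutator X ≤ center X) (x y : X) (n : ℕ) :
    (x * y) ^ n = x ^ n * y ^ n * ⁅y, x⁆ ^ n.choose 2 := by
  have h : ⁅y, x⁆ ∈ center X := hcz (commutator_mem_commutator (mem_top _) (mem_top _))
  exact Cfsg.Agent.Lib.PGrp.pow_mul_class2 Cfsg.Agent.Lib.PGrp.eq_comm_mul_of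
    (mem_center_iff.1 h x).symm (mem_center_iff.1 h y).symm n

theorem invol {Y : Type*} [Group Y] [Finite Y] (a w : Y) (m : ℕ) (ha : orderOf a = 2 ^ (m + 1)) (hw : w ∈ zpowers a)
    (hw2 : w * w = 1) (hw1 : w ≠ 1) : w = a ^ (2 ^ m) := by
  obtain ⟨i, rfl⟩ : ∃ i : ℕ, a ^ i = w := (mem_powers_iff_mem_zpowers.2 hw)
  have h1 : a ^ (2 * i) = 1 := by
    rw [two_mul, pow_add]
    exact hw2
  have h2 : 2 ^ (m + 1) ∣ 2 * i := ha ▸ orderOf_dvd_of_pow_eq_one h1
  have h3 : 2 ^ m ∣ i := by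
    rw [pow_succ, mul_comm] at h2
    exact Nat.dvd_of_mul_dvd_mul_left (by norm_num) h2
  obtain ⟨l, rfl⟩ := h3
  have hz : a ^ (2 ^ m) * a ^ (2 ^ m) = 1 := by
    rw [← pow_add, ← two_mul, ← pow_succ', ← ha, pow_orderOf_eq_one]
  rw [pow_mul] at hw1 ⊢
  rcases pow_two_cases _ hz l with h | h
  · exact absurd h hw1
  · exact h

theorem homoc {Y : Type*} [CommGroup Y] [Finite Y] (a1 a2 a3 : Y) (m : ℕ) (h1 : orderOf a1 = 2 ^ (m + 1))
    (h2 : orderOf a2 = 2 ^ (m + 1)) (h3 : orderOf a3 = 2 ^ (m + 1)) (hexp : ∀ y : Y, y ^ (2 ^ (m + 1)) = 1)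
    (hgen : ∀ y : Y, y ∈ zpowers a1 ⊔ zpowers a2) (h123 : ∃ y, a3 = a1 * a2 * y ^ 2) :
    Nonempty (Y ≃* Multiplicative (ZMod (2 ^ (m + 1))) × Multiplicative (ZMod (2 ^ (m + 1)))) ∧
      Nat.card Y = 2 ^ (m + 1) * 2 ^ (m + 1) := by
  obtain ⟨y0, hy0⟩ := h123
  have hdisj : ∀ w, w ∈ zpowers a1 → w ∈ zpowers a2 → w = 1 := by
    intro w hw1 hw2
    by_contra hw
    have h4 : orderOf w ∣ 2 ^ (m + 1) := orderOf_dvd_of_pow_eq_one (hexp w)
    obtain ⟨s, -, hs⟩ := (Nat.dvd_prime_pow Nat.prime_two).1 h4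
    obtain ⟨r, rfl⟩ : ∃ r, s = r + 1 := by
      rcases s with _ | r
      · rw [pow_zero, orderOf_eq_one_iff] at hs
        exact absurd hs hw
      · exact ⟨r, rfl⟩
    have hw' : w ^ (2 ^ r) * w ^ (2 ^ r) = 1 := by
      rw [← pow_add, ← two_mul, ← pow_succ', ← hs, pow_orderOf_eq_one]
    have hw'1 : w ^ (2 ^ r) ≠ 1 := by
      intro h
      have h5 := orderOf_dvd_of_pow_eq_one h
      rw [hs] at h5
      have h6 := Nat.le_of_dvd (by positivity) h5
      have h7 : 2 ^ r < 2 ^ (r + 1) := Nat.pow_lt_pow_right (by norm_num) (by omega)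
      omega
    have e1 := invol a1 _ m h1 (pow_mem hw1 _) hw' hw'1
    have e2 := invol a2 _ m h2 (pow_mem hw2 _) hw' hw'1
    have h8 : a3 ^ (2 ^ m) = 1 := by
      rw [hy0, mul_pow, mul_pow, ← e1, ← e2, hw', one_mul, ← pow_mul, ← pow_succ', hexp]
    have h9 := orderOf_dvd_of_pow_eq_one h8
    rw [h3] at h9
    have h10 := Nat.le_of_dvd (by positivity) h9
    have h11 : 2 ^ m < 2 ^ (m + 1) := Nat.pow_lt_pow_right (by norm_num) (by omega)
    omega
  let f : zpowers a1 × zpowers a2 →* Y := (zpowers a1).subtype.coprod (zpowers a2).subtype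
  have hinj : Function.Injective f := by
    rw [injective_iff_map_eq_one]
    rintro ⟨p, r⟩ hp
    have hp' : (p : Y) * (r : Y) = 1 := hp
    have hp1 : (p : Y) = (r : Y)⁻¹ := eq_inv_of_mul_eq_one_left hp'
    have h5 : (p : Y) = 1 := hdisj _ p.2 (by rw [hp1]; exact inv_mem r.2)
    have h6 : (r : Y) = 1 := by
      rw [h5, one_mul] at hp'
      exact hp'
    ext
    · exact h5
    · exact h6
  have hsurj : Function.Surjective f := by
    intro y
    obtain ⟨u, hu, v, hv, huv⟩ := Subgroup.mem_sup.1 (hgen y)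
    exact ⟨(⟨u, hu⟩, ⟨v, hv⟩), huv⟩
  let e := MulEquiv.ofBijective f ⟨hinj, hsurj⟩
  have hZ : Nat.card (Multiplicative (ZMod (2 ^ (m + 1)))) = 2 ^ (m + 1) := by
    rw [Nat.card_congr Multiplicative.toAdd, Nat.card_zmod]
  let e1 : zpowers a1 ≃* Multiplicative (ZMod (2 ^ (m + 1))) :=
    mulEquivOfCyclicCardEq (by rw [Nat.card_zpowers, h1, hZ])
  let e2 : zpowers a2 ≃* Multiplicative (ZMod (2 ^ (m + 1))) :=
    mulEquivOfCyclicCardEq (by rw [Nat.card_zpowers, h2, hZ])
  refine ⟨⟨e.symm.trans (MulEquiv.prodCongr e1 e2)⟩, ?_⟩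
  rw [← Nat.card_congr e.toEquiv, Nat.card_prod, Nat.card_zpowers, Nat.card_zpowers, h1, h2]

theorem order_c {Y : Type*} [CommGroup Y] (a1 a2 a3 s r : Y) (m : ℕ) (h1 : orderOf a1 = 2 ^ (m + 1))
    (h2 : orderOf a2 = 2 ^ (m + 1)) (h3 : orderOf a3 = 2 ^ (m + 1)) (hexp : ∀ y : Y, y ^ (2 ^ (m + 1)) = 1)
    (h123 : ∃ y, a3 = a1 * a2 * y ^ 2) (hgen : ∀ y : Y, ∃ i j : ℕ, y = s ^ i * r ^ j) :
    orderOf r = 2 ^ (m + 1) := by
  obtain ⟨y0, hy0⟩ := h123
  have h4 : orderOf r ∣ 2 ^ (m + 1) := orderOf_dvd_of_pow_eq_one (hexp r)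
  obtain ⟨u, hu, hs⟩ := (Nat.dvd_prime_pow Nat.prime_two).1 h4
  by_contra hne
  have hu' : u ≤ m := by
    by_contra hu2
    apply hne
    have : u = m + 1 := by omega
    rw [hs, this]
  have hr : r ^ (2 ^ m) = 1 := by
    have : orderOf r ∣ 2 ^ m := by
      rw [hs]
      exact pow_dvd_pow 2 hu'
    exact orderOf_dvd_iff_pow_eq_one.1 this
  have hz : s ^ (2 ^ m) * s ^ (2 ^ m) = 1 := by
    rw [← pow_add, ← two_mul, ← pow_succ', hexp]
  have hall : ∀ a : Y, orderOf a = 2 ^ (m + 1) → a ^ (2 ^ m) = s ^ (2 ^ m) := by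
    intro a ha
    obtain ⟨i, j, hij⟩ := hgen a
    have h5 : a ^ (2 ^ m) = (s ^ (2 ^ m)) ^ i := by
      rw [hij, mul_pow, ← pow_mul, ← pow_mul, mul_comm j, pow_mul r, hr, one_pow, mul_one, mul_comm i, pow_mul]
    have h6 : a ^ (2 ^ m) ≠ 1 := by
      intro h
      have h7 := orderOf_dvd_of_pow_eq_one h
      rw [ha] at h7
      have h8 := Nat.le_of_dvd (by positivity) h7
      have h9 : 2 ^ m < 2 ^ (m + 1) := Nat.pow_lt_pow_right (by norm_num) (by omega)
      omega
    rcases pow_two_cases _ hz i with h | h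
    · rw [h5, h] at h6
      exact absurd rfl h6
    · rw [h5, h]
  have h8 : a3 ^ (2 ^ m) = 1 := by
    rw [hy0, mul_pow, mul_pow, hall a1 h1, hall a2 h2, hz, one_mul, ← pow_mul, ← pow_succ', hexp]
  have h9 := orderOf_dvd_of_pow_eq_one h8
  rw [h3] at h9
  have h10 := Nat.le_of_dvd (by positivity) h9
  have h11 : 2 ^ m < 2 ^ (m + 1) := Nat.pow_lt_pow_right (by norm_num) (by omega)
  omega


theorem case_big (hX : IsPGroup 2 X) (hcz : commutator X ≤ center X) (α : MulAut X)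
    (hfix : ∀ x ∈ commutator X, α x = x) (hnot : ∀ K : Subgroup X, K ≠ ⊤ → ∃ x, x⁻¹ * α x ∉ K)
    (E l : ℕ) (hE : E.choose 2 = 2 * l) (hxE : ∀ x : X, x ^ E ∈ commutator X) (c : X)
    (hDg : ∀ d ∈ commutator X, ∃ l : ℕ, d = (c ^ E) ^ l) : commutator X = ⊥ := by
  haveI : Fact (Nat.Prime 2) := ⟨Nat.prime_two⟩
  have hcomm : ∀ d ∈ commutator X, ∀ g : X, Commute d g := fun d hd g => (mem_center_iff.1 (hcz hd) g).symm
  have hcm : ∀ x y : X, ⁅x, y⁆ ∈ commutator X := fun x y => commutator_mem_commutator (mem_top _) (mem_top _)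
  let K : Subgroup X :=
    { carrier := {x | ∃ w ∈ commutator X, x ^ E = w ^ 2}
      mul_mem' := by
        rintro a b ⟨w1, hw1, h1⟩ ⟨w2, hw2, h2⟩
        refine ⟨w1 * w2 * ⁅b, a⁆ ^ l, mul_mem (mul_mem hw1 hw2) (pow_mem (hcm _ _) _), ?_⟩
        rw [pow_mul' hcz, h1, h2, hE, pow_mul, ((hcomm _ (mul_mem hw1 hw2)) _).mul_pow,
          ((hcomm _ hw1) _).mul_pow, ← pow_mul, ← pow_mul, mul_comm l]
      one_mem' := ⟨1, one_mem _, by simp⟩
      inv_mem' := by
        rintro a ⟨w, hw, h⟩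
        exact ⟨w⁻¹, inv_mem hw, by rw [inv_pow, h, inv_pow]⟩ }
  have hK : K = ⊤ := by
    by_contra hK
    obtain ⟨x, hx⟩ := hnot K hK
    apply hx
    refine ⟨⁅α x, x⁻¹⁆ ^ l, pow_mem (hcm _ _) _, ?_⟩
    rw [pow_mul' hcz, hE, ← map_pow, hfix _ (hxE x), inv_pow, inv_mul_cancel, one_mul, ← pow_mul, mul_comm l]
  obtain ⟨w, hw, h1⟩ : c ∈ K := by rw [hK]; trivial
  obtain ⟨l', hl'⟩ := hDg w hw
  set g := c ^ E with hg
  have hg1 : g = 1 := by
    rw [hl', ← pow_mul] at h1
    have h3 : g ^ (l' * 2) = g := h1.symm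
    rcases l' with _ | l'
    · simpa using h3.symm
    · have h4 : g ^ ((l' + 1) * 2 - 1) * g = 1 * g := by
        rw [one_mul, ← pow_succ]
        rw [show (l' + 1) * 2 - 1 + 1 = (l' + 1) * 2 by omega]
        exact h3
      have h5 := mul_right_cancel h4
      obtain ⟨s, hs⟩ := IsPGroup.iff_orderOf.1 hX g
      have h6 := orderOf_dvd_of_pow_eq_one h5
      rw [hs] at h6
      have hcop : Nat.Coprime (2 ^ s) ((l' + 1) * 2 - 1) := by
        apply Nat.Coprime.pow_left
        rw [Nat.coprime_two_left]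
        rw [show (l' + 1) * 2 - 1 = 2 * l' + 1 by omega]
        exact odd_two_mul_add_one l'
      have h7 := Nat.Coprime.eq_one_of_dvd hcop h6
      rw [← hs, orderOf_eq_one_iff] at h7
      exact h7
  rw [eq_bot_iff]
  intro d hd
  obtain ⟨l'', hl''⟩ := hDg d hd
  rw [hl'', hg1, one_pow]
  exact one_mem _

theorem case_two (hcz : commutator X ≤ center X) (hD : commutator X ≠ ⊥) (α : MulAut X)
    (hfix : ∀ x ∈ commutator X, α x = x) (hx2 : ∀ x : X, x ^ 2 ∈ commutator X) (c b φ : X)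
    (hDg : ∀ d ∈ commutator X, ∃ l : ℕ, d = (c ^ 2) ^ l)
    (hφ : φ ∈ commutator X) (h2 : α (α b) = b * α b * φ) (htop : closure {b, α b} = ⊤)
    (hcY : Nat.card (X ⧸ commutator X) = 4) : Nonempty (X ≃* QuaternionGroup 2) := by
  have hcomm : ∀ d ∈ commutator X, ∀ g : X, Commute d g := fun d hd g => (mem_center_iff.1 (hcz hd) g).symm
  have hcm : ∀ x y : X, ⁅x, y⁆ ∈ commutator X := fun x y => commutator_mem_commutator (mem_top _) (mem_top _)
  -- commutators have order at most two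
  have hc2 : ∀ x y : X, ⁅x, y⁆ * ⁅x, y⁆ = 1 := by
    intro x y
    have h1 : x * y * x⁻¹ = ⁅x, y⁆ * y := by
      simp [commutatorElement_def]
    have h3 : (x ^ 2) * y * (x ^ 2)⁻¹ = ⁅x, y⁆ * ⁅x, y⁆ * y := by
      calc (x ^ 2) * y * (x ^ 2)⁻¹ = x * (x * y * x⁻¹) * x⁻¹ := by rw [pow_two]; group
        _ = x * (⁅x, y⁆ * y) * x⁻¹ := by rw [h1]
        _ = (x * ⁅x, y⁆) * y * x⁻¹ := by group
        _ = (⁅x, y⁆ * x) * y * x⁻¹ := by rw [(hcomm _ (hcm x y) x).eq]
        _ = ⁅x, y⁆ * (x * y * x⁻¹) := by group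
        _ = ⁅x, y⁆ * ⁅x, y⁆ * y := by rw [h1]; group
    have h4 : (x ^ 2) * y * (x ^ 2)⁻¹ = y := by
      rw [(hcomm _ (hx2 x) y).eq]
      group
    rw [h4] at h3
    have h5 : 1 * y = ⁅x, y⁆ * ⁅x, y⁆ * y := by rw [one_mul]; exact h3
    exact (mul_right_cancel h5).symm
  let S : Subgroup X :=
    { carrier := {d | d ∈ center X ∧ d * d = 1}
      mul_mem' := by
        rintro a e ⟨h1, h3⟩ ⟨h4, h5⟩
        refine ⟨mul_mem h1 h4, ?_⟩
        have h6 : a * e = e * a := (mem_center_iff.1 h1 e).symm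
        calc a * e * (a * e) = a * (e * a) * e := by group
          _ = a * (a * e) * e := by rw [h6]
          _ = (a * a) * (e * e) := by group
          _ = 1 := by rw [h3, h5, one_mul]
      one_mem' := ⟨one_mem _, by simp⟩
      inv_mem' := by
        rintro a ⟨h1, h3⟩
        refine ⟨inv_mem h1, ?_⟩
        rw [← mul_inv_rev, h3, inv_one] }
  have hS : commutator X ≤ S := by
    rw [_root_.commutator_def, Subgroup.commutator_le]
    intro x _ y _
    exact ⟨hcz (hcm x y), hc2 x y⟩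
  have hDsq : ∀ d ∈ commutator X, d * d = 1 := fun d hd => (hS hd).2
  -- the order of the commutator subgroup
  have hcD : Nat.card (commutator X) = 2 := by
    have h1 : commutator X ≤ zpowers (c ^ 2) := by
      intro d hd
      obtain ⟨l, hl⟩ := hDg d hd
      rw [hl]
      exact pow_mem (mem_zpowers _) _
    have h3 : Nat.card (commutator X) ∣ Nat.card (zpowers (c ^ 2)) := Subgroup.card_dvd_of_le h1
    rw [Nat.card_zpowers] at h3
    have h4 : orderOf (c ^ 2) ∣ 2 := by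
      apply orderOf_dvd_of_pow_eq_one
      rw [pow_two]
      exact hDsq _ (hx2 c)
    rcases (Nat.dvd_prime Nat.prime_two).1 (h3.trans h4) with h5 | h5
    · exact absurd (Subgroup.eq_bot_of_card_eq _ h5) hD
    · exact h5
  have hcX : Nat.card X = 8 := by
    rw [Subgroup.card_eq_card_quotient_mul_card_subgroup (commutator X), hcY, hcD]
  have hb2 := hx2 b
  have hb4 : b ^ 2 * b ^ 2 = 1 := hDsq _ hb2
  have hab : (α b) ^ 2 = b ^ 2 := by rw [← map_pow, hfix _ hb2]
  have haab : (α (α b)) ^ 2 = b ^ 2 := by rw [← map_pow, hab, hfix _ hb2]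
  have hkey : b ^ 2 = ⁅α b, b⁆ := by
    rw [h2, ((hcomm _ hφ _).symm).mul_pow, pow_two φ, hDsq _ hφ, mul_one, pow_mul' hcz, hab] at haab
    have h3 : Nat.choose 2 2 = 1 := by norm_num
    rw [h3, pow_one, hb4, one_mul] at haab
    exact haab.symm
  have hb3 : α b * b * (α b)⁻¹ = b⁻¹ := by
    have h3 : α b * b * (α b)⁻¹ * b⁻¹ = b ^ 2 := by
      rw [hkey, commutatorElement_def]
    have h4 : α b * b * (α b)⁻¹ = b ^ 2 * b := by
      rw [← h3]
      group
    rw [h4]
    have h5 : b ^ 2 * b * b = 1 := by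
      rw [mul_assoc, ← pow_two, hb4]
    exact eq_inv_of_mul_eq_one_left h5
  refine Cfsg.Agent.Lib.Frob72.q8_iso hcX b (α b) ?_ hab hb3 ?_
  · rw [show 4 = 2 + 2 by norm_num, pow_add, hb4]
  · intro hb1
    apply hD
    rw [hb1] at hkey
    have hab' : α b * b = b * α b := commutatorElement_eq_one_iff_mul_comm.1 hkey.symm
    have hb_c : ∀ x : X, x * b = b * x := by
      intro x
      have h3 : closure {b, α b} ≤ centralizer ({b} : Set X) := by
        rw [closure_le]
        rintro y (rfl | rfl)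
        · exact mem_centralizer_singleton_iff.2 rfl
        · exact mem_centralizer_singleton_iff.2 hab'
      have h4 : x ∈ closure {b, α b} := by rw [htop]; trivial
      exact mem_centralizer_singleton_iff.1 (h3 h4)
    have hab_c : ∀ x : X, x * α b = α b * x := by
      intro x
      have h3 : closure {b, α b} ≤ centralizer ({α b} : Set X) := by
        rw [closure_le]
        rintro y (rfl | rfl)
        · exact mem_centralizer_singleton_iff.2 hab'.symm
        · exact mem_centralizer_singleton_iff.2 rfl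
      have h4 : x ∈ closure {b, α b} := by rw [htop]; trivial
      exact mem_centralizer_singleton_iff.1 (h3 h4)
    have hall : ∀ x y : X, y * x = x * y := by
      intro x y
      have h3 : closure {b, α b} ≤ centralizer ({x} : Set X) := by
        rw [closure_le]
        rintro y (rfl | rfl)
        · exact mem_centralizer_singleton_iff.2 (hb_c x).symm
        · exact mem_centralizer_singleton_iff.2 (hab_c x).symm
      have h4 : y ∈ closure {b, α b} := by rw [htop]; trivial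
      exact mem_centralizer_singleton_iff.1 (h3 h4)
    rw [eq_bot_iff, _root_.commutator_def, Subgroup.commutator_le]
    intro x _ y _
    exact commutatorElement_eq_one_iff_mul_comm.2 (hall y x)

/-- A finite metacyclic 2-group whose automorphism group is not a 2-group is isomorphic to the quaternion group of order 8 or to a homocyclic abelian group Z_{2^n} × Z_{2^n}. -/
theorem result {X : Type*} [Group X] [Finite X] (hX : IsPGroup 2 X)
    (hm : Cfsg.IsMetacyclic X) (hA : ¬ IsPGroup 2 (MulAut X)) :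
    Nonempty (X ≃* QuaternionGroup 2) ∨
      ∃ n : ℕ, Nonempty (X ≃* Multiplicative (ZMod (2 ^ n)) × Multiplicative (ZMod (2 ^ n))) := by

  haveI : Fact (Nat.Prime 2) := ⟨Nat.prime_two⟩
  haveI : Finite (MulAut X) := Finite.of_injective (fun f : MulAut X => (f : X → X)) DFunLike.coe_injective
  -- an automorphism of odd prime order
  obtain ⟨q, α, hq, hq2, hαq, hne⟩ : ∃ (q : ℕ) (α : MulAut X), q.Prime ∧ q ≠ 2 ∧ α ^ q = 1 ∧ α ≠ 1 := by
    by_contra hno
    push Not at hno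
    apply hA
    rw [IsPGroup.iff_card]
    refine ⟨_, Nat.eq_prime_pow_of_unique_prime_dvd Nat.card_pos.ne' ?_⟩
    intro d hd hdv
    by_contra hd2
    haveI : Fact d.Prime := ⟨hd⟩
    obtain ⟨x, hx⟩ := exists_prime_orderOf_dvd_card' d hdv
    have h1 := hno d x hd hd2 (by rw [← hx, pow_orderOf_eq_one])
    rw [h1, orderOf_one] at hx
    exact hd.one_lt.ne hx
  obtain ⟨k, rfl⟩ := hq.odd_of_ne_two hq2
  -- generators
  obtain ⟨N, hN, hcN, hcQ⟩ := hm
  obtain ⟨c0, hc0⟩ := IsCyclic.exists_generator (α := N)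
  obtain ⟨t0, ht0⟩ := IsCyclic.exists_generator (α := X ⧸ N)
  obtain ⟨t, rfl⟩ := QuotientGroup.mk_surjective t0
  set c : X := c0.1 with hc
  have hNc : ∀ x ∈ N, ∃ j : ℕ, x = c ^ j := by
    intro x hx
    obtain ⟨j, hj⟩ : ∃ j : ℕ, c0 ^ j = ⟨x, hx⟩ := mem_powers_iff_mem_zpowers.2 (hc0 ⟨x, hx⟩)
    exact ⟨j, (congrArg Subtype.val hj).symm⟩
  have hgen : ∀ x : X, ∃ i j : ℕ, x = t ^ i * c ^ j := by
    intro x
    obtain ⟨i, hi⟩ : ∃ i : ℕ, ((t : X ⧸ N)) ^ i = (x : X ⧸ N) := mem_powers_iff_mem_zpowers.2 (ht0 (x : X ⧸ N))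
    have h1 : ((t ^ i : X) : X ⧸ N) = (x : X ⧸ N) := hi
    have h2 : (t ^ i)⁻¹ * x ∈ N := QuotientGroup.eq.1 h1
    obtain ⟨j, hj⟩ := hNc _ h2
    exact ⟨i, j, by rw [← hj]; group⟩
  have hDN : commutator X ≤ N := by
    rw [_root_.commutator_def, Subgroup.commutator_le]
    intro x _ y _
    rw [← QuotientGroup.eq_one_iff]
    obtain ⟨i, hi⟩ := Subgroup.mem_zpowers_iff.1 (ht0 (x : X ⧸ N))
    obtain ⟨j, hj⟩ := Subgroup.mem_zpowers_iff.1 (ht0 (y : X ⧸ N))
    have h1 : ((⁅x, y⁆ : X) : X ⧸ N) = ⁅(x : X ⧸ N), (y : X ⧸ N)⁆ := rfl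
    rw [h1, ← hi, ← hj, commutatorElement_eq_one_iff_mul_comm]
    exact (Commute.refl _).zpow_zpow i j
  have hDcyc : IsCyclic (commutator X) := Subgroup.isCyclic_of_le hDN
  have hfix : ∀ x ∈ commutator X, α x = x :=
    fix_cyclic _ hDcyc hX α (fun x hx => char_mem _ α hx) (fun x hx => char_mem _ α⁻¹ hx) k hαq
  have hcz := comm_central hX t c hgen α k hq hq2 hαq hne hfix
  have hnot : ∀ K : Subgroup X, K ≠ ⊤ → ∃ x, x⁻¹ * α x ∉ K :=
    exists_not_mem hX t c hgen α k hq hq2 hαq hne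
  -- the abelianization
  let π : X →* Abelianization X := Abelianization.of
  have hπ1 : ∀ x, π x = 1 ↔ x ∈ commutator X := by
    intro x
    rw [← MonoidHom.mem_ker, Abelianization.ker_of]
  have hπs : Function.Surjective π := fun y => QuotientGroup.mk_surjective y
  haveI : Finite (Abelianization X) := Finite.of_surjective π hπs
  have hPY : IsPGroup 2 (Abelianization X) := hX.of_surjective π hπs
  obtain ⟨g, hg⟩ := Monoid.exists_orderOf_eq_exponent (Monoid.ExponentExists.of_finite (G := Abelianization X))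
  obtain ⟨b, rfl⟩ := hπs g
  obtain ⟨n, hn⟩ := IsPGroup.iff_orderOf.1 hPY (π b)
  have hexp : ∀ y : Abelianization X, y ^ (2 ^ n) = 1 := by
    intro y
    rw [← hn, hg]
    exact Monoid.pow_exponent_eq_one y
  have hDΦ : commutator X ≤ frattini X := Cfsg.Agent.Lib.PGrp.commutator_le_frattini hX
  obtain ⟨m, rfl⟩ : ∃ m, n = m + 1 := by
    rcases n with _ | m
    · exfalso
      apply Cfsg.Agent.Lib.LdAut2.frattini_ne hne
      rw [eq_top_iff]
      intro x _
      apply hDΦ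
      rw [← hπ1]
      simpa using hexp (π x)
    · exact ⟨m, rfl⟩
  -- the Frattini subgroup and squares
  have hsq : ∀ φ ∈ frattini X, ∃ y, π φ = y ^ 2 := by
    have h1 : frattini X ≤ (powMonoidHom 2 : Abelianization X →* Abelianization X).range.comap π := by
      apply Cfsg.Agent.Lib.PGrp.frattini_le_of hX
      · intro x hx
        rw [mem_comap, (hπ1 x).2 hx]
        exact one_mem _
      · intro x
        rw [mem_comap, map_pow]
        exact ⟨π x, rfl⟩
    intro φ hφ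
    obtain ⟨y, hy⟩ := h1 hφ
    exact ⟨y, hy.symm⟩
  have hb : b ∉ frattini X := by
    intro hb
    obtain ⟨y, hy⟩ := hsq b hb
    have h1 : (π b) ^ (2 ^ m) = 1 := by
      rw [hy, ← pow_mul, ← pow_succ']
      exact hexp y
    have h2 := orderOf_dvd_of_pow_eq_one h1
    rw [hn] at h2
    have h3 := Nat.le_of_dvd (by positivity) h2
    have h4 : 2 ^ m < 2 ^ (m + 1) := Nat.pow_lt_pow_right (by norm_num) (by omega)
    omega
  obtain ⟨⟨φ, hφ, h2⟩, h3⟩ := key_b hX t c hgen α k hq hq2 hαq hne b hb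
  have hord : ∀ x, orderOf (π (α x)) = orderOf (π x) := by
    intro x
    rw [orderOf_eq_orderOf_iff]
    intro r
    rw [← map_pow π, ← map_pow π, hπ1, hπ1, ← map_pow α]
    constructor
    · intro h
      have := char_mem _ α⁻¹ h
      simpa using this
    · intro h
      exact char_mem _ α h
  have h12 : ∃ y, π (α (α b)) = π b * π (α b) * y ^ 2 := by
    obtain ⟨y, hy⟩ := hsq φ hφ
    exact ⟨y, by rw [h2, map_mul, map_mul, hy]⟩
  have htop : closure {b, α b} = ⊤ := by
    apply frattini_nongenerating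
    rw [eq_top_iff]
    intro y _
    have hb1 : b ∈ closure {b, α b} := subset_closure (by simp)
    have hb2 : α b ∈ closure {b, α b} := subset_closure (by simp)
    obtain ⟨φ', hφ', h4⟩ := h3 y
    rcases h4 with rfl | rfl | rfl | rfl
    · exact mem_sup_right hφ'
    · exact mul_mem_sup hb1 hφ'
    · exact mul_mem_sup hb2 hφ'
    · exact mul_mem_sup (mul_mem hb1 hb2) hφ'
  have hgen2 : ∀ y : Abelianization X, y ∈ zpowers (π b) ⊔ zpowers (π (α b)) := by
    intro y
    obtain ⟨x, rfl⟩ := hπs y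
    have h4 : closure {b, α b} ≤ (zpowers (π b) ⊔ zpowers (π (α b))).comap π := by
      rw [closure_le]
      rintro z (rfl | rfl)
      · exact mem_sup_left (mem_zpowers _)
      · exact mem_sup_right (mem_zpowers _)
    have h5 : x ∈ closure {b, α b} := by rw [htop]; trivial
    exact h4 h5
  have hoa : orderOf (π (α b)) = 2 ^ (m + 1) := by rw [hord, hn]
  have hoaa : orderOf (π (α (α b))) = 2 ^ (m + 1) := by rw [hord, hord, hn]
  obtain ⟨⟨e⟩, hcY⟩ := homoc (π b) (π (α b)) (π (α (α b))) m hn hoa hoaa hexp hgen2 h12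
  by_cases hD : commutator X = ⊥
  · right
    refine ⟨m + 1, ⟨?_⟩⟩
    have hinj : Function.Injective π := by
      rw [injective_iff_map_eq_one]
      intro x hx
      have := (hπ1 x).1 hx
      rw [hD] at this
      exact this
    exact (MulEquiv.ofBijective π ⟨hinj, hπs⟩).trans e
  · left
    have hY : ∀ y : Abelianization X, ∃ i j : ℕ, y = π t ^ i * π c ^ j := by
      intro y
      obtain ⟨x, rfl⟩ := hπs y
      obtain ⟨i, j, rfl⟩ := hgen x
      exact ⟨i, j, by rw [map_mul, map_pow, map_pow]⟩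
    have hoc := order_c (π b) (π (α b)) (π (α (α b))) (π t) (π c) m hn hoa hoaa hexp h12 hY
    have hDg : ∀ d ∈ commutator X, ∃ l : ℕ, d = (c ^ (2 ^ (m + 1))) ^ l := by
      intro d hd
      obtain ⟨j, rfl⟩ := hNc d (hDN hd)
      have h4 : (π c) ^ j = 1 := by
        rw [← map_pow]
        exact (hπ1 _).2 hd
      have h5 := orderOf_dvd_of_pow_eq_one h4
      rw [hoc] at h5
      obtain ⟨l, rfl⟩ := h5
      exact ⟨l, by rw [pow_mul]⟩
    have hxE : ∀ x : X, x ^ (2 ^ (m + 1)) ∈ commutator X := by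
      intro x
      rw [← hπ1, map_pow]
      exact hexp _
    rcases m with _ | m
    · -- order 2
      have hcY' : Nat.card (X ⧸ commutator X) = 4 := hcY
      have hφ' : φ ∈ commutator X := by
        obtain ⟨y, hy⟩ := hsq φ hφ
        rw [← hπ1, hy]
        exact hexp y
      exact case_two hcz hD α hfix (fun x => by simpa using hxE x) c b φ (by simpa using hDg) hφ' h2 htop hcY'
    · -- at least four
      exfalso
      apply hD
      have hE : (2 ^ (m + 1 + 1)).choose 2 = 2 * (2 ^ m * (2 ^ (m + 2) - 1)) := by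
        rw [Nat.choose_two_right]
        have h4 : 2 ^ (m + 1 + 1) = 4 * 2 ^ m := by ring
        rw [h4]
        have h5 : 4 * 2 ^ m * (4 * 2 ^ m - 1) = 2 * (2 * (2 ^ m * (4 * 2 ^ m - 1))) := by ring
        rw [h5]
        simp
      exact case_big hX hcz α hfix hnot _ _ hE hxE c hDg

end Cfsg.Agent.S1896
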