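import Cfsg.Statements.S1898
import Mathlib
import Cfsg.Agent.Lib.Comp2

set_option autoImplicit false
open Cfsg

namespace Cfsg.Agent.S1898

open Cfsg Cfsg.Agent.Lib.Comp2
open scoped commutatorElement

lemma pow_four_mul {X : Type*} [Group X] (hsq : ∀ x y : X, ⁅x, y⁆ * ⁅x, y⁆ = 1)
    (hcen : commutator X ≤ Subgroup.center X) (x y : X) : (x * y) ^ 4 = x ^ 4 * y ^ 4 := by
  have hcm : ∀ a b : X, ⁅a, b⁆ ∈ Subgroup.center X := fun a b =>
    hcen (Subgroup.commutator_mem_commutator (Subgroup.mem_top a) (Subgroup.mem_top b))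
  have hyx : ∀ a b : X, b * a = ⁅b, a⁆ * a * b := by
    intro a b
    rw [commutatorElement_def]; group
  have hc : ∀ (c : X), c ∈ Subgroup.center X → ∀ g : X, c * g = g * c := fun c hc g =>
    (Subgroup.mem_center_iff.mp hc g).symm
  -- `y` commutes with `x ^ 2`
  have h1 : y * x ^ 2 = x ^ 2 * y := by
    calc y * x ^ 2 = (y * x) * x := by rw [pow_two]; group
      _ = (⁅y, x⁆ * x * y) * x := by rw [← hyx]
      _ = ⁅y, x⁆ * x * (y * x) := by group
      _ = ⁅y, x⁆ * x * (⁅y, x⁆ * x * y) := by rw [← hyx]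
      _ = ⁅y, x⁆ * (x * ⁅y, x⁆) * x * y := by group
      _ = ⁅y, x⁆ * (⁅y, x⁆ * x) * x * y := by rw [hc _ (hcm y x) x]
      _ = (⁅y, x⁆ * ⁅y, x⁆) * (x * x * y) := by group
      _ = x ^ 2 * y := by rw [hsq, one_mul, pow_two]
  have h2 : (x * y) ^ 2 = ⁅y, x⁆ * x ^ 2 * y ^ 2 := by
    calc (x * y) ^ 2 = x * (y * x) * y := by rw [pow_two]; group
      _ = x * (⁅y, x⁆ * x * y) * y := by rw [← hyx]
      _ = (x * ⁅y, x⁆) * x * y * y := by group
      _ = (⁅y, x⁆ * x) * x * y * y := by rw [hc _ (hcm y x) x]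
      _ = ⁅y, x⁆ * x ^ 2 * y ^ 2 := by rw [pow_two, pow_two]; group
  have h3 : y ^ 2 * x ^ 2 = x ^ 2 * y ^ 2 := by
    calc y ^ 2 * x ^ 2 = y * (y * x ^ 2) := by rw [pow_two]; group
      _ = y * (x ^ 2 * y) := by rw [h1]
      _ = (y * x ^ 2) * y := by group
      _ = (x ^ 2 * y) * y := by rw [h1]
      _ = x ^ 2 * y ^ 2 := by rw [pow_two y]; group
  calc (x * y) ^ 4 = (x * y) ^ 2 * (x * y) ^ 2 := by rw [← pow_add]
    _ = (⁅y, x⁆ * x ^ 2 * y ^ 2) * (⁅y, x⁆ * x ^ 2 * y ^ 2) := by rw [h2]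
    _ = ⁅y, x⁆ * (x ^ 2 * y ^ 2 * ⁅y, x⁆) * x ^ 2 * y ^ 2 := by group
    _ = ⁅y, x⁆ * (⁅y, x⁆ * (x ^ 2 * y ^ 2)) * x ^ 2 * y ^ 2 := by rw [← hc _ (hcm y x) (x ^ 2 * y ^ 2)]
    _ = (⁅y, x⁆ * ⁅y, x⁆) * x ^ 2 * (y ^ 2 * x ^ 2) * y ^ 2 := by group
    _ = x ^ 2 * (x ^ 2 * y ^ 2) * y ^ 2 := by rw [hsq, one_mul, h3]
    _ = x ^ 4 * y ^ 4 := by
      have e1 : x ^ 4 = x ^ 2 * x ^ 2 := by rw [← pow_add]
      have e2 : y ^ 4 = y ^ 2 * y ^ 2 := by rw [← pow_add]
      rw [e1, e2]; group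

/-- Let X be a finite 2-group whose derived subgroup is elementary abelian and central. Then the subgroup generated by the elements of order dividing 4 has exponent dividing 4, and every automorphism of X fixing each element of order dividing 4 has 2-power order. -/
theorem result {X : Type*} [Group X] [Finite X] (hX : IsPGroup 2 X)
    (hel : Cfsg.IsElementaryAbelian 2 (commutator X)) (hcen : commutator X ≤ Subgroup.center X) :
    (∀ x ∈ Subgroup.closure {g : X | g ^ 4 = 1}, x ^ 4 = 1) ∧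
      ∀ φ : MulAut X, (∀ g : X, g ^ 4 = 1 → φ g = g) → ∃ k : ℕ, φ ^ (2 ^ k) = 1 := by
  have hsq : ∀ x y : X, ⁅x, y⁆ * ⁅x, y⁆ = 1 := by
    intro x y
    have hmem : ⁅x, y⁆ ∈ commutator X :=
      Subgroup.commutator_mem_commutator (Subgroup.mem_top x) (Subgroup.mem_top y)
    have h2 : ⁅x, y⁆ ^ 2 = 1 := hel.2 _ hmem
    rwa [pow_two] at h2
  have hf := pow_four_mul hsq hcen
  have hinvf : ∀ x : X, x⁻¹ ^ 4 = (x ^ 4)⁻¹ := fun x => inv_pow x 4
  refine ⟨?_, ?_⟩
  · intro x hx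
    induction hx using Subgroup.closure_induction with
    | mem x hx => exact hx
    | one => simp
    | mul a b _ _ ha hb => rw [hf, ha, hb, one_mul]
    | inv a _ ha => rw [inv_pow, ha, inv_one]
  · intro φ hφ
    have hn : orderOf φ ≠ 0 := (orderOf_pos φ).ne'
    obtain ⟨e, m, hm, hem⟩ := Nat.exists_eq_two_pow_mul_odd hn
    refine ⟨e, ?_⟩
    set ψ := φ ^ 2 ^ e with hψ
    have hψm : ψ ^ m = 1 := by rw [hψ, ← pow_mul, ← hem, pow_orderOf_eq_one]
    have hψ4 : ∀ g : X, g ^ 4 = 1 → ψ g = g := by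
      intro g hg
      rw [hψ]
      generalize 2 ^ e = n
      induction n with
      | zero => simp
      | succ n ih =>
        rw [pow_succ, MulAut.mul_apply, hφ g hg, ih]
    have key : ∀ a : ℕ, ∀ x : X, x ^ 2 ^ a = 1 → ψ x = x := by
      intro a
      induction a with
      | zero =>
        intro x hx
        rw [pow_zero, pow_one] at hx
        rw [hx, map_one]
      | succ a ih =>
        intro x hx
        have h1 : ψ (x ^ 2) = x ^ 2 := ih _ (by rw [← pow_mul, ← pow_succ']; exact hx)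
        have h2 : ψ (x ^ 4) = x ^ 4 := by
          have : x ^ 4 = x ^ 2 * x ^ 2 := by rw [← pow_add]
          rw [this, map_mul, h1]
        set c := ψ x * x⁻¹ with hc
        have h3 : c ^ 4 = 1 := by
          rw [hc, hf, hinvf, ← map_pow, h2, mul_inv_cancel]
        have h4 : ψ c = c := hψ4 c h3
        have h5 : ∀ k : ℕ, (ψ ^ k) x = c ^ k * x := by
          intro k
          induction k with
          | zero => simp
          | succ k ih2 =>
            rw [pow_succ', MulAut.mul_apply, ih2, map_mul, map_pow, h4, pow_succ, mul_assoc]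
            congr 1
            rw [hc]; group
        have h6 := h5 m
        rw [hψm, MulAut.one_apply] at h6
        have h7 : c ^ m = 1 := by
          have h60 : c ^ m * x = 1 * x := by rw [← h6, one_mul]
          exact mul_right_cancel h60
        have h8 : c ^ 2 ^ 2 = 1 := h3
        have h9 : c = 1 := eq_one_of_pow_of_coprime h8 h7 (Nat.coprime_two_right.mpr hm)
        rw [hc] at h9
        exact mul_inv_eq_one.mp h9
    ext x
    obtain ⟨a, ha⟩ := (IsPGroup.iff_orderOf.mp hX) x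
    have := key a x (by rw [← ha, pow_orderOf_eq_one])
    rw [MulAut.one_apply]
    exact this

end Cfsg.Agent.S1898
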