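import Cfsg.Statements.S1899
import Mathlib

set_option autoImplicit false
open Cfsg

namespace Cfsg.Agent.S1899



/-- Let a dihedral group of order 2n, n odd and n > 1, act on a finite abelian 2-group A through automorphisms d and t with d^n = 1, t² = 1 and t d t⁻¹ = d⁻¹, and suppose that d fixes only the identity. Then A is the internal direct product of C_A(t) and its image under d. -/
theorem result {A : Type*} [CommGroup A] [Finite A] (hA : IsPGroup 2 A)
    {n : ℕ} (hn : Odd n) (hn1 : 1 < n) (d t : MulAut A) (hd : d ^ n = 1) (ht : t ^ 2 = 1) (hdt : t * d * t⁻¹ = d⁻¹)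
    (hfix : ∀ a : A, d a = a → a = 1) :
    (MulEquiv.toMonoidHom t).eqLocus (MonoidHom.id A) ⊓ ((MulEquiv.toMonoidHom t).eqLocus (MonoidHom.id A)).map d.toMonoidHom = ⊥ ∧
      (MulEquiv.toMonoidHom t).eqLocus (MonoidHom.id A) ⊔ ((MulEquiv.toMonoidHom t).eqLocus (MonoidHom.id A)).map d.toMonoidHom = ⊤ := by
  set C := (MulEquiv.toMonoidHom t).eqLocus (MonoidHom.id A) with hC
  have hCm : ∀ a, a ∈ C ↔ t a = a := fun a => Iff.rfl
  have htt : ∀ a, t (t a) = a := by
    intro a
    have : (t ^ 2) a = a := by rw [ht]; rfl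
    rwa [pow_two, MulAut.mul_apply] at this
  have hdinv : ∀ a, d⁻¹ (d a) = a := fun a => by simp
  have hinvd : ∀ a, d (d⁻¹ a) = a := fun a => by simp
  have htd : ∀ a, t (d a) = d⁻¹ (t a) := by
    intro a
    have h1 : (t * d * t⁻¹) (t a) = d⁻¹ (t a) := by rw [hdt]
    simpa using h1
  have htdi : ∀ a, t (d⁻¹ a) = d (t a) := by
    intro a
    have h1 := htd (d⁻¹ a)
    rw [hinvd] at h1
    have h2 : d (t a) = d (d⁻¹ (t (d⁻¹ a))) := by rw [← h1]
    rw [h2, hinvd]
  -- fixed points of d²
  obtain ⟨k, hk⟩ := hn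
  have hsq : ∀ a, d (d a) = a → a = 1 := by
    intro a ha
    apply hfix
    have h1 : ∀ j : ℕ, (d ^ (2 * j)) a = a := by
      intro j
      induction j with
      | zero => simp
      | succ j ih =>
        have e : 2 * (j + 1) = 2 * j + 2 := by ring
        rw [e, pow_add, MulAut.mul_apply, pow_two, MulAut.mul_apply, ha, ih]
    have h2 := h1 (k + 1)
    have e : 2 * (k + 1) = n + 1 := by omega
    rw [e, pow_succ, hd, one_mul] at h2
    exact h2
  -- `u = d - d⁻¹`
  let u : A →* A :=
    { toFun := fun a => d a * (d⁻¹ a)⁻¹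
      map_one' := by simp
      map_mul' := fun a b => by simp [mul_comm, mul_left_comm, mul_assoc] }
  have hu : ∀ a, u a = d a * (d⁻¹ a)⁻¹ := fun a => rfl
  have huinj : Function.Injective u := by
    rw [injective_iff_map_eq_one]
    intro a ha
    rw [hu, mul_inv_eq_one] at ha
    apply hsq
    rw [ha, hinvd]
  let N : A →* A :=
    { toFun := fun a => a * t a
      map_one' := by simp
      map_mul' := fun a b => by simp [mul_comm, mul_left_comm, mul_assoc] }
  have hN : ∀ a, N a = a * t a := fun a => rfl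
  have hrange : N.range ≤ C := by
    rintro _ ⟨a, rfl⟩
    rw [hCm, hN, map_mul, htt, mul_comm]
  have h1 : C.map u ≤ N.ker := by
    rintro _ ⟨a, ha, rfl⟩
    have ha' : t a = a := ha
    rw [MonoidHom.mem_ker, hN, hu, map_mul, map_inv, htd, htdi, ha']
    simp
  have h2 : N.ker.map u ≤ C := by
    rintro _ ⟨a, ha, rfl⟩
    have ha' : a * t a = 1 := ha
    have ha2 : t a = a⁻¹ := eq_inv_of_mul_eq_one_right ha'
    rw [hCm, hu, map_mul, map_inv, htd, htdi, ha2]
    simp [mul_comm]
  have hc1 : Nat.card C ≤ Nat.card N.ker := by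
    have : Nat.card (C.map u) = Nat.card C := Nat.card_congr (Subgroup.equivMapOfInjective _ _ huinj).symm.toEquiv
    rw [← this]
    exact Subgroup.card_le_of_le h1
  have hcA : Nat.card A ≤ Nat.card C * Nat.card C := by
    have h3 : Nat.card N.ker * N.ker.index = Nat.card A := Subgroup.card_mul_index _
    rw [Subgroup.index_ker] at h3
    have h4 : Nat.card N.range ≤ Nat.card C := Subgroup.card_le_of_le hrange
    have h5 : Nat.card N.ker ≤ Nat.card C := by
      have : Nat.card (N.ker.map u) = Nat.card N.ker := Nat.card_congr (Subgroup.equivMapOfInjective _ _ huinj).symm.toEquiv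
      rw [← this]
      exact Subgroup.card_le_of_le h2
    rw [← h3]
    exact Nat.mul_le_mul h5 h4
  set D := C.map d.toMonoidHom with hD
  have hcD : Nat.card D = Nat.card C := Nat.card_congr (Subgroup.equivMapOfInjective _ _ d.injective).symm.toEquiv
  have hdisj : C ⊓ D = ⊥ := by
    rw [eq_bot_iff]
    rintro x ⟨hx, y, hy, rfl⟩
    have hy' : t y = y := hy
    have hx' : t (d y) = d y := hx
    rw [htd, hy'] at hx'
    have h6 : d (d y) = y := by
      have := congrArg d hx'
      rw [hinvd] at this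
      exact this.symm
    have h7 := hsq y h6
    simp [h7]
  refine ⟨hdisj, ?_⟩
  let f : C × D → A := fun p => p.1 * p.2
  have hfi : Function.Injective f := by
    rintro ⟨⟨a, ha⟩, ⟨b, hb⟩⟩ ⟨⟨a', ha'⟩, ⟨b', hb'⟩⟩ h
    have h3 : a * b = a' * b' := h
    have h4 : a'⁻¹ * a = b' * b⁻¹ := by
      calc a'⁻¹ * a = a'⁻¹ * (a * b) * b⁻¹ := by group
        _ = a'⁻¹ * (a' * b') * b⁻¹ := by rw [h3]
        _ = b' * b⁻¹ := by group
    have h5 : a'⁻¹ * a ∈ C ⊓ D := ⟨C.mul_mem (C.inv_mem ha') ha, by rw [h4]; exact D.mul_mem hb' (D.inv_mem hb)⟩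
    rw [hdisj, Subgroup.mem_bot] at h5
    have h6 : a = a' := by rwa [inv_mul_eq_one, eq_comm] at h5
    subst h6
    have h7 : b = b' := mul_left_cancel h3
    subst h7
    rfl
  have hb : Function.Bijective f := hfi.bijective_of_nat_card_le (by
    rw [Nat.card_prod, hcD]; exact hcA)
  rw [eq_top_iff]
  intro a _
  obtain ⟨⟨x, y⟩, hxy⟩ := hb.2 a
  rw [← hxy]
  exact Subgroup.mul_mem_sup x.2 y.2

end Cfsg.Agent.S1899
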