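import Cfsg.Statements.S1900
import Mathlib
import Cfsg.Agent.Lib.H9Hyp
import Cfsg.Agent.Lib.LCop
import Cfsg.Agent.Lib.CopAb
import Cfsg.Agent.Lib.H1Cop

set_option autoImplicit false
open Cfsg

namespace Cfsg.Agent.S1900

open Cfsg Subgroup
open scoped commutatorElement

section
variable {S : Type*} [Group S] [Finite S] {p q : ℕ} [Fact p.Prime] [Fact q.Prime]

lemma cent_zpowers (a : S) : centralizer (((zpowers a : Subgroup S)) : Set S) = centralizer ({a} : Set S) := by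
  ext x
  simp only [mem_centralizer_iff]
  constructor
  · rintro h y rfl
    exact h y (mem_zpowers y)
  · intro h y hy
    obtain ⟨k, rfl⟩ := mem_zpowers_iff.1 hy
    have h1 : Commute a x := h a rfl
    exact h1.zpow_left k

/-- `[P, X]` is normal. -/
theorem comm_normal (P Q X : Subgroup S) [hPn : P.Normal]
    (hQ : IsElementaryAbelian q Q) (hST : P ⊔ Q = ⊤) (hX : X ≤ Q) : (⁅P, X⁆ : Subgroup S).Normal := by
  set R := ⁅P, X⁆ with hR
  have hQR : Q ≤ normalizer (R : Set S) := by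
    rw [Subgroup.le_normalizer_iff]
    intro a ha x hx
    have h1 : (MulAut.conj a).toMonoidHom x ∈ R.map (MulAut.conj a).toMonoidHom := mem_map_of_mem _ hx
    have h2 : R.map (MulAut.conj a).toMonoidHom = R := by
      rw [hR, Subgroup.map_commutator]
      congr 1
      · ext y
        constructor
        · rintro ⟨z, hz, rfl⟩
          exact hPn.conj_mem z hz a
        · intro hy
          exact ⟨a⁻¹ * y * a⁻¹⁻¹, hPn.conj_mem y hy a⁻¹, by simp [MulAut.conj_apply]; group⟩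
      · ext y
        constructor
        · rintro ⟨z, hz, rfl⟩
          have e := Cfsg.Agent.Lib.H9Hyp.comm_of_ea hQ ha (hX hz)
          have e2 : (MulAut.conj a).toMonoidHom z = z := by
            show a * z * a⁻¹ = z
            rw [e]; group
          rw [e2]; exact hz
        · intro hy
          have e := Cfsg.Agent.Lib.H9Hyp.comm_of_ea hQ ha (hX hy)
          refine ⟨y, hy, ?_⟩
          show a * y * a⁻¹ = y
          rw [e]; group
    rw [h2] at h1
    exact h1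
  have hPR : P ≤ normalizer (R : Set S) := Cfsg.Agent.Lib.H1Cop.commutator_normalized_left P X
  have h1 : (⊤ : Subgroup S) ≤ normalizer (R : Set S) := by
    rw [← hST]
    exact sup_le hPR hQR
  exact Subgroup.normalizer_eq_top_iff.1 (top_le_iff.1 h1)

/-- key lemma: `[P, X] ≤ C(Y)`. -/
theorem key_comm (P Q X Y : Subgroup S) (hPp : IsPGroup p P) [hPn : P.Normal] (hpq : p ≠ q)
    (hQ : IsElementaryAbelian q Q) (hQc : Nat.card Q = q ^ 2) (hST : P ⊔ Q = ⊤) (hX : X ≤ Q) (hcX : Nat.card X = q)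
    (hgen : ∀ a ∈ Q, a ≠ 1 → P ⊓ centralizer ({a} : Set S) = ⊥ ∨ centralizer ({a} : Set S) = centralizer (X : Set S) ∨
      centralizer ({a} : Set S) = centralizer (Y : Set S)) :
    ⁅P, X⁆ ≤ centralizer (Y : Set S) := by
  classical
  have hpp : Nat.Prime p := Fact.out
  have hqq : Nat.Prime q := Fact.out
  have hcopq : Nat.Coprime q p := (Nat.coprime_primes hqq hpp).2 (Ne.symm hpq)
  obtain ⟨k, hk⟩ := IsPGroup.iff_card.1 hPp
  set R := ⁅P, X⁆ with hR
  have hRP : R ≤ P := by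
    rw [hR]
    exact Subgroup.commutator_le_left _ _
  have hRp : IsPGroup p R := hPp.to_le hRP
  have hcRQ : ∀ T : Subgroup S, T ≤ P → (Nat.card Q).Coprime (Nat.card T) := by
    intro T hT
    obtain ⟨j, hj⟩ := IsPGroup.iff_card.1 (hPp.to_le hT)
    rw [hQc, hj]
    exact Nat.Coprime.pow _ _ hcopq
  have hQn : Q ≤ normalizer (P : Set S) := by
    rw [Subgroup.le_normalizer_iff]
    intro a _ x hx
    exact hPn.conj_mem x hx a
  have hRn : R.Normal := comm_normal P Q X hQ hST hX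
  have hQR : Q ≤ normalizer (R : Set S) := by
    rw [Subgroup.le_normalizer_iff]
    intro a _ x hx
    exact hRn.conj_mem x hx a
  -- generation in `R`
  haveI hQcomm : IsMulCommutative Q := hQ.1
  have hQnc : ¬ IsCyclic Q := by
    intro hc
    obtain ⟨g, hg⟩ := hc.exists_generator
    have hgq : g ^ q = 1 := Subtype.ext (hQ.2 g g.2)
    have h1 : orderOf g ∣ q := orderOf_dvd_of_pow_eq_one hgq
    have h2 : orderOf g = Nat.card Q := orderOf_eq_card_of_forall_mem_zpowers hg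
    rw [h2, hQc] at h1
    have h3 : q ^ 2 ≤ q := Nat.le_of_dvd hqq.pos h1
    have h4 := hqq.two_le
    nlinarith
  have hgenR := Cfsg.Agent.Lib.H1Trace.iSup_centralizer_eq Q R hQnc hQR (hcRQ R hRP)
  have hRsup : R ≤ (R ⊓ centralizer (X : Set S)) ⊔ (R ⊓ centralizer (Y : Set S)) := by
    conv_lhs => rw [← hgenR]
    refine iSup₂_le ?_
    rintro a ⟨ha, ha1⟩
    rcases hgen a ha ha1 with h | h | h
    · have : R ⊓ centralizer ({a} : Set S) ≤ P ⊓ centralizer ({a} : Set S) := inf_le_inf_right _ hRP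
      rw [h] at this
      exact this.trans bot_le
    · rw [h]; exact le_sup_left
    · rw [h]; exact le_sup_right
  -- `C_R(X) ≤ [R, R]`
  have hXcent : R ⊓ centralizer (X : Set S) ≤ ⁅R, R⁆ := by
    haveI hcn : (⁅R, R⁆).Normal := Subgroup.commutator_normal R R
    let π := QuotientGroup.mk' (⁅R, R⁆ : Subgroup S)
    have hV : ∀ a ∈ R.map π, ∀ b ∈ R.map π, a * b = b * a := by
      rintro _ ⟨a, ha, rfl⟩ _ ⟨b, hb, rfl⟩
      have h1 : ⁅a, b⁆ ∈ ⁅R, R⁆ := Subgroup.commutator_mem_commutator ha hb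
      have h2 : π ⁅a, b⁆ = 1 := (QuotientGroup.eq_one_iff _).2 h1
      rw [map_commutatorElement] at h2
      exact commutatorElement_eq_one_iff_mul_comm.1 h2
    have hXn : X ≤ normalizer (P : Set S) := hX.trans hQn
    have hXR : X ≤ normalizer (R : Set S) := hX.trans hQR
    have hXcyc : IsCyclic X := by
      haveI : Fact (Nat.card X).Prime := ⟨by rw [hcX]; exact hqq⟩
      exact isCyclic_of_prime_card rfl
    have hXsolv : Group.IsSolvable X := by
      haveI := hXcyc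
      infer_instance
    have hcopX : (Nat.card X).Coprime (Nat.card P) := by
      rw [hcX, hk]
      exact Nat.Coprime.pow_right _ hcopq
    have hRR : ⁅R, X⁆ = R := Cfsg.Agent.Lib.H1Cop.commutator_commutator_eq hXn hcopX (Or.inl hXsolv)
    have hmapN : X.map π ≤ normalizer ((R.map π : Subgroup _) : Set _) := by
      rw [Subgroup.le_normalizer_iff]
      rintro _ ⟨a, ha, rfl⟩ _ ⟨b, hb, rfl⟩
      refine ⟨a * b * a⁻¹, ?_, by simp⟩
      exact (Subgroup.le_normalizer_iff.1 hXR) a ha b hb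
    have hcopV : (Nat.card (X.map π)).Coprime (Nat.card (R.map π)) := by
      have hd1 : Nat.card (X.map π) ∣ Nat.card X := Subgroup.card_map_dvd _ _
      have hd2 : Nat.card (R.map π) ∣ Nat.card R := Subgroup.card_map_dvd _ _
      obtain ⟨j, hj⟩ := IsPGroup.iff_card.1 hRp
      refine Nat.Coprime.coprime_dvd_left hd1 (Nat.Coprime.coprime_dvd_right hd2 ?_)
      rw [hcX, hj]
      exact Nat.Coprime.pow_right _ hcopq
    rintro x ⟨hxR, hxX⟩
    have hw : π x ∈ ⁅R.map π, X.map π⁆ := by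
      rw [← Subgroup.map_commutator, hRR]
      exact mem_map_of_mem _ hxR
    have hone := Cfsg.Agent.Lib.CopAb.commutator_inf_fixed hmapN hV hcopV hw (by
      rintro _ ⟨a, ha, rfl⟩
      have h1 : a * x = x * a := Subgroup.mem_centralizer_iff.1 hxX a ha
      rw [← map_inv, ← map_mul, ← map_mul, h1]
      simp)
    exact (QuotientGroup.eq_one_iff _).1 hone
  have hfin : ⁅R, R⁆ ⊔ (R ⊓ centralizer (Y : Set S)) = R := by
    apply le_antisymm
    · exact sup_le (Subgroup.commutator_le_self R) inf_le_left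
    · refine hRsup.trans (sup_le (hXcent.trans le_sup_left) le_sup_right)
  have heq := Cfsg.Agent.Lib.LCop.eq_of_commutator_sup hRp inf_le_left hfin
  rw [← heq]
  exact inf_le_right
end

/-- Let S = PQ be a finite group with P a normal Sylow p-subgroup and Q elementary abelian of order q², q a prime different from p. If exactly two subgroups X₁, X₂ of order q in Q have a nontrivial centralizer in P, then P is the internal direct product of C_P(X₁) and C_P(X₂): they commute elementwise, meet trivially and generate P. -/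
theorem result {S : Type*} [Group S] [Finite S] {p q : ℕ} [Fact p.Prime] [Fact q.Prime] (hpq : p ≠ q)
    (P : Sylow p S) [(P : Subgroup S).Normal] (Q : Subgroup S) (hQ : Cfsg.IsElementaryAbelian q Q) (hQc : Nat.card Q = q ^ 2)
    (hS : (P : Subgroup S) ⊔ Q = ⊤)
    (X₁ X₂ : Subgroup S) (h₁ : X₁ ≤ Q) (h₂ : X₂ ≤ Q) (h₁₂ : X₁ ≠ X₂) (hc₁ : Nat.card X₁ = q) (hc₂ : Nat.card X₂ = q)
    (hf₁ : (P : Subgroup S) ⊓ Subgroup.centralizer (X₁ : Set S) ≠ ⊥)
    (hf₂ : (P : Subgroup S) ⊓ Subgroup.centralizer (X₂ : Set S) ≠ ⊥)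
    (honly : ∀ X : Subgroup S, X ≤ Q → Nat.card X = q →
      (P : Subgroup S) ⊓ Subgroup.centralizer (X : Set S) ≠ ⊥ → X = X₁ ∨ X = X₂) :
    ⁅(P : Subgroup S) ⊓ Subgroup.centralizer (X₁ : Set S), (P : Subgroup S) ⊓ Subgroup.centralizer (X₂ : Set S)⁆ = ⊥ ∧
      ((P : Subgroup S) ⊓ Subgroup.centralizer (X₁ : Set S)) ⊓ ((P : Subgroup S) ⊓ Subgroup.centralizer (X₂ : Set S)) = ⊥ ∧
      ((P : Subgroup S) ⊓ Subgroup.centralizer (X₁ : Set S)) ⊔ ((P : Subgroup S) ⊓ Subgroup.centralizer (X₂ : Set S)) = P := by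
  classical
  set P' : Subgroup S := (P : Subgroup S) with hP'
  have hPp : IsPGroup p P' := P.isPGroup'
  have hpp : Nat.Prime p := Fact.out
  have hqq : Nat.Prime q := Fact.out
  have hcopq : Nat.Coprime q p := (Nat.coprime_primes hqq hpp).2 (Ne.symm hpq)
  have hord : ∀ a ∈ Q, a ≠ 1 → orderOf a = q := fun a ha ha1 => orderOf_eq_prime (hQ.2 a ha) ha1
  have hzX : ∀ X : Subgroup S, X ≤ Q → Nat.card X = q → ∀ a ∈ X, a ≠ 1 → zpowers a = X := by
    intro X hX hc a ha ha1
    apply Subgroup.eq_of_le_of_card_ge (zpowers_le.2 ha)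
    rw [Nat.card_zpowers, hord a (hX ha) ha1, hc]
  have hinfX : X₁ ⊓ X₂ = ⊥ := by
    rw [eq_bot_iff]
    rintro b ⟨hb1, hb2⟩
    by_contra hne
    rw [Subgroup.mem_bot] at hne
    exact h₁₂ ((hzX X₁ h₁ hc₁ b hb1 hne).symm.trans (hzX X₂ h₂ hc₂ b hb2 hne))
  have hex : ∀ X : Subgroup S, Nat.card X = q → ∃ a ∈ X, a ≠ 1 := by
    intro X hc
    rcases X.bot_or_exists_ne_one with h | h
    · rw [h, Subgroup.card_bot] at hc
      exact absurd hc.symm hqq.one_lt.ne'
    · exact h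
  have hinf : (P' ⊓ centralizer (X₁ : Set S)) ⊓ (P' ⊓ centralizer (X₂ : Set S)) = ⊥ := by
    rw [eq_bot_iff]
    rintro y ⟨⟨hy1, hyX1⟩, ⟨_, hyX2⟩⟩
    replace hyX1 : y ∈ centralizer (X₁ : Set S) := hyX1
    replace hyX2 : y ∈ centralizer (X₂ : Set S) := hyX2
    by_contra hne
    rw [Subgroup.mem_bot] at hne
    obtain ⟨a, ha, ha1⟩ := hex X₁ hc₁
    obtain ⟨b, hb, hb1⟩ := hex X₂ hc₂
    have hab : Commute a b := Cfsg.Agent.Lib.H9Hyp.comm_of_ea hQ (h₁ ha) (h₂ hb)
    have habQ : a * b ∈ Q := Q.mul_mem (h₁ ha) (h₂ hb)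
    have hab1 : a * b ≠ 1 := by
      intro h
      have : b = a⁻¹ := eq_inv_of_mul_eq_one_right h
      have hbX1 : b ∈ X₁ := this ▸ X₁.inv_mem ha
      have : b ∈ X₁ ⊓ X₂ := ⟨hbX1, hb⟩
      rw [hinfX, Subgroup.mem_bot] at this
      exact hb1 this
    have hcz : Nat.card (zpowers (a * b)) = q := by
      rw [Nat.card_zpowers, hord _ habQ hab1]
    have hyc : y ∈ centralizer ((zpowers (a * b) : Subgroup S) : Set S) := by
      rw [cent_zpowers, mem_centralizer_iff]
      rintro _ rfl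
      have h1 : a * y = y * a := mem_centralizer_iff.1 hyX1 a ha
      have h2 : b * y = y * b := mem_centralizer_iff.1 hyX2 b hb
      calc a * b * y = a * (y * b) := by rw [mul_assoc, h2]
        _ = y * (a * b) := by rw [← mul_assoc, h1, mul_assoc]
    have hne3 : P' ⊓ centralizer ((zpowers (a * b) : Subgroup S) : Set S) ≠ ⊥ := by
      intro h
      have : y ∈ P' ⊓ centralizer ((zpowers (a * b) : Subgroup S) : Set S) := ⟨hy1, hyc⟩
      rw [h, Subgroup.mem_bot] at this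
      exact hne this
    have hz : zpowers (a * b) ≤ Q := zpowers_le.2 habQ
    rcases honly _ hz hcz hne3 with h | h
    · have h5 : a * b ∈ X₁ := h ▸ mem_zpowers _
      have h6 : b ∈ X₁ := by
        have := X₁.mul_mem (X₁.inv_mem ha) h5
        simpa using this
      have : b ∈ X₁ ⊓ X₂ := ⟨h6, hb⟩
      rw [hinfX, Subgroup.mem_bot] at this
      exact hb1 this
    · have h5 : a * b ∈ X₂ := h ▸ mem_zpowers _
      have h6 : a ∈ X₂ := by
        have := X₂.mul_mem h5 (X₂.inv_mem hb)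
        simpa using this
      have : a ∈ X₁ ⊓ X₂ := ⟨ha, h6⟩
      rw [hinfX, Subgroup.mem_bot] at this
      exact ha1 this
  have hgen1 : ∀ a ∈ Q, a ≠ 1 → P' ⊓ centralizer ({a} : Set S) = ⊥ ∨ centralizer ({a} : Set S) = centralizer (X₁ : Set S) ∨
      centralizer ({a} : Set S) = centralizer (X₂ : Set S) := by
    intro a ha ha1
    by_cases h : P' ⊓ centralizer ({a} : Set S) = ⊥
    · exact Or.inl h
    · right
      rw [← cent_zpowers] at h
      rcases honly _ (zpowers_le.2 ha) (by rw [Nat.card_zpowers, hord a ha ha1]) h with h2 | h2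
      · left; rw [← cent_zpowers, h2]
      · right; rw [← cent_zpowers, h2]
  have hgen2 : ∀ a ∈ Q, a ≠ 1 → P' ⊓ centralizer ({a} : Set S) = ⊥ ∨ centralizer ({a} : Set S) = centralizer (X₂ : Set S) ∨
      centralizer ({a} : Set S) = centralizer (X₁ : Set S) := by
    intro a ha ha1
    rcases hgen1 a ha ha1 with h | h | h
    · exact Or.inl h
    · exact Or.inr (Or.inr h)
    · exact Or.inr (Or.inl h)
  have hk1 := key_comm P' Q X₁ X₂ hPp hpq hQ hQc hS h₁ hc₁ hgen1
  have hk2 := key_comm P' Q X₂ X₁ hPp hpq hQ hQc hS h₂ hc₂ hgen2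
  have hn1 : (⁅P', X₁⁆ : Subgroup S).Normal := comm_normal P' Q X₁ hQ hS h₁
  have hn2 : (⁅P', X₂⁆ : Subgroup S).Normal := comm_normal P' Q X₂ hQ hS h₂
  have hle1 : (⁅P', X₁⁆ : Subgroup S) ≤ P' := Subgroup.commutator_le_left _ _
  have hle2 : (⁅P', X₂⁆ : Subgroup S) ≤ P' := Subgroup.commutator_le_left _ _
  obtain ⟨k, hk⟩ := IsPGroup.iff_card.1 hPp
  have hcyc : ∀ X : Subgroup S, Nat.card X = q → Group.IsSolvable X := by
    intro X hc
    haveI : Fact (Nat.card X).Prime := ⟨by rw [hc]; exact hqq⟩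
    haveI : IsCyclic X := isCyclic_of_prime_card rfl
    infer_instance
  have hnorm : ∀ X : Subgroup S, X ≤ normalizer (P' : Set S) := by
    intro X
    rw [Subgroup.le_normalizer_iff]
    intro a _ x hx
    exact (inferInstance : P'.Normal).conj_mem x hx a
  have hs1 := Cfsg.Agent.Lib.H1Cop.commutator_sup_centralizer (hnorm X₁)
    (by rw [hc₁, hk]; exact Nat.Coprime.pow_right _ hcopq) (Or.inl (hcyc X₁ hc₁))
  have hs2 := Cfsg.Agent.Lib.H1Cop.commutator_sup_centralizer (hnorm X₂)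
    (by rw [hc₂, hk]; exact Nat.Coprime.pow_right _ hcopq) (Or.inl (hcyc X₂ hc₂))
  have hP2 : P' ⊓ centralizer (X₂ : Set S) ≤ ⁅P', X₁⁆ := by
    rintro y ⟨hyP, hyC⟩
    have hmem : y ∈ (P' ⊓ centralizer (X₁ : Set S)) ⊔ ⁅P', X₁⁆ := by
      rw [sup_comm, hs1]; exact hyP
    obtain ⟨x, hx, r, hr, hxr⟩ := Subgroup.mem_sup_of_normal_right.1 hmem
    have hr2 : r ∈ P' ⊓ centralizer (X₂ : Set S) := ⟨hle1 hr, hk1 hr⟩
    have hx2 : x ∈ P' ⊓ centralizer (X₂ : Set S) := by
      have e : x = y * r⁻¹ := by rw [← hxr]; group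
      rw [e]
      exact Subgroup.mul_mem _ ⟨hyP, hyC⟩ (Subgroup.inv_mem _ hr2)
    have hx1 : x ∈ (P' ⊓ centralizer (X₁ : Set S)) ⊓ (P' ⊓ centralizer (X₂ : Set S)) := ⟨hx, hx2⟩
    rw [hinf, Subgroup.mem_bot] at hx1
    rw [← hxr, hx1, one_mul]
    exact hr
  have hP1 : P' ⊓ centralizer (X₁ : Set S) ≤ ⁅P', X₂⁆ := by
    rintro y ⟨hyP, hyC⟩
    have hmem : y ∈ (P' ⊓ centralizer (X₂ : Set S)) ⊔ ⁅P', X₂⁆ := by
      rw [sup_comm, hs2]; exact hyP
    obtain ⟨x, hx, r, hr, hxr⟩ := Subgroup.mem_sup_of_normal_right.1 hmem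
    have hr2 : r ∈ P' ⊓ centralizer (X₁ : Set S) := ⟨hle2 hr, hk2 hr⟩
    have hx2 : x ∈ P' ⊓ centralizer (X₁ : Set S) := by
      have e : x = y * r⁻¹ := by rw [← hxr]; group
      rw [e]
      exact Subgroup.mul_mem _ ⟨hyP, hyC⟩ (Subgroup.inv_mem _ hr2)
    have hx1 : x ∈ (P' ⊓ centralizer (X₁ : Set S)) ⊓ (P' ⊓ centralizer (X₂ : Set S)) := ⟨hx2, hx⟩
    rw [hinf, Subgroup.mem_bot] at hx1
    rw [← hxr, hx1, one_mul]
    exact hr
  -- the subgroups are normal
  have hN1 : (⁅P', X₂⁆ : Subgroup S) = P' ⊓ centralizer (X₁ : Set S) :=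
    le_antisymm (le_inf hle2 hk2) hP1
  have hN2 : (⁅P', X₁⁆ : Subgroup S) = P' ⊓ centralizer (X₂ : Set S) :=
    le_antisymm (le_inf hle1 hk1) hP2
  refine ⟨?_, hinf, ?_⟩
  · rw [eq_bot_iff, Subgroup.commutator_le]
    intro x hx y hy
    have h1 : ⁅x, y⁆ ∈ (P' ⊓ centralizer (X₁ : Set S)) ⊓ (P' ⊓ centralizer (X₂ : Set S)) := by
      constructor
      · rw [← hN1] at hx ⊢
        have e : ⁅x, y⁆ = x * (y * x⁻¹ * y⁻¹) := by rw [commutatorElement_def]; group
        rw [e]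
        exact Subgroup.mul_mem _ hx (hn2.conj_mem _ (Subgroup.inv_mem _ hx) y)
      · rw [← hN2] at hy ⊢
        rw [commutatorElement_def]
        exact Subgroup.mul_mem _ (hn1.conj_mem _ hy x) (Subgroup.inv_mem _ hy)
    rwa [hinf] at h1
  · apply le_antisymm
    · exact sup_le inf_le_left inf_le_left
    · intro y hy
      rw [← hs1] at hy
      have hle : (⁅P', X₁⁆ : Subgroup S) ⊔ (P' ⊓ centralizer (X₁ : Set S)) ≤
          (P' ⊓ centralizer (X₁ : Set S)) ⊔ (P' ⊓ centralizer (X₂ : Set S)) := by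
        refine sup_le ?_ le_sup_left
        rw [hN2]; exact le_sup_right
      exact hle hy

end Cfsg.Agent.S1900
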