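import Cfsg.Statements.S1901
import Mathlib
import Cfsg.Agent.Lib.PSolv
import Cfsg.Agent.Lib.Comp2

set_option autoImplicit false
open Cfsg

namespace Cfsg.Agent.S1901

open Cfsg Cfsg.Agent.Lib.H1Core Cfsg.Agent.Lib.Comp2 Cfsg.Agent.Lib.PSolv

universe u

lemma key {p : ℕ} [Fact p.Prime] (n : ℕ) : ∀ (G : Type u) [Group G] [Finite G], Nat.card G ≤ n →
    IsPSolvable p G → ∀ Q : Subgroup G, (Nat.card Q).Coprime p → ∀ P : Sylow p G,
    Q ≤ Subgroup.normalizer ((P : Subgroup G) : Set G) →
    ∀ y ∈ Subgroup.normalizer (Q : Set G), (∃ k : ℕ, y ^ p ^ k = 1) → y ∈ Subgroup.centralizer (Q : Set G) := by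
  induction n with
  | zero =>
    intro G _ _ h
    have := Nat.card_pos (α := G)
    omega
  | succ n ih =>
    intro G _ _ hcard hsol Q hQ P hQP y hy ⟨k, hk⟩
    -- reduction along a normal subgroup `R`
    have hstep : ∀ (R : Subgroup G) [R.Normal], R ≠ ⊥ → ∀ x ∈ Q, x * y * x⁻¹ * y⁻¹ ∈ R := by
      intro R _ hR x hx
      have hlt : Nat.card (G ⧸ R) ≤ n := by
        have h1 : 1 < Nat.card R := by
          have := (Subgroup.one_lt_card_iff_ne_bot R).mpr hR
          exact this
        have h2 := Subgroup.card_mul_index R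
        have h3 : R.index = Nat.card (G ⧸ R) := rfl
        rw [h3] at h2
        have h4 : 0 < Nat.card (G ⧸ R) := Nat.card_pos
        have h5 : Nat.card (G ⧸ R) < Nat.card G := by
          rw [← h2]
          nlinarith
        omega
      set π := QuotientGroup.mk' R with hπ
      have hsurj : Function.Surjective π := QuotientGroup.mk'_surjective R
      have hQ' : (Nat.card (Q.map π)).Coprime p :=
        Nat.Coprime.coprime_dvd_left (Subgroup.card_map_dvd Q π) hQ
      let P' : Sylow p (G ⧸ R) := P.mapSurjective hsurj
      have hP' : (P' : Subgroup (G ⧸ R)) = (P : Subgroup G).map π := rfl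
      have hQP' : Q.map π ≤ Subgroup.normalizer ((P' : Subgroup (G ⧸ R)) : Set (G ⧸ R)) := by
        rintro _ ⟨a, ha, rfl⟩
        rw [hP']
        exact Subgroup.le_normalizer_map π ⟨a, hQP ha, rfl⟩
      have hy' : π y ∈ Subgroup.normalizer ((Q.map π : Subgroup (G ⧸ R)) : Set (G ⧸ R)) :=
        Subgroup.le_normalizer_map π ⟨y, hy, rfl⟩
      have := ih (G ⧸ R) hlt (isPSolvable_of_surjective π hsurj hsol) (Q.map π) hQ' P' hQP' (π y) hy'
        ⟨k, by rw [← map_pow, hk, map_one]⟩
      have h2 := Subgroup.mem_centralizer_iff.mp this (π x) ⟨x, hx, rfl⟩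
      have h3 : π (x * y * x⁻¹ * y⁻¹) = 1 := by
        rw [map_mul, map_mul, map_mul, h2, map_inv, map_inv]
        group
      exact (QuotientGroup.eq_one_iff _).mp h3
    have hyinQ : ∀ x ∈ Q, y * x * y⁻¹ ∈ Q := fun x hx => (Subgroup.mem_normalizer_iff.mp hy x).mp hx
    by_cases hR1 : pCore p G = ⊥
    · by_cases hR2 : pPrimeCore p G = ⊥
      · have hle := centralizer_le_of_isPSolvable hR2 (isPSolvable_subgroup hsol _)
        have hy1 : y ∈ Subgroup.centralizer (pCore p G : Set G) := by
          rw [hR1]
          refine Subgroup.mem_centralizer_iff.mpr ?_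
          intro h hh
          have : h = 1 := Subgroup.mem_bot.mp hh
          rw [this]; group
        have := hle hy1
        rw [hR1, Subgroup.mem_bot] at this
        rw [this]
        exact Subgroup.one_mem _
      · -- `p'`-core nontrivial
        set R := pPrimeCore p G with hR
        haveI hRn : R.Normal := pPrimeCore_normal p G
        have hRc : (Nat.card R).Coprime p := pPrimeCore_coprime p
        have hs := hstep R hR2
        set Q₀ := Q ⊓ R with hQ₀
        have hPC : (P : Subgroup G) ≤ Subgroup.centralizer (Q₀ : Set G) := by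
          intro u hu
          refine Subgroup.mem_centralizer_iff.mpr ?_
          rintro z ⟨hzQ, hzR⟩
          have h1 : z * u * z⁻¹ ∈ (P : Subgroup G) := (Subgroup.mem_normalizer_iff.mp (hQP hzQ) u).mp hu
          have h2 : z * u * z⁻¹ * u⁻¹ ∈ (P : Subgroup G) := Subgroup.mul_mem _ h1 (Subgroup.inv_mem _ hu)
          have h3 : z * u * z⁻¹ * u⁻¹ ∈ R := by
            have e : z * u * z⁻¹ * u⁻¹ = z * (u * z⁻¹ * u⁻¹) := by group
            rw [e]
            exact R.mul_mem hzR (hRn.conj_mem _ (R.inv_mem hzR) u)
          have h4 := eq_one_of_mem_pgroup_coprime P.isPGroup' hRc h2 h3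
          rw [mul_inv_eq_one, mul_inv_eq_iff_eq_mul] at h4
          exact h4
        have hyN : y ∈ Subgroup.normalizer (Q₀ : Set G) := by
          rw [Subgroup.mem_normalizer_iff]
          intro z
          constructor
          · rintro ⟨h1, h2⟩
            exact ⟨(Subgroup.mem_normalizer_iff.mp hy z).mp h1, hRn.conj_mem _ h2 y⟩
          · rintro ⟨h1, h2⟩
            refine ⟨(Subgroup.mem_normalizer_iff.mp hy z).mpr h1, ?_⟩
            have e : z = y⁻¹ * (y * z * y⁻¹) * y⁻¹⁻¹ := by group
            rw [e]
            exact hRn.conj_mem _ h2 y⁻¹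
        have hyC : y ∈ Subgroup.centralizer (Q₀ : Set G) := by
          set N₀ := Subgroup.normalizer (Q₀ : Set G) with hN₀
          set C₀ := Subgroup.centralizer (Q₀ : Set G) with hC₀
          have hCN : C₀ ≤ N₀ := by
            intro c hc
            rw [hN₀, Subgroup.mem_normalizer_iff]
            intro z
            have hcz : ∀ z ∈ Q₀, c * z * c⁻¹ = z := by
              intro z hz
              have := Subgroup.mem_centralizer_iff.mp hc z hz
              rw [← this]; group
            constructor
            · intro h; rw [hcz z h]; exact h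
            · intro h
              have h2 := hcz _ h
              have : z = c * z * c⁻¹ := by
                apply mul_left_cancel (a := c) 
                apply mul_right_cancel (b := c⁻¹)
                exact h2.symm
              rw [this]; exact h
          haveI hnor : (C₀.subgroupOf N₀).Normal := by
            apply Subgroup.normal_subgroupOf_of_le_normalizer
            intro n hn
            rw [Subgroup.mem_normalizer_iff]
            intro c
            have hconj : ∀ (n : G), n ∈ N₀ → ∀ c ∈ C₀, n * c * n⁻¹ ∈ C₀ := by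
              intro n hn c hc
              refine Subgroup.mem_centralizer_iff.mpr ?_
              intro z hz
              have h1 : n⁻¹ * z * n⁻¹⁻¹ ∈ Q₀ := (Subgroup.mem_normalizer_iff.mp (N₀.inv_mem hn) z).mp hz
              have h2 := Subgroup.mem_centralizer_iff.mp hc _ h1
              rw [inv_inv] at h2
              calc z * (n * c * n⁻¹) = n * ((n⁻¹ * z * n) * c) * n⁻¹ := by group
                _ = n * (c * (n⁻¹ * z * n)) * n⁻¹ := by rw [h2]
                _ = n * c * n⁻¹ * z := by group
            constructor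
            · exact hconj n hn c
            · intro h
              have e : c = n⁻¹ * (n * c * n⁻¹) * n⁻¹⁻¹ := by group
              rw [e]
              exact hconj n⁻¹ (N₀.inv_mem hn) _ h
          have hidx : (C₀.subgroupOf N₀).index.Coprime p := by
            have h1 : C₀.relIndex N₀ * N₀.index = C₀.index := Subgroup.relIndex_mul_index hCN
            have h2 : (C₀.subgroupOf N₀).index = C₀.relIndex N₀ := rfl
            rw [h2]
            have h3 : C₀.relIndex N₀ ∣ (P : Subgroup G).index := by
              refine (Dvd.intro _ h1).trans ?_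
              exact Subgroup.index_dvd_of_le hPC
            have h4 : ¬ p ∣ (P : Subgroup G).index := P.not_dvd_index
            rw [Nat.coprime_comm, Nat.Prime.coprime_iff_not_dvd Fact.out]
            exact fun h => h4 (h.trans h3)
          have h5 : (⟨y, hyN⟩ : N₀) ^ p ^ k = 1 := Subtype.ext hk
          have h6 := mem_of_pelt_of_index_coprime (C₀.subgroupOf N₀) hidx h5
          exact h6
        refine Subgroup.mem_centralizer_iff.mpr ?_
        intro x hx
        set c := y * x * y⁻¹ * x⁻¹ with hc
        have hcQ : c ∈ Q₀ := by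
          refine ⟨Q.mul_mem (hyinQ x hx) (Q.inv_mem hx), ?_⟩
          have h1 := hs x⁻¹ (Q.inv_mem hx)
          have e : c = x * (x⁻¹ * y * x⁻¹⁻¹ * y⁻¹) * x⁻¹ := by rw [hc]; group
          rw [e]
          exact hRn.conj_mem _ h1 x
        have hyc : y * c * y⁻¹ = c := by
          have := Subgroup.mem_centralizer_iff.mp hyC c hcQ
          rw [← this]; group
        have hpow : ∀ j : ℕ, y ^ j * x * (y ^ j)⁻¹ = c ^ j * x := by
          intro j
          induction j with
          | zero => simp
          | succ j ih2 =>
            have e1 : y * (c ^ j * x) * y⁻¹ = (y * c ^ j * y⁻¹) * (y * x * y⁻¹) := by group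
            have e2 : y * c ^ j * y⁻¹ = c ^ j := by rw [← conj_pow, hyc]
            have e3 : y * x * y⁻¹ = c * x := by rw [hc]; group
            calc y ^ (j + 1) * x * (y ^ (j + 1))⁻¹ = y * (y ^ j * x * (y ^ j)⁻¹) * y⁻¹ := by
                  rw [pow_succ']; group
              _ = c ^ j * (c * x) := by rw [ih2, e1, e2, e3]
              _ = c ^ (j + 1) * x := by rw [pow_succ]; group
        have h1 := hpow (p ^ k)
        rw [hk] at h1
        simp only [one_mul, inv_one, mul_one] at h1
        have h2 : c ^ p ^ k = 1 := by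
          have h20 : c ^ p ^ k * x = 1 * x := by rw [← h1, one_mul]
          exact mul_right_cancel h20
        have h3 : c = 1 := eq_one_of_mem_coprime_pow hQ hcQ.1 h2
        rw [hc, mul_inv_eq_one, mul_inv_eq_iff_eq_mul] at h3
        exact h3.symm
    · -- `p`-core nontrivial
      set R := pCore p G with hR
      haveI hRn : R.Normal := pCore_normal p G
      have hRp : IsPGroup p R := pCore_isPGroup p
      have hs := hstep R hR1
      refine Subgroup.mem_centralizer_iff.mpr ?_
      intro x hx
      have h1 := hs x hx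
      have h2 : x * y * x⁻¹ * y⁻¹ ∈ Q := by
        have e : x * y * x⁻¹ * y⁻¹ = x * (y * x⁻¹ * y⁻¹) := by group
        rw [e]
        exact Q.mul_mem hx (hyinQ _ (Q.inv_mem hx))
      have h3 := eq_one_of_mem_pgroup_coprime hRp hQ h1 h2
      rw [mul_inv_eq_one, mul_inv_eq_iff_eq_mul] at h3
      exact h3

/-- Let G be a finite p-solvable group and Q a subgroup of order prime to p such that p divides the index of C_G(Q) in N_G(Q). Then Q normalizes no Sylow p-subgroup of G. -/
theorem result {G : Type*} [Group G] [Finite G] {p : ℕ} [Fact p.Prime]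
    (hG : Cfsg.IsPSolvable p G) (Q : Subgroup G) (hQ : ¬ p ∣ Nat.card Q)
    (hA : p ∣ (Subgroup.centralizer (Q : Set G)).relIndex (Subgroup.normalizer (Q : Set G)))
    (P : Sylow p G) : ¬ Q ≤ Subgroup.normalizer ((P : Subgroup G) : Set G) := by
  intro hle
  have hQc : (Nat.card Q).Coprime p := by
    rw [Nat.coprime_comm]
    exact (Nat.Prime.coprime_iff_not_dvd Fact.out).mpr hQ
  have h1 := key (Nat.card G) G le_rfl hG Q hQc P hle
  set N := Subgroup.normalizer (Q : Set G) with hN
  set C := Subgroup.centralizer (Q : Set G) with hC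
  have hCN : C ≤ N := by
    intro c hc
    rw [hN, Subgroup.mem_normalizer_iff]
    intro z
    have hcz : ∀ z ∈ Q, c * z * c⁻¹ = z := by
      intro z hz
      have := Subgroup.mem_centralizer_iff.mp hc z hz
      rw [← this]; group
    constructor
    · intro h; rw [hcz z h]; exact h
    · intro h
      have h2 := hcz _ h
      have : z = c * z * c⁻¹ := by
        apply mul_left_cancel (a := c) 
        apply mul_right_cancel (b := c⁻¹)
        exact h2.symm
      rw [this]; exact h
  haveI hnor : (C.subgroupOf N).Normal := by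
    apply Subgroup.normal_subgroupOf_of_le_normalizer
    intro n hn
    rw [Subgroup.mem_normalizer_iff]
    intro c
    have hconj : ∀ (n : G), n ∈ N → ∀ c ∈ C, n * c * n⁻¹ ∈ C := by
      intro n hn c hc
      refine Subgroup.mem_centralizer_iff.mpr ?_
      intro z hz
      have h1 : n⁻¹ * z * n⁻¹⁻¹ ∈ Q := (Subgroup.mem_normalizer_iff.mp (N.inv_mem hn) z).mp hz
      have h2 := Subgroup.mem_centralizer_iff.mp hc _ h1
      rw [inv_inv] at h2
      calc z * (n * c * n⁻¹) = n * ((n⁻¹ * z * n) * c) * n⁻¹ := by group
        _ = n * (c * (n⁻¹ * z * n)) * n⁻¹ := by rw [h2]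
        _ = n * c * n⁻¹ * z := by group
    constructor
    · exact hconj n hn c
    · intro h
      have e : c = n⁻¹ * (n * c * n⁻¹) * n⁻¹⁻¹ := by group
      rw [e]
      exact hconj n⁻¹ (N.inv_mem hn) _ h
  have hcop : (C.subgroupOf N).index.Coprime p := by
    apply index_coprime_of_pelts_le
    rintro ⟨a, ha⟩ ⟨k, hk⟩
    have hk' : a ^ p ^ k = 1 := congrArg Subtype.val hk
    exact h1 a ha ⟨k, hk'⟩
  have h2 : (C.subgroupOf N).index = C.relIndex N := rfl
  rw [h2] at hcop
  have h3 := Nat.dvd_gcd hA (dvd_refl p)
  rw [Nat.Coprime.gcd_eq_one hcop] at h3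
  exact (Fact.out : p.Prime).one_lt.ne' (Nat.dvd_one.mp h3)

end Cfsg.Agent.S1901
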