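import Cfsg.Statements.S1902
import Mathlib
import Cfsg.Agent.S1302
import Cfsg.Agent.Lib.PSolv
import Cfsg.Agent.Lib.H9Hyp

set_option autoImplicit false
open Cfsg

namespace Cfsg.Agent.S1902

open Cfsg Subgroup
open scoped Pointwise

/-- Let p be an odd prime, G a finite p-solvable group, and B an elementary abelian subgroup of order p² such that B is the subgroup generated by the elements of order p of some Sylow p-subgroup of C_G(b₀), for some nontrivial b₀ ∈ B. Then every B-invariant subgroup of G of order prime to p lies in O_{p'}(G). -/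
theorem result {G : Type*} [Group G] [Finite G] {p : ℕ} [Fact p.Prime] (hp : p ≠ 2)
    (hG : Cfsg.IsPSolvable p G) (B : Subgroup G) (hB : Cfsg.IsElementaryAbelian p B) (hBc : Nat.card B = p ^ 2)
    (b₀ : G) (hb₀ : b₀ ∈ B) (hb₁ : b₀ ≠ 1) (P : Sylow p ↥(Subgroup.centralizer ({b₀} : Set G)))
    (hBP : B = Subgroup.closure {x : G | x ∈ ((P : Subgroup ↥(Subgroup.centralizer ({b₀} : Set G))).map
      (Subgroup.centralizer ({b₀} : Set G)).subtype : Subgroup G) ∧ orderOf x = p})
    (Q : Subgroup G) (hQ : ¬ p ∣ Nat.card Q) (hinv : ∀ b ∈ B, ∀ x ∈ Q, b * x * b⁻¹ ∈ Q) :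
    Q ≤ Cfsg.pPrimeCore p G := by
  classical
  have hpp : Nat.Prime p := Fact.out
  have hcons : IsPConstrained p G := by
    obtain ⟨P₀⟩ : Nonempty (Sylow p (pPrimePCore p G)) := inferInstance
    exact Cfsg.Agent.Lib.PSolv.pconstrained_of_centralizer_isPSolvable P₀
      (Cfsg.Agent.Lib.PSolv.isPSolvable_subgroup hG _)
  have hBp : IsPGroup p B := Cfsg.Agent.Lib.H9Hyp.isPGroup_of_ea hB
  have hBcomm : ∀ a ∈ B, ∀ b ∈ B, a * b = b * a := fun a ha b hb =>
    Cfsg.Agent.Lib.H9Hyp.comm_of_ea hB ha hb
  have hord : ∀ a ∈ B, a ^ p = 1 := fun a ha => hB.2 a ha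
  have hΩ : ∀ x ∈ centralizer (B : Set G), orderOf x = p → x ∈ B := by
    intro x hx hxo
    have hxp : IsPGroup p (Subgroup.zpowers x) := by
      rw [IsPGroup.iff_card, Nat.card_zpowers, hxo]
      exact ⟨1, (pow_one p).symm⟩
    -- `B` and `x` lie in the centralizer of `b₀`
    have hBC : ∀ a ∈ B, a ∈ centralizer ({b₀} : Set G) := by
      intro a ha
      rw [mem_centralizer_iff]
      rintro _ rfl
      exact hBcomm _ hb₀ _ ha
    have hxC : x ∈ centralizer ({b₀} : Set G) := by
      rw [mem_centralizer_iff]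
      rintro _ rfl
      exact mem_centralizer_iff.1 hx _ hb₀
    have hBx : B ≤ centralizer (Subgroup.zpowers x : Set G) := by
      rw [Subgroup.le_centralizer_iff, Subgroup.zpowers_le]
      exact hx
    have hDp : IsPGroup p (B ⊔ Subgroup.zpowers x : Subgroup G) := by
      refine IsPGroup.to_sup_of_normal_right' hBp hxp ?_
      rw [Subgroup.le_normalizer_iff]
      intro b hb y hy
      rw [show b * y * b⁻¹ = y from ?_]
      · exact hy
      have h1 := mem_centralizer_iff.1 (hBx hb) y hy
      rw [← h1]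
      group
    set D : Subgroup (centralizer ({b₀} : Set G)) := (B ⊔ Subgroup.zpowers x : Subgroup G).comap (centralizer ({b₀} : Set G)).subtype with hD
    have hDp' : IsPGroup p D := hDp.comap_of_injective _ (centralizer ({b₀} : Set G)).subtype_injective
    obtain ⟨S, hS⟩ := hDp'.exists_le_sylow
    obtain ⟨c, hc⟩ := MulAction.exists_smul_eq (centralizer ({b₀} : Set G)) P S
    set g : G := (c : G) with hg
    have hconj : ∀ y : centralizer ({b₀} : Set G), y ∈ S → ((c⁻¹ * y * c : centralizer ({b₀} : Set G)) ∈ (P : Subgroup (centralizer ({b₀} : Set G)))) := by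
      intro y hy
      rw [← hc] at hy
      have h1 : y ∈ (MulAut.conj c • (P : Subgroup (centralizer ({b₀} : Set G))) : Subgroup (centralizer ({b₀} : Set G))) := by
        rw [← Sylow.coe_subgroup_smul]
        exact hy
      rw [Subgroup.mem_pointwise_smul_iff_inv_smul_mem] at h1
      have h2 : (MulAut.conj c)⁻¹ • y = c⁻¹ * y * c := by
        simp [MulAut.smul_def, MulAut.conj_apply]
      rwa [h2] at h1
    have hkey : ∀ y : centralizer ({b₀} : Set G), y ∈ S → (y : G) ^ p = 1 → g⁻¹ * y * g ∈ B := by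
      intro y hy hyp
      have h1 := hconj y hy
      have h2 : ((c⁻¹ * y * c : centralizer ({b₀} : Set G)) : G) = g⁻¹ * y * g := by simp [hg]
      by_cases hy1 : (y : G) = 1
      · rw [hy1]; simp
      rw [hBP, ← h2]
      apply Subgroup.subset_closure
      refine ⟨mem_map_of_mem (centralizer ({b₀} : Set G)).subtype h1, ?_⟩
      rw [h2]
      have : orderOf (g⁻¹ * y * g) = orderOf (y : G) := by
        have e : g⁻¹ * y * g = MulAut.conj g⁻¹ y := by simp [MulAut.conj_apply]
        rw [e, MulEquiv.orderOf_eq]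
      rw [this]
      exact orderOf_eq_prime hyp hy1
    have hBS : ∀ a (ha : a ∈ B), (⟨a, hBC a ha⟩ : centralizer ({b₀} : Set G)) ∈ S := fun a ha =>
      hS (show a ∈ (B ⊔ Subgroup.zpowers x : Subgroup G) from Subgroup.mem_sup_left ha)
    have hxS : (⟨x, hxC⟩ : centralizer ({b₀} : Set G)) ∈ S := hS (show x ∈ (B ⊔ Subgroup.zpowers x : Subgroup G) from
      Subgroup.mem_sup_right (Subgroup.mem_zpowers x))
    have hmap : B.map (MulAut.conj g⁻¹).toMonoidHom = B := by
      apply Subgroup.eq_of_le_of_card_ge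
      · rintro _ ⟨a, ha, rfl⟩
        have := hkey _ (hBS a ha) (hord a ha)
        simpa [MulAut.conj_apply] using this
      · rw [Subgroup.card_map_of_injective (MulEquiv.injective _)]
    have hx' : g⁻¹ * x * g ∈ B := hkey _ hxS (by rw [← hxo]; exact pow_orderOf_eq_one x)
    rw [← hmap] at hx'
    obtain ⟨b, hb, hbe⟩ := hx'
    have hbe' : g⁻¹ * b * g = g⁻¹ * x * g := by simpa [MulAut.conj_apply] using hbe
    have : b = x := by
      have h3 := mul_right_cancel hbe'
      exact mul_left_cancel h3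
    rwa [← this]
  refine Cfsg.Agent.S1302.result p hp hcons B hB.1 hBp hΩ Q hQ ?_
  rw [Subgroup.le_normalizer_iff]
  exact hinv

end Cfsg.Agent.S1902
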