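import Cfsg.Statements.S1905
import Mathlib
import Cfsg.Agent.Lib.Invol
import Cfsg.Agent.Lib.SylowTools

set_option autoImplicit false
open Cfsg

namespace Cfsg.Agent.S1905

open Cfsg Cfsg.Agent.Lib
open Cfsg.Agent.Lib.SylowTools

lemma invol_swap {S : Type*} [Group S] {t u : S} (ht : orderOf t = 2) (hu : orderOf u = 2)
    (hodd : Odd (orderOf (t * u))) : ∃ w : S, w ^ 2 = 1 ∧ w * t * w⁻¹ = u := by
  obtain ⟨m, hm⟩ := hodd
  refine ⟨t * (t * u) ^ ((m + 1 : ℕ) : ℤ), Invol.sq_x_zpow ht hu _, ?_⟩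
  rw [Invol.x_zpow_conj ht hu]
  conv_rhs => rw [Invol.y_eq_zpow_x ht hu]
  congr 1
  rw [zpow_eq_zpow_iff_modEq, hm, Int.modEq_iff_dvd]
  push_cast
  exact ⟨1, by ring⟩

lemma conj_mem_cent {S : Type*} [Group S] {g x i : S} (h : x * i = i * x) :
    (g * x * g⁻¹) * (g * i * g⁻¹) = (g * i * g⁻¹) * (g * x * g⁻¹) := by
  calc (g * x * g⁻¹) * (g * i * g⁻¹) = g * (x * i) * g⁻¹ := by group
    _ = g * (i * x) * g⁻¹ := by rw [h]
    _ = _ := by group

lemma mem_cent_of {S : Type*} [Group S] {x i : S} (h : x * i = i * x) :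
    x ∈ Subgroup.centralizer ({i} : Set S) := by
  refine Subgroup.mem_centralizer_iff.mpr ?_
  intro j hj
  rw [Set.mem_singleton_iff.mp hj]
  exact h.symm

lemma part1 {S : Type*} [Group S] [Finite S] (M : Subgroup S) (hM : Even (Nat.card M))
    (hC : ∀ i ∈ M, orderOf i = 2 → Subgroup.centralizer ({i} : Set S) ≤ M)
    (hkodd : ∀ K : Subgroup S, K.Normal → K ≤ M → Odd (Nat.card K)) :
    ∀ x y : S, orderOf x = 2 → orderOf y = 2 → IsConj x y := by
  obtain ⟨i0', hi0'⟩ := exists_prime_orderOf_dvd_card' (G := M) 2 hM.two_dvd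
  set i0 : S := (i0' : S) with hi0d
  have hi0M : i0 ∈ M := i0'.2
  have hi0 : orderOf i0 = 2 := by rw [hi0d, Subgroup.orderOf_coe]; exact hi0'
  have h_out : ∀ x, orderOf x = 2 → x ∉ M → ∀ i ∈ M, orderOf i = 2 → IsConj x i := by
    intro x hx hxM i hiM hi
    by_cases hodd : Odd (orderOf (x * i))
    · obtain ⟨d, -, hd⟩ := Invol.exists_conj_of_odd hx hi hodd
      exact isConj_iff.mpr ⟨d, hd⟩
    · exfalso
      have he : Even (orderOf (x * i)) := Nat.not_odd_iff_even.mp hodd
      set z := (x * i) ^ (orderOf (x * i) / 2) with hz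
      have hz2 : orderOf z = 2 := Invol.orderOf_half' he
      have h1 : z * i = i * z := Invol.half_commute_right hx hi he
      have h2 : z * x = x * z := Invol.half_commute_left hx hi he
      have hzM : z ∈ M := hC i hiM hi (mem_cent_of h1)
      exact hxM (hC z hzM hz2 (mem_cent_of h2.symm))
  have hexists : ∃ x0, orderOf x0 = 2 ∧ x0 ∉ M := by
    by_contra hno
    push Not at hno
    have hKM : Subgroup.normalClosure ({i0} : Set S) ≤ M := by
      refine (Subgroup.closure_le _).mpr ?_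
      intro c hc
      rw [Group.mem_conjugatesOfSet_iff] at hc
      obtain ⟨a, ha, hac⟩ := hc
      rw [Set.mem_singleton_iff.mp ha] at hac
      obtain ⟨g, rfl⟩ := isConj_iff.mp hac
      exact hno _ (by rw [Invol.orderOf_conj']; exact hi0)
    have hodd := hkodd _ inferInstance hKM
    have h1 : i0 ∈ Subgroup.normalClosure ({i0} : Set S) :=
      Subgroup.subset_normalClosure (Set.mem_singleton i0)
    have h2 : 2 ∣ Nat.card (Subgroup.normalClosure ({i0} : Set S)) := by
      rw [← hi0]; exact Subgroup.orderOf_dvd_natCard _ h1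
    exact (Nat.not_even_iff_odd.mpr hodd) (even_iff_two_dvd.mpr h2)
  obtain ⟨x0, hx0, hx0M⟩ := hexists
  have hall : ∀ x, orderOf x = 2 → IsConj x i0 := by
    intro x hx
    by_cases hxM : x ∈ M
    · exact (h_out x0 hx0 hx0M x hxM hx).symm.trans (h_out x0 hx0 hx0M i0 hi0M hi0)
    · exact h_out x hx hxM i0 hi0M hi0
  intro x y hx hy
  exact (hall x hx).trans (hall y hy).symm

/-- Let M be a subgroup of even order of a finite group S such that M contains the centralizer in S of each of its involutions and the normal core of M in S has odd order. Then all involutions of S are conjugate. If moreover N_S(X) ≤ M for a Sylow 2-subgroup X of M and I is an involution in the centre of X, then all involutions of M are conjugate in M and M = M₀ C_M(I) for some subgroup M₀ of M of odd order. -/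
theorem result {S : Type*} [Group S] [Finite S] (M : Subgroup S) (hM : Even (Nat.card M))
    (hC : ∀ i ∈ M, orderOf i = 2 → Subgroup.centralizer ({i} : Set S) ≤ M) (hcore : Odd (Nat.card M.normalCore)) :
    (∀ x y : S, orderOf x = 2 → orderOf y = 2 → IsConj x y) ∧
      ∀ (X : Sylow 2 M) (I : M), I ∈ (Subgroup.center ↥(X : Subgroup ↥M)).map (X : Subgroup ↥M).subtype → orderOf I = 2 →
        Subgroup.normalizer (((X : Subgroup M).map M.subtype : Subgroup S) : Set S) ≤ M →
        (∀ x y : M, orderOf x = 2 → orderOf y = 2 → IsConj x y) ∧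
          ∃ M₀ : Subgroup M, Odd (Nat.card M₀) ∧
            ∀ m : M, ∃ a ∈ M₀, ∃ c ∈ Subgroup.centralizer ({I} : Set M), m = a * c := by
  have hkodd : ∀ K : Subgroup S, K.Normal → K ≤ M → Odd (Nat.card K) := by
    intro K hK hKM
    have h1 : K ≤ M.normalCore := Subgroup.normal_le_normalCore.mpr hKM
    have h2 := Subgroup.card_dvd_of_le h1
    exact hcore.of_dvd_nat h2
  have hp1 := part1 M hM hC hkodd
  refine ⟨hp1, ?_⟩
  intro X I hI hI2 hN
  set I' : S := (I : S) with hI'
  have hI'M : I' ∈ M := I.2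
  have hI'2 : orderOf I' = 2 := by rw [hI', Subgroup.orderOf_coe]; exact hI2
  set X' : Subgroup S := (X : Subgroup M).map M.subtype with hX'
  have hXI : ∀ x ∈ X', x * I' = I' * x := by
    rintro _ ⟨y, hy, rfl⟩
    obtain ⟨z, hz, rfl⟩ := hI
    have h1 := Subgroup.mem_center_iff.mp hz ⟨y, hy⟩
    have h2 := congrArg (fun w : ↥(X : Subgroup M) => ((w : M) : S)) h1
    exact h2
  have hX'p : IsPGroup 2 X' := by
    have := X.isPGroup'.map M.subtype
    exact this
  -- transitivity in `M`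
  have hB : ∀ t ∈ M, orderOf t = 2 → ∃ m ∈ M, m * I' * m⁻¹ = t := by
    intro t htM ht
    obtain ⟨g, hg⟩ := isConj_iff.mp (hp1 I' t hI'2 ht)
    set F := X'.map (MulAut.conj g).toMonoidHom with hF
    have hFM : F ≤ M := by
      rintro _ ⟨x, hx, rfl⟩
      apply hC t htM ht
      apply mem_cent_of
      rw [← hg]
      exact conj_mem_cent (hXI x hx)
    have hFp : IsPGroup 2 F := hX'p.map _
    obtain ⟨m, hmM, hm⟩ := exists_conj_le_image M X F hFM hFp
    have hcard : Nat.card X' = Nat.card (F.map (MulAut.conj m).toMonoidHom) := by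
      rw [card_map_conj, hF, card_map_conj]
    have heq : F.map (MulAut.conj m).toMonoidHom = X' := Subgroup.eq_of_le_of_card_ge hm (by rw [hcard])
    rw [hF, map_conj_map_conj] at heq
    have h1 : m * g ∈ M := hN (conj_mem_normalizer_iff.mpr heq)
    have h2 : g ∈ M := by
      have e : g = m⁻¹ * (m * g) := by group
      rw [e]; exact M.mul_mem (M.inv_mem hmM) h1
    exact ⟨g, h2, hg⟩
  refine ⟨?_, ?_⟩
  · intro x y hx hy
    have hx' : orderOf (x : S) = 2 := by rw [Subgroup.orderOf_coe]; exact hx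
    have hy' : orderOf (y : S) = 2 := by rw [Subgroup.orderOf_coe]; exact hy
    obtain ⟨a, ha, hax⟩ := hB x x.2 hx'
    obtain ⟨b, hb, hby⟩ := hB y y.2 hy'
    rw [isConj_iff]
    refine ⟨⟨b, hb⟩ * ⟨a, ha⟩⁻¹, Subtype.ext ?_⟩
    show b * a⁻¹ * (x : S) * (b * a⁻¹)⁻¹ = y
    rw [← hax, ← hby]
    group
  -- an element outside `M`
  have hne : ∃ h, h ∉ M := by
    by_contra hno
    push Not at hno
    have h1 : M = ⊤ := eq_top_iff.mpr fun x _ => hno x
    have h2 := hkodd M (by rw [h1]; infer_instance) le_rfl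
    exact (Nat.not_even_iff_odd.mpr h2) hM
  obtain ⟨h, hh⟩ := hne
  set Mh := M.map (MulAut.conj h).toMonoidHom with hMh
  have hmemh : ∀ x, x ∈ Mh ↔ h⁻¹ * x * h ∈ M := fun x => InvolSylow.mem_conj_iff
  have hnoinv : ∀ i ∈ M, i ∈ Mh → orderOf i = 2 → False := by
    intro i hiM hiMh hi
    set j := h⁻¹ * i * h with hj
    have hjM : j ∈ M := (hmemh i).mp hiMh
    have hj2 : orderOf j = 2 := by
      have := Invol.orderOf_conj' h⁻¹ i
      rw [inv_inv] at this
      rw [hj, this, hi]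
    obtain ⟨a, ha, hai⟩ := hB i hiM hi
    obtain ⟨b, hb, hbj⟩ := hB j hjM hj2
    have h1 : (h * b * a⁻¹) * i = i * (h * b * a⁻¹) := by
      have e1 : (h * b * a⁻¹) * i * (h * b * a⁻¹)⁻¹ = h * (b * (a⁻¹ * i * a) * b⁻¹) * h⁻¹ := by group
      have e2 : a⁻¹ * i * a = I' := by rw [← hai]; group
      rw [e2, hbj, hj] at e1
      have e3 : h * (h⁻¹ * i * h) * h⁻¹ = i := by group
      rw [e3] at e1
      rw [mul_inv_eq_iff_eq_mul] at e1
      exact e1
    have h2 : h * b * a⁻¹ ∈ M := hC i hiM hi (mem_cent_of h1)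
    apply hh
    have e : h = (h * b * a⁻¹) * a * b⁻¹ := by group
    rw [e]
    exact M.mul_mem (M.mul_mem h2 ha) (M.inv_mem hb)
  set u := h * I' * h⁻¹ with hu
  have hu2 : orderOf u = 2 := by rw [hu, Invol.orderOf_conj']; exact hI'2
  have hCu : Subgroup.centralizer ({u} : Set S) ≤ Mh := by
    intro z hz
    rw [hmemh]
    apply hC I' hI'M hI'2
    apply mem_cent_of
    have h1 := Subgroup.mem_centralizer_iff.mp hz u (Set.mem_singleton u)
    have h2 := conj_mem_cent (g := h⁻¹) h1.symm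
    have e : h⁻¹ * u * h⁻¹⁻¹ = I' := by rw [hu]; group
    rw [inv_inv] at h2
    rw [inv_inv] at e
    rw [e] at h2
    exact h2
  have hw : ∀ t ∈ M, orderOf t = 2 → ∃ w m : S, w ^ 2 = 1 ∧ w * t * w⁻¹ = u ∧ m ∈ M ∧ w = h * m := by
    intro t htM ht
    have hodd : Odd (orderOf (t * u)) := by
      by_contra hodd
      have he : Even (orderOf (t * u)) := Nat.not_odd_iff_even.mp hodd
      set z := (t * u) ^ (orderOf (t * u) / 2) with hz
      have hz2 : orderOf z = 2 := Invol.orderOf_half' he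
      have h1 : z * u = u * z := Invol.half_commute_right ht hu2 he
      have h2 : z * t = t * z := Invol.half_commute_left ht hu2 he
      exact hnoinv z (hC t htM ht (mem_cent_of h2)) (hCu (mem_cent_of h1)) hz2
    obtain ⟨w, hw2, hwt⟩ := invol_swap ht hu2 hodd
    obtain ⟨a, ha, hat⟩ := hB t htM ht
    refine ⟨w, h⁻¹ * w, hw2, hwt, ?_, by group⟩
    have h1 : (h⁻¹ * w * a) * I' = I' * (h⁻¹ * w * a) := by
      have e1 : (h⁻¹ * w * a) * I' * (h⁻¹ * w * a)⁻¹ = h⁻¹ * (w * (a * I' * a⁻¹) * w⁻¹) * h := by group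
      rw [hat, hwt, hu] at e1
      have e3 : h⁻¹ * (h * I' * h⁻¹) * h = I' := by group
      rw [e3] at e1
      rw [mul_inv_eq_iff_eq_mul] at e1
      exact e1
    have h2 : h⁻¹ * w * a ∈ M := hC I' hI'M hI'2 (mem_cent_of h1)
    have e : h⁻¹ * w = (h⁻¹ * w * a) * a⁻¹ := by group
    rw [e]
    exact M.mul_mem h2 (M.inv_mem ha)
  refine ⟨Mh.subgroupOf M, ?_, ?_⟩
  · by_contra hodd
    have he := Nat.not_odd_iff_even.mp hodd
    obtain ⟨i, hi⟩ := exists_prime_orderOf_dvd_card' (G := Mh.subgroupOf M) 2 he.two_dvd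
    have h1 : orderOf ((i : M) : S) = 2 := by
      rw [Subgroup.orderOf_coe, Subgroup.orderOf_coe]; exact hi
    exact hnoinv ((i : M) : S) (i : M).2 i.2 h1
  · intro m
    set t' : S := (m : S) * I' * (m : S)⁻¹ with ht'
    have ht'M : t' ∈ M := M.mul_mem (M.mul_mem m.2 hI'M) (M.inv_mem m.2)
    have ht'2 : orderOf t' = 2 := by rw [ht', Invol.orderOf_conj']; exact hI'2
    obtain ⟨w, m₁, hw2, hwt, hm₁, hwe⟩ := hw I' hI'M hI'2
    obtain ⟨w', m₂, hw'2, hw't, hm₂, hw'e⟩ := hw t' ht'M ht'2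
    have hw'inv : w'⁻¹ = w' := inv_eq_of_mul_eq_one_left (by rw [← pow_two]; exact hw'2)
    have hwinv : w⁻¹ = w := inv_eq_of_mul_eq_one_left (by rw [← pow_two]; exact hw2)
    set c := w' * w with hc
    have hcM : c ∈ M := by
      have e : c = m₂⁻¹ * m₁ := by
        rw [hc]
        nth_rw 1 [← hw'inv]
        rw [hw'e, hwe]
        group
      rw [e]
      exact M.mul_mem (M.inv_mem hm₂) hm₁
    have hcMh : c ∈ Mh := by
      rw [hmemh]
      have e : h⁻¹ * c * h = m₂ * m₁⁻¹ := by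
        rw [hc]
        nth_rw 1 [← hwinv]
        rw [hw'e]
        nth_rw 1 [hwe]
        group
      rw [e]
      exact M.mul_mem hm₂ (M.inv_mem hm₁)
    have hct : c * I' * c⁻¹ = t' := by
      have e1 : c * I' * c⁻¹ = w' * (w * I' * w⁻¹) * w'⁻¹ := by rw [hc]; group
      rw [e1, hwt, ← hw't, hw'inv]
      have e2 : w' * (w' * t' * w') * w' = (w' * w') * t' * (w' * w') := by group
      rw [e2, ← pow_two, hw'2]
      group
    refine ⟨⟨c, hcM⟩, hcMh, ⟨c, hcM⟩⁻¹ * m, ?_, by group⟩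
    refine mem_cent_of (Subtype.ext ?_)
    show c⁻¹ * (m : S) * I' = I' * (c⁻¹ * (m : S))
    have h3 : (m : S) * I' = t' * (m : S) := by rw [ht']; group
    rw [mul_assoc, h3, ← hct]
    group

end Cfsg.Agent.S1905
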