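import Cfsg.Statements.S1939
import Mathlib
import Cfsg.Agent.Lib.InvolSylow

set_option autoImplicit false
open Cfsg

namespace Cfsg.Agent.S1939

open Cfsg.Agent.Lib.InvolSylow

/-- Let S be a Sylow p-subgroup of the finite group G and a an element of S that is the only G-conjugate of a lying in S. Then every power of a has the same property: for every n, the only G-conjugate of a^n lying in S is a^n. -/
theorem result {G : Type*} [Group G] [Finite G] {p : ℕ} [Fact p.Prime] (S : Sylow p G) (a : G)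
    (haS : a ∈ (S : Subgroup G)) (hwc : ∀ g : G, g * a * g⁻¹ ∈ (S : Subgroup G) → g * a * g⁻¹ = a) (n : ℕ) :
    ∀ g : G, g * a ^ n * g⁻¹ ∈ (S : Subgroup G) → g * a ^ n * g⁻¹ = a ^ n := by
  intro g hg
  have hcen : ∀ s ∈ (S : Subgroup G), s * a = a * s := by
    intro s hs
    have h1 := hwc s (S.1.mul_mem (S.1.mul_mem hs haS) (S.1.inv_mem hs))
    calc s * a = s * a * s⁻¹ * s := by group
      _ = a * s := by rw [h1]
  set x := g * a ^ n * g⁻¹ with hx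
  set a' := g * a * g⁻¹ with ha'
  have hxa' : x = a' ^ n := by rw [ha', conj_pow]
  set C := Subgroup.centralizer ({x} : Set G) with hC
  have haC : a ∈ C := by
    rw [hC, Subgroup.mem_centralizer_iff]
    intro w hw
    rw [Set.mem_singleton_iff] at hw
    rw [hw]
    exact hcen x hg
  have ha'C : a' ∈ C := by
    rw [hC, Subgroup.mem_centralizer_iff]
    intro w hw
    rw [Set.mem_singleton_iff] at hw
    rw [hw, hxa']
    exact (Commute.refl a').pow_left n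
  obtain ⟨r, hr⟩ : ∃ r, a ^ (p ^ r) = 1 := by
    obtain ⟨r, hr⟩ := S.2 ⟨a, haS⟩
    exact ⟨r, congrArg Subtype.val hr⟩
  have hr' : a' ^ (p ^ r) = 1 := by
    rw [ha', conj_pow, hr]; simp
  let a₁ : ↥C := ⟨a, haC⟩
  let a₂ : ↥C := ⟨a', ha'C⟩
  obtain ⟨T₁, hT₁⟩ := (isPGroup_zpowers_of_pow (p := p) (c := a₁) (r := r) (Subtype.ext hr)).exists_le_sylow
  obtain ⟨T₂, hT₂⟩ := (isPGroup_zpowers_of_pow (p := p) (c := a₂) (r := r) (Subtype.ext hr')).exists_le_sylow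
  obtain ⟨c, hc⟩ := MulAction.exists_smul_eq ↥C T₂ T₁
  have ha₁T : a₁ ∈ T₁ := hT₁ (Subgroup.mem_zpowers _)
  have ha₂T : a₂ ∈ T₂ := hT₂ (Subgroup.mem_zpowers _)
  have hca₂ : c * a₂ * c⁻¹ ∈ T₁ := by
    rw [← hc]
    exact Subgroup.mem_map_of_mem _ ha₂T
  -- go to G
  have hT₁p : IsPGroup p ((T₁ : Subgroup ↥C).map C.subtype) := T₁.2.map _
  obtain ⟨S₂, hS₂⟩ := hT₁p.exists_le_sylow
  obtain ⟨u, hu⟩ := MulAction.exists_smul_eq G S S₂
  have hmem : ∀ z : G, z ∈ (S₂ : Subgroup G) → u⁻¹ * z * u ∈ (S : Subgroup G) := by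
    intro z hz
    rw [← hu] at hz
    obtain ⟨t, ht, rfl⟩ := hz
    have h0 : u⁻¹ * (u * t * u⁻¹) * u = t := by group
    show u⁻¹ * (u * t * u⁻¹) * u ∈ (S : Subgroup G)
    rw [h0]
    exact ht
  have h1 : a ∈ (S₂ : Subgroup G) := hS₂ ⟨a₁, ha₁T, rfl⟩
  have h2 : (c : G) * a' * (c : G)⁻¹ ∈ (S₂ : Subgroup G) := hS₂ ⟨_, hca₂, rfl⟩
  have h3 := hwc u⁻¹ (by simpa using hmem a h1)
  have h4 : (u⁻¹ * c * g) * a * (u⁻¹ * c * g)⁻¹ ∈ (S : Subgroup G) := by
    have := hmem _ h2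
    have h5 : u⁻¹ * ((c : G) * a' * (c : G)⁻¹) * u = (u⁻¹ * c * g) * a * (u⁻¹ * c * g)⁻¹ := by
      rw [ha']; group
    rwa [h5] at this
  have h5 := hwc _ h4
  have h6 : (c : G) * a' * (c : G)⁻¹ = a := by
    have h7 : (c : G) * a' * (c : G)⁻¹ = u * ((u⁻¹ * c * g) * a * (u⁻¹ * c * g)⁻¹) * u⁻¹ := by
      rw [ha']; group
    rw [h7, h5]
    calc u * a * u⁻¹ = u * (u⁻¹ * a * u⁻¹⁻¹) * u⁻¹ := by rw [h3]
      _ = a := by group
  have h8 : a ^ n = (c : G) * x * (c : G)⁻¹ := by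
    rw [← h6, conj_pow, ← hxa']
  have h9 : (c : G) * x = x * c := by
    have := Subgroup.mem_centralizer_iff.mp c.2 x rfl
    exact this.symm
  rw [h8, h9]
  group

end Cfsg.Agent.S1939
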