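import Cfsg.Statements.S1940
import Mathlib

set_option autoImplicit false
open Cfsg

namespace Cfsg.Agent.S1940



/-- Let the finite group L act by automorphisms on the finite abelian group M, and let N be an L-invariant subgroup of M such that M/N is a p-group on which L acts trivially (every l • m lies in the coset mN). If every element of M is a product of an element of N and an element fixed by a Sylow p-subgroup T of L, then every element of M is a product of an element of N and an element fixed by all of L. -/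
theorem result {L : Type*} [Group L] [Finite L] {M : Type*} [CommGroup M] [Finite M] [MulDistribMulAction L M]
    {p : ℕ} [Fact p.Prime] (N : Subgroup M) (hN : ∀ (l : L) (m : M), m ∈ N → l • m ∈ N)
    (hquot : IsPGroup p (M ⧸ N)) (htriv : ∀ (l : L) (m : M), (l • m) * m⁻¹ ∈ N) (T : Sylow p L)
    (hT : ∀ m : M, ∃ n ∈ N, ∃ c : M, (∀ t ∈ (T : Subgroup L), t • c = c) ∧ m = n * c) :
    ∀ m : M, ∃ n ∈ N, ∃ c : M, (∀ l : L, l • c = c) ∧ m = n * c := by
  classical
  intro m
  haveI : Fintype (L ⧸ (T : Subgroup L)) := Fintype.ofFinite _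
  let π : M →* M ⧸ N := QuotientGroup.mk' N
  have hπl : ∀ (l : L) (c : M), π (l • c) = π c := by
    intro l c
    have h := htriv l c
    have h2 : π ((l • c) * c⁻¹) = 1 := (QuotientGroup.eq_one_iff _).mpr h
    rw [map_mul, map_inv] at h2
    exact mul_inv_eq_one.mp h2
  -- the norm
  let nrm : M → M := fun c => ∏ q : L ⧸ (T : Subgroup L), (Quotient.out q : L) • c
  have hnrm_fix : ∀ c : M, (∀ t ∈ (T : Subgroup L), t • c = c) → ∀ l : L, l • nrm c = nrm c := by
    intro c hc l
    have h1 : l • nrm c = ∏ q : L ⧸ (T : Subgroup L), (l * (Quotient.out q : L)) • c := by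
      show (MulDistribMulAction.toMonoidHom M l) (∏ q : L ⧸ (T : Subgroup L), (Quotient.out q : L) • c) = _
      rw [map_prod]
      refine Finset.prod_congr rfl fun q _ => ?_
      show l • ((Quotient.out q : L) • c) = _
      rw [mul_smul]
    have h2 : ∀ q : L ⧸ (T : Subgroup L), (l * (Quotient.out q : L)) • c = (Quotient.out (l • q) : L) • c := by
      intro q
      have h3 : ((l * (Quotient.out q : L) : L) : L ⧸ (T : Subgroup L)) = l • q := by
        conv_rhs => rw [← QuotientGroup.out_eq' q]
        rfl
      have h4 : ((Quotient.out (l • q) : L) : L ⧸ (T : Subgroup L)) = ((l * (Quotient.out q : L) : L) : L ⧸ (T : Subgroup L)) := by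
        rw [h3, QuotientGroup.out_eq']
      have h5 := QuotientGroup.eq.mp h4
      have h6 := hc _ h5
      have h7 : l * (Quotient.out q : L) = (Quotient.out (l • q) : L) * ((Quotient.out (l • q) : L)⁻¹ * (l * (Quotient.out q : L))) := by
        group
      rw [h7, mul_smul, h6]
    rw [h1, Finset.prod_congr rfl (fun q _ => h2 q)]
    exact Equiv.prod_comp (MulAction.toPerm l) (fun q : L ⧸ (T : Subgroup L) => (Quotient.out q : L) • c)
  have hnrm_π : ∀ c : M, π (nrm c) = π c ^ (T : Subgroup L).index := by
    intro c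
    show π (∏ q : L ⧸ (T : Subgroup L), (Quotient.out q : L) • c) = _
    rw [map_prod]
    have h3 : ∀ x ∈ (Finset.univ : Finset (L ⧸ (T : Subgroup L))), π ((Quotient.out x : L) • c) = π c :=
      fun q _ => hπl _ c
    rw [Finset.prod_congr rfl h3, Finset.prod_const, Finset.card_univ, ← Nat.card_eq_fintype_card]
    rfl
  -- coprime power
  have hcop : (Nat.card (M ⧸ N)).Coprime (T : Subgroup L).index := by
    obtain ⟨a, ha⟩ := IsPGroup.iff_card.mp hquot
    rw [ha]
    apply Nat.Coprime.pow_left
    exact (Nat.Prime.coprime_iff_not_dvd Fact.out).mpr T.not_dvd_index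
  obtain ⟨y, hy⟩ := QuotientGroup.mk'_surjective N ((powCoprime hcop).symm (π m))
  have hy2 : π y ^ (T : Subgroup L).index = π m := by
    have h0 := (powCoprime hcop).apply_symm_apply (π m)
    rw [← hy] at h0
    exact h0
  obtain ⟨n, hn, c, hc, rfl⟩ := hT y
  have hn1 : π n = 1 := (QuotientGroup.eq_one_iff _).mpr hn
  rw [map_mul, hn1, one_mul, ← hnrm_π] at hy2
  refine ⟨m * (nrm c)⁻¹, ?_, nrm c, hnrm_fix c hc, by group⟩
  have h2 : π (m * (nrm c)⁻¹) = 1 := by
    rw [map_mul, map_inv, hy2, mul_inv_cancel]
  exact (QuotientGroup.eq_one_iff _).mp h2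

end Cfsg.Agent.S1940
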