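import Cfsg.Statements.S1941
import Mathlib
import Cfsg.Agent.Lib.Comp
import Cfsg.Agent.Lib.H1Fit

set_option autoImplicit false
open Cfsg

namespace Cfsg.Agent.S1941

open Cfsg Cfsg.Agent.Lib.Comp Cfsg.Agent.Lib.H1Core Cfsg.Agent.Lib.H1Fit

/-- A coboundary lemma. -/
lemma coboundary {G : Type*} [Group G] [Finite G] {p : ℕ} [Fact p.Prime]
    (A : Subgroup G) [hAn : A.Normal] (hcomm : ∀ a ∈ A, ∀ b ∈ A, a * b = b * a) (hAp : IsPGroup p A)
    (T : Subgroup G) (hT : ¬ p ∣ T.index) (d : G → G) (hdA : ∀ g, d g ∈ A)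
    (hd1 : ∀ g h, d (g * h) = d g * (g * d h * g⁻¹)) (hdT : ∀ t ∈ T, d t = 1) :
    ∃ w ∈ A, ∀ h, d h = w * (h * w⁻¹ * h⁻¹) := by
  classical
  haveI := Fintype.ofFinite (G ⧸ T)
  letI inst : CommGroup A := { (inferInstance : Group A) with
    mul_comm := fun a b => Subtype.ext (hcomm a a.2 b b.2) }
  let d' : G → A := fun g => ⟨d g, hdA g⟩
  have hd'mul : ∀ g t : G, t ∈ T → d (g * t) = d g := by
    intro g t ht
    rw [hd1, hdT t ht]
    group
  let D : (G ⧸ T) → A := fun q => d' (Quotient.out q)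
  have hD : ∀ g : G, D (QuotientGroup.mk g) = d' g := by
    intro g
    apply Subtype.ext
    show d (Quotient.out (QuotientGroup.mk g : G ⧸ T)) = d g
    have h1 : g⁻¹ * Quotient.out (QuotientGroup.mk g : G ⧸ T) ∈ T := by
      apply QuotientGroup.eq.mp
      exact (Quotient.out_eq _).symm
    have e : Quotient.out (QuotientGroup.mk g : G ⧸ T) = g * (g⁻¹ * Quotient.out (QuotientGroup.mk g : G ⧸ T)) := by group
    rw [e, hd'mul g _ h1]
  let c : G → (A →* A) := fun h => (MulAut.conjNormal h : A ≃* A).toMonoidHom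
  have hc : ∀ h (a : A), ((c h a : A) : G) = h * a * h⁻¹ := fun h a => rfl
  set z : A := ∏ q : G ⧸ T, D q with hz
  have hkey : ∀ h : G, z = d' h ^ (Fintype.card (G ⧸ T)) * c h z := by
    intro h
    have h1 : z = ∏ q : G ⧸ T, D (h • q) := by
      rw [hz]
      exact (Equiv.prod_comp (MulAction.toPerm h : Equiv.Perm (G ⧸ T)) D).symm
    have h2 : ∀ q : G ⧸ T, D (h • q) = d' h * c h (D q) := by
      intro q
      induction q using QuotientGroup.induction_on with
      | H g =>
        have e : h • (QuotientGroup.mk g : G ⧸ T) = QuotientGroup.mk (h * g) := rfl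
        rw [e, hD, hD]
        apply Subtype.ext
        exact hd1 h g
    conv_lhs => rw [h1, Finset.prod_congr rfl (fun q _ => h2 q), Finset.prod_mul_distrib, Finset.prod_const,
      Finset.card_univ]
    rw [hz, map_prod]
  have hcop : (Nat.card A).Coprime (Fintype.card (G ⧸ T)) := by
    obtain ⟨k, hk⟩ := IsPGroup.iff_card.mp hAp
    rw [hk]
    apply Nat.Coprime.pow_left
    rw [Nat.Prime.coprime_iff_not_dvd Fact.out, ← Nat.card_eq_fintype_card]
    exact hT
  let e := powCoprime hcop
  set w : A := e.symm z with hw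
  have hwz : w ^ Fintype.card (G ⧸ T) = z := e.apply_symm_apply z
  refine ⟨w, w.2, fun h => ?_⟩
  have h3 : (w * (c h w)⁻¹) ^ Fintype.card (G ⧸ T) = d' h ^ Fintype.card (G ⧸ T) := by
    have h30 : (c h w) ^ Fintype.card (G ⧸ T) = c h (w ^ Fintype.card (G ⧸ T)) := (map_pow (c h) w _).symm
    rw [mul_pow, inv_pow, h30, hwz]
    nth_rw 1 [hkey h]
    exact mul_inv_cancel_right _ _
  have h4 : w * (c h w)⁻¹ = d' h := e.injective h3
  have h5 := congrArg (Subtype.val) h4
  have h6 : ((w * (c h w)⁻¹ : A) : G) = (w : G) * (h * (w : G)⁻¹ * h⁻¹) := by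
    show (w : G) * (h * (w : G) * h⁻¹)⁻¹ = _
    group
  rw [h6] at h5
  exact h5.symm

/-- Let G be a finite group with no nontrivial normal subgroup of order prime to p, T a Sylow p-subgroup of G and E(G) the layer of G (the subgroup generated by its components). An automorphism of G of p-power order that fixes T and E(G) elementwise is inner. -/
theorem result {G : Type*} [Group G] [Finite G] {p : ℕ} [Fact p.Prime] (hcore : Cfsg.pPrimeCore p G = ⊥)
    (T : Sylow p G) (α : MulAut G) (hα : ∃ j : ℕ, orderOf α = p ^ j) (hfixT : ∀ x ∈ (T : Subgroup G), α x = x)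
    (hfixE : ∀ x ∈ Cfsg.layer G, α x = x) : ∃ g : G, ∀ x : G, α x = g * x * g⁻¹ := by
  set F := generalizedFittingSubgroup G with hF
  haveI hFn : F.Normal := Fstar_normal
  set A := Subgroup.centralizer (F : Set G) with hA
  haveI hAn : A.Normal := Subgroup.normal_centralizer (H := F)
  have hAF : A ≤ F := centralizer_Fstar_le
  have hcomm : ∀ a ∈ A, ∀ b ∈ A, a * b = b * a := by
    intro a ha b hb
    exact Subgroup.mem_centralizer_iff.mp hb a (hAF ha)
  have hFeq : fittingSubgroup G = pCore p G := fitting_eq_pCore_of_pPrimeCore_eq_bot p hcore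
  have hAnil : A ≤ pCore p G := by
    rw [← hFeq]
    apply le_fittingSubgroup hAn
    letI : CommGroup A := { (inferInstance : Group A) with
      mul_comm := fun a b => Subtype.ext (hcomm a a.2 b b.2) }
    exact CommGroup.isNilpotent
  have hAp : IsPGroup p A := (pCore_isPGroup (G := G) p).to_le hAnil
  have hfixF : ∀ x ∈ F, α x = x := by
    have h1 : F ≤ (MulEquiv.toMonoidHom α).eqLocus (MonoidHom.id G) := by
      refine sup_le ?_ ?_
      · intro x hx; exact hfixE x hx
      · intro x hx
        rw [hFeq] at hx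
        exact hfixT x (pCore_le_sylow p T hx)
    exact fun x hx => h1 hx
  let d : G → G := fun g => α g * g⁻¹
  have hdA : ∀ g, d g ∈ A := by
    intro g
    refine Subgroup.mem_centralizer_iff.mpr ?_
    intro f hf
    have h1 : g⁻¹ * f * g ∈ F := by
      have := hFn.conj_mem f hf g⁻¹
      simpa using this
    have h2 := hfixF _ h1
    simp only [map_mul, map_inv] at h2
    have h3 : f = α g * (g⁻¹ * f * g) * (α g)⁻¹ := by
      rw [← h2, hfixF f hf]; group
    calc f * (α g * g⁻¹) = (α g * (g⁻¹ * f * g) * (α g)⁻¹) * (α g * g⁻¹) := by rw [← h3]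
      _ = α g * g⁻¹ * f := by group
  have hd1 : ∀ g h, d (g * h) = d g * (g * d h * g⁻¹) := by
    intro g h
    simp only [d, map_mul]
    group
  have hdT : ∀ t ∈ (T : Subgroup G), d t = 1 := by
    intro t ht
    simp only [d, hfixT t ht]
    group
  obtain ⟨w, hw, hwd⟩ := coboundary A hcomm hAp (T : Subgroup G) T.not_dvd_index d hdA hd1 hdT
  refine ⟨w, fun x => ?_⟩
  have h := hwd x
  have h2 : α x = d x * x := by simp [d]
  rw [h2, h]
  group

end Cfsg.Agent.S1941
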