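import Cfsg.Statements.S1947
import Mathlib
import Cfsg.Agent.Lib.PNilp
import Cfsg.Agent.Lib.H1Frat
import Cfsg.Agent.Lib.Comp2

set_option autoImplicit false
open Cfsg

namespace Cfsg.Agent.S1947

open Cfsg Cfsg.Agent.Lib.Comp2 Cfsg.Agent.Lib.PNilp
open scoped commutatorElement

section
variable {G : Type*} [Group G] [Finite G] {p : ℕ} [Fact p.Prime]

lemma fixed_of_quot {g c x : G} (hg : (orderOf g).Coprime p) (hc : c = g * x * g⁻¹ * x⁻¹)
    (hcfix : g * c * g⁻¹ = c) {k : ℕ} (hck : c ^ p ^ k = 1) : g * x * g⁻¹ = x := by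
  have e0 : g * x * g⁻¹ = c * x := by rw [hc]; group
  have hpow : ∀ j : ℕ, g ^ j * x * (g ^ j)⁻¹ = c ^ j * x := by
    intro j
    induction j with
    | zero => simp
    | succ j ih =>
      have e1 : g * (c ^ j * x) * g⁻¹ = (g * c ^ j * g⁻¹) * (g * x * g⁻¹) := by group
      have e2 : g * c ^ j * g⁻¹ = c ^ j := by rw [← conj_pow, hcfix]
      calc g ^ (j + 1) * x * (g ^ (j + 1))⁻¹ = g * (g ^ j * x * (g ^ j)⁻¹) * g⁻¹ := by
            rw [pow_succ']; group
        _ = c ^ j * (c * x) := by rw [ih, e1, e2, e0]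
        _ = c ^ (j + 1) * x := by rw [pow_succ]; group
  have h1 := hpow (orderOf g)
  rw [pow_orderOf_eq_one] at h1
  simp only [one_mul, inv_one, mul_one] at h1
  have h2 : c ^ orderOf g = 1 := by
    have h20 : c ^ orderOf g * x = 1 * x := by rw [← h1, one_mul]
    exact mul_right_cancel h20
  have h3 : c = 1 := eq_one_of_pow_of_coprime hck h2 hg
  rw [e0, h3, one_mul]

omit [Finite G] [Fact p.Prime] in
lemma class2_pow {x y c : G} (hyx : y * x = x * y * c) (hcx : c * x = x * c) (hcy : c * y = y * c) (n : ℕ) :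
    (x * y) ^ n = x ^ n * y ^ n * c ^ (n.choose 2) := by
  have hc2 : ∀ (j : ℕ), c ^ j * x = x * c ^ j := fun j => (Commute.pow_left hcx j).eq
  have hc3 : ∀ (j : ℕ), c ^ j * y = y * c ^ j := fun j => (Commute.pow_left hcy j).eq
  have h1 : ∀ j : ℕ, y ^ j * x = x * y ^ j * c ^ j := by
    intro j
    induction j with
    | zero => simp
    | succ j ih =>
      calc y ^ (j + 1) * x = y ^ j * (y * x) := by rw [pow_succ]; group
        _ = y ^ j * (x * y * c) := by rw [hyx]
        _ = (y ^ j * x) * y * c := by group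
        _ = x * y ^ j * c ^ j * y * c := by rw [ih]
        _ = x * y ^ j * (c ^ j * y) * c := by group
        _ = x * y ^ j * (y * c ^ j) * c := by rw [hc3]
        _ = x * y ^ (j + 1) * c ^ (j + 1) := by rw [pow_succ, pow_succ]; group
  induction n with
  | zero => simp
  | succ n ih =>
    have e : (n + 1).choose 2 = n + n.choose 2 := by
      rw [Nat.choose_succ_succ' n 1]; simp
    rw [pow_succ, ih, e]
    calc x ^ n * y ^ n * c ^ n.choose 2 * (x * y)
        = x ^ n * y ^ n * (c ^ n.choose 2 * x) * y := by group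
      _ = x ^ n * (y ^ n * x) * c ^ n.choose 2 * y := by rw [hc2]; group
      _ = x ^ n * (x * y ^ n * c ^ n) * c ^ n.choose 2 * y := by rw [h1]
      _ = x ^ n * x * y ^ n * c ^ n * (c ^ n.choose 2 * y) := by group
      _ = x ^ n * x * y ^ n * c ^ n * (y * c ^ n.choose 2) := by rw [hc3]
      _ = x ^ n * x * y ^ n * (c ^ n * y) * c ^ n.choose 2 := by group
      _ = x ^ n * x * y ^ n * (y * c ^ n) * c ^ n.choose 2 := by rw [hc3]
      _ = x ^ (n + 1) * y ^ (n + 1) * c ^ (n + n.choose 2) := by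
        rw [pow_succ x, pow_succ y, pow_add c]; group

lemma exists_phi (Q : Subgroup G) (hQp : IsPGroup p Q) (hQ : Q ≠ ⊥) :
    ∃ M : Subgroup G, M ≤ Q ∧ M ≠ Q ∧ ∀ x ∈ Q, x ^ p ∈ M ∧ ∀ y ∈ Q, ⁅x, y⁆ ∈ M := by
  haveI : Nontrivial Q := (Subgroup.bot_or_nontrivial Q).resolve_left hQ
  haveI : Group.IsNilpotent Q := hQp.isNilpotent
  obtain ⟨M, hM⟩ : ∃ M : Subgroup Q, IsCoatom M := by
    obtain ⟨M, hM, -⟩ := (eq_top_or_exists_le_coatom (⊥ : Subgroup Q)).resolve_left bot_ne_top
    exact ⟨M, hM⟩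
  haveI hMn : M.Normal := Cfsg.Agent.Lib.H1Frat.coatom_normal_of_nilpotent hM
  obtain ⟨-, hprime, hcomm⟩ := Cfsg.Agent.Lib.H1Frat.coatom_index_prime_of_nilpotent hM
  have hidx : M.index = p := by
    obtain ⟨k, hk⟩ := IsPGroup.iff_card.mp hQp
    have h1 : M.index ∣ p ^ k := by
      rw [← hk]
      exact Subgroup.index_dvd_card M
    exact (Nat.prime_dvd_prime_iff_eq hprime Fact.out).mp (hprime.dvd_of_dvd_pow h1)
  refine ⟨M.map Q.subtype, ?_, ?_, ?_⟩
  · rintro _ ⟨x, _, rfl⟩
    exact x.2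
  · intro h
    apply hM.1
    rw [eq_top_iff]
    rintro ⟨x, hx⟩ _
    have : x ∈ M.map Q.subtype := by rw [h]; exact hx
    obtain ⟨y, hy, hyx⟩ := this
    have e : y = ⟨x, hx⟩ := Subtype.ext hyx
    rwa [← e]
  · intro x hx
    refine ⟨?_, fun y hy => ?_⟩
    · have h1 : ((⟨x, hx⟩ : Q) ^ p) ∈ M := by
        rw [← QuotientGroup.eq_one_iff, QuotientGroup.mk_pow]
        have := pow_card_eq_one' (G := Q ⧸ M) (x := (QuotientGroup.mk (⟨x, hx⟩ : Q) : Q ⧸ M))
        have h3 : Nat.card (Q ⧸ M) = p := hidx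
        rwa [h3] at this
      exact ⟨_, h1, rfl⟩
    · have h1 : ⁅(⟨x, hx⟩ : Q), (⟨y, hy⟩ : Q)⁆ ∈ M :=
        hcomm (Subgroup.commutator_mem_commutator (Subgroup.mem_top _) (Subgroup.mem_top _))
      exact ⟨_, h1, rfl⟩

lemma ito_key {g : G} (hg : (orderOf g).Coprime p) (m : ℕ) : ∀ Q : Subgroup G, Nat.card Q ≤ m → IsPGroup p Q →
    (∀ x ∈ Q, g * x * g⁻¹ ∈ Q) → (∀ x ∈ Q, (x ^ p = 1 ∨ (p = 2 ∧ x ^ 4 = 1)) → g * x * g⁻¹ = x) →
    ∀ x ∈ Q, g * x * g⁻¹ = x := by
  induction m with
  | zero =>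
    intro Q h
    have := Nat.card_pos (α := Q)
    omega
  | succ m ih =>
    intro Q hcard hQp hQinv hH
    have hIH : ∀ R : Subgroup G, R ≤ Q → R ≠ Q → (∀ x ∈ R, g * x * g⁻¹ ∈ R) → ∀ x ∈ R, g * x * g⁻¹ = x := by
      intro R hRQ hne hRinv
      refine ih R ?_ (hQp.to_le hRQ) hRinv (fun x hx h => hH x (hRQ hx) h)
      by_contra hlt
      push Not at hlt
      exact hne (Subgroup.eq_of_le_of_card_ge hRQ (by omega))
    have hPow : ∀ x ∈ Q, ∃ k : ℕ, x ^ p ^ k = 1 := by
      intro x hx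
      obtain ⟨k, hk⟩ := hQp ⟨x, hx⟩
      exact ⟨k, congrArg Subtype.val hk⟩
    set D := Subgroup.closure {c | ∃ x ∈ Q, c = g * x * g⁻¹ * x⁻¹} with hD
    have hDQ : D ≤ Q := by
      refine (Subgroup.closure_le _).mpr ?_
      rintro _ ⟨x, hx, rfl⟩
      exact Q.mul_mem (hQinv x hx) (Q.inv_mem hx)
    have hDinv : ∀ c ∈ D, g * c * g⁻¹ ∈ D := by
      intro c hc
      induction hc using Subgroup.closure_induction with
      | mem c hc =>
        obtain ⟨x, hx, rfl⟩ := hc
        refine Subgroup.subset_closure ⟨g * x * g⁻¹, hQinv x hx, ?_⟩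
        group
      | one => simp
      | mul a b _ _ ha hb =>
        have e : g * (a * b) * g⁻¹ = (g * a * g⁻¹) * (g * b * g⁻¹) := by group
        rw [e]
        exact D.mul_mem ha hb
      | inv a _ ha =>
        have e : g * a⁻¹ * g⁻¹ = (g * a * g⁻¹)⁻¹ := by group
        rw [e]
        exact D.inv_mem ha
    by_cases hDne : D = Q
    swap
    · intro x hx
      have hc : g * x * g⁻¹ * x⁻¹ ∈ D := Subgroup.subset_closure ⟨x, hx, rfl⟩
      obtain ⟨k, hk⟩ := hPow _ (hDQ hc)
      exact fixed_of_quot hg rfl (hIH D hDQ hDne hDinv _ hc) hk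
    by_cases hQb : Q = ⊥
    · intro x hx
      rw [hQb, Subgroup.mem_bot] at hx
      rw [hx]; group
    obtain ⟨M, hMQ, hMne, hM⟩ := exists_phi Q hQp hQb
    set Φ := Subgroup.closure ({u | ∃ x ∈ Q, u = x ^ p} ∪ {u | ∃ x ∈ Q, ∃ y ∈ Q, u = ⁅x, y⁆}) with hΦ
    have hΦM : Φ ≤ M := by
      refine (Subgroup.closure_le _).mpr ?_
      rintro _ (⟨x, hx, rfl⟩ | ⟨x, hx, y, hy, rfl⟩)
      · exact (hM x hx).1
      · exact (hM x hx).2 y hy
    have hΦQ : Φ ≤ Q := hΦM.trans hMQ
    have hΦne : Φ ≠ Q := fun h => hMne (le_antisymm hMQ (h ▸ hΦM))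
    have hconj : ∀ h : G, (∀ x ∈ Q, h * x * h⁻¹ ∈ Q) → ∀ u ∈ Φ, h * u * h⁻¹ ∈ Φ := by
      intro h hh u hu
      induction hu using Subgroup.closure_induction with
      | mem u hu =>
        rcases hu with ⟨x, hx, rfl⟩ | ⟨x, hx, y, hy, rfl⟩
        · rw [← conj_pow]
          exact Subgroup.subset_closure (Or.inl ⟨_, hh x hx, rfl⟩)
        · refine Subgroup.subset_closure (Or.inr ⟨_, hh x hx, _, hh y hy, ?_⟩)
          simp only [commutatorElement_def]
          group
      | one => simp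
      | mul a b _ _ ha hb =>
        have e : h * (a * b) * h⁻¹ = (h * a * h⁻¹) * (h * b * h⁻¹) := by group
        rw [e]
        exact Φ.mul_mem ha hb
      | inv a _ ha =>
        have e : h * a⁻¹ * h⁻¹ = (h * a * h⁻¹)⁻¹ := by group
        rw [e]
        exact Φ.inv_mem ha
    have hΦfix := hIH Φ hΦQ hΦne (hconj g hQinv)
    have hΦnorm : ∀ x ∈ Q, ∀ u ∈ Φ, x * u * x⁻¹ ∈ Φ := by
      intro x hx
      apply hconj x
      intro y hy
      exact Q.mul_mem (Q.mul_mem hx hy) (Q.inv_mem hx)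
    -- `Φ` is central in `Q`
    have hΦcent : ∀ u ∈ Φ, ∀ x ∈ Q, u * x = x * u := by
      intro u hu
      have h1 : D ≤ Subgroup.centralizer ({u} : Set G) := by
        refine (Subgroup.closure_le _).mpr ?_
        rintro _ ⟨x, hx, rfl⟩
        refine Subgroup.mem_centralizer_iff.mpr ?_
        intro z hz
        rw [Set.mem_singleton_iff.mp hz]
        have h2 : x⁻¹ * u * x ∈ Φ := by
          have := hΦnorm x⁻¹ (Q.inv_mem hx) u hu
          rwa [inv_inv] at this
        have h3 := hΦfix _ h2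
        have h4 := hΦfix u hu
        have h5 : (g * x⁻¹ * g⁻¹) * u * (g * x * g⁻¹) = x⁻¹ * u * x := by
          calc (g * x⁻¹ * g⁻¹) * u * (g * x * g⁻¹) = (g * x⁻¹ * g⁻¹) * (g * u * g⁻¹) * (g * x * g⁻¹) := by rw [h4]
            _ = g * (x⁻¹ * u * x) * g⁻¹ := by group
            _ = x⁻¹ * u * x := h3
        set c := g * x * g⁻¹ * x⁻¹ with hc
        have h6 : c⁻¹ * u * c = u := by
          calc c⁻¹ * u * c = x * ((g * x⁻¹ * g⁻¹) * u * (g * x * g⁻¹)) * x⁻¹ := by rw [hc]; group
            _ = x * (x⁻¹ * u * x) * x⁻¹ := by rw [h5]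
            _ = u := by group
        calc u * c = c * (c⁻¹ * u * c) := by group
          _ = c * u := by rw [h6]
      intro x hx
      rw [← hDne] at hx
      exact (Subgroup.mem_centralizer_iff.mp (h1 hx) u (Set.mem_singleton u))
    -- power map
    have hstruct : ∀ x ∈ Q, ∀ y ∈ Q, ∃ c ∈ Φ, y * x = x * y * c ∧ c ^ p = 1 := by
      intro x hx y hy
      have hc : y⁻¹ * x⁻¹ * y * x ∈ Φ := by
        refine Subgroup.subset_closure (Or.inr ⟨y⁻¹, Q.inv_mem hy, x⁻¹, Q.inv_mem hx, ?_⟩)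
        simp only [commutatorElement_def, inv_inv]
      set c := y⁻¹ * x⁻¹ * y * x with hcd
      have h1 : y * x = x * y * c := by rw [hcd]; group
      refine ⟨c, hc, h1, ?_⟩
      have hcy : c * y = y * c := hΦcent c hc y hy
      have h2 : y ^ p ∈ Φ := Subgroup.subset_closure (Or.inl ⟨y, hy, rfl⟩)
      have h3 : x⁻¹ * y ^ p * x = y ^ p := by
        have := hΦcent _ h2 x hx
        rw [mul_assoc, this]; group
      have h4 : x⁻¹ * y * x = y * c := by rw [hcd]; group
      have h5 : (y * c) ^ p = y ^ p * c ^ p := by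
        have : Commute y c := hcy.symm
        exact this.mul_pow p
      have h6 : x⁻¹ * y ^ p * x = (x⁻¹ * y * x) ^ p := by
        have := conj_pow (a := x⁻¹) (b := y) (i := p)
        rw [inv_inv] at this
        exact this.symm
      rw [h6, h4, h5] at h3
      exact mul_left_cancel (a := y ^ p) (by rw [h3, mul_one])
    set n := if p = 2 then 4 else p with hn
    have hpowmul : ∀ x ∈ Q, ∀ y ∈ Q, (x * y) ^ n = x ^ n * y ^ n := by
      intro x hx y hy
      obtain ⟨c, hc, hyx, hcp⟩ := hstruct x hx y hy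
      have h1 := class2_pow hyx (hΦcent c hc x hx) (hΦcent c hc y hy) n
      rw [h1]
      have h2 : c ^ n.choose 2 = 1 := by
        by_cases hp2 : p = 2
        · have e : n = 4 := by rw [hn, if_pos hp2]
          rw [e]
          have e2 : Nat.choose 4 2 = 2 * 3 := by decide
          rw [e2, pow_mul]
          rw [hp2] at hcp
          rw [hcp, one_pow]
        · have e : n = p := by rw [hn, if_neg hp2]
          rw [e]
          have hodd : Odd p := (Fact.out : p.Prime).odd_of_ne_two hp2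
          obtain ⟨j, hj⟩ := hodd
          have e2 : p.choose 2 = p * j := by
            rw [Nat.choose_two_right, hj]
            have : (2 * j + 1) * (2 * j + 1 - 1) / 2 = (2 * j + 1) * j := by
              have e3 : 2 * j + 1 - 1 = 2 * j := by omega
              rw [e3]
              rw [show (2 * j + 1) * (2 * j) = ((2 * j + 1) * j) * 2 by ring]
              exact Nat.mul_div_cancel _ (by norm_num)
            exact this
          rw [e2, pow_mul, hcp, one_pow]
      rw [h2, mul_one]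
    have hnΦ : ∀ x ∈ Q, x ^ n ∈ Φ := by
      intro x hx
      by_cases hp2 : p = 2
      · have e : n = 4 := by rw [hn, if_pos hp2]
        rw [e]
        have h1 : x ^ p ∈ Φ := Subgroup.subset_closure (Or.inl ⟨x, hx, rfl⟩)
        rw [hp2] at h1
        have e2 : x ^ 4 = x ^ 2 * x ^ 2 := by rw [← pow_add]
        rw [e2]
        exact Φ.mul_mem h1 h1
      · have e : n = p := by rw [hn, if_neg hp2]
        rw [e]
        exact Subgroup.subset_closure (Or.inl ⟨x, hx, rfl⟩)
    have hDn : ∀ c ∈ D, c ^ n = 1 := by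
      intro c hc
      induction hc using Subgroup.closure_induction with
      | mem c hc =>
        obtain ⟨x, hx, rfl⟩ := hc
        rw [hpowmul _ (hQinv x hx) _ (Q.inv_mem hx), conj_pow, hΦfix _ (hnΦ x hx), inv_pow]
        group
      | one => simp
      | mul a b ha hb iha ihb => rw [hpowmul a (hDQ ha) b (hDQ hb), iha, ihb, one_mul]
      | inv a _ ha => rw [inv_pow, ha, inv_one]
    intro x hx
    apply hH x hx
    have h1 : x ^ n = 1 := hDn x (hDne ▸ hx)
    by_cases hp2 : p = 2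
    · right
      have e : n = 4 := by rw [hn, if_pos hp2]
      rw [e] at h1
      exact ⟨hp2, h1⟩
    · left
      have e : n = p := by rw [hn, if_neg hp2]
      rwa [e] at h1

lemma series_fix {g : G} (hg : (orderOf g).Coprime p) (Q : Subgroup G) (hQp : IsPGroup p Q)
    (hQinv : ∀ x ∈ Q, g * x * g⁻¹ ∈ Q) (n : ℕ) :
    ∀ x ∈ Q, x ∈ Subgroup.upperCentralSeries G n → g * x * g⁻¹ = x := by
  induction n with
  | zero =>
    intro x _ hx
    have : x = 1 := by simpa [Subgroup.upperCentralSeries_zero] using hx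
    rw [this]; group
  | succ n ih =>
    intro x hxQ hx
    rw [Subgroup.mem_upperCentralSeries_succ_iff] at hx
    have h1 := hx g⁻¹
    set c := g * x * g⁻¹ * x⁻¹ with hc
    have h2 : c ∈ Subgroup.upperCentralSeries G n := by
      have e : c = g * (x * g⁻¹ * x⁻¹ * g⁻¹⁻¹) * g⁻¹ := by rw [hc]; group
      rw [e]
      exact (inferInstance : (Subgroup.upperCentralSeries G n).Normal).conj_mem _ h1 g
    have h3 : c ∈ Q := Q.mul_mem (hQinv x hxQ) (Q.inv_mem hxQ)
    have h4 := ih c h3 h2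
    obtain ⟨k, hk⟩ := hQp ⟨c, h3⟩
    exact fixed_of_quot hg hc h4 (congrArg Subtype.val hk)
end

/-- Let G be a finite group and p a prime. If every element of G of order dividing p (dividing 4 when p = 2) lies in some fixed term Z_n(G) of the upper central series, then G has a normal p-complement. -/
theorem result {G : Type*} [Group G] [Finite G] {p : ℕ} [Fact p.Prime] (n : ℕ)
    (h : ∀ a : G, (a ^ p = 1 ∨ (p = 2 ∧ a ^ 4 = 1)) → a ∈ Subgroup.upperCentralSeries G n) : Cfsg.HasNormalPComplement p G := by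
  obtain ⟨P⟩ : Nonempty (Sylow p G) := inferInstance
  apply hasNormalPComplement_of_automizer P
  intro Q hQP g hg hgc
  have hQp : IsPGroup p Q := P.isPGroup'.to_le hQP
  have hQinv : ∀ x ∈ Q, g * x * g⁻¹ ∈ Q := fun x hx => (Subgroup.mem_normalizer_iff.mp hg x).mp hx
  have h1 := ito_key hgc (Nat.card Q) Q le_rfl hQp hQinv (fun x hx hh =>
    series_fix hgc Q hQp hQinv n x hx (h x hh))
  refine Subgroup.mem_centralizer_iff.mpr ?_
  intro x hx
  have := h1 x hx
  exact (mul_inv_eq_iff_eq_mul.mp this).symm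

end Cfsg.Agent.S1947
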