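import Cfsg.Statements.S1948
import Mathlib
import Cfsg.Agent.Lib.PConstr
import Cfsg.Agent.Lib.PNilp
import Cfsg.Agent.Lib.KInf
import Cfsg.Agent.Lib.Comp2

set_option autoImplicit false
open Cfsg

namespace Cfsg.Agent.S1948

open Cfsg.Agent.Lib.PConstr Cfsg.Agent.Lib.PNilp Cfsg.Agent.Lib.H1Core Cfsg.Agent.Lib.PJ

/-- conjugation by an element of the normalizer, as an automorphism. -/
def conjEquiv {G : Type*} [Group G] (R : Subgroup G) (c : G) (hc : c ∈ Subgroup.normalizer (R : Set G)) : ↥R ≃* ↥R where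
  toFun x := ⟨c * x * c⁻¹, (Subgroup.mem_normalizer_iff.mp hc x).mp x.2⟩
  invFun x := ⟨c⁻¹ * x * c, by
    have := (Subgroup.mem_normalizer_iff.mp (Subgroup.inv_mem _ hc) x).mp x.2
    simpa using this⟩
  left_inv x := by apply Subtype.ext; simp [mul_assoc]
  right_inv x := by apply Subtype.ext; simp [mul_assoc]
  map_mul' x y := by apply Subtype.ext; simp [mul_assoc]

theorem mem_pResidual_conj {G : Type*} [Group G] (X : Subgroup G) (p : ℕ) {n : G}
    (hn : n ∈ Subgroup.normalizer (X : Set G)) {k : ↥X} (hk : k ∈ Cfsg.pResidual p ↥X) :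
    conjEquiv X n hn k ∈ Cfsg.pResidual p ↥X := by
  have hle : Cfsg.pResidual p ↥X ≤ (Cfsg.pResidual p ↥X).comap (conjEquiv X n hn).toMonoidHom := by
    rw [Cfsg.pResidual, Subgroup.closure_le]
    intro g hg
    apply Subgroup.subset_closure
    have hg' : Nat.Coprime (orderOf g) p := hg
    show Nat.Coprime (orderOf (conjEquiv X n hn g)) p
    rw [MulEquiv.orderOf_eq]
    exact hg'
  exact hle hk

theorem centralizer_le {G : Type*} [Group G] [Finite G] {p : ℕ} [Fact p.Prime] (S : Sylow p G)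
    (hG : Subgroup.normalizer ((S : Subgroup G) : Set G) ⊔ Cfsg.pPrimeCore p G = ⊤) :
    Subgroup.centralizer ((S : Subgroup G) : Set G) ≤ (S : Subgroup G) ⊔ Cfsg.pPrimeCore p G := by
  classical
  set X := Subgroup.centralizer ((S : Subgroup G) : Set G) with hX
  set O := Cfsg.pPrimeCore p G with hO
  haveI hOn : O.Normal := pPrimeCore_normal p G
  obtain ⟨PX⟩ : Nonempty (Sylow p ↥X) := inferInstance
  have hT : ∀ t ∈ (PX : Subgroup ↥X), (t : G) ∈ (S : Subgroup G) := by
    intro t ht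
    have h1 : IsPGroup p ↥((PX : Subgroup ↥X).map X.subtype) := PX.2.map _
    have h2 := IsPGroup.inf_normalizer_sylow h1 S
    have h3 : (t : G) ∈ (PX : Subgroup ↥X).map X.subtype ⊓ Subgroup.normalizer ((S : Subgroup G) : Set G) := by
      refine Subgroup.mem_inf.mpr ⟨⟨t, ht, rfl⟩, ?_⟩
      exact Subgroup.centralizer_le_normalizer _ t.2
    exact (Subgroup.mem_inf.mp (h2.le h3)).2
  have hP : Subgroup.normalizer ((PX : Subgroup ↥X) : Set ↥X) ≤
      Subgroup.centralizer ((PX : Subgroup ↥X) : Set ↥X) := by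
    intro g _
    rw [Subgroup.mem_centralizer_iff]
    intro x hx
    apply Subtype.ext
    exact Subgroup.mem_centralizer_iff.mp g.2 _ (hT x hx)
  have hc := MonoidHom.ker_transferSylow_isComplement' PX hP
  have hHas : Cfsg.HasNormalPComplement p ↥X := ⟨PX, _, inferInstance, hc⟩
  have h1 := hasNormalPComplement_iff_pResidual.mp hHas
  -- K₀ ≤ O
  set K₀ : Subgroup G := (Cfsg.pResidual p ↥X).map X.subtype with hK₀
  let π := QuotientGroup.mk' O
  have hKn : (K₀.map π).Normal := by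
    constructor
    rintro _ ⟨k, hk, rfl⟩ g
    obtain ⟨g, rfl⟩ := QuotientGroup.mk'_surjective O g
    have hg : g ∈ Subgroup.normalizer ((S : Subgroup G) : Set G) ⊔ O := by rw [hG]; trivial
    obtain ⟨n, hn, o, ho, rfl⟩ := Subgroup.mem_sup_of_normal_right.mp hg
    have ho1 : π o = 1 := (QuotientGroup.eq_one_iff o).mpr ho
    have hnX : n ∈ Subgroup.normalizer (X : Set G) :=
      Cfsg.Agent.Lib.KInf.le_normalizer_centralizer le_rfl hn
    obtain ⟨k₀, hk₀, rfl⟩ := hk
    refine ⟨_, ⟨conjEquiv X n hnX k₀, mem_pResidual_conj X p hnX hk₀, rfl⟩, ?_⟩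
    show π (n * k₀ * n⁻¹) = π (n * o) * π k₀ * (π (n * o))⁻¹
    simp only [map_mul, map_inv, ho1, mul_one]
  have hKc : (Nat.card (K₀.map π)).Coprime p := by
    have h2 : Nat.card K₀ = Nat.card (Cfsg.pResidual p ↥X) :=
      Subgroup.card_map_of_injective (Subgroup.subtype_injective _)
    exact Nat.Coprime.coprime_dvd_left (Subgroup.card_map_dvd K₀ π |>.trans (by rw [h2])) h1
  have hKle : K₀ ≤ O := by
    have h3 := le_pPrimeCore hKn hKc
    rw [pPrimeCore_quot, le_bot_iff] at h3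
    intro k hk
    have : π k = 1 := by
      have : π k ∈ K₀.map π := ⟨k, hk, rfl⟩
      rw [h3] at this
      exact this
    exact (QuotientGroup.eq_one_iff k).mp this
  intro c hc'
  have hsup := sylow_sup_pResidual (p := p) PX
  have hcm : (⟨c, hc'⟩ : ↥X) ∈ (PX : Subgroup ↥X) ⊔ Cfsg.pResidual p ↥X := by rw [hsup]; trivial
  obtain ⟨t, ht, k, hk, htk⟩ := Subgroup.mem_sup_of_normal_right.mp hcm
  have : c = (t : G) * (k : G) := (congrArg Subtype.val htk).symm
  rw [this]
  exact Subgroup.mul_mem _ (Subgroup.mem_sup_left (hT t ht))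
    (Subgroup.mem_sup_right (hKle ⟨k, hk, rfl⟩))

/-- Let S be a Sylow p-subgroup of the finite group G. Then G = N_G(S)·O_{p'}(G) if and only if G is p-constrained and N_G(S) controls fusion in S, in the sense that whenever a subgroup Q of S has a conjugate g Q g⁻¹ inside S, the element g is a product n c with n normalizing S and c centralizing Q. -/
theorem result {G : Type*} [Group G] [Finite G] {p : ℕ} [Fact p.Prime] (S : Sylow p G) :
    Subgroup.normalizer ((S : Subgroup G) : Set G) ⊔ Cfsg.pPrimeCore p G = ⊤ ↔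
      (Cfsg.IsPConstrained p G ∧
        ∀ Q : Subgroup G, Q ≤ (S : Subgroup G) → ∀ g : G, Q.map (MulAut.conj g).toMonoidHom ≤ (S : Subgroup G) →
          ∃ n ∈ Subgroup.normalizer ((S : Subgroup G) : Set G), ∃ c ∈ Subgroup.centralizer (Q : Set G), g = n * c) := by
  classical
  set O := Cfsg.pPrimeCore p G with hO
  set R := Cfsg.pPrimePCore p G with hR
  haveI hOn : O.Normal := pPrimeCore_normal p G
  have hRn : R.Normal := (pCore_normal p _).comap _
  haveI := hRn
  have hOR : O ≤ R := pPrimeCore_le_pPrimePCore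
  let π := QuotientGroup.mk' O
  have hdec : ∀ P : Sylow p ↥R, ∀ r ∈ R, ∃ q ∈ (P : Subgroup ↥R).map R.subtype, ∃ o ∈ O, r = q * o := by
    intro P r hr
    have h1 := map_sylow_pPrimePCore P
    have h2 : π r ∈ Cfsg.pCore p (G ⧸ O) := hr
    rw [← h1] at h2
    obtain ⟨q, hq, hqr⟩ := h2
    refine ⟨q, hq, q⁻¹ * r, ?_, by group⟩
    have h3 : π (q⁻¹ * r) = 1 := by
      rw [map_mul, map_inv]
      exact inv_mul_eq_one.mpr hqr
    exact (QuotientGroup.eq_one_iff _).mp h3
  constructor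
  · intro hG
    refine ⟨?_, ?_⟩
    · -- p-constrained
      intro P
      have hSR : (S : Subgroup G) ≤ R := by
        have hn : ((S : Subgroup G).map π).Normal := by
          constructor
          rintro _ ⟨k, hk, rfl⟩ g
          obtain ⟨g, rfl⟩ := QuotientGroup.mk'_surjective O g
          have hg : g ∈ Subgroup.normalizer ((S : Subgroup G) : Set G) ⊔ O := by rw [hG]; trivial
          obtain ⟨n, hn, o, ho, rfl⟩ := Subgroup.mem_sup_of_normal_right.mp hg
          have ho1 : π o = 1 := (QuotientGroup.eq_one_iff o).mpr ho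
          refine ⟨n * k * n⁻¹, (Subgroup.mem_normalizer_iff.mp hn k).mp hk, ?_⟩
          show π (n * k * n⁻¹) = π (n * o) * π k * (π (n * o))⁻¹
          simp only [map_mul, map_inv, ho1, mul_one]
        have h1 := le_pCore hn (S.2.map π)
        intro s hs
        exact h1 ⟨s, hs, rfl⟩
      obtain ⟨y, hy⟩ := MulAction.exists_smul_eq ↥R (S.subtype hSR) P
      have hcen := centralizer_le S hG
      have hsup : (S : Subgroup G) ⊔ O ≤ R := sup_le hSR hOR
      intro c hc
      have hPmap : ∀ s ∈ (S : Subgroup G), (y : G) * s * (y : G)⁻¹ ∈ (P : Subgroup ↥R).map R.subtype := by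
        intro s hs
        have h1 : (⟨s, hSR hs⟩ : ↥R) ∈ ((S.subtype hSR : Sylow p ↥R) : Subgroup ↥R) := by
          rw [Sylow.coe_subtype]
          exact Subgroup.mem_subgroupOf.mpr hs
        have h2 : y * (⟨s, hSR hs⟩ : ↥R) * y⁻¹ ∈ (P : Subgroup ↥R) := by
          rw [← hy]
          exact Subgroup.mem_map_of_mem _ h1
        exact ⟨_, h2, rfl⟩
      have hc2 : (y : G)⁻¹ * c * y ∈ Subgroup.centralizer ((S : Subgroup G) : Set G) := by
        rw [Subgroup.mem_centralizer_iff]
        intro s hs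
        have h1 := Subgroup.mem_centralizer_iff.mp hc _ (hPmap s hs)
        calc s * ((y : G)⁻¹ * c * y) = (y : G)⁻¹ * (((y : G) * s * (y : G)⁻¹) * c) * y := by group
          _ = (y : G)⁻¹ * (c * ((y : G) * s * (y : G)⁻¹)) * y := by rw [h1]
          _ = (y : G)⁻¹ * c * y * s := by group
      have h3 := hsup (hcen hc2)
      have h4 : c = (y : G) * ((y : G)⁻¹ * c * y) * (y : G)⁻¹ := by group
      rw [h4]
      exact R.mul_mem (R.mul_mem y.2 h3) (R.inv_mem y.2)
    · -- fusion
      intro Q hQ g hg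
      have hgm : g ∈ Subgroup.normalizer ((S : Subgroup G) : Set G) ⊔ O := by rw [hG]; trivial
      obtain ⟨n, hn, o, ho, rfl⟩ := Subgroup.mem_sup_of_normal_right.mp hgm
      refine ⟨n, hn, o, ?_, rfl⟩
      rw [Subgroup.mem_centralizer_iff]
      intro q hq
      have h1 : (n * o) * q * (n * o)⁻¹ ∈ (S : Subgroup G) := hg ⟨q, hq, rfl⟩
      have h2 : o * q * o⁻¹ ∈ (S : Subgroup G) := by
        have := (Subgroup.mem_normalizer_iff.mp (Subgroup.inv_mem _ hn) _).mp h1
        have e : n⁻¹ * ((n * o) * q * (n * o)⁻¹) * n⁻¹⁻¹ = o * q * o⁻¹ := by group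
        rwa [e] at this
      have h3 : o * q * o⁻¹ * q⁻¹ ∈ (S : Subgroup G) := (S : Subgroup G).mul_mem h2 ((S : Subgroup G).inv_mem (hQ hq))
      have h4 : o * (q * o⁻¹ * q⁻¹) ∈ O := O.mul_mem ho (hOn.conj_mem _ (O.inv_mem ho) q)
      have h5 : o * q * o⁻¹ * q⁻¹ ∈ O := by
        have e : o * q * o⁻¹ * q⁻¹ = o * (q * o⁻¹ * q⁻¹) := by group
        rw [e]; exact h4
      have h6 : o * q * o⁻¹ * q⁻¹ = 1 :=
        Cfsg.Agent.Lib.Comp2.eq_one_of_mem_pgroup_coprime S.2 (pPrimeCore_coprime p) h3 h5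
      calc q * o = (o * q * o⁻¹ * q⁻¹)⁻¹ * (o * q) := by group
        _ = o * q := by rw [h6]; group
  · rintro ⟨hcon, hfus⟩
    let P : Sylow p ↥R := sylowOfNormal S R
    set Q := (P : Subgroup ↥R).map R.subtype with hQ
    have hQS : Q ≤ (S : Subgroup G) := by
      rintro _ ⟨q, hq, rfl⟩
      exact hq
    rw [eq_top_iff]
    intro g _
    have hF : Subgroup.normalizer ((Q : Subgroup G) : Set G) ⊔ R = ⊤ := Sylow.normalizer_sup_eq_top P
    have hgm : g ∈ Subgroup.normalizer ((Q : Subgroup G) : Set G) ⊔ R := by rw [hF]; trivial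
    obtain ⟨y, hy, r, hr, rfl⟩ := Subgroup.mem_sup_of_normal_right.mp hgm
    obtain ⟨q, hq, o, ho, rfl⟩ := hdec P r hr
    have hy₁ : y * q ∈ Subgroup.normalizer ((Q : Subgroup G) : Set G) :=
      Subgroup.mul_mem _ hy (Subgroup.le_normalizer hq)
    obtain ⟨n, hn, c, hc, hnc⟩ := hfus Q hQS (y * q) (by
      rw [mem_normalizer_iff_map'.mp hy₁]; exact hQS)
    have hcR := hcon P hc
    obtain ⟨q', hq', o', ho', rfl⟩ := hdec P c hcR
    have h1 : y * (q * o) = (n * q') * (o' * o) := by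
      rw [← mul_assoc y, hnc]; group
    rw [h1]
    exact Subgroup.mul_mem _ (Subgroup.mem_sup_left (Subgroup.mul_mem _ hn (Subgroup.le_normalizer (hQS hq'))))
      (Subgroup.mem_sup_right (O.mul_mem ho' ho))

end Cfsg.Agent.S1948
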