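import Cfsg.Statements.S1952
import Mathlib

set_option autoImplicit false
open Cfsg

namespace Cfsg.Agent.S1952

open Polynomial

variable {p : ℕ} [hp : Fact p.Prime]

theorem poly_facts : ((X : (ZMod p)[X]) - 1) ^ p = X ^ p - 1 ∧
    ((X : (ZMod p)[X]) - 1) ^ (p - 1) = ∑ i ∈ Finset.range p, (X : (ZMod p)[X]) ^ i := by
  have h1 : ((X : (ZMod p)[X]) - 1) ^ p = X ^ p - 1 := by
    rw [sub_pow_char, one_pow]
  refine ⟨h1, ?_⟩
  have hne : ((X : (ZMod p)[X]) - 1) ≠ 0 := by
    have := Polynomial.X_sub_C_ne_zero (1 : ZMod p)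
    simpa using this
  apply mul_right_cancel₀ hne
  rw [geom_sum_mul, ← h1, ← pow_succ]
  congr 1
  have := hp.out.one_lt
  omega

theorem la_surj {V : Type*} [AddCommGroup V] [Module (ZMod p) V] (T : Module.End (ZMod p) V) (hT : T ^ p = 1)
    (φ : V →ₗ[ZMod p] ZMod p) (x : V) (hN : φ (∑ i ∈ Finset.range p, (T ^ i) x) ≠ 0) :
    Function.Surjective (LinearMap.pi (fun j : Fin p => φ ∘ₗ (((T - 1) ^ (j : ℕ) : Module.End (ZMod p) V)))) := by
  classical
  obtain ⟨h1, h2⟩ := poly_facts (p := p)
  set S : Module.End (ZMod p) V := T - 1 with hS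
  have hSp : S ^ p = 0 := by
    have := congrArg (Polynomial.aeval T) h1
    simp only [map_pow, map_sub, aeval_X, map_one] at this
    rw [hS, this, hT, sub_self]
  have hSge : ∀ n, p ≤ n → S ^ n = 0 := by
    intro n hn
    rw [← Nat.sub_add_cancel hn, pow_add, hSp, mul_zero]
  have hSN : (S ^ (p - 1) : Module.End (ZMod p) V) = ∑ i ∈ Finset.range p, T ^ i := by
    have := congrArg (Polynomial.aeval T) h2
    simp only [map_pow, map_sub, aeval_X, map_one, map_sum] at this
    exact this
  have hN' : φ ((S ^ (p - 1) : Module.End (ZMod p) V) x) ≠ 0 := by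
    rw [hSN, LinearMap.sum_apply]
    exact hN
  rw [← LinearMap.range_eq_top]
  by_contra hne
  obtain ⟨c, hc0, hc⟩ := Submodule.exists_le_ker_of_lt_top _ (lt_top_iff_ne_top.2 hne)
  apply hc0
  have hp1 := hp.out.one_lt
  have key : ∀ n : ℕ, ∀ j : Fin p, (j : ℕ) = n → c (fun i => if j = i then 1 else 0) = 0 := by
    intro n
    induction n using Nat.strong_induction_on with
    | _ n ih =>
      intro j hj
      have hv : c (LinearMap.pi (fun j : Fin p => φ ∘ₗ ((S ^ (j : ℕ) : Module.End (ZMod p) V))) ((S ^ (p - 1 - n) : Module.End (ZMod p) V) x)) = 0 := by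
        apply hc
        exact ⟨_, rfl⟩
      rw [LinearMap.pi_apply_eq_sum_univ, Finset.sum_eq_single j] at hv
      · simp only [LinearMap.pi_apply, LinearMap.comp_apply, smul_eq_mul] at hv
        rw [← Module.End.mul_apply, ← pow_add] at hv
        have e : (j : ℕ) + (p - 1 - n) = p - 1 := by
          have := j.2
          omega
        rw [e] at hv
        exact (mul_eq_zero.1 (by rw [mul_comm]; exact hv)).resolve_right hN'
      · intro i _ hij
        simp only [LinearMap.pi_apply, LinearMap.comp_apply, smul_eq_mul]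
        rcases lt_or_gt_of_ne (fun h => hij (Fin.ext h) : (i : ℕ) ≠ j) with hlt | hgt
        · rw [ih i (by omega) i rfl, mul_zero]
        · rw [← Module.End.mul_apply, ← pow_add, hSge _ (by have := j.2; omega)]
          simp
      · simp
  ext j
  have : c (fun i => if j = i then 1 else 0) = 0 := key j j rfl
  show c (LinearMap.single (ZMod p) (fun _ => ZMod p) j 1) = 0
  convert this using 2
  ext i
  simp [Pi.single_apply, eq_comm]

variable {P : Type*} [Group P] [Finite P]

theorem card_syl (Q : Sylow p (Equiv.Perm (Fin (p ^ 2)))) : Nat.card (Q : Subgroup (Equiv.Perm (Fin (p ^ 2)))) = p ^ (p + 1) := by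
  rw [Sylow.card_eq_multiplicity, Nat.card_perm, Nat.card_eq_fintype_card, Fintype.card_fin,
    Nat.factorization_def _ hp.out]
  have hlog : Nat.log p (p ^ 2) < 3 := by
    rw [Nat.log_pow hp.out.one_lt]; omega
  rw [padicValNat_factorial hlog]
  have e : Finset.Ico 1 3 = {1, 2} := rfl
  rw [e, Finset.sum_pair (by norm_num)]
  have hpos := hp.out.pos
  have e1 : p ^ 2 / p ^ 1 = p := by
    rw [pow_one, pow_two]; exact Nat.mul_div_cancel _ hpos
  have e2 : p ^ 2 / p ^ 2 = 1 := Nat.div_self (pow_pos hpos 2)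
  rw [e1, e2]

theorem main' (hP : IsPGroup p P) {V : Type*} [AddCommGroup V] [Module (ZMod p) V] (ι : Multiplicative V →* P)
    (hι : Function.Injective ι) (y : P) (hnorm : ∀ v : V, ∃ v' : V, ι (Multiplicative.ofAdd v') = y⁻¹ * ι (Multiplicative.ofAdd v) * y) (hn : ι.range.Normal)
    (hidx : (ι.range).index = p) (x : V)
    (hprod : ((List.range p).map (fun i => (y ^ i)⁻¹ * ι (Multiplicative.ofAdd x) * y ^ i)).prod ≠ 1) :
    ∃ (Q : Sylow p (Equiv.Perm (Fin (p ^ 2)))) (f : P →* ↥(Q : Subgroup (Equiv.Perm (Fin (p ^ 2))))), Function.Surjective f := by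
  classical
  have hpp := hp.out
  haveI : Finite (Multiplicative V) := Finite.of_injective ι hι
  haveI : Finite V := inferInstanceAs (Finite (Multiplicative V))
  -- the conjugation map
  choose c hc using hnorm
  let T0 : V →+ V := AddMonoidHom.mk' c (fun a b => by
    apply Multiplicative.ofAdd.injective
    apply hι
    rw [ofAdd_add, map_mul, hc, ofAdd_add, map_mul, hc, hc]
    group)
  let T : Module.End (ZMod p) V := AddMonoidHom.toZModLinearMap p T0
  have hTv : ∀ v, ι (Multiplicative.ofAdd (T v)) = y⁻¹ * ι (Multiplicative.ofAdd v) * y := fun v => hc _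
  have hTi : ∀ (i : ℕ) (v : V), ι (Multiplicative.ofAdd ((T ^ i) v)) = (y ^ i)⁻¹ * ι (Multiplicative.ofAdd v) * y ^ i := by
    intro i v
    induction i with
    | zero => simp
    | succ i ih =>
      rw [pow_succ', Module.End.mul_apply, hTv, ih]
      group
  -- y^p is in the range
  have hyp : y ^ p ∈ ι.range := by
    haveI := hn
    rw [← QuotientGroup.eq_one_iff]
    have h1 : Nat.card (P ⧸ ι.range) = p := hidx
    have h2 : (y : P ⧸ ι.range) ^ Nat.card (P ⧸ ι.range) = 1 := pow_card_eq_one'
    rw [h1] at h2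
    simpa using h2
  have hTp : T ^ p = 1 := by
    obtain ⟨b₀, hb₀⟩ := hyp
    ext v
    apply Multiplicative.ofAdd.injective
    apply hι
    rw [hTi, ← hb₀]
    simp only [Module.End.one_apply]
    rw [← map_inv, ← map_mul, ← map_mul]
    congr 1
    rw [mul_comm b₀⁻¹, mul_assoc, inv_mul_cancel, mul_one]
  have hsum : ∀ n : ℕ, ι (Multiplicative.ofAdd (∑ i ∈ Finset.range n, (T ^ i) x)) =
      ((List.range n).map (fun i => (y ^ i)⁻¹ * ι (Multiplicative.ofAdd x) * y ^ i)).prod := by
    intro n
    induction n with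
    | zero => simp
    | succ n ih =>
      rw [Finset.sum_range_succ, List.range_succ, List.map_append, List.prod_append, ← ih]
      simp only [ofAdd_add, map_mul, List.map_cons, List.map_nil, List.prod_cons, List.prod_nil, mul_one]
      rw [hTi]
  have hN0 : (∑ i ∈ Finset.range p, (T ^ i) x) ≠ 0 := by
    intro h
    apply hprod
    rw [← hsum, h]
    simp
  obtain ⟨φ, hφ⟩ : ∃ φ : Module.Dual (ZMod p) V, φ (∑ i ∈ Finset.range p, (T ^ i) x) ≠ 0 := by
    by_contra hcon
    push Not at hcon
    exact hN0 ((Module.forall_dual_apply_eq_zero_iff (ZMod p) _).1 hcon)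
  have hφ0 : φ ≠ 0 := by
    intro h
    rw [h] at hφ
    exact hφ rfl
  have hφs : Function.Surjective φ := LinearMap.surjective hφ0
  -- the kernel
  let φm : Multiplicative V →* Multiplicative (ZMod p) := AddMonoidHom.toMultiplicative φ.toAddMonoidHom
  have hφm : Function.Surjective φm := fun t => by
    obtain ⟨v, hv⟩ := hφs (Multiplicative.toAdd t)
    exact ⟨Multiplicative.ofAdd v, by show Multiplicative.ofAdd (φ v) = t; rw [hv]; rfl⟩
  set Kφ : Subgroup (Multiplicative V) := φm.ker with hKφ
  have hKc : Nat.card Kφ * p = Nat.card (Multiplicative V) := by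
    rw [← Subgroup.card_mul_index Kφ, hKφ, Subgroup.index_ker, MonoidHom.range_eq_top.2 hφm, Subgroup.card_top]
    congr 1
    show p = Nat.card (ZMod p)
    rw [Nat.card_zmod]
  set M' : Subgroup P := Kφ.map ι with hM'
  have hcM : Nat.card M' = Nat.card Kφ := Subgroup.card_map_of_injective hι
  have hcR : Nat.card ι.range = Nat.card (Multiplicative V) := by
    rw [MonoidHom.range_eq_map, Subgroup.card_map_of_injective hι, Subgroup.card_top]
  have hcP : Nat.card (Multiplicative V) * p = Nat.card P := by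
    rw [← hcR, ← hidx, Subgroup.card_mul_index]
  have hindex : M'.index = p ^ 2 := by
    have h1 := Subgroup.card_mul_index M'
    have hpos : 0 < Nat.card M' := Nat.card_pos
    apply Nat.eq_of_mul_eq_mul_left hpos
    rw [h1, hcM, ← hcP, ← hKc, pow_two, mul_assoc]
  -- the normal core
  set D : Subgroup P := M'.normalCore with hD
  haveI hDn : D.Normal := Subgroup.normalCore_normal _
  have hDM : D ≤ M' := Subgroup.normalCore_le _
  have hstep : ∀ (j : ℕ) (v : V), ι (Multiplicative.ofAdd v) ∈ D → ι (Multiplicative.ofAdd (((T - 1) ^ j : Module.End (ZMod p) V) v)) ∈ D := by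
    intro j
    induction j with
    | zero => intro v hv; simpa using hv
    | succ j ih =>
      intro v hv
      rw [pow_succ', Module.End.mul_apply]
      have h1 := ih v hv
      set u := ((T - 1) ^ j : Module.End (ZMod p) V) v with hu
      have e : (T - 1 : Module.End (ZMod p) V) u = T u - u := rfl
      rw [e, sub_eq_add_neg, ofAdd_add, map_mul, hTv, ofAdd_neg, map_inv]
      refine D.mul_mem ?_ (D.inv_mem h1)
      have := hDn.conj_mem _ h1 y⁻¹
      simpa using this
  have hφD : ∀ v : V, ι (Multiplicative.ofAdd v) ∈ D → φ v = 0 := by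
    intro v hv
    obtain ⟨k, hk, hkv⟩ := hDM hv
    have : k = Multiplicative.ofAdd v := hι hkv
    rw [this] at hk
    have h2 : φm (Multiplicative.ofAdd v) = 1 := hk
    exact Multiplicative.ofAdd.injective h2
  -- the big linear map
  set Ψ := (LinearMap.pi (fun j : Fin p => φ ∘ₗ (((T - 1) ^ (j : ℕ) : Module.End (ZMod p) V)))) with hΨ
  have hΨs : Function.Surjective Ψ := la_surj T hTp φ x hφ
  have hcK : Nat.card Ψ.toAddMonoidHom.ker * p ^ p = Nat.card V := by
    rw [← AddSubgroup.card_mul_index Ψ.toAddMonoidHom.ker, AddSubgroup.index_ker,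
      AddMonoidHom.range_eq_top.2 hΨs, AddSubgroup.card_top]
    congr 1
    rw [Nat.card_eq_fintype_card, Fintype.card_fun, ZMod.card, Fintype.card_fin]
  have hcD : Nat.card D ≤ Nat.card Ψ.toAddMonoidHom.ker := by
    have hDr : ∀ d : D, ∃ v : V, ι (Multiplicative.ofAdd v) = d := by
      intro d
      obtain ⟨k, -, hk⟩ := hDM d.2
      exact ⟨Multiplicative.toAdd k, hk⟩
    choose w hw using hDr
    have hwk : ∀ d : D, w d ∈ Ψ.toAddMonoidHom.ker := by
      intro d
      show Ψ (w d) = 0
      ext j
      show φ (((T - 1) ^ (j : ℕ) : Module.End (ZMod p) V) (w d)) = 0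
      apply hφD
      apply hstep
      rw [hw]
      exact d.2
    refine Nat.card_le_card_of_injective (fun d : D => (⟨w d, hwk d⟩ : Ψ.toAddMonoidHom.ker)) ?_
    intro d d' h
    have h1 : w d = w d' := congrArg Subtype.val h
    apply Subtype.ext
    rw [← hw d, ← hw d', h1]
  have hbig : Nat.card D * p ^ (p + 1) ≤ Nat.card P := by
    rw [← hcP, ← hKc]
    have e1 : Nat.card (Multiplicative V) = Nat.card V := rfl
    have h2 : Nat.card Kφ * p = Nat.card V := hKc
    rw [h2, ← hcK, pow_succ, ← mul_assoc]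
    exact Nat.mul_le_mul_right _ (Nat.mul_le_mul_right _ hcD)
  -- the permutation representation
  have hcq : Nat.card (P ⧸ M') = p ^ 2 := hindex
  let e : (P ⧸ M') ≃ Fin (p ^ 2) := Finite.equivFinOfCardEq hcq
  let f' : P →* Equiv.Perm (Fin (p ^ 2)) := (Equiv.permCongrHom e).toMonoidHom.comp (MulAction.toPermHom P (P ⧸ M'))
  have hker : f'.ker ≤ D := by
    intro g hg
    rw [hD, Subgroup.normalCore_eq_ker, MonoidHom.mem_ker]
    have h1 : (Equiv.permCongrHom e) (MulAction.toPermHom P (P ⧸ M') g) = 1 := hg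
    exact (map_eq_one_iff (Equiv.permCongrHom e) (Equiv.permCongrHom e).injective).1 h1
  have hrange : p ^ (p + 1) ≤ Nat.card f'.range := by
    have h1 := Subgroup.card_mul_index f'.ker
    rw [Subgroup.index_ker] at h1
    have h2 : Nat.card f'.ker ≤ Nat.card D := Subgroup.card_le_of_le hker
    have hDpos : 0 < Nat.card D := Nat.card_pos
    have h3 : Nat.card D * p ^ (p + 1) ≤ Nat.card D * Nat.card f'.range := by
      refine hbig.trans ?_
      rw [← h1]
      exact Nat.mul_le_mul_right _ h2
    exact Nat.le_of_mul_le_mul_left h3 hDpos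
  have hrp : IsPGroup p f'.range := IsPGroup.of_surjective hP f'.rangeRestrict f'.rangeRestrict_surjective
  obtain ⟨Q, hQ⟩ := hrp.exists_le_sylow
  have hQe : f'.range = (Q : Subgroup _) := by
    apply Subgroup.eq_of_le_of_card_ge hQ
    rw [card_syl]
    exact hrange
  refine ⟨Q, f'.codRestrict _ (fun g => hQ ⟨g, rfl⟩), ?_⟩
  rintro ⟨q, hq⟩
  rw [← hQe] at hq
  obtain ⟨g, rfl⟩ := hq
  exact ⟨g, rfl⟩

/-- Let P be a finite p-group with a normal elementary abelian subgroup A of index p, and let x ∈ A and y ∈ P with y outside A. If the product of the p conjugates y^(-i) x y^i (i = 0, …, p−1) is not the identity, then the wreath product Z_p ≀ Z_p, realised as a Sylow p-subgroup of the symmetric group of degree p², is a homomorphic image of P. -/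
theorem result {P : Type*} [Group P] [Finite P] {p : ℕ} [Fact p.Prime] (hP : IsPGroup p P) (A : Subgroup P) [A.Normal]
    (hA : Cfsg.IsElementaryAbelian p A) (hidx : A.index = p) (x y : P) (hx : x ∈ A) (hy : y ∉ A)
    (hprod : ((List.range p).map (fun i => (y ^ i)⁻¹ * x * y ^ i)).prod ≠ 1) :
    ∃ (Q : Sylow p (Equiv.Perm (Fin (p ^ 2)))) (f : P →* ↥(Q : Subgroup (Equiv.Perm (Fin (p ^ 2))))), Function.Surjective f := by
  classical
  letI : CommGroup A := { (inferInstance : Group A) with mul_comm := hA.1.is_comm.comm }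
  letI : Module (ZMod p) (Additive A) := AddCommGroup.zmodModule (fun v => by
    show Additive.ofMul ((Additive.toMul v) ^ p) = 0
    have : (Additive.toMul v) ^ p = 1 := by
      apply Subtype.ext
      exact hA.2 _ (Additive.toMul v).2
    rw [this]; rfl)
  let ι : Multiplicative (Additive A) →* P :=
    { toFun := fun v => ((Additive.toMul (Multiplicative.toAdd v) : A) : P), map_one' := rfl, map_mul' := fun _ _ => rfl }
  have hι : Function.Injective ι := fun a b h => Subtype.val_injective h
  have hr : ι.range = A := by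
    ext g
    constructor
    · rintro ⟨v, rfl⟩
      exact (Additive.toMul (Multiplicative.toAdd v)).2
    · intro hg
      exact ⟨Multiplicative.ofAdd (Additive.ofMul ⟨g, hg⟩), rfl⟩
  refine main' hP ι hι y ?_ (by rw [hr]; infer_instance) (by rw [hr]; exact hidx) (Additive.ofMul ⟨x, hx⟩) hprod
  intro v
  refine ⟨Additive.ofMul ⟨y⁻¹ * ((Additive.toMul v : A) : P) * y, ?_⟩, rfl⟩
  have := ‹A.Normal›.conj_mem _ (Additive.toMul v).2 y⁻¹
  simpa using this

end Cfsg.Agent.S1952
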