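import Cfsg.Statements.S1956
import Mathlib

set_option autoImplicit false
open Cfsg

namespace Cfsg.Agent.S1956



/-- Let P be a Sylow p-subgroup of the finite group G such that every element of P of order dividing p (dividing 4 when p = 2) is central in P. Then the fusion of these elements is controlled by N_G(P): if such an element a of P has g a g⁻¹ in P, then g = n c with n normalizing P and c commuting with a. -/
theorem result {G : Type*} [Group G] [Finite G] {p : ℕ} [Fact p.Prime] (P : Sylow p G)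
    (hcen : ∀ a ∈ (P : Subgroup G), (a ^ p = 1 ∨ (p = 2 ∧ a ^ 4 = 1)) → ∀ y ∈ (P : Subgroup G), a * y = y * a) :
    ∀ a ∈ (P : Subgroup G), (a ^ p = 1 ∨ (p = 2 ∧ a ^ 4 = 1)) → ∀ g : G, g * a * g⁻¹ ∈ (P : Subgroup G) →
      ∃ n ∈ Subgroup.normalizer ((P : Subgroup G) : Set G), ∃ c : G, c * a = a * c ∧ g = n * c := by
  intro a ha hord g hg
  have hordb : ((g * a * g⁻¹) ^ p = 1 ∨ (p = 2 ∧ (g * a * g⁻¹) ^ 4 = 1)) := by
    rcases hord with h | ⟨h2, h⟩
    · left; rw [conj_pow, h]; simp
    · right; refine ⟨h2, ?_⟩; rw [conj_pow, h]; simp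
  have hbcen := hcen _ hg hordb
  have hacen := hcen a ha hord
  have h1 : a ∈ Subgroup.centralizer ((P : Subgroup G) : Set G) := by
    rw [Subgroup.mem_centralizer_iff]
    intro y hy
    exact (hacen y hy).symm
  have h2 : g⁻¹⁻¹ * a * g⁻¹ ∈ Subgroup.centralizer ((P : Subgroup G) : Set G) := by
    rw [Subgroup.mem_centralizer_iff]
    intro y hy
    rw [inv_inv]
    exact (hbcen y hy).symm
  obtain ⟨n, hn, hne⟩ := P.conj_eq_normalizer_conj_of_mem_centralizer a g⁻¹ h1 h2
  rw [inv_inv] at hne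
  refine ⟨n⁻¹, Subgroup.inv_mem _ hn, n * g, ?_, by group⟩
  have h3 : g * a = n⁻¹ * a * n * g := by
    rw [← hne]; group
  calc n * g * a = n * (g * a) := by group
    _ = n * (n⁻¹ * a * n * g) := by rw [h3]
    _ = a * (n * g) := by group

end Cfsg.Agent.S1956
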