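import Cfsg.Statements.S2162


set_option autoImplicit false
open Cfsg

namespace Cfsg.Agent.S2162


section
variable {F : Type*} [Field F]

theorem exists_basis {n : ℕ} (N : Matrix (Fin n) (Fin n) F) (hN : N * N = 0) (l : ℕ) (hl : N.rank = l) :
    ∃ (k : ℕ) (b : Module.Basis (Fin l ⊕ Fin l ⊕ Fin k) F (Fin n → F)),
      (∀ i, N.mulVec (b (Sum.inl i)) = b (Sum.inr (Sum.inl i))) ∧ (∀ j, N.mulVec (b (Sum.inr j)) = 0) := by
  classical
  obtain ⟨T, hT⟩ : ∃ T, T = N.mulVecLin := ⟨_, rfl⟩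
  obtain ⟨R, hR⟩ : ∃ R, R = LinearMap.range T := ⟨_, rfl⟩
  obtain ⟨K, hK⟩ : ∃ K, K = LinearMap.ker T := ⟨_, rfl⟩
  have hRK : R ≤ K := by
    subst hR hK hT
    rintro _ ⟨v, rfl⟩
    show N.mulVec (N.mulVec v) = 0
    rw [Matrix.mulVec_mulVec, hN, Matrix.zero_mulVec]
  have hRl : Module.finrank F R = l := by
    subst hR hT
    exact hl
  obtain ⟨y⟩ : Nonempty (Module.Basis (Fin l) F R) := ⟨Module.finBasisOfFinrankEq F R hRl⟩
  have hx : ∀ i, ∃ x, T x = (y i : Fin n → F) := fun i => by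
    have : (y i : Fin n → F) ∈ LinearMap.range T := by
      rw [← hR]
      exact (y i).2
    exact this
  choose x hx using hx
  obtain ⟨Z₁, hZ₁⟩ := Submodule.exists_isCompl R
  obtain ⟨Z₀, hZ₀⟩ : ∃ Z₀, Z₀ = K ⊓ Z₁ := ⟨_, rfl⟩
  have hdisj : R ⊓ Z₀ = ⊥ := by
    rw [hZ₀]
    apply le_bot_iff.1
    calc R ⊓ (K ⊓ Z₁) ≤ R ⊓ Z₁ := inf_le_inf_left _ inf_le_right
      _ = ⊥ := hZ₁.inf_eq_bot
  have hsup : R ⊔ Z₀ = K := by
    rw [hZ₀, inf_comm, ← sup_inf_assoc_of_le _ hRK, hZ₁.sup_eq_top, top_inf_eq]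
  have hZK : Z₀ ≤ K := by
    rw [← hsup]
    exact le_sup_right
  obtain ⟨k, hk⟩ : ∃ k, Module.finrank F Z₀ = k := ⟨_, rfl⟩
  obtain ⟨z⟩ : Nonempty (Module.Basis (Fin k) F Z₀) := ⟨Module.finBasisOfFinrankEq F Z₀ hk⟩
  let v : Fin l ⊕ Fin l ⊕ Fin k → (Fin n → F) := Sum.elim x (Sum.elim (fun i => (y i : Fin n → F)) (fun j => (z j : Fin n → F)))
  have hTK : ∀ u ∈ K, T u = 0 := fun u hu => by
    rw [hK] at hu
    exact hu
  have hTz : ∀ j, T (z j : Fin n → F) = 0 := fun j => hTK _ (hZK (z j).2)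
  have hTy : ∀ i, T (y i : Fin n → F) = 0 := fun i => hTK _ (hRK (y i).2)
  have hli : LinearIndependent F v := by
    rw [Fintype.linearIndependent_iff]
    intro g hg
    rw [Fintype.sum_sum_type, Fintype.sum_sum_type] at hg
    simp only [v, Sum.elim_inl, Sum.elim_inr] at hg
    -- apply `T`
    have h1 : ∑ i : Fin l, g (Sum.inl i) • (y i : Fin n → F) = 0 := by
      have h2 := congrArg T hg
      simp only [map_add, map_sum, map_smul, hTy, hTz, smul_zero, Finset.sum_const_zero, add_zero, map_zero, hx] at h2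
      exact h2
    have h1' : ∑ i : Fin l, g (Sum.inl i) • y i = 0 := by
      apply Subtype.ext
      simpa using h1
    have h3 := (Fintype.linearIndependent_iff.1 y.linearIndependent) _ h1'
    simp only [h3, zero_smul, Finset.sum_const_zero, zero_add] at hg
    -- split along the complement
    obtain ⟨u, hu⟩ : ∃ u : R, u = ∑ i : Fin l, g (Sum.inr (Sum.inl i)) • y i := ⟨_, rfl⟩
    obtain ⟨w, hw⟩ : ∃ w : Z₀, w = ∑ j : Fin k, g (Sum.inr (Sum.inr j)) • z j := ⟨_, rfl⟩
    have hu' : (u : Fin n → F) = ∑ i : Fin l, g (Sum.inr (Sum.inl i)) • (y i : Fin n → F) := by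
      simp [hu]
    have hw' : (w : Fin n → F) = ∑ j : Fin k, g (Sum.inr (Sum.inr j)) • (z j : Fin n → F) := by
      simp [hw]
    have h4 : (u : Fin n → F) + (w : Fin n → F) = 0 := by rw [hu', hw']; exact hg
    have h5 : (w : Fin n → F) ∈ R := by
      have : (w : Fin n → F) = - (u : Fin n → F) := by
        rw [eq_neg_iff_add_eq_zero, add_comm]; exact h4
      rw [this]
      exact R.neg_mem u.2
    have h6 : (w : Fin n → F) = 0 := by
      have h7 : (w : Fin n → F) ∈ R ⊓ Z₀ := ⟨h5, w.2⟩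
      rw [hdisj] at h7
      simpa using h7
    have h7 : w = 0 := Subtype.ext h6
    have h8 : (u : Fin n → F) = 0 := by
      rw [h6] at h4
      simpa using h4
    have h9 : u = 0 := Subtype.ext h8
    have h10 := (Fintype.linearIndependent_iff.1 y.linearIndependent) (fun i => g (Sum.inr (Sum.inl i))) (by rw [← hu]; exact h9)
    have h11 := (Fintype.linearIndependent_iff.1 z.linearIndependent) (fun j => g (Sum.inr (Sum.inr j))) (by rw [← hw]; exact h7)
    rintro (i | i | j)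
    · exact h3 i
    · exact h10 i
    · exact h11 j
  have hcard : Fintype.card (Fin l ⊕ Fin l ⊕ Fin k) = Module.finrank F (Fin n → F) := by
    simp only [Fintype.card_sum, Fintype.card_fin, Module.finrank_fin_fun]
    have e1 := LinearMap.finrank_range_add_finrank_ker T
    have e2 := Submodule.finrank_sup_add_finrank_inf_eq R Z₀
    rw [hsup, hdisj, finrank_bot, hRl, hk] at e2
    rw [Module.finrank_fin_fun, ← hR, ← hK, hRl] at e1
    omega
  have hspan := hli.span_eq_top_of_card_eq_finrank' hcard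
  let b : Module.Basis (Fin l ⊕ Fin l ⊕ Fin k) F (Fin n → F) := Module.Basis.mk hli hspan.ge
  have hb : ∀ i, b i = v i := fun i => Module.Basis.mk_apply hli hspan.ge i
  refine ⟨k, b, ?_, ?_⟩
  · intro i
    rw [hb, hb]
    have := hx i
    rw [hT] at this
    exact this
  · rintro (i | j)
    · rw [hb]
      have := hTy i
      rw [hT] at this
      exact this
    · rw [hb]
      have := hTz j
      rw [hT] at this
      exact this

theorem toMatrix'_mulVecLin' {n : ℕ} (N : Matrix (Fin n) (Fin n) F) : LinearMap.toMatrix' N.mulVecLin = N := by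
  rw [← Matrix.toLin'_apply', LinearMap.toMatrix'_toLin']

theorem conj_key [Fintype F] [CharP F 2] {n l k : ℕ} (hl : 0 < l) (N₁ N₂ : Matrix (Fin n) (Fin n) F)
    (b₁ b₂ : Module.Basis (Fin l ⊕ Fin l ⊕ Fin k) F (Fin n → F))
    (h₁ : ∀ i, N₁.mulVec (b₁ (Sum.inl i)) = b₁ (Sum.inr (Sum.inl i))) (h₁' : ∀ j, N₁.mulVec (b₁ (Sum.inr j)) = 0)
    (h₂ : ∀ i, N₂.mulVec (b₂ (Sum.inl i)) = b₂ (Sum.inr (Sum.inl i))) (h₂' : ∀ j, N₂.mulVec (b₂ (Sum.inr j)) = 0) :
    ∃ G : Matrix (Fin n) (Fin n) F, G.det = 1 ∧ N₂ * G = G * N₁ := by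
  classical
  let g := b₁.equiv b₂ (Equiv.refl _)
  have hg : ∀ i, g (b₁ i) = b₂ i := fun i => by simp [g]
  have hgT : N₂.mulVecLin ∘ₗ (g : (Fin n → F) →ₗ[F] (Fin n → F)) = (g : (Fin n → F) →ₗ[F] (Fin n → F)) ∘ₗ N₁.mulVecLin := by
    apply b₁.ext
    rintro (i | j)
    · simp only [LinearMap.comp_apply, LinearEquiv.coe_coe, Matrix.mulVecLin_apply]
      rw [hg, h₁, hg, h₂]
    · simp only [LinearMap.comp_apply, LinearEquiv.coe_coe, Matrix.mulVecLin_apply]
      rw [hg, h₁', map_zero, h₂']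
  have hdg : LinearMap.det (g : (Fin n → F) →ₗ[F] (Fin n → F)) ≠ 0 :=
    (LinearEquiv.isUnit_det' g).ne_zero
  let d := LinearMap.det (g : (Fin n → F) →ₗ[F] (Fin n → F))
  let c : F := (frobeniusEquiv F 2).symm d⁻¹
  have hc : c ^ 2 = d⁻¹ := frobeniusEquiv_symm_pow_p F 2 d⁻¹
  let i₀ : Fin l := ⟨0, hl⟩
  let w₀ : Fin l → F := fun i => if i = i₀ then c else 1
  let w : Fin l ⊕ Fin l ⊕ Fin k → F := Sum.elim w₀ (Sum.elim w₀ (fun _ => 1))
  let h : (Fin n → F) →ₗ[F] (Fin n → F) := b₂.constr F (fun i => w i • b₂ i)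
  have hh : ∀ i, h (b₂ i) = w i • b₂ i := fun i => by simp [h, Module.Basis.constr_basis]
  have hhT : N₂.mulVecLin ∘ₗ h = h ∘ₗ N₂.mulVecLin := by
    apply b₂.ext
    rintro (i | j)
    · simp only [LinearMap.comp_apply, Matrix.mulVecLin_apply]
      rw [hh, h₂, Matrix.mulVec_smul, h₂, hh]
      rfl
    · simp only [LinearMap.comp_apply, Matrix.mulVecLin_apply]
      rw [hh, h₂', Matrix.mulVec_smul, h₂', map_zero, smul_zero]
  have hdh : LinearMap.det h = c ^ 2 := by
    rw [← LinearMap.det_toMatrix b₂]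
    have : LinearMap.toMatrix b₂ b₂ h = Matrix.diagonal w := by
      ext i j
      rw [LinearMap.toMatrix_apply, hh, Matrix.diagonal_apply]
      simp only [map_smul, Module.Basis.repr_self, Finsupp.smul_apply, Finsupp.single_apply, smul_eq_mul, mul_ite, mul_one, mul_zero]
      by_cases h : i = j
      · subst h
        simp
      · rw [if_neg h, if_neg (fun e => h e.symm)]
    rw [this, Matrix.det_diagonal, Fintype.prod_sum_type, Fintype.prod_sum_type]
    have h0 : ∏ i, w₀ i = c := by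
      simp [w₀]
    simp only [w, Sum.elim_inl, Sum.elim_inr, h0, Finset.prod_const_one, mul_one]
    ring
  refine ⟨LinearMap.toMatrix' (h ∘ₗ (g : (Fin n → F) →ₗ[F] (Fin n → F))), ?_, ?_⟩
  · rw [LinearMap.det_toMatrix', LinearMap.det_comp, hdh, hc]
    exact inv_mul_cancel₀ hdg
  · conv_lhs => rw [← toMatrix'_mulVecLin' N₂]
    conv_rhs => rw [← toMatrix'_mulVecLin' N₁]
    rw [← LinearMap.toMatrix'_comp, ← LinearMap.toMatrix'_comp]
    congr 1
    rw [← LinearMap.comp_assoc, hhT, LinearMap.comp_assoc, hgT, LinearMap.comp_assoc]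
end


/-- Conjugacy of involutions in the special linear group over a finite field of characteristic two, in dimension at least 3: two elements of order 2 of SL_n(F) are conjugate in SL_n(F) exactly when the matrices a − 1 and b − 1 have the same rank (the rank of a − 1 is the dimension of the commutator space [V, a]). -/
theorem result {F : Type*} [Field F] [Fintype F] [CharP F 2] {n : ℕ} (hn : 3 ≤ n) (a b : Matrix.SpecialLinearGroup (Fin n) F) (ha : orderOf a = 2) (hb : orderOf b = 2) :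
    IsConj a b ↔ ((a : Matrix (Fin n) (Fin n) F) - 1).rank = ((b : Matrix (Fin n) (Fin n) F) - 1).rank := by
  classical
  constructor
  · intro hc
    obtain ⟨c, hc⟩ := isConj_iff.1 hc
    have h1 : (b : Matrix (Fin n) (Fin n) F) - 1
        = (c : Matrix (Fin n) (Fin n) F) * ((a : Matrix (Fin n) (Fin n) F) - 1) * ((c⁻¹ : Matrix.SpecialLinearGroup (Fin n) F) : Matrix (Fin n) (Fin n) F) := by
      rw [← hc, mul_sub, sub_mul, mul_one]
      simp only [Matrix.SpecialLinearGroup.coe_mul]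
      congr 1
      rw [← Matrix.SpecialLinearGroup.coe_mul, mul_inv_cancel]
      rfl
    have hdet : ∀ x : Matrix.SpecialLinearGroup (Fin n) F, IsUnit (x : Matrix (Fin n) (Fin n) F).det := by
      intro x
      rw [x.2]
      exact isUnit_one
    rw [h1, Matrix.rank_mul_eq_left_of_isUnit_det _ _ (hdet _), Matrix.rank_mul_eq_right_of_isUnit_det _ _ (hdet _)]
  · intro hr
    have hadd : ∀ X : Matrix (Fin n) (Fin n) F, X + X = 0 := by
      intro X
      ext i j
      simp [CharTwo.add_self_eq_zero]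
    have hsq : ∀ x : Matrix.SpecialLinearGroup (Fin n) F, orderOf x = 2 →
        ((x : Matrix (Fin n) (Fin n) F) - 1) * ((x : Matrix (Fin n) (Fin n) F) - 1) = 0 := by
      intro x hx
      have h0 : x * x = 1 := by
        rw [← pow_two, ← hx]
        exact pow_orderOf_eq_one x
      have h1 : (x : Matrix (Fin n) (Fin n) F) * (x : Matrix (Fin n) (Fin n) F) = 1 := by
        have := congrArg (fun y : Matrix.SpecialLinearGroup (Fin n) F => (y : Matrix (Fin n) (Fin n) F)) h0
        simpa using this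
      have h2 : ((x : Matrix (Fin n) (Fin n) F) - 1) * ((x : Matrix (Fin n) (Fin n) F) - 1)
          = (x : Matrix (Fin n) (Fin n) F) * (x : Matrix (Fin n) (Fin n) F) - ((x : Matrix (Fin n) (Fin n) F) + (x : Matrix (Fin n) (Fin n) F)) + 1 := by
        noncomm_ring
      rw [h2, h1, hadd, sub_zero]
      exact hadd 1
    obtain ⟨k₁, b₁, h₁, h₁'⟩ := exists_basis _ (hsq a ha) _ rfl
    obtain ⟨k₂, b₂, h₂, h₂'⟩ := exists_basis _ (hsq b hb) _ hr.symm
    have hk : k₁ = k₂ := by
      have e1 := Module.finrank_eq_card_basis b₁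
      have e2 := Module.finrank_eq_card_basis b₂
      simp only [Fintype.card_sum, Fintype.card_fin] at e1 e2
      omega
    subst hk
    have hl : 0 < ((a : Matrix (Fin n) (Fin n) F) - 1).rank := by
      rw [Nat.pos_iff_ne_zero]
      intro h0
      have h1 : LinearMap.range ((a : Matrix (Fin n) (Fin n) F) - 1).mulVecLin = ⊥ := Submodule.finrank_eq_zero.1 h0
      have h2 : ((a : Matrix (Fin n) (Fin n) F) - 1).mulVecLin = 0 := LinearMap.range_eq_bot.1 h1
      have h3 : ((a : Matrix (Fin n) (Fin n) F) - 1) = 0 := by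
        rw [← toMatrix'_mulVecLin' ((a : Matrix (Fin n) (Fin n) F) - 1), h2, map_zero]
      have h4 : a = 1 := Subtype.ext (sub_eq_zero.1 h3)
      rw [h4, orderOf_one] at ha
      omega
    obtain ⟨G, hG, hGN⟩ := conj_key hl _ _ b₁ b₂ h₁ h₁' h₂ h₂'
    let S : Matrix.SpecialLinearGroup (Fin n) F := ⟨G, hG⟩
    rw [isConj_iff]
    refine ⟨S, ?_⟩
    rw [mul_inv_eq_iff_eq_mul]
    apply Subtype.ext
    show G * (a : Matrix (Fin n) (Fin n) F) = (b : Matrix (Fin n) (Fin n) F) * G
    have h5 : (a : Matrix (Fin n) (Fin n) F) = ((a : Matrix (Fin n) (Fin n) F) - 1) + 1 := by simp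
    have h6 : (b : Matrix (Fin n) (Fin n) F) = ((b : Matrix (Fin n) (Fin n) F) - 1) + 1 := by simp
    rw [h5, h6, mul_add, add_mul, ← hGN]
    simp

end Cfsg.Agent.S2162
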