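import Cfsg.Statements.S2163


set_option autoImplicit false
open Cfsg

namespace Cfsg.Agent.S2163


section
variable {F : Type*} [Field F]

theorem rank_eq_aux {n l : ℕ} (M : Matrix (Fin n) (Fin n) F) (e : (Fin l → F) →ₗ[F] (Fin n → F))
    (hr : ∀ v, ∃ w, M.mulVec v = M.mulVec (e w)) (hinj : ∀ w, M.mulVec (e w) = 0 → w = 0) :
    M.rank = l := by
  have h1 : LinearMap.range M.mulVecLin = LinearMap.range (M.mulVecLin ∘ₗ e) := by
    apply le_antisymm
    · rintro _ ⟨v, rfl⟩
      obtain ⟨w, hw⟩ := hr v
      exact ⟨w, by simp [hw]⟩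
    · rintro _ ⟨w, rfl⟩
      exact ⟨e w, by simp⟩
  have h2 : Function.Injective (M.mulVecLin ∘ₗ e) := by
    rw [← LinearMap.ker_eq_bot, LinearMap.ker_eq_bot']
    intro w hw
    exact hinj w (by simpa using hw)
  rw [Matrix.rank, h1, LinearMap.finrank_range_of_inj h2]
  simp

theorem det_one_of_sq [CharP F 2] {n : ℕ} (a : Matrix (Fin n) (Fin n) F) (h : a * a = 1) : a.det = 1 := by
  have h0 : a.det * a.det = 1 := by rw [← Matrix.det_mul, h, Matrix.det_one]
  have h2 : (2 : F) = 0 := CharTwo.two_eq_zero
  have : (a.det - 1) ^ 2 = 0 := by linear_combination h0 + (1 - a.det) * h2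
  have := pow_eq_zero_iff (two_ne_zero) |>.1 this
  exact sub_eq_zero.1 this
end


/-- Over a finite field of characteristic two and for n ≥ 3: for every ℓ with 1 ≤ ℓ and 2ℓ ≤ n, the matrix j_ℓ that is the identity plus the entries 1 in positions (n − ℓ + i, i) for i < ℓ (an identity block of size ℓ in the lower left corner) lies in SL_n(F), has order 2, and j_ℓ − 1 has rank ℓ. Together with the conjugacy criterion by rank, these matrices represent the conjugacy classes of involutions of SL_n(F). -/
theorem result {F : Type*} [Field F] [Fintype F] [CharP F 2] {n : ℕ} (hn : 3 ≤ n) (ℓ : ℕ) (h1 : 1 ≤ ℓ) (h2 : 2 * ℓ ≤ n) :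
    ∃ a : Matrix.SpecialLinearGroup (Fin n) F, (a : Matrix (Fin n) (Fin n) F) = 1 + Matrix.of (fun i j : Fin n => if j.val < ℓ ∧ i.val = j.val + (n - ℓ) then (1 : F) else 0) ∧ orderOf a = 2 ∧ ((a : Matrix (Fin n) (Fin n) F) - 1).rank = ℓ := by
  classical
  set N : Matrix (Fin n) (Fin n) F := Matrix.of (fun i j : Fin n => if j.val < ℓ ∧ i.val = j.val + (n - ℓ) then (1 : F) else 0) with hN
  have hNN : N * N = 0 := by
    ext i k
    simp only [Matrix.mul_apply, Matrix.zero_apply]
    refine Finset.sum_eq_zero fun j _ => ?_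
    simp only [hN, Matrix.of_apply]
    split_ifs with h1' h2'
    · omega
    all_goals simp
  have hadd : N + N = 0 := by
    ext i k
    simp [CharTwo.add_self_eq_zero]
  have hsq : (1 + N) * (1 + N) = 1 := by
    calc (1 + N) * (1 + N) = 1 + (N + N) + N * N := by noncomm_ring
      _ = 1 := by rw [hadd, hNN]; simp
  have hdet := det_one_of_sq (1 + N) hsq
  let a : Matrix.SpecialLinearGroup (Fin n) F := ⟨1 + N, hdet⟩
  refine ⟨a, rfl, ?_, ?_⟩
  · haveI : Fact (Nat.Prime 2) := ⟨Nat.prime_two⟩
    apply orderOf_eq_prime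
    · have h5 : a * a = 1 := Subtype.ext hsq
      rw [pow_two]
      exact h5
    · intro h
      have h0 : (1 + N) = 1 := congrArg (fun x : Matrix.SpecialLinearGroup (Fin n) F => (x : Matrix (Fin n) (Fin n) F)) h
      have h3 : N = 0 := by simpa using h0
      have h4 := congrFun (congrFun h3 ⟨0 + (n - ℓ), by omega⟩) ⟨0, by omega⟩
      simp [hN] at h4
      omega
  · show ((1 + N) - 1 : Matrix (Fin n) (Fin n) F).rank = ℓ
    rw [add_sub_cancel_left]
    have hN_apply : ∀ (v : Fin n → F) (i : Fin n), (N.mulVec v) i = if h : n - ℓ ≤ i.val then v ⟨i.val - (n - ℓ), by omega⟩ else 0 := by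
      intro v i
      simp only [Matrix.mulVec, dotProduct, hN, Matrix.of_apply]
      split_ifs with hi
      · rw [Finset.sum_eq_single (⟨i.val - (n - ℓ), by omega⟩ : Fin n)]
        · have h7 : (i.val - (n - ℓ) < ℓ ∧ i.val = i.val - (n - ℓ) + (n - ℓ)) := by omega
          rw [if_pos h7, one_mul]
        · intro j _ hj
          have : ¬ (j.val < ℓ ∧ i.val = j.val + (n - ℓ)) := by
            rintro ⟨h5, h6⟩
            apply hj
            apply Fin.ext
            show j.val = i.val - (n - ℓ)
            omega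
          rw [if_neg this, zero_mul]
        · simp
      · refine Finset.sum_eq_zero fun j _ => ?_
        have : ¬ (j.val < ℓ ∧ i.val = j.val + (n - ℓ)) := by omega
        rw [if_neg this, zero_mul]
    let e : (Fin ℓ → F) →ₗ[F] (Fin n → F) :=
      { toFun := fun w j => if h : j.val < ℓ then w ⟨j.val, h⟩ else 0
        map_add' := by
          intro x y
          ext j
          by_cases h : j.val < ℓ <;> simp [h]
        map_smul' := by
          intro c x
          ext j
          by_cases h : j.val < ℓ <;> simp [h] }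
    have he : ∀ w (j : Fin n) (h : j.val < ℓ), e w j = w ⟨j.val, h⟩ := by
      intro w j h
      simp [e, h]
    apply rank_eq_aux N e
    · intro v
      refine ⟨fun j => v ⟨j.val, by omega⟩, ?_⟩
      ext i
      rw [hN_apply, hN_apply]
      split_ifs with hi
      · rw [he _ _ (by show i.val - (n - ℓ) < ℓ; omega)]
      · rfl
    · intro w hw
      ext j
      have := congrFun hw ⟨j.val + (n - ℓ), by omega⟩
      rw [hN_apply] at this
      rw [dif_pos (by simp)] at this
      rw [he _ _ (by simp)] at this
      simpa using this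

end Cfsg.Agent.S2163
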