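import Cfsg.Statements.S2164
import Cfsg.Agent.Lib.HermFrames
import Cfsg.Agent.Lib.SUBasic
import Cfsg.Agent.S2162

set_option autoImplicit false
open Cfsg

namespace Cfsg.Agent.S2164


open Matrix Cfsg Cfsg.Agent.Lib.HermStd Cfsg.Agent.Lib.HermForm Cfsg.Agent.Lib.HermBasic
  Cfsg.Agent.Lib.HermFrames Cfsg.Agent.Lib.UnitBasic

section onb

variable {F : Type*} [Field F] [Fintype F]

/-- A Hermitian form has an orthonormal basis modulo its radical. -/
theorem herm_onb_aux (σ : F →+* F) (hσ : σ ≠ RingHom.id F) (hσ2 : ∀ a : F, σ (σ a) = a) :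
    ∀ (n : ℕ) (V : Type _) [AddCommGroup V] [Module F V] [FiniteDimensional F V] (φ : V → V → F)
      (_ : ∀ x y z, φ (x + y) z = φ x z + φ y z) (_ : ∀ (c : F) x z, φ (c • x) z = c * φ x z)
      (_ : ∀ x z, φ z x = σ (φ x z)) (_ : Module.finrank F V = n),
      ∃ (r : ℕ) (x : Fin r → V), (∀ i j, φ (x i) (x j) = if i = j then 1 else 0) ∧
        ∀ v, ∃ α : Fin r → F, ∀ u, φ (v - ∑ i, α i • x i) u = 0 := by
  intro n
  induction n using Nat.strong_induction_on with
  | _ n ih =>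
    intro V _ _ _ φ hadd hsmul hconj hn
    have hadd' : ∀ x y z, φ z (x + y) = φ z x + φ z y := by
      intro x y z
      rw [hconj (x + y) z, hadd, map_add, ← hconj, ← hconj]
    have hsmul' : ∀ (c : F) x z, φ z (c • x) = σ c * φ z x := by
      intro c x z
      rw [hconj (c • x) z, hsmul, map_mul, ← hconj]
    by_cases h0 : ∀ u w, φ u w = 0
    · refine ⟨0, Fin.elim0, fun i => i.elim0, fun v => ⟨Fin.elim0, fun u => h0 _ _⟩⟩
    push Not at h0
    obtain ⟨u, w, huw⟩ := h0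
    have hv : ∃ v, φ v v ≠ 0 := by
      by_contra hcon
      push Not at hcon
      obtain ⟨t, ht⟩ := trace_surj σ hσ hσ2 1 (map_one σ)
      let c : F := t * (φ u w)⁻¹
      have hc : c * φ u w = t := by
        simp only [c]
        field_simp
      have h1 := hcon (c • u + w)
      have e2 : φ w (c • u) = σ t := by rw [hsmul', hconj u w, ← map_mul, hc]
      have e3 : φ (c • u) w = t := by rw [hsmul, hc]
      rw [hadd, hadd', hadd', hcon (c • u), e3, e2, hcon w] at h1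
      have h3 : t + σ t = 0 := by linear_combination h1
      rw [h3] at ht
      exact zero_ne_one ht
    obtain ⟨v, hvv⟩ := hv
    obtain ⟨a, ha, haa⟩ := norm_surj σ hσ hσ2 (φ v v) (by rw [← hconj]) hvv
    have hσa : σ a ≠ 0 := by
      intro h
      apply ha
      have := congrArg σ h
      rwa [hσ2, map_zero] at this
    obtain ⟨v₁, h11⟩ : ∃ v₁, φ v₁ v₁ = 1 := by
      refine ⟨a⁻¹ • v, ?_⟩
      rw [hsmul, hsmul', ← haa, map_inv₀]
      field_simp
    let ℓ : V →ₗ[F] F :=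
      { toFun := fun z => φ z v₁
        map_add' := fun x y => hadd x y v₁
        map_smul' := fun c x => by simp [hsmul] }
    have hℓ : ∀ z, ℓ z = φ z v₁ := fun _ => rfl
    let K : Submodule F V := LinearMap.ker ℓ
    have hK : ∀ z : K, φ z v₁ = 0 := fun z => z.2
    have hsplit : ∀ z, z - φ z v₁ • v₁ ∈ K := by
      intro z
      show φ (z - φ z v₁ • v₁) v₁ = 0
      have e : z = (z - φ z v₁ • v₁) + φ z v₁ • v₁ := by abel
      have h3 : φ ((z - φ z v₁ • v₁) + φ z v₁ • v₁) v₁ = φ z v₁ := by rw [← e]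
      rw [hadd, hsmul, h11, mul_one] at h3
      linear_combination h3
    have hlt : Module.finrank F K < n := by
      have h5 : LinearMap.range ℓ = ⊤ := by
        rw [LinearMap.range_eq_top]
        apply LinearMap.surjective
        intro h
        have h6 : ℓ v₁ = 0 := by rw [h]; rfl
        rw [hℓ, h11] at h6
        exact one_ne_zero h6
      have h6 := LinearMap.finrank_range_add_finrank_ker ℓ
      rw [h5, finrank_top, Module.finrank_self] at h6
      have : Module.finrank F (LinearMap.ker ℓ) = Module.finrank F K := rfl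
      omega
    obtain ⟨r, x, hx, hsp⟩ := ih _ hlt K (fun a b => φ a b)
      (fun a b c => hadd _ _ _) (fun c a b => hsmul _ _ _) (fun a b => hconj _ _) rfl
    refine ⟨r + 1, Fin.cons v₁ (fun i => (x i : V)), ?_, ?_⟩
    · intro i j
      refine Fin.cases ?_ (fun i => ?_) i <;> refine Fin.cases ?_ (fun j => ?_) j
      · simp [h11]
      · simp only [Fin.cons_zero, Fin.cons_succ]
        rw [hconj, hK, map_zero]
        simp [(Fin.succ_ne_zero j).symm]
      · simp only [Fin.cons_zero, Fin.cons_succ]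
        rw [hK]
        simp [Fin.succ_ne_zero i]
      · simp only [Fin.cons_succ, Fin.succ_inj]
        exact hx i j
    · intro z
      obtain ⟨α, hα⟩ := hsp ⟨_, hsplit z⟩
      refine ⟨Fin.cons (φ z v₁) α, ?_⟩
      have e : z - ∑ i, (Fin.cons (φ z v₁) α : Fin (r + 1) → F) i • (Fin.cons v₁ (fun i => (x i : V)) : Fin (r + 1) → V) i =
          (((⟨_, hsplit z⟩ : K) - ∑ i, α i • x i : K) : V) := by
        rw [Fin.sum_univ_succ]
        simp only [Fin.cons_zero, Fin.cons_succ]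
        push_cast
        abel
      rw [e]
      set w' : K := (⟨_, hsplit z⟩ : K) - ∑ i, α i • x i with hw'
      intro y
      have h3 : φ w' (y - φ y v₁ • v₁) = 0 := hα ⟨_, hsplit y⟩
      have e2 : φ w' ((y - φ y v₁ • v₁) + φ y v₁ • v₁) = φ w' y := by
        congr 1
        abel
      rw [← e2, hadd', hsmul', h3, hK w']
      simp

end onb

section inv

variable {F : Type*} [Field F] [Fintype F] [CharP F 2] {n q : ℕ}

local notation "hh" => Cfsg.hermForm n F q
local notation "MM" => Matrix (Fin n) (Fin n) F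

/-- An involution (or the identity) of the unitary group, as a matrix. -/
structure IsInv (A : MM) : Prop where
  sq : A * A = 1
  pres : ∀ u v, hh (A *ᵥ u) (A *ᵥ v) = hh u v

theorem vadd_self (v : Fin n → F) : v + v = 0 := by
  ext i
  exact CharTwo.add_self_eq_zero _

theorem N_apply (A : MM) (v : Fin n → F) : (A - 1) *ᵥ v = A *ᵥ v + v := by
  rw [Matrix.sub_mulVec, Matrix.one_mulVec]
  ext i
  exact CharTwo.sub_eq_add _ _

theorem hh_zero_right (hF : Fintype.card F = q ^ 2) (u : Fin n → F) : hh u 0 = 0 := by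
  have hq := one_lt_q hF
  simp only [Cfsg.hermForm, Pi.zero_apply]
  rw [Finset.sum_eq_zero]
  intro i _
  rw [zero_pow (by omega), mul_zero]

namespace IsInv

variable {A : Matrix (Fin n) (Fin n) F}

theorem AA (h : IsInv (q := q) A) (v : Fin n → F) : Matrix.mulVec A (Matrix.mulVec A v) = v := by
  rw [Matrix.mulVec_mulVec, h.sq, Matrix.one_mulVec]

theorem NN (h : IsInv (q := q) A) (v : Fin n → F) : Matrix.mulVec (A - 1 : MM) (Matrix.mulVec (A - 1 : MM) v) = 0 := by
  rw [N_apply, N_apply, Matrix.mulVec_add, h.AA]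
  calc v + A *ᵥ v + (A *ᵥ v + v) = (v + v) + (A *ᵥ v + A *ᵥ v) := by abel
    _ = 0 := by rw [vadd_self, vadd_self, add_zero]

theorem adj (hF : Fintype.card F = q ^ 2) (h : IsInv (q := q) A) (u v : Fin n → F) :
    hh ((A - 1) *ᵥ u) v = hh u ((A - 1) *ᵥ v) := by
  rw [N_apply, N_apply, hf_add_left, hf_add_right hF]
  have h1 : hh (A *ᵥ u) v = hh u (A *ᵥ v) := by
    have := h.pres (A *ᵥ u) v
    rw [h.AA] at this
    exact this.symm
  rw [h1]

end IsInv

variable {A : Matrix (Fin n) (Fin n) F}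

theorem exists_frame (hF : Fintype.card F = q ^ 2) (hA : IsInv (q := q) A) :
    ∃ (r : ℕ) (x : Fin r → Fin n → F), (∀ i j, hh (x i) ((A - 1) *ᵥ x j) = if i = j then 1 else 0) ∧
      ∀ v, ∃ α : Fin r → F, ∀ u, hh (v - ∑ i, α i • x i) ((A - 1) *ᵥ u) = 0 := by
  refine herm_onb_aux (sig hF) (sig_ne hF) (sig_sig hF) _ (Fin n → F) (fun u v => hh u ((A - 1) *ᵥ v))
    (fun x y z => hf_add_left _ _ _) (fun c x z => hf_smul_left _ _ _) ?_ rfl
  intro x z
  show hh z ((A - 1) *ᵥ x) = (sig hF) (hh x ((A - 1) *ᵥ z))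
  rw [sig_apply, ← hA.adj hF, ← hf_conj hF]

/-- The frame predicate. -/
structure Frame (hF : Fintype.card F = q ^ 2) (A : Matrix (Fin n) (Fin n) F) {r : ℕ} (x : Fin r → Fin n → F) : Prop where
  gram : ∀ i j, hh (x i) ((A - 1) *ᵥ x j) = if i = j then 1 else 0
  span : ∀ v, ∃ α : Fin r → F, ∀ u, hh (v - ∑ i, α i • x i) ((A - 1) *ᵥ u) = 0

variable {r : ℕ} {x : Fin r → Fin n → F}

theorem closed {hF : Fintype.card F = q ^ 2} (hA : IsInv (q := q) A) (hX : Frame hF A x) (v : Fin n → F) :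
    (A - 1) *ᵥ v = ∑ k, hh v ((A - 1) *ᵥ x k) • ((A - 1) *ᵥ x k) := by
  obtain ⟨α, hα⟩ := hX.span v
  set w := v - ∑ i, α i • x i with hw
  have hw0 : (A - 1) *ᵥ w = 0 := by
    by_contra hne
    obtain ⟨u, hu⟩ := hf_nondeg_right hF hne
    rw [hA.adj hF, hα] at hu
    exact hu rfl
  have hv : v = w + ∑ i, α i • x i := by rw [hw]; abel
  have hNv : (A - 1) *ᵥ v = ∑ i, α i • ((A - 1) *ᵥ x i) := by
    have e := map_sum (A - 1).mulVecLin (fun i => α i • x i) Finset.univ
    simp only [Matrix.mulVecLin_apply, Matrix.mulVec_smul] at e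
    rw [hv, Matrix.mulVec_add, hw0, zero_add, e]
  have hc : ∀ k, hh v ((A - 1) *ᵥ x k) = α k := by
    intro k
    have e : hh (w + ∑ i, α i • x i) ((A - 1) *ᵥ x k) = hh w ((A - 1) *ᵥ x k) + ∑ i, α i * hh (x i) ((A - 1) *ᵥ x k) := by
      rw [hf_add_left]
      congr 1
      simp only [Cfsg.hermForm, Finset.sum_apply, Pi.smul_apply, smul_eq_mul, Finset.sum_mul, Finset.mul_sum]
      rw [Finset.sum_comm]
      refine Finset.sum_congr rfl fun i _ => Finset.sum_congr rfl fun j _ => by ring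
    rw [hv, e, hα, zero_add]
    simp [hX.gram]
  rw [hNv]
  refine Finset.sum_congr rfl fun j _ => ?_
  rw [hc]

theorem y_li {hF : Fintype.card F = q ^ 2} (hA : IsInv (q := q) A) (hX : Frame hF A x) :
    LinearIndependent F (fun i => (A - 1) *ᵥ x i) := by
  rw [Fintype.linearIndependent_iff]
  intro c hc k
  have e := map_sum (A - 1).mulVecLin (fun j => c j • x j) Finset.univ
  simp only [Matrix.mulVecLin_apply, Matrix.mulVec_smul] at e
  have h1 : hh ((A - 1) *ᵥ ∑ j, c j • x j) (x k) = 0 := by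
    rw [e, hc]
    simp [Cfsg.hermForm]
  rw [hA.adj hF] at h1
  have e2 : hh (∑ j, c j • x j) ((A - 1) *ᵥ x k) = ∑ j, c j * hh (x j) ((A - 1) *ᵥ x k) := by
    simp only [Cfsg.hermForm, Finset.sum_apply, Pi.smul_apply, smul_eq_mul, Finset.sum_mul, Finset.mul_sum]
    rw [Finset.sum_comm]
    refine Finset.sum_congr rfl fun i _ => Finset.sum_congr rfl fun j _ => by ring
  rw [e2] at h1
  simpa [hX.gram] using h1

theorem y_ti (hF : Fintype.card F = q ^ 2) (hA : IsInv (q := q) A) (i j : Fin r) :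
    hh ((A - 1) *ᵥ x i) ((A - 1) *ᵥ x j) = 0 := by
  rw [hA.adj hF, hA.NN, hh_zero_right hF]

theorem rank_eq {hF : Fintype.card F = q ^ 2} (hA : IsInv (q := q) A) (hX : Frame hF A x) : (A - 1).rank = r := by
  have h1 : LinearMap.range (A - 1).mulVecLin = Submodule.span F (Set.range fun i => (A - 1) *ᵥ x i) := by
    apply le_antisymm
    · rintro _ ⟨v, rfl⟩
      rw [Matrix.mulVecLin_apply, closed hA hX v]
      refine Submodule.sum_mem _ fun j _ => ?_
      exact Submodule.smul_mem _ _ (Submodule.subset_span ⟨j, rfl⟩)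
    · rw [Submodule.span_le]
      rintro _ ⟨i, rfl⟩
      exact ⟨x i, rfl⟩
  show Module.finrank F (LinearMap.range (A - 1).mulVecLin) = _
  rw [h1, finrank_span_eq_card (y_li hA hX), Fintype.card_fin]

theorem comm_of_frames {hF : Fintype.card F = q ^ 2} {A' : Matrix (Fin n) (Fin n) F} {x' : Fin r → Fin n → F}
    (hA : IsInv (q := q) A) (hA' : IsInv (q := q) A')
    (hX : Frame hF A x) (hX' : Frame hF A' x') (g : Matrix (Fin n) (Fin n) F)
    (hg : ∀ u v, hh (g *ᵥ u) (g *ᵥ v) = hh u v)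
    (hgy : ∀ k (v : Fin n → F), hh v ((A - 1) *ᵥ x k) • (g *ᵥ ((A - 1) *ᵥ x k)) =
      hh (g *ᵥ v) ((A' - 1) *ᵥ x' k) • ((A' - 1) *ᵥ x' k)) : g * A = A' * g := by
  rw [Matrix.ext_iff_mulVec]
  intro v
  rw [← Matrix.mulVec_mulVec, ← Matrix.mulVec_mulVec]
  have e1 : A *ᵥ v = (A - 1) *ᵥ v + v := by
    rw [N_apply, add_assoc, vadd_self, add_zero]
  have e2 : A' *ᵥ (g *ᵥ v) = (A' - 1) *ᵥ (g *ᵥ v) + g *ᵥ v := by
    rw [N_apply, add_assoc, vadd_self, add_zero]
  rw [e1, e2, Matrix.mulVec_add]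
  congr 1
  rw [closed hA hX v, closed hA' hX' (g *ᵥ v)]
  have e := map_sum g.mulVecLin (fun k => hh v ((A - 1) *ᵥ x k) • ((A - 1) *ᵥ x k)) Finset.univ
  simp only [Matrix.mulVecLin_apply] at e
  rw [e]
  refine Finset.sum_congr rfl fun k _ => ?_
  rw [Matrix.mulVec_smul, hgy]

theorem exists_scale' (hF : Fintype.card F = q ^ 2) {k : ℕ} (e : Fin (k + 1) → Fin n → F)
    (he : LinearIndependent F e) (hT : TIf q e) (b : F) (hb : b ^ (q + 1) = 1) :
    ∃ g : GL (Fin n) F, g ∈ GU n F q ∧ (g : Matrix (Fin n) (Fin n) F).det = b * b ∧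
      (g : Matrix (Fin n) (Fin n) F) *ᵥ e 0 = b • e 0 ∧
      ∀ i : Fin k, (g : Matrix (Fin n) (Fin n) F) *ᵥ e i.succ = e i.succ := by
  classical
  obtain ⟨w, h1, h2, h3⟩ := exists_partner hF e he hT
  have h1' : hh w (e 0) = 1 := by
    rw [hf_conj hF (e 0) w, h1, one_pow]
  have hb0 : b ≠ 0 := by
    intro h0
    rw [h0, zero_pow (by omega)] at hb
    exact zero_ne_one hb
  have hc1 : b * b ^ q = 1 := by rw [← pow_succ']; exact hb
  let G : Matrix (Fin n) (Fin n) F := R1 q (b - 1) (e 0) w * R1 q (b - 1) w (e 0)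
  have hG : ∀ v, G *ᵥ v = v + ((b - 1) * hh v (e 0)) • w + ((b - 1) * hh v w) • e 0 := by
    intro v
    show (R1 q (b - 1) (e 0) w * R1 q (b - 1) w (e 0)) *ᵥ v = _
    rw [← Matrix.mulVec_mulVec, R1_mulVec, R1_mulVec, hf_add_left, hf_smul_left, h3, mul_zero, add_zero]
  have hdet : G.det = b * b := by
    show (R1 q (b - 1) (e 0) w * R1 q (b - 1) w (e 0)).det = b * b
    rw [Matrix.det_mul, R1_det, R1_det, h1, h1']
    ring
  have hσ : ∀ y : F, (y - 1) ^ q = y ^ q - 1 := by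
    intro y
    rw [← sig_apply hF, map_sub, map_one, sig_apply]
  refine ⟨Matrix.GeneralLinearGroup.mkOfDetNeZero G (by rw [hdet]; exact mul_ne_zero hb0 hb0), ?_, hdet, ?_, fun i => ?_⟩
  · rw [mem_GU_iff]
    intro u v
    show hh (G *ᵥ u) (G *ᵥ v) = _
    rw [hG, hG]
    simp only [hf_add_left, hf_add_right hF, hf_smul_left, hf_smul_right hF, h1, h1', h3, hT 0 0, mul_pow, hσ]
    rw [hf_conj hF v w, hf_conj hF v (e 0)]
    linear_combination (hh u w * (hh v (e 0)) ^ q + hh u (e 0) * (hh v w) ^ q) * hc1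
  · show G *ᵥ e 0 = _
    rw [hG, h1, hT 0 0]
    simp only [mul_zero, zero_smul, add_zero, mul_one, sub_smul, one_smul]
    abel
  · show G *ᵥ e i.succ = _
    rw [hG, h2 i, hT i.succ 0]
    simp

theorem inv_of_order (a : ↥(Cfsg.SU n F q)) (ha : orderOf a = 2) :
    IsInv (q := q) ((a : Matrix.SpecialLinearGroup (Fin n) F) : Matrix (Fin n) (Fin n) F) := by
  refine ⟨?_, a.2⟩
  have h0 : a ^ 2 = 1 := by rw [← ha]; exact pow_orderOf_eq_one a
  have h1 : a * a = 1 := by rw [← pow_two]; exact h0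
  have h2 := congrArg (fun z : ↥(Cfsg.SU n F q) => ((z : Matrix.SpecialLinearGroup (Fin n) F) : Matrix (Fin n) (Fin n) F)) h1
  exact h2

theorem main_conj (hF : Fintype.card F = q ^ 2) (a b : ↥(Cfsg.SU n F q)) (ha : orderOf a = 2) (hb : orderOf b = 2)
    (hr : (((a : Matrix.SpecialLinearGroup (Fin n) F) : Matrix (Fin n) (Fin n) F) - 1).rank =
      (((b : Matrix.SpecialLinearGroup (Fin n) F) : Matrix (Fin n) (Fin n) F) - 1).rank) : IsConj a b := by
  classical
  have hA := inv_of_order a ha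
  have hB := inv_of_order b hb
  set A : Matrix (Fin n) (Fin n) F := ((a : Matrix.SpecialLinearGroup (Fin n) F) : Matrix (Fin n) (Fin n) F) with hAdef
  set B : Matrix (Fin n) (Fin n) F := ((b : Matrix.SpecialLinearGroup (Fin n) F) : Matrix (Fin n) (Fin n) F) with hBdef
  obtain ⟨r, x, h1, h2⟩ := exists_frame hF hA
  obtain ⟨r', x', h1', h2'⟩ := exists_frame hF hB
  have hX : Frame hF A x := ⟨h1, h2⟩
  have hX' : Frame hF B x' := ⟨h1', h2'⟩
  rw [rank_eq hA hX, rank_eq hB hX'] at hr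
  subst hr
  have hq2 : Even q := by
    have h3 : Fintype.card F % 2 = 0 := FiniteField.even_card_of_char_two (ringChar.eq F 2)
    rw [hF, ← Nat.even_iff, Nat.even_pow] at h3
    exact h3.1
  rcases r with _ | k
  · exfalso
    have hAeq : A = 1 := by
      rw [Matrix.ext_iff_mulVec]
      intro v
      have h3 : (A - 1) *ᵥ v = 0 := by
        rw [closed hA hX v]
        simp
      rw [N_apply] at h3
      rw [Matrix.one_mulVec]
      calc A *ᵥ v = A *ᵥ v + v + v := by rw [add_assoc, vadd_self, add_zero]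
        _ = v := by rw [h3, zero_add]
    have h4 : a = 1 := Subtype.ext (Subtype.ext hAeq)
    rw [h4, orderOf_one] at ha
    omega
  obtain ⟨g, hgU, hgy⟩ := exists_gu_map hF (y_li hA hX) (y_li hB hX') (fun i j => y_ti hF hA i j) (fun i j => y_ti hF hB i j)
  have hgy' : ∀ i, (g : Matrix (Fin n) (Fin n) F) *ᵥ ((A - 1) *ᵥ x i) = (B - 1) *ᵥ x' i := hgy
  have hc := Cfsg.Agent.Lib.SUBasic.det_pow hF hgU
  set c := (g : Matrix (Fin n) (Fin n) F).det with hcdef
  have hc0 : c ≠ 0 := by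
    intro h0
    rw [h0, zero_pow (by omega)] at hc
    exact zero_ne_one hc
  obtain ⟨t, ht⟩ := hq2
  set d := c⁻¹ with hd
  have hd1 : d ^ (q + 1) = 1 := by rw [hd, inv_pow, hc, inv_one]
  set e := d ^ (t + 1) with he
  have he1 : e ^ (q + 1) = 1 := by
    rw [he, ← pow_mul, mul_comm, pow_mul, hd1, one_pow]
  have hee : e * e = d := by
    rw [he, ← pow_add]
    have : t + 1 + (t + 1) = (q + 1) + 1 := by omega
    rw [this, pow_succ, hd1, one_mul]
  obtain ⟨g₂, hg₂U, hg₂d, hg₂0, hg₂s⟩ := exists_scale' hF (k := k) (fun i => (B - 1) *ᵥ x' i) (y_li hB hX')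
    (fun i j => y_ti hF hB i j) e he1
  have hg₂0' : (g₂ : Matrix (Fin n) (Fin n) F) *ᵥ ((B - 1) *ᵥ x' 0) = e • ((B - 1) *ᵥ x' 0) := hg₂0
  have hg₂s' : ∀ i : Fin k, (g₂ : Matrix (Fin n) (Fin n) F) *ᵥ ((B - 1) *ᵥ x' i.succ) = (B - 1) *ᵥ x' i.succ := hg₂s
  have hp : ∀ u v, hh ((g : Matrix (Fin n) (Fin n) F) *ᵥ u) ((g : Matrix (Fin n) (Fin n) F) *ᵥ v) = hh u v := (mem_GU_iff g).1 hgU
  have hp₂ : ∀ u v, hh ((g₂ : Matrix (Fin n) (Fin n) F) *ᵥ u) ((g₂ : Matrix (Fin n) (Fin n) F) *ᵥ v) = hh u v := (mem_GU_iff g₂).1 hg₂U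
  have c1 : (g : Matrix (Fin n) (Fin n) F) * A = B * (g : Matrix (Fin n) (Fin n) F) := by
    refine comm_of_frames hA hB hX hX' _ hp ?_
    intro j v
    have e1 : hh ((g : Matrix (Fin n) (Fin n) F) *ᵥ v) ((B - 1) *ᵥ x' j) = hh v ((A - 1) *ᵥ x j) := by
      rw [← hgy' j]
      exact hp v _
    rw [e1, hgy' j]
  have c2 : (g₂ : Matrix (Fin n) (Fin n) F) * B = B * (g₂ : Matrix (Fin n) (Fin n) F) := by
    refine comm_of_frames hB hB hX' hX' _ hp₂ ?_
    intro j v
    refine Fin.cases ?_ (fun i => ?_) j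
    · have h5 := hp₂ v ((B - 1) *ᵥ x' 0)
      rw [hg₂0', hf_smul_right hF] at h5
      have hee1 : e * e ^ q = 1 := by rw [← pow_succ']; exact he1
      have h6 : hh ((g₂ : Matrix (Fin n) (Fin n) F) *ᵥ v) ((B - 1) *ᵥ x' 0) = e * hh v ((B - 1) *ᵥ x' 0) := by
        rw [← h5]
        linear_combination (- hh ((g₂ : Matrix (Fin n) (Fin n) F) *ᵥ v) ((B - 1) *ᵥ x' 0)) * hee1
      rw [h6, hg₂0', smul_smul, mul_comm]
    · have e1 : hh ((g₂ : Matrix (Fin n) (Fin n) F) *ᵥ v) ((B - 1) *ᵥ x' i.succ) = hh v ((B - 1) *ᵥ x' i.succ) := by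
        conv_lhs => rw [← hg₂s' i]
        exact hp₂ v _
      rw [e1, hg₂s' i]
  have hdet : ((g₂ : Matrix (Fin n) (Fin n) F) * (g : Matrix (Fin n) (Fin n) F)).det = 1 := by
    rw [Matrix.det_mul, hg₂d, ← hcdef, hee, hd]
    exact inv_mul_cancel₀ hc0
  let s' : Matrix.SpecialLinearGroup (Fin n) F := ⟨(g₂ : Matrix (Fin n) (Fin n) F) * (g : Matrix (Fin n) (Fin n) F), hdet⟩
  have hs : s' ∈ Cfsg.SU n F q := by
    intro u v
    show hh (((g₂ : Matrix (Fin n) (Fin n) F) * (g : Matrix (Fin n) (Fin n) F)) *ᵥ u) (((g₂ : Matrix (Fin n) (Fin n) F) * (g : Matrix (Fin n) (Fin n) F)) *ᵥ v) = hh u v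
    rw [← Matrix.mulVec_mulVec, ← Matrix.mulVec_mulVec, hp₂, hp]
  rw [isConj_iff]
  refine ⟨⟨s', hs⟩, ?_⟩
  rw [mul_inv_eq_iff_eq_mul]
  apply Subtype.ext
  apply Subtype.ext
  show ((g₂ : Matrix (Fin n) (Fin n) F) * (g : Matrix (Fin n) (Fin n) F)) * A = B * ((g₂ : Matrix (Fin n) (Fin n) F) * (g : Matrix (Fin n) (Fin n) F))
  rw [Matrix.mul_assoc, c1, ← Matrix.mul_assoc, c2, Matrix.mul_assoc]

end inv


/-- Conjugacy of involutions in the special unitary group SU_n(q), q even, n ≥ 3, realised over the field F with q² elements as the matrices of determinant 1 preserving the form Σ u_i v_i^q: for two elements of order 2 of SU_n(q) the following are equivalent — they are conjugate in SU_n(q); they are conjugate in SL_n(F); the matrices a − 1 and b − 1 have the same rank. -/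
theorem result {F : Type*} [Field F] [Fintype F] [CharP F 2] {n q : ℕ} (hF : Fintype.card F = q ^ 2) (hn : 3 ≤ n) (a b : ↥(Cfsg.SU n F q)) (ha : orderOf a = 2) (hb : orderOf b = 2) :
    (IsConj a b ↔ IsConj (a : Matrix.SpecialLinearGroup (Fin n) F) (b : Matrix.SpecialLinearGroup (Fin n) F)) ∧
    (IsConj a b ↔ (((a : Matrix.SpecialLinearGroup (Fin n) F) : Matrix (Fin n) (Fin n) F) - 1).rank = (((b : Matrix.SpecialLinearGroup (Fin n) F) : Matrix (Fin n) (Fin n) F) - 1).rank) := by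
  classical
  have key : IsConj (a : Matrix.SpecialLinearGroup (Fin n) F) (b : Matrix.SpecialLinearGroup (Fin n) F) ↔
      (((a : Matrix.SpecialLinearGroup (Fin n) F) : Matrix (Fin n) (Fin n) F) - 1).rank =
      (((b : Matrix.SpecialLinearGroup (Fin n) F) : Matrix (Fin n) (Fin n) F) - 1).rank :=
    Cfsg.Agent.S2162.result hn _ _ (by rw [← ha, Subgroup.orderOf_coe]) (by rw [← hb, Subgroup.orderOf_coe])
  have h1 : IsConj a b → IsConj (a : Matrix.SpecialLinearGroup (Fin n) F) (b : Matrix.SpecialLinearGroup (Fin n) F) :=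
    fun h => MonoidHom.map_isConj (Cfsg.SU n F q).subtype h
  have h2 := main_conj hF a b ha hb
  exact ⟨⟨h1, fun h => h2 (key.1 h)⟩, ⟨fun h => key.1 (h1 h), h2⟩⟩

end Cfsg.Agent.S2164
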