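import Cfsg.Statements.S2165
import Cfsg.Agent.S2163

set_option autoImplicit false
open Cfsg

namespace Cfsg.Agent.S2165

/-- In SU_n(q), q even, n ≥ 3 (matrices of determinant 1 over the field with q² elements preserving Σ u_i v_i^q): for every ℓ with 1 ≤ ℓ and 2ℓ ≤ n, the permutation matrix of the involution of {0, …, n−1} exchanging i and n − ℓ + i for each i < ℓ lies in SU_n(q), has order 2, and differs from the identity by a matrix of rank ℓ. So every rank between 1 and n/2 occurs for involutions of SU_n(q). -/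
theorem result {F : Type*} [Field F] [Fintype F] [CharP F 2] {n q : ℕ} (hF : Fintype.card F = q ^ 2) (hn : 3 ≤ n) (ℓ : ℕ) (h1 : 1 ≤ ℓ) (h2 : 2 * ℓ ≤ n) :
    ∃ a : ↥(Cfsg.SU n F q), (((a : Matrix.SpecialLinearGroup (Fin n) F) : Matrix (Fin n) (Fin n) F) = Matrix.of (fun i j : Fin n => if (j.val < ℓ ∧ i.val = j.val + (n - ℓ)) ∨ (i.val < ℓ ∧ j.val = i.val + (n - ℓ)) ∨ (i = j ∧ ℓ ≤ i.val ∧ i.val < n - ℓ) then (1 : F) else 0)) ∧ orderOf a = 2 ∧ ((((a : Matrix.SpecialLinearGroup (Fin n) F) : Matrix (Fin n) (Fin n) F)) - 1).rank = ℓ := by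
  classical
  let σf : Fin n → Fin n := fun i =>
    if h : i.val < ℓ then ⟨i.val + (n - ℓ), by omega⟩
    else if h' : n - ℓ ≤ i.val then ⟨i.val - (n - ℓ), by omega⟩ else i
  have hσ1 : ∀ (i : Fin n) (h : i.val < ℓ), (σf i).val = i.val + (n - ℓ) := by
    intro i h
    simp only [σf, dif_pos h]
  have hσ2 : ∀ (i : Fin n), ¬ i.val < ℓ → n - ℓ ≤ i.val → (σf i).val = i.val - (n - ℓ) := by
    intro i h h'
    simp only [σf, dif_neg h, dif_pos h']
  have hσ3 : ∀ (i : Fin n), ¬ i.val < ℓ → ¬ n - ℓ ≤ i.val → (σf i) = i := by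
    intro i h h'
    simp only [σf, dif_neg h, dif_neg h']
  have hσσ : ∀ i, σf (σf i) = i := by
    intro i
    by_cases h : i.val < ℓ
    · have h1 := hσ1 i h
      apply Fin.ext
      rw [hσ2 _ (by omega) (by omega), h1]
      omega
    · by_cases h' : n - ℓ ≤ i.val
      · have h1 := hσ2 i h h'
        apply Fin.ext
        rw [hσ1 _ (by omega), h1]
        omega
      · rw [hσ3 i h h', hσ3 i h h']
  let σ : Equiv.Perm (Fin n) := ⟨σf, σf, hσσ, hσσ⟩
  have hσapp : ∀ i, σ i = σf i := fun i => rfl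
  set A : Matrix (Fin n) (Fin n) F := Matrix.of (fun i j : Fin n => if (j.val < ℓ ∧ i.val = j.val + (n - ℓ)) ∨ (i.val < ℓ ∧ j.val = i.val + (n - ℓ)) ∨ (i = j ∧ ℓ ≤ i.val ∧ i.val < n - ℓ) then (1 : F) else 0) with hA
  have hAe : ∀ i j, A i j = if j = σ i then 1 else 0 := by
    intro i j
    simp only [hA, Matrix.of_apply, hσapp]
    congr 1
    apply propext
    constructor
    · rintro (⟨h1, h2⟩ | ⟨h1, h2⟩ | ⟨h1, h2, h3⟩)
      · have h4 : ¬ i.val < ℓ := by omega
        apply Fin.ext
        rw [hσ2 i h4 (by omega)]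
        omega
      · apply Fin.ext
        rw [hσ1 i h1]
        exact h2
      · subst h1
        rw [hσ3 i (by omega) (by omega)]
    · intro h
      subst h
      by_cases h1 : i.val < ℓ
      · right; left
        exact ⟨h1, hσ1 i h1⟩
      · by_cases h2 : n - ℓ ≤ i.val
        · left
          have h3 := hσ2 i h1 h2
          omega
        · right; right
          refine ⟨(hσ3 i h1 h2).symm, by omega, by omega⟩
  have hAv : ∀ (v : Fin n → F) i, (A.mulVec v) i = v (σ i) := by
    intro v i
    simp only [Matrix.mulVec, dotProduct, hAe, ite_mul, one_mul, zero_mul]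
    rw [Finset.sum_ite_eq']
    simp
  have hAA : A * A = 1 := by
    ext i k
    rw [Matrix.mul_apply]
    simp only [hAe, ite_mul, one_mul, zero_mul]
    rw [Finset.sum_ite_eq']
    simp only [Finset.mem_univ, if_true, Matrix.one_apply]
    have : σ (σ i) = i := hσσ i
    rw [this]
    simp [eq_comm]
  have hdet := Cfsg.Agent.S2163.det_one_of_sq A hAA
  let a0 : Matrix.SpecialLinearGroup (Fin n) F := ⟨A, hdet⟩
  have ha0 : a0 ∈ Cfsg.SU n F q := by
    intro u v
    show Cfsg.hermForm n F q (A.mulVec u) (A.mulVec v) = Cfsg.hermForm n F q u v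
    unfold Cfsg.hermForm
    simp only [hAv]
    exact Equiv.sum_comp σ (fun i => u i * v i ^ q)
  refine ⟨⟨a0, ha0⟩, rfl, ?_, ?_⟩
  · haveI : Fact (Nat.Prime 2) := ⟨Nat.prime_two⟩
    apply orderOf_eq_prime
    · have h5 : a0 * a0 = 1 := Subtype.ext hAA
      apply Subtype.ext
      show a0 ^ 2 = 1
      rw [pow_two]
      exact h5
    · intro h
      have h0 : A = 1 := congrArg (fun x : ↥(Cfsg.SU n F q) => ((x : Matrix.SpecialLinearGroup (Fin n) F) : Matrix (Fin n) (Fin n) F)) h
      have h4 := congrFun (congrFun h0 ⟨0, by omega⟩) ⟨0, by omega⟩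
      have h6 : (σ ⟨0, by omega⟩).val = 0 + (n - ℓ) := hσ1 ⟨0, by omega⟩ (by show 0 < ℓ; omega)
      rw [hAe] at h4
      rw [Matrix.one_apply_eq, if_neg] at h4
      · exact zero_ne_one h4
      · intro h7
        rw [← h7] at h6
        simp at h6
        omega
  · show (A - 1).rank = ℓ
    have hrv : ∀ (v : Fin n → F) i, ((A - 1).mulVec v) i = v (σ i) + v i := by
      intro v i
      rw [Matrix.sub_mulVec, Matrix.one_mulVec, Pi.sub_apply, hAv, CharTwo.sub_eq_add]
    let e : (Fin ℓ → F) →ₗ[F] (Fin n → F) :=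
      { toFun := fun w j => if h : j.val < ℓ then w ⟨j.val, h⟩ else 0
        map_add' := by
          intro x y
          ext j
          by_cases h : j.val < ℓ <;> simp [h]
        map_smul' := by
          intro c x
          ext j
          by_cases h : j.val < ℓ <;> simp [h] }
    have he : ∀ w (j : Fin n) (h : j.val < ℓ), e w j = w ⟨j.val, h⟩ := by
      intro w j h
      simp [e, h]
    have he0 : ∀ w (j : Fin n), ¬ j.val < ℓ → e w j = 0 := by
      intro w j h
      simp [e, h]
    apply Cfsg.Agent.S2163.rank_eq_aux (A - 1) e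
    · intro v
      refine ⟨fun j => v ⟨j.val, by omega⟩ + v (σ ⟨j.val, by omega⟩), ?_⟩
      ext i
      rw [hrv, hrv]
      by_cases h1 : i.val < ℓ
      · have h2 := hσ1 i h1
        rw [he0 _ (σ i) (by rw [hσapp]; omega), he _ i h1, zero_add]
        simp only [Fin.eta]
        exact add_comm _ _
      · by_cases h2 : n - ℓ ≤ i.val
        · have h3 := hσ2 i h1 h2
          have h4 : (σ i).val < ℓ := by
            rw [hσapp]
            omega
          rw [he0 _ i h1, add_zero, he _ (σ i) h4]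
          simp only [Fin.eta]
          have : σ (σ i) = i := hσσ i
          rw [this, add_comm]
        · have h3 : σ i = i := hσ3 i h1 h2
          rw [h3, he0 _ i h1, CharTwo.add_self_eq_zero, CharTwo.add_self_eq_zero]
    · intro w hw
      ext j
      have h1 := congrFun hw ⟨j.val, by omega⟩
      rw [hrv] at h1
      have h2 := hσ1 ⟨j.val, by omega⟩ j.2
      rw [he0 _ (σ _) (by rw [hσapp]; omega), he _ _ j.2, zero_add] at h1
      simpa using h1

end Cfsg.Agent.S2165
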