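import Cfsg.Statements.S2166
import Cfsg.Agent.Lib.SpInv

set_option autoImplicit false
open Cfsg

namespace Cfsg.Agent.S2166


open Matrix Cfsg.Agent.Lib.SympBasic Cfsg.Agent.Lib.SpInv

theorem card_V_conj {F : Type*} [Field F] {m : ℕ} (g a : ↥(Matrix.symplecticGroup (Fin m) F)) :
    Nat.card {v : Fin m ⊕ Fin m → F // Cfsg.sympForm m F v (Matrix.mulVec ((a : ↥(Matrix.symplecticGroup (Fin m) F)) : Matrix (Fin m ⊕ Fin m) (Fin m ⊕ Fin m) F) v) = 0} =
      Nat.card {v : Fin m ⊕ Fin m → F // Cfsg.sympForm m F v (Matrix.mulVec ((g * a * g⁻¹ : ↥(Matrix.symplecticGroup (Fin m) F)) : Matrix (Fin m ⊕ Fin m) (Fin m ⊕ Fin m) F) v) = 0} := by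
  set M : Matrix (Fin m ⊕ Fin m) (Fin m ⊕ Fin m) F := (g : Matrix (Fin m ⊕ Fin m) (Fin m ⊕ Fin m) F) with hM
  set Mi : Matrix (Fin m ⊕ Fin m) (Fin m ⊕ Fin m) F := ((g⁻¹ : ↥(Matrix.symplecticGroup (Fin m) F)) : Matrix (Fin m ⊕ Fin m) (Fin m ⊕ Fin m) F) with hMi
  have h1 : M * Mi = 1 := congrArg Subtype.val (mul_inv_cancel g)
  have h2 : Mi * M = 1 := congrArg Subtype.val (inv_mul_cancel g)
  have hc : ((g * a * g⁻¹ : ↥(Matrix.symplecticGroup (Fin m) F)) : Matrix (Fin m ⊕ Fin m) (Fin m ⊕ Fin m) F) = M * (a : Matrix (Fin m ⊕ Fin m) (Fin m ⊕ Fin m) F) * Mi := rfl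
  have hp : ∀ u v, Cfsg.sympForm m F (M *ᵥ u) (M *ᵥ v) = Cfsg.sympForm m F u v := (preserves_iff_mem _).2 g.2
  have e1 : ∀ v, Mi *ᵥ (M *ᵥ v) = v := fun v => by rw [Matrix.mulVec_mulVec, h2, Matrix.one_mulVec]
  have e2 : ∀ v, M *ᵥ (Mi *ᵥ v) = v := fun v => by rw [Matrix.mulVec_mulVec, h1, Matrix.one_mulVec]
  rw [hc]
  have e3 : ∀ v, (M * (a : Matrix (Fin m ⊕ Fin m) (Fin m ⊕ Fin m) F) * Mi) *ᵥ v = M *ᵥ ((a : Matrix (Fin m ⊕ Fin m) (Fin m ⊕ Fin m) F) *ᵥ (Mi *ᵥ v)) := by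
    intro v
    rw [Matrix.mulVec_mulVec, Matrix.mulVec_mulVec, Matrix.mul_assoc]
  refine Nat.card_congr ⟨fun v => ⟨M *ᵥ v.1, ?_⟩, fun v => ⟨Mi *ᵥ v.1, ?_⟩, ?_, ?_⟩
  · rw [e3, e1, hp]
    exact v.2
  · have := v.2
    rw [e3] at this
    rw [← hp, e2]
    exact this
  · intro v
    exact Subtype.ext (e1 _)
  · intro v
    exact Subtype.ext (e2 _)


/-- Conjugacy of involutions in the symplectic group Sp_{2m}(F), F a finite field of characteristic two, m ≥ 2 (Sp taken as the matrices A with A J Aᵀ = J, acting on column vectors, with the alternating form f(u, v) = u ⬝ (J v)). For an involution t write V(t) for the set of vectors v with f(v, t v) = 0 (a subspace). Two involutions a, b are conjugate in Sp_{2m}(F) exactly when a − 1 and b − 1 have the same rank and, in case that rank is even, V(a) and V(b) have the same number of elements. -/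
theorem result {F : Type*} [Field F] [Fintype F] [CharP F 2] {m : ℕ} (hm : 2 ≤ m) (a b : ↥(Matrix.symplecticGroup (Fin m) F)) (ha : orderOf a = 2) (hb : orderOf b = 2) :
    IsConj a b ↔ ((((a : ↥(Matrix.symplecticGroup (Fin m) F)) : Matrix (Fin m ⊕ Fin m) (Fin m ⊕ Fin m) F) - 1).rank = (((b : ↥(Matrix.symplecticGroup (Fin m) F)) : Matrix (Fin m ⊕ Fin m) (Fin m ⊕ Fin m) F) - 1).rank ∧
      (Even (((a : ↥(Matrix.symplecticGroup (Fin m) F)) : Matrix (Fin m ⊕ Fin m) (Fin m ⊕ Fin m) F) - 1).rank → Nat.card {v : Fin m ⊕ Fin m → F // Cfsg.sympForm m F v (Matrix.mulVec ((a : ↥(Matrix.symplecticGroup (Fin m) F)) : Matrix (Fin m ⊕ Fin m) (Fin m ⊕ Fin m) F) v) = 0} = Nat.card {v : Fin m ⊕ Fin m → F // Cfsg.sympForm m F v (Matrix.mulVec ((b : ↥(Matrix.symplecticGroup (Fin m) F)) : Matrix (Fin m ⊕ Fin m) (Fin m ⊕ Fin m) F) v) = 0})) := by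
  classical
  have hA := isInv_of_order a ha
  have hB := isInv_of_order b hb
  have hcardV : Nat.card (Fin m ⊕ Fin m → F) = Nat.card (Fin m ⊕ Fin m → F) := rfl
  have key : ∀ c : ↥(Matrix.symplecticGroup (Fin m) F),
      Nat.card {v : Fin m ⊕ Fin m → F // Cfsg.sympForm m F v (Matrix.mulVec (c : Matrix (Fin m ⊕ Fin m) (Fin m ⊕ Fin m) F) v) = 0} =
        Nat.card (Fin m ⊕ Fin m → F) ↔ ∀ v, psi (c : Matrix (Fin m ⊕ Fin m) (Fin m ⊕ Fin m) F) v v = 0 := by
    intro c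
    constructor
    · intro h v
      have hb : Function.Bijective (Subtype.val : {v : Fin m ⊕ Fin m → F // Cfsg.sympForm m F v (Matrix.mulVec (c : Matrix (Fin m ⊕ Fin m) (Fin m ⊕ Fin m) F) v) = 0} → _) :=
        Function.Injective.bijective_of_nat_card_le Subtype.val_injective h.ge
      obtain ⟨x, hx⟩ := hb.2 v
      rw [psi_self, ← hx]
      exact x.2
    · intro h
      rw [← Nat.card_univ (α := Fin m ⊕ Fin m → F)]
      refine Nat.card_congr (Equiv.subtypeEquivRight ?_)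
      intro v
      simp only [Set.mem_univ, iff_true]
      rw [← psi_self]
      exact h v
  constructor
  · intro hc
    refine ⟨rank_of_conj hc, fun _ => ?_⟩
    obtain ⟨g, rfl⟩ := isConj_iff.1 hc
    exact card_V_conj g a
  · rintro ⟨hr, hV⟩
    apply isConj_of_inv hA hB hr
    by_cases he : Even (((a : ↥(Matrix.symplecticGroup (Fin m) F)) : Matrix (Fin m ⊕ Fin m) (Fin m ⊕ Fin m) F) - 1).rank
    · rw [← key a, ← key b, hV he]
    · have hev : ∀ c : ↥(Matrix.symplecticGroup (Fin m) F), IsInv (c : Matrix (Fin m ⊕ Fin m) (Fin m ⊕ Fin m) F) →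
          (∀ v, psi (c : Matrix (Fin m ⊕ Fin m) (Fin m ⊕ Fin m) F) v v = 0) →
          Even ((c : Matrix (Fin m ⊕ Fin m) (Fin m ⊕ Fin m) F) - 1).rank := by
        intro c hc h
        obtain ⟨s, x, hx⟩ := frame_alt hc h
        rw [rank_eq hc hx]
        exact ⟨s, by simp⟩
      constructor
      · intro h
        exact absurd (hev a hA h) he
      · intro h
        exact absurd (hr ▸ hev b hB h) he

end Cfsg.Agent.S2166
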