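import Cfsg.Statements.S2172
import Cfsg.Agent.Lib.OrthInv3

set_option autoImplicit false
open Cfsg

namespace Cfsg.Agent.S2172

/-- Splitting of involution classes from O to Ω for the hyperbolic quadratic form Q = Σ x_i y_i in dimension 2m over a finite field F of characteristic two, m ≥ 4. Let t, s be involutions of the commutator subgroup Ω that are conjugate in the full isometry group O. If it is not the case that t − 1 has rank m and Q(v + t v) = 0 for every vector v, then t and s are conjugate by an element of Ω. If t − 1 has rank m and Q(v + t v) = 0 for all v, then t and s are conjugate by an element of Ω exactly when the intersection of the images of t − 1 and s − 1 has even dimension (so the class of t in O meets at most two classes of Ω). -/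
theorem result {F : Type*} [Field F] [Fintype F] [CharP F 2] {m : ℕ} (hm : 4 ≤ m) (t s : ↥(Cfsg.isometryGroup F (Cfsg.quadFormPlus m F))) (ht : orderOf t = 2) (hs : orderOf s = 2) (htO : t ∈ Cfsg.Omega F (Cfsg.quadFormPlus m F)) (hsO : s ∈ Cfsg.Omega F (Cfsg.quadFormPlus m F)) (hconj : IsConj t s) :
    (¬ (((((t : ↥(Cfsg.isometryGroup F (Cfsg.quadFormPlus m F))) : GL (Fin m ⊕ Fin m) F) : Matrix (Fin m ⊕ Fin m) (Fin m ⊕ Fin m) F) - 1).rank = m ∧ ∀ v : Fin m ⊕ Fin m → F, Cfsg.quadFormPlus m F (v + Matrix.mulVec (((t : ↥(Cfsg.isometryGroup F (Cfsg.quadFormPlus m F))) : GL (Fin m ⊕ Fin m) F) : Matrix (Fin m ⊕ Fin m) (Fin m ⊕ Fin m) F) v) = 0) →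
      ∃ g ∈ Cfsg.Omega F (Cfsg.quadFormPlus m F), g * t * g⁻¹ = s) ∧
    ((((((t : ↥(Cfsg.isometryGroup F (Cfsg.quadFormPlus m F))) : GL (Fin m ⊕ Fin m) F) : Matrix (Fin m ⊕ Fin m) (Fin m ⊕ Fin m) F) - 1).rank = m ∧ ∀ v : Fin m ⊕ Fin m → F, Cfsg.quadFormPlus m F (v + Matrix.mulVec (((t : ↥(Cfsg.isometryGroup F (Cfsg.quadFormPlus m F))) : GL (Fin m ⊕ Fin m) F) : Matrix (Fin m ⊕ Fin m) (Fin m ⊕ Fin m) F) v) = 0) →
      ((∃ g ∈ Cfsg.Omega F (Cfsg.quadFormPlus m F), g * t * g⁻¹ = s) ↔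
        Even (Module.finrank F ↥(LinearMap.range (Matrix.toLin' ((((t : ↥(Cfsg.isometryGroup F (Cfsg.quadFormPlus m F))) : GL (Fin m ⊕ Fin m) F) : Matrix (Fin m ⊕ Fin m) (Fin m ⊕ Fin m) F) - 1)) ⊓ LinearMap.range (Matrix.toLin' ((((s : ↥(Cfsg.isometryGroup F (Cfsg.quadFormPlus m F))) : GL (Fin m ⊕ Fin m) F) : Matrix (Fin m ⊕ Fin m) (Fin m ⊕ Fin m) F) - 1)))))) := by
  classical
  have hQ := Cfsg.Agent.Lib.OrthStd2.quadFormPlus_nondeg (F := F) (m := m)
  have hcard : Fintype.card (Fin m ⊕ Fin m) = 2 * m := by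
    simp only [Fintype.card_sum, Fintype.card_fin]
    omega
  have hTT := Cfsg.Agent.Lib.OrthInv3.mul_self_of_order t ht
  have hr := Cfsg.Agent.Lib.OrthInv3.two_rank_le _ hTT
  rw [hcard] at hr
  have hn : 1 ≤ Fintype.card (Fin m ⊕ Fin m) := by rw [hcard]; omega
  have hh : Fintype.card F ≠ 2 ∨ Fintype.card (Fin m ⊕ Fin m) ≠ 4 := Or.inr (by rw [hcard]; omega)
  set T : Matrix (Fin m ⊕ Fin m) (Fin m ⊕ Fin m) F := (((t : ↥(Cfsg.isometryGroup F (Cfsg.quadFormPlus m F))) : GL (Fin m ⊕ Fin m) F) : Matrix (Fin m ⊕ Fin m) (Fin m ⊕ Fin m) F) with hTdef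
  set S : Matrix (Fin m ⊕ Fin m) (Fin m ⊕ Fin m) F := (((s : ↥(Cfsg.isometryGroup F (Cfsg.quadFormPlus m F))) : GL (Fin m ⊕ Fin m) F) : Matrix (Fin m ⊕ Fin m) (Fin m ⊕ Fin m) F) with hSdef
  have hTQ : ∀ v, Cfsg.quadFormPlus m F (Matrix.mulVec T v) = Cfsg.quadFormPlus m F v := (Cfsg.Agent.Lib.OrthE.mem_O_iff _).1 t.2
  have hfix : ∀ v : Fin m ⊕ Fin m → F, Matrix.mulVec T (v + Matrix.mulVec T v) = v + Matrix.mulVec T v := by
    intro v
    rw [Matrix.mulVec_add, Matrix.mulVec_mulVec, hTT, Matrix.one_mulVec, add_comm]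
  refine ⟨?_, ?_⟩
  · intro hnot
    have hex : ∃ v, Matrix.mulVec T v = v ∧ Cfsg.quadFormPlus m F v ≠ 0 := by
      by_cases hrm : (T - 1).rank = m
      · have : ¬ ∀ v : Fin m ⊕ Fin m → F, Cfsg.quadFormPlus m F (v + Matrix.mulVec T v) = 0 := fun h' => hnot ⟨hrm, h'⟩
        push Not at this
        obtain ⟨v, hv⟩ := this
        exact ⟨_, hfix v, hv⟩
      · exact Cfsg.Agent.Lib.OrthInv3.exists_fix_of_rank T (d := m) Cfsg.Agent.Lib.OrthInv3.ts_plus_le (by rw [hcard]; omega)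
    obtain ⟨v, hv, hQv⟩ := hex
    exact Cfsg.Agent.Lib.OrthInv3.omega_conj_of_refl hQ hn hh t s hQv hv hconj
  · rintro ⟨hrm, hsing⟩
    have hmem := (Cfsg.Agent.Lib.OrthInv2.mem_omega_iff hQ hn hh t).1 htO
    rw [← hTdef, hrm] at hmem
    set Wt : Submodule F (Fin m ⊕ Fin m → F) := LinearMap.range (T - 1).mulVecLin with hWt
    set Ws : Submodule F (Fin m ⊕ Fin m → F) := LinearMap.range (S - 1).mulVecLin with hWs
    have hWtm : Module.finrank F Wt = m := hrm
    have h2 : ∀ x : Fin m ⊕ Fin m → F, x - Matrix.mulVec T x = x + Matrix.mulVec T x := by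
      intro x
      ext i
      simp only [Pi.sub_apply, Pi.add_apply]
      exact CharTwo.sub_eq_add _ _
    have hWts : ∀ w ∈ Wt, Cfsg.quadFormPlus m F w = 0 := by
      rintro _ ⟨u, rfl⟩
      have e : (T - 1).mulVecLin u = u + Matrix.mulVec T u := by
        rw [Matrix.mulVecLin_apply, Matrix.sub_mulVec, Matrix.one_mulVec, add_comm]
        ext i
        simp only [Pi.sub_apply, Pi.add_apply]
        exact CharTwo.sub_eq_add _ _
      rw [e]
      exact hsing u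
    have hkey : ∀ c : ↥(Cfsg.isometryGroup F (Cfsg.quadFormPlus m F)), c * t * c⁻¹ = s →
        Cfsg.Agent.Lib.OrthFam.gm (c : GL (Fin m ⊕ Fin m) F) Wt = Ws := by
      intro c hc
      have hc' : ((c : GL (Fin m ⊕ Fin m) F) : Matrix (Fin m ⊕ Fin m) (Fin m ⊕ Fin m) F) * T = S * ((c : GL (Fin m ⊕ Fin m) F) : Matrix (Fin m ⊕ Fin m) (Fin m ⊕ Fin m) F) := by
        have : c * t = s * c := by rw [← hc, inv_mul_cancel_right]
        have := congrArg (fun x : ↥(Cfsg.isometryGroup F (Cfsg.quadFormPlus m F)) => (((x : GL (Fin m ⊕ Fin m) F) : Matrix (Fin m ⊕ Fin m) (Fin m ⊕ Fin m) F))) this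
        simpa using this
      have hle : Cfsg.Agent.Lib.OrthFam.gm (c : GL (Fin m ⊕ Fin m) F) Wt ≤ Ws := by
        rintro _ ⟨_, ⟨u, rfl⟩, rfl⟩
        refine ⟨Matrix.mulVec ((c : GL (Fin m ⊕ Fin m) F) : Matrix (Fin m ⊕ Fin m) (Fin m ⊕ Fin m) F) u, ?_⟩
        show Matrix.mulVec (S - 1) _ = Matrix.mulVec _ (Matrix.mulVec (T - 1) u)
        rw [Matrix.mulVec_mulVec, Matrix.mulVec_mulVec, Matrix.sub_mul, Matrix.mul_sub, hc', one_mul, mul_one]
      have hfS : Module.finrank F Ws = m := by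
        have hrk : (S - 1).rank = (T - 1).rank := by
          have h3 : S - 1 = ((c : GL (Fin m ⊕ Fin m) F) : Matrix (Fin m ⊕ Fin m) (Fin m ⊕ Fin m) F) * (T - 1) * ((c⁻¹ : GL (Fin m ⊕ Fin m) F) : Matrix (Fin m ⊕ Fin m) (Fin m ⊕ Fin m) F) := by
            rw [Matrix.mul_sub, hc', Matrix.sub_mul, mul_one, Matrix.mul_assoc, ← Units.val_mul]
            simp
          rw [h3, Matrix.rank_mul_eq_left_of_isUnit_det _ _ (by
              rw [← Matrix.isUnit_iff_isUnit_det]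
              exact (c⁻¹ : GL (Fin m ⊕ Fin m) F).isUnit),
            Matrix.rank_mul_eq_right_of_isUnit_det _ _ (by
              rw [← Matrix.isUnit_iff_isUnit_det]
              exact (c : GL (Fin m ⊕ Fin m) F).isUnit)]
        show (S - 1).rank = m
        rw [hrk, hrm]
      exact Submodule.eq_of_le_of_finrank_eq hle (by rw [Cfsg.Agent.Lib.OrthFam.finrank_gm, hWtm, hfS])
    have hiff : ∀ c : ↥(Cfsg.isometryGroup F (Cfsg.quadFormPlus m F)), c * t * c⁻¹ = s →
        (Even (Module.finrank F ↥(Wt ⊓ Ws)) ↔ c ∈ Cfsg.Omega F (Cfsg.quadFormPlus m F)) := by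
      intro c hc
      have h3 := Cfsg.Agent.Lib.OrthInv3.even_iff_plus (m := m) (by omega) (Or.inr (by omega)) Wt hWts hWtm c
      rw [hkey c hc] at h3
      rw [← h3]
      have hle : Module.finrank F ↥(Wt ⊓ Ws) ≤ m := by
        have := Submodule.finrank_mono (inf_le_left : Wt ⊓ Ws ≤ Wt)
        omega
      rw [Nat.even_sub hle]
      simp [hmem]
    have e1 : LinearMap.range (Matrix.toLin' (T - 1)) = Wt := by
      rw [Matrix.toLin'_apply']
    have e2 : LinearMap.range (Matrix.toLin' (S - 1)) = Ws := by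
      rw [Matrix.toLin'_apply']
    rw [e1, e2]
    constructor
    · rintro ⟨g, hg, hgt⟩
      exact (hiff g hgt).2 hg
    · intro he
      obtain ⟨c, hc⟩ := isConj_iff.1 hconj
      exact ⟨c, (hiff c hc).1 he, hc⟩

end Cfsg.Agent.S2172
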