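import Cfsg.Statements.S2173
import Cfsg.Agent.Lib.OrthInv3

set_option autoImplicit false
open Cfsg

namespace Cfsg.Agent.S2173

/-- For the quadratic form Σ x_i y_i + (z₁² + c z₁ z₂ + d z₂²) in dimension 2m with anisotropic binary part over a finite field F of characteristic two, m ≥ 4 (minus type): two involutions of the commutator subgroup Ω that are conjugate in the full isometry group O are conjugate by an element of Ω (no class of involutions of O inside Ω splits). -/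
theorem result {F : Type*} [Field F] [Fintype F] [CharP F 2] {m : ℕ} (hm : 4 ≤ m) (c d : F) (hcd : ∀ z₁ z₂ : F, z₁ ^ 2 + c * z₁ * z₂ + d * z₂ ^ 2 = 0 → z₁ = 0 ∧ z₂ = 0) (t s : ↥(Cfsg.isometryGroup F (Cfsg.quadFormMinus (m - 1) F c d))) (ht : orderOf t = 2) (hs : orderOf s = 2) (htO : t ∈ Cfsg.Omega F (Cfsg.quadFormMinus (m - 1) F c d)) (hsO : s ∈ Cfsg.Omega F (Cfsg.quadFormMinus (m - 1) F c d)) (hconj : IsConj t s) :
    ∃ g ∈ Cfsg.Omega F (Cfsg.quadFormMinus (m - 1) F c d), g * t * g⁻¹ = s := by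
  classical
  have hQ := Cfsg.Agent.Lib.OrthStd2.quadFormMinus_nondeg (m := m - 1) (a := c) (b := d) hcd
  have hcard : Fintype.card ((Fin (m - 1) ⊕ Fin (m - 1)) ⊕ Fin 2) = 2 * m := by
    simp only [Fintype.card_sum, Fintype.card_fin]
    omega
  have hTT := Cfsg.Agent.Lib.OrthInv3.mul_self_of_order t ht
  have hr := Cfsg.Agent.Lib.OrthInv3.two_rank_le _ hTT
  rw [hcard] at hr
  obtain ⟨v, hv, hQv⟩ := Cfsg.Agent.Lib.OrthInv3.exists_fix_of_rank (Q := Cfsg.quadFormMinus (m - 1) F c d)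
    (((t : ↥(Cfsg.isometryGroup F (Cfsg.quadFormMinus (m - 1) F c d))) : GL ((Fin (m - 1) ⊕ Fin (m - 1)) ⊕ Fin 2) F) : Matrix ((Fin (m - 1) ⊕ Fin (m - 1)) ⊕ Fin 2) ((Fin (m - 1) ⊕ Fin (m - 1)) ⊕ Fin 2) F)
    (d := m - 1) (Cfsg.Agent.Lib.OrthInv3.ts_minus_le hcd) (by rw [hcard]; omega)
  exact Cfsg.Agent.Lib.OrthInv3.omega_conj_of_refl hQ (by rw [hcard]; omega) (Or.inr (by rw [hcard]; omega)) t s hQv hv hconj

end Cfsg.Agent.S2173
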