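import Cfsg.Statements.S2231
import Cfsg.Agent.Lib.SL2Gen
import Cfsg.Agent.Lib.H1PSL2

set_option autoImplicit false
open Cfsg

namespace Cfsg.Agent.S2231


section gen

variable {G G' : Type*} [Group G] [Group G']

/-- Any two elements of a Sylow subgroup commute. -/
def PComm (p : ℕ) [Fact p.Prime] (G : Type*) [Group G] : Prop :=
  ∀ P : Sylow p G, ∀ x ∈ (P : Subgroup G), ∀ y ∈ (P : Subgroup G), x * y = y * x

theorem pcomm_of_surj {p : ℕ} [Fact p.Prime] [Finite G] (f : G →* G') (hf : Function.Surjective f)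
    (h : PComm p G) : PComm p G' := by
  intro P x hx y hy
  obtain ⟨S, rfl⟩ := Sylow.mapSurjective_surjective hf p P
  rw [Sylow.coe_mapSurjective] at hx hy
  obtain ⟨a, ha, rfl⟩ := hx
  obtain ⟨b, hb, rfl⟩ := hy
  rw [← map_mul, ← map_mul, h S a ha b hb]

theorem pcomm_subgroup {p : ℕ} [Fact p.Prime] [Finite G] (K : Subgroup G) (h : PComm p G) : PComm p K := by
  intro P x hx y hy
  have h1 : IsPGroup p ((P : Subgroup K).map K.subtype) := P.isPGroup'.map K.subtype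
  obtain ⟨T, hT⟩ := h1.exists_le_sylow
  apply Subtype.ext
  exact h T _ (hT ⟨x, hx, rfl⟩) _ (hT ⟨y, hy, rfl⟩)

end gen

section heis

open Matrix

variable (p : ℕ) [Fact p.Prime]

abbrev SL3 := Matrix.SpecialLinearGroup (Fin 3) (ZMod p)

/-- The upper unitriangular group. -/
def T : Subgroup (SL3 p) where
  carrier := {M | M.1 0 0 = 1 ∧ M.1 1 1 = 1 ∧ M.1 2 2 = 1 ∧ M.1 1 0 = 0 ∧ M.1 2 0 = 0 ∧ M.1 2 1 = 0}
  mul_mem' := by
    rintro a b ⟨a1, a2, a3, a4, a5, a6⟩ ⟨b1, b2, b3, b4, b5, b6⟩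
    simp only [Set.mem_setOf_eq, Matrix.SpecialLinearGroup.coe_mul, Matrix.mul_apply, Fin.sum_univ_three]
    simp [a1, a2, a3, a4, a5, a6, b1, b2, b3, b4, b5, b6]
  one_mem' := by simp
  inv_mem' := by
    rintro a ⟨a1, a2, a3, a4, a5, a6⟩
    simp only [Set.mem_setOf_eq, Matrix.SpecialLinearGroup.coe_inv, Matrix.adjugate_fin_three, Matrix.of_apply,
      Matrix.cons_val', Matrix.cons_val_zero, Matrix.cons_val_one, Matrix.cons_val]
    simp [a1, a2, a3, a4, a5, a6]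

theorem T_pow (g : SL3 p) (hg : g ∈ T p) : g ^ (p ^ 2) = 1 := by
  obtain ⟨a1, a2, a3, a4, a5, a6⟩ := hg
  apply Subtype.ext
  rw [Matrix.SpecialLinearGroup.coe_pow, Matrix.SpecialLinearGroup.coe_one]
  set N : Matrix (Fin 3) (Fin 3) (ZMod p) := g.1 - 1 with hN
  have hg1 : g.1 = 1 + N := by rw [hN]; abel
  have hN3 : N ^ 3 = 0 := by
    have e00 : N 0 0 = 0 := by simp [hN, a1]
    have e11 : N 1 1 = 0 := by simp [hN, a2]
    have e22 : N 2 2 = 0 := by simp [hN, a3]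
    have e10 : N 1 0 = 0 := by simp [hN, a4]
    have e20 : N 2 0 = 0 := by simp [hN, a5]
    have e21 : N 2 1 = 0 := by simp [hN, a6]
    rw [pow_succ, pow_two]
    ext i j
    fin_cases i <;> fin_cases j <;>
      simp [Matrix.mul_apply, Fin.sum_univ_three, e00, e11, e22, e10, e20, e21]
  have hN9 : N ^ (p ^ 2) = 0 := by
    have h2 : 2 ≤ p := (Fact.out : p.Prime).two_le
    have : 3 ≤ p ^ 2 := by nlinarith
    exact pow_eq_zero_of_le this hN3
  rw [hg1]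
  have hc : Commute (1 : Matrix (Fin 3) (Fin 3) (ZMod p)) N := Commute.one_left N
  rw [add_pow_char_pow_of_commute p 2 hc] 
  simp [hN9]

theorem T_pgroup : IsPGroup p (T p) := by
  rintro ⟨g, hg⟩
  refine ⟨2, ?_⟩
  apply Subtype.ext
  simpa using T_pow p g hg

/-- The first generator. -/
def A : SL3 p := ⟨!![1, 1, 0; 0, 1, 0; 0, 0, 1], by simp [Matrix.det_fin_three]⟩
/-- The second generator. -/
def B : SL3 p := ⟨!![1, 0, 0; 0, 1, 1; 0, 0, 1], by simp [Matrix.det_fin_three]⟩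

theorem A_val : (A p).1 = !![1, 1, 0; 0, 1, 0; 0, 0, 1] := rfl
theorem B_val : (B p).1 = !![1, 0, 0; 0, 1, 1; 0, 0, 1] := rfl

theorem A_qd : A p ∈ Cfsg.qd p := Subgroup.subset_closure (by
  simp only [Set.mem_setOf_eq, A_val]; simp)
theorem B_qd : B p ∈ Cfsg.qd p := Subgroup.subset_closure (by
  simp only [Set.mem_setOf_eq, B_val]; simp)
theorem A_T : A p ∈ T p := by
  show _ ∧ _ ∧ _ ∧ _ ∧ _ ∧ _
  simp only [A_val]; simp
theorem B_T : B p ∈ T p := by
  show _ ∧ _ ∧ _ ∧ _ ∧ _ ∧ _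
  simp only [B_val]; simp

theorem AB_ne : A p * B p ≠ B p * A p := by
  intro h
  have h1 := congrArg (fun g : SL3 p => g.1 0 2) h
  simp only [Matrix.SpecialLinearGroup.coe_mul, A_val, B_val] at h1
  simp [Matrix.mul_apply, Fin.sum_univ_three] at h1

theorem not_pcomm : ¬ PComm p (Cfsg.qd p) := by
  intro h
  have h1 : IsPGroup p ((T p).subgroupOf (Cfsg.qd p)) :=
    (T_pgroup p).comap_of_injective (Cfsg.qd p).subtype Subtype.val_injective
  obtain ⟨S, hS⟩ := h1.exists_le_sylow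
  have h2 := h S ⟨A p, A_qd p⟩ (hS (by simpa [Subgroup.mem_subgroupOf] using A_T p))
    ⟨B p, B_qd p⟩ (hS (by simpa [Subgroup.mem_subgroupOf] using B_T p))
  exact AB_ne p (congrArg Subtype.val h2)

end heis

theorem sl2_pcomm {F : Type*} [Field F] [Fintype F] (p : ℕ) [Fact p.Prime] [CharP F p] :
    PComm p (Cfsg.Agent.Lib.SL2Gen.SL2 F) := by
  intro P x hx y hy
  obtain ⟨g, rfl⟩ := Cfsg.Agent.Lib.SL2Gen.exists_conj p P
  rw [Cfsg.Agent.Lib.SL2Gen.mem_smul_uSyl] at hx hy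
  obtain ⟨a, rfl⟩ := hx
  obtain ⟨b, rfl⟩ := hy
  have h : Cfsg.Agent.Lib.SL2Gen.us a * Cfsg.Agent.Lib.SL2Gen.us b =
      Cfsg.Agent.Lib.SL2Gen.us b * Cfsg.Agent.Lib.SL2Gen.us a := by
    have e : ∀ c : F, (Cfsg.Agent.Lib.SL2Gen.us c).1 = !![1, c; 0, 1] := fun _ => rfl
    apply Cfsg.Agent.Lib.SL2Gen.sl2_ext <;>
      simp [Cfsg.Agent.Lib.SL2Gen.mul_val, e, add_comm]
  calc g * Cfsg.Agent.Lib.SL2Gen.us a * g⁻¹ * (g * Cfsg.Agent.Lib.SL2Gen.us b * g⁻¹)
      = g * (Cfsg.Agent.Lib.SL2Gen.us a * Cfsg.Agent.Lib.SL2Gen.us b) * g⁻¹ := by group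
    _ = g * (Cfsg.Agent.Lib.SL2Gen.us b * Cfsg.Agent.Lib.SL2Gen.us a) * g⁻¹ := by rw [h]
    _ = _ := by group


/-- Let p be an odd prime and K a finite field of characteristic p. Then Qd(p) (the natural semidirect product of an elementary abelian group of order p² by SL₂(p)) is not involved in the projective special linear group PSL₂(K). -/
theorem result {p : ℕ} [Fact p.Prime] (hp : p ≠ 2) {K : Type*} [Field K] [Fintype K] [CharP K p] : ¬ Cfsg.Involves ↥(Cfsg.qd p) (Matrix.ProjectiveSpecialLinearGroup (Fin 2) K) := by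
  rintro ⟨H, R, hR, ⟨e⟩⟩
  have h1 : PComm p (Matrix.ProjectiveSpecialLinearGroup (Fin 2) K) :=
    pcomm_of_surj Cfsg.Agent.Lib.H1PSL2.pi Cfsg.Agent.Lib.H1PSL2.pi_surj (sl2_pcomm p)
  have h2 : PComm p H := pcomm_subgroup H h1
  have h3 : PComm p (H ⧸ R.subgroupOf H) := pcomm_of_surj (QuotientGroup.mk' _) (QuotientGroup.mk'_surjective _) h2
  exact not_pcomm p (pcomm_of_surj e.toMonoidHom e.surjective h3)

end Cfsg.Agent.S2231
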