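import Cfsg.Statements.S2270
import Cfsg.Agent.Lib.H1Fusion

set_option autoImplicit false
open Cfsg

namespace Cfsg.Agent.S2270

/-- Let n ≥ 3, p an odd prime, and P an abelian Sylow p-subgroup of the symmetric group S_n (with p dividing n!, so that P ≠ 1). Then N(P)/C(P) has even order. -/
theorem result (n : ℕ) (hn : 3 ≤ n) {p : ℕ} [Fact p.Prime] (hp : p ≠ 2) (hpn : p ≤ n)
    (P : Sylow p (Equiv.Perm (Fin n))) (hP : IsMulCommutative (P : Subgroup (Equiv.Perm (Fin n)))) :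
    2 ∣ ((Subgroup.centralizer ((P : Subgroup (Equiv.Perm (Fin n))) : Set (Equiv.Perm (Fin n)))).subgroupOf (Subgroup.normalizer ((P : Subgroup (Equiv.Perm (Fin n))) : Set (Equiv.Perm (Fin n))))).index := by
  classical
  have hpcard : p ∣ Nat.card (Equiv.Perm (Fin n)) := by
    rw [Nat.card_eq_fintype_card, Fintype.card_perm, Fintype.card_fin]
    exact (Fact.out : p.Prime).dvd_factorial.mpr hpn
  have hne : (P : Subgroup (Equiv.Perm (Fin n))) ≠ ⊥ := P.ne_bot_of_dvd_card hpcard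
  obtain ⟨x, hxP, hx1⟩ : ∃ x ∈ (P : Subgroup (Equiv.Perm (Fin n))), x ≠ 1 :=
    (Subgroup.bot_or_exists_ne_one _).resolve_left hne
  have hconj : IsConj x x⁻¹ := by
    rw [Equiv.Perm.isConj_iff_cycleType_eq, Equiv.Perm.cycleType_inv]
  obtain ⟨g, hg⟩ := isConj_iff.mp hconj
  obtain ⟨h, hN, hh⟩ := Cfsg.Agent.Lib.H1Fusion.fusion P hP hxP (inv_mem hxP) hg
  by_contra hodd
  have hcle := Cfsg.Agent.Lib.H1Fusion.centralizer_le_normalizer (P : Subgroup (Equiv.Perm (Fin n)))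
  haveI : ((Subgroup.centralizer ((P : Subgroup (Equiv.Perm (Fin n))) : Set (Equiv.Perm (Fin n)))).subgroupOf (Subgroup.normalizer ((P : Subgroup (Equiv.Perm (Fin n))) : Set (Equiv.Perm (Fin n))))).Normal :=
    (Subgroup.normal_subgroupOf_iff_le_normalizer hcle).mpr
      (Cfsg.Agent.Lib.H1Fusion.normalizer_le_normalizer_centralizer _)
  have hm := Subgroup.pow_index_mem ((Subgroup.centralizer ((P : Subgroup (Equiv.Perm (Fin n))) : Set (Equiv.Perm (Fin n)))).subgroupOf (Subgroup.normalizer ((P : Subgroup (Equiv.Perm (Fin n))) : Set (Equiv.Perm (Fin n))))) (⟨h, hN⟩ : Subgroup.normalizer ((P : Subgroup (Equiv.Perm (Fin n))) : Set (Equiv.Perm (Fin n))))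
  obtain ⟨m, hmdef⟩ : ∃ m, m = ((Subgroup.centralizer ((P : Subgroup (Equiv.Perm (Fin n))) : Set (Equiv.Perm (Fin n)))).subgroupOf (Subgroup.normalizer ((P : Subgroup (Equiv.Perm (Fin n))) : Set (Equiv.Perm (Fin n))))).index := ⟨_, rfl⟩
  rw [← hmdef] at hm hodd
  rw [Subgroup.mem_subgroupOf] at hm
  have hm' : h ^ m ∈ Subgroup.centralizer ((P : Subgroup (Equiv.Perm (Fin n))) : Set (Equiv.Perm (Fin n))) := by
    simpa using hm
  obtain ⟨j, rfl⟩ : ∃ j, m = 2 * j + 1 := by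
    obtain ⟨j, hj⟩ := Nat.not_even_iff_odd.mp (fun he => hodd he.two_dvd)
    exact ⟨j, hj⟩
  have h4 := Cfsg.Agent.Lib.H1Fusion.odd_pow_inverts hh j
  have h5 : x * h ^ (2 * j + 1) = h ^ (2 * j + 1) * x :=
    (Subgroup.mem_centralizer_iff.mp hm') x hxP
  have h6 : x = x⁻¹ := by
    have : x * h ^ (2 * j + 1) = x⁻¹ * h ^ (2 * j + 1) := by rw [h5, h4]
    exact mul_right_cancel this
  have h7 : x ^ 2 = 1 := by
    rw [pow_two]; nth_rewrite 1 [h6]; exact inv_mul_cancel x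
  obtain ⟨k, hk⟩ := P.isPGroup' ⟨x, hxP⟩
  have h8 : x ^ (p ^ k) = 1 := by
    have := congrArg Subtype.val hk
    simpa using this
  have h9 : orderOf x ∣ 2 := orderOf_dvd_of_pow_eq_one h7
  have h10 : orderOf x ∣ p ^ k := orderOf_dvd_of_pow_eq_one h8
  have hcop : Nat.Coprime 2 (p ^ k) :=
    Nat.Coprime.pow_right k ((Nat.coprime_primes Nat.prime_two (Fact.out : p.Prime)).2 (Ne.symm hp))
  have h11 : orderOf x = 1 := Nat.eq_one_of_dvd_coprimes hcop h9 h10
  exact hx1 (orderOf_eq_one_iff.mp h11)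

end Cfsg.Agent.S2270
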