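import Cfsg.Statements.S2352


set_option autoImplicit false
open Cfsg

namespace Cfsg.Agent.S2352


/-- a partial bijection on a finite set extends to an even permutation when two points are not in the range -/
theorem exists_even {n : ℕ} (R : Fin n → Fin n → Prop) (hfun : ∀ x y y', R x y → R x y' → y = y')
    (hinj : ∀ x x' y, R x y → R x' y → x = x') (u v : Fin n) (huv : u ≠ v) (hav : ∀ x y, R x y → y ≠ u ∧ y ≠ v) :
    ∃ s : alternatingGroup (Fin n), ∀ x y, R x y → s • x = y := by
  classical
  let e : {x // ∃ y, R x y} ≃ {y // ∃ x, R x y} :=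
    Equiv.ofBijective (fun x => ⟨x.2.choose, x.1, x.2.choose_spec⟩) (by
      constructor
      · rintro ⟨x, hx⟩ ⟨x', hx'⟩ h
        apply Subtype.ext
        have h1 : hx.choose = hx'.choose := congrArg Subtype.val h
        exact hinj x x' _ hx.choose_spec (h1 ▸ hx'.choose_spec)
      · rintro ⟨y, x, hx⟩
        refine ⟨⟨x, y, hx⟩, ?_⟩
        apply Subtype.ext
        exact hfun x _ _ (Exists.choose_spec (⟨y, hx⟩ : ∃ y, R x y)) hx)
  let s₀ : Equiv.Perm (Fin n) := e.extendSubtype
  have hs₀ : ∀ x y, R x y → s₀ x = y := by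
    intro x y h
    show e.extendSubtype x = y
    rw [Equiv.extendSubtype_apply_of_mem e x ⟨y, h⟩]
    exact hfun x _ _ (Exists.choose_spec (⟨y, h⟩ : ∃ y, R x y)) h
  rcases Int.units_eq_one_or (Equiv.Perm.sign s₀) with h | h
  · refine ⟨⟨s₀, Equiv.Perm.mem_alternatingGroup.2 h⟩, fun x y hxy => hs₀ x y hxy⟩
  · refine ⟨⟨Equiv.swap u v * s₀, Equiv.Perm.mem_alternatingGroup.2 ?_⟩, fun x y hxy => ?_⟩
    · rw [Equiv.Perm.sign_mul, h, Equiv.Perm.sign_swap huv]
      rfl
    · show (Equiv.swap u v * s₀) x = y
      rw [Equiv.Perm.mul_apply, hs₀ x y hxy]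
      exact Equiv.swap_apply_of_ne_of_ne (hav x y hxy).1 (hav x y hxy).2

theorem eval_word {G X : Type*} [Group G] [MulAction G X] (act : ℕ × Bool → G) (p : ℕ → X) (l : List (ℕ × Bool))
    {d : ℕ × Bool} (h : ∀ i, i < l.length → act (l.getD (l.length - 1 - i) d) • p i = p (i + 1)) :
    (l.map act).prod • p 0 = p l.length := by
  induction l with
  | nil => simp
  | cons x l ih =>
    rw [List.map_cons, List.prod_cons, mul_smul, ih]
    · have h1 := h l.length (by simp)
      simpa using h1
    · intro i hi
      have h1 := h i (by simp; omega)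
      have e : (x :: l).length - 1 - i = (l.length - 1 - i) + 1 := by
        simp only [List.length_cons]
        omega
      rw [e, List.getD_cons_succ] at h1
      exact h1


/-- A non-trivial law holds in only finitely many alternating groups: for every non-trivial element w of the free group on countably many generators there is N such that for all n ≥ N some substitution of elements of the alternating group of degree n into w is not the identity. -/
theorem result (w : FreeGroup ℕ) (hw : w ≠ 1) :
    ∃ N : ℕ, ∀ n : ℕ, N ≤ n → ∃ f : ℕ → alternatingGroup (Fin n), FreeGroup.lift f w ≠ 1 := by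
  classical
  set l := w.toWord with hl
  have hmk : FreeGroup.mk l = w := FreeGroup.mk_toWord
  have hred : FreeGroup.IsReduced l := FreeGroup.isReduced_toWord
  have hL : 1 ≤ l.length := by
    rcases Nat.eq_zero_or_pos l.length with h | h
    · exfalso
      apply hw
      rw [← hmk, List.length_eq_zero_iff.1 h]
      rfl
    · exact h
  refine ⟨l.length + 3, fun n hn => ?_⟩
  have hpos : 0 < n := by omega
  let L := l.length
  let t : ℕ → ℕ × Bool := fun j => l.getD j default
  have ht : ∀ j, j + 1 < L → (t j).1 = (t (j + 1)).1 → (t j).2 = (t (j + 1)).2 := by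
    intro j hj
    have h1 := (List.isChain_iff_getElem.1 hred) j hj
    have e1 : t j = l[j] := by
      show l.getD j default = l[j]
      rw [List.getD_eq_getElem?_getD, List.getElem?_eq_getElem (show j < l.length by omega)]
      rfl
    have e2 : t (j + 1) = l[j + 1] := by
      show l.getD (j + 1) default = l[j + 1]
      rw [List.getD_eq_getElem?_getD, List.getElem?_eq_getElem (show j + 1 < l.length from hj)]
      rfl
    rw [e1, e2]
    exact h1
  let R : ℕ → Fin n → Fin n → Prop := fun a x y => ∃ i, i < L ∧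
    ((t (L - 1 - i) = (a, true) ∧ x.val = i ∧ y.val = i + 1) ∨ (t (L - 1 - i) = (a, false) ∧ x.val = i + 1 ∧ y.val = i))
  have hfun : ∀ a x y y', R a x y → R a x y' → y = y' := by
    rintro a x y y' ⟨i, hi, h1⟩ ⟨i', hi', h2⟩
    apply Fin.ext
    rcases h1 with ⟨h1, h3, h4⟩ | ⟨h1, h3, h4⟩ <;> rcases h2 with ⟨h2, h5, h6⟩ | ⟨h2, h5, h6⟩
    · omega
    · exfalso
      have e : i = i' + 1 := by omega
      have h7 := ht (L - 1 - i) (by omega)
      rw [show L - 1 - i + 1 = L - 1 - i' by omega, h1, h2] at h7
      simpa using h7 rfl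
    · exfalso
      have e : i' = i + 1 := by omega
      have h7 := ht (L - 1 - i') (by omega)
      rw [show L - 1 - i' + 1 = L - 1 - i by omega, h1, h2] at h7
      simpa using h7 rfl
    · omega
  have hinj : ∀ a x x' y, R a x y → R a x' y → x = x' := by
    rintro a x x' y ⟨i, hi, h1⟩ ⟨i', hi', h2⟩
    apply Fin.ext
    rcases h1 with ⟨h1, h3, h4⟩ | ⟨h1, h3, h4⟩ <;> rcases h2 with ⟨h2, h5, h6⟩ | ⟨h2, h5, h6⟩
    · omega
    · exfalso
      have e : i' = i + 1 := by omega
      have h7 := ht (L - 1 - i') (by omega)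
      rw [show L - 1 - i' + 1 = L - 1 - i by omega, h1, h2] at h7
      simpa using h7 rfl
    · exfalso
      have e : i = i' + 1 := by omega
      have h7 := ht (L - 1 - i) (by omega)
      rw [show L - 1 - i + 1 = L - 1 - i' by omega, h1, h2] at h7
      simpa using h7 rfl
    · omega
  let u : Fin n := ⟨n - 1, by omega⟩
  let v : Fin n := ⟨n - 2, by omega⟩
  have huv : u ≠ v := by
    intro h
    have := congrArg Fin.val h
    simp only [u, v] at this
    omega
  have hav : ∀ a x y, R a x y → y ≠ u ∧ y ≠ v := by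
    rintro a x y ⟨i, hi, h1⟩
    have h2 : y.val ≤ L := by
      rcases h1 with ⟨_, _, h4⟩ | ⟨_, _, h4⟩ <;> omega
    constructor
    · intro h
      rw [h] at h2
      simp only [u] at h2
      omega
    · intro h
      rw [h] at h2
      simp only [v] at h2
      omega
  choose f hf using fun a => exists_even (R a) (hfun a) (hinj a) u v huv (hav a)
  refine ⟨f, ?_⟩
  intro hone
  let p : ℕ → Fin n := fun i => ⟨i % n, Nat.mod_lt _ hpos⟩
  have hp : ∀ i, i < n → (p i).val = i := fun i hi => Nat.mod_eq_of_lt hi
  have hev := eval_word (G := alternatingGroup (Fin n)) (X := Fin n)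
    (fun x : ℕ × Bool => cond x.2 (f x.1) (f x.1)⁻¹) p l (d := default) (by
      intro i hi
      have h0 : l.getD (l.length - 1 - i) default = t (L - 1 - i) := rfl
      rw [h0]
      rcases h : t (L - 1 - i) with ⟨a, b⟩
      cases b with
      | true =>
        show (f a) • p i = p (i + 1)
        have h1 : R a (p i) (p (i + 1)) := ⟨i, hi, Or.inl ⟨h, hp i (by omega), hp (i + 1) (by omega)⟩⟩
        exact hf a _ _ h1
      | false =>
        show (f a)⁻¹ • p i = p (i + 1)
        have h1 : R a (p (i + 1)) (p i) := ⟨i, hi, Or.inr ⟨h, hp (i + 1) (by omega), hp i (by omega)⟩⟩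
        rw [inv_smul_eq_iff]
        exact (hf a _ _ h1).symm)
  rw [← FreeGroup.lift_mk, hmk, hone, one_smul] at hev
  have h0 := congrArg Fin.val hev
  rw [hp 0 (by omega), hp l.length (by omega)] at h0
  omega

end Cfsg.Agent.S2352
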