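import Cfsg.Statements.S2353


set_option autoImplicit false
open Cfsg

namespace Cfsg.Agent.S2353


open Polynomial

/-- the bound on degrees -/
def BB : List (ℕ × Bool) → ℕ
  | [] => 0
  | x :: l => BB l + 2 * (x.1 + 1)

section

variable {F : Type*} [Field F]

/-- the vector polynomial -/
noncomputable def step (x : ℕ × Bool) (c : F[X] × F[X]) : F[X] × F[X] :=
  if x.2 then
    (c.1 + X ^ (x.1 + 1) * (c.2 + X ^ (x.1 + 1) * c.1), c.2 + X ^ (x.1 + 1) * c.1)
  else
    (c.1 - X ^ (x.1 + 1) * c.2, c.2 - X ^ (x.1 + 1) * (c.1 - X ^ (x.1 + 1) * c.2))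

/-- the column of the product -/
noncomputable def cc : List (ℕ × Bool) → F[X] × F[X]
  | [] => (1, 1)
  | x :: l => step x (cc l)

theorem dg (k : ℕ) {v : F[X]} (hv : v ≠ 0) : (X ^ k * v).natDegree = v.natDegree + k := by
  rw [natDegree_mul (pow_ne_zero _ X_ne_zero) hv, natDegree_X_pow, add_comm]

theorem ne_of_pos {u : F[X]} (h : 0 < u.natDegree) : u ≠ 0 := by
  rintro rfl
  simp at h

/-- adding a term of large degree -/
theorem big_add {u v : F[X]} (k : ℕ) (hv : v ≠ 0) (h : u.natDegree < v.natDegree + k) :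
    (u + X ^ k * v).natDegree = v.natDegree + k := by
  rw [natDegree_add_eq_right_of_natDegree_lt (by rwa [dg k hv]), dg k hv]

theorem big_sub {u v : F[X]} (k : ℕ) (hv : v ≠ 0) (h : u.natDegree < v.natDegree + k) :
    (u - X ^ k * v).natDegree = v.natDegree + k := by
  rw [sub_eq_add_neg, natDegree_add_eq_right_of_natDegree_lt (by rwa [natDegree_neg, dg k hv]), natDegree_neg, dg k hv]

/-- state invariant -/
def St (x : ℕ × Bool) (c : F[X] × F[X]) : Prop :=
  if x.2 then c.2 ≠ 0 ∧ c.1.natDegree = c.2.natDegree + (x.1 + 1)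
  else c.1 ≠ 0 ∧ c.2.natDegree = c.1.natDegree + (x.1 + 1)

/-- first update in the positive case: the result has big degree -/
theorem pos_first (a : ℕ) {c : F[X] × F[X]} (h : c.1 ≠ 0)
    (hd : c.2.natDegree ≠ c.1.natDegree + (a + 1)) :
    c.1.natDegree < (c.2 + X ^ (a + 1) * c.1).natDegree := by
  rcases lt_or_gt_of_ne hd with h1 | h1
  · rw [natDegree_add_eq_right_of_natDegree_lt (by rwa [dg _ h]), dg _ h]
    omega
  · rw [natDegree_add_eq_left_of_natDegree_lt (by rwa [dg _ h])]
    omega

theorem neg_first (a : ℕ) {c : F[X] × F[X]} (h : c.2 ≠ 0)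
    (hd : c.1.natDegree ≠ c.2.natDegree + (a + 1)) :
    c.2.natDegree < (c.1 - X ^ (a + 1) * c.2).natDegree := by
  rw [sub_eq_add_neg]
  rcases lt_or_gt_of_ne hd with h1 | h1
  · rw [natDegree_add_eq_right_of_natDegree_lt (by rwa [natDegree_neg, dg _ h]), natDegree_neg, dg _ h]
    omega
  · rw [natDegree_add_eq_left_of_natDegree_lt (by rwa [natDegree_neg, dg _ h])]
    omega

theorem St_pos (a : ℕ) {c : F[X] × F[X]} (h : c.1 ≠ 0)
    (hd : c.2.natDegree ≠ c.1.natDegree + (a + 1)) : St (a, true) (step (a, true) c) := by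
  have h1 := pos_first a h hd
  have h2 : (c.2 + X ^ (a + 1) * c.1) ≠ 0 := ne_of_pos (by omega)
  refine ⟨h2, ?_⟩
  show (c.1 + X ^ (a + 1) * (c.2 + X ^ (a + 1) * c.1)).natDegree = (c.2 + X ^ (a + 1) * c.1).natDegree + (a + 1)
  exact big_add (a + 1) h2 (by omega)

theorem St_neg (a : ℕ) {c : F[X] × F[X]} (h : c.2 ≠ 0)
    (hd : c.1.natDegree ≠ c.2.natDegree + (a + 1)) : St (a, false) (step (a, false) c) := by
  have h1 := neg_first a h hd
  have h2 : (c.1 - X ^ (a + 1) * c.2) ≠ 0 := ne_of_pos (by omega)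
  refine ⟨h2, ?_⟩
  show (c.2 - X ^ (a + 1) * (c.1 - X ^ (a + 1) * c.2)).natDegree = (c.1 - X ^ (a + 1) * c.2).natDegree + (a + 1)
  exact big_sub (a + 1) h2 (by omega)

theorem St_ne (x : ℕ × Bool) {c : F[X] × F[X]} (h : St x c) : c.1 ≠ 0 ∧ c.2 ≠ 0 := by
  rcases x with ⟨a, b⟩
  cases b with
  | true =>
    obtain ⟨h1, h2⟩ := h
    exact ⟨ne_of_pos (by simp only at h2; omega), h1⟩
  | false =>
    obtain ⟨h1, h2⟩ := h
    exact ⟨h1, ne_of_pos (by simp only at h2; omega)⟩

/-- the invariant along reduced words -/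
theorem St_cc : ∀ (x : ℕ × Bool) (l : List (ℕ × Bool)), FreeGroup.IsReduced (x :: l) → St x (cc (F := F) (x :: l))
  | (a, true), [], _ => by
    apply St_pos
    · exact one_ne_zero
    · simp [cc]
  | (a, false), [], _ => by
    apply St_neg
    · exact one_ne_zero
    · simp [cc]
  | (a, b), y :: l, h => by
    have h1 := FreeGroup.isReduced_cons_cons.1 h
    have h2 := St_cc y l h1.2
    have h3 := St_ne y h2
    show St (a, b) (step (a, b) (cc (y :: l)))
    rcases y with ⟨c, d⟩
    cases b with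
    | true =>
      apply St_pos a h3.1
      cases d with
      | true =>
        obtain ⟨_, h5⟩ := h2
        simp only at h5
        omega
      | false =>
        obtain ⟨_, h5⟩ := h2
        simp only at h5
        have hac : a ≠ c := by
          rintro rfl
          simpa using h1.1 rfl
        omega
    | false =>
      apply St_neg a h3.2
      cases d with
      | false =>
        obtain ⟨_, h5⟩ := h2
        simp only at h5
        omega
      | true =>
        obtain ⟨_, h5⟩ := h2
        simp only at h5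
        have hac : a ≠ c := by
          rintro rfl
          simpa using h1.1 rfl
        omega

theorem cc_le : ∀ l : List (ℕ × Bool), (cc (F := F) l).1.natDegree ≤ BB l ∧ (cc (F := F) l).2.natDegree ≤ BB l
  | [] => by simp [cc, BB]
  | (a, b) :: l => by
    obtain ⟨h1, h2⟩ := cc_le l
    have hk : ∀ (k : ℕ) (v : F[X]), (X ^ k * v).natDegree ≤ v.natDegree + k := by
      intro k v
      refine natDegree_mul_le.trans ?_
      simp
      omega
    have hadd : ∀ u v : F[X], (u + v).natDegree ≤ max u.natDegree v.natDegree := fun u v => natDegree_add_le u v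
    have hsub : ∀ u v : F[X], (u - v).natDegree ≤ max u.natDegree v.natDegree := fun u v => natDegree_sub_le u v
    show (step (a, b) (cc l)).1.natDegree ≤ BB l + 2 * (a + 1) ∧ (step (a, b) (cc l)).2.natDegree ≤ BB l + 2 * (a + 1)
    cases b with
    | true =>
      have h3 : ((cc (F := F) l).2 + X ^ (a + 1) * (cc l).1).natDegree ≤ BB l + (a + 1) := by
        have := hadd (cc (F := F) l).2 (X ^ (a + 1) * (cc l).1)
        have := hk (a + 1) (cc (F := F) l).1
        omega
      constructor
      · show ((cc l).1 + X ^ (a + 1) * ((cc l).2 + X ^ (a + 1) * (cc l).1)).natDegree ≤ _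
        have := hadd (cc (F := F) l).1 (X ^ (a + 1) * ((cc l).2 + X ^ (a + 1) * (cc l).1))
        have := hk (a + 1) ((cc (F := F) l).2 + X ^ (a + 1) * (cc l).1)
        omega
      · show ((cc l).2 + X ^ (a + 1) * (cc l).1).natDegree ≤ _
        omega
    | false =>
      have h3 : ((cc (F := F) l).1 - X ^ (a + 1) * (cc l).2).natDegree ≤ BB l + (a + 1) := by
        have := hsub (cc (F := F) l).1 (X ^ (a + 1) * (cc l).2)
        have := hk (a + 1) (cc (F := F) l).2
        omega
      constructor
      · show ((cc l).1 - X ^ (a + 1) * (cc l).2).natDegree ≤ _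
        omega
      · show ((cc l).2 - X ^ (a + 1) * ((cc l).1 - X ^ (a + 1) * (cc l).2)).natDegree ≤ _
        have := hsub (cc (F := F) l).2 (X ^ (a + 1) * ((cc l).1 - X ^ (a + 1) * (cc l).2))
        have := hk (a + 1) ((cc (F := F) l).1 - X ^ (a + 1) * (cc l).2)
        omega

theorem exists_big (l : List (ℕ × Bool)) (hne : l ≠ []) (hred : FreeGroup.IsReduced l) :
    ∃ c : F[X], 1 ≤ c.natDegree ∧ c.natDegree ≤ BB l ∧ (c = (cc (F := F) l).1 ∨ c = (cc (F := F) l).2) := by
  rcases l with _ | ⟨x, l⟩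
  · exact absurd rfl hne
  have h1 := St_cc (F := F) x l hred
  have h2 := cc_le (F := F) (x :: l)
  rcases x with ⟨a, b⟩
  cases b with
  | true =>
    obtain ⟨_, h4⟩ := h1
    simp only at h4
    exact ⟨_, by omega, h2.1, Or.inl rfl⟩
  | false =>
    obtain ⟨_, h4⟩ := h1
    simp only at h4
    exact ⟨_, by omega, h2.2, Or.inr rfl⟩

/-- the generators -/
def xx (t : F) (a : ℕ) : Matrix.SpecialLinearGroup (Fin 2) F :=
  ⟨!![1 + t ^ (a + 1) * t ^ (a + 1), t ^ (a + 1); t ^ (a + 1), 1], by
    rw [Matrix.det_fin_two_of]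
    ring⟩

theorem xx_mulVec (t : F) (a : ℕ) (v : Fin 2 → F) :
    ((xx t a : Matrix.SpecialLinearGroup (Fin 2) F) : Matrix (Fin 2) (Fin 2) F).mulVec v =
      ![v 0 + t ^ (a + 1) * (v 1 + t ^ (a + 1) * v 0), v 1 + t ^ (a + 1) * v 0] := by
  funext i
  fin_cases i
  · simp [xx, Matrix.mulVec, dotProduct, Fin.sum_univ_two]
    ring
  · simp [xx, Matrix.mulVec, dotProduct, Fin.sum_univ_two]
    ring

theorem xx_inv_mulVec (t : F) (a : ℕ) (v : Fin 2 → F) :
    (((xx t a)⁻¹ : Matrix.SpecialLinearGroup (Fin 2) F) : Matrix (Fin 2) (Fin 2) F).mulVec v =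
      ![v 0 - t ^ (a + 1) * v 1, v 1 - t ^ (a + 1) * (v 0 - t ^ (a + 1) * v 1)] := by
  have e : (((xx t a)⁻¹ : Matrix.SpecialLinearGroup (Fin 2) F) : Matrix (Fin 2) (Fin 2) F) =
      !![1, -t ^ (a + 1); -t ^ (a + 1), 1 + t ^ (a + 1) * t ^ (a + 1)] := by
    rw [Matrix.SpecialLinearGroup.coe_inv, Matrix.adjugate_fin_two]
    simp [xx]
  rw [e]
  funext i
  fin_cases i
  · simp [Matrix.mulVec, dotProduct, Fin.sum_univ_two]
    ring
  · simp [Matrix.mulVec, dotProduct, Fin.sum_univ_two]
    ring

theorem eval_cc (t : F) : ∀ l : List (ℕ × Bool),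
    (((l.map fun x => cond x.2 (xx t x.1) (xx t x.1)⁻¹).prod : Matrix.SpecialLinearGroup (Fin 2) F) : Matrix (Fin 2) (Fin 2) F).mulVec ![1, 1] =
      ![(cc (F := F) l).1.eval t, (cc (F := F) l).2.eval t]
  | [] => by
    simp [cc]
  | (a, b) :: l => by
    rw [List.map_cons, List.prod_cons, Matrix.SpecialLinearGroup.coe_mul, ← Matrix.mulVec_mulVec, eval_cc t l]
    cases b with
    | true =>
      show ((xx t a : Matrix.SpecialLinearGroup (Fin 2) F) : Matrix (Fin 2) (Fin 2) F).mulVec _ = ![(step (a, true) (cc l)).1.eval t, (step (a, true) (cc l)).2.eval t]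
      rw [xx_mulVec]
      simp [step]
    | false =>
      show (((xx t a)⁻¹ : Matrix.SpecialLinearGroup (Fin 2) F) : Matrix (Fin 2) (Fin 2) F).mulVec _ = ![(step (a, false) (cc l)).1.eval t, (step (a, false) (cc l)).2.eval t]
      rw [xx_inv_mulVec]
      simp [step]

end


/-- A non-trivial law holds in PSL_2 over only finitely many finite fields: for every non-trivial element w of the free group on countably many generators there is N such that over every finite field with at least N elements some substitution of elements of PSL_2 into w is not the identity. -/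
theorem result (w : FreeGroup ℕ) (hw : w ≠ 1) :
    ∃ N : ℕ, ∀ (F : Type*) [Field F] [Fintype F], N ≤ Fintype.card F →
      ∃ f : ℕ → Matrix.ProjectiveSpecialLinearGroup (Fin 2) F, FreeGroup.lift f w ≠ 1 := by
  classical
  set l := w.toWord with hl
  have hmk : FreeGroup.mk l = w := FreeGroup.mk_toWord
  have hred : FreeGroup.IsReduced l := FreeGroup.isReduced_toWord
  have hne : l ≠ [] := by
    intro h
    apply hw
    rw [← hmk, h]
    rfl
  refine ⟨2 * BB l + 1, ?_⟩
  intro F _ _ hcard
  obtain ⟨c, hc1, hc2, hc3⟩ := exists_big (F := F) l hne hred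
  have hex : ∃ t : F, (c * c - 1).eval t ≠ 0 := by
    by_contra hcon
    push Not at hcon
    have h0 : c * c - 1 = 0 := by
      apply Polynomial.eq_zero_of_natDegree_lt_card_of_eval_eq_zero' _ Finset.univ (fun i _ => hcon i)
      rw [Finset.card_univ]
      have h1 : (c * c - 1).natDegree ≤ 2 * BB l := by
        refine (Polynomial.natDegree_sub_le _ _).trans ?_
        have h2 : (c * c).natDegree ≤ c.natDegree + c.natDegree := Polynomial.natDegree_mul_le
        simp only [Polynomial.natDegree_one]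
        omega
      omega
    have h1 : c * c = 1 := sub_eq_zero.1 h0
    have hc0 : c ≠ 0 := by
      intro h
      rw [h] at hc1
      simp at hc1
    have h2 := congrArg Polynomial.natDegree h1
    rw [Polynomial.natDegree_mul hc0 hc0] at h2
    simp at h2
    omega
  obtain ⟨t, ht⟩ := hex
  refine ⟨fun a => QuotientGroup.mk (xx t a), ?_⟩
  intro hone
  have h1 : FreeGroup.lift (fun a => (QuotientGroup.mk (xx t a) : Matrix.ProjectiveSpecialLinearGroup (Fin 2) F)) w =
      QuotientGroup.mk (FreeGroup.lift (xx t) w) := by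
    rw [← hmk, FreeGroup.lift_mk, FreeGroup.lift_mk]
    have := map_list_prod (QuotientGroup.mk' (Subgroup.center (Matrix.SpecialLinearGroup (Fin 2) F)))
      (l.map fun x => cond x.2 (xx t x.1) (xx t x.1)⁻¹)
    show _ = QuotientGroup.mk' _ _
    rw [this, List.map_map]
    congr 1
    apply List.map_congr_left
    rintro ⟨a, b⟩ _
    cases b <;> rfl
  rw [h1, QuotientGroup.eq_one_iff] at hone
  obtain ⟨r, hr, hr2⟩ := Matrix.SpecialLinearGroup.mem_center_iff.1 hone
  have hev := eval_cc t l
  rw [← FreeGroup.lift_mk, hmk, ← hr2] at hev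
  have hr3 : r * r = 1 := by
    have : r ^ 2 = 1 := by simpa using hr
    rwa [sq] at this
  have hv1 : (cc (F := F) l).1.eval t = r := by
    have := congrFun hev 0
    simp [Matrix.mulVec, dotProduct, Matrix.scalar_apply, Fin.sum_univ_two, Matrix.one_apply, Matrix.diagonal_apply] at this
    exact this.symm
  have hv2 : (cc (F := F) l).2.eval t = r := by
    have := congrFun hev 1
    simp [Matrix.mulVec, dotProduct, Matrix.scalar_apply, Fin.sum_univ_two, Matrix.one_apply, Matrix.diagonal_apply] at this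
    exact this.symm
  apply ht
  rcases hc3 with rfl | rfl
  · simp [hv1, hr3]
  · simp [hv2, hr3]

end Cfsg.Agent.S2353
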