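import Cfsg.Statements.S2471
import Cfsg.Agent.Lib.H1PSL2

set_option autoImplicit false
open Cfsg

namespace Cfsg.Agent.S2471

/-- In PSL(2,q) with q odd, the characteristic p is isolated from 2 in the prime graph: for F a finite field of odd characteristic p with at least 5 elements, PSL(2,F) has no element of order 2p. -/
theorem result {F : Type*} [Field F] [Fintype F] (p : ℕ) [Fact p.Prime] [CharP F p] (hp : p ≠ 2) (h5 : 5 ≤ Fintype.card F) (g : Matrix.ProjectiveSpecialLinearGroup (Fin 2) F) :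
    orderOf g ≠ 2 * p := by
  intro h
  have hpp : p.Prime := Fact.out
  obtain ⟨f, hf⟩ := FiniteField.card F p
  have hpq : p ∣ Fintype.card F := by
    rw [hf.2]
    exact dvd_pow_self p (by exact_mod_cast f.2.ne')
  have hq : 1 < Fintype.card F := Fintype.one_lt_card
  have hd1 : Nat.gcd 2 (Fintype.card F - 1) ∣ Fintype.card F - 1 := Nat.gcd_dvd_right _ _
  have hd2 : Nat.gcd 2 (Fintype.card F - 1) ∣ Fintype.card F + 1 := by
    have h3 : Fintype.card F + 1 = (Fintype.card F - 1) + 2 := by omega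
    rw [h3]
    exact Nat.dvd_add hd1 (Nat.gcd_dvd_left _ _)
  have hp2 : p ∣ orderOf g := by rw [h]; exact dvd_mul_left _ _
  rcases Cfsg.Agent.Lib.H1PSL2.order_cases p g with h1 | h1 | h1
  · have h2 := orderOf_dvd_of_pow_eq_one h1
    rw [h] at h2
    have := Nat.le_of_dvd hpp.pos h2
    have := hpp.pos
    omega
  · have h2 := orderOf_dvd_of_pow_eq_one h1
    have h3 : p ∣ Fintype.card F - 1 := (hp2.trans h2).trans (Nat.div_dvd_of_dvd hd1)
    have h4 : p ∣ 1 := by
      have := (Nat.dvd_sub hpq h3)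
      have e : Fintype.card F - (Fintype.card F - 1) = 1 := by omega
      rwa [e] at this
    exact hpp.one_lt.ne' (Nat.dvd_one.mp h4)
  · have h2 := orderOf_dvd_of_pow_eq_one h1
    have h3 : p ∣ Fintype.card F + 1 := (hp2.trans h2).trans (Nat.div_dvd_of_dvd hd2)
    have h4 : p ∣ 1 := (Nat.dvd_add_right hpq).mp h3
    exact hpp.one_lt.ne' (Nat.dvd_one.mp h4)

end Cfsg.Agent.S2471
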