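import Cfsg.Statements.S2485
import Mathlib

set_option autoImplicit false
open scoped Pointwise
open Cfsg

namespace Cfsg.Agent.S2485


open Matrix
open scoped MatrixGroups Pointwise

section General
variable {F : Type*} [Field F]

/-- Elements commuting or anticommuting with `A`. -/
def NN (A : Matrix (Fin 2) (Fin 2) F) : Subgroup (GL (Fin 2) F) where
  carrier := {X | (X : Matrix (Fin 2) (Fin 2) F) * A = A * X ∨ (X : Matrix (Fin 2) (Fin 2) F) * A = -(A * X)}
  mul_mem' := by
    intro X Y hX hY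
    simp only [Set.mem_setOf_eq, Units.val_mul] at hX hY ⊢
    rcases hX with hX | hX <;> rcases hY with hY | hY
    · left
      rw [mul_assoc, hY, ← mul_assoc, hX, mul_assoc]
    · right
      rw [mul_assoc, hY, mul_neg, ← mul_assoc, hX, mul_assoc]
    · right
      rw [mul_assoc, hY, ← mul_assoc, hX, neg_mul, mul_assoc]
    · left
      rw [mul_assoc, hY, mul_neg, ← mul_assoc, hX, neg_mul, neg_neg, mul_assoc]
  one_mem' := Or.inl (by simp)
  inv_mem' := by
    intro X hX
    have h1 : ((X⁻¹ : GL (Fin 2) F) : Matrix (Fin 2) (Fin 2) F) * (X : Matrix (Fin 2) (Fin 2) F) = 1 := by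
      rw [← Units.val_mul, inv_mul_cancel, Units.val_one]
    have h2 : (X : Matrix (Fin 2) (Fin 2) F) * ((X⁻¹ : GL (Fin 2) F) : Matrix (Fin 2) (Fin 2) F) = 1 := by
      rw [← Units.val_mul, mul_inv_cancel, Units.val_one]
    rcases hX with hX | hX
    · left
      calc ((X⁻¹ : GL (Fin 2) F) : Matrix (Fin 2) (Fin 2) F) * A
          = ((X⁻¹ : GL (Fin 2) F) : Matrix (Fin 2) (Fin 2) F) * A * ((X : Matrix (Fin 2) (Fin 2) F) * ((X⁻¹ : GL (Fin 2) F) : Matrix (Fin 2) (Fin 2) F)) := by rw [h2, mul_one]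
        _ = ((X⁻¹ : GL (Fin 2) F) : Matrix (Fin 2) (Fin 2) F) * (A * (X : Matrix (Fin 2) (Fin 2) F)) * ((X⁻¹ : GL (Fin 2) F) : Matrix (Fin 2) (Fin 2) F) := by simp only [mul_assoc]
        _ = A * ((X⁻¹ : GL (Fin 2) F) : Matrix (Fin 2) (Fin 2) F) := by
          rw [← hX, ← mul_assoc, h1, one_mul]
    · right
      calc ((X⁻¹ : GL (Fin 2) F) : Matrix (Fin 2) (Fin 2) F) * A
          = ((X⁻¹ : GL (Fin 2) F) : Matrix (Fin 2) (Fin 2) F) * A * ((X : Matrix (Fin 2) (Fin 2) F) * ((X⁻¹ : GL (Fin 2) F) : Matrix (Fin 2) (Fin 2) F)) := by rw [h2, mul_one]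
        _ = ((X⁻¹ : GL (Fin 2) F) : Matrix (Fin 2) (Fin 2) F) * (A * (X : Matrix (Fin 2) (Fin 2) F)) * ((X⁻¹ : GL (Fin 2) F) : Matrix (Fin 2) (Fin 2) F) := by simp only [mul_assoc]
        _ = -(A * ((X⁻¹ : GL (Fin 2) F) : Matrix (Fin 2) (Fin 2) F)) := by
          have h3 : A * (X : Matrix (Fin 2) (Fin 2) F) = -((X : Matrix (Fin 2) (Fin 2) F) * A) := by rw [hX, neg_neg]
          rw [h3, mul_neg, neg_mul, ← mul_assoc, h1, one_mul]

theorem mem_NN (A : Matrix (Fin 2) (Fin 2) F) (X : GL (Fin 2) F) :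
    X ∈ NN A ↔ (X : Matrix (Fin 2) (Fin 2) F) * A = A * X ∨ (X : Matrix (Fin 2) (Fin 2) F) * A = -(A * X) := Iff.rfl

/-- the standard complex structure -/
def A₀ (F : Type*) [Field F] : Matrix (Fin 2) (Fin 2) F := !![0, 1; -1, 0]

theorem A₀_sq : A₀ F * A₀ F = -1 := by
  ext i j
  fin_cases i <;> fin_cases j <;> simp [A₀, Matrix.mul_apply, Fin.sum_univ_two]

/-- conjugation of the relation -/
theorem conj_mem (g Y : GL (Fin 2) F)
    (hY : Y ∈ NN ((g : Matrix (Fin 2) (Fin 2) F) * A₀ F * ((g⁻¹ : GL (Fin 2) F) : Matrix (Fin 2) (Fin 2) F))) :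
    g⁻¹ * Y * g ∈ NN (A₀ F) := by
  have h1 : ((g⁻¹ : GL (Fin 2) F) : Matrix (Fin 2) (Fin 2) F) * (g : Matrix (Fin 2) (Fin 2) F) = 1 := by
    rw [← Units.val_mul, inv_mul_cancel, Units.val_one]
  have h2 : (g : Matrix (Fin 2) (Fin 2) F) * ((g⁻¹ : GL (Fin 2) F) : Matrix (Fin 2) (Fin 2) F) = 1 := by
    rw [← Units.val_mul, mul_inv_cancel, Units.val_one]
  generalize hG : (g : Matrix (Fin 2) (Fin 2) F) = G at *
  generalize hH : ((g⁻¹ : GL (Fin 2) F) : Matrix (Fin 2) (Fin 2) F) = H at *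
  rw [mem_NN, Units.val_mul, Units.val_mul, hG, hH]
  rw [mem_NN] at hY
  rcases hY with hY | hY
  · left
    calc H * (Y : Matrix (Fin 2) (Fin 2) F) * G * A₀ F = H * ((Y : Matrix (Fin 2) (Fin 2) F) * (G * A₀ F * H)) * G := by
          simp only [mul_assoc]
          rw [h1, mul_one]
      _ = H * (G * A₀ F * H * (Y : Matrix (Fin 2) (Fin 2) F)) * G := by rw [hY]
      _ = (H * G) * A₀ F * (H * (Y : Matrix (Fin 2) (Fin 2) F) * G) := by simp only [mul_assoc]
      _ = A₀ F * (H * (Y : Matrix (Fin 2) (Fin 2) F) * G) := by rw [h1, one_mul]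
  · right
    calc H * (Y : Matrix (Fin 2) (Fin 2) F) * G * A₀ F = H * ((Y : Matrix (Fin 2) (Fin 2) F) * (G * A₀ F * H)) * G := by
          simp only [mul_assoc]
          rw [h1, mul_one]
      _ = H * (-(G * A₀ F * H * (Y : Matrix (Fin 2) (Fin 2) F))) * G := by rw [hY]
      _ = -((H * G) * A₀ F * (H * (Y : Matrix (Fin 2) (Fin 2) F) * G)) := by
          simp only [mul_assoc, mul_neg, neg_mul]
      _ = -(A₀ F * (H * (Y : Matrix (Fin 2) (Fin 2) F) * G)) := by rw [h1, one_mul]

variable (hneg : ¬ IsSquare (-1 : F)) (h2 : (2 : F) ≠ 0)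

include hneg in
theorem no_scalar (A : Matrix (Fin 2) (Fin 2) F) (hA : A * A = -1) (c : F) : A ≠ Matrix.scalar (Fin 2) c := by
  rintro rfl
  apply hneg
  have := congrFun (congrFun hA 0) 0
  simp [Matrix.mul_apply, Fin.sum_univ_two] at this
  exact ⟨c, this.symm⟩

include hneg in
/-- The commutator of two complex structures is zero or invertible. -/
theorem comm_unit (A B : Matrix (Fin 2) (Fin 2) F) (hA : A * A = -1) (hB : B * B = -1)
    (hC : A * B - B * A ≠ 0) : (A * B - B * A).det ≠ 0 := by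
  intro hdet
  set C := A * B - B * A with hCdef
  have hanti : C * A = -(A * C) := by
    have e1 : B * A * A = -B := by rw [mul_assoc, hA]; simp
    have e2 : A * (A * B) = -B := by rw [← mul_assoc, hA]; simp
    have e3 : A * (B * A) = A * B * A := by rw [mul_assoc]
    rw [hCdef, sub_mul, mul_sub, e1, e2, e3]
    abel
  obtain ⟨v, hv0, hv⟩ := Matrix.exists_mulVec_eq_zero_iff.2 hdet
  have hAv : C *ᵥ (A *ᵥ v) = 0 := by
    rw [Matrix.mulVec_mulVec, hanti, Matrix.neg_mulVec, ← Matrix.mulVec_mulVec, hv, Matrix.mulVec_zero, neg_zero]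
  set w := A *ᵥ v with hw
  by_cases hdetP : v 0 * w 1 - v 1 * w 0 = 0
  · -- an eigenvector
    have hAw : A *ᵥ w = -v := by
      rw [hw, Matrix.mulVec_mulVec, hA, Matrix.neg_mulVec, Matrix.one_mulVec]
    obtain ⟨l, hl⟩ : ∃ l : F, w = l • v := by
      by_cases h0 : v 0 = 0
      · have h1 : v 1 ≠ 0 := by
          intro h1
          apply hv0
          ext i
          fin_cases i
          · exact h0
          · exact h1
        refine ⟨w 1 / v 1, ?_⟩
        ext i
        fin_cases i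
        · simp only [Pi.smul_apply, smul_eq_mul]
          rw [h0] at hdetP
          have : w 0 = 0 := by
            have h3 : v 1 * w 0 = 0 := by linear_combination -hdetP
            exact (mul_eq_zero.1 h3).resolve_left h1
          show w 0 = w 1 / v 1 * v 0
          rw [this, h0, mul_zero]
        · show w 1 = w 1 / v 1 * v 1
          field_simp
      · refine ⟨w 0 / v 0, ?_⟩
        ext i
        fin_cases i
        · show w 0 = w 0 / v 0 * v 0
          field_simp
        · show w 1 = w 0 / v 0 * v 1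
          field_simp
          linear_combination hdetP
    rw [hl, Matrix.mulVec_smul, ← hw, hl, smul_smul] at hAw
    apply hneg
    refine ⟨l, ?_⟩
    have hi : ∃ i, v i ≠ 0 := by
      by_contra hc
      push Not at hc
      exact hv0 (funext hc)
    obtain ⟨i, hi⟩ := hi
    have := congrFun hAw i
    simp only [Pi.smul_apply, smul_eq_mul, Pi.neg_apply] at this
    have h3 : (l * l + 1) * v i = 0 := by linear_combination this
    have h4 := (mul_eq_zero.1 h3).resolve_right hi
    linear_combination -h4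
  · -- a basis in the kernel
    apply hC
    let P : Matrix (Fin 2) (Fin 2) F := !![v 0, w 0; v 1, w 1]
    have hP : P.det ≠ 0 := by
      rw [Matrix.det_fin_two]
      have e : P 0 0 * P 1 1 - P 0 1 * P 1 0 = v 0 * w 1 - w 0 * v 1 := rfl
      rw [e]
      intro h
      apply hdetP
      linear_combination h
    have hCP : C * P = 0 := by
      ext i j
      have e0 := congrFun hv i
      have e1 := congrFun hAv i
      simp only [Matrix.mulVec, dotProduct, Fin.sum_univ_two, Pi.zero_apply] at e0 e1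
      fin_cases j
      · simpa [P, Matrix.mul_apply, Fin.sum_univ_two] using e0
      · simpa [P, Matrix.mul_apply, Fin.sum_univ_two] using e1
    have hinv : IsUnit P.det := isUnit_iff_ne_zero.2 hP
    have := congrArg (fun M => M * P⁻¹) hCP
    simp only [zero_mul] at this
    rw [mul_assoc, Matrix.mul_nonsing_inv _ hinv, mul_one] at this
    exact this

theorem anti_B (A B : Matrix (Fin 2) (Fin 2) F) (hA : A * A = -1) (hB : B * B = -1) :
    (A * B - B * A) * B = -(B * (A * B - B * A)) := by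
  have e1 : A * B * B = -A := by rw [mul_assoc, hB]; simp
  have e2 : B * (B * A) = -A := by rw [← mul_assoc, hB]; simp
  have e3 : B * (A * B) = B * A * B := by rw [mul_assoc]
  rw [sub_mul, mul_sub, e1, e2, e3]
  abel

theorem anti_A (A B : Matrix (Fin 2) (Fin 2) F) (hA : A * A = -1) (hB : B * B = -1) :
    (A * B - B * A) * A = -(A * (A * B - B * A)) := by
  have e1 : B * A * A = -B := by rw [mul_assoc, hA]; simp
  have e2 : A * (A * B) = -B := by rw [← mul_assoc, hA]; simp
  have e3 : A * (B * A) = A * B * A := by rw [mul_assoc]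
  rw [sub_mul, mul_sub, e1, e2, e3]
  abel

include hneg h2 in
/-- The key statement: two complex structures have a common element of the two normalisers, outside the centre. -/
theorem common (A B : Matrix (Fin 2) (Fin 2) F) (hA : A * A = -1) (hB : B * B = -1) :
    ∃ Y : GL (Fin 2) F, Y ∈ NN A ∧ Y ∈ NN B ∧ Y ∉ Subgroup.center (GL (Fin 2) F) := by
  by_cases hC : A * B - B * A = 0
  · let Y : GL (Fin 2) F := ⟨A, -A, by rw [mul_neg, hA, neg_neg], by rw [neg_mul, hA, neg_neg]⟩
    refine ⟨Y, Or.inl rfl, Or.inl (sub_eq_zero.1 hC), ?_⟩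
    intro hY
    obtain ⟨c, hc⟩ := Matrix.GeneralLinearGroup.mem_center_iff_val_mem_range_scalar.1 hY
    exact no_scalar hneg A hA c hc.symm
  · let Y : GL (Fin 2) F := Matrix.GeneralLinearGroup.mkOfDetNeZero _ (comm_unit hneg A B hA hB hC)
    have hYv : (Y : Matrix (Fin 2) (Fin 2) F) = A * B - B * A := rfl
    refine ⟨Y, Or.inr (anti_A A B hA hB), Or.inr (anti_B A B hA hB), ?_⟩
    intro hY
    obtain ⟨c, hc⟩ := Matrix.GeneralLinearGroup.mem_center_iff_val_mem_range_scalar.1 hY
    have hY2 : A * B - B * A = Matrix.scalar (Fin 2) c := hYv.symm.trans hc.symm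
    have hanti := anti_A A B hA hB
    rw [hY2] at hanti
    have h3 : Matrix.scalar (Fin 2) c * A = c • A := by
      ext i j
      simp [Matrix.scalar_apply, Matrix.diagonal_apply, Matrix.mul_apply]
    have h4 : A * Matrix.scalar (Fin 2) c = c • A := by
      ext i j
      simp [Matrix.scalar_apply, Matrix.diagonal_apply, Matrix.mul_apply, mul_comm]
    rw [h3, h4] at hanti
    have h5 : (2 * c) • A = 0 := by
      rw [two_mul, add_smul]
      nth_rewrite 1 [hanti]
      simp
    have hc0 : c ≠ 0 := by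
      rintro rfl
      apply hC
      rw [hY2]
      simp
    have hA0 : A = 0 := by
      have := smul_eq_zero.1 h5
      rcases this with h | h
      · exact absurd h (mul_ne_zero h2 hc0)
      · exact h
    rw [hA0] at hA
    have := congrFun (congrFun hA 0) 0
    simp at this

end General

section Finite
variable {F : Type*} [Field F] [Fintype F] (hneg : ¬ IsSquare (-1 : F)) (h2 : (2 : F) ≠ 0)

include hneg in
theorem norm_ne (a b : F) (h : (a, b) ≠ (0, 0)) : a * a + b * b ≠ 0 := by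
  intro h0
  by_cases hb : b = 0
  · subst hb
    apply h
    have : a * a = 0 := by simpa using h0
    have : a = 0 := mul_self_eq_zero.1 this
    rw [this]
  · apply hneg
    refine ⟨a / b, ?_⟩
    field_simp
    linear_combination -h0

/-- The parametrisation of the normaliser of the standard torus. -/
noncomputable def par (hne : ∀ v : {v : F × F // v ≠ (0, 0)}, v.1.1 * v.1.1 + v.1.2 * v.1.2 ≠ 0) (p : {v : F × F // v ≠ (0, 0)} × Bool) : GL (Fin 2) F :=
  if p.2 then Matrix.GeneralLinearGroup.mkOfDetNeZero !![p.1.1.1, p.1.1.2; p.1.1.2, -p.1.1.1] (by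
    rw [Matrix.det_fin_two_of]
    intro h
    exact hne p.1 (by linear_combination -h))
  else Matrix.GeneralLinearGroup.mkOfDetNeZero !![p.1.1.1, p.1.1.2; -p.1.1.2, p.1.1.1] (by
    rw [Matrix.det_fin_two_of]
    intro h
    exact hne p.1 (by linear_combination h))

include hneg h2 in
theorem card_NN : Nat.card (NN (A₀ F)) = 2 * (Fintype.card F ^ 2 - 1) := by
  classical
  have hne : ∀ v : {v : F × F // v ≠ (0, 0)}, v.1.1 * v.1.1 + v.1.2 * v.1.2 ≠ 0 := fun v => norm_ne hneg v.1.1 v.1.2 v.2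
  let Φ : {v : F × F // v ≠ (0, 0)} × Bool → NN (A₀ F) := fun p => ⟨par hne p, by
    obtain ⟨⟨⟨a, b⟩, h⟩, s⟩ := p
    cases s
    · left
      show !![a, b; -b, a] * A₀ F = A₀ F * !![a, b; -b, a]
      ext i j
      fin_cases i <;> fin_cases j <;> simp [A₀, Matrix.mul_apply, Fin.sum_univ_two]
    · right
      show !![a, b; b, -a] * A₀ F = -(A₀ F * !![a, b; b, -a])
      ext i j
      fin_cases i <;> fin_cases j <;> simp [A₀, Matrix.mul_apply, Fin.sum_univ_two]⟩
  have hbij : Function.Bijective Φ := by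
    constructor
    · rintro ⟨⟨⟨a, b⟩, h⟩, s⟩ ⟨⟨⟨a', b'⟩, h'⟩, s'⟩ heq
      have hv := congrArg (fun g : NN (A₀ F) => ((g : GL (Fin 2) F) : Matrix (Fin 2) (Fin 2) F)) heq
      have h00 := congrFun (congrFun hv 0) 0
      have h01 := congrFun (congrFun hv 0) 1
      have h10 := congrFun (congrFun hv 1) 0
      have h11 := congrFun (congrFun hv 1) 1
      cases s <;> cases s' <;> simp [Φ, par] at h00 h01 h10 h11
      · subst h00 h01
        rfl
      · exfalso
        apply h
        have hb : b = 0 := by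
          have : 2 * b = 0 := by linear_combination h01 - h10
          exact (mul_eq_zero.1 this).resolve_left h2
        have ha : a = 0 := by
          have : 2 * a = 0 := by linear_combination h00 + h11
          exact (mul_eq_zero.1 this).resolve_left h2
        rw [ha, hb]
      · exfalso
        apply h
        have hb : b = 0 := by
          have : 2 * b = 0 := by linear_combination h01 + h10
          exact (mul_eq_zero.1 this).resolve_left h2
        have ha : a = 0 := by
          have : 2 * a = 0 := by linear_combination h00 - h11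
          exact (mul_eq_zero.1 this).resolve_left h2
        rw [ha, hb]
      · subst h00 h01
        rfl
    · rintro ⟨X, hX⟩
      have hdet : (X : Matrix (Fin 2) (Fin 2) F).det ≠ 0 := ((Matrix.isUnit_iff_isUnit_det _).1 X.isUnit).ne_zero
      rw [Matrix.det_fin_two] at hdet
      have e1 : (X.val * A₀ F) 0 0 = - X.val 0 1 := by simp [A₀, Matrix.mul_apply, Fin.sum_univ_two]
      have e2 : (X.val * A₀ F) 0 1 = X.val 0 0 := by simp [A₀, Matrix.mul_apply, Fin.sum_univ_two]
      have e3 : (A₀ F * X.val) 0 0 = X.val 1 0 := by simp [A₀, Matrix.mul_apply, Fin.sum_univ_two]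
      have e4 : (A₀ F * X.val) 0 1 = X.val 1 1 := by simp [A₀, Matrix.mul_apply, Fin.sum_univ_two]
      rcases hX with hX | hX
      · have h00 := congrFun (congrFun hX 0) 0
        have h01 := congrFun (congrFun hX 0) 1
        rw [e1, e3] at h00
        rw [e2, e4] at h01
        refine ⟨(⟨(X.val 0 0, X.val 0 1), ?_⟩, false), ?_⟩
        · intro h
          simp only [Prod.mk.injEq] at h
          apply hdet
          rw [h.1, h.2]
          simp
        · apply Subtype.ext
          apply Units.ext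
          show !![X.val 0 0, X.val 0 1; -X.val 0 1, X.val 0 0] = X.val
          ext i j
          fin_cases i <;> fin_cases j
          · rfl
          · rfl
          · exact h00
          · exact h01
      · have h00 := congrFun (congrFun hX 0) 0
        have h01 := congrFun (congrFun hX 0) 1
        rw [Matrix.neg_apply, e1, e3] at h00
        rw [Matrix.neg_apply, e2, e4] at h01
        refine ⟨(⟨(X.val 0 0, X.val 0 1), ?_⟩, true), ?_⟩
        · intro h
          simp only [Prod.mk.injEq] at h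
          apply hdet
          rw [h.1, h.2]
          simp
        · apply Subtype.ext
          apply Units.ext
          show !![X.val 0 0, X.val 0 1; X.val 0 1, -X.val 0 0] = X.val
          ext i j
          fin_cases i <;> fin_cases j
          · rfl
          · rfl
          · exact neg_injective h00
          · show - X.val 0 0 = X.val 1 1
            rw [h01, neg_neg]
  rw [← Nat.card_congr (Equiv.ofBijective Φ hbij), Nat.card_prod, Nat.card_eq_fintype_card, Nat.card_eq_fintype_card]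
  simp only [Fintype.card_bool, Fintype.card_subtype_compl, Fintype.card_prod, Fintype.card_unique]
  rw [mul_comm, pow_two]

end Finite


/-- Let q = 2^k − 1 ≥ 7 be a prime and let G = PGL(2,q), the general linear group of degree 2 over the field with q elements modulo its centre. Then any two Sylow 2-subgroups of G have a non-trivial intersection: for a Sylow 2-subgroup H and every x ∈ G, H ∩ H^x ≠ 1. -/
theorem result {q k : ℕ} [Fact q.Prime] (hk : q + 1 = 2 ^ k) (hq : 7 ≤ q)
    (H : Sylow 2 (GL (Fin 2) (ZMod q) ⧸ Subgroup.center (GL (Fin 2) (ZMod q))))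
    (x : GL (Fin 2) (ZMod q) ⧸ Subgroup.center (GL (Fin 2) (ZMod q))) :
    (H : Subgroup (GL (Fin 2) (ZMod q) ⧸ Subgroup.center (GL (Fin 2) (ZMod q)))) ⊓ MulAut.conj x • (H : Subgroup _) ≠ ⊥ := by
  classical
  have hk3 : 3 ≤ k := by
    by_contra h
    have h1 : k ≤ 2 := by omega
    have h3 : 2 ^ k ≤ 2 ^ 2 := Nat.pow_le_pow_right (by norm_num) h1
    omega
  obtain ⟨t, ht⟩ : ∃ t, 2 ^ k = 8 * t := by
    refine ⟨2 ^ (k - 3), ?_⟩
    have : k = 3 + (k - 3) := by omega
    conv_lhs => rw [this, pow_add]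
    norm_num
  have hq4 : q % 4 = 3 := by omega
  have hneg : ¬ IsSquare (-1 : ZMod q) := by
    rw [ZMod.exists_sq_eq_neg_one_iff]
    simpa using hq4
  have h2 : (2 : ZMod q) ≠ 0 := by
    intro h
    have h3 : ((2 : ℕ) : ZMod q) = 0 := by exact_mod_cast h
    rw [ZMod.natCast_eq_zero_iff] at h3
    have := Nat.le_of_dvd (by norm_num) h3
    omega
  have hcq : Fintype.card (ZMod q) = q := ZMod.card q
  have l1 : q ^ 2 - 1 = (q - 1) * (q + 1) := by
    obtain ⟨r, hr⟩ : ∃ r, q = r + 1 := ⟨q - 1, by omega⟩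
    rw [hr]
    simp only [Nat.add_sub_cancel]
    have : (r + 1) ^ 2 = r * (r + 1 + 1) + 1 := by ring
    rw [this]
    simp
  have l2 : q ^ 2 - q = q * (q - 1) := by
    rw [Nat.mul_sub, pow_two, mul_one]
  let Z := Subgroup.center (GL (Fin 2) (ZMod q))
  let π : GL (Fin 2) (ZMod q) →* (GL (Fin 2) (ZMod q) ⧸ Z) := QuotientGroup.mk' Z
  have hπs : Function.Surjective π := QuotientGroup.mk'_surjective Z
  have hker : π.ker = Z := QuotientGroup.ker_mk' Z
  -- the standard Sylow subgroup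
  let A₀U : GL (Fin 2) (ZMod q) := ⟨A₀ (ZMod q), -A₀ (ZMod q), by rw [mul_neg, A₀_sq, neg_neg], by rw [neg_mul, A₀_sq, neg_neg]⟩
  have hZle : Z ≤ NN (A₀ (ZMod q)) := by
    intro z hz
    left
    have := Subgroup.mem_center_iff.1 hz A₀U
    have h3 := congrArg Units.val this
    exact h3.symm
  let H₀ : Subgroup (GL (Fin 2) (ZMod q) ⧸ Z) := (NN (A₀ (ZMod q))).map π
  have hindex : H₀.index = (NN (A₀ (ZMod q))).index := by
    show ((NN (A₀ (ZMod q))).map π).index = _
    rw [Subgroup.index_map, hker, sup_eq_left.2 hZle, MonoidHom.range_eq_top.2 hπs, Subgroup.index_top, mul_one]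
  have hc1 := card_NN hneg h2
  have hc2 := Subgroup.card_mul_index (NN (A₀ (ZMod q)))
  have hc3 := Subgroup.card_mul_index H₀
  have hc4 : Nat.card (Subgroup.center (GL (Fin 2) (ZMod q))) = q - 1 := by
    rw [Matrix.GeneralLinearGroup.center_eq_range_scalar, Nat.card_congr (MonoidHom.ofInjective (f := Matrix.GeneralLinearGroup.scalar (Fin 2)) (by
      intro a b h
      have := congrArg (fun g : GL (Fin 2) (ZMod q) => (g : Matrix (Fin 2) (Fin 2) (ZMod q)) 0 0) h
      simp at this
      exact Units.ext this)).symm.toEquiv, Nat.card_units, Nat.card_eq_fintype_card, hcq]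
  have hc5 := Subgroup.card_eq_card_quotient_mul_card_subgroup Z
  have hGL : Nat.card (GL (Fin 2) (ZMod q)) = (q ^ 2 - 1) * (q ^ 2 - q) := by
    rw [Matrix.card_GL_field, hcq, Fin.prod_univ_two]
    simp
  have hc4' : Nat.card Z = q - 1 := hc4
  rw [hc4'] at hc5
  rw [hGL] at hc2 hc5
  rw [hcq] at hc1
  rw [hc1] at hc2
  rw [hindex] at hc3
  set I := (NN (A₀ (ZMod q))).index with hI
  set P := Nat.card (GL (Fin 2) (ZMod q) ⧸ Z) with hP
  set c := Nat.card H₀ with hc
  have hq1 : 0 < q - 1 := by omega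
  have hq2 : 0 < q + 1 := by omega
  have e1 : 2 * I = q * (q - 1) := by
    rw [l1, l2] at hc2
    have : 0 < (q - 1) * (q + 1) := Nat.mul_pos hq1 hq2
    apply Nat.eq_of_mul_eq_mul_left this
    rw [← hc2]
    ring
  have e2 : P = (q + 1) * (q * (q - 1)) := by
    rw [l1, l2] at hc5
    apply Nat.eq_of_mul_eq_mul_right hq1
    rw [← hc5]
    ring
  have hIpos : 0 < I := by
    have : 0 < q * (q - 1) := Nat.mul_pos (by omega) hq1
    omega
  have e3 : c = 2 ^ (k + 1) := by
    rw [pow_succ, ← hk]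
    apply Nat.eq_of_mul_eq_mul_right hIpos
    rw [hc3, e2, ← e1]
    ring
  have hPG : IsPGroup 2 H₀ := IsPGroup.of_card e3
  have hodd : ¬ 2 ∣ H₀.index := by
    rw [hindex]
    intro hdvd
    obtain ⟨a, ha⟩ := hdvd
    have hs : ∃ s, q = 4 * s + 3 := ⟨q / 4, by omega⟩
    obtain ⟨s, hs⟩ := hs
    rw [ha] at e1
    rw [hs] at e1
    have h5 : 4 * s + 3 - 1 = 2 * (2 * s + 1) := by omega
    rw [h5] at e1
    have h6 : 2 * a = (4 * s + 3) * (2 * s + 1) := by nlinarith
    have h7 : ¬ 2 ∣ (4 * s + 3) * (2 * s + 1) := by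
      rw [Nat.Prime.dvd_mul Nat.prime_two]
      omega
    exact h7 ⟨a, h6.symm⟩
  let S₀ : Sylow 2 (GL (Fin 2) (ZMod q) ⧸ Z) := hPG.toSylow hodd
  obtain ⟨g, hg⟩ := MulAction.exists_smul_eq (GL (Fin 2) (ZMod q) ⧸ Z) S₀ H
  obtain ⟨g', rfl⟩ := hπs g
  obtain ⟨x', hx'⟩ := hπs x
  have hH : (H : Subgroup (GL (Fin 2) (ZMod q) ⧸ Z)) = MulAut.conj (π g') • H₀ := by
    rw [← hg]
    rfl
  have hmemL : ∀ g₁ Y : GL (Fin 2) (ZMod q), Y ∈ NN ((g₁ : Matrix (Fin 2) (Fin 2) (ZMod q)) * A₀ (ZMod q) * ((g₁⁻¹ : GL (Fin 2) (ZMod q)) : Matrix (Fin 2) (Fin 2) (ZMod q))) →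
      π Y ∈ MulAut.conj (π g₁) • H₀ := by
    intro g₁ Y hY
    have h3 : π (g₁⁻¹ * Y * g₁) ∈ H₀ := ⟨_, conj_mem g₁ Y hY, rfl⟩
    have h4 := Subgroup.smul_mem_pointwise_smul _ (MulAut.conj (π g₁)) H₀ h3
    have h5 : MulAut.conj (π g₁) • π (g₁⁻¹ * Y * g₁) = π Y := by
      rw [MulAut.smul_def, MulAut.conj_apply, ← map_inv, ← map_mul, ← map_mul]
      congr 1
      group
    rwa [h5] at h4
  have hsq : ∀ g₁ : GL (Fin 2) (ZMod q), ((g₁ : Matrix (Fin 2) (Fin 2) (ZMod q)) * A₀ (ZMod q) * ((g₁⁻¹ : GL (Fin 2) (ZMod q)) : Matrix (Fin 2) (Fin 2) (ZMod q))) * ((g₁ : Matrix (Fin 2) (Fin 2) (ZMod q)) * A₀ (ZMod q) * ((g₁⁻¹ : GL (Fin 2) (ZMod q)) : Matrix (Fin 2) (Fin 2) (ZMod q))) = -1 := by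
    intro g₁
    have h1 : ((g₁⁻¹ : GL (Fin 2) (ZMod q)) : Matrix (Fin 2) (Fin 2) (ZMod q)) * (g₁ : Matrix (Fin 2) (Fin 2) (ZMod q)) = 1 := by
      rw [← Units.val_mul, inv_mul_cancel, Units.val_one]
    have h3 : (g₁ : Matrix (Fin 2) (Fin 2) (ZMod q)) * ((g₁⁻¹ : GL (Fin 2) (ZMod q)) : Matrix (Fin 2) (Fin 2) (ZMod q)) = 1 := by
      rw [← Units.val_mul, mul_inv_cancel, Units.val_one]
    calc _ = (g₁ : Matrix (Fin 2) (Fin 2) (ZMod q)) * A₀ (ZMod q) * (((g₁⁻¹ : GL (Fin 2) (ZMod q)) : Matrix (Fin 2) (Fin 2) (ZMod q)) * (g₁ : Matrix (Fin 2) (Fin 2) (ZMod q))) * A₀ (ZMod q) * ((g₁⁻¹ : GL (Fin 2) (ZMod q)) : Matrix (Fin 2) (Fin 2) (ZMod q)) := by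
          simp only [mul_assoc]
      _ = (g₁ : Matrix (Fin 2) (Fin 2) (ZMod q)) * (A₀ (ZMod q) * A₀ (ZMod q)) * ((g₁⁻¹ : GL (Fin 2) (ZMod q)) : Matrix (Fin 2) (Fin 2) (ZMod q)) := by
          rw [h1, mul_one]
          simp only [mul_assoc]
      _ = -1 := by
          rw [A₀_sq, mul_neg, mul_one, neg_mul, h3]
  obtain ⟨Y, hY1, hY2, hY3⟩ := common hneg h2 _ _ (hsq g') (hsq (x' * g'))
  intro hbot
  have hin : π Y ∈ (H : Subgroup (GL (Fin 2) (ZMod q) ⧸ Z)) ⊓ MulAut.conj x • (H : Subgroup (GL (Fin 2) (ZMod q) ⧸ Z)) := by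
    constructor
    · rw [hH]
      exact hmemL g' Y hY1
    · rw [hH, ← hx', ← mul_smul, ← map_mul, ← map_mul]
      exact hmemL (x' * g') Y hY2
  rw [hbot, Subgroup.mem_bot] at hin
  exact hY3 ((QuotientGroup.eq_one_iff Y).1 hin)

end Cfsg.Agent.S2485
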