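import Cfsg.Statements.S2503
import Cfsg.Agent.Lib.PSL2Cent

set_option autoImplicit false
open Cfsg

namespace Cfsg.Agent.S2503


open Matrix Cfsg.Agent.Lib.H1GL2 Cfsg.Agent.Lib.H1SL2 Cfsg.Agent.Lib.H1PSL2 Cfsg.Agent.Lib.H1PSL2P
  Cfsg.Agent.Lib.H1SL2C Cfsg.Agent.Lib.H1Torus Cfsg.Agent.Lib.PSL2Cent

section
variable {F : Type*} [Field F]

theorem Q_ne {a b c d : F} (h2 : (2 : F) = 0) (hdet : a * d - b * c = 1)
    (hroot : ∀ s : F, s ^ 2 - (a + d) * s + 1 ≠ 0) {x y : F} (hxy : x ≠ 0 ∨ y ≠ 0) :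
    c * x ^ 2 + (a + d) * x * y + b * y ^ 2 ≠ 0 := by
  intro hQ
  by_cases hx : x = 0
  · subst hx
    have hy : y ≠ 0 := by simpa using hxy
    have hb : b = 0 := by
      have : b * y ^ 2 = 0 := by linear_combination hQ
      exact (mul_eq_zero.1 this).resolve_right (pow_ne_zero 2 hy)
    subst hb
    apply hroot d
    grind
  · apply hroot (a + b * (y / x))
    have hr : c + (a + d) * (y / x) + b * (y / x) ^ 2 = 0 := by
      have h5 : (c + (a + d) * (y / x) + b * (y / x) ^ 2) * x ^ 2 = c * x ^ 2 + (a + d) * x * y + b * y ^ 2 := by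
        field_simp
      have h6 := pow_ne_zero 2 hx
      rw [hQ] at h5
      exact (mul_eq_zero.1 h5).resolve_right h6
    generalize y / x = r at hr
    have e : (a + b * r) ^ 2 - (a + d) * (a + b * r) + 1 =
        (1 - (a * d - b * c)) + b * (c + (a + d) * r + b * r ^ 2) - 2 * (b * (a + d) * r) + 2 * (a * b * r) - 2 * (b * c) + 0 := by
      ring
    rw [e, hdet, hr, h2]
    ring

theorem exists_square_eq (h2 : (2 : F) = 0) [Fintype F] (p : F) : ∃ r : F, r * r = p := by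
  haveI : CharP F 2 := CharTwo.of_one_ne_zero_of_two_eq_zero one_ne_zero h2
  haveI : Fact (Nat.Prime 2) := ⟨Nat.prime_two⟩
  refine ⟨(frobeniusEquiv F 2).symm p, ?_⟩
  rw [← pow_two]
  exact frobeniusEquiv_symm_pow_p F 2 p
end


/-- Let F be a finite field with q = 2^t ≥ 4 elements and L = PSL(2,F). Then L has a cyclic subgroup A of order q + 1 and an elementary abelian 2-subgroup B of order q such that L = ABA: every element of L is a product a·b·a' with a, a' ∈ A and b ∈ B. -/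
theorem result {F : Type*} [Field F] [Fintype F]
    (h2 : 2 ∣ Fintype.card F) (h4 : 4 ≤ Fintype.card F) :
    ∃ A B : Subgroup (Matrix.ProjectiveSpecialLinearGroup (Fin 2) F),
      IsCyclic A ∧ Nat.card A = Fintype.card F + 1 ∧ IsMulCommutative B ∧ (∀ b ∈ B, b * b = 1) ∧
        Nat.card B = Fintype.card F ∧
        ∀ g : Matrix.ProjectiveSpecialLinearGroup (Fin 2) F, ∃ a ∈ A, ∃ b ∈ B, ∃ c ∈ A, g = a * b * c := by
  classical
  have h2F : (2 : F) = 0 := by
    obtain ⟨p, hp⟩ := CharP.exists F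
    haveI : Fact p.Prime := ⟨CharP.char_is_prime F p⟩
    have hpp : p.Prime := Fact.out
    obtain ⟨f, hf⟩ := FiniteField.card F p
    have h3 : 2 ∣ p ^ (f : ℕ) := by
      rw [← hf.2]
      exact h2
    have h4 : p = 2 := ((Nat.prime_dvd_prime_iff_eq Nat.prime_two hpp).1 (Nat.prime_two.dvd_of_dvd_pow h3)).symm
    subst h4
    exact_mod_cast CharP.cast_eq_zero F 2
  have hpi : Function.Injective (pi (F := F)) := by
    rw [injective_iff_map_eq_one]
    intro g hg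
    rcases (pi_eq_one_iff g).1 hg with h | h
    · exact h
    · rw [h, mone_eq_one_of_two h2F]
  obtain ⟨τ, hord, hτ, hgen, -⟩ := exists_tau (F := F)
  -- entries of `τ`
  obtain ⟨a, ha⟩ : ∃ a, a = (τ : M2 F) 0 0 := ⟨_, rfl⟩
  obtain ⟨b, hb⟩ : ∃ b, b = (τ : M2 F) 0 1 := ⟨_, rfl⟩
  obtain ⟨c, hc⟩ : ∃ c, c = (τ : M2 F) 1 0 := ⟨_, rfl⟩
  obtain ⟨d, hd⟩ : ∃ d, d = (τ : M2 F) 1 1 := ⟨_, rfl⟩
  have hdet : a * d - b * c = 1 := by
    rw [ha, hb, hc, hd]
    exact sl_det τ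
  have hroot : ∀ s : F, s ^ 2 - (a + d) * s + 1 ≠ 0 := by
    intro s
    have := hτ s
    simpa only [tr, ← ha, ← hd] using this
  have hc0 : c ≠ 0 := by
    have := Q_ne h2F hdet hroot (x := 1) (y := 0) (Or.inl one_ne_zero)
    simpa using this
  -- fibres of `Q` are orbits
  have hfib : ∀ v₁ v₂ : F, c * v₁ ^ 2 + (a + d) * v₁ * v₂ + b * v₂ ^ 2 = c →
      ∃ k : ℕ, ((τ ^ k : SL2 F) : M2 F) 0 0 = v₁ ∧ ((τ ^ k : SL2 F) : M2 F) 1 0 = v₂ := by
    intro v₁ v₂ hv
    let y : F := v₂ / c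
    let x : F := v₁ + a * y
    have hv₂ : y * c = v₂ := div_mul_cancel₀ _ hc0
    have hv₁ : x + y * a = v₁ := by
      simp only [x]
      linear_combination (a * y) * h2F
    have hdetw : (x + y * a) * (x + y * d) - (y * b) * (y * c) = 1 := by
      have h5 : c * (x ^ 2 + (a + d) * x * y + y ^ 2) = c := by
        rw [← hv₁, ← hv₂] at hv
        grind
      have h6 : x ^ 2 + (a + d) * x * y + y ^ 2 = 1 := mul_left_cancel₀ hc0 (by rw [h5, mul_one])
      grind
    let w : SL2 F := mk (x + y * a) (y * b) (y * c) (x + y * d) hdetw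
    have hw : w ∈ Tz τ := by
      rw [mem_Tz]
      apply sl_ext
      · simp only [sl_mul00, mk00, mk01, mk10, mk11, w, ← ha, ← hb, ← hc, ← hd]
        ring
      · simp only [sl_mul01, mk00, mk01, mk10, mk11, w, ← ha, ← hb, ← hc, ← hd]
        ring
      · simp only [sl_mul10, mk00, mk01, mk10, mk11, w, ← ha, ← hb, ← hc, ← hd]
        ring
      · simp only [sl_mul11, mk00, mk01, mk10, mk11, w, ← ha, ← hb, ← hc, ← hd]
        ring
    obtain ⟨k, hk⟩ := hgen w hw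
    refine ⟨k, ?_, ?_⟩
    · rw [← hk]
      exact hv₁
    · rw [← hk]
      exact hv₂
  -- the factorisation in `SL₂`
  have hfac : ∀ g : SL2 F, ∃ k₁ k₂ : ℕ, ∃ t : F, g = τ ^ k₂ * tv t * (τ ^ k₁)⁻¹ := by
    intro g
    obtain ⟨p, hp⟩ : ∃ p, p = (g : M2 F) 0 0 := ⟨_, rfl⟩
    obtain ⟨q, hq⟩ : ∃ q, q = (g : M2 F) 0 1 := ⟨_, rfl⟩
    obtain ⟨r, hr⟩ : ∃ r, r = (g : M2 F) 1 0 := ⟨_, rfl⟩
    obtain ⟨s, hs⟩ : ∃ s, s = (g : M2 F) 1 1 := ⟨_, rfl⟩
    have hdg : p * s - q * r = 1 := by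
      rw [hp, hq, hr, hs]
      exact sl_det g
    -- the vector
    have hv : ∃ x y : F, (x ≠ 0 ∨ y ≠ 0) ∧ c * (p * x + q * y) ^ 2 + (a + d) * (p * x + q * y) * (r * x + s * y) + b * (r * x + s * y) ^ 2
        = c * x ^ 2 + (a + d) * x * y + b * y ^ 2 := by
      obtain ⟨al, hal⟩ : ∃ al, al = c * p ^ 2 + (a + d) * p * r + b * r ^ 2 + c := ⟨_, rfl⟩
      obtain ⟨be, hbe⟩ : ∃ be, be = c * q ^ 2 + (a + d) * q * s + b * s ^ 2 + b := ⟨_, rfl⟩
      have key : ∀ x y : F, c * (p * x + q * y) ^ 2 + (a + d) * (p * x + q * y) * (r * x + s * y) + b * (r * x + s * y) ^ 2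
          + (c * x ^ 2 + (a + d) * x * y + b * y ^ 2) = al * x ^ 2 + be * y ^ 2 := by
        intro x y
        rw [hal, hbe]
        grind
      have key2 : ∀ x y : F, al * x ^ 2 + be * y ^ 2 = 0 → c * (p * x + q * y) ^ 2 + (a + d) * (p * x + q * y) * (r * x + s * y) + b * (r * x + s * y) ^ 2
          = c * x ^ 2 + (a + d) * x * y + b * y ^ 2 := by
        intro x y hxy
        have h7 := key x y
        rw [hxy] at h7
        grind
      by_cases hA : al = 0 ∧ be = 0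
      · refine ⟨1, 0, Or.inl one_ne_zero, key2 1 0 ?_⟩
        rw [hA.1, hA.2]
        ring
      · obtain ⟨x, hx⟩ := exists_square_eq h2F be
        obtain ⟨y, hy⟩ := exists_square_eq h2F al
        refine ⟨x, y, ?_, key2 x y ?_⟩
        · by_contra hcon
          push Not at hcon
          apply hA
          rw [hcon.1] at hx
          rw [hcon.2] at hy
          exact ⟨by rw [← hy]; ring, by rw [← hx]; ring⟩
        · rw [pow_two, pow_two, hx, hy]
          grind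
    obtain ⟨x, y, hne, hxy⟩ := hv
    have hQ0 := Q_ne h2F hdet hroot hne
    obtain ⟨m, hm⟩ := exists_square_eq h2F (c / (c * x ^ 2 + (a + d) * x * y + b * y ^ 2))
    have hm2 : (m * m) * (c * x ^ 2 + (a + d) * x * y + b * y ^ 2) = c := by
      rw [hm]
      exact div_mul_cancel₀ _ hQ0
    -- scale the vector
    have h1 : c * (m * x) ^ 2 + (a + d) * (m * x) * (m * y) + b * (m * y) ^ 2 = c := by
      calc c * (m * x) ^ 2 + (a + d) * (m * x) * (m * y) + b * (m * y) ^ 2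
          = (m * m) * (c * x ^ 2 + (a + d) * x * y + b * y ^ 2) := by ring
        _ = c := hm2
    have h3 : c * (p * (m * x) + q * (m * y)) ^ 2 + (a + d) * (p * (m * x) + q * (m * y)) * (r * (m * x) + s * (m * y)) + b * (r * (m * x) + s * (m * y)) ^ 2 = c := by
      have : c * (p * (m * x) + q * (m * y)) ^ 2 + (a + d) * (p * (m * x) + q * (m * y)) * (r * (m * x) + s * (m * y)) + b * (r * (m * x) + s * (m * y)) ^ 2
          = (m * m) * (c * (p * x + q * y) ^ 2 + (a + d) * (p * x + q * y) * (r * x + s * y) + b * (r * x + s * y) ^ 2) := by ring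
      rw [this, hxy, hm2]
    obtain ⟨k₁, h4, h5⟩ := hfib _ _ h1
    obtain ⟨k₂, h6, h7⟩ := hfib _ _ h3
    set w₁ := τ ^ k₁ with hw₁
    set w₂ := τ ^ k₂ with hw₂
    -- `h = w₂⁻¹ g w₁` is a transvection
    have hh00 : ((w₂⁻¹ * g * w₁ : SL2 F) : M2 F) 0 0 = 1 := by
      have e1 : ((g * w₁ : SL2 F) : M2 F) 0 0 = (w₂ : M2 F) 0 0 := by
        rw [sl_mul00, h4, h5, h6, ← hp, ← hq]
      have e2 : ((g * w₁ : SL2 F) : M2 F) 1 0 = (w₂ : M2 F) 1 0 := by
        rw [sl_mul10, h4, h5, h7, ← hr, ← hs]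
      rw [mul_assoc, sl_mul00, e1, e2, sl_inv00, sl_inv01]
      have := sl_det w₂
      linear_combination this
    have hh10 : ((w₂⁻¹ * g * w₁ : SL2 F) : M2 F) 1 0 = 0 := by
      have e1 : ((g * w₁ : SL2 F) : M2 F) 0 0 = (w₂ : M2 F) 0 0 := by
        rw [sl_mul00, h4, h5, h6, ← hp, ← hq]
      have e2 : ((g * w₁ : SL2 F) : M2 F) 1 0 = (w₂ : M2 F) 1 0 := by
        rw [sl_mul10, h4, h5, h7, ← hr, ← hs]
      rw [mul_assoc, sl_mul10, e1, e2, sl_inv10, sl_inv11]
      ring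
    have hh : w₂⁻¹ * g * w₁ = tv (((w₂⁻¹ * g * w₁ : SL2 F) : M2 F) 0 1) := by
      have hd3 := sl_det (w₂⁻¹ * g * w₁)
      rw [hh00, hh10, one_mul, mul_zero, sub_zero] at hd3
      apply sl_ext
      · rw [hh00]; rfl
      · rfl
      · rw [hh10]; rfl
      · rw [hd3]; rfl
    refine ⟨k₁, k₂, ((w₂⁻¹ * g * w₁ : SL2 F) : M2 F) 0 1, ?_⟩
    rw [← hw₁, ← hw₂, ← hh]
    group
  -- the subgroups
  let φ : Multiplicative F →* PSL2 F :=
    { toFun := fun t => pi (tv (Multiplicative.toAdd t))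
      map_one' := by
        show pi (tv (0 : F)) = 1
        rw [tv_zero, map_one]
      map_mul' := by
        intro s t
        show pi (tv (Multiplicative.toAdd s + Multiplicative.toAdd t)) = _
        rw [← tv_mul, map_mul] }
  have hφ : ∀ t, φ t = pi (tv (Multiplicative.toAdd t)) := fun t => rfl
  have hφinj : Function.Injective φ := by
    intro s t h
    have h1 := hpi h
    have h2 := congrArg (fun g : SL2 F => (g : M2 F) 0 1) h1
    simpa [tv] using h2
  refine ⟨Subgroup.zpowers (pi τ), φ.range, inferInstance, ?_, ?_, ?_, ?_, ?_⟩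
  · rw [Nat.card_zpowers, orderOf_injective _ hpi, hord]
  · refine ⟨⟨?_⟩⟩
    rintro ⟨_, ⟨s, rfl⟩⟩ ⟨_, ⟨t, rfl⟩⟩
    apply Subtype.ext
    show φ s * φ t = φ t * φ s
    rw [← map_mul, ← map_mul, mul_comm]
  · rintro _ ⟨t, rfl⟩
    rw [← map_mul, hφ]
    have : Multiplicative.toAdd (t * t) = (0 : F) := by
      show Multiplicative.toAdd t + Multiplicative.toAdd t = 0
      linear_combination (Multiplicative.toAdd t) * h2F
    rw [this, tv_zero, map_one]
  · rw [← Nat.card_congr (MonoidHom.ofInjective hφinj).toEquiv, Nat.card_eq_fintype_card, Fintype.card_multiplicative]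
  · intro g
    obtain ⟨x, rfl⟩ := pi_surj g
    obtain ⟨k₁, k₂, t, rfl⟩ := hfac x
    refine ⟨pi (τ ^ k₂), ?_, pi (tv t), ⟨Multiplicative.ofAdd t, rfl⟩, pi ((τ ^ k₁)⁻¹), ?_, ?_⟩
    · rw [map_pow]
      exact Subgroup.npow_mem_zpowers _ _
    · rw [map_inv, map_pow]
      exact Subgroup.inv_mem _ (Subgroup.npow_mem_zpowers _ _)
    · rw [map_mul, map_mul]

end Cfsg.Agent.S2503
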