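import Cfsg.Statements.S2507
import Cfsg.Agent.Lib.PSL2Cent

set_option autoImplicit false
open Cfsg

namespace Cfsg.Agent.S2507


open Cfsg.Agent.Lib.H1GL2 Cfsg.Agent.Lib.H1SL2 Cfsg.Agent.Lib.H1PSL2 Cfsg.Agent.Lib.H1PSL2P
  Cfsg.Agent.Lib.H1SL2C Cfsg.Agent.Lib.H1Torus Cfsg.Agent.Lib.PSL2Cent


/-- Let F be a finite field with q = 2^f ≥ 4 elements. The conjugacy class sizes of PSL(2,F) are exactly 1, q(q − 1), q² − 1 and q(q + 1). -/
theorem result {F : Type*} [Field F] [Fintype F]
    (h2 : 2 ∣ Fintype.card F) (h4 : 4 ≤ Fintype.card F) :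
    Set.range (fun g : (Matrix.ProjectiveSpecialLinearGroup (Fin 2) F) => (Subgroup.centralizer ({g} : Set (Matrix.ProjectiveSpecialLinearGroup (Fin 2) F))).index) =
      {1, Fintype.card F * (Fintype.card F - 1), Fintype.card F ^ 2 - 1, Fintype.card F * (Fintype.card F + 1)} := by
  classical
  have h2F : (2 : F) = 0 := by
    obtain ⟨p, hp⟩ := CharP.exists F
    haveI : Fact p.Prime := ⟨CharP.char_is_prime F p⟩
    have hpp : p.Prime := Fact.out
    obtain ⟨f, hf⟩ := FiniteField.card F p
    have h3 : 2 ∣ p ^ (f : ℕ) := by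
      rw [← hf.2]
      exact h2
    have h4 : p = 2 := ((Nat.prime_dvd_prime_iff_eq Nat.prime_two hpp).1 (Nat.prime_two.dvd_of_dvd_pow h3)).symm
    subst h4
    exact_mod_cast CharP.cast_eq_zero F 2
  have hq1 : 1 < Fintype.card F := Fintype.one_lt_card
  have hcard1 : Nat.card {x : F // x * x = 1} = 1 := card_sqrt_one_two h2F
  -- index at transvections
  have htv : ∀ b : F, b ≠ 0 → (Tz (tv b)).index = Fintype.card F ^ 2 - 1 := by
    intro b hb
    have h3 := index_Tz_tv hb
    rw [hcard1, one_mul] at h3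
    apply Nat.eq_of_mul_eq_mul_right (show 0 < Fintype.card F by omega)
    rw [h3, mul_comm]
  have hone : (2 : F) = 0 → ∀ x : SL2 F, tr x = 0 → x = 1 ∨ (Tz x).index = Fintype.card F ^ 2 - 1 := by
    intro h x hx
    by_cases h1 : x = 1
    · exact Or.inl h1
    right
    obtain ⟨b, hb, hc⟩ := conj_tv_of_tr_two x (by rw [hx, h]) h1
    rw [index_Tz_of_conj hc, htv b hb]
  obtain ⟨u₀, hu₀⟩ := exists_unit_sq_ne (F := F) h4
  obtain ⟨τ, -, hτ, -, -⟩ := exists_tau (F := F)
  ext n
  simp only [Set.mem_range, Set.mem_insert_iff, Set.mem_singleton_iff]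
  constructor
  · rintro ⟨g, rfl⟩
    obtain ⟨x, rfl⟩ := pi_surj g
    rw [index_cent_char2 h2F]
    rcases trichotomy x with h5 | h5 | ⟨u, hu, hc⟩ | h5
    · rcases hone h2F x (by rw [h5, h2F]) with h6 | h6
      · left
        rw [h6]
        exact index_Tz_one
      · right; right; left
        exact h6
    · rcases hone h2F x (by rw [h5, h2F, neg_zero]) with h6 | h6
      · left
        rw [h6]
        exact index_Tz_one
      · right; right; left
        exact h6
    · right; right; right
      rw [index_Tz_of_conj hc]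
      exact index_Tz_dg hu
    · right; left
      exact index_Tz_nonsplit h5
  · rintro (h | h | h | h)
    · refine ⟨pi 1, ?_⟩
      rw [index_cent_char2 h2F, h]
      exact index_Tz_one
    · refine ⟨pi τ, ?_⟩
      rw [index_cent_char2 h2F, h]
      exact index_Tz_nonsplit hτ
    · refine ⟨pi (tv 1), ?_⟩
      rw [index_cent_char2 h2F, h]
      exact htv 1 one_ne_zero
    · refine ⟨pi (dg u₀), ?_⟩
      rw [index_cent_char2 h2F, h]
      exact index_Tz_dg hu₀

end Cfsg.Agent.S2507
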