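import Cfsg.Statements.S2508
import Cfsg.Agent.Lib.PSL2Cent

set_option autoImplicit false
open Cfsg

namespace Cfsg.Agent.S2508


open Cfsg.Agent.Lib.H1GL2 Cfsg.Agent.Lib.H1SL2 Cfsg.Agent.Lib.H1PSL2 Cfsg.Agent.Lib.H1PSL2P
  Cfsg.Agent.Lib.H1SL2C Cfsg.Agent.Lib.H1Torus Cfsg.Agent.Lib.PSL2Cent

section
variable {F : Type*} [Field F] [Fintype F]

noncomputable abbrev II (x : SL2 F) : ℕ := (Subgroup.centralizer ({pi x} : Set (PSL2 F))).index

theorem II_tr_two (h2 : (2 : F) ≠ 0) (x : SL2 F) (hx : tr x = 2) (hne : x ≠ 1) :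
    II x * 2 = Fintype.card F ^ 2 - 1 := by
  have hq : 1 < Fintype.card F := Fintype.one_lt_card
  have h0 : tr x ≠ 0 := by rw [hx]; exact h2
  obtain ⟨b, hb, hc⟩ := conj_tv_of_tr_two x hx hne
  have h3 := index_Tz_tv hb
  rw [card_sqrt_one_odd h2] at h3
  show (Subgroup.centralizer ({pi x} : Set (PSL2 F))).index * 2 = _
  rw [index_cent_odd h2 x h0, index_Tz_of_conj hc]
  apply Nat.eq_of_mul_eq_mul_right (show 0 < Fintype.card F by omega)
  rw [mul_comm (Fintype.card F ^ 2 - 1), ← h3]
  ring

theorem II_A (h2 : (2 : F) ≠ 0) (x : SL2 F) (h0 : tr x ≠ 0) :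
    II x = 1 ∨ II x * 2 = Fintype.card F ^ 2 - 1 ∨ II x = Fintype.card F * (Fintype.card F - 1) ∨
      II x = Fintype.card F * (Fintype.card F + 1) := by
  rcases trichotomy x with h5 | h5 | ⟨u, hu, hc⟩ | h5
  · by_cases h1 : x = 1
    · left
      show (Subgroup.centralizer ({pi x} : Set (PSL2 F))).index = 1
      rw [index_cent_odd h2 x h0, h1]
      exact index_Tz_one
    · right; left
      exact II_tr_two h2 x h5 h1
  · have h6 : pi (mone * x) = pi x := pi_mone_mul x
    have h7 : tr (mone * x) = 2 := by rw [tr_mone_mul, h5, neg_neg]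
    have h0' : tr (mone * x) ≠ 0 := by rw [h7]; exact h2
    by_cases h1 : mone * x = 1
    · left
      show (Subgroup.centralizer ({pi x} : Set (PSL2 F))).index = 1
      rw [← h6, index_cent_odd h2 _ h0', h1]
      exact index_Tz_one
    · right; left
      have := II_tr_two h2 (mone * x) h7 h1
      simp only [II, h6] at this
      exact this
  · right; right; right
    show (Subgroup.centralizer ({pi x} : Set (PSL2 F))).index = _
    rw [index_cent_odd h2 x h0, index_Tz_of_conj hc]
    exact index_Tz_dg hu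
  · right; right; left
    show (Subgroup.centralizer ({pi x} : Set (PSL2 F))).index = _
    rw [index_cent_odd h2 x h0]
    exact index_Tz_nonsplit h5

theorem II_B1 (h2 : (2 : F) ≠ 0) (x : SL2 F) (h0 : tr x = 0) (hn : ∀ s : F, s ^ 2 + 1 ≠ 0) :
    II x * 2 = Fintype.card F * (Fintype.card F - 1) := by
  show (Subgroup.centralizer ({pi x} : Set (PSL2 F))).index * 2 = _
  rw [index_cent_zero h2 x h0]
  apply index_Tz_nonsplit
  intro s
  rw [h0]
  simpa using hn s

theorem II_B2 (h2 : (2 : F) ≠ 0) (x : SL2 F) (h0 : tr x = 0) {s : F} (hs : s ^ 2 + 1 = 0) :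
    II x * 2 = Fintype.card F * (Fintype.card F + 1) := by
  show (Subgroup.centralizer ({pi x} : Set (PSL2 F))).index * 2 = _
  rw [index_cent_zero h2 x h0]
  have h3 : s ^ 2 ≠ 1 := by
    intro h
    apply h2
    linear_combination hs - h
  obtain ⟨u, hu, hc⟩ := conj_dg x s (by rw [h0]; simpa using hs) h3
  rw [index_Tz_of_conj hc]
  exact index_Tz_dg (by rwa [hu])

theorem exists_dg (hq : 7 ≤ Fintype.card F) (h2 : (2 : F) ≠ 0) : ∃ u : Fˣ, (u : F) ^ 2 ≠ 1 ∧ tr (dg u) ≠ 0 := by
  classical
  obtain ⟨ζ, hζ⟩ := IsCyclic.exists_generator (α := Fˣ)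
  have hord : orderOf ζ = Fintype.card F - 1 := by
    rw [orderOf_eq_card_of_forall_mem_zpowers hζ, Nat.card_eq_fintype_card, Fintype.card_units]
  have h4 : ζ ^ 4 ≠ 1 := by
    intro h
    have h5 := orderOf_le_of_pow_eq_one (by norm_num) h
    omega
  have h4' : (ζ : F) ^ 4 ≠ 1 := by
    intro h
    apply h4
    apply Units.ext
    simpa using h
  refine ⟨ζ, ?_, ?_⟩
  · intro h
    apply h4'
    calc (ζ : F) ^ 4 = ((ζ : F) ^ 2) ^ 2 := by ring
      _ = 1 := by rw [h]; ring
  · rw [tr_dg]
    intro h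
    apply h4'
    have h5 : ((ζ⁻¹ : Fˣ) : F) = (ζ : F)⁻¹ := by simp
    have h6 : (ζ : F) * (ζ : F)⁻¹ = 1 := mul_inv_cancel₀ ζ.ne_zero
    rw [h5] at h
    have h7 : (ζ : F) ^ 2 = -1 := by
      linear_combination (ζ : F) * h - h6
    calc (ζ : F) ^ 4 = ((ζ : F) ^ 2) ^ 2 := by ring
      _ = 1 := by rw [h7]; ring

theorem exists_ns (hq : 7 ≤ Fintype.card F) (h2 : (2 : F) ≠ 0) : ∃ x : SL2 F, (∀ s : F, s ^ 2 - tr x * s + 1 ≠ 0) ∧ tr x ≠ 0 := by
  obtain ⟨τ, hord, hτ, -, -⟩ := exists_tau (F := F)
  refine ⟨τ, hτ, ?_⟩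
  intro h
  have h5 := cayley_tr_zero h
  have h6 : τ ^ 4 = 1 := by
    calc τ ^ 4 = (τ * τ) * (τ * τ) := by simp only [pow_succ, pow_zero, one_mul, mul_assoc]
      _ = 1 := by rw [h5, mone_mul_mone]
  have h7 := orderOf_le_of_pow_eq_one (by norm_num) h6
  omega
end


/-- Let F be a finite field with q elements, q odd and q ≥ 7. If q ≡ 1 (mod 4) the conjugacy class sizes of PSL(2,F) are exactly 1, (q² − 1)/2, q(q + 1)/2, q(q − 1) and q(q + 1); if q ≡ 3 (mod 4) they are exactly 1, (q² − 1)/2, q(q − 1)/2, q(q + 1) and q(q − 1). -/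
theorem result {F : Type*} [Field F] [Fintype F]
    (hodd : ¬ 2 ∣ Fintype.card F) (h7 : 7 ≤ Fintype.card F) :
    (Fintype.card F % 4 = 1 →
      Set.range (fun g : (Matrix.ProjectiveSpecialLinearGroup (Fin 2) F) => (Subgroup.centralizer ({g} : Set (Matrix.ProjectiveSpecialLinearGroup (Fin 2) F))).index) =
        {1, (Fintype.card F ^ 2 - 1) / 2, Fintype.card F * (Fintype.card F + 1) / 2,
          Fintype.card F * (Fintype.card F - 1), Fintype.card F * (Fintype.card F + 1)}) ∧
    (Fintype.card F % 4 = 3 →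
      Set.range (fun g : (Matrix.ProjectiveSpecialLinearGroup (Fin 2) F) => (Subgroup.centralizer ({g} : Set (Matrix.ProjectiveSpecialLinearGroup (Fin 2) F))).index) =
        {1, (Fintype.card F ^ 2 - 1) / 2, Fintype.card F * (Fintype.card F - 1) / 2,
          Fintype.card F * (Fintype.card F + 1), Fintype.card F * (Fintype.card F - 1)}) := by
  classical
  have h2F : (2 : F) ≠ 0 := by
    intro h
    apply hodd
    obtain ⟨p, hp⟩ := CharP.exists F
    haveI : Fact p.Prime := ⟨CharP.char_is_prime F p⟩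
    have hpp : p.Prime := Fact.out
    obtain ⟨f, hf⟩ := FiniteField.card F p
    have h3 : p ∣ 2 := (CharP.cast_eq_zero_iff F p 2).1 (by exact_mod_cast h)
    have h4 : p = 2 := (Nat.prime_dvd_prime_iff_eq hpp Nat.prime_two).1 h3
    rw [hf.2, h4]
    exact dvd_pow_self 2 (by exact_mod_cast f.2.ne')
  have hq1 : 1 < Fintype.card F := Fintype.one_lt_card
  obtain ⟨u₀, hu₀, hu₁⟩ := exists_dg h7 h2F
  obtain ⟨τ, hτ, hτ0⟩ := exists_ns h7 h2F
  have hI1 : II (1 : SL2 F) = 1 := by
    show (Subgroup.centralizer ({pi 1} : Set (PSL2 F))).index = 1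
    rw [index_cent_odd h2F 1 (by
      have : tr (1 : SL2 F) = 2 := by simp [tr]; norm_num
      rw [this]; exact h2F)]
    exact index_Tz_one
  have hI2 : II (tv (1 : F)) * 2 = Fintype.card F ^ 2 - 1 := by
    apply II_tr_two h2F
    · simp [tr]; norm_num
    · exact tv_ne_one one_ne_zero
  have hI3 : II τ = Fintype.card F * (Fintype.card F - 1) := by
    show (Subgroup.centralizer ({pi τ} : Set (PSL2 F))).index = _
    rw [index_cent_odd h2F τ hτ0]
    exact index_Tz_nonsplit hτ
  have hI4 : II (dg u₀) = Fintype.card F * (Fintype.card F + 1) := by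
    show (Subgroup.centralizer ({pi (dg u₀)} : Set (PSL2 F))).index = _
    rw [index_cent_odd h2F _ hu₁]
    exact index_Tz_dg hu₀
  refine ⟨fun hmod => ?_, fun hmod => ?_⟩
  · -- `q ≡ 1 (mod 4)`
    have hsq : IsSquare (-1 : F) := FiniteField.isSquare_neg_one_iff.2 (by omega)
    obtain ⟨i, hi⟩ := hsq
    have hi2 : i ^ 2 + 1 = 0 := by linear_combination -hi
    have hi0 : i ≠ 0 := by
      rintro rfl
      simp at hi2
    ext n
    simp only [Set.mem_range, Set.mem_insert_iff, Set.mem_singleton_iff]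
    constructor
    · rintro ⟨g, rfl⟩
      obtain ⟨x, rfl⟩ := pi_surj g
      by_cases h0 : tr x = 0
      · right; right; left
        have := II_B2 h2F x h0 hi2
        simp only [II] at this
        omega
      · rcases II_A h2F x h0 with h | h | h | h
        · left; exact h
        · right; left
          simp only [II] at h
          omega
        · right; right; right; left; exact h
        · right; right; right; right; exact h
    · rintro (h | h | h | h | h)
      · exact ⟨pi 1, by rw [h]; exact hI1⟩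
      · exact ⟨pi (tv 1), by
          rw [h]
          simp only [II] at hI2
          omega⟩
      · let w : F := i
        let u : Fˣ := Units.mk0 i hi0
        have hx0 : tr (dg u) = 0 := by
          rw [tr_dg]
          have h5 : ((u⁻¹ : Fˣ) : F) = i⁻¹ := by simp [u]
          rw [h5]
          show i + i⁻¹ = 0
          field_simp
          linear_combination hi2
        refine ⟨pi (dg u), ?_⟩
        have := II_B2 h2F (dg u) hx0 hi2
        simp only [II] at this
        rw [h]
        omega
      · exact ⟨pi τ, by rw [h]; exact hI3⟩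
      · exact ⟨pi (dg u₀), by rw [h]; exact hI4⟩
  · -- `q ≡ 3 (mod 4)`
    have hsq : ¬ IsSquare (-1 : F) := fun h => FiniteField.isSquare_neg_one_iff.1 h hmod
    have hno : ∀ s : F, s ^ 2 + 1 ≠ 0 := by
      intro s hs
      apply hsq
      exact ⟨s, by linear_combination -hs⟩
    ext n
    simp only [Set.mem_range, Set.mem_insert_iff, Set.mem_singleton_iff]
    constructor
    · rintro ⟨g, rfl⟩
      obtain ⟨x, rfl⟩ := pi_surj g
      by_cases h0 : tr x = 0
      · right; right; left
        have := II_B1 h2F x h0 hno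
        simp only [II] at this
        omega
      · rcases II_A h2F x h0 with h | h | h | h
        · left; exact h
        · right; left
          simp only [II] at h
          omega
        · right; right; right; right; exact h
        · right; right; right; left; exact h
    · rintro (h | h | h | h | h)
      · exact ⟨pi 1, by rw [h]; exact hI1⟩
      · exact ⟨pi (tv 1), by
          rw [h]
          simp only [II] at hI2
          omega⟩
      · refine ⟨pi (cp 0), ?_⟩
        have := II_B1 h2F (cp 0) (tr_cp 0) hno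
        simp only [II] at this
        rw [h]
        omega
      · exact ⟨pi (dg u₀), by rw [h]; exact hI4⟩
      · exact ⟨pi τ, by rw [h]; exact hI3⟩

end Cfsg.Agent.S2508
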