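import Cfsg.Statements.S2514

set_option autoImplicit false
open Cfsg

namespace Cfsg.Agent.S2514

/-- Divisors of element orders are element orders. -/
theorem order_of_dvd {X : Type*} [Group X] (x : X) (n : ℕ) (h : n ∣ orderOf x) (h0 : 0 < orderOf x) :
    ∃ y : X, orderOf y = n := by
  obtain ⟨c, hc⟩ := h
  refine ⟨x ^ c, ?_⟩
  have hc0 : c ≠ 0 := by
    rintro rfl
    rw [mul_zero] at hc
    omega
  rw [orderOf_pow_of_dvd hc0 ⟨n, by rw [hc, mul_comm]⟩, hc]
  exact Nat.mul_div_cancel _ (Nat.pos_of_ne_zero hc0)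

/-- Every order divides a maximal order. -/
theorem exists_max {X : Type*} [Group X] [Finite X] (x : X) :
    ∃ y : X, orderOf x ∣ orderOf y ∧ ∀ m ∈ Set.range (orderOf : X → ℕ), orderOf y ∣ m → m = orderOf y := by
  have hfin : (Set.range (orderOf : X → ℕ) ∩ {m | orderOf x ∣ m}).Finite :=
    (Set.finite_range _).inter_of_left _
  obtain ⟨a, ⟨⟨y, rfl⟩, ha⟩, hmax⟩ := hfin.exists_maximal ⟨orderOf x, ⟨x, rfl⟩, dvd_rfl⟩
  refine ⟨y, ha, ?_⟩
  rintro m ⟨z, rfl⟩ hm
  have h2 : orderOf y ≤ orderOf z := Nat.le_of_dvd (orderOf_pos z) hm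
  have h1 := hmax ⟨⟨z, rfl⟩, (show orderOf x ∣ orderOf y from ha).trans hm⟩ h2
  omega

theorem dvd_order_pi {k : ℕ} {G : Type*} [Group G] (f : Fin k → G) (N : ℕ)
    (h : ∀ i, orderOf (f i) ∣ N) : orderOf f ∣ N := by
  apply orderOf_dvd_of_pow_eq_one
  funext i
  simp only [Pi.pow_apply, Pi.one_apply]
  exact orderOf_dvd_iff_pow_eq_one.mp (h i)

theorem order_comp_dvd {k : ℕ} {X : Type*} [Group X] (f : Fin k → X) (i : Fin k) :
    orderOf (f i) ∣ orderOf f := by
  apply orderOf_dvd_of_pow_eq_one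
  have := pow_orderOf_eq_one f
  have h2 := congrFun this i
  simpa using h2

/-- For a finite group X write μ(X) for the set of element orders of X that are maximal under divisibility. Let G and H be finite groups and k ≥ 1 such that μ(H) ⊆ μ(G) and μ(G) has fewer than k elements outside μ(H). Then the direct product of k copies of G has the same set of element orders as the direct product of k − 1 copies of G with H. -/
theorem result {G H : Type*} [Group G] [Finite G] [Group H] [Finite H] (k : ℕ) (hk : 1 ≤ k)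
    (hsub : {n : ℕ | n ∈ Set.range (orderOf : H → ℕ) ∧ ∀ m ∈ Set.range (orderOf : H → ℕ), n ∣ m → m = n} ⊆ {n : ℕ | n ∈ Set.range (orderOf : G → ℕ) ∧ ∀ m ∈ Set.range (orderOf : G → ℕ), n ∣ m → m = n})
    (hfew : ({n : ℕ | n ∈ Set.range (orderOf : G → ℕ) ∧ ∀ m ∈ Set.range (orderOf : G → ℕ), n ∣ m → m = n} \ {n : ℕ | n ∈ Set.range (orderOf : H → ℕ) ∧ ∀ m ∈ Set.range (orderOf : H → ℕ), n ∣ m → m = n}).ncard < k) :
    Set.range (orderOf : (Fin k → G) → ℕ) = Set.range (orderOf : (Fin (k - 1) → G) × H → ℕ) := by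

  obtain ⟨k, rfl⟩ : ∃ k', k = k' + 1 := ⟨k - 1, by omega⟩
  show Set.range (orderOf : (Fin (k + 1) → G) → ℕ) = Set.range (orderOf : (Fin k → G) × H → ℕ)
  have hupper : ∀ f : Fin (k + 1) → G, ∃ y : (Fin k → G) × H, orderOf f ∣ orderOf y := by
    intro f
    choose g hg1 hg2 using fun i => exists_max (f i)
    have hmemG : ∀ i, orderOf (g i) ∈ {n : ℕ | n ∈ Set.range (orderOf : G → ℕ) ∧ ∀ m ∈ Set.range (orderOf : G → ℕ), n ∣ m → m = n} :=
      fun i => ⟨⟨g i, rfl⟩, hg2 i⟩
    by_cases hc : ∃ i, orderOf (g i) ∈ {n : ℕ | n ∈ Set.range (orderOf : H → ℕ) ∧ ∀ m ∈ Set.range (orderOf : H → ℕ), n ∣ m → m = n}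
    · obtain ⟨i₀, ⟨h, hh⟩, -⟩ := hc
      refine ⟨(fun j => g (i₀.succAbove j), h), ?_⟩
      apply dvd_order_pi
      intro i
      refine (hg1 i).trans ?_
      rcases Fin.eq_self_or_eq_succAbove i₀ i with rfl | ⟨j, rfl⟩
      · rw [← hh]
        exact orderOf_map_dvd (MonoidHom.snd (Fin k → G) H) _
      · have h1 : orderOf (g (i₀.succAbove j)) ∣ orderOf (fun j => g (i₀.succAbove j)) :=
          order_comp_dvd (fun j => g (i₀.succAbove j)) j
        exact h1.trans (orderOf_map_dvd (MonoidHom.fst (Fin k → G) H) _)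
    · push Not at hc
      set D : Set ℕ := {n : ℕ | n ∈ Set.range (orderOf : G → ℕ) ∧ ∀ m ∈ Set.range (orderOf : G → ℕ), n ∣ m → m = n} \ {n : ℕ | n ∈ Set.range (orderOf : H → ℕ) ∧ ∀ m ∈ Set.range (orderOf : H → ℕ), n ∣ m → m = n} with hD
      have hDfin : D.Finite := (Set.finite_range (orderOf : G → ℕ)).subset (fun n hn => hn.1.1)
      let m' : Fin (k + 1) → D := fun i => ⟨orderOf (g i), hmemG i, hc i⟩
      have hni : ¬ Function.Injective m' := by
        intro hi
        haveI := hDfin.to_subtype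
        have := Nat.card_le_card_of_injective m' hi
        rw [Nat.card_coe_set_eq, Nat.card_eq_fintype_card, Fintype.card_fin] at this
        omega
      rw [Function.Injective] at hni
      push Not at hni
      obtain ⟨i, j, hij, hne⟩ := hni
      have hij' : orderOf (g i) = orderOf (g j) := congrArg Subtype.val hij
      refine ⟨(fun l => g (i.succAbove l), 1), ?_⟩
      apply dvd_order_pi
      intro l
      refine (hg1 l).trans ?_
      have key : ∀ l', orderOf (g (i.succAbove l')) ∣ orderOf ((fun l => g (i.succAbove l), (1 : H)) : (Fin k → G) × H) := by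
        intro l'
        have h1 : orderOf (g (i.succAbove l')) ∣ orderOf (fun j => g (i.succAbove j)) :=
          order_comp_dvd (fun j => g (i.succAbove j)) l'
        exact h1.trans (orderOf_map_dvd (MonoidHom.fst (Fin k → G) H) _)
      rcases Fin.eq_self_or_eq_succAbove i l with hl | ⟨l', hl⟩
      · rw [hl]
        rcases Fin.eq_self_or_eq_succAbove i j with h | ⟨j', hj'⟩
        · exact absurd h.symm hne
        · rw [hij', hj']
          exact key j'
      · rw [hl]
        exact key l'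
  have hlower : ∀ y : (Fin k → G) × H, ∃ f : Fin (k + 1) → G, orderOf y ∣ orderOf f := by
    rintro ⟨f', h⟩
    obtain ⟨h', hh1, hh2⟩ := exists_max h
    have hm : orderOf h' ∈ {n : ℕ | n ∈ Set.range (orderOf : G → ℕ) ∧ ∀ m ∈ Set.range (orderOf : G → ℕ), n ∣ m → m = n} :=
      hsub ⟨⟨h', rfl⟩, hh2⟩
    obtain ⟨g₀, hg₀⟩ := hm.1
    refine ⟨Fin.cons g₀ f', ?_⟩
    apply orderOf_dvd_of_pow_eq_one
    have h0 : orderOf g₀ ∣ orderOf (Fin.cons g₀ f' : Fin (k + 1) → G) := by
      have := order_comp_dvd (Fin.cons g₀ f' : Fin (k + 1) → G) 0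
      simpa using this
    apply Prod.ext
    · have h1 : orderOf f' ∣ orderOf (Fin.cons g₀ f' : Fin (k + 1) → G) := by
        apply dvd_order_pi
        intro i
        have := order_comp_dvd (Fin.cons g₀ f' : Fin (k + 1) → G) i.succ
        simpa using this
      simpa using orderOf_dvd_iff_pow_eq_one.mp h1
    · have h1 : orderOf h ∣ orderOf (Fin.cons g₀ f' : Fin (k + 1) → G) :=
        hh1.trans (by rw [← hg₀]; exact h0)
      simpa using orderOf_dvd_iff_pow_eq_one.mp h1
  ext n
  constructor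
  · rintro ⟨f, rfl⟩
    obtain ⟨y, hy⟩ := hupper f
    exact order_of_dvd y _ hy (orderOf_pos y)
  · rintro ⟨y, rfl⟩
    obtain ⟨f, hf⟩ := hlower y
    exact order_of_dvd f _ hf (orderOf_pos f)

end Cfsg.Agent.S2514
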