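import Cfsg.Statements.S2516

set_option autoImplicit false
open Cfsg

namespace Cfsg.Agent.S2516

/-- The powers in the semidirect product. -/
theorem pow_eq {F : Type*} [Field F] {V : Type*} [AddCommGroup V] [Module F V]
    {G : Type*} [Group G] (ρ : Representation F G V) (g : G) (v : V) (n : ℕ) :
    ((⟨Multiplicative.ofAdd v, g⟩ : Multiplicative V ⋊[(MulAutMultiplicative V).symm.toMonoidHom.comp
        ((DistribMulAction.toAddAut ((V →ₗ[F] V)ˣ) V).comp ρ.asGroupHom)] G) ^ n) =
      ⟨Multiplicative.ofAdd ((∑ i ∈ Finset.range n, (ρ g) ^ i) v), g ^ n⟩ := by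
  induction n with
  | zero =>
    simp only [pow_zero, Finset.range_zero, Finset.sum_empty, LinearMap.zero_apply]
    rfl
  | succ n ih =>
    rw [pow_succ, ih, Finset.sum_range_succ]
    refine SemidirectProduct.ext ?_ ?_
    · show Multiplicative.ofAdd ((∑ i ∈ Finset.range n, (ρ g) ^ i) v) *
        (Multiplicative.ofAdd (ρ (g ^ n) v)) = _
      rw [map_pow, ← ofAdd_add]
      rfl
    · show g ^ n * g = g ^ (n + 1)
      rw [pow_succ]

/-- Let F be a field of characteristic p > 0, V a non-zero finite-dimensional F-vector space, G a finite group and ρ a representation of G on V; form the semidirect product V ⋊ G. For g ∈ G of order k, the coset Vg contains an element of order pk if and only if the minimal polynomial of ρ(g) does not divide 1 + X + ⋯ + X^(k−1). -/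
theorem result {F : Type*} [Field F] (p : ℕ) [Fact p.Prime] [CharP F p] {V : Type*} [AddCommGroup V] [Module F V] [FiniteDimensional F V] [Nontrivial V]
    {G : Type*} [Group G] [Finite G] (ρ : Representation F G V) (g : G) :
    (∃ x : Multiplicative V ⋊[(MulAutMultiplicative V).symm.toMonoidHom.comp
        ((DistribMulAction.toAddAut ((V →ₗ[F] V)ˣ) V).comp ρ.asGroupHom)] G,
        x.right = g ∧ orderOf x = p * orderOf g) ↔
      ¬ (minpoly F (ρ g) ∣ ∑ i ∈ Finset.range (orderOf g), (Polynomial.X : Polynomial F) ^ i) := by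

  classical
  set φ := (MulAutMultiplicative V).symm.toMonoidHom.comp
        ((DistribMulAction.toAddAut ((V →ₗ[F] V)ˣ) V).comp ρ.asGroupHom) with hφ
  have hp : p.Prime := Fact.out
  have hk : 0 < orderOf g := orderOf_pos g
  set k := orderOf g with hkdef
  have haev : Polynomial.aeval (ρ g) (∑ i ∈ Finset.range k, (Polynomial.X : Polynomial F) ^ i) =
      ∑ i ∈ Finset.range k, (ρ g) ^ i := by
    simp only [map_sum, map_pow, Polynomial.aeval_X]
  rw [minpoly.dvd_iff, haev]
  have hgk : g ^ k = 1 := pow_orderOf_eq_one g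
  constructor
  · rintro ⟨x, hx, hord⟩ h0
    have hxe : x = ⟨Multiplicative.ofAdd (Multiplicative.toAdd x.left), g⟩ := by
      refine SemidirectProduct.ext rfl hx
    have h1 : x ^ k = 1 := by
      rw [hxe, pow_eq, h0, hgk]
      simp only [LinearMap.zero_apply]
      rfl
    have h2 := orderOf_dvd_of_pow_eq_one h1
    rw [hord] at h2
    have h3 : p * k ≤ k := Nat.le_of_dvd hk h2
    have := hp.two_le
    nlinarith
  · intro h0
    obtain ⟨v, hv⟩ : ∃ v, (∑ i ∈ Finset.range k, (ρ g) ^ i) v ≠ 0 := by
      by_contra h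
      push Not at h
      exact h0 (LinearMap.ext h)
    let x : Multiplicative V ⋊[φ] G := ⟨Multiplicative.ofAdd v, g⟩
    have hxk : x ^ k = ⟨Multiplicative.ofAdd ((∑ i ∈ Finset.range k, (ρ g) ^ i) v), 1⟩ := by
      rw [← hgk]
      exact pow_eq ρ g v k
    have hxp : x ^ (k * p) = 1 := by
      rw [pow_mul, hxk]
      have e := pow_eq ρ 1 ((∑ i ∈ Finset.range k, (ρ g) ^ i) v) p
      rw [map_one, one_pow] at e
      rw [e]
      refine SemidirectProduct.ext ?_ rfl
      show Multiplicative.ofAdd _ = 1
      simp only [one_pow, Finset.sum_const, Finset.card_range, LinearMap.smul_apply,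
        Module.End.one_apply]
      rw [← Nat.cast_smul_eq_nsmul F, CharP.cast_eq_zero F p, zero_smul]
      rfl
    refine ⟨x, rfl, ?_⟩
    have h1 : k ∣ orderOf x := by
      have := orderOf_map_dvd (SemidirectProduct.rightHom (φ := φ)) x
      simpa [x] using this
    obtain ⟨d, hd⟩ := h1
    have h2 : orderOf x ∣ k * p := orderOf_dvd_of_pow_eq_one hxp
    rw [hd] at h2
    have h3 : d ∣ p := Nat.dvd_of_mul_dvd_mul_left hk h2
    rcases (Nat.dvd_prime hp).mp h3 with rfl | rfl
    · exfalso
      have h4 : x ^ k = 1 := by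
        have : x ^ orderOf x = 1 := pow_orderOf_eq_one x
        rwa [hd, mul_one] at this
      rw [hxk] at h4
      have h5 := congrArg SemidirectProduct.left h4
      apply hv
      exact h5
    · rw [hd, mul_comm]

end Cfsg.Agent.S2516
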