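import Cfsg.Statements.S2593
import Cfsg.Agent.Lib.SpInv

set_option autoImplicit false
open Cfsg

namespace Cfsg.Agent.S2593


open Matrix Cfsg.Agent.Lib.SympBasic Cfsg.Agent.Lib.SpInv

section
variable {F : Type*} [Field F] {m : ℕ}

/-- The involution attached to a symmetric matrix. -/
def tS (S : Matrix (Fin m) (Fin m) F) : Matrix (Fin m ⊕ Fin m) (Fin m ⊕ Fin m) F := Matrix.fromBlocks 1 0 S 1

theorem tS_mem (S : Matrix (Fin m) (Fin m) F) (hS : S.IsSymm) : tS S ∈ Matrix.symplecticGroup (Fin m) F := by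
  rw [SymplecticGroup.mem_iff]
  unfold tS Matrix.J
  rw [Matrix.fromBlocks_transpose, Matrix.fromBlocks_multiply, Matrix.fromBlocks_multiply]
  simp [hS.eq]

variable [Fintype F] [CharP F 2]

theorem tS_sq (S : Matrix (Fin m) (Fin m) F) : tS S * tS S = 1 := by
  rw [tS, Matrix.fromBlocks_multiply]
  have h : S + S = 0 := by
    ext i j
    exact CharTwo.add_self_eq_zero _
  simp [h]

theorem tS_N (S : Matrix (Fin m) (Fin m) F) (v : Fin m ⊕ Fin m → F) :
    (tS S - 1) *ᵥ v = Sum.elim (0 : Fin m → F) (S *ᵥ (v ∘ Sum.inl)) := by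
  rw [N_apply, tS, Matrix.fromBlocks_mulVec]
  ext i
  rcases i with i | i
  · simp
    exact CharTwo.add_self_eq_zero _
  · simp
    rw [add_assoc, CharTwo.add_self_eq_zero, add_zero]

theorem psi_tS (S : Matrix (Fin m) (Fin m) F) (u v : Fin m ⊕ Fin m → F) :
    psi (tS S) u v = (u ∘ Sum.inl) ⬝ᵥ (S *ᵥ (v ∘ Sum.inl)) := by
  rw [psi_apply, tS_N, sympForm_apply]
  simp [dotProduct, CharTwo.neg_eq, Finset.sum_neg_distrib]

theorem inv_tS (S : Matrix (Fin m) (Fin m) F) (hS : S.IsSymm) : IsInv (tS S) :=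
  ⟨tS_sq S, (preserves_iff_mem _).2 (tS_mem S hS)⟩

theorem frame_tS {ι : Type} [Fintype ι] [DecidableEq ι] (κ : ι → Fin m) (hκ : Function.Injective κ)
    (S : Matrix (Fin m) (Fin m) F) (G H : Matrix ι ι F) (hH : H * G = 1)
    (hSκ : ∀ a b, S (κ a) (κ b) = G a b) (hsupp : ∀ i j, S i j ≠ 0 → ∃ a, κ a = i) :
    Frame (tS S) G H (fun a => Pi.single (Sum.inl (κ a)) 1) := by
  have e : ∀ c, ((Pi.single (Sum.inl (κ c)) 1 : Fin m ⊕ Fin m → F) ∘ Sum.inl) = Pi.single (κ c) 1 := by
    intro c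
    ext i
    simp [Pi.single_apply]
  refine ⟨?_, hH, ?_⟩
  · intro a b
    rw [psi_tS, e, e, single_one_dotProduct, mulVec_single_one]
    exact hSκ a b
  · intro v
    refine ⟨fun a => v (Sum.inl (κ a)), fun u => ?_⟩
    rw [psi_tS]
    have hw : ∀ a, (v - ∑ c, v (Sum.inl (κ c)) • (Pi.single (Sum.inl (κ c)) 1 : Fin m ⊕ Fin m → F)) (Sum.inl (κ a)) = 0 := by
      intro a
      rw [Pi.sub_apply, Finset.sum_apply, Finset.sum_eq_single a]
      · simp
      · intro c _ hc
        have : (Sum.inl (κ a) : Fin m ⊕ Fin m) ≠ Sum.inl (κ c) := by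
          intro h
          exact hc (hκ (Sum.inl_injective h)).symm
        simp [Pi.single_apply, this]
      · simp
    simp only [dotProduct, Function.comp_apply]
    refine Finset.sum_eq_zero fun i _ => ?_
    by_cases hi : ∃ a, κ a = i
    · obtain ⟨a, rfl⟩ := hi
      rw [hw, zero_mul]
    · have h0 : (S *ᵥ (u ∘ Sum.inl)) i = 0 := by
        simp only [Matrix.mulVec, dotProduct]
        refine Finset.sum_eq_zero fun j _ => ?_
        by_cases hs : S i j = 0
        · rw [hs, zero_mul]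
        · exact absurd (hsupp i j hs) hi
      rw [h0, mul_zero]

/-- Non-alternating normal form. -/
def Snon (m r : ℕ) : Matrix (Fin m) (Fin m) F := Matrix.diagonal fun i => if i.val < r then 1 else 0

theorem Snon_symm (r : ℕ) : (Snon m r : Matrix (Fin m) (Fin m) F).IsSymm := Matrix.isSymm_diagonal _

theorem frame_non (r : ℕ) (hr : r ≤ m) : Frame (tS (Snon m r : Matrix (Fin m) (Fin m) F)) (1 : Matrix (Fin r) (Fin r) F) 1
    (fun a => Pi.single (Sum.inl (Fin.castLE hr a)) 1) := by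
  refine frame_tS (Fin.castLE hr) (Fin.castLE_injective hr) _ _ _ (by simp) ?_ ?_
  · intro a b
    simp only [Snon, Matrix.diagonal_apply, Fin.castLE_inj, Matrix.one_apply, Fin.val_castLE]
    by_cases h : a = b
    · simp [h]
    · simp [h]
  · intro i j h
    simp only [Snon, Matrix.diagonal_apply] at h
    by_cases hij : i = j
    · subst hij
      simp only [if_true] at h
      by_cases hi : i.val < r
      · exact ⟨⟨i.val, hi⟩, Fin.ext rfl⟩
      · simp [hi] at h
    · simp [hij] at h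

/-- Alternating normal form. -/
def Salt (m s : ℕ) : Matrix (Fin m) (Fin m) F :=
  Matrix.of fun i j => if i.val / 2 = j.val / 2 ∧ i.val / 2 < s ∧ i ≠ j then 1 else 0

theorem Salt_symm (s : ℕ) : (Salt m s : Matrix (Fin m) (Fin m) F).IsSymm := by
  apply Matrix.IsSymm.ext
  intro i j
  simp only [Salt, Matrix.of_apply]
  by_cases h : i.val / 2 = j.val / 2 ∧ i.val / 2 < s ∧ i ≠ j
  · rw [if_pos h, if_pos ⟨h.1.symm, h.1 ▸ h.2.1, h.2.2.symm⟩]
  · rw [if_neg h, if_neg]
    rintro ⟨h1, h3, h4⟩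
    exact h ⟨h1.symm, h1 ▸ h3, h4.symm⟩

/-- The embedding of the hyperbolic index set. -/
def kap (s : ℕ) (hs : 2 * s ≤ m) : Fin s ⊕ Fin s → Fin m
  | Sum.inl a => ⟨2 * a.val, by have := a.2; omega⟩
  | Sum.inr a => ⟨2 * a.val + 1, by have := a.2; omega⟩

theorem kap_inj (s : ℕ) (hs : 2 * s ≤ m) : Function.Injective (kap (m := m) s hs) := by
  rintro (a | a) (b | b) h <;> simp only [kap, Fin.mk.injEq] at h
  · congr 1
    apply Fin.ext
    omega
  · omega
  · omega
  · congr 1
    apply Fin.ext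
    omega

theorem frame_alt' (s : ℕ) (hs : 2 * s ≤ m) : Frame (tS (Salt m s : Matrix (Fin m) (Fin m) F)) (hyp s) (hyp s)
    (fun a => Pi.single (Sum.inl (kap s hs a)) 1) := by
  refine frame_tS (kap s hs) (kap_inj s hs) _ _ _ (hyp_mul s) ?_ ?_
  · rintro (a | a) (b | b)
    · simp only [Salt, kap, Matrix.of_apply, hyp, Matrix.fromBlocks_apply₁₁, Matrix.zero_apply]
      rw [if_neg]
      rintro ⟨h1, h3, h4⟩
      apply h4
      apply Fin.ext
      simp only
      omega
    · simp only [Salt, kap, Matrix.of_apply, hyp, Matrix.fromBlocks_apply₁₂, Matrix.one_apply]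
      by_cases h : a = b
      · subst h
        rw [if_pos rfl, if_pos]
        refine ⟨by omega, ?_, ?_⟩
        · have := a.2
          omega
        · intro h9
          have := congrArg Fin.val h9
          simp only at this
          omega
      · rw [if_neg h, if_neg]
        rintro ⟨h1, -, -⟩
        apply h
        apply Fin.ext
        omega
    · simp only [Salt, kap, Matrix.of_apply, hyp, Matrix.fromBlocks_apply₂₁, Matrix.one_apply]
      by_cases h : a = b
      · subst h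
        rw [if_pos rfl, if_pos]
        refine ⟨by omega, ?_, ?_⟩
        · have := a.2
          omega
        · intro h9
          have := congrArg Fin.val h9
          simp only at this
          omega
      · rw [if_neg h, if_neg]
        rintro ⟨h1, -, -⟩
        apply h
        apply Fin.ext
        omega
    · simp only [Salt, kap, Matrix.of_apply, hyp, Matrix.fromBlocks_apply₂₂, Matrix.zero_apply]
      rw [if_neg]
      rintro ⟨h1, h3, h4⟩
      apply h4
      apply Fin.ext
      simp only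
      omega
  · intro i j h
    simp only [Salt, Matrix.of_apply] at h
    by_cases hc : i.val / 2 = j.val / 2 ∧ i.val / 2 < s ∧ i ≠ j
    · obtain ⟨-, h3, -⟩ := hc
      rcases Nat.even_or_odd' i.val with ⟨c, hc | hc⟩
      · refine ⟨Sum.inl ⟨c, by omega⟩, ?_⟩
        apply Fin.ext
        simp only [kap]
        omega
      · refine ⟨Sum.inr ⟨c, by omega⟩, ?_⟩
        apply Fin.ext
        simp only [kap]
        omega
    · rw [if_neg hc] at h
      exact absurd rfl h

theorem dot_self_zero (S : Matrix (Fin m) (Fin m) F) (hS : S.IsSymm) (hd : ∀ i, S i i = 0) (x : Fin m → F) :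
    x ⬝ᵥ (S *ᵥ x) = 0 := by
  simp only [dotProduct, Matrix.mulVec, Finset.mul_sum]
  rw [← Finset.sum_product']
  refine Finset.sum_involution (fun p _ => (p.2, p.1)) ?_ ?_ ?_ ?_
  · rintro ⟨i, j⟩ _
    simp only
    rw [hS.apply i j]
    have : x i * (S i j * x j) + x j * (S i j * x i) = 2 * (x i * (S i j * x j)) := by ring
    rw [this, CharTwo.two_eq_zero, zero_mul]
  · rintro ⟨i, j⟩ _ h h2
    simp only [Prod.mk.injEq] at h2
    obtain ⟨rfl, -⟩ := h2
    simp [hd] at h
  · intro p _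
    simp
  · intro p _
    rfl

theorem Salt_alt (s : ℕ) (v : Fin m ⊕ Fin m → F) : psi (tS (Salt m s : Matrix (Fin m) (Fin m) F)) v v = 0 := by
  rw [psi_tS]
  apply dot_self_zero _ (Salt_symm s)
  intro i
  simp [Salt]

theorem rank_le {A : Matrix (Fin m ⊕ Fin m) (Fin m ⊕ Fin m) F} (hA : IsInv A) : (A - 1).rank ≤ m := by
  have h1 : LinearMap.range (A - 1).mulVecLin ≤ LinearMap.ker (A - 1).mulVecLin := by
    rintro _ ⟨v, rfl⟩
    rw [LinearMap.mem_ker, Matrix.mulVecLin_apply, Matrix.mulVecLin_apply]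
    exact hA.NN v
  have h2 := Submodule.finrank_mono h1
  have h3 := LinearMap.finrank_range_add_finrank_ker (A - 1).mulVecLin
  rw [Module.finrank_fintype_fun_eq_card, Fintype.card_sum, Fintype.card_fin] at h3
  have h4 : (A - 1).rank = Module.finrank F (LinearMap.range (A - 1).mulVecLin) := rfl
  omega

theorem eq_one_of_rank {A : Matrix (Fin m ⊕ Fin m) (Fin m ⊕ Fin m) F} (h : (A - 1).rank = 0) : A = 1 := by
  have h1 : Module.finrank F (LinearMap.range (A - 1).mulVecLin) = 0 := h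
  rw [Submodule.finrank_eq_zero] at h1
  rw [LinearMap.range_eq_bot] at h1
  rw [← sub_eq_zero, Matrix.ext_iff_mulVec]
  intro v
  have h2 : (A - 1).mulVecLin v = 0 := by rw [h1]; rfl
  rw [Matrix.mulVecLin_apply] at h2
  rw [h2, Matrix.zero_mulVec]

theorem alt_of_conj {a b : Cfsg.Agent.Lib.SympTrans.Sp m F} (h : IsConj a b)
    (ha : ∀ v, psi (a : Matrix (Fin m ⊕ Fin m) (Fin m ⊕ Fin m) F) v v = 0) :
    ∀ v, psi (b : Matrix (Fin m ⊕ Fin m) (Fin m ⊕ Fin m) F) v v = 0 := by
  obtain ⟨g, rfl⟩ := isConj_iff.1 h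
  intro v
  set M : Matrix (Fin m ⊕ Fin m) (Fin m ⊕ Fin m) F := (g : Matrix (Fin m ⊕ Fin m) (Fin m ⊕ Fin m) F) with hM
  set Mi : Matrix (Fin m ⊕ Fin m) (Fin m ⊕ Fin m) F := ((g⁻¹ : Cfsg.Agent.Lib.SympTrans.Sp m F) : Matrix (Fin m ⊕ Fin m) (Fin m ⊕ Fin m) F) with hMi
  have h1 : M * Mi = 1 := congrArg Subtype.val (mul_inv_cancel g)
  have hp : ∀ u v, Cfsg.sympForm m F (M *ᵥ u) (M *ᵥ v) = Cfsg.sympForm m F u v := (preserves_iff_mem _).2 g.2
  have hc : ((g * a * g⁻¹ : Cfsg.Agent.Lib.SympTrans.Sp m F) : Matrix (Fin m ⊕ Fin m) (Fin m ⊕ Fin m) F) = M * (a : Matrix (Fin m ⊕ Fin m) (Fin m ⊕ Fin m) F) * Mi := rfl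
  rw [hc, psi_self]
  have e2 : M *ᵥ (Mi *ᵥ v) = v := by rw [Matrix.mulVec_mulVec, h1, Matrix.one_mulVec]
  have e3 : (M * (a : Matrix (Fin m ⊕ Fin m) (Fin m ⊕ Fin m) F) * Mi) *ᵥ v = M *ᵥ ((a : Matrix (Fin m ⊕ Fin m) (Fin m ⊕ Fin m) F) *ᵥ (Mi *ᵥ v)) := by
    rw [Matrix.mulVec_mulVec, Matrix.mulVec_mulVec, Matrix.mul_assoc]
  rw [e3]
  nth_rewrite 1 [← e2]
  rw [hp, ← psi_self]
  exact ha _

/-- The explicit involutions. -/
noncomputable def ee (m : ℕ) (F : Type*) [Field F] [Fintype F] [CharP F 2] : Fin m ⊕ Fin (m / 2) → Cfsg.Agent.Lib.SympTrans.Sp m F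
  | Sum.inl i => ⟨tS (Snon m (i.val + 1)), tS_mem _ (Snon_symm _)⟩
  | Sum.inr j => ⟨tS (Salt m (j.val + 1)), tS_mem _ (Salt_symm _)⟩

theorem ee_inv (τ : Fin m ⊕ Fin (m / 2)) : IsInv ((ee m F τ : Cfsg.Agent.Lib.SympTrans.Sp m F) : Matrix (Fin m ⊕ Fin m) (Fin m ⊕ Fin m) F) := by
  rcases τ with i | j
  · exact inv_tS _ (Snon_symm _)
  · exact inv_tS _ (Salt_symm _)

theorem rank_inl (i : Fin m) : (((ee m F (Sum.inl i) : Cfsg.Agent.Lib.SympTrans.Sp m F) : Matrix (Fin m ⊕ Fin m) (Fin m ⊕ Fin m) F) - 1).rank = i.val + 1 := by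
  have h := rank_eq (inv_tS (Snon m (i.val + 1) : Matrix (Fin m) (Fin m) F) (Snon_symm _)) (frame_non (i.val + 1) i.2)
  show (tS (Snon m (i.val + 1) : Matrix (Fin m) (Fin m) F) - 1).rank = _
  simpa using h

theorem hj (j : Fin (m / 2)) : 2 * (j.val + 1) ≤ m := by
  have := j.2
  omega

theorem rank_inr (j : Fin (m / 2)) : (((ee m F (Sum.inr j) : Cfsg.Agent.Lib.SympTrans.Sp m F) : Matrix (Fin m ⊕ Fin m) (Fin m ⊕ Fin m) F) - 1).rank = j.val + 1 + (j.val + 1) := by
  have h := rank_eq (inv_tS (Salt m (j.val + 1) : Matrix (Fin m) (Fin m) F) (Salt_symm _)) (frame_alt' (j.val + 1) (hj j))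
  show (tS (Salt m (j.val + 1) : Matrix (Fin m) (Fin m) F) - 1).rank = _
  simpa using h

theorem nonalt_inl (i : Fin m) : ¬ ∀ v, psi ((ee m F (Sum.inl i) : Cfsg.Agent.Lib.SympTrans.Sp m F) : Matrix (Fin m ⊕ Fin m) (Fin m ⊕ Fin m) F) v v = 0 := by
  intro h
  have h' : ∀ v, psi (tS (Snon m (i.val + 1) : Matrix (Fin m) (Fin m) F)) v v = 0 := h
  have h2 := (frame_non (F := F) (i.val + 1) i.2).gram 0 0
  rw [h'] at h2
  simp at h2

theorem ee_order (τ : Fin m ⊕ Fin (m / 2)) : orderOf (ee m F τ) = 2 := by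
  refine orderOf_eq_prime ?_ ?_
  · apply Subtype.ext
    rw [pow_two]
    exact (ee_inv τ).sq
  · intro h
    have h1 : (((ee m F τ : Cfsg.Agent.Lib.SympTrans.Sp m F) : Matrix (Fin m ⊕ Fin m) (Fin m ⊕ Fin m) F) - 1).rank = 0 := by
      rw [h]
      simp
    rcases τ with i | j
    · rw [rank_inl] at h1
      omega
    · rw [rank_inr] at h1
      omega

end


/-- Number of conjugacy classes of involutions in the symplectic group Sp_2m(F) over a finite field of characteristic two (m ≥ 1): for each s with 1 ≤ s ≤ m there is one class with rank(t − 1) = s if s is odd and two if s is even (according as v ↦ f(v, tv), f the symplectic form, vanishes identically or not), so m + ⌊m/2⌋ classes in all. -/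
theorem result {F : Type*} [Field F] [Fintype F] [CharP F 2] {m : ℕ} (hm : 1 ≤ m) : Nat.card {C : ConjClasses ↥(Matrix.symplecticGroup (Fin m) F) // ∃ g : Matrix.symplecticGroup (Fin m) F, ConjClasses.mk g = C ∧ orderOf g = 2} = m + m / 2 := by
  classical
  let f : Fin m ⊕ Fin (m / 2) → {C : ConjClasses ↥(Matrix.symplecticGroup (Fin m) F) // ∃ g : Matrix.symplecticGroup (Fin m) F, ConjClasses.mk g = C ∧ orderOf g = 2} :=
    fun τ => ⟨ConjClasses.mk (ee m F τ), ee m F τ, rfl, ee_order τ⟩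
  have hf : Function.Bijective f := by
    constructor
    · intro τ τ' h
      have h1 : ConjClasses.mk (ee m F τ) = ConjClasses.mk (ee m F τ') := congrArg Subtype.val h
      rw [ConjClasses.mk_eq_mk_iff_isConj] at h1
      have hr := rank_of_conj h1
      rcases τ with i | j <;> rcases τ' with i' | j'
      · rw [rank_inl, rank_inl] at hr
        congr 1
        apply Fin.ext
        omega
      · exact absurd (alt_of_conj h1.symm (fun v => Salt_alt _ v)) (nonalt_inl i)
      · exact absurd (alt_of_conj h1 (fun v => Salt_alt _ v)) (nonalt_inl i')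
      · rw [rank_inr, rank_inr] at hr
        congr 1
        apply Fin.ext
        omega
    · rintro ⟨_, g, rfl, hg⟩
      have hA := isInv_of_order g hg
      have hle := rank_le hA
      have hg1 : g ≠ 1 := by
        rintro rfl
        simp at hg
      have hpos : ((g : Matrix (Fin m ⊕ Fin m) (Fin m ⊕ Fin m) F) - 1).rank ≠ 0 := by
        intro h
        apply hg1
        apply Subtype.ext
        exact eq_one_of_rank h
      by_cases h : ∀ v, psi (g : Matrix (Fin m ⊕ Fin m) (Fin m ⊕ Fin m) F) v v = 0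
      · obtain ⟨s, x, hx⟩ := frame_alt hA h
        have hrk := rank_eq hA hx
        simp only [Fintype.card_sum, Fintype.card_fin] at hrk
        have hs : s - 1 < m / 2 := by omega
        refine ⟨Sum.inr ⟨s - 1, hs⟩, ?_⟩
        apply Subtype.ext
        show ConjClasses.mk _ = ConjClasses.mk g
        rw [ConjClasses.mk_eq_mk_iff_isConj]
        apply isConj_of_inv (ee_inv _) hA
        · rw [rank_inr, hrk]
          simp only
          omega
        · exact ⟨fun _ => h, fun _ v => Salt_alt _ v⟩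
      · have hr : ((g : Matrix (Fin m ⊕ Fin m) (Fin m ⊕ Fin m) F) - 1).rank - 1 < m := by omega
        refine ⟨Sum.inl ⟨_, hr⟩, ?_⟩
        apply Subtype.ext
        show ConjClasses.mk _ = ConjClasses.mk g
        rw [ConjClasses.mk_eq_mk_iff_isConj]
        apply isConj_of_inv (ee_inv _) hA
        · rw [rank_inl]
          simp only
          omega
        · exact ⟨fun h' => absurd h' (nonalt_inl _), fun h' => absurd h' h⟩
  rw [← Nat.card_congr (Equiv.ofBijective f hf), Nat.card_eq_fintype_card, Fintype.card_sum, Fintype.card_fin, Fintype.card_fin]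

end Cfsg.Agent.S2593
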