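import Cfsg.Statements.S2904
import Mathlib.RingTheory.Polynomial.Cyclotomic.Expand
import Mathlib.Data.ZMod.Basic
import Mathlib.RingTheory.Polynomial.Cyclotomic.Eval
import Mathlib.NumberTheory.Multiplicity
import Mathlib.Data.Nat.Multiplicity

set_option autoImplicit false
open Cfsg

namespace Cfsg.Agent.S2904

open Polynomial

lemma cyc_iff (p q f : ℕ) (hp : p.Prime) (hpq : ¬ p ∣ q) :
    ((p : ℤ) ∣ (Polynomial.cyclotomic f ℤ).eval (q : ℤ)) ↔ ∃ j : ℕ, f = orderOf (q : ZMod p) * p ^ j := by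
  classical
  haveI : Fact p.Prime := ⟨hp⟩
  have hq0 : ((q : ℕ) : ZMod p) ≠ 0 := by
    rw [Ne, ZMod.natCast_eq_zero_iff]
    exact hpq
  have heval : ((p : ℤ) ∣ (Polynomial.cyclotomic f ℤ).eval (q : ℤ)) ↔
      (Polynomial.cyclotomic f (ZMod p)).eval (q : ZMod p) = 0 := by
    rw [← Polynomial.map_cyclotomic_int f (ZMod p), Polynomial.eval_map,
      ← ZMod.intCast_zmod_eq_zero_iff_dvd]
    have : Polynomial.eval₂ (Int.castRingHom (ZMod p)) ((q : ℕ) : ZMod p) (Polynomial.cyclotomic f ℤ)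
        = (((Polynomial.cyclotomic f ℤ).eval (q : ℤ) : ℤ) : ZMod p) := by
      have h1 := Polynomial.hom_eval₂ (Polynomial.cyclotomic f ℤ) (RingHom.id ℤ) (Int.castRingHom (ZMod p)) (q : ℤ)
      simp only [Polynomial.eval₂_id, RingHomCompTriple.comp_eq] at h1
      have h2 : (Int.castRingHom (ZMod p)) (q : ℤ) = ((q : ℕ) : ZMod p) := by simp
      rw [h2] at h1
      simpa using h1.symm
    rw [this]
  rw [heval]
  have he0 : orderOf (q : ZMod p) ≠ 0 := by
    have hu : IsUnit ((q : ℕ) : ZMod p) := isUnit_iff_ne_zero.mpr hq0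
    exact (orderOf_pos_iff.mpr hu.isOfFinOrder).ne'
  have hep : ¬ p ∣ orderOf (q : ZMod p) := by
    have hu : IsUnit ((q : ℕ) : ZMod p) := isUnit_iff_ne_zero.mpr hq0
    have h1 : orderOf (q : ZMod p) ∣ p - 1 := by
      apply orderOf_dvd_of_pow_eq_one
      exact ZMod.pow_card_sub_one_eq_one hq0
    intro h2
    have h3 := Nat.le_of_dvd (Nat.sub_pos_of_lt hp.one_lt) (h2.trans h1)
    have := hp.one_lt
    omega
  by_cases hf : f = 0
  · subst hf
    simp only [Polynomial.cyclotomic_zero, Polynomial.eval_one, one_ne_zero, false_iff]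
    rintro ⟨j, hj⟩
    have : 0 < orderOf (q : ZMod p) * p ^ j := Nat.mul_pos (Nat.pos_of_ne_zero he0) (pow_pos hp.pos j)
    omega
  obtain ⟨k, m, hm, rfl⟩ := Nat.exists_eq_pow_mul_and_not_dvd hf p hp.ne_one
  have hm0 : (m : ZMod p) ≠ 0 := by
    rw [Ne, ZMod.natCast_eq_zero_iff]
    exact hm
  have hprim : (Polynomial.cyclotomic m (ZMod p)).eval (q : ZMod p) = 0 ↔ orderOf (q : ZMod p) = m := by
    haveI : NeZero ((m : ℕ) : ZMod p) := ⟨hm0⟩
    rw [← Polynomial.IsRoot.def, Polynomial.isRoot_cyclotomic_iff]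
    constructor
    · intro h
      exact (h.eq_orderOf).symm
    · intro h
      rw [← h]
      exact IsPrimitiveRoot.orderOf _
  have hpow : (Polynomial.cyclotomic (p ^ k * m) (ZMod p)).eval (q : ZMod p) = 0 ↔
      (Polynomial.cyclotomic m (ZMod p)).eval (q : ZMod p) = 0 := by
    rcases Nat.eq_zero_or_pos k with rfl | hk
    · simp
    · rw [Polynomial.cyclotomic_mul_prime_pow_eq (ZMod p) hm hk, Polynomial.eval_pow]
      have : p ^ k - p ^ (k - 1) ≠ 0 := by
        have h1 : p ^ (k - 1) < p ^ k := Nat.pow_lt_pow_right hp.one_lt (by omega)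
        omega
      exact pow_eq_zero_iff this
  rw [hpow, hprim]
  constructor
  · intro h
    exact ⟨k, by rw [h, mul_comm]⟩
  · rintro ⟨j, hj⟩
    -- uniqueness of the `p`-part
    have h1 : k = j := by
      have h2 := congrArg (fun x => padicValNat p x) hj
      haveI := Fact.mk hp
      have hm0' : m ≠ 0 := fun h => hm (h ▸ dvd_zero p)
      rw [padicValNat.mul (pow_ne_zero _ hp.ne_zero) hm0', padicValNat.mul he0 (pow_ne_zero _ hp.ne_zero),
        padicValNat.prime_pow, padicValNat.prime_pow, padicValNat.eq_zero_of_not_dvd hm,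
        padicValNat.eq_zero_of_not_dvd hep] at h2
      omega
    subst h1
    rw [mul_comm (p ^ k) m] at hj
    exact (Nat.eq_of_mul_eq_mul_right (pow_pos hp.pos k) hj).symm


lemma key (a n r : ℕ) (hr : r.Prime) (hra : ¬ r ∣ a)
    (hd : (r : ℤ) ∣ (cyclotomic n ℤ).eval (a : ℤ))
    (hno : ∃ k, 0 < k ∧ k < n ∧ r ∣ a ^ k - 1) :
    ∃ d j, d = orderOf (a : ZMod r) ∧ n = d * r ^ j ∧ 1 ≤ j ∧ d ∣ r - 1 ∧ 0 < d := by
  haveI : Fact r.Prime := ⟨hr⟩
  have ha0 : (a : ZMod r) ≠ 0 := by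
    rw [Ne, ZMod.natCast_eq_zero_iff]; exact hra
  obtain ⟨j, hj⟩ := (cyc_iff r a n hr hra).1 hd
  obtain ⟨k, hk0, hkn, hk⟩ := hno
  have hak : (a : ZMod r) ^ k = 1 := by
    have h1 : ((a ^ k - 1 : ℕ) : ZMod r) = 0 := (ZMod.natCast_eq_zero_iff _ _).2 hk
    have h2 : 1 ≤ a ^ k := by
      have : 0 < a := Nat.pos_of_ne_zero (fun h => hra (h ▸ dvd_zero r))
      exact Nat.one_le_pow _ _ this
    rw [Nat.cast_sub h2] at h1
    simp only [Nat.cast_pow, Nat.cast_one] at h1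
    exact sub_eq_zero.1 h1
  have hdk : orderOf (a : ZMod r) ∣ k := orderOf_dvd_of_pow_eq_one hak
  have hdle : orderOf (a : ZMod r) ≤ k := Nat.le_of_dvd hk0 hdk
  have hdpos : 0 < orderOf (a : ZMod r) := Nat.pos_of_dvd_of_pos hdk hk0
  refine ⟨_, j, rfl, hj, ?_, ?_, hdpos⟩
  · rcases Nat.eq_zero_or_pos j with rfl | h
    · simp at hj; omega
    · exact h
  · exact orderOf_dvd_of_pow_eq_one (ZMod.pow_card_sub_one_eq_one ha0)

lemma eval_natAbs_dvd (a n : ℕ) (ha : 1 < a) :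
    ((cyclotomic n ℤ).eval (a : ℤ)).natAbs ∣ a ^ n - 1 := by
  have h := Polynomial.eval_dvd (x := (a : ℤ)) (cyclotomic.dvd_X_pow_sub_one n ℤ)
  simp only [eval_sub, eval_pow, eval_X, eval_one] at h
  have h1 : 1 ≤ a ^ n := Nat.one_le_pow _ _ (by omega)
  have h2 : ((a : ℤ) ^ n - 1) = ((a ^ n - 1 : ℕ) : ℤ) := by
    rw [Nat.cast_sub h1]; simp
  rw [h2] at h
  exact Int.natAbs_dvd_natAbs.2 h |>.trans (by simp)

lemma val_eq (n q : ℕ) (hq : 1 < q) :
    (((cyclotomic n ℤ).eval (q : ℤ)).natAbs : ℝ) = (cyclotomic n ℝ).eval (q : ℝ) := by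
  have h1 : (cyclotomic n ℝ).eval (q : ℝ) = (((cyclotomic n ℤ).eval (q : ℤ) : ℤ) : ℝ) := by
    have := eval_intCast_map (Int.castRingHom ℝ) (cyclotomic n ℤ) (q : ℤ)
    simpa [map_cyclotomic_int] using this
  have h2 : 0 < (cyclotomic n ℤ).eval (q : ℤ) :=
    cyclotomic_pos' n (by exact_mod_cast hq)
  rw [h1]
  have h3 : (((cyclotomic n ℤ).eval (q : ℤ)).natAbs : ℤ) = (cyclotomic n ℤ).eval (q : ℤ) :=
    Int.natAbs_of_nonneg h2.le
  calc ((((cyclotomic n ℤ).eval (q : ℤ)).natAbs : ℕ) : ℝ)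
      = ((((cyclotomic n ℤ).eval (q : ℤ)).natAbs : ℤ) : ℝ) := (Int.cast_natCast _).symm
    _ = _ := by rw [h3]

lemma val_le_one (a n r d j : ℕ) (ha : 1 < a) (hr : r.Prime) (hodd : Odd r) (hra : ¬ r ∣ a)
    (hd : (r : ℤ) ∣ (cyclotomic n ℤ).eval (a : ℤ))
    (hn : n = d * r ^ j) (hj : 1 ≤ j) (hdo : d = orderOf (a : ZMod r)) (hd0 : 0 < d) :
    padicValNat r ((cyclotomic n ℤ).eval (a : ℤ)).natAbs ≤ 1 := by
  haveI : Fact r.Prime := ⟨hr⟩
  obtain ⟨j', rfl⟩ : ∃ j', j = j' + 1 := ⟨j - 1, by omega⟩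
  set m := d * r ^ j' with hm
  have hm0 : 0 < m := Nat.mul_pos hd0 (pow_pos hr.pos _)
  have hnm : n = m * r := by rw [hn, hm, pow_succ]; ring
  have hdm : m ∣ n := ⟨r, hnm⟩
  have hnpos : n ≠ 0 := by rw [hnm]; exact (Nat.mul_pos hm0 hr.pos).ne'
  have hb : 1 < a ^ m := Nat.one_lt_pow hm0.ne' ha
  -- the factorisation
  have hfac := X_pow_sub_one_mul_prod_cyclotomic_eq_X_pow_sub_one_of_dvd ℤ hdm hnpos
  have hmem : n ∈ n.divisors \ m.divisors := by
    simp only [Finset.mem_sdiff, Nat.mem_divisors, dvd_refl, ne_eq, true_and, not_and]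
    refine ⟨hnpos, fun h _ => ?_⟩
    have h1 := Nat.le_of_dvd hm0 h
    have h2 : m < m * r := by
      have := hr.one_lt
      nlinarith
    omega
  obtain ⟨K, hK⟩ := Finset.dvd_prod_of_mem (fun i => cyclotomic i ℤ) hmem
  have hfac2 := congrArg (eval (a : ℤ)) hfac
  simp only [eval_mul, eval_sub, eval_pow, eval_X, eval_one] at hfac2
  rw [show ((n.divisors \ m.divisors).prod fun i => cyclotomic i ℤ) = cyclotomic n ℤ * K from hK] at hfac2
  simp only [eval_mul] at hfac2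
  have hx : ((a : ℤ) ^ m - 1) = ((a ^ m - 1 : ℕ) : ℤ) := by
    rw [Nat.cast_sub hb.le]; simp
  have hy : ((a : ℤ) ^ n - 1) = ((a ^ n - 1 : ℕ) : ℤ) := by
    rw [Nat.cast_sub (Nat.one_le_pow _ _ (by omega))]; simp
  rw [hx, hy] at hfac2
  have hdvd : (a ^ m - 1) * ((cyclotomic n ℤ).eval (a : ℤ)).natAbs ∣ a ^ n - 1 := by
    have h1 := congrArg Int.natAbs hfac2
    rw [Int.natAbs_mul, Int.natAbs_mul, Int.natAbs_natCast, Int.natAbs_natCast] at h1
    rw [← h1, ← mul_assoc]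
    exact Dvd.intro _ rfl
  -- LTE
  have hrdvd : r ∣ a ^ m - 1 := by
    have h1 : (a : ZMod r) ^ m = 1 := by
      rw [hm, hdo, pow_mul, pow_orderOf_eq_one, one_pow]
    have h2 : ((a ^ m - 1 : ℕ) : ZMod r) = 0 := by
      rw [Nat.cast_sub hb.le]; simp [h1]
    exact (ZMod.natCast_eq_zero_iff _ _).1 h2
  have hrb : ¬ r ∣ a ^ m := fun h => hra (hr.dvd_of_dvd_pow h)
  have hLTE := padicValNat.pow_sub_pow (x := a ^ m) (y := 1) (p := r) hodd hb
    hrdvd hrb (n := r) hr.ne_zero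
  rw [one_pow, ← pow_mul, ← hnm, padicValNat_self] at hLTE
  have hne : a ^ n - 1 ≠ 0 := by
    have : 1 < a ^ n := Nat.one_lt_pow hnpos ha
    omega
  have hN0 : ((cyclotomic n ℤ).eval (a : ℤ)).natAbs ≠ 0 := by
    intro h
    rw [h, mul_zero] at hdvd
    exact hne (Nat.eq_zero_of_zero_dvd hdvd)
  have hb0 : a ^ m - 1 ≠ 0 := by omega
  have hle := (padicValNat_dvd_iff_le (p := r) hne (n := padicValNat r ((a ^ m - 1) * ((cyclotomic n ℤ).eval (a : ℤ)).natAbs))).1
    ((pow_padicValNat_dvd).trans hdvd)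
  rw [padicValNat.mul hb0 hN0, hLTE] at hle
  omega

lemma three_mul_le (r : ℕ) (hr : 4 ≤ r) : 3 * r + 1 ≤ 2 ^ r := by
  induction r, hr using Nat.le_induction with
  | base => norm_num
  | succ m hm ih => rw [pow_succ]; omega

lemma case_large (n r d : ℕ) (hr : r.Prime) (hn : n = d * r) (hd3 : 3 ≤ d) (hdr : d ∣ r - 1)
    (hN : ((cyclotomic n ℤ).eval ((2 : ℕ) : ℤ)).natAbs = r) : False := by
  have hr1 := hr.one_lt
  have hdle : d ≤ r - 1 := Nat.le_of_dvd (by omega) hdr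
  have hr4 : 4 ≤ r := by omega
  have hrd : ¬ r ∣ d := fun h => by
    have := Nat.le_of_dvd (by omega) h
    omega
  have hexp := cyclotomic_expand_eq_cyclotomic_mul hr hrd ℝ
  have hev := congrArg (eval (2 : ℝ)) hexp
  rw [expand_eval, eval_mul, ← hn] at hev
  have hNR : (r : ℝ) = eval ((2 : ℕ) : ℝ) (cyclotomic n ℝ) := by
    rw [← val_eq n 2 (by norm_num), hN]
  rw [Nat.cast_ofNat] at hNR
  rw [← hNR] at hev
  have h2r : (1 : ℝ) < 2 ^ r := one_lt_pow₀ (by norm_num) (by omega)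
  have h1 := sub_one_pow_totient_lt_cyclotomic_eval (n := d) (q := (2 : ℝ) ^ r) (by omega) h2r
  have h2 := cyclotomic_eval_lt_add_one_pow_totient (n := d) (q := (2 : ℝ)) hd3 (by norm_num)
  have hphi : 0 < d.totient := Nat.totient_pos.2 (by omega)
  rw [hev] at h1
  have hr0 : (0 : ℝ) < r := by exact_mod_cast hr.pos
  have h3 : (r : ℝ) * eval 2 (cyclotomic d ℝ) < (r : ℝ) * ((2 : ℝ) + 1) ^ d.totient :=
    mul_lt_mul_of_pos_left h2 hr0
  have h4 : (3 * (r : ℝ)) ≤ 2 ^ r - 1 := by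
    have := three_mul_le r hr4
    have h5 : ((3 * r + 1 : ℕ) : ℝ) ≤ ((2 ^ r : ℕ) : ℝ) := by exact_mod_cast this
    push_cast at h5
    linarith
  have h5 : (3 * (r : ℝ)) ^ d.totient ≤ (2 ^ r - 1) ^ d.totient :=
    pow_le_pow_left₀ (by positivity) h4 _
  have h6 : (r : ℝ) * 3 ^ d.totient ≤ (3 * (r : ℝ)) ^ d.totient := by
    rw [mul_pow, mul_comm]
    have h7 : (r : ℝ) ≤ (r : ℝ) ^ d.totient := by
      have : (1 : ℝ) ≤ r := by exact_mod_cast hr.pos
      exact le_self_pow₀ this hphi.ne'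
    exact mul_le_mul_of_nonneg_left h7 (by positivity)
  have h8 : ((2 : ℝ) + 1) = 3 := by norm_num
  rw [h8] at h3
  linarith

lemma two_pow_ge (r : ℕ) (hr : 2 ≤ r) : r + 2 ≤ 2 ^ r := by
  induction r, hr using Nat.le_induction with
  | base => norm_num
  | succ m hm ih => rw [pow_succ]; omega

theorem result (a n : ℕ) (ha : 1 < a) (hn : 1 < n) (h6 : ¬ (a = 2 ∧ n = 6)) (h2 : ¬ (n = 2 ∧ ∃ m : ℕ, a + 1 = 2 ^ m)) : ∃ r : ℕ, r.Prime ∧ r ∣ a ^ n - 1 ∧ ∀ k : ℕ, 0 < k → k < n → ¬ r ∣ a ^ k - 1 := by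
  by_contra hno
  push Not at hno
  by_cases hn2 : n = 2
  · subst hn2
    have hex : ∃ r, r.Prime ∧ r ≠ 2 ∧ r ∣ a + 1 := by
      by_contra hh
      push Not at hh
      apply h2
      refine ⟨rfl, (a + 1).primeFactorsList.length, ?_⟩
      exact Nat.eq_prime_pow_of_unique_prime_dvd (by omega) (fun {d} hd hd' => by
        by_contra h
        exact hh d hd h hd')
    obtain ⟨r, hr, hr2, hra⟩ := hex
    have hd : r ∣ a ^ 2 - 1 := by
      have : a ^ 2 - 1 = (a + 1) * (a - 1) := by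
        obtain ⟨b, rfl⟩ : ∃ b, a = b + 1 := ⟨a - 1, by omega⟩
        have e : (b + 1) ^ 2 = (b + 1 + 1) * b + 1 := by ring
        rw [e]
        simp
      rw [this]
      exact hra.mul_right _
    obtain ⟨k, hk0, hk2, hk⟩ := hno r hr hd
    obtain rfl : k = 1 := by omega
    rw [pow_one] at hk
    have h3 : r ∣ 2 := by
      have := Nat.dvd_sub hra hk
      have e : a + 1 - (a - 1) = 2 := by omega
      rwa [e] at this
    exact hr2 ((Nat.prime_dvd_prime_iff_eq hr Nat.prime_two).1 h3)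
  have hn3 : 3 ≤ n := by omega
  have hNdvd : ((cyclotomic n ℤ).eval (a : ℤ)).natAbs ∣ a ^ n - 1 := eval_natAbs_dvd a n ha
  have hNlt : (a - 1) ^ n.totient < ((cyclotomic n ℤ).eval (a : ℤ)).natAbs :=
    sub_one_pow_totient_lt_natAbs_cyclotomic_eval (by omega) (by omega)
  have hNlt' : a - 1 < ((cyclotomic n ℤ).eval (a : ℤ)).natAbs :=
    sub_one_lt_natAbs_cyclotomic_eval (by omega) (by omega)
  generalize hNdef : ((cyclotomic n ℤ).eval (a : ℤ)).natAbs = N at hNdvd hNlt hNlt'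
  have hN0 : N ≠ 0 := by omega
  have hN1 : N ≠ 1 := by omega
  have hdata : ∀ r, r.Prime → r ∣ N → ¬ r ∣ a ∧
      ∃ d j, d = orderOf (a : ZMod r) ∧ n = d * r ^ j ∧ 1 ≤ j ∧ d ∣ r - 1 ∧ 0 < d := by
    intro r hr hrN
    have hrd : r ∣ a ^ n - 1 := hrN.trans hNdvd
    have hra : ¬ r ∣ a := by
      intro h
      have h1 : r ∣ a ^ n := h.trans (dvd_pow_self _ (by omega))
      have h2 : r ∣ 1 := by
        have := Nat.dvd_sub h1 hrd
        have e : a ^ n - (a ^ n - 1) = 1 := by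
          have := Nat.one_le_pow n a (by omega)
          omega
        rwa [e] at this
      exact hr.one_lt.ne' (Nat.dvd_one.1 h2)
    refine ⟨hra, key a n r hr hra ?_ (hno r hr hrd)⟩
    rw [Int.natCast_dvd, hNdef]
    exact hrN
  obtain ⟨r, hr, hrN⟩ := Nat.exists_prime_and_dvd hN1
  obtain ⟨hra, d, j, hdo, hnd, hj, hdr, hd0⟩ := hdata r hr hrN
  have hrn : r ∣ n := by
    rw [hnd]
    exact (dvd_pow_self r (by omega)).mul_left d
  have huniq : ∀ {s}, s.Prime → s ∣ N → s = r := by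
    intro s hs hsN
    obtain ⟨hsa, d', j', hdo', hnd', hj', hdr', hd0'⟩ := hdata s hs hsN
    have hsn : s ∣ n := by
      rw [hnd']
      exact (dvd_pow_self s (by omega)).mul_left d'
    by_contra hne
    rcases lt_or_gt_of_ne hne with hlt | hlt
    · rw [hnd'] at hrn
      rcases (hr.dvd_mul).1 hrn with h | h
      · have h1 := Nat.le_of_dvd hd0' h
        have h2 := Nat.le_of_dvd (by have := hs.one_lt; omega) hdr'
        have := hs.one_lt
        omega
      · have := hr.dvd_of_dvd_pow h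
        exact hne ((Nat.prime_dvd_prime_iff_eq hr hs).1 this).symm
    · rw [hnd] at hsn
      rcases (hs.dvd_mul).1 hsn with h | h
      · have h1 := Nat.le_of_dvd hd0 h
        have h2 := Nat.le_of_dvd (by have := hr.one_lt; omega) hdr
        have := hr.one_lt
        omega
      · have := hs.dvd_of_dvd_pow h
        exact hne ((Nat.prime_dvd_prime_iff_eq hs hr).1 this)
  have hNpow : N = r ^ N.primeFactorsList.length := Nat.eq_prime_pow_of_unique_prime_dvd hN0 huniq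
  generalize N.primeFactorsList.length = e at hNpow
  have hr2 : r ≠ 2 := by
    rintro rfl
    have hd1 : d = 1 := by simpa using hdr
    subst hd1
    rw [one_mul] at hnd
    obtain ⟨j', rfl⟩ : ∃ j', j = j' + 1 := ⟨j - 1, by omega⟩
    have hj' : 1 ≤ j' := by
      rcases Nat.eq_zero_or_pos j' with rfl | h
      · simp at hnd; omega
      · exact h
    obtain ⟨j'', rfl⟩ : ∃ j'', j' = j'' + 1 := ⟨j' - 1, by omega⟩
    have hval : ((cyclotomic n ℤ).eval (a : ℤ)) = 1 + ((a ^ 2) ^ 2 ^ j'' : ℕ) := by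
      rw [hnd]
      haveI : Fact (Nat.Prime 2) := ⟨Nat.prime_two⟩
      rw [cyclotomic_prime_pow_eq_geom_sum Nat.prime_two]
      simp only [Finset.sum_range_succ, Finset.sum_range_zero, eval_add, eval_pow, eval_X, eval_one,
        eval_finset_sum, pow_zero, pow_one, zero_add]
      push_cast
      rw [← pow_mul, pow_succ 2 j'', mul_comm]
    rw [hval] at hNdef
    have hNe : N = 1 + (a ^ 2) ^ 2 ^ j'' := by
      rw [← hNdef]
      norm_cast
    have ha2 : a ^ 2 % 4 = 1 := by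
      have hao : a % 2 = 1 := by
        have : ¬ 2 ∣ a := hra
        omega
      have h4 : a % 4 = 1 ∨ a % 4 = 3 := by omega
      rcases h4 with h | h <;> simp [Nat.pow_mod, h]
    have hm : (a ^ 2) ^ 2 ^ j'' % 4 = 1 := by
      rw [Nat.pow_mod, ha2]
      simp
    have hbig : 1 < (a ^ 2) ^ 2 ^ j'' :=
      Nat.one_lt_pow (by positivity) (by nlinarith)
    have hN3 : 3 ≤ N := by omega
    have he2 : 2 ≤ e := by
      by_contra h
      have : e = 0 ∨ e = 1 := by omega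
      rcases this with rfl | rfl <;> simp at hNpow <;> omega
    have h4dvd : 4 ∣ N := by
      rw [hNpow]
      exact pow_dvd_pow 2 he2
    omega
  have hodd : Odd r := hr.odd_of_ne_two hr2
  have hv := val_le_one a n r d j ha hr hodd hra (by rw [Int.natCast_dvd, hNdef]; exact hrN) hnd hj hdo hd0
  rw [hNdef, hNpow] at hv
  haveI : Fact r.Prime := ⟨hr⟩
  rw [padicValNat.prime_pow] at hv
  have hNr : N = r := by
    have : e = 1 := by
      rcases Nat.eq_zero_or_pos e with rfl | h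
      · simp at hNpow
        omega
      · omega
    rw [hNpow, this, pow_one]
  subst hNr
  have hphi : N - 1 ≤ n.totient := by
    have h1 := Nat.totient_dvd_of_dvd hrn
    rw [Nat.totient_prime hr] at h1
    exact Nat.le_of_dvd (Nat.totient_pos.2 (by omega)) h1
  have ha2 : a = 2 := by
    by_contra h
    have h3 : 2 ≤ a - 1 := by omega
    have h4 : 2 ^ n.totient ≤ (a - 1) ^ n.totient := Nat.pow_le_pow_left h3 _
    have h5 : 2 ^ (N - 1) ≤ 2 ^ n.totient := Nat.pow_le_pow_right (by norm_num) hphi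
    have h7 : N - 1 < 2 ^ (N - 1) := Nat.lt_two_pow_self
    omega
  subst ha2
  have hrr := hr.one_lt
  have hr3 : 3 ≤ N := by
    have := hodd
    rcases this with ⟨t, ht⟩
    omega
  obtain ⟨j', rfl⟩ : ∃ j', j = j' + 1 := ⟨j - 1, by omega⟩
  have hnm : n = (d * N ^ j') * N := by rw [hnd, pow_succ]; ring
  have hn'pos : 0 < d * N ^ j' := Nat.mul_pos hd0 (pow_pos hr.pos _)
  rcases Nat.eq_zero_or_pos j' with rfl | hj'
  · rw [pow_zero, mul_one] at hnm
    have hdcases : d = 1 ∨ d = 2 ∨ 3 ≤ d := by omega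
    rcases hdcases with rfl | rfl | hd3
    · -- `n = N`: the value is `2 ^ N - 1`
      have hrd : ¬ N ∣ 1 := by
        intro h
        have := Nat.le_of_dvd (by norm_num) h
        omega
      have hexp := cyclotomic_expand_eq_cyclotomic_mul hr hrd ℝ
      have hev := congrArg (eval (2 : ℝ)) hexp
      rw [expand_eval, eval_mul, ← hnm] at hev
      have hNR : (N : ℝ) = eval ((2 : ℕ) : ℝ) (cyclotomic n ℝ) := by
        rw [← val_eq n 2 (by norm_num), hNdef]
      rw [Nat.cast_ofNat] at hNR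
      rw [← hNR] at hev
      simp only [cyclotomic_one, eval_sub, eval_X, eval_one, eval_pow] at hev
      have h1 := two_pow_ge N (by omega)
      have h2' : ((N + 2 : ℕ) : ℝ) ≤ ((2 ^ N : ℕ) : ℝ) := by exact_mod_cast h1
      push_cast at h2'
      linarith
    · -- `n = 2 N`: `2 ^ 2 = 1` modulo `N`
      have h1 : ((2 : ℕ) : ZMod N) ^ 2 = 1 := by
        have h0 := pow_orderOf_eq_one ((2 : ℕ) : ZMod N)
        rwa [← hdo] at h0
      have h2' : ((3 : ℕ) : ZMod N) = 0 := by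
        have h3' : ((3 : ℕ) : ZMod N) = ((2 : ℕ) : ZMod N) ^ 2 - 1 := by
          push_cast
          ring
        rw [h3', h1, sub_self]
      have h3' : N ∣ 3 := (ZMod.natCast_eq_zero_iff _ _).1 h2'
      have h4' : N = 3 := (Nat.prime_dvd_prime_iff_eq hr Nat.prime_three).1 h3'
      apply h6
      refine ⟨rfl, ?_⟩
      rw [hnm, h4']
    · exact case_large n N d hr hnm hd3 hdr hNdef
  · -- `N ^ 2 ∣ n`
    have hrn' : N ∣ d * N ^ j' := (dvd_pow_self N (by omega)).mul_left d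
    have hexp := cyclotomic_expand_eq_cyclotomic hr hrn' ℤ
    have hev := congrArg (eval ((2 : ℕ) : ℤ)) hexp
    rw [expand_eval, ← hnm] at hev
    rw [← hev] at hNdef
    have hq : (((2 : ℕ) : ℤ) ^ N) = ((2 ^ N : ℕ) : ℤ) := by push_cast; rfl
    rw [hq] at hNdef
    have hn' : 1 < d * N ^ j' := by
      have h1 := Nat.le_of_dvd hn'pos hrn'
      omega
    have h1 := sub_one_lt_natAbs_cyclotomic_eval (n := d * N ^ j') (q := 2 ^ N) hn'
      (by
        have := Nat.one_lt_pow (n := N) (by omega) (show 1 < 2 by norm_num)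
        omega)
    rw [hNdef] at h1
    have h2' := two_pow_ge N (by omega)
    omega

end Cfsg.Agent.S2904
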