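import Cfsg.Statements.S2910
import Cfsg.Agent.Lib.H1Odd
import Cfsg.Agent.Lib.PNilp
import Cfsg.Agent.Lib.Comp
import Cfsg.Agent.Lib.LPIrr
-- import your own Cfsg.Agent.* helpers here

set_option autoImplicit false
open Cfsg

namespace Cfsg.Agent.S2910

/-- Let p be an odd prime dividing the order of the finite group G and P a Sylow p-subgroup of G. If Ω₁(P) (generated by the elements of order dividing p) is contained in the centre of G, then G has a normal p-complement. In particular, if G is quasisimple then Ω₁(P) is not central in G. -/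
theorem result {G : Type*} [Group G] [Finite G] {p : ℕ} [Fact p.Prime] (hp : p ≠ 2) (hdiv : p ∣ Nat.card G) (P : Sylow p G) (hZ : Cfsg.omegaOne p (P : Subgroup G) ≤ Subgroup.center G) : Cfsg.HasNormalPComplement p G ∧ ¬ Cfsg.IsQuasisimple G := by
  have hN : Cfsg.HasNormalPComplement p G := by
    apply Cfsg.Agent.Lib.PNilp.hasNormalPComplement_of_automizer P
    intro Q hQ g hg hcop
    have h := Cfsg.Agent.Lib.H1Odd.omega_one hp (Subgroup.zpowers g)
      (by rw [Nat.card_zpowers]; exact hcop) Q (P.2.to_le hQ) (Subgroup.zpowers_le.2 hg)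
      (by
        intro x hx hxo
        have hxZ : x ∈ Subgroup.center G := by
          apply hZ
          apply Subgroup.subset_closure
          exact ⟨hQ hx, by rw [← hxo]; exact pow_orderOf_eq_one x⟩
        rw [Subgroup.zpowers_le]
        refine Subgroup.mem_centralizer_iff.2 ?_
        intro y hy
        rw [Set.mem_singleton_iff] at hy
        subst hy
        exact (Subgroup.mem_center_iff.1 hxZ g).symm)
    exact (Subgroup.zpowers_le.1 h)
  refine ⟨hN, fun hq => ?_⟩
  obtain ⟨P', N, hNn, hc⟩ := hN
  have hcard : Nat.card N * Nat.card (P' : Subgroup G) = Nat.card G := hc.card_mul_card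
  rcases Cfsg.Agent.Lib.Comp.qs_normal hq N with h | h
  · -- `N = G`
    rw [h, Subgroup.card_top] at hcard
    have hG : Nat.card G ≠ 0 := Nat.card_pos.ne'
    have h1 : Nat.card (P' : Subgroup G) = 1 := by
      have : Nat.card G * Nat.card (P' : Subgroup G) = Nat.card G * 1 := by rw [hcard, mul_one]
      exact Nat.eq_of_mul_eq_mul_left (Nat.pos_of_ne_zero hG) this
    have hbot : (P' : Subgroup G) = ⊥ := Subgroup.card_eq_one.1 h1
    exact P'.ne_bot_of_dvd_card hdiv hbot
  · -- `N` central: `G/Z(G)` is a `p`-group, hence solvable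
    have hsolv : Group.IsSolvable G := by
      have hqp : IsPGroup p (G ⧸ N) :=
        Cfsg.Agent.Lib.LPIrr.isPGroup_quotient_of_sup N (P' : Subgroup G) P'.2 hc.sup_eq_top
      haveI := hqp.isNilpotent
      haveI : Group.IsSolvable N := isSolvable_of_comm (fun a b =>
        Subtype.ext ((Subgroup.mem_center_iff.1 (h b.2)) a.1))
      exact solvable_of_ker_le_range N.subtype (QuotientGroup.mk' N) (by
        rw [QuotientGroup.ker_mk', Subgroup.range_subtype])
    exact Cfsg.Agent.Lib.Comp.qs_not_solvable hq hsolv

end Cfsg.Agent.S2910
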