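import Cfsg.Statements.S2955
import Cfsg.Agent.Lib.PGlaub
-- import your own Cfsg.Agent.* helpers here

set_option autoImplicit false
open Cfsg

namespace Cfsg.Agent.S2955

/-- Let p be a prime dividing the order of the finite group G and 𝓕 a conjugation-closed family of subgroups that controls Sylow p-intersections in G. Suppose the Sylow p-subgroups of G are chain-connected: any two of them are joined by a chain of Sylow p-subgroups, consecutive ones distinct with nontrivial intersection, all containing the intersection of the two ends (equivalently, the graph on the Sylow p-subgroups whose edges are the distinct pairs meeting nontrivially is connected). Then for every Sylow p-subgroup S, G is generated by N_G(S) together with the members of 𝓕 that meet S in a Sylow p-subgroup of themselves. -/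
theorem result {G : Type*} [Group G] [Finite G] (p : ℕ) [Fact p.Prime] (hdiv : p ∣ Nat.card G)
    (𝓕 : Set (Subgroup G)) (h𝓕 : Cfsg.IsNormalSet 𝓕) (hc : Cfsg.ControlsSylowIntersections p 𝓕)
    (hconn : Cfsg.IsSylowChainConnected p G) (S : Sylow p G) :
    (⨆ X ∈ Cfsg.sylowMembers p 𝓕 (S : Subgroup G), X) ⊔ Subgroup.normalizer ((S : Subgroup G) : Set G) = ⊤ := by
  classical
  set H : Subgroup G := (⨆ X ∈ Cfsg.sylowMembers p 𝓕 (S : Subgroup G), X) ⊔ Subgroup.normalizer ((S : Subgroup G) : Set G) with hH
  have hNH : Subgroup.normalizer ((S : Subgroup G) : Set G) ≤ H := le_sup_right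
  have hmem0 : ∀ Y ∈ Cfsg.sylowMembers p 𝓕 (S : Subgroup G), Y ≤ H := fun Y hY =>
    (le_iSup₂_of_le (f := fun X (_ : X ∈ Cfsg.sylowMembers p 𝓕 (S : Subgroup G)) => X) Y hY le_rfl).trans le_sup_left
  have hmem : ∀ h ∈ H, ∀ X, X ∈ Cfsg.sylowMembers p 𝓕 ((S : Subgroup G).map (MulAut.conj h).toMonoidHom) → X ≤ H := by
    rintro h hh X ⟨hXF, P, hP⟩
    have hY : Cfsg.subgroupConjRight h X ∈ Cfsg.sylowMembers p 𝓕 (S : Subgroup G) := by
      refine ⟨h𝓕 X hXF h, ?_⟩
      let P' := P.mapSurjective (MonoidHom.subgroupMap_surjective (MulAut.conj h⁻¹).toMonoidHom X)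
      refine ⟨P', ?_⟩
      rw [Sylow.coe_mapSurjective]
      have e1 : ((P : Subgroup X).map ((MulAut.conj h⁻¹).toMonoidHom.subgroupMap X)).map (X.map (MulAut.conj h⁻¹).toMonoidHom).subtype
          = ((P : Subgroup X).map X.subtype).map (MulAut.conj h⁻¹).toMonoidHom := by
        rw [Subgroup.map_map, Subgroup.map_map]
        rfl
      refine e1.trans ?_
      rw [hP, Subgroup.map_inf _ _ _ (MulAut.conj h⁻¹).injective, Subgroup.map_map]
      congr 1
      ext y
      constructor
      · rintro ⟨z, hz, rfl⟩
        have e : (((MulAut.conj h⁻¹).toMonoidHom.comp (MulAut.conj h).toMonoidHom) z) = z := by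
          simp only [MonoidHom.comp_apply, MulEquiv.coe_toMonoidHom, MulAut.conj_apply]
          group
        rw [e]
        exact hz
      · intro hy
        refine ⟨y, hy, ?_⟩
        simp only [MonoidHom.comp_apply, MulEquiv.coe_toMonoidHom, MulAut.conj_apply]
        group
    have hYH := hmem0 _ hY
    intro x hx
    have h1 : (MulAut.conj h⁻¹).toMonoidHom x ∈ H := hYH ⟨x, hx, rfl⟩
    have h2 : x = h * ((MulAut.conj h⁻¹).toMonoidHom x) * h⁻¹ := by
      simp only [MulEquiv.coe_toMonoidHom, MulAut.conj_apply]
      group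
    rw [h2]
    exact mul_mem (mul_mem hh h1) (inv_mem hh)
  have step : ∀ (h : G), h ∈ H → ∀ c T : Sylow p G, (c : Subgroup G) = (S : Subgroup G).map (MulAut.conj h).toMonoidHom →
      c ≠ T → (c : Subgroup G) ⊓ (T : Subgroup G) ≠ ⊥ →
      ∃ h' ∈ H, (T : Subgroup G) = (S : Subgroup G).map (MulAut.conj h').toMonoidHom := by
    intro h hh c T hcS hne hint
    obtain ⟨n, d, X, x, hd0, hdl, hd⟩ := hc c T hne hint
    have key : ∀ i : Fin (n + 1), ∃ h' ∈ H, (d i : Subgroup G) = (S : Subgroup G).map (MulAut.conj h').toMonoidHom := by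
      intro i
      induction i using Fin.induction with
      | zero => exact ⟨h, hh, by rw [hd0]; exact hcS⟩
      | succ i ih =>
        obtain ⟨h', hh', hdi⟩ := ih
        obtain ⟨h1, -, h3, h4, -⟩ := hd i
        rw [hdi] at h1
        have hXH := hmem h' hh' _ h1
        have hxH : x i ∈ H := hXH h3
        refine ⟨x i * h', mul_mem hxH hh', ?_⟩
        have h5 : (d i.succ : Subgroup G) = (d i.castSucc : Subgroup G).map (MulAut.conj (x i)).toMonoidHom := by
          rw [← h4]
          ext y
          constructor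
          · intro hy
            refine ⟨(x i)⁻¹ * y * x i, ⟨y, hy, by simp⟩, by simp [mul_assoc]⟩
          · rintro ⟨_, ⟨z, hz, rfl⟩, rfl⟩
            have e : (MulAut.conj (x i)).toMonoidHom ((MulAut.conj (x i)⁻¹).toMonoidHom z) = z := by
              simp only [MulEquiv.coe_toMonoidHom, MulAut.conj_apply]
              group
            rw [e]
            exact hz
        rw [h5, hdi, Subgroup.map_map]
        congr 1
        ext y
        simp [mul_assoc]
    have := key (Fin.last n)
    rwa [hdl] at this
  have all : ∀ T : Sylow p G, ∃ h ∈ H, (T : Subgroup G) = (S : Subgroup G).map (MulAut.conj h).toMonoidHom := by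
    intro T
    obtain ⟨n, c, hc0, hcl, -, hc⟩ := hconn S T
    have key : ∀ i : Fin (n + 1), ∃ h ∈ H, (c i : Subgroup G) = (S : Subgroup G).map (MulAut.conj h).toMonoidHom := by
      intro i
      induction i using Fin.induction with
      | zero =>
        refine ⟨1, one_mem _, ?_⟩
        rw [hc0]
        ext y
        simp
      | succ i ih =>
        obtain ⟨h', hh', hdi⟩ := ih
        exact step h' hh' _ _ hdi (hc i).1 (hc i).2
    have := key (Fin.last n)
    rwa [hcl] at this
  rw [eq_top_iff]
  intro g _
  obtain ⟨h, hh, he⟩ := all (g • S)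
  have h1 : ((g • S : Sylow p G) : Subgroup G) = (S : Subgroup G).map (MulAut.conj g).toMonoidHom := by
    rw [Sylow.coe_subgroup_smul]
    rfl
  rw [h1] at he
  have h2 : h⁻¹ * g ∈ Subgroup.normalizer ((S : Subgroup G) : Set G) := by
    refine Cfsg.Agent.Lib.PGlaub.mem_normalizer_of_conj_mem (fun s hs => ?_)
    have h3 : g * s * g⁻¹ ∈ (S : Subgroup G).map (MulAut.conj h).toMonoidHom := by
      rw [← he]
      exact ⟨s, hs, by simp⟩
    obtain ⟨t, ht, hte⟩ := h3
    have hte' : h * t * h⁻¹ = g * s * g⁻¹ := by simpa using hte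
    have e : h⁻¹ * g * s * (h⁻¹ * g)⁻¹ = t := by
      have : t = h⁻¹ * (h * t * h⁻¹) * h := by group
      rw [this, hte']
      group
    rw [e]
    exact ht
  have h3 := mul_mem hh (hNH h2)
  simpa using h3

end Cfsg.Agent.S2955
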