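import Cfsg.Statements.S2963
-- import your own Cfsg.Agent.* helpers here

set_option autoImplicit false
open Cfsg

namespace Cfsg.Agent.S2963

/-- Let n be odd. If the symmetric group of degree n is a minimal parabolic group for the prime 2, that is, a Sylow 2-subgroup is not normal and lies in exactly one maximal subgroup, then n = 2^m + 1 for some natural number m. -/
theorem result (n : ℕ) (hn : Odd n) (h : Cfsg.IsPMinimal 2 (Equiv.Perm (Fin n))) : ∃ m : ℕ, n = 2 ^ m + 1 := by
  classical
  obtain ⟨n', rfl⟩ : ∃ k, n = 2 * k + 1 := by obtain ⟨k, hk⟩ := hn; exact ⟨k, hk⟩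
  set n := 2 * n' + 1 with hndef
  obtain ⟨S⟩ : Nonempty (Sylow 2 (Equiv.Perm (Fin n))) := inferInstance
  obtain ⟨hnn, M, ⟨hMc, hSM⟩, huniq⟩ := h S
  haveI : Fact (Nat.Prime 2) := ⟨Nat.prime_two⟩
  let SS : Subgroup (Equiv.Perm (Fin n)) := (S : Subgroup _)
  have hSp : IsPGroup 2 SS := S.2
  -- a fixed point
  have hfix := hSp.card_modEq_card_fixedPoints (Fin n)
  have hx : ∃ x : Fin n, ∀ s ∈ SS, s x = x := by
    by_contra hno
    push Not at hno
    have hempty : IsEmpty (MulAction.fixedPoints SS (Fin n)) := by
      refine ⟨fun ⟨a, ha⟩ => ?_⟩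
      obtain ⟨s, hs, hsa⟩ := hno a
      exact hsa (ha ⟨s, hs⟩)
    have e1 : Nat.card (MulAction.fixedPoints SS (Fin n)) = 0 := Nat.card_of_isEmpty
    have e2 : Nat.card (Fin n) = n := by simp
    rw [e1, e2] at hfix
    have h2 : (2 * n' + 1) % 2 = 0 % 2 := hfix
    omega
  obtain ⟨x, hxS⟩ := hx
  -- `n ≠ 1`
  have hn1 : n' ≠ 0 := by
    intro h0
    apply hnn
    have hs : Subsingleton (Fin n) := Fin.subsingleton_iff_le_one.2 (by omega)
    refine ⟨fun a ha g => ?_⟩
    have e : g * a * g⁻¹ = a := Equiv.ext (fun v => Subsingleton.elim _ _)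
    rwa [e]
  have hncard : 3 ≤ n := by omega
  have hy : ∃ y : Fin n, y ≠ x := by
    by_contra hno
    push Not at hno
    have : Fintype.card (Fin n) ≤ 1 := Fintype.card_le_one_iff.2 (fun a b => by rw [hno a, hno b])
    rw [Fintype.card_fin] at this
    omega
  obtain ⟨y, hyx⟩ := hy
  let O : Set (Fin n) := MulAction.orbit SS y
  have hxO : x ∉ O := by
    rintro ⟨⟨s, hs⟩, hsy⟩
    have h1 : s y = x := hsy
    have h2 := hxS s hs
    exact hyx (s.injective (h1.trans h2.symm))
  have hyO : y ∈ O := MulAction.mem_orbit_self y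
  by_cases hz : ∃ z : Fin n, z ≠ x ∧ z ∉ O
  · exfalso
    obtain ⟨z, hzx, hzO⟩ := hz
    let X : Subgroup (Equiv.Perm (Fin n)) := MulAction.stabilizer _ x
    let Y : Subgroup (Equiv.Perm (Fin n)) :=
      { carrier := {g | ∀ w, g w ∈ O ↔ w ∈ O}
        one_mem' := fun w => Iff.rfl
        mul_mem' := fun {a b} ha hb w => (ha (b w)).trans (hb w)
        inv_mem' := fun {a} ha w => by
          have := ha (a⁻¹ w)
          have e : a (a⁻¹ w) = w := by simp
          rw [e] at this
          exact this.symm }
    have hSX : SS ≤ X := fun s hs => hxS s hs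
    have hSY : SS ≤ Y := by
      intro s hs w
      constructor
      · rintro ⟨⟨t, ht⟩, hty⟩
        have hty' : t y = s w := hty
        refine ⟨⟨s⁻¹ * t, mul_mem (inv_mem hs) ht⟩, ?_⟩
        change s⁻¹ (t y) = w
        rw [hty']
        simp
      · rintro ⟨⟨t, ht⟩, hty⟩
        have hty' : t y = w := hty
        refine ⟨⟨s * t, mul_mem hs ht⟩, ?_⟩
        change s (t y) = s w
        rw [hty']
    have hXtop : X ≠ ⊤ := by
      intro h
      have : Equiv.swap x y ∈ X := by rw [h]; exact Subgroup.mem_top _
      have h2 : Equiv.swap x y x = x := this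
      rw [Equiv.swap_apply_left] at h2
      exact hyx h2
    have hYtop : Y ≠ ⊤ := by
      intro h
      have : Equiv.swap y z ∈ Y := by rw [h]; exact Subgroup.mem_top _
      have h2 := (this y).2 hyO
      rw [Equiv.swap_apply_left] at h2
      exact hzO h2
    have hXM : X ≤ M := by
      rcases eq_top_or_exists_le_coatom X with h1 | ⟨M', hM', hle⟩
      · exact absurd h1 hXtop
      · rw [huniq M' ⟨hM', (hSX.trans hle)⟩] at hle
        exact hle
    have hYM : Y ≤ M := by
      rcases eq_top_or_exists_le_coatom Y with h1 | ⟨M', hM', hle⟩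
      · exact absurd h1 hYtop
      · rw [huniq M' ⟨hM', (hSY.trans hle)⟩] at hle
        exact hle
    have hswap : Equiv.swap x z ∈ M := by
      apply hYM
      intro v
      by_cases hvx : v = x
      · subst hvx
        rw [Equiv.swap_apply_left]
        exact iff_of_false hzO hxO
      · by_cases hvz : v = z
        · subst hvz
          rw [Equiv.swap_apply_right]
          exact iff_of_false hxO hzO
        · rw [Equiv.swap_apply_of_ne_of_ne hvx hvz]
    apply hMc.1
    rw [eq_top_iff]
    intro g _
    by_cases hgx : g x = x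
    · exact hXM hgx
    · set w := g x with hw
      have hstab : Equiv.swap z w ∈ M := by
        apply hXM
        change Equiv.swap z w x = x
        rw [Equiv.swap_apply_of_ne_of_ne hzx.symm (Ne.symm hgx)]
      have hsw : Equiv.swap x w ∈ M := by
        have e : Equiv.swap x w = Equiv.swap z w * Equiv.swap x z * (Equiv.swap z w)⁻¹ := by
          have := Equiv.swap_apply_apply (Equiv.swap z w) x z
          rw [Equiv.swap_apply_of_ne_of_ne hzx.symm (Ne.symm hgx), Equiv.swap_apply_left] at this
          exact this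
        rw [e]
        exact mul_mem (mul_mem hstab hswap) (inv_mem hstab)
      have hrest : Equiv.swap x w * g ∈ M := by
        apply hXM
        change Equiv.swap x w (g x) = x
        rw [← hw, Equiv.swap_apply_right]
      have e : g = Equiv.swap x w * (Equiv.swap x w * g) := by
        rw [← mul_assoc, Equiv.swap_mul_self, one_mul]
      rw [e]
      exact mul_mem hsw hrest
  · -- the orbit is the complement of `x`
    push Not at hz
    have hOc : O = {x}ᶜ := by
      ext w
      constructor
      · intro hw hwx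
        rw [Set.mem_singleton_iff] at hwx
        exact hxO (hwx ▸ hw)
      · intro hw
        exact hz w hw
    have hcard : Nat.card O + 1 = n := by
      have h1 := Set.ncard_add_ncard_compl ({x} : Set (Fin n))
      rw [Set.ncard_singleton, Nat.card_eq_fintype_card, Fintype.card_fin, ← hOc] at h1
      rw [Nat.card_coe_set_eq]
      omega
    have h2 : ∃ m : ℕ, Nat.card O = 2 ^ m := by
      obtain ⟨m, hm⟩ := IsPGroup.index hSp (MulAction.stabilizer SS y)
      refine ⟨m, ?_⟩
      rw [← hm, MulAction.index_stabilizer, Nat.card_coe_set_eq]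
    obtain ⟨m, hm⟩ := h2
    exact ⟨m, by omega⟩

end Cfsg.Agent.S2963
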