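import Cfsg.Statements.S3005
import Cfsg.Agent.Lib.LCD
-- import your own Cfsg.Agent.* helpers here

set_option autoImplicit false
open scoped Pointwise
open Cfsg

namespace Cfsg.Agent.S3005

/-- Let P be a finite p-group; call R ≤ P centrally large if |R|·|Z(R)| is as large as possible among subgroups of P, and measure-largest if |R|·|C_P(R)| is as large as possible. Then: a centrally large Q is measure-largest with C_P(Q) = Z(Q); a measure-largest Q is centrally large if and only if C_P(Q) ≤ Q; if Q and R are centrally large then QR = RQ is a centrally large subgroup; and the subgroups generated by all centrally large subgroups, respectively by all minimal centrally large subgroups, are themselves centrally large. -/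
theorem result {p : ℕ} [Fact p.Prime] (P : Type*) [Group P] [Finite P] (hP : IsPGroup p P) : (∀ Q : Subgroup P, Cfsg.IsCentrallyLarge Q → Cfsg.IsCentralizerLarge Q ∧ Subgroup.centralizer (Q : Set P) = Q ⊓ Subgroup.centralizer (Q : Set P)) ∧ (∀ Q : Subgroup P, Cfsg.IsCentralizerLarge Q → (Cfsg.IsCentrallyLarge Q ↔ Subgroup.centralizer (Q : Set P) ≤ Q)) ∧ (∀ Q R : Subgroup P, Cfsg.IsCentrallyLarge Q → Cfsg.IsCentrallyLarge R → ((Q ⊔ R : Subgroup P) : Set P) = (Q : Set P) * (R : Set P) ∧ Cfsg.IsCentrallyLarge (Q ⊔ R)) ∧ Cfsg.IsCentrallyLarge (Cfsg.centrallyLargeJoin P) ∧ Cfsg.IsCentrallyLarge (Cfsg.minimalCentrallyLargeJoin P) := by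
  open Cfsg.Agent.Lib.LCD in
  have key : ∀ R : Subgroup P, Cfsg.IsCentrallyLarge R ↔ IsCL R := isCentrallyLarge_iff
  open Cfsg.Agent.Lib.LCD in
  have key2 : ∀ R : Subgroup P, Cfsg.IsCentralizerLarge R ↔ IsML R := isCentralizerLarge_iff
  refine ⟨?_, ?_, ?_, ?_, ?_⟩
  · intro Q hQ
    obtain ⟨h1, h2⟩ := Cfsg.Agent.Lib.LCD.cl_ml ((key Q).1 hQ)
    exact ⟨(key2 Q).2 h1, (inf_eq_right.2 h2).symm⟩
  · intro Q hQ
    constructor
    · intro h
      exact (Cfsg.Agent.Lib.LCD.cl_ml ((key Q).1 h)).2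
    · intro h
      exact (key Q).2 (Cfsg.Agent.Lib.LCD.ml_cl ((key2 Q).1 hQ) h)
  · intro Q R hQ hR
    obtain ⟨h1, h2⟩ := Cfsg.Agent.Lib.LCD.cl_sup ((key Q).1 hQ) ((key R).1 hR)
    exact ⟨h2, (key _).2 h1⟩
  · rw [key]
    obtain ⟨X, hX⟩ := Cfsg.Agent.Lib.LCD.exists_cl (G := P)
    apply Cfsg.Agent.Lib.LCD.cl_sSup
    · intro R hR
      exact (key R).1 hR
    · exact ⟨X, (key X).2 hX⟩
  · rw [key]
    obtain ⟨X, hX⟩ := Cfsg.Agent.Lib.LCD.exists_cl (G := P)
    apply Cfsg.Agent.Lib.LCD.cl_sSup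
    · intro R hR
      exact (key R).1 hR.1
    · obtain ⟨T, hT, hmin⟩ := (Set.toFinite {Y : Subgroup P | Cfsg.IsCentrallyLarge Y}).exists_le_minimal
        (show X ∈ {Y : Subgroup P | Cfsg.IsCentrallyLarge Y} from (key X).2 hX)
      refine ⟨T, hmin.1, ?_⟩
      intro R' hR' hcl
      exact le_antisymm hR' (hmin.2 hcl hR')

end Cfsg.Agent.S3005
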