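import Cfsg.Statements.S3006
import Cfsg.Agent.Lib.LCD3
-- import your own Cfsg.Agent.* helpers here

set_option autoImplicit false
open scoped Pointwise
open Cfsg

namespace Cfsg.Agent.S3006

/-- Let P be a finite p-group, Q a centrally large subgroup of P (|Q|·|Z(Q)| maximal among subgroups of P) and A an abelian subgroup of P of largest order. Then QA = AQ is a centrally large subgroup of P, C_{QA}(Q ∩ A) = Z(Q)·A, and the subgroup generated by all centrally large subgroups of P contains C_P(Z(J(P))), where J(P) is generated by the abelian subgroups of largest order. -/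
theorem result {p : ℕ} [Fact p.Prime] (P : Type*) [Group P] [Finite P] (hP : IsPGroup p P) (Q A : Subgroup P) (hQ : Cfsg.IsCentrallyLarge Q) (hA : A ∈ Cfsg.maxAbelianSubgroups P) : ((Q ⊔ A : Subgroup P) : Set P) = (Q : Set P) * (A : Set P) ∧ Cfsg.IsCentrallyLarge (Q ⊔ A) ∧ (Q ⊔ A) ⊓ Subgroup.centralizer ((Q ⊓ A : Subgroup P) : Set P) = (Q ⊓ Subgroup.centralizer (Q : Set P)) ⊔ A ∧ (((Q ⊓ Subgroup.centralizer (Q : Set P)) ⊔ A : Subgroup P) : Set P) = ((Q ⊓ Subgroup.centralizer (Q : Set P)) : Set P) * (A : Set P) ∧ Subgroup.centralizer ((Cfsg.thompsonSubgroupA P ⊓ Subgroup.centralizer (Cfsg.thompsonSubgroupA P : Set P) : Subgroup P) : Set P) ≤ Cfsg.centrallyLargeJoin P := by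
  have key : ∀ R : Subgroup P, Cfsg.IsCentrallyLarge R ↔ Cfsg.Agent.Lib.LCD.IsCL R :=
    Cfsg.Agent.Lib.LCD.isCentrallyLarge_iff
  have hQ' := (key Q).1 hQ
  obtain ⟨h1, h2, h3⟩ := Cfsg.Agent.Lib.LCD.cl_abelian_main hP _ Q A hQ' hA rfl
  obtain ⟨h4, h5⟩ := Cfsg.Agent.Lib.LCD.cl_centralizer_part hQ' hA h2 h3
  refine ⟨h2, (key _).2 h1, h4, h5, ?_⟩
  have hT : Cfsg.Agent.Lib.LCD.IsCL (Cfsg.centrallyLargeJoin P) := by
    rw [← key]
    obtain ⟨X, hX⟩ := Cfsg.Agent.Lib.LCD.exists_cl (G := P)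
    apply (key _).2
    apply Cfsg.Agent.Lib.LCD.cl_sSup
    · intro R hR
      exact (key R).1 hR
    · exact ⟨X, (key X).2 hX⟩
  apply Cfsg.Agent.Lib.LCD.centralizer_center_J_le hT
  apply sSup_le
  intro B hB
  have h6 := (Cfsg.Agent.Lib.LCD.cl_abelian_main hP _ _ B hT hB rfl).1
  have h7 : Cfsg.centrallyLargeJoin P ⊔ B ≤ Cfsg.centrallyLargeJoin P := le_sSup ((key _).2 h6)
  exact le_trans le_sup_right h7

end Cfsg.Agent.S3006
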