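import Cfsg.Statements.S3007
import Cfsg.Agent.Lib.LCD3
-- import your own Cfsg.Agent.* helpers here

set_option autoImplicit false
open Cfsg

namespace Cfsg.Agent.S3007

/-- Let P be a finite p-group and Q, R minimal centrally large subgroups of P (centrally large: |Q|·|Z(Q)| maximal among subgroups of P; minimal among such under inclusion). Then Q = (Q ∩ R)·Z(Q), the derived subgroups [Q, Q] and [R, R] coincide, |Q| = |R| and |Z(Q)| = |Z(R)|; and if Q is abelian then the minimal centrally large subgroups of P are exactly the abelian subgroups of P of largest order. -/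
theorem result {p : ℕ} [Fact p.Prime] (P : Type*) [Group P] [Finite P] (hP : IsPGroup p P) (Q R : Subgroup P) (hQ : Cfsg.IsMinimalCentrallyLarge Q) (hR : Cfsg.IsMinimalCentrallyLarge R) : (Q ⊓ R) ⊔ (Q ⊓ Subgroup.centralizer (Q : Set P)) = Q ∧ ⁅Q, Q⁆ = ⁅R, R⁆ ∧ Nat.card ↥Q = Nat.card ↥R ∧ Nat.card ↥(Q ⊓ Subgroup.centralizer (Q : Set P)) = Nat.card ↥(R ⊓ Subgroup.centralizer (R : Set P)) ∧ (IsMulCommutative ↥Q → ∀ X : Subgroup P, Cfsg.IsMinimalCentrallyLarge X ↔ X ∈ Cfsg.maxAbelianSubgroups P) := by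
  have key : ∀ R : Subgroup P, Cfsg.IsCentrallyLarge R ↔ Cfsg.Agent.Lib.LCD.IsCL R :=
    Cfsg.Agent.Lib.LCD.isCentrallyLarge_iff
  have keyM : ∀ R : Subgroup P, Cfsg.IsMinimalCentrallyLarge R ↔
      (Cfsg.Agent.Lib.LCD.IsCL R ∧ ∀ R' : Subgroup P, R' ≤ R → Cfsg.Agent.Lib.LCD.IsCL R' → R' = R) := by
    intro R
    constructor
    · rintro ⟨h1, h2⟩
      exact ⟨(key R).1 h1, fun R' h3 h4 => h2 R' h3 ((key R').2 h4)⟩
    · rintro ⟨h1, h2⟩
      exact ⟨(key R).2 h1, fun R' h3 h4 => h2 R' h3 ((key R').1 h4)⟩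
  obtain ⟨hQ1, hQ2⟩ := (keyM Q).1 hQ
  obtain ⟨hR1, hR2⟩ := (keyM R).1 hR
  obtain ⟨h1, h2, h3, h4⟩ := Cfsg.Agent.Lib.LCD.min_cl_main hQ1 hR1 hQ2 hR2
  refine ⟨h1, h2, h3, h4, ?_⟩
  intro hab X
  -- `Q` is abelian of largest order
  have hmaxQ : Q ∈ Cfsg.maxAbelianSubgroups P := by
    refine ⟨hab, fun B hB => ?_⟩
    have h5 := hQ1 B
    rw [Cfsg.Agent.Lib.LCD.zdm_of_comm hab, Cfsg.Agent.Lib.LCD.zdm_of_comm hB] at h5
    exact Nat.mul_self_le_mul_self_iff.1 h5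
  constructor
  · intro hX
    obtain ⟨hX1, hX2⟩ := (keyM X).1 hX
    obtain ⟨h5, h6, h7, h8⟩ := Cfsg.Agent.Lib.LCD.min_cl_main hQ1 hX1 hQ2 hX2
    have hXab : IsMulCommutative X := by
      have hbot : ⁅X, X⁆ = ⊥ := by
        rw [← h6, eq_bot_iff, Subgroup.commutator_le]
        intro a ha b hb
        rw [Subgroup.mem_bot, commutatorElement_eq_one_iff_mul_comm]
        exact Cfsg.Agent.Lib.LCD.comm_of_maxAb hab ha hb
      refine ⟨⟨fun a b => Subtype.ext ?_⟩⟩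
      have h9 := Subgroup.commutator_eq_bot_iff_le_centralizer.1 hbot
      exact (Subgroup.mem_centralizer_iff.1 (h9 b.2)) a a.2
    refine ⟨hXab, fun B hB => ?_⟩
    rw [← h7]
    exact hmaxQ.2 B hB
  · intro hX
    have hc : Nat.card X = Nat.card Q := le_antisymm (hmaxQ.2 X hX.1) (hX.2 Q hab)
    have hz : Cfsg.Agent.Lib.LCD.zdm X = Cfsg.Agent.Lib.LCD.zdm Q := by
      rw [Cfsg.Agent.Lib.LCD.zdm_of_comm hab, Cfsg.Agent.Lib.LCD.zdm_of_comm hX.1, hc]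
    have hXcl : Cfsg.Agent.Lib.LCD.IsCL X := fun Y => by rw [hz]; exact hQ1 Y
    refine (keyM X).2 ⟨hXcl, fun R' hR' hcl => ?_⟩
    have hR'ab : IsMulCommutative R' := Cfsg.Agent.Lib.LCD.isMulComm_of_le hX.1 hR'
    have hz2 := hcl X
    rw [Cfsg.Agent.Lib.LCD.zdm_of_comm hX.1, Cfsg.Agent.Lib.LCD.zdm_of_comm hR'ab] at hz2
    exact Subgroup.eq_of_le_of_card_ge hR' (Nat.mul_self_le_mul_self_iff.1 hz2)

end Cfsg.Agent.S3007
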