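import Cfsg.Statements.S3015
import Cfsg.Agent.S3014
import Mathlib

set_option autoImplicit false
open Cfsg

namespace Cfsg.Agent.S3015

open Cfsg.Agent.S3014
/-- Let G be a finite non-abelian simple group, M a maximal subgroup of G and H a normal subgroup of M of prime index in M. Then G is generated by H together with one of its conjugates. -/
theorem result {G : Type*} [Group G] [Finite G] [IsSimpleGroup G] (hG : ¬ IsMulCommutative G) (M H : Subgroup G) (hmaxM : IsCoatom M) (hHM : H ≤ M) (hHn : (H.subgroupOf M).Normal) (hidx : (H.relIndex M).Prime) : ∃ g : G, H ⊔ H.map (MulAut.conj g).toMonoidHom = ⊤ := by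

  classical
  set r := H.relIndex M with hr
  haveI hrp : Fact r.Prime := ⟨hidx⟩
  let H' : Subgroup M := H.subgroupOf M
  have hH'idx : H'.index = r := rfl
  have hH'top : H' ≠ ⊤ := by
    intro h
    have : H'.index = 1 := by rw [h]; exact Subgroup.index_top
    rw [hH'idx] at this
    exact hidx.ne_one this
  have hco : IsCoatom H' := by
    refine ⟨hH'top, fun K hK => ?_⟩
    have h1 := Subgroup.relIndex_mul_index hK.le
    rw [hH'idx] at h1
    have h2 : H'.relIndex K ≠ 1 := by
      intro h
      exact hK.not_ge (Subgroup.relIndex_eq_one.mp h)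
    have h3 : K.index = 1 := by
      have hdvd : H'.relIndex K ∣ r := Dvd.intro _ h1
      rcases (Nat.dvd_prime hidx).mp hdvd with h4 | h4
      · exact absurd h4 h2
      · rw [h4] at h1
        have hrpos : 0 < r := hidx.pos
        exact Nat.eq_of_mul_eq_mul_left hrpos (by rw [h1, mul_one])
    exact Subgroup.index_eq_one.mp h3
  have hMne : M ≠ ⊤ := hmaxM.1
  -- element-level coatom lemma
  have hmaxH : ∀ y ∈ M, y ∉ H → ∀ K : Subgroup G, H ≤ K → y ∈ K → M ≤ K := by
    intro y hy hyH K hK hyK
    have h1 : H' < K.subgroupOf M := by
      refine lt_of_le_of_ne (fun a ha => Subgroup.mem_subgroupOf.mpr (hK (Subgroup.mem_subgroupOf.mp ha))) ?_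
      intro h
      have : (⟨y, hy⟩ : M) ∈ K.subgroupOf M := Subgroup.mem_subgroupOf.mpr hyK
      rw [← h] at this
      exact hyH (Subgroup.mem_subgroupOf.mp this)
    exact Subgroup.subgroupOf_eq_top.mp (hco.2 _ h1)
  by_cases hbot : H = ⊥
  · -- M has prime order
    exfalso
    have hcard : Nat.card M = r := by
      rw [hr, hbot, Subgroup.relIndex_bot_left]
    have hMnebot : M ≠ ⊥ := by
      intro h
      rw [h, Subgroup.card_bot] at hcard
      exact hidx.ne_one hcard.symm
    have hNM : ∀ x, x ∈ Subgroup.normalizer (M : Set G) → x ∈ M := by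
      intro x hx
      by_contra hxM
      have h1 : Subgroup.normalizer (M : Set G) = ⊤ := by
        rcases hmaxM.le_iff.mp (Subgroup.le_normalizer (H := M)) with h | h
        · exact h
        · rw [h] at hx
          exact absurd hx hxM
      have h2 : M.Normal := Subgroup.normalizer_eq_top_iff.mp h1
      rcases IsSimpleGroup.eq_bot_or_eq_top_of_normal M h2 with h | h
      · exact hMnebot h
      · exact hMne h
    have hpg : IsPGroup r M := IsPGroup.of_card (n := 1) (by rw [hcard, pow_one])
    obtain ⟨P, hP⟩ := hpg.exists_le_sylow
    have hPM : (P : Subgroup G) = M := by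
      by_contra hne
      have hlt : M < (P : Subgroup G) := lt_of_le_of_ne hP (fun h => hne h.symm)
      -- normalizer growth inside P
      haveI : Group.IsNilpotent (P : Subgroup G) := P.isPGroup'.isNilpotent
      have h1 : M.subgroupOf (P : Subgroup G) < ⊤ := by
        refine lt_top_iff_ne_top.mpr (fun h => hlt.not_ge (Subgroup.subgroupOf_eq_top.mp h))
      have h2 := normalizerCondition_of_isNilpotent _ h1
      obtain ⟨x, hx1, hx2⟩ := SetLike.exists_of_lt h2
      apply hx2
      apply Subgroup.mem_subgroupOf.mpr
      apply hNM
      rw [Subgroup.mem_normalizer_iff]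
      intro a
      rw [Subgroup.mem_normalizer_iff] at hx1
      by_cases ha : a ∈ (P : Subgroup G)
      · have := hx1 ⟨a, ha⟩
        simpa [Subgroup.mem_subgroupOf] using this
      · constructor
        · intro h
          exact absurd (hP h) ha
        · intro h
          have h3 := hP h
          have h4 : a = (x : G)⁻¹ * ((x : G) * a * (x : G)⁻¹) * (x : G) := by group
          exfalso
          apply ha
          rw [h4]
          exact (P : Subgroup G).mul_mem ((P : Subgroup G).mul_mem ((P : Subgroup G).inv_mem x.2) h3) x.2
    haveI : IsCyclic M := isCyclic_of_prime_card (p := r) hcard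
    have hnc : Subgroup.normalizer (P : Set G) ≤ Subgroup.centralizer (P : Set G) := by
      intro x hx
      have hcoe : (P : Set G) = (M : Set G) := by
        show ((P : Subgroup G) : Set G) = (M : Set G)
        rw [hPM]
      rw [hcoe] at hx ⊢
      have hxM := hNM x hx
      rw [Subgroup.mem_centralizer_iff]
      intro y hy
      letI : CommGroup M := IsCyclic.commGroup
      have := mul_comm (⟨y, hy⟩ : M) ⟨x, hxM⟩
      exact congrArg Subtype.val this
    have hcomp := MonoidHom.ker_transferSylow_isComplement' P hnc
    have hKn : (MonoidHom.transferSylow P hnc).ker.Normal := inferInstance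
    rcases IsSimpleGroup.eq_bot_or_eq_top_of_normal _ hKn with h | h
    · have hsup := hcomp.sup_eq_top
      rw [h, bot_sup_eq, hPM] at hsup
      exact hMne hsup
    · have hdis := hcomp.disjoint
      rw [h, top_disjoint, hPM] at hdis
      exact hMnebot hdis
  · by_contra hall
    push_neg at hall
    -- normalizers
    have hHnorm : ∀ m ∈ M, ∀ a ∈ H, m * a * m⁻¹ ∈ H := by
      intro m hm a ha
      have := hHn.conj_mem ⟨a, hHM ha⟩ (Subgroup.mem_subgroupOf.mpr ha) ⟨m, hm⟩
      exact Subgroup.mem_subgroupOf.mp this
    have hNH : ∀ x, x ∈ Subgroup.normalizer (H : Set G) → x ∈ M := by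
      intro x hx
      by_contra hxM
      have hle : M ≤ Subgroup.normalizer (H : Set G) := fun m hm =>
        norm_of_comap H m (fun a ha => hHnorm m hm a ha)
      have h1 : Subgroup.normalizer (H : Set G) = ⊤ := by
        rcases hmaxM.le_iff.mp hle with h | h
        · exact h
        · rw [h] at hx
          exact absurd hx hxM
      have h2 : H.Normal := Subgroup.normalizer_eq_top_iff.mp h1
      rcases IsSimpleGroup.eq_bot_or_eq_top_of_normal H h2 with h | h
      · exact hbot h
      · exact hMne (top_le_iff.mp (h ▸ hHM))
    have hNM : ∀ x, x ∈ Subgroup.normalizer (M : Set G) → x ∈ M := by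
      intro x hx
      by_contra hxM
      have h1 : Subgroup.normalizer (M : Set G) = ⊤ := by
        rcases hmaxM.le_iff.mp (Subgroup.le_normalizer (H := M)) with h | h
        · exact h
        · rw [h] at hx
          exact absurd hx hxM
      have h2 : M.Normal := Subgroup.normalizer_eq_top_iff.mp h1
      rcases IsSimpleGroup.eq_bot_or_eq_top_of_normal M h2 with h | h
      · apply hbot
        exact le_bot_iff.mp (h ▸ hHM)
      · exact hMne h
    -- coprime elements lie in H
    have hcop : ∀ x ∈ M, Nat.Coprime (orderOf x) r → x ∈ H := by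
      intro x hx hc
      haveI : H'.Normal := hHn
      have h1 : orderOf (QuotientGroup.mk' H' ⟨x, hx⟩) ∣ r := by
        rw [← hH'idx, Subgroup.index_eq_card]
        exact orderOf_dvd_natCard _
      have h2 : orderOf (QuotientGroup.mk' H' ⟨x, hx⟩) ∣ orderOf x := by
        have := orderOf_map_dvd (QuotientGroup.mk' H') (⟨x, hx⟩ : M)
        rwa [Subgroup.orderOf_mk] at this
      have h3 : orderOf (QuotientGroup.mk' H' ⟨x, hx⟩) = 1 :=
        Nat.eq_one_of_dvd_coprimes hc h2 h1
      rw [orderOf_eq_one_iff] at h3
      exact Subgroup.mem_subgroupOf.mp ((QuotientGroup.eq_one_iff _).mp h3)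
    have hordconj : ∀ g x : G, orderOf (g * x * g⁻¹) = orderOf x := by
      intro g x
      rw [← MulAut.conj_apply]
      exact MulEquiv.orderOf_eq _ _
    -- key lemma
    have hkey : ∀ g : G, H.map (MulAut.conj g).toMonoidHom ≤ M →
        H.map (MulAut.conj g).toMonoidHom = H := by
      intro g hg
      by_contra hne
      have hgM : g ∉ M := by
        intro hgM
        apply hne
        apply Subgroup.eq_of_le_of_card_ge
        · rintro _ ⟨a, ha, rfl⟩
          exact hHnorm g hgM a ha
        · rw [Subgroup.card_map_of_injective (MulAut.conj g).injective]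
      let R : Subgroup G := Subgroup.closure {x | x ∈ M ∧ Nat.Coprime (orderOf x) r}
      have hRM : R ≤ M := (Subgroup.closure_le _).mpr (fun x hx => hx.1)
      have hgR : g ∈ Subgroup.normalizer (R : Set G) := by
        apply norm_of_comap
        refine (Subgroup.closure_le _).mpr ?_
        rintro x ⟨hxM, hxc⟩
        apply Subgroup.subset_closure
        have hxH := hcop x hxM hxc
        refine ⟨hg ⟨x, hxH, rfl⟩, ?_⟩
        show Nat.Coprime (orderOf (g * x * g⁻¹)) r
        rwa [hordconj]
      have hMR : M ≤ Subgroup.normalizer (R : Set G) := by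
        intro m hm
        apply norm_of_comap
        refine (Subgroup.closure_le _).mpr ?_
        rintro x ⟨hxM, hxc⟩
        apply Subgroup.subset_closure
        refine ⟨M.mul_mem (M.mul_mem hm hxM) (M.inv_mem hm), ?_⟩
        show Nat.Coprime (orderOf (m * x * m⁻¹)) r
        rwa [hordconj]
      have hRn : R.Normal := by
        apply Subgroup.normalizer_eq_top_iff.mp
        rcases hmaxM.le_iff.mp hMR with h | h
        · exact h
        · rw [h] at hgR
          exact absurd hgR hgM
      have hRbot : R = ⊥ := by
        rcases IsSimpleGroup.eq_bot_or_eq_top_of_normal R hRn with h | h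
        · exact h
        · exact absurd (top_le_iff.mp (h ▸ hRM)) hMne
      -- M is an r-group
      have hMp : IsPGroup r M := by
        intro x
        have hn : orderOf (x : G) ≠ 0 := (orderOf_pos (x : G)).ne'
        obtain ⟨e, m, hm, hem⟩ := Nat.exists_eq_pow_mul_and_not_dvd hn r hidx.ne_one
        refine ⟨e, Subtype.ext ?_⟩
        have h1 : ((x : G) ^ r ^ e) ∈ R := by
          apply Subgroup.subset_closure
          refine ⟨M.pow_mem x.2 _, ?_⟩
          rw [orderOf_pow_of_dvd (pow_ne_zero _ hidx.ne_zero) (Dvd.intro _ hem.symm)]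
          have : orderOf (x : G) / r ^ e = m := by
            rw [hem]
            exact Nat.mul_div_cancel_left _ (pow_pos hidx.pos _)
          rw [this]
          exact ((Nat.Prime.coprime_iff_not_dvd hidx).mpr hm).symm
        rw [hRbot, Subgroup.mem_bot] at h1
        simpa using h1
      haveI : Group.IsNilpotent M := hMp.isNilpotent
      -- H^g proper in M
      have hH1 : (H.map (MulAut.conj g).toMonoidHom).subgroupOf M < ⊤ := by
        refine lt_top_iff_ne_top.mpr (fun h => ?_)
        have h1 : M ≤ H.map (MulAut.conj g).toMonoidHom := Subgroup.subgroupOf_eq_top.mp h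
        have h2 : Nat.card M ≤ Nat.card H := by
          have := Subgroup.card_le_of_le h1
          rwa [Subgroup.card_map_of_injective (MulAut.conj g).injective] at this
        have h3 : M ≤ H := by
          have := Subgroup.eq_of_le_of_card_ge hHM h2
          rw [this]
        apply hH'top
        exact Subgroup.subgroupOf_eq_top.mpr h3
      have h2 := normalizerCondition_of_isNilpotent _ hH1
      obtain ⟨x, hx1, hx2⟩ := SetLike.exists_of_lt h2
      -- y = g⁻¹ x g normalizes H
      set y := g⁻¹ * (x : G) * g with hy
      have hyN : y ∈ Subgroup.normalizer (H : Set G) := by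
        apply norm_of_comap
        intro a ha
        rw [Subgroup.mem_normalizer_iff] at hx1
        have hmem : g * a * g⁻¹ ∈ H.map (MulAut.conj g).toMonoidHom := ⟨a, ha, rfl⟩
        have h3 := (hx1 ⟨g * a * g⁻¹, hg hmem⟩).mp (Subgroup.mem_subgroupOf.mpr hmem)
        obtain ⟨b, hb, hbe⟩ := Subgroup.mem_subgroupOf.mp h3
        have hbe' : g * b * g⁻¹ = (x : G) * (g * a * g⁻¹) * (x : G)⁻¹ := by
          have := hbe
          simpa using this
        have : y * a * y⁻¹ = b := by
          rw [hy]
          have h5 : b = g⁻¹ * (g * b * g⁻¹) * g := by group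
          rw [h5, hbe']
          group
        show y * a * y⁻¹ ∈ H
        rw [this]
        exact hb
      have hyM : y ∈ M := hNH y hyN
      -- y ∈ H
      have hyH : y ∈ H := by
        by_contra hyH
        have hle : M ≤ M.comap (MulAut.conj g).toMonoidHom := by
          apply hmaxH y hyM hyH
          · intro a ha
            exact hg ⟨a, ha, rfl⟩
          · show g * y * g⁻¹ ∈ M
            have : g * y * g⁻¹ = (x : G) := by rw [hy]; group
            rw [this]
            exact x.2
        exact hgM (hNM g (norm_of_comap M g hle))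
      apply hx2
      apply Subgroup.mem_subgroupOf.mpr
      refine ⟨y, hyH, ?_⟩
      show g * y * g⁻¹ = (x : G)
      rw [hy]
      group
    -- closure condition
    have hcl : ∀ g : G, (H ⊔ H.map (MulAut.conj g).toMonoidHom) ⊓ M = H := by
      intro g
      set D := H ⊔ H.map (MulAut.conj g).toMonoidHom with hD
      by_contra hne
      have hlt : H < D ⊓ M := lt_of_le_of_ne (le_inf le_sup_left hHM) (fun h => hne h.symm)
      obtain ⟨y, hy1, hy2⟩ := SetLike.exists_of_lt hlt
      obtain ⟨hyD, hyM⟩ := Subgroup.mem_inf.mp hy1
      have hMD : M ≤ D := hmaxH y hyM hy2 D le_sup_left hyD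
      rcases hmaxM.le_iff.mp hMD with h | h
      · exact hall g h
      · have h1 : H.map (MulAut.conj g).toMonoidHom ≤ M := h ▸ le_sup_right
        have h2 := hkey g h1
        rw [hD, h2, sup_idem] at h
        apply hH'top
        exact Subgroup.subgroupOf_eq_top.mpr (by rw [← h])
    have hfin := Cfsg.Agent.S3014.result H M hHM hcl hco hmaxM
    have hNn : (Subgroup.normalClosure (H : Set G)).Normal := inferInstance
    rcases IsSimpleGroup.eq_bot_or_eq_top_of_normal _ hNn with h | h
    · apply hbot
      have : H ≤ Subgroup.normalClosure (H : Set G) := Subgroup.le_normalClosure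
      rw [h] at this
      exact le_bot_iff.mp this
    · rw [h, top_inf_eq] at hfin
      apply hH'top
      exact Subgroup.subgroupOf_eq_top.mpr (by rw [hfin])

end Cfsg.Agent.S3015
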