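import Cfsg.Statements.S3023
import Cfsg.Agent.Lib.LSpe5
-- import your own Cfsg.Agent.* helpers here

set_option autoImplicit false
open Cfsg

namespace Cfsg.Agent.S3023

/-- Let p be a prime, G a finite group of parabolic characteristic p (every p-local subgroup containing a Sylow p-subgroup of G has characteristic p), S a Sylow p-subgroup of G and G₁ a subnormal subgroup of G. If the centre of S ∩ G₁ is nontrivial and contained in the centre of S, then G₁ has parabolic characteristic p. -/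
theorem result {G : Type*} [Group G] [Finite G] {p : ℕ} [Fact p.Prime] (hG : Cfsg.IsOfParabolicCharacteristic p G) (S : Sylow p G) (G₁ : Subgroup G) (hsn : G₁.IsSubnormal) (hne : ((S : Subgroup G) ⊓ G₁) ⊓ Subgroup.centralizer (((S : Subgroup G) ⊓ G₁ : Subgroup G) : Set G) ≠ ⊥) (hle : ((S : Subgroup G) ⊓ G₁) ⊓ Subgroup.centralizer (((S : Subgroup G) ⊓ G₁ : Subgroup G) : Set G) ≤ (S : Subgroup G) ⊓ Subgroup.centralizer ((S : Subgroup G) : Set G)) : Cfsg.IsOfParabolicCharacteristic p ↥G₁ := by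
  obtain ⟨S₁, hS₁⟩ := Cfsg.Agent.Lib.LSpe.sylow_inf_subnormal S G₁ hsn
  refine Cfsg.Agent.Lib.LSpe.parabolic_of_omega S₁ (fun z hz1 hz => ?_)
  have e1 : (S₁ : Subgroup ↥G₁) = ((S : Subgroup G) ⊓ G₁).subgroupOf G₁ := by
    rw [hS₁]; ext x; simp [Subgroup.mem_subgroupOf]
  rw [e1] at hz
  have hz2 : (z : G) ∈ Cfsg.omegaOne p (((S : Subgroup G) ⊓ G₁) ⊓ Subgroup.centralizer (((S : Subgroup G) ⊓ G₁ : Subgroup G) : Set G)) := by
    rw [← Cfsg.Agent.Lib.LNorm.map_omega_center G₁ _ inf_le_right]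
    exact ⟨z, hz, rfl⟩
  have hz1' : (z : G) ≠ 1 := fun e => hz1 (Subtype.ext e)
  have hz3 : (z : G) ∈ Cfsg.omegaOne p ((S : Subgroup G) ⊓ Subgroup.centralizer ((S : Subgroup G) : Set G)) := by
    revert hz2
    apply Subgroup.closure_mono
    rintro x ⟨hx1, hx2⟩
    exact ⟨hle hx1, hx2⟩
  have h1 := Cfsg.Agent.Lib.LSpe.omega_of_parabolic hG S hz1' hz3
  set D := Subgroup.centralizer ({(z : G)} : Set G) with hD
  have h2 := Cfsg.Agent.Lib.LChar.char_of_subnormal h1 (G₁.subgroupOf D) hsn.subgroupOf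
  refine Cfsg.Agent.Lib.LChar.char_of_equiv (Cfsg.Agent.Lib.LSpe.equivOfMapEq (G₁.subgroupOf D) (Subgroup.centralizer ({z} : Set ↥G₁)) ?_) h2
  ext g
  constructor
  · rintro ⟨⟨y, hyD⟩, hyG, rfl⟩
    refine ⟨⟨y, Subgroup.mem_subgroupOf.1 hyG⟩, Subgroup.mem_centralizer_singleton_iff.2 (Subtype.ext ?_), rfl⟩
    exact Subgroup.mem_centralizer_singleton_iff.1 hyD
  · rintro ⟨⟨y, hyG⟩, hyC, rfl⟩
    have hyD : y ∈ D := Subgroup.mem_centralizer_singleton_iff.2 (congrArg Subtype.val (Subgroup.mem_centralizer_singleton_iff.1 hyC))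
    exact ⟨⟨y, hyD⟩, Subgroup.mem_subgroupOf.2 hyG, rfl⟩

end Cfsg.Agent.S3023
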