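import Cfsg.Statements.S3028
import Mathlib
import Cfsg.Agent.Lib.LSpe5
import Cfsg.Agent.Lib.Comp
import Cfsg.Agent.Lib.Comp2
import Cfsg.Agent.Lib.WielandtJoin
import Cfsg.Agent.Lib.H1Cop
import Cfsg.Agent.Lib.H1Core
import Cfsg.Agent.Lib.PNilp
import Cfsg.Agent.Lib.H1Super
import Cfsg.Agent.S0051

set_option autoImplicit false
open Cfsg

namespace Cfsg.Agent.S3028

open Subgroup Cfsg Cfsg.Agent.Lib.PNilp
open scoped commutatorElement

universe u

theorem map_inf_le_aux {G Q : Type*} [Group G] [Finite G] [Group Q] {p : ℕ} [Fact p.Prime] (π : G →* Q)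
    (hπ : Function.Surjective π) (T : Sylow p G) (A : Subgroup G) (hA : A.IsSubnormal) :
    A.map π ⊓ (T : Subgroup G).map π ≤ (A ⊓ (T : Subgroup G)).map π := by
  classical
  obtain ⟨S_A, hS_A⟩ := Cfsg.Agent.Lib.LSpe.sylow_inf_subnormal T A hA
  let g : A →* ↥(A.map π) := π.subgroupMap A
  have hg : Function.Surjective g := π.subgroupMap_surjective A
  let S' : Sylow p ↥(A.map π) := S_A.mapSurjective hg
  set R := (T : Subgroup G).map π with hR
  have hRp0 : IsPGroup p R := T.2.map π
  have hRp : IsPGroup p ↥(R.subgroupOf (A.map π)) := by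
    intro y
    obtain ⟨k, hk⟩ := hRp0 ⟨((y : ↥(A.map π)) : Q), y.2⟩
    refine ⟨k, Subtype.ext (Subtype.ext ?_)⟩
    have := congrArg Subtype.val hk
    simpa using this
  have hle : (S' : Subgroup _) ≤ R.subgroupOf (A.map π) := by
    intro y hy
    obtain ⟨a, ha, he⟩ := hy
    rw [Subgroup.mem_subgroupOf]
    have ha' : (a : A) ∈ (T : Subgroup G).subgroupOf A := by
      rw [← hS_A]; exact ha
    rw [Subgroup.mem_subgroupOf] at ha'
    refine ⟨a, ha', ?_⟩
    exact congrArg Subtype.val he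
  have heq := S'.is_maximal' hRp hle
  rintro x ⟨hxA, hxR⟩
  have hx : (⟨x, hxA⟩ : ↥(A.map π)) ∈ R.subgroupOf (A.map π) := hxR
  rw [heq] at hx
  obtain ⟨a, ha, he⟩ := hx
  have ha' : (a : A) ∈ (T : Subgroup G).subgroupOf A := by
    rw [← hS_A]; exact ha
  rw [Subgroup.mem_subgroupOf] at ha'
  exact ⟨a, ⟨a.2, ha'⟩, congrArg Subtype.val he⟩

theorem claim (p : ℕ) [hpf : Fact p.Prime] : ∀ (n : ℕ) (G : Type u) [Group G] [Finite G], Nat.card G = n →
    ∀ (T : Sylow p G) (F : Set (Subgroup G)), (∀ A ∈ F, A.IsSubnormal) → sSup F = ⊤ →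
    ∀ U : Subgroup G, (∀ A ∈ F, A ⊓ (T : Subgroup G) ≤ U) → (T : Subgroup G) ≤ U := by
  intro n
  induction n using Nat.strong_induction_on with
  | _ n ih =>
  intro G _ _ hn T F hF htop U hU
  classical
  set V := U ⊓ (T : Subgroup G) with hVdef
  have hV : ∀ A ∈ F, A ⊓ (T : Subgroup G) ≤ V := fun A hA => le_inf (hU A hA) inf_le_right
  have hVT : V ≤ (T : Subgroup G) := inf_le_right
  suffices hfin : (T : Subgroup G) ≤ V from hfin.trans inf_le_left
  by_contra hTV
  -- quotients
  have hq' : ∀ Z : Subgroup G, Z.Normal → Z ≠ ⊥ → (T : Subgroup G) ≤ V ⊔ ((T : Subgroup G) ⊓ Z) := by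
    intro Z hZ hZ1
    haveI := hZ
    let π := QuotientGroup.mk' Z
    have hπ : Function.Surjective π := QuotientGroup.mk'_surjective Z
    have hlt : Nat.card (G ⧸ Z) < n := by
      rw [← hn]; exact Cfsg.Agent.Lib.H1Super.card_quotient_lt hZ1
    have h1 := ih _ hlt (G ⧸ Z) rfl (T.mapSurjective hπ) ((fun A => A.map π) '' F)
      (by
        rintro _ ⟨A, hA, rfl⟩
        exact (hF A hA).map hπ)
      (by
        rw [sSup_image, ← (Subgroup.gc_map_comap π).l_sSup, htop, Subgroup.map_top_of_surjective _ hπ])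
      (V.map π)
      (by
        rintro _ ⟨A, hA, rfl⟩
        exact (map_inf_le_aux π hπ T A (hF A hA)).trans (Subgroup.map_mono (hV A hA)))
    intro s hs
    have h2 : π s ∈ V.map π := h1 ⟨s, hs, rfl⟩
    obtain ⟨v, hv, he⟩ := h2
    have h3 : v⁻¹ * s ∈ Z := by
      have : (v : G ⧸ Z) = (s : G ⧸ Z) := he
      exact QuotientGroup.eq.1 this
    have h4 : v⁻¹ * s ∈ (T : Subgroup G) ⊓ Z :=
      ⟨(T : Subgroup G).mul_mem ((T : Subgroup G).inv_mem (hVT hv)) hs, h3⟩
    have h5 : s = v * (v⁻¹ * s) := by group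
    rw [h5]
    exact Subgroup.mul_mem_sup hv h4
  have hq : ∀ Z : Subgroup G, Z.Normal → Z ≠ ⊥ → (T : Subgroup G) ⊓ Z ≤ V → False :=
    fun Z hZ hZ1 hle => hTV ((hq' Z hZ hZ1).trans (sup_le le_rfl hle))
  -- proper normal subgroups
  have hsub : ∀ (R : Subgroup G), R.Normal → R ≠ ⊤ → ∀ F' : Set (Subgroup G), (∀ B ∈ F', B.IsSubnormal) →
      sSup F' = R → (∀ B ∈ F', B ⊓ (T : Subgroup G) ≤ V) → (T : Subgroup G) ⊓ R ≤ V := by
    intro R hRn hRt F' hF' hsup hF'V
    obtain ⟨T', hT'⟩ := Cfsg.Agent.Lib.LSpe.sylow_inf_subnormal T R hRn.isSubnormal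
    have hlt : Nat.card R < n := by
      rw [← hn]
      exact lt_of_le_of_ne (Subgroup.card_le_card_group R) fun h => hRt (Subgroup.eq_top_of_card_eq R h)
    have h1 := ih _ hlt ↥R rfl T' ((fun B : Subgroup G => B.subgroupOf R) '' F')
      (by
        rintro _ ⟨B, hB, rfl⟩
        exact (hF' B hB).subgroupOf)
      (by
        rw [eq_top_iff]
        intro x _
        have hle : R ≤ (sSup ((fun B : Subgroup G => B.subgroupOf R) '' F')).map R.subtype := by
          have hle2 : ∀ B ∈ F', B ≤ (sSup ((fun B : Subgroup G => B.subgroupOf R) '' F')).map R.subtype := by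
            intro B hB b hb
            have hbR : b ∈ R := by
              rw [← hsup]; exact le_sSup hB hb
            refine ⟨⟨b, hbR⟩, ?_, rfl⟩
            have h3 : B.subgroupOf R ≤ sSup ((fun B : Subgroup G => B.subgroupOf R) '' F') :=
              le_sSup ⟨B, hB, rfl⟩
            exact h3 hb
          calc R = sSup F' := hsup.symm
            _ ≤ _ := sSup_le hle2
        obtain ⟨y, hy, he⟩ := hle x.2
        have : y = x := Subtype.ext he
        rwa [← this])
      (V.subgroupOf R)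
      (by
        rintro _ ⟨B, hB, rfl⟩ y ⟨hy1, hy2⟩
        rw [Subgroup.mem_subgroupOf]
        have hy2' : y ∈ (T : Subgroup G).subgroupOf R := by
          rw [← hT']; exact hy2
        rw [Subgroup.mem_subgroupOf] at hy2'
        exact hF'V B hB ⟨hy1, hy2'⟩)
    rintro x ⟨hx1, hx2⟩
    have hx3 : (⟨x, hx2⟩ : R) ∈ (T' : Subgroup R) := by
      rw [hT', Subgroup.mem_subgroupOf]; exact hx1
    have := h1 hx3
    rwa [Subgroup.mem_subgroupOf] at this
  -- the residuals
  let K : Subgroup G → Subgroup G := fun A => (pResidual p ↥A).map A.subtype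
  have hKA : ∀ A, K A ≤ A := fun A => Subgroup.map_subtype_le _
  have hKsn : ∀ A : Subgroup G, A.IsSubnormal → (K A).IsSubnormal := by
    intro A hA
    refine Subgroup.IsSubnormal.step (K A) A (hKA A) hA ?_
    have : (K A).subgroupOf A = pResidual p ↥A := by
      ext x
      rw [Subgroup.mem_subgroupOf]
      constructor
      · rintro ⟨y, hy, he⟩
        have : y = x := Subtype.ext he
        rwa [← this]
      · intro hx
        exact ⟨x, hx, rfl⟩
    rw [this]
    infer_instance
  have hKgen : ∀ A : Subgroup G, A.IsSubnormal → A ≤ K A ⊔ (A ⊓ (T : Subgroup G)) := by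
    intro A hA a ha
    obtain ⟨S_A, hS_A⟩ := Cfsg.Agent.Lib.LSpe.sylow_inf_subnormal T A hA
    have h1 := Cfsg.Agent.Lib.PNilp.sup_eq_top_of_isPGroup_quotient S_A (pResidual p ↥A)
      (isPGroup_quotient_pResidual (p := p) (G := ↥A))
    have h2 : (⟨a, ha⟩ : A) ∈ (S_A : Subgroup A) ⊔ pResidual p ↥A := by rw [h1]; trivial
    have h3 := Subgroup.mem_map_of_mem A.subtype h2
    rw [Subgroup.map_sup] at h3
    refine (sup_le ?_ ?_ : _ ≤ K A ⊔ (A ⊓ (T : Subgroup G))) h3
    · rintro _ ⟨x, hx, rfl⟩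
      refine Subgroup.mem_sup_right ⟨x.2, ?_⟩
      have : x ∈ (T : Subgroup G).subgroupOf A := by rw [← hS_A]; exact hx
      rwa [Subgroup.mem_subgroupOf] at this
    · exact le_sup_left
  -- the family
  let F₀ : Set (Subgroup G) := {B | ∃ A ∈ F, ∃ u ∈ V, B = (K A).map (MulAut.conj u).toMonoidHom}
  set K₀ := sSup F₀ with hK₀
  have hF₀sn : ∀ B ∈ F₀, B.IsSubnormal := by
    rintro _ ⟨A, hA, u, hu, rfl⟩
    exact (hKsn A (hF A hA)).map (MulEquiv.surjective _)
  have hAK : ∀ A ∈ F, K A ≤ K₀ := by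
    intro A hA
    refine le_trans ?_ (le_sSup (a := (K A).map (MulAut.conj (1 : G)).toMonoidHom) ⟨A, hA, 1, V.one_mem, rfl⟩)
    intro x hx
    exact ⟨x, hx, by simp⟩
  have hsup : K₀ ⊔ V = ⊤ := by
    rw [eq_top_iff, ← htop]
    refine sSup_le fun A hA => (hKgen A (hF A hA)).trans ?_
    exact sup_le_sup (hAK A hA) (hV A hA)
  have hVconj : ∀ u ∈ V, ∀ x ∈ K₀, u * x * u⁻¹ ∈ K₀ := by
    intro u hu
    have : K₀ ≤ K₀.comap (MulAut.conj u).toMonoidHom := by
      refine sSup_le fun B hB => ?_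
      obtain ⟨A, hA, u', hu', rfl⟩ := hB
      rintro _ ⟨k, hk, rfl⟩
      show u * ((MulAut.conj u').toMonoidHom k) * u⁻¹ ∈ K₀
      have h1 : (MulAut.conj (u * u')).toMonoidHom k = u * ((MulAut.conj u').toMonoidHom k) * u⁻¹ := by
        simp only [MulEquiv.coe_toMonoidHom, MulAut.conj_apply]; group
      rw [← h1]
      have h2 : (K A).map (MulAut.conj (u * u')).toMonoidHom ≤ K₀ :=
        le_sSup ⟨A, hA, u * u', V.mul_mem hu hu', rfl⟩
      exact h2 ⟨k, hk, rfl⟩
    intro x hx
    simpa [MulAut.conj_apply] using this hx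
  have hK₀n : K₀.Normal := by
    rw [← Subgroup.normalizer_eq_top_iff, eq_top_iff, ← hsup]
    refine sup_le (Subgroup.le_normalizer) ?_
    intro u hu
    rw [Subgroup.mem_normalizer_iff]
    intro x
    refine ⟨hVconj u hu x, fun h => ?_⟩
    have := hVconj u⁻¹ (V.inv_mem hu) _ h
    simpa [mul_assoc] using this
  have hK₀top : K₀ = ⊤ := by
    by_contra hne
    have hK₀bot : K₀ ≠ ⊥ := by
      intro h
      rw [h, bot_sup_eq] at hsup
      exact hTV (by rw [hsup]; exact le_top)
    refine hq K₀ hK₀n hK₀bot (hsub K₀ hK₀n hne F₀ hF₀sn rfl ?_)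
    rintro _ ⟨A, hA, u, hu, rfl⟩ y ⟨⟨k, hk, rfl⟩, hy2⟩
    have e : (MulAut.conj u).toMonoidHom k = u * k * u⁻¹ := by simp [MulAut.conj_apply]
    rw [e] at hy2 ⊢
    have hkT : k ∈ (T : Subgroup G) := by
      have h1 : k = u⁻¹ * (u * k * u⁻¹) * u := by group
      rw [h1]
      exact (T : Subgroup G).mul_mem ((T : Subgroup G).mul_mem ((T : Subgroup G).inv_mem (hVT hu)) hy2) (hVT hu)
    have hkV : k ∈ V := hV A hA ⟨hKA A hk, hkT⟩
    exact V.mul_mem (V.mul_mem hu hkV) (V.inv_mem hu)
  -- components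
  by_cases hlay : Cfsg.layer G = ⊥
  · -- the Fitting subgroup
    have hntG : Nontrivial G := by
      obtain ⟨s, hs, hsV⟩ := Set.not_subset.1 hTV
      refine ⟨s, 1, fun h => hsV ?_⟩
      rw [SetLike.mem_coe, h]
      exact V.one_mem
    have hfit : Cfsg.fittingSubgroup G ≠ ⊥ := by
      intro h
      have h1 := Cfsg.Agent.Lib.Comp.centralizer_Fstar_le (G := G)
      have h2 : Cfsg.generalizedFittingSubgroup G = ⊥ := by
        show Cfsg.layer G ⊔ Cfsg.fittingSubgroup G = ⊥
        rw [hlay, h, sup_idem]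
      rw [h2] at h1
      have h3 : Subgroup.centralizer ((⊥ : Subgroup G) : Set G) = ⊤ := by
        simp
      rw [h3] at h1
      obtain ⟨x, hx⟩ := exists_ne (1 : G)
      exact hx (Subgroup.mem_bot.1 (h1 (Subgroup.mem_top x)))
    obtain ⟨q, hq1⟩ : ∃ q : Nat.Primes, Cfsg.pCore (q : ℕ) G ≠ ⊥ := by
      by_contra hno
      push Not at hno
      apply hfit
      rw [Cfsg.Agent.Lib.H1Core.fittingSubgroup_eq_iSup_pCore, iSup_eq_bot]
      exact hno
    haveI : Fact (q : ℕ).Prime := ⟨q.2⟩
    by_cases hqp : (q : ℕ) = p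
    · -- the main case
      have hQne : Cfsg.pCore p G ≠ ⊥ := by
        rw [← hqp]; exact hq1
      set Q := Cfsg.pCore p G with hQdef
      haveI hQn : Q.Normal := Cfsg.Agent.Lib.H1Core.pCore_normal p G
      have hQp : IsPGroup p Q := Cfsg.Agent.Lib.H1Core.pCore_isPGroup p
      have hQT : Q ≤ (T : Subgroup G) := Cfsg.Agent.Lib.H1Core.pCore_le_sylow p T
      haveI hQnil := hQp.isNilpotent
      have hcc : ∀ x : G, (orderOf x).Coprime p → ⁅⁅Q, zpowers x⁆, zpowers x⁆ = ⁅Q, zpowers x⁆ := by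
        intro x hx
        refine Cfsg.Agent.Lib.H1Cop.commutator_commutator_eq (A := zpowers x) (K := Q) ?_ ?_ (Or.inr inferInstance)
        · rw [Subgroup.normalizer_eq_top_iff.2 hQn]; exact le_top
        · rw [Nat.card_zpowers]
          obtain ⟨k, hk⟩ := IsPGroup.iff_card.1 hQp
          rw [hk]
          exact hx.pow_right k
      have h3a : ∀ A : Subgroup G, A.IsSubnormal → ∀ x ∈ A, (orderOf x).Coprime p → ⁅Q, zpowers x⁆ ≤ A := by
        intro A hA
        induction hA with
        | top => exact fun _ _ _ => le_top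
        | step H K' hle hK hN ih2 =>
          intro x hx hc
          have h1 := ih2 x (hle hx) hc
          rw [← hcc x hc, Subgroup.commutator_le]
          intro d hd y hy
          have hy' : y ∈ H := (Subgroup.zpowers_le.2 hx) hy
          have h2 := hN.conj_mem (⟨y, hle hy'⟩ : K') (by
            rw [Subgroup.mem_subgroupOf]; exact hy') (⟨d, h1 hd⟩ : K')
          rw [Subgroup.mem_subgroupOf] at h2
          have h3 : d * y * d⁻¹ ∈ H := by simpa using h2
          rw [commutatorElement_def]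
          exact H.mul_mem h3 (H.inv_mem hy')
      set W := V ⊓ Q with hW
      have hQcomm : ∀ x : G, ⁅Q, zpowers x⁆ ≤ Q := by
        intro x
        refine Cfsg.Agent.Lib.H1Cop.commutator_le_left ?_
        rw [Subgroup.normalizer_eq_top_iff.2 hQn]; exact le_top
      have hW1 : ∀ A ∈ F, ∀ x ∈ A, (orderOf x).Coprime p → ⁅Q, zpowers x⁆ ≤ W := by
        intro A hA x hx hc
        refine le_inf ?_ (hQcomm x)
        exact (le_inf (h3a A (hF A hA) x hx hc) ((hQcomm x).trans hQT)).trans (hV A hA)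
      have hnW : ∀ x : G, ⁅Q, zpowers x⁆ ≤ W → x ∈ Subgroup.normalizer (W : Set G) := by
        intro x hx
        have hone : ∀ y : G, ⁅Q, zpowers y⁆ ≤ W → ∀ w ∈ W, y * w * y⁻¹ ∈ W := by
          intro y hy w hw
          have h1 : ⁅w, y⁆ ∈ W := hy (Subgroup.commutator_mem_commutator hw.2 (mem_zpowers y))
          have h2 : y * w * y⁻¹ = (⁅w, y⁆)⁻¹ * w := by
            rw [commutatorElement_def]; group
          rw [h2]
          exact W.mul_mem (W.inv_mem h1) hw
        rw [Subgroup.mem_normalizer_iff]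
        intro w
        refine ⟨hone x hx w, fun h => ?_⟩
        have h2 : ⁅Q, zpowers x⁻¹⁆ ≤ W := by rwa [Subgroup.zpowers_inv]
        have := hone x⁻¹ h2 _ h
        simpa [mul_assoc] using this
      have hVnW : V ≤ Subgroup.normalizer (W : Set G) := by
        intro u hu
        have hone : ∀ y ∈ V, ∀ w ∈ W, y * w * y⁻¹ ∈ W := fun y hy w hw =>
          ⟨V.mul_mem (V.mul_mem hy hw.1) (V.inv_mem hy), hQn.conj_mem w hw.2 y⟩
        rw [Subgroup.mem_normalizer_iff]
        intro w
        refine ⟨hone u hu w, fun h => ?_⟩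
        have := hone u⁻¹ (V.inv_mem hu) _ h
        simpa [mul_assoc] using this
      -- residuals and properties closed under generation
      have hKle : ∀ (L : Subgroup G), ∀ A ∈ F, (∀ x ∈ A, (orderOf x).Coprime p → x ∈ L) → K A ≤ L := by
        intro L A hA hx
        refine (Subgroup.map_le_iff_le_comap).2 ?_
        refine (Subgroup.closure_le _).2 ?_
        intro g hg
        refine hx g g.2 ?_
        have h1 : orderOf (g : G) = orderOf g := Subgroup.orderOf_coe g
        rw [h1]
        exact hg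
      have hK₀le : ∀ L : Subgroup G, V ≤ L → (∀ A ∈ F, ∀ x ∈ A, (orderOf x).Coprime p → x ∈ L) → K₀ ≤ L := by
        intro L hVL hx
        refine sSup_le fun B hB => ?_
        obtain ⟨A, hA, u, hu, rfl⟩ := hB
        rintro _ ⟨k, hk, rfl⟩
        have e : (MulAut.conj u).toMonoidHom k = u * k * u⁻¹ := by simp [MulAut.conj_apply]
        rw [e]
        exact L.mul_mem (L.mul_mem (hVL hu) (hKle L A hA (hx A hA) hk)) (L.inv_mem (hVL hu))
      have hWn : W.Normal := by
        rw [← Subgroup.normalizer_eq_top_iff, eq_top_iff, ← hK₀top]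
        exact hK₀le _ hVnW (fun A hA x hx hc => hnW x (hW1 A hA x hx hc))
      have hW0 : W = ⊥ := by
        by_contra hne
        exact hq W hWn hne (inf_le_right.trans inf_le_left)
      have hcent : Q ≤ Subgroup.center G := by
        -- the elements commuting with `Q`
        let C : Subgroup G := Subgroup.centralizer (Q : Set G)
        have hx : ∀ A ∈ F, ∀ x ∈ A, (orderOf x).Coprime p → x ∈ C := by
          intro A hA x hx hc
          have h1 := hW1 A hA x hx hc
          rw [hW0, le_bot_iff, Subgroup.commutator_comm, Subgroup.commutator_eq_bot_iff_le_centralizer] at h1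
          have h2 : x ∈ Subgroup.centralizer (Q : Set G) := h1 (mem_zpowers x)
          exact h2
        have hK₀C : K₀ ≤ C ⊔ V := hK₀le _ le_sup_right (fun A hA x hx1 hc => Subgroup.mem_sup_left (hx A hA x hx1 hc))
        -- `K₀` centralizes `Q`
        have hK₀C' : K₀ ≤ C := by
          refine sSup_le fun B hB => ?_
          obtain ⟨A, hA, u, hu, rfl⟩ := hB
          rintro _ ⟨k, hk, rfl⟩
          have e : (MulAut.conj u).toMonoidHom k = u * k * u⁻¹ := by simp [MulAut.conj_apply]
          rw [e]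
          have hkC : k ∈ C := hKle C A hA (hx A hA) hk
          rw [Subgroup.mem_centralizer_iff]
          intro q' hq'
          have h3 : u⁻¹ * q' * u ∈ Q := by
            have := hQn.conj_mem q' hq' u⁻¹
            simpa using this
          have h4 := (Subgroup.mem_centralizer_iff.1 hkC) _ h3
          calc q' * (u * k * u⁻¹) = u * ((u⁻¹ * q' * u) * k) * u⁻¹ := by group
            _ = u * (k * (u⁻¹ * q' * u)) * u⁻¹ := by rw [h4]
            _ = u * k * u⁻¹ * q' := by group
        rw [hK₀top] at hK₀C'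
        intro q' hq'
        rw [Subgroup.mem_center_iff]
        intro g
        exact ((Subgroup.mem_centralizer_iff.1 (hK₀C' (Subgroup.mem_top g))) q' hq').symm
      -- Gaschütz
      haveI hQcm : IsMulCommutative Q := ⟨⟨fun a b => Subtype.ext (by
        have := (Subgroup.mem_center_iff.1 (hcent a.2)) (b : G)
        exact this.symm)⟩⟩
      have hTsup : Q ⊔ V = (T : Subgroup G) := by
        refine le_antisymm (sup_le hQT hVT) ?_
        refine (hq' Q hQn hQne).trans ?_
        rw [sup_comm]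
        exact sup_le_sup inf_le_right le_rfl
      have hcop : (Nat.card Q).Coprime (T : Subgroup G).index := by
        obtain ⟨k, hk⟩ := IsPGroup.iff_card.1 hQp
        rw [hk]
        exact Nat.Coprime.pow_left k ((Nat.Prime.coprime_iff_not_dvd hpf.out).2 T.not_dvd_index)
      obtain ⟨H, hH⟩ := Cfsg.Agent.S0051.result Q (T : Subgroup G) hQT hcop V hVT hW0 hTsup
      have hHn : H.Normal := by
        rw [← Subgroup.normalizer_eq_top_iff, eq_top_iff, ← hH.sup_eq_top]
        refine sup_le ?_ Subgroup.le_normalizer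
        intro z hz
        rw [Subgroup.mem_normalizer_iff]
        intro h
        have e : z * h * z⁻¹ = h := by
          have := (Subgroup.mem_center_iff.1 (hcent hz)) h
          rw [← this]; group
        rw [e]
      haveI := hHn
      have hHq : IsPGroup p (G ⧸ H) := by
        obtain ⟨k, hk⟩ := IsPGroup.iff_card.1 hQp
        apply IsPGroup.of_card (n := k)
        rw [← Subgroup.index_eq_card, hH.index_eq_card, hk]
      have hres : pResidual p G ≤ H := pResidual_le_of_isPGroup_quotient H hHq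
      have hK₀H : K₀ ≤ pResidual p G ⊔ V := hK₀le _ le_sup_right (fun A hA x hx hc =>
        Subgroup.mem_sup_left (coprime_mem_pResidual hc))
      have hK₀H' : K₀ ≤ H := by
        refine sSup_le fun B hB => ?_
        obtain ⟨A, hA, u, hu, rfl⟩ := hB
        rintro _ ⟨k, hk, rfl⟩
        have e : (MulAut.conj u).toMonoidHom k = u * k * u⁻¹ := by simp [MulAut.conj_apply]
        rw [e]
        refine hHn.conj_mem k (hres ?_) u
        exact hKle (pResidual p G) A hA (fun x _ hc => coprime_mem_pResidual hc) hk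
      rw [hK₀top, top_le_iff] at hK₀H'
      apply hQne
      rw [hK₀H'] at hH
      have h1 := hH.card_mul
      rw [Subgroup.card_top] at h1
      have h2 : Nat.card Q = 1 := Nat.eq_of_mul_eq_mul_right Nat.card_pos (by rw [h1, one_mul])
      exact Subgroup.eq_bot_of_card_eq _ h2
    · -- `q ≠ p`
      refine hq _ (Cfsg.Agent.Lib.H1Core.pCore_normal _ G) hq1 ?_
      have hdis : Disjoint (T : Subgroup G) (Cfsg.pCore (q : ℕ) G) :=
        IsPGroup.disjoint_of_ne p (q : ℕ) (Ne.symm hqp) _ _ T.2 (Cfsg.Agent.Lib.H1Core.pCore_isPGroup _)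
      rw [hdis.eq_bot]
      exact bot_le
  · -- the layer
    have hcompA : ∀ L : Subgroup G, Cfsg.IsComponent L → ∃ A ∈ F, L ≤ A := by
      intro L hL
      by_contra hno
      push Not at hno
      have hc : ∀ A ∈ F, A ≤ Subgroup.centralizer (L : Set G) := by
        intro A hA
        rcases Cfsg.Agent.Lib.Comp.comp_subnormal hL (hF A hA) with h | h
        · exact absurd h (hno A hA)
        · exact (Subgroup.commutator_eq_bot_iff_le_centralizer).1 (by rw [Subgroup.commutator_comm]; exact h)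
      have htopc : (⊤ : Subgroup G) ≤ Subgroup.centralizer (L : Set G) := by
        rw [← htop]
        exact sSup_le hc
      haveI := hL.2.2
      obtain ⟨x, hx⟩ := exists_ne (1 : ↥L ⧸ Subgroup.center ↥L)
      induction x using QuotientGroup.induction_on with
      | H l =>
        apply hx
        rw [QuotientGroup.eq_one_iff, Subgroup.mem_center_iff]
        intro m
        apply Subtype.ext
        exact ((Subgroup.mem_centralizer_iff.1 (htopc (Subgroup.mem_top (m : G)))) l l.2).symm
    have hcompV : ∀ L : Subgroup G, Cfsg.IsComponent L → L ⊓ (T : Subgroup G) ≤ V := by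
      intro L hL
      obtain ⟨A, hA, hLA⟩ := hcompA L hL
      exact (inf_le_inf_right _ hLA).trans (hV A hA)
    by_cases hE : Cfsg.layer G = ⊤
    · obtain ⟨L, hL⟩ : ∃ L : Subgroup G, Cfsg.IsComponent L := by
        by_contra hno
        push Not at hno
        exact hlay (Cfsg.Agent.Lib.Comp.layer_eq_bot_iff.2 hno)
      have hLn : L.Normal := by
        have hN := Cfsg.Agent.Lib.Comp.comp_normal_layer hL
        have hmem : ∀ g : G, g ∈ Cfsg.layer G := fun g => by rw [hE]; trivial
        constructor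
        intro x hx g
        have h2 := hN.conj_mem (⟨x, hmem x⟩ : Cfsg.layer G) (by
          rw [Subgroup.mem_subgroupOf]; exact hx) (⟨g, hmem g⟩ : Cfsg.layer G)
        rw [Subgroup.mem_subgroupOf] at h2
        simpa using h2
      have hLb : L ≠ ⊥ := by
        intro h
        haveI := hL.2.2
        obtain ⟨x, hx⟩ := exists_ne (1 : ↥L ⧸ Subgroup.center ↥L)
        induction x using QuotientGroup.induction_on with
        | H l =>
          apply hx
          rw [QuotientGroup.eq_one_iff, Subgroup.mem_center_iff]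
          intro m
          apply Subtype.ext
          have h1 : (m : G) = 1 := Subgroup.mem_bot.1 (h.le m.2)
          have h2 : (l : G) = 1 := Subgroup.mem_bot.1 (h.le l.2)
          simp [h1, h2]
      refine hq L hLn hLb ?_
      rw [inf_comm]
      exact hcompV L hL
    · refine hq (Cfsg.layer G) inferInstance hlay ?_
      exact hsub (Cfsg.layer G) inferInstance hE {L | Cfsg.IsComponent L} (fun L hL => hL.1) rfl
        (fun L hL => hcompV L hL)

theorem final_aux {G : Type*} [Group G] [Finite G] {p : ℕ} [Fact p.Prime] (S : Sylow p G) (A₁ A₂ J : Subgroup G)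
    (hJ : J = A₁ ⊔ A₂) (h₁ : A₁.IsSubnormal) (h₂ : A₂.IsSubnormal) (hJs : J.IsSubnormal) :
    J ⊓ (S : Subgroup G) ≤ (A₁ ⊓ (S : Subgroup G)) ⊔ (A₂ ⊓ (S : Subgroup G)) := by
  classical
  obtain ⟨T', hT'⟩ := Cfsg.Agent.Lib.LSpe.sylow_inf_subnormal S J hJs
  have hA1 : A₁ ≤ J := hJ ▸ le_sup_left
  have hA2 : A₂ ≤ J := hJ ▸ le_sup_right
  have h1 := claim p _ ↥J rfl T' {A₁.subgroupOf J, A₂.subgroupOf J}
    (by
      rintro _ (rfl | rfl)
      · exact h₁.subgroupOf
      · exact h₂.subgroupOf)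
    (by
      rw [sSup_pair, eq_top_iff]
      rintro ⟨x, hx⟩ _
      have hle1 : A₁ ≤ (A₁.subgroupOf J ⊔ A₂.subgroupOf J).map J.subtype := fun a ha =>
        ⟨⟨a, hA1 ha⟩, Subgroup.mem_sup_left ha, rfl⟩
      have hle2 : A₂ ≤ (A₁.subgroupOf J ⊔ A₂.subgroupOf J).map J.subtype := fun a ha =>
        ⟨⟨a, hA2 ha⟩, Subgroup.mem_sup_right ha, rfl⟩
      have hle : J ≤ (A₁.subgroupOf J ⊔ A₂.subgroupOf J).map J.subtype :=
        calc J = A₁ ⊔ A₂ := hJ
          _ ≤ _ := sup_le hle1 hle2
      obtain ⟨y, hy, he⟩ := hle hx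
      have : y = ⟨x, hx⟩ := Subtype.ext he
      rwa [← this])
    (((A₁ ⊓ (S : Subgroup G)) ⊔ (A₂ ⊓ (S : Subgroup G))).subgroupOf J)
    (by
      rintro _ (rfl | rfl) y ⟨hy1, hy2⟩
      · rw [Subgroup.mem_subgroupOf]
        have hy2' : y ∈ (S : Subgroup G).subgroupOf J := by rw [← hT']; exact hy2
        rw [Subgroup.mem_subgroupOf] at hy2'
        exact Subgroup.mem_sup_left ⟨hy1, hy2'⟩
      · rw [Subgroup.mem_subgroupOf]
        have hy2' : y ∈ (S : Subgroup G).subgroupOf J := by rw [← hT']; exact hy2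
        rw [Subgroup.mem_subgroupOf] at hy2'
        exact Subgroup.mem_sup_right ⟨hy1, hy2'⟩)
  rintro x ⟨hx1, hx2⟩
  have hx3 : (⟨x, hx1⟩ : J) ∈ (T' : Subgroup J) := by
    rw [hT', Subgroup.mem_subgroupOf]; exact hx2
  have := h1 hx3
  rwa [Subgroup.mem_subgroupOf] at this

/-- Let G be a finite group, p a prime, S a Sylow p-subgroup of G and A₁, A₂ subnormal subgroups of G. Then the join of S ∩ A₁ and S ∩ A₂ is a Sylow p-subgroup of the join of A₁ and A₂; equivalently ⟨A₁, A₂⟩ ∩ S = ⟨A₁ ∩ S, A₂ ∩ S⟩. -/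
theorem result {G : Type*} [Group G] [Finite G] {p : ℕ} [Fact p.Prime] (S : Sylow p G) (A₁ A₂ : Subgroup G)
    (h₁ : A₁.IsSubnormal) (h₂ : A₂.IsSubnormal) :
    (A₁ ⊔ A₂) ⊓ (S : Subgroup G) = (A₁ ⊓ (S : Subgroup G)) ⊔ (A₂ ⊓ (S : Subgroup G)) := by

  refine le_antisymm ?_ ?_
  · exact final_aux S A₁ A₂ _ rfl h₁ h₂ (Cfsg.Agent.Lib.WielandtJoin.isSubnormal_sup h₁ h₂)
  · exact sup_le (inf_le_inf_right _ le_sup_left) (inf_le_inf_right _ le_sup_right)

end Cfsg.Agent.S3028
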