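import Cfsg.Statements.S3031
import Cfsg.Agent.Lib.LHSub6
-- import your own Cfsg.Agent.* helpers here

set_option autoImplicit false
open Cfsg

namespace Cfsg.Agent.S3031

/-- Let G be a finite group, p the smallest prime dividing |G| and P a Sylow p-subgroup. Suppose that P is cyclic, or that P has a subgroup D with 1 < |D| < |P| such that every subgroup E of P of order |D|, and also every subgroup E of P of order 4 when |D| = 2, satisfies g E g⁻¹ ∩ N_G(E) ≤ E for all g ∈ G (E is strongly closed in its normalizer with respect to G). Then G has a normal p-complement. -/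
theorem result {G : Type*} [Group G] [Finite G] {p : ℕ} [Fact p.Prime] (hdiv : p ∣ Nat.card G)
    (hmin : ∀ q : ℕ, q.Prime → q ∣ Nat.card G → p ≤ q) (P : Sylow p G)
    (h : IsCyclic ↥(P : Subgroup G) ∨ ∃ D : Subgroup G, D ≤ (P : Subgroup G) ∧ 1 < Nat.card D ∧ Nat.card D < Nat.card (P : Subgroup G) ∧
      ∀ E : Subgroup G, E ≤ (P : Subgroup G) → (Nat.card E = Nat.card D ∨ (Nat.card D = 2 ∧ Nat.card E = 4)) →
        ∀ g : G, E.map (MulAut.conj g).toMonoidHom ⊓ Subgroup.normalizer (E : Set G) ≤ E) :
    Cfsg.HasNormalPComplement p G := by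
  open Cfsg.Agent.Lib.LHSub in
  refine npc_of_frat_control P fun R hRP y hy hc w hw => ?_
  have hPp : IsPGroup p (P : Subgroup G) := P.isPGroup'
  have hc2 : Nat.Coprime (orderOf y) (p - 1) := coprime_pred hmin
  have hone : y ∈ Subgroup.centralizer (R : Set G) → w⁻¹ * (y * w * y⁻¹) ∈ phi (P : Subgroup G) := by
    intro hcent
    have e : w * y = y * w := Subgroup.mem_centralizer_iff.1 hcent w hw
    have e2 : w⁻¹ * (y * w * y⁻¹) = 1 := by
      rw [← e]; group
    rw [e2]; exact one_mem _
  rcases h with hcyc | ⟨D, hDP, h1, h2, hD⟩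
  · exact hone (cyc_step hPp hcyc hRP hy hc hc2)
  · obtain ⟨d, hd⟩ := IsPGroup.iff_card.1 (hPp.to_le hDP)
    have hd1 : 1 ≤ d := by
      rw [hd] at h1
      by_contra hcon
      have : d = 0 := by omega
      rw [this] at h1
      simp at h1
    have hH : HH (P : Subgroup G) (p ^ d) := by
      intro E hEP hE g
      refine hD E hEP ?_ g
      rw [hd]
      exact hE
    by_cases hn : p ^ d < Nat.card R
    · exact hone (big_cent hPp hH ⟨d, hd1, rfl⟩ hRP hy hc hc2 hn)
    · exact small_fr hPp hH (by rw [← hd]; exact h2) hRP (not_lt.1 hn) hy hc2 w hw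

end Cfsg.Agent.S3031
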