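import Cfsg.Statements.S3076
import Cfsg.Agent.Lib.H1Core
import Cfsg.Agent.Lib.H1Cop

set_option autoImplicit false
open Cfsg

namespace Cfsg.Agent.S3076

open Subgroup Cfsg.Agent.Lib.H1Core

section general

variable {A : Type*} [Group A] [Finite A] {p : ℕ} [Fact p.Prime]

theorem le_comap_of (K M : Subgroup A) [K.Normal] (hM : M.Normal)
    (h : ∀ x ∈ M, ∃ k : ℕ, x ^ (p ^ k) ∈ K) :
    M ≤ (pCore p (A ⧸ K)).comap (QuotientGroup.mk' K) := by
  intro x hx
  have h1 : M.map (QuotientGroup.mk' K) ≤ pCore p (A ⧸ K) := by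
    apply le_pCore (hM.map _ (QuotientGroup.mk'_surjective K))
    rintro ⟨y, z, hz, rfl⟩
    obtain ⟨k, hk⟩ := h z hz
    refine ⟨k, Subtype.ext ?_⟩
    show (QuotientGroup.mk' K z) ^ (p ^ k) = 1
    rw [← map_pow]
    exact (QuotientGroup.eq_one_iff _).2 hk
  exact h1 (Subgroup.mem_map_of_mem _ hx)

theorem exists_pow_of_mem_comap (K : Subgroup A) [K.Normal] {x : A}
    (hx : x ∈ (pCore p (A ⧸ K)).comap (QuotientGroup.mk' K)) : ∃ k : ℕ, x ^ (p ^ k) ∈ K := by
  obtain ⟨k, hk⟩ := (pCore_isPGroup (G := A ⧸ K) p) ⟨_, hx⟩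
  refine ⟨k, ?_⟩
  have h1 := congrArg Subtype.val hk
  have h2 : (QuotientGroup.mk' K x) ^ (p ^ k) = 1 := by simpa using h1
  rw [← map_pow] at h2
  exact (QuotientGroup.eq_one_iff _).1 h2

/-- element version of: a `p`-element modulo a normal subgroup of `p'`-index lies in it -/
theorem mem_of_pow_mem {D M : Subgroup A} [D.Normal] {x : A} (hxM : x ∈ M) {k : ℕ}
    (hk : x ^ (p ^ k) ∈ D) (hp : ¬ p ∣ D.relIndex M) : x ∈ D := by
  have hpp : p.Prime := Fact.out
  let q : ↥M →* ↥M ⧸ D.subgroupOf M := QuotientGroup.mk' _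
  have h1 : (q ⟨x, hxM⟩) ^ (p ^ k) = 1 := by
    rw [← map_pow]
    apply (QuotientGroup.eq_one_iff _).2
    exact hk
  have h2 : orderOf (q ⟨x, hxM⟩) ∣ p ^ k := orderOf_dvd_of_pow_eq_one h1
  have h3 : orderOf (q ⟨x, hxM⟩) ∣ D.relIndex M := orderOf_dvd_natCard _
  have h4 : Nat.Coprime (p ^ k) (D.relIndex M) :=
    Nat.Coprime.pow_left _ ((Nat.Prime.coprime_iff_not_dvd hpp).2 hp)
  have h5 : orderOf (q ⟨x, hxM⟩) = 1 := Nat.eq_one_of_dvd_coprimes h4 h2 h3
  have h6 : q ⟨x, hxM⟩ = 1 := orderOf_eq_one_iff.1 h5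
  have h7 : (⟨x, hxM⟩ : ↥M) ∈ D.subgroupOf M := (QuotientGroup.eq_one_iff _).1 h6
  exact h7

/-- a group with a normal `p`-subgroup `H₀` in the centre of `C₀` and of `p'`-index:
powers land in the `p'`-core -/
theorem exists_pow_mem_core (H₀ C₀ : Subgroup A) [H₀.Normal] [C₀.Normal] (hHp : IsPGroup p H₀)
    (hcomm : ∀ c ∈ C₀, ∀ h ∈ H₀, c * h = h * c) (hi : ¬ p ∣ H₀.relIndex C₀) :
    ∀ c ∈ C₀, ∃ k : ℕ, c ^ (p ^ k) ∈ pPrimeCore p A := by
  classical
  have hpp : p.Prime := Fact.out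
  let T : Subgroup ↥C₀ := H₀.subgroupOf C₀
  haveI hTn : T.Normal := inferInstance
  have hTp : IsPGroup p T := by
    rintro ⟨⟨z, hz⟩, hz'⟩
    obtain ⟨k, hk⟩ := hHp ⟨z, hz'⟩
    refine ⟨k, Subtype.ext (Subtype.ext ?_)⟩
    have := congrArg Subtype.val hk
    simpa using this
  have hTc : (Nat.card T).Coprime T.index := by
    obtain ⟨e, he⟩ := IsPGroup.iff_card.1 hTp
    rw [he]
    exact Nat.Coprime.pow_left _ ((Nat.Prime.coprime_iff_not_dvd hpp).2 hi)
  obtain ⟨K, hK⟩ := exists_right_complement'_of_coprime hTc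
  have hdec : ∀ c : ↥C₀, ∃ z ∈ T, ∃ k ∈ K, z * k = c := by
    intro c
    have h1 : c ∈ T ⊔ K := by
      rw [hK.sup_eq_top]
      trivial
    exact mem_sup_of_normal_left.1 h1
  have hKc : (Nat.card K).Coprime p := by
    have h1 : Nat.card K = T.index := by
      have h2 := hK.card_mul
      have h3 := T.card_mul_index
      have h4 : Nat.card T ≠ 0 := Nat.card_pos.ne'
      exact Nat.eq_of_mul_eq_mul_left (Nat.pos_of_ne_zero h4) (h2.trans h3.symm)
    rw [h1]
    exact ((Nat.Prime.coprime_iff_not_dvd hpp).2 hi).symm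
  have hzcomm : ∀ z ∈ T, ∀ c : ↥C₀, z * c = c * z := by
    intro z hz c
    apply Subtype.ext
    exact (hcomm c.1 c.2 z.1 hz).symm
  -- the image of K
  let Kb : Subgroup A := K.map C₀.subtype
  have hKbc : (Nat.card Kb).Coprime p := by
    have : Nat.card Kb = Nat.card K := Subgroup.card_map_of_injective C₀.subtype_injective
    rw [this]
    exact hKc
  have hKbn : Kb.Normal := by
    constructor
    rintro _ ⟨k, hk, rfl⟩ a
    have hw : a * (k : A) * a⁻¹ ∈ C₀ := (inferInstance : C₀.Normal).conj_mem _ k.2 a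
    obtain ⟨z, hz, k₁, hk₁, hzk⟩ := hdec ⟨_, hw⟩
    set m := Nat.card K with hm
    have h1 : k ^ m = 1 := by
      have h0 := pow_card_eq_one' (x := (⟨k, hk⟩ : K))
      exact congrArg (fun z : K => (z : ↥C₀)) h0
    have h2 : (a * (k : A) * a⁻¹) ^ m = 1 := by
      rw [conj_pow]
      have h3 : ((k : A)) ^ m = 1 := by simpa using congrArg Subtype.val h1
      rw [h3]
      group
    have h3 : k₁ ^ m = 1 := by
      have h0 := pow_card_eq_one' (x := (⟨k₁, hk₁⟩ : K))
      exact congrArg (fun z : K => (z : ↥C₀)) h0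
    have hcz : Commute z k₁ := hzcomm z hz k₁
    have h4 : (z * k₁) ^ m = z ^ m := by
      rw [hcz.mul_pow, h3, mul_one]
    have h5 : z ^ m = 1 := by
      rw [← h4, hzk]
      apply Subtype.ext
      simpa using h2
    obtain ⟨e, he⟩ := hTp ⟨z, hz⟩
    have h6 : z ^ (p ^ e) = 1 := by simpa using congrArg Subtype.val he
    have h7 : orderOf z ∣ Nat.gcd m (p ^ e) :=
      Nat.dvd_gcd (orderOf_dvd_of_pow_eq_one h5) (orderOf_dvd_of_pow_eq_one h6)
    have h8 : Nat.Coprime m (p ^ e) := Nat.Coprime.pow_right _ hKc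
    rw [h8] at h7
    have h9 : z = 1 := orderOf_eq_one_iff.1 (Nat.dvd_one.1 h7)
    rw [h9, one_mul] at hzk
    refine ⟨k₁, hk₁, ?_⟩
    have := congrArg Subtype.val hzk
    exact this
  have hKbX : Kb ≤ pPrimeCore p A := le_pPrimeCore hKbn hKbc
  intro c hc
  obtain ⟨z, hz, k, hk, hzk⟩ := hdec ⟨c, hc⟩
  obtain ⟨e, he⟩ := hTp ⟨z, hz⟩
  have h6 : z ^ (p ^ e) = 1 := by simpa using congrArg Subtype.val he
  refine ⟨e, ?_⟩
  have hcz : Commute z k := hzcomm z hz k
  have h7 : (⟨c, hc⟩ : ↥C₀) ^ (p ^ e) = k ^ (p ^ e) := by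
    rw [← hzk, hcz.mul_pow, h6, one_mul]
  have h8 : c ^ (p ^ e) = ((k ^ (p ^ e) : ↥C₀) : A) := by
    have := congrArg Subtype.val h7
    simpa using this
  rw [h8]
  exact hKbX ⟨_, pow_mem hk _, rfl⟩

theorem relIndex_dvd_index_normal (R C : Subgroup A) [hC : C.Normal] : R.relIndex C ∣ R.index := by
  have h1 := Cfsg.Agent.Lib.H1Cop.card_sup_mul_inf_of_normalizes (A := R) (K := C)
    (by rw [normalizer_eq_top C]; exact le_top)
  have h2 : Nat.card (R.subgroupOf C) = Nat.card ↥(R ⊓ C) := by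
    rw [← Subgroup.subgroupOf_map_subtype, Subgroup.card_map_of_injective C.subtype_injective]
  have h3 := (R.subgroupOf C).card_mul_index
  have h4 := R.card_mul_index
  have h5 := (R ⊔ C).card_mul_index
  have hi : R.relIndex C = (R.subgroupOf C).index := rfl
  rw [← hi, h2] at h3
  have hipos : 0 < Nat.card ↥(R ⊓ C) := Nat.card_pos
  have hapos : 0 < Nat.card R := Nat.card_pos
  have h6 : Nat.card ↥(R ⊔ C) = Nat.card R * R.relIndex C := by
    apply Nat.eq_of_mul_eq_mul_right hipos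
    rw [h1, ← h3]
    ring
  refine ⟨(R ⊔ C).index, ?_⟩
  apply Nat.eq_of_mul_eq_mul_left hapos
  rw [h4, ← h5, h6]
  ring

theorem core (H₀ C₀ R₀ : Subgroup A) [H₀.Normal] [C₀.Normal]
    (hC : ∀ a, a ∈ C₀ ↔ ∀ h ∈ H₀, a * h = h * a) (hR : IsPGroup p R₀) (hHR : H₀ ≤ R₀)
    (hRi : ¬ p ∣ R₀.index) :
    (H₀ ≤ (pCore p (A ⧸ C₀)).comap (QuotientGroup.mk' C₀) ∧
        ¬ p ∣ H₀.relIndex ((pCore p (A ⧸ C₀)).comap (QuotientGroup.mk' C₀))) ↔
      (R₀ ⊓ C₀ ≤ H₀ ∧ pPrimePCore p A = H₀ ⊔ C₀) := by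
  classical
  have hpp : p.Prime := Fact.out
  have hHp : IsPGroup p H₀ := hR.to_le hHR
  set N₀ := (pCore p (A ⧸ C₀)).comap (QuotientGroup.mk' C₀) with hN₀
  have hH1 : ∀ h ∈ H₀, ∃ k : ℕ, h ^ (p ^ k) = 1 := by
    intro h hh
    obtain ⟨k, hk⟩ := hHp ⟨h, hh⟩
    exact ⟨k, by simpa using congrArg Subtype.val hk⟩
  haveI hXn : (pPrimeCore p A).Normal := pPrimeCore_normal p A
  -- the p'-core centralizes H₀
  have hXC : pPrimeCore p A ≤ C₀ := by
    intro x hx
    rw [hC]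
    intro h hh
    have h1 : x * h * x⁻¹ * h⁻¹ ∈ pPrimeCore p A := by
      have h2 : h * x⁻¹ * h⁻¹ ∈ pPrimeCore p A := hXn.conj_mem _ (inv_mem hx) h
      have h3 : x * h * x⁻¹ * h⁻¹ = x * (h * x⁻¹ * h⁻¹) := by group
      rw [h3]
      exact mul_mem hx h2
    have h2 : x * h * x⁻¹ * h⁻¹ ∈ H₀ := by
      have h3 : x * h * x⁻¹ ∈ H₀ := (inferInstance : H₀.Normal).conj_mem _ hh x
      exact mul_mem h3 (inv_mem hh)
    have hcop : (Nat.card (pPrimeCore p A)).Coprime (Nat.card H₀) := by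
      obtain ⟨e, he⟩ := IsPGroup.iff_card.1 hHp
      rw [he]
      exact Nat.Coprime.pow_right _ (pPrimeCore_coprime p)
    have h3 := Subgroup.disjoint_def.1 (Subgroup.disjoint_of_coprime_natCard hcop) h1 h2
    calc x * h = (x * h * x⁻¹ * h⁻¹) * (h * x) := by group
      _ = h * x := by rw [h3, one_mul]
  have hN₀n : N₀.Normal := Subgroup.Normal.comap (pCore_normal p _) _
  have hC₀N₀ : C₀ ≤ N₀ := by
    intro c hc
    show QuotientGroup.mk' C₀ c ∈ pCore p (A ⧸ C₀)
    have h1 : QuotientGroup.mk' C₀ c = 1 := (QuotientGroup.eq_one_iff c).2 hc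
    rw [h1]
    exact one_mem _
  have hH₀N₀ : H₀ ≤ N₀ := by
    apply le_comap_of C₀ H₀ inferInstance
    intro h hh
    obtain ⟨k, hk⟩ := hH1 h hh
    exact ⟨k, by rw [hk]; exact one_mem _⟩
  have hHCn : (H₀ ⊔ C₀).Normal := inferInstance
  have hY : pPrimePCore p A = (pCore p (A ⧸ pPrimeCore p A)).comap (QuotientGroup.mk' (pPrimeCore p A)) := rfl
  have hYn : (pPrimePCore p A).Normal := by
    rw [hY]
    exact Subgroup.Normal.comap (pCore_normal p _) _
  have hH₀Y : H₀ ≤ pPrimePCore p A := by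
    rw [hY]
    apply le_comap_of _ H₀ inferInstance
    intro h hh
    obtain ⟨k, hk⟩ := hH1 h hh
    exact ⟨k, by rw [hk]; exact one_mem _⟩
  have hYN₀ : pPrimePCore p A ≤ N₀ := by
    apply le_comap_of C₀ _ hYn
    intro x hx
    rw [hY] at hx
    obtain ⟨k, hk⟩ := exists_pow_of_mem_comap (p := p) _ hx
    exact ⟨k, hXC hk⟩
  have hRC : ¬ p ∣ (R₀ ⊓ C₀).relIndex C₀ := by
    rw [inf_relIndex_right]
    have h1 : R₀.relIndex C₀ ∣ R₀.index := relIndex_dvd_index_normal R₀ C₀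
    exact fun h => hRi (h.trans h1)
  constructor
  · rintro ⟨-, hi⟩
    haveI : H₀.Normal := inferInstance
    have hRCH : R₀ ⊓ C₀ ≤ H₀ := by
      rintro y ⟨hyR, hyC⟩
      obtain ⟨k, hk⟩ := hR ⟨y, hyR⟩
      have h1 : y ^ (p ^ k) = 1 := by simpa using congrArg Subtype.val hk
      exact mem_of_pow_mem (hC₀N₀ hyC) (k := k) (by rw [h1]; exact one_mem _) hi
    refine ⟨hRCH, le_antisymm ?_ ?_⟩
    · -- Y ≤ N₀ ≤ H₀ C₀
      intro x hx
      have hxN := hYN₀ hx
      obtain ⟨k, hk⟩ := exists_pow_of_mem_comap (p := p) C₀ hxN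
      refine mem_of_pow_mem hxN (D := H₀ ⊔ C₀) (k := k) (mem_sup_right hk) ?_
      intro h
      exact hi (h.trans (relIndex_dvd_of_le_left _ le_sup_left))
    · apply sup_le hH₀Y
      rw [hY]
      apply le_comap_of _ C₀ inferInstance
      apply exists_pow_mem_core H₀ C₀ hHp
      · intro c hc h hh
        exact (hC c).1 hc h hh
      · intro h
        exact hRC (h.trans (relIndex_dvd_of_le_left C₀ hRCH))
  · rintro ⟨hRCH, hYeq⟩
    refine ⟨hH₀N₀, ?_⟩
    have hN₀le : N₀ ≤ H₀ ⊔ C₀ := by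
      rw [← hYeq, hY]
      apply le_comap_of _ N₀ hN₀n
      intro x hx
      obtain ⟨k, hk⟩ := exists_pow_of_mem_comap (p := p) C₀ hx
      have h1 : x ^ (p ^ k) ∈ pPrimePCore p A := by
        rw [hYeq]
        exact mem_sup_right hk
      rw [hY] at h1
      obtain ⟨l, hl⟩ := exists_pow_of_mem_comap (p := p) _ h1
      refine ⟨k + l, ?_⟩
      rw [pow_add, pow_mul]
      exact hl
    have hN₀eq : N₀ = H₀ ⊔ C₀ := le_antisymm hN₀le (sup_le hH₀N₀ hC₀N₀)
    rw [hN₀eq, relIndex_sup_left]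
    intro h
    apply hRC
    exact h.trans (by
      have := relIndex_dvd_of_le_left C₀ hRCH
      exact this)

end general

/-- Let P be a Sylow p-subgroup of the finite group G and H ≤ P a subgroup with N_P(H) a Sylow p-subgroup of N_G(H). Let N be the preimage in N_G(H) of O_p(N_G(H)/C_G(H)). Then H is a Sylow p-subgroup of N if and only if C_P(H) ≤ H and O_{p',p}(N_G(H)) = H·C_G(H). -/
theorem result {G : Type*} [Group G] [Finite G] {p : ℕ} [Fact p.Prime]
    (P : Sylow p G) (H : Subgroup G) (hHP : H ≤ (P : Subgroup G))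
    (hSyl : ¬ p ∣ ((P : Subgroup G) ⊓ Subgroup.normalizer (H : Set G)).relIndex (Subgroup.normalizer (H : Set G)))
    [hC : ((Subgroup.centralizer (H : Set G)).subgroupOf (Subgroup.normalizer (H : Set G))).Normal] :
    (H ≤ ((Cfsg.pCore p (↥(Subgroup.normalizer (H : Set G)) ⧸
              (Subgroup.centralizer (H : Set G)).subgroupOf (Subgroup.normalizer (H : Set G)))).comap
            (QuotientGroup.mk' _)).map (Subgroup.normalizer (H : Set G)).subtype ∧
      ¬ p ∣ H.relIndex (((Cfsg.pCore p (↥(Subgroup.normalizer (H : Set G)) ⧸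
              (Subgroup.centralizer (H : Set G)).subgroupOf (Subgroup.normalizer (H : Set G)))).comap
            (QuotientGroup.mk' _)).map (Subgroup.normalizer (H : Set G)).subtype)) ↔
    ((P : Subgroup G) ⊓ Subgroup.centralizer (H : Set G) ≤ H ∧
      (Cfsg.pPrimePCore p ↥(Subgroup.normalizer (H : Set G))).map (Subgroup.normalizer (H : Set G)).subtype =
        H ⊔ Subgroup.centralizer (H : Set G)) := by
  classical
  set A := Subgroup.normalizer (H : Set G) with hA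
  have hHA : H ≤ A := Subgroup.le_normalizer
  set C := Subgroup.centralizer (H : Set G) with hCdef
  have hCA : C ≤ A := by
    intro x hx
    have hcomm : ∀ y ∈ H, y * x = x * y := fun y hy => Subgroup.mem_centralizer_iff.1 hx y hy
    rw [hA, Subgroup.mem_normalizer_iff]
    intro h
    constructor
    · intro hh
      have h2 : x * h * x⁻¹ = h := by
        rw [← hcomm h hh]
        group
      rwa [h2]
    · intro hh
      have h2 : x * h * x⁻¹ = h := by
        have h3 := hcomm _ hh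
        have h4 : x * h * x⁻¹ * x = x * (x * h * x⁻¹) := h3
        have h5 : x * h = x * (x * h * x⁻¹) := by
          calc x * h = x * h * x⁻¹ * x := by group
            _ = _ := h4
        exact (mul_left_cancel h5).symm
      rwa [h2] at hh
  let H₀ : Subgroup ↥A := H.subgroupOf A
  let C₀ : Subgroup ↥A := C.subgroupOf A
  let R₀ : Subgroup ↥A := (P : Subgroup G).subgroupOf A
  haveI hH₀n : H₀.Normal := Subgroup.normal_in_normalizer
  have hCmem : ∀ a : ↥A, a ∈ C₀ ↔ ∀ h ∈ H₀, a * h = h * a := by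
    intro a
    constructor
    · intro ha h hh
      have h1 : (h : G) * (a : G) = (a : G) * (h : G) :=
        Subgroup.mem_centralizer_iff.1 (show (a : G) ∈ C from ha) h hh
      exact Subtype.ext h1.symm
    · intro h
      show (a : G) ∈ C
      rw [Subgroup.mem_centralizer_iff]
      intro y hy
      have h1 := h ⟨y, hHA hy⟩ (show y ∈ H from hy)
      exact (congrArg Subtype.val h1).symm
  have hRp : IsPGroup p R₀ := P.isPGroup'.comap_subtype
  have hHR : H₀ ≤ R₀ := fun x hx => hHP hx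
  have hRi : ¬ p ∣ R₀.index := by
    have h1 : R₀.index = (P : Subgroup G).relIndex A := rfl
    rw [h1, ← Subgroup.inf_relIndex_right]
    exact hSyl
  have hcore := core (p := p) H₀ C₀ R₀ hCmem hRp hHR hRi
  have hmapH : H₀.map A.subtype = H := Subgroup.map_subgroupOf_eq_of_le hHA
  have hmapC : C₀.map A.subtype = C := Subgroup.map_subgroupOf_eq_of_le hCA
  set N := (pCore p (↥A ⧸ C₀)).comap (QuotientGroup.mk' C₀) with hN
  have e1 : H ≤ N.map A.subtype ↔ H₀ ≤ N := by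
    constructor
    · intro h x hx
      obtain ⟨y, hy, hyx⟩ := h (show (x : G) ∈ H from hx)
      have h1 : y = x := Subtype.ext hyx
      rwa [← h1]
    · intro h x hx
      exact ⟨⟨x, hHA hx⟩, h hx, rfl⟩
  have e2 : H.relIndex (N.map A.subtype) = H₀.relIndex N := by
    have h1 := Subgroup.relIndex_map_map_of_injective H₀ N A.subtype_injective
    rwa [hmapH] at h1
  have e3 : ((P : Subgroup G) ⊓ C ≤ H) ↔ R₀ ⊓ C₀ ≤ H₀ := by
    constructor
    · rintro h x ⟨hx1, hx2⟩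
      exact h ⟨hx1, hx2⟩
    · rintro h x ⟨hx1, hx2⟩
      have h1 : (⟨x, hCA hx2⟩ : ↥A) ∈ H₀ := h ⟨hx1, hx2⟩
      exact h1
  have e4 : ((pPrimePCore p ↥A).map A.subtype = H ⊔ C) ↔ pPrimePCore p ↥A = H₀ ⊔ C₀ := by
    have h1 : (H₀ ⊔ C₀).map A.subtype = H ⊔ C := by rw [Subgroup.map_sup, hmapH, hmapC]
    rw [← h1]
    exact (Subgroup.map_injective A.subtype_injective).eq_iff
  have e5 : (¬ p ∣ H.relIndex (N.map A.subtype)) ↔ ¬ p ∣ H₀.relIndex N := by rw [e2]
  exact (and_congr e1 e5).trans (hcore.trans (and_congr e3.symm e4.symm))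

end Cfsg.Agent.S3076
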