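import Cfsg.Statements.S3155
import Mathlib

set_option autoImplicit false
open Cfsg

namespace Cfsg.Agent.S3155



/-- Let B be the direct product of three cyclic groups of order 4. Then the automorphism of B inverting every element is not the square of any automorphism of B. -/
theorem result {B : Type*} [CommGroup B] [Finite B] (hB : Nonempty (B ≃* Multiplicative (ZMod 4 × ZMod 4 × ZMod 4)))
    (τ : B ≃* B) : τ.trans τ ≠ MulEquiv.inv B := by
  intro h
  obtain ⟨e⟩ := hB
  let V := ZMod 4 × ZMod 4 × ZMod 4
  let f : V →+ V :=
    { toFun := fun v => Multiplicative.toAdd (e (τ (e.symm (Multiplicative.ofAdd v))))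
      map_zero' := by
        show Multiplicative.toAdd (e (τ (e.symm 1))) = 0
        simp
      map_add' := by
        intro a b
        show Multiplicative.toAdd (e (τ (e.symm (Multiplicative.ofAdd a * Multiplicative.ofAdd b)))) = _
        simp only [map_mul, toAdd_mul] }
  have hff : ∀ v : V, f (f v) = -v := by
    intro v
    show Multiplicative.toAdd (e (τ (e.symm (Multiplicative.ofAdd (Multiplicative.toAdd (e (τ (e.symm (Multiplicative.ofAdd v))))))))) = -v
    simp only [ofAdd_toAdd, MulEquiv.symm_apply_apply]
    have h1 : τ (τ (e.symm (Multiplicative.ofAdd v))) = (e.symm (Multiplicative.ofAdd v))⁻¹ := by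
      have := congrArg (fun φ : B ≃* B => φ (e.symm (Multiplicative.ofAdd v))) h
      exact this
    rw [h1, map_inv, MulEquiv.apply_symm_apply]
    simp
  let g : V →ₗ[ZMod 4] V := f.toZModLinearMap 4
  have hgg : g * g = (-1 : ZMod 4) • (LinearMap.id : V →ₗ[ZMod 4] V) := by
    refine LinearMap.ext fun v => ?_
    show f (f v) = (-1 : ZMod 4) • v
    rw [hff, neg_one_smul]
  have hdet := congrArg LinearMap.det hgg
  rw [map_mul, LinearMap.det_smul, LinearMap.det_id, mul_one] at hdet
  have hrank : Module.finrank (ZMod 4) V = 3 := by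
    haveI : Fact (1 < 4) := ⟨by norm_num⟩
    show Module.finrank (ZMod 4) (ZMod 4 × ZMod 4 × ZMod 4) = 3
    rw [Module.finrank_prod, Module.finrank_prod, Module.finrank_self]
  rw [hrank] at hdet
  generalize LinearMap.det g = d at hdet
  revert d
  decide

end Cfsg.Agent.S3155
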