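import Cfsg.Statements.S3178
import Mathlib
import Cfsg.Agent.Lib.H9Two
import Cfsg.Agent.Lib.PNilp
import Cfsg.Agent.Lib.LPRed

set_option autoImplicit false
open Cfsg

namespace Cfsg.Agent.S3178

open Cfsg Cfsg.Agent.Lib.H9Two

section
variable {G : Type*} [Group G]

lemma z_pow_even {z : G} (hz : z * z = 1) {k : ℕ} (hk : Even k) : z ^ k = 1 := by
  obtain ⟨m, rfl⟩ := hk
  rw [← two_mul, pow_mul, pow_two, hz, one_pow]

lemma z_pow_cases {z : G} (hz : z * z = 1) (k : ℕ) : z ^ k = 1 ∨ z ^ k = z := by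
  rcases Nat.even_or_odd k with h | h
  · exact Or.inl (z_pow_even hz h)
  · obtain ⟨m, rfl⟩ := h
    right
    rw [pow_succ, z_pow_even hz (even_two_mul m), one_mul]

lemma ba_rule {a b z : G} (hza : Commute z a) (hrel : b * a * b⁻¹ = a * z) (i : ℕ) :
    b * a ^ i = a ^ i * z ^ i * b := by
  have h1 : b * a ^ i * b⁻¹ = (a * z) ^ i := by rw [← hrel, conj_pow]
  rw [hza.symm.mul_pow] at h1
  calc b * a ^ i = (b * a ^ i * b⁻¹) * b := by group
    _ = a ^ i * z ^ i * b := by rw [h1]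

lemma bea_rule {a b z : G} (hza : Commute z a) (hzb : Commute z b) (hrel : b * a * b⁻¹ = a * z) (e j : ℕ) :
    b ^ e * a ^ j = a ^ j * z ^ (e * j) * b ^ e := by
  induction e with
  | zero => simp
  | succ e ih =>
    have h1 := ba_rule hza hrel j
    have h2 : Commute (z ^ j) (b ^ e) := hzb.pow_pow j e
    calc b ^ (e + 1) * a ^ j = b ^ e * (b * a ^ j) := by rw [pow_succ]; group
      _ = b ^ e * (a ^ j * z ^ j * b) := by rw [h1]
      _ = (b ^ e * a ^ j) * z ^ j * b := by group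
      _ = (a ^ j * z ^ (e * j) * b ^ e) * z ^ j * b := by rw [ih]
      _ = a ^ j * z ^ (e * j) * (b ^ e * z ^ j) * b := by group
      _ = a ^ j * z ^ (e * j) * (z ^ j * b ^ e) * b := by rw [h2.eq]
      _ = a ^ j * (z ^ (e * j) * z ^ j) * (b ^ e * b) := by group
      _ = a ^ j * z ^ ((e + 1) * j) * b ^ (e + 1) := by
        rw [← pow_add, ← pow_succ, add_mul, one_mul]

lemma mul_form {a b z : G} (hza : Commute z a) (hzb : Commute z b) (hrel : b * a * b⁻¹ = a * z) (i e j f : ℕ) :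
    (a ^ i * b ^ e) * (a ^ j * b ^ f) = a ^ (i + j) * z ^ (e * j) * b ^ (e + f) := by
  calc (a ^ i * b ^ e) * (a ^ j * b ^ f) = a ^ i * (b ^ e * a ^ j) * b ^ f := by group
    _ = a ^ i * (a ^ j * z ^ (e * j) * b ^ e) * b ^ f := by rw [bea_rule hza hzb hrel]
    _ = (a ^ i * a ^ j) * z ^ (e * j) * (b ^ e * b ^ f) := by group
    _ = _ := by rw [← pow_add, ← pow_add]

/-- commutators are powers of `z` -/
lemma comm_form {a b z : G} (hz : z * z = 1) (hza : Commute z a) (hzb : Commute z b) (hrel : b * a * b⁻¹ = a * z)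
    (i e j f : ℕ) : (a ^ i * b ^ e) * (a ^ j * b ^ f) = z ^ (e * j + f * i) * ((a ^ j * b ^ f) * (a ^ i * b ^ e)) := by
  rw [mul_form hza hzb hrel, mul_form hza hzb hrel, add_comm j i, add_comm f e]
  have h1 : Commute (z ^ (e * j + f * i)) (a ^ (i + j)) := hza.pow_pow _ _
  have h2 : z ^ (e * j + f * i) * z ^ (f * i) = z ^ (e * j) := by
    rw [← pow_add, add_assoc, ← two_mul, pow_add, z_pow_even hz (even_two_mul _), mul_one]
  calc a ^ (i + j) * z ^ (e * j) * b ^ (e + f)
      = a ^ (i + j) * (z ^ (e * j + f * i) * z ^ (f * i)) * b ^ (e + f) := by rw [h2]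
    _ = (a ^ (i + j) * z ^ (e * j + f * i)) * z ^ (f * i) * b ^ (e + f) := by group
    _ = (z ^ (e * j + f * i) * a ^ (i + j)) * z ^ (f * i) * b ^ (e + f) := by rw [h1.eq]
    _ = _ := by group

lemma sq_form {a b z : G} (hza : Commute z a) (hzb : Commute z b) (hrel : b * a * b⁻¹ = a * z)
    (hb : b * b = 1) (i e : ℕ) : (a ^ i * b ^ e) ^ 2 = a ^ (2 * i) * z ^ (e * i) := by
  rw [pow_two, mul_form hza hzb hrel, ← two_mul, ← two_mul, pow_mul b, pow_two b, hb, one_pow, mul_one]

lemma fix_of_sq {g t : G} (hg : Odd (orderOf g)) (h : g ^ 2 * t * (g ^ 2)⁻¹ = t) : g * t * g⁻¹ = t := by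
  obtain ⟨m, hm⟩ := hg
  have h1 : g = (g ^ 2) ^ (m + 1) := by
    rw [← pow_mul]
    have h2 : 2 * (m + 1) = orderOf g + 1 := by omega
    rw [h2, pow_succ, pow_orderOf_eq_one, one_mul]
  have h3 : ∀ k : ℕ, (g ^ 2) ^ k * t * ((g ^ 2) ^ k)⁻¹ = t := by
    intro k
    induction k with
    | zero => simp
    | succ k ih =>
      calc (g ^ 2) ^ (k + 1) * t * ((g ^ 2) ^ (k + 1))⁻¹
          = (g ^ 2) ^ k * (g ^ 2 * t * (g ^ 2)⁻¹) * ((g ^ 2) ^ k)⁻¹ := by
            rw [pow_succ]; group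
        _ = t := by rw [h, ih]
  have h4 := h3 (m + 1)
  rw [← h1] at h4
  exact h4

lemma frattini_elem {p : ℕ} [Fact p.Prime] [Finite G] (C A : Subgroup G) (hAC : A ≤ C)
    (P : Sylow p ↥C) (hP : (P : Subgroup ↥C) = A.subgroupOf C) (g : G) (hg : ∀ x ∈ C, g * x * g⁻¹ ∈ C) :
    ∃ c ∈ C, ∀ x ∈ A, (c * g) * x * (c * g)⁻¹ ∈ A := by
  classical
  let f : ↥C →* ↥C :=
    { toFun := fun x => ⟨g * x * g⁻¹, hg x x.2⟩
      map_one' := by apply Subtype.ext; simp
      map_mul' := by
        intro x y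
        apply Subtype.ext
        show g * ((x : G) * y) * g⁻¹ = (g * x * g⁻¹) * (g * y * g⁻¹)
        group }
  have hf : Function.Injective f := by
    intro x y h
    have h1 : g * (x : G) * g⁻¹ = g * (y : G) * g⁻¹ := congrArg Subtype.val h
    apply Subtype.ext
    simpa using h1
  let φ : MulAut ↥C := MulEquiv.ofBijective f (Finite.injective_iff_bijective.mp hf)
  have hφ : ∀ x : ↥C, ((φ x : ↥C) : G) = g * x * g⁻¹ := fun x => rfl
  obtain ⟨c, hc⟩ := MulAction.exists_smul_eq ↥C (φ • P) P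
  refine ⟨c, c.2, ?_⟩
  intro x hx
  have hy : (⟨x, hAC hx⟩ : ↥C) ∈ (P : Subgroup ↥C) := by
    rw [hP]
    exact hx
  have h1 : φ ⟨x, hAC hx⟩ ∈ ((φ • P : Sylow p ↥C) : Subgroup ↥C) := by
    rw [Sylow.pointwise_smul_def]
    exact Subgroup.smul_mem_pointwise_smul _ φ _ hy
  have h2 : (MulAut.conj c) (φ ⟨x, hAC hx⟩) ∈ ((c • (φ • P) : Sylow p ↥C) : Subgroup ↥C) := by
    rw [Sylow.coe_subgroup_smul]
    exact Subgroup.smul_mem_pointwise_smul _ (MulAut.conj c) _ h1
  rw [hc, hP] at h2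
  have h3 : ((MulAut.conj c (φ ⟨x, hAC hx⟩) : ↥C) : G) ∈ A := h2
  have h4 : ((MulAut.conj c (φ ⟨x, hAC hx⟩) : ↥C) : G) = (c * g) * x * (c * g)⁻¹ := by
    rw [MulAut.conj_apply]
    simp only [Subgroup.coe_mul, Subgroup.coe_inv, hφ]
    group
  rwa [h4] at h3

/-- The data of the modular group, in a form convenient for the proof. -/
lemma modular_fix [Finite G] {a b z : G} {N : ℕ} (S : Sylow 2 G) (hN : 4 ∣ N) (hN0 : 0 < N)
    (hS : ∀ x ∈ (S : Subgroup G), ∃ i e : ℕ, x = a ^ i * b ^ e)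
    (haS : a ∈ (S : Subgroup G)) (hbS : b ∈ (S : Subgroup G))
    (hao : orderOf a = 2 * N) (hb : b * b = 1) (hb1 : b ≠ 1) (hzdef : z = a ^ N) (hz : z * z = 1) (hz1 : z ≠ 1)
    (hza : Commute z a) (hzb : Commute z b) (hrel : b * a * b⁻¹ = a * z)
    (Q : Subgroup G) (hQ : Q ≤ (S : Subgroup G)) (g : G) (hg : g ∈ Subgroup.normalizer (Q : Set G))
    (hodd : Nat.Coprime (orderOf g) 2) : g ∈ Subgroup.centralizer (Q : Set G) := by
  classical
  haveI : Fact (Nat.Prime 2) := ⟨Nat.prime_two⟩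
  have hg' : ∀ x, x ∈ Q → g * x * g⁻¹ ∈ Q := fun x hx => (Subgroup.mem_normalizer_iff.mp hg x).mp hx
  have hoddg : Odd (orderOf g) := Nat.coprime_two_right.mp hodd
  obtain ⟨N', rfl⟩ := hN
  have hN'0 : 0 < N' := by omega
  -- involutions of S
  have hpow_mem : ∀ k : ℕ, a ^ k = 1 ↔ 2 * (4 * N') ∣ k := by
    intro k
    rw [← hao]
    exact (orderOf_dvd_iff_pow_eq_one).symm
  have hz2 : ∀ k : ℕ, a ^ (k * (4 * N')) = z ^ k := by
    intro k
    rw [hzdef, ← pow_mul, mul_comm]
  have hP4 : ∀ k : ℕ, a ^ k * a ^ k = 1 → a ^ k = 1 ∨ a ^ k = z := by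
    intro k hk
    rw [← pow_add, hpow_mem] at hk
    have h1 : 4 * N' ∣ k := by
      obtain ⟨c, hc⟩ := hk
      exact ⟨c, by nlinarith⟩
    obtain ⟨c, rfl⟩ := h1
    rw [mul_comm, hz2]
    exact z_pow_cases hz c
  have hzSc : ∀ x ∈ (S : Subgroup G), Commute z x := by
    intro x hx
    obtain ⟨i, e, rfl⟩ := hS x hx
    exact (hza.pow_right i).mul_right (hzb.pow_right e)
  have hcop : Nat.Coprime (4 * N') (1 + 2 * N') := by
    have h1 : Nat.Coprime 2 (1 + 2 * N') := by
      rw [Nat.coprime_two_left]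
      exact ⟨N', by ring⟩
    have h2 : Nat.Coprime N' (1 + 2 * N') := by simp
    have h3 : Nat.Coprime 4 (1 + 2 * N') := by
      have : (4 : ℕ) = 2 ^ 2 := by norm_num
      rw [this]
      exact Nat.Coprime.pow_left 2 h1
    exact Nat.Coprime.mul_left h3 h2
  have hP3 : ∀ x ∈ (S : Subgroup G), x * x = 1 → x = 1 ∨ x = z ∨ x = b ∨ x = z * b := by
    intro x hx hxx
    obtain ⟨i, e, rfl⟩ := hS x hx
    rcases z_pow_cases hb e with he | he
    · rw [he, mul_one] at hxx ⊢
      rcases hP4 i hxx with h | h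
      · exact Or.inl h
      · exact Or.inr (Or.inl h)
    · rw [he] at hxx ⊢
      right; right
      have h1 := sq_form hza hzb hrel hb i 1
      rw [pow_one, pow_two, hxx, one_mul, hzdef, ← pow_mul, ← pow_add] at h1
      have h2 := (hpow_mem _).mp h1.symm
      have h3 : 4 * N' ∣ i := by
        have h4 : 4 * N' ∣ i * (1 + 2 * N') := by
          obtain ⟨c, hc⟩ := h2
          exact ⟨c, by nlinarith⟩
        exact hcop.dvd_of_dvd_mul_right h4
      obtain ⟨c, rfl⟩ := h3
      rw [mul_comm, hz2]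
      rcases z_pow_cases hz c with h | h
      · left; rw [h, one_mul]
      · right; rw [h]
  have hcomm : ∀ x ∈ (S : Subgroup G), ∀ y ∈ (S : Subgroup G), x * y = y * x ∨ x * y = z * (y * x) := by
    intro x hx y hy
    obtain ⟨i, e, rfl⟩ := hS x hx
    obtain ⟨j, f, rfl⟩ := hS y hy
    have h1 := comm_form hz hza hzb hrel i e j f
    rcases z_pow_cases hz (e * j + f * i) with h | h
    · left; rw [h1, h, one_mul]
    · right; rw [h1, h]
  have hsq : ∀ x ∈ (S : Subgroup G), ∃ k : ℕ, x * x = a ^ (2 * k) := by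
    intro x hx
    obtain ⟨i, e, rfl⟩ := hS x hx
    refine ⟨i + 2 * N' * (e * i), ?_⟩
    rw [← pow_two, sq_form hza hzb hrel hb, hzdef, ← pow_mul, ← pow_add]
    congr 1
    ring
  have hev : ∀ x ∈ (S : Subgroup G), Commute x b → ∃ i e : ℕ, x = a ^ (2 * i) * b ^ e := by
    intro x hx hxb
    obtain ⟨i, e, rfl⟩ := hS x hx
    have h1 := comm_form hz hza hzb hrel i e 0 1
    simp only [pow_zero, one_mul, pow_one, mul_zero, zero_add, one_mul] at h1
    have h2 : z ^ i = 1 := by
      have h3 := hxb.eq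
      rw [h1] at h3
      exact mul_right_cancel (b := b * (a ^ i * b ^ e)) (by rw [h3, one_mul])
    rcases Nat.even_or_odd i with hi | hi
    · obtain ⟨m, rfl⟩ := hi
      exact ⟨m, e, by rw [two_mul]⟩
    · exfalso
      obtain ⟨m, rfl⟩ := hi
      rw [pow_succ, z_pow_even hz (even_two_mul m), one_mul] at h2
      exact hz1 h2
  have hev4 : ∀ x ∈ (S : Subgroup G), x ^ 4 = 1 → ∃ i e : ℕ, x = a ^ (2 * i) * b ^ e := by
    intro x hx hx4
    obtain ⟨i, e, rfl⟩ := hS x hx
    have h1 : (a ^ i * b ^ e) ^ 4 = a ^ (4 * i) := by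
      have h2 : (a ^ i * b ^ e) ^ 4 = ((a ^ i * b ^ e) ^ 2) ^ 2 := by rw [← pow_mul]
      rw [h2, sq_form hza hzb hrel hb, (hza.symm.pow_pow _ _).mul_pow, ← pow_mul, ← pow_mul,
        z_pow_even hz ⟨e * i, by ring⟩, mul_one]
      congr 1
      ring
    rw [h1, hpow_mem] at hx4
    have h3 : 2 ∣ i := by
      obtain ⟨c, hc⟩ := hx4
      have h4 : i = N' * 2 * c := by nlinarith
      exact ⟨N' * c, by rw [h4]; ring⟩
    obtain ⟨m, rfl⟩ := h3
    exact ⟨m, e, rfl⟩
  have hevc : ∀ i e j f : ℕ, Commute (a ^ (2 * i) * b ^ e) (a ^ (2 * j) * b ^ f) := by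
    intro i e j f
    show _ = _
    rw [comm_form hz hza hzb hrel, z_pow_even hz ⟨e * j + f * i, by ring⟩, one_mul]
  have hevsq : ∀ i e : ℕ, (a ^ (2 * i) * b ^ e) ^ 2 = a ^ (4 * i) := by
    intro i e
    rw [sq_form hza hzb hrel hb, z_pow_even hz ⟨e * i, by ring⟩, mul_one]
    congr 1
    ring
  -- Key claim
  have hKey : z ∈ Q → b ∈ Q → g * z * g⁻¹ = z := by
    intro hzQ hbQ
    by_cases hall : ∀ x ∈ Q, x * x = 1
    · have hzbQ : z * b ∈ Q := Subgroup.mul_mem _ hzQ hbQ
      have hQf : ∀ x ∈ Q, x = 1 ∨ x = z ∨ x = b ∨ x = z * b := fun x hx => hP3 x (hQ hx) (hall x hx)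
      have hSQ : ∀ x ∈ (S : Subgroup G), ∀ t ∈ Q, x * t * x⁻¹ ∈ Q := by
        intro x hx t ht
        have h1 : x * t * x⁻¹ ∈ (S : Subgroup G) :=
          Subgroup.mul_mem _ (Subgroup.mul_mem _ hx (hQ ht)) (Subgroup.inv_mem _ hx)
        have h2 : (x * t * x⁻¹) * (x * t * x⁻¹) = 1 := by
          have h3 := hall t ht
          calc (x * t * x⁻¹) * (x * t * x⁻¹) = x * (t * t) * x⁻¹ := by group
            _ = 1 := by rw [h3]; group
        rcases hP3 _ h1 h2 with h | h | h | h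
        · rw [h]; exact Subgroup.one_mem _
        · rw [h]; exact hzQ
        · rw [h]; exact hbQ
        · rw [h]; exact hzbQ
      have hcn : ∀ x ∈ (S : Subgroup G), ∀ y ∈ Subgroup.centralizer (Q : Set G),
          x * y * x⁻¹ ∈ Subgroup.centralizer (Q : Set G) := by
        intro x hx y hy
        rw [Subgroup.mem_centralizer_iff] at hy ⊢
        intro t ht
        have h1 := hy _ (hSQ x⁻¹ (Subgroup.inv_mem _ hx) t ht)
        rw [inv_inv] at h1
        calc t * (x * y * x⁻¹) = x * ((x⁻¹ * t * x) * y) * x⁻¹ := by group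
          _ = x * (y * (x⁻¹ * t * x)) * x⁻¹ := by rw [h1]
          _ = _ := by group
      have hle : (S : Subgroup G) ≤ Subgroup.normalizer ((Subgroup.centralizer (Q : Set G) : Subgroup G) : Set G) := by
        intro x hx
        rw [Subgroup.mem_normalizer_iff]
        intro y
        constructor
        · exact hcn x hx y
        · intro h
          have h1 := hcn x⁻¹ (Subgroup.inv_mem _ hx) _ h
          have h2 : x⁻¹ * (x * y * x⁻¹) * x⁻¹⁻¹ = y := by group
          rwa [h2] at h1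
      obtain ⟨P, hP⟩ := Cfsg.Agent.Lib.LPRed.sylow_subgroupOf_of_normalizes S _ hle
      have hP' : (P : Subgroup ↥(Subgroup.centralizer (Q : Set G))) =
          ((S : Subgroup G) ⊓ Subgroup.centralizer (Q : Set G)).subgroupOf (Subgroup.centralizer (Q : Set G)) := by
        rw [hP, Subgroup.inf_subgroupOf_right]
      have hgC : ∀ y ∈ Subgroup.centralizer (Q : Set G), g * y * g⁻¹ ∈ Subgroup.centralizer (Q : Set G) := by
        intro y hy
        rw [Subgroup.mem_centralizer_iff] at hy ⊢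
        intro t ht
        have h0 : g⁻¹ * t * g ∈ Q := by
          have h2 := (Subgroup.mem_normalizer_iff.mp hg (g⁻¹ * t * g)).mpr (by
            have : g * (g⁻¹ * t * g) * g⁻¹ = t := by group
            rw [this]; exact ht)
          exact h2
        have h1 := hy _ h0
        calc t * (g * y * g⁻¹) = g * ((g⁻¹ * t * g) * y) * g⁻¹ := by group
          _ = g * (y * (g⁻¹ * t * g)) * g⁻¹ := by rw [h1]
          _ = _ := by group
      obtain ⟨c, hc, hcA⟩ := frattini_elem _ _ inf_le_right P hP' g hgC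
      -- `a ^ 2` is in `A`
      have ha2b : Commute (a ^ 2) b := by
        have h1 := hevc 1 0 0 1
        simpa using h1
      have ha2 : a ^ 2 ∈ (S : Subgroup G) ⊓ Subgroup.centralizer (Q : Set G) := by
        refine ⟨Subgroup.pow_mem _ haS 2, Subgroup.mem_centralizer_iff.mpr ?_⟩
        intro t ht
        rcases hQf t ht with h | h | h | h
        · rw [h]; simp
        · rw [h]; exact (hza.pow_right 2).eq
        · rw [h]; exact ha2b.symm.eq
        · rw [h]; exact ((hza.pow_right 2).mul_left ha2b.symm).eq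
      have h1 := hcA _ ha2
      set h := c * g with hh
      obtain ⟨i, e, he⟩ := hev _ h1.1 (by
        have h2 := Subgroup.mem_centralizer_iff.mp h1.2 b hbQ
        exact h2.symm)
      have h2 : h * a ^ 4 * h⁻¹ = a ^ (4 * i) := by
        rw [← hevsq i e, ← he, conj_pow, ← pow_mul]
      have h3 : h * z * h⁻¹ = z ^ i := by
        have h4 : z = (a ^ 4) ^ N' := by rw [hzdef, ← pow_mul]
        have h5 : h * (a ^ 4) ^ N' * h⁻¹ = (h * a ^ 4 * h⁻¹) ^ N' := conj_pow.symm
        calc h * z * h⁻¹ = h * (a ^ 4) ^ N' * h⁻¹ := by rw [← h4]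
          _ = (a ^ (4 * i)) ^ N' := by rw [h5, h2]
          _ = z ^ i := by
            rw [hzdef, ← pow_mul, ← pow_mul]
            congr 1
            ring
      have h6 : h * z * h⁻¹ = z := by
        rcases z_pow_cases hz i with h7 | h7
        · exfalso
          rw [h7] at h3
          apply hz1
          have h8 : h * z = h := by
            rw [mul_inv_eq_one] at h3
            exact h3
          exact mul_left_cancel (a := h) (h8.trans (mul_one h).symm)
        · rw [h3, h7]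
      have h8 : g * z * g⁻¹ ∈ Q := hg' z hzQ
      have h9 : c * (g * z * g⁻¹) = (g * z * g⁻¹) * c := (Subgroup.mem_centralizer_iff.mp hc _ h8).symm
      calc g * z * g⁻¹ = c * (g * z * g⁻¹) * c⁻¹ := by rw [h9]; group
        _ = h * z * h⁻¹ := by rw [hh]; group
        _ = z := h6
    · push Not at hall
      obtain ⟨x, hxQ, hx⟩ := hall
      obtain ⟨k, hk⟩ := hsq x (hQ hxQ)
      obtain ⟨s₀, hs₀⟩ := S.2 ⟨x * x, Subgroup.mul_mem _ (hQ hxQ) (hQ hxQ)⟩
      · have hs₁ : (x * x) ^ 2 ^ s₀ = 1 := congrArg Subtype.val hs₀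
        have hex : ∃ s, (x * x) ^ 2 ^ s = 1 := ⟨s₀, hs₁⟩
        have hmin : ∀ m, m < Nat.find hex → ¬ (x * x) ^ 2 ^ m = 1 := fun m hm => Nat.find_min hex hm
        have hsp := Nat.find_spec hex
        set s := Nat.find hex with hsdef
        have hs0 : s ≠ 0 := by
          intro h
          rw [h, pow_zero, pow_one] at hsp
          exact hx hsp
        obtain ⟨s', hs'⟩ : ∃ s', s = s' + 1 := ⟨s - 1, by omega⟩
        have ht1 : (x * x) ^ 2 ^ s' ≠ 1 := hmin s' (by omega)
        have ht2 : (x * x) ^ 2 ^ s' * (x * x) ^ 2 ^ s' = 1 := by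
          rw [← pow_add, ← two_mul, ← pow_succ', ← hs']
          exact hsp
        have ht3 : (x * x) ^ 2 ^ s' = z := by
          rw [hk, ← pow_mul] at ht1 ht2 ⊢
          exact (hP4 _ ht2).resolve_left ht1
        have hy := hg' x hxQ
        obtain ⟨l, hl⟩ := hsq _ (hQ hy)
        have h1 : g * z * g⁻¹ = a ^ (2 * l * 2 ^ s') := by
          rw [pow_mul, ← hl, ← ht3]
          have : g * x * g⁻¹ * (g * x * g⁻¹) = g * (x * x) * g⁻¹ := by group
          rw [this, conj_pow]
        have h2 : (a ^ (2 * l * 2 ^ s')) * (a ^ (2 * l * 2 ^ s')) = 1 := by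
          rw [← h1]
          calc g * z * g⁻¹ * (g * z * g⁻¹) = g * (z * z) * g⁻¹ := by group
            _ = 1 := by rw [hz]; group
        rcases hP4 _ h2 with h3 | h3
        · exfalso
          rw [h3] at h1
          apply hz1
          have h8 : g * z = g := by
            rw [mul_inv_eq_one] at h1
            exact h1
          exact mul_left_cancel (a := g) (h8.trans (mul_one g).symm)
        · rw [h1, h3]
  -- Claim A
  have hA : ∀ t ∈ Q, t * t = 1 → g * t * g⁻¹ = t := by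
    intro t htQ htt
    by_contra hne
    have ht1Q := hg' t htQ
    have ht2Q := hg' _ ht1Q
    set t₁ := g * t * g⁻¹ with ht₁
    set t₂ := g * t₁ * g⁻¹ with ht₂
    have h12 : t₂ ≠ t₁ := by
      intro h
      apply hne
      have h1 : g * t₁ * g⁻¹ = g * t * g⁻¹ := h.trans ht₁
      have h2 : g * t₁ = g * t := mul_right_cancel h1
      exact (mul_left_cancel h2)
    have h02 : t₂ ≠ t := by
      intro h
      apply hne
      apply fix_of_sq hoddg
      calc g ^ 2 * t * (g ^ 2)⁻¹ = g * (g * t * g⁻¹) * g⁻¹ := by rw [pow_two]; group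
        _ = t₂ := rfl
        _ = t := h
    have hsq1 : t₁ * t₁ = 1 := by
      rw [ht₁]
      calc g * t * g⁻¹ * (g * t * g⁻¹) = g * (t * t) * g⁻¹ := by group
        _ = 1 := by rw [htt]; group
    have hsq2 : t₂ * t₂ = 1 := by
      rw [ht₂]
      calc g * t₁ * g⁻¹ * (g * t₁ * g⁻¹) = g * (t₁ * t₁) * g⁻¹ := by group
        _ = 1 := by rw [hsq1]; group
    have ht0 : t ≠ 1 := by
      intro h
      apply hne
      show g * t * g⁻¹ = t
      rw [h]; group
    have ht10 : t₁ ≠ 1 := by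
      intro h
      apply ht0
      have h1 : g * t = g := by
        rw [ht₁, mul_inv_eq_one] at h
        exact h
      exact mul_left_cancel (a := g) (h1.trans (mul_one g).symm)
    have ht20 : t₂ ≠ 1 := by
      intro h
      apply ht10
      have h1 : g * t₁ = g := by
        rw [ht₂, mul_inv_eq_one] at h
        exact h
      exact mul_left_cancel (a := g) (h1.trans (mul_one g).symm)
    have hf0 := (hP3 t (hQ htQ) htt).resolve_left ht0
    have hf1 := (hP3 t₁ (hQ ht1Q) hsq1).resolve_left ht10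
    have hf2 := (hP3 t₂ (hQ ht2Q) hsq2).resolve_left ht20
    have hne' : t₁ ≠ t := hne
    have hz3 : z = t ∨ z = t₁ ∨ z = t₂ := by
      rcases hf0 with h0 | h0 | h0
      · exact Or.inl h0.symm
      · rcases hf1 with h1 | h1 | h1
        · exact Or.inr (Or.inl h1.symm)
        · exact absurd (h1.trans h0.symm) hne'
        · rcases hf2 with h2 | h2 | h2
          · exact Or.inr (Or.inr h2.symm)
          · exact absurd (h2.trans h0.symm) h02
          · exact absurd (h2.trans h1.symm) h12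
      · rcases hf1 with h1 | h1 | h1
        · exact Or.inr (Or.inl h1.symm)
        · rcases hf2 with h2 | h2 | h2
          · exact Or.inr (Or.inr h2.symm)
          · exact absurd (h2.trans h1.symm) h12
          · exact absurd (h2.trans h0.symm) h02
        · exact absurd (h1.trans h0.symm) hne'
    have hb3 : b = t ∨ b = t₁ ∨ b = t₂ := by
      rcases hf0 with h0 | h0 | h0
      · rcases hf1 with h1 | h1 | h1
        · exact absurd (h1.trans h0.symm) hne'
        · exact Or.inr (Or.inl h1.symm)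
        · rcases hf2 with h2 | h2 | h2
          · exact absurd (h2.trans h0.symm) h02
          · exact Or.inr (Or.inr h2.symm)
          · exact absurd (h2.trans h1.symm) h12
      · exact Or.inl h0.symm
      · rcases hf1 with h1 | h1 | h1
        · rcases hf2 with h2 | h2 | h2
          · exact absurd (h2.trans h1.symm) h12
          · exact Or.inr (Or.inr h2.symm)
          · exact absurd (h2.trans h0.symm) h02
        · exact Or.inr (Or.inl h1.symm)
        · exact absurd (h1.trans h0.symm) hne'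
    have hzQ : z ∈ Q := by
      rcases hz3 with h | h | h <;> rw [h] <;> assumption
    have hbQ : b ∈ Q := by
      rcases hb3 with h | h | h <;> rw [h] <;> assumption
    have hK := hKey hzQ hbQ
    rcases hz3 with h | h | h
    · rw [h] at hK
      exact hne hK
    · rw [h] at hK
      exact h12 hK
    · rw [h] at hK
      apply h12
      have h1 : g * t₂ * g⁻¹ = g * t₁ * g⁻¹ := hK.trans ht₂
      exact (mul_left_cancel (mul_right_cancel h1))
  -- Claim B
  have hB : ∀ x ∈ Q, x ^ 4 = 1 → g * x * g⁻¹ = x := by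
    intro x hxQ hx4
    have hyQ := hg' x hxQ
    have hy4 : (g * x * g⁻¹) ^ 4 = 1 := by rw [conj_pow, hx4]; group
    obtain ⟨i, e, hxf⟩ := hev4 x (hQ hxQ) hx4
    obtain ⟨j, f, hyf⟩ := hev4 _ (hQ hyQ) hy4
    have hcm : Commute (g * x * g⁻¹) x := by
      have h := hevc j f i e
      rw [← hyf, ← hxf] at h
      exact h
    have hx2 : g * (x * x) * g⁻¹ = x * x := by
      apply hA _ (Subgroup.mul_mem _ hxQ hxQ)
      calc x * x * (x * x) = x ^ 4 := by rw [show (4 : ℕ) = 2 + 2 from rfl, pow_add, pow_two]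
        _ = 1 := hx4
    have hcQ : g * x * g⁻¹ * x⁻¹ ∈ Q := Subgroup.mul_mem _ hyQ (Subgroup.inv_mem _ hxQ)
    have hcc : (g * x * g⁻¹ * x⁻¹) * (g * x * g⁻¹ * x⁻¹) = 1 := by
      have h1 : g * x * g⁻¹ * (g * x * g⁻¹) = x * x := by
        rw [← hx2]; group
      have h2 : x⁻¹ * (g * x * g⁻¹) = (g * x * g⁻¹) * x⁻¹ := (hcm.inv_right).eq.symm
      calc (g * x * g⁻¹ * x⁻¹) * (g * x * g⁻¹ * x⁻¹)
          = (g * x * g⁻¹) * (x⁻¹ * (g * x * g⁻¹)) * x⁻¹ := by group
        _ = (g * x * g⁻¹) * ((g * x * g⁻¹) * x⁻¹) * x⁻¹ := by rw [h2]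
        _ = (g * x * g⁻¹ * (g * x * g⁻¹)) * x⁻¹ * x⁻¹ := by group
        _ = (x * x) * x⁻¹ * x⁻¹ := by rw [h1]
        _ = 1 := by group
    exact fixed_of_quot (p := 2) hodd rfl (hA _ hcQ hcc) (k := 1) (by rw [pow_one, pow_two]; exact hcc)
  -- Claim C
  have hC : ∀ k : ℕ, ∀ x ∈ Q, x ^ 2 ^ k = 1 → g * x * g⁻¹ = x := by
    intro k
    induction k with
    | zero =>
      intro x _ hx
      rw [pow_zero, pow_one] at hx
      rw [hx]; group
    | succ k ih =>
      intro x hxQ hx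
      have hx2 : g * (x * x) * g⁻¹ = x * x := by
        apply ih _ (Subgroup.mul_mem _ hxQ hxQ)
        rw [← pow_two, ← pow_mul, ← pow_succ']
        exact hx
      have hyQ := hg' x hxQ
      have hcQ : g * x * g⁻¹ * x⁻¹ ∈ Q := Subgroup.mul_mem _ hyQ (Subgroup.inv_mem _ hxQ)
      have h1 : g * x * g⁻¹ * (g * x * g⁻¹) = x * x := by
        rw [← hx2]; group
      have hcc : (g * x * g⁻¹ * x⁻¹) * (g * x * g⁻¹ * x⁻¹) = 1 ∨
          (g * x * g⁻¹ * x⁻¹) * (g * x * g⁻¹ * x⁻¹) = z := by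
        rcases hcomm x⁻¹ (Subgroup.inv_mem _ (hQ hxQ)) _ (hQ hyQ) with h2 | h2
        · left
          calc (g * x * g⁻¹ * x⁻¹) * (g * x * g⁻¹ * x⁻¹)
              = (g * x * g⁻¹) * (x⁻¹ * (g * x * g⁻¹)) * x⁻¹ := by group
            _ = (g * x * g⁻¹) * ((g * x * g⁻¹) * x⁻¹) * x⁻¹ := by rw [h2]
            _ = (g * x * g⁻¹ * (g * x * g⁻¹)) * x⁻¹ * x⁻¹ := by group
            _ = (x * x) * x⁻¹ * x⁻¹ := by rw [h1]
            _ = 1 := by group
        · right
          have h3 := (hzSc _ (hQ hyQ)).eq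
          calc (g * x * g⁻¹ * x⁻¹) * (g * x * g⁻¹ * x⁻¹)
              = (g * x * g⁻¹) * (x⁻¹ * (g * x * g⁻¹)) * x⁻¹ := by group
            _ = (g * x * g⁻¹) * (z * ((g * x * g⁻¹) * x⁻¹)) * x⁻¹ := by rw [h2]
            _ = ((g * x * g⁻¹) * z) * (g * x * g⁻¹) * x⁻¹ * x⁻¹ := by group
            _ = (z * (g * x * g⁻¹)) * (g * x * g⁻¹) * x⁻¹ * x⁻¹ := by rw [h3]
            _ = z * (g * x * g⁻¹ * (g * x * g⁻¹)) * x⁻¹ * x⁻¹ := by group
            _ = z * (x * x) * x⁻¹ * x⁻¹ := by rw [h1]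
            _ = z := by group
      have hc4 : (g * x * g⁻¹ * x⁻¹) ^ 4 = 1 := by
        have h5 : ∀ w : G, w ^ 4 = (w * w) * (w * w) := fun w => by
          rw [show (4 : ℕ) = 2 + 2 from rfl, pow_add, pow_two]
        rw [h5]
        rcases hcc with h | h
        · rw [h, one_mul]
        · rw [h, hz]
      exact fixed_of_quot (p := 2) hodd rfl (hB _ hcQ hc4) (k := 2) (by
        have : (2 : ℕ) ^ 2 = 4 := by norm_num
        rw [this]; exact hc4)
  rw [Subgroup.mem_centralizer_iff]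
  intro x hx
  obtain ⟨k, hk⟩ := S.2 ⟨x, hQ hx⟩
  have h1 := hC k x hx (congrArg Subtype.val hk)
  exact (mul_inv_eq_iff_eq_mul.mp h1).symm

end

/-- Groups with a modular Sylow 2-subgroup have a normal 2-complement. Let S, of order 2^(n+1) with n ≥ 3, be a Sylow 2-subgroup of a finite group G, and suppose S contains an element a of order 2^n and an involution b with b a b⁻¹ = a^(2^(n-1) + 1); so S is the non-abelian 2-group with a cyclic subgroup of index 2 that is neither dihedral, semidihedral nor generalized quaternion. Then G has a normal 2-complement. -/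
theorem result {G : Type*} [Group G] [Finite G]
    (S : Sylow 2 G) (n : ℕ) (hn : 3 ≤ n) (hS : Nat.card ↥(S : Subgroup G) = 2 ^ (n + 1))
    (a b : G) (ha : a ∈ (S : Subgroup G)) (hb : b ∈ (S : Subgroup G))
    (hao : orderOf a = 2 ^ n) (hbo : orderOf b = 2) (hrel : b * a * b⁻¹ = a ^ (2 ^ (n - 1) + 1)) :
    Cfsg.HasNormalPComplement 2 G := by
  classical
  haveI : Fact (Nat.Prime 2) := ⟨Nat.prime_two⟩
  obtain ⟨k, rfl⟩ : ∃ k, n = k + 3 := ⟨n - 3, by omega⟩
  have hNdef : k + 3 - 1 = k + 2 := rfl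
  rw [hNdef] at hrel
  set N := 2 ^ (k + 2) with hN
  have hN4 : 4 ∣ N := ⟨2 ^ k, by rw [hN, pow_add]; ring⟩
  have hN0 : 0 < N := by positivity
  have hao' : orderOf a = 2 * N := by rw [hao, hN, pow_succ' 2 (k + 2)]
  set z := a ^ N with hzdef
  have hb' : b * b = 1 := by
    rw [← pow_two, ← hbo, pow_orderOf_eq_one]
  have hb1 : b ≠ 1 := by
    intro h
    rw [h, orderOf_one] at hbo
    omega
  have hz : z * z = 1 := by
    rw [hzdef, ← pow_add, ← two_mul, ← hao', pow_orderOf_eq_one]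
  have hz1 : z ≠ 1 := pow_ne_one_of_lt_orderOf hN0.ne' (by rw [hao']; omega)
  have hza : Commute z a := (Commute.refl a).pow_left N
  have hrel' : b * a * b⁻¹ = a * z := by
    rw [hrel, pow_succ]
    exact hza.eq
  have hzb : Commute z b := by
    have h1 : b * z * b⁻¹ = z := by
      have h2 : b * a ^ N * b⁻¹ = (b * a * b⁻¹) ^ N := conj_pow.symm
      rw [hzdef, h2, hrel', hza.symm.mul_pow, ← hzdef]
      have h3 : z ^ N = 1 := z_pow_even hz (even_iff_two_dvd.mpr (dvd_trans (by norm_num) hN4))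
      rw [h3, mul_one]
    exact (mul_inv_eq_iff_eq_mul.mp h1).symm
  have hle : Subgroup.zpowers a ≤ (S : Subgroup G) := (Subgroup.zpowers_le).mpr ha
  have hbna : b ∉ Subgroup.zpowers a := by
    intro h
    obtain ⟨t, rfl⟩ := Subgroup.mem_zpowers_iff.mp h
    apply hz1
    have h1 : a ^ t * a * (a ^ t)⁻¹ = a := by
      rw [((Commute.refl a).zpow_left t).eq]
      group
    rw [h1] at hrel'
    exact (left_eq_mul.mp hrel')
  have hindex : ((Subgroup.zpowers a).subgroupOf (S : Subgroup G)).index = 2 := by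
    have h1 := ((Subgroup.zpowers a).subgroupOf (S : Subgroup G)).card_mul_index
    have h2 : Nat.card ((Subgroup.zpowers a).subgroupOf (S : Subgroup G)) = 2 ^ (k + 3) := by
      rw [Nat.card_congr (Subgroup.subgroupOfEquivOfLe hle).toEquiv, Nat.card_zpowers, hao]
    rw [h2, hS, pow_succ 2 (k + 3)] at h1
    exact Nat.eq_of_mul_eq_mul_left (by positivity) h1
  have hSf : ∀ x ∈ (S : Subgroup G), ∃ i e : ℕ, x = a ^ i * b ^ e := by
    intro x hx
    by_cases hxa : x ∈ Subgroup.zpowers a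
    · obtain ⟨i, hi⟩ := Cfsg.Agent.Lib.H1Quat.exists_pow_of_mem_zpowers hxa
      exact ⟨i, 0, by rw [pow_zero, mul_one, hi]⟩
    · have h1 : (⟨x, hx⟩ : ↥(S : Subgroup G)) * ⟨b, hb⟩ ∈ (Subgroup.zpowers a).subgroupOf (S : Subgroup G) := by
        rw [Subgroup.mul_mem_iff_of_index_two hindex]
        exact ⟨fun h => absurd h hxa, fun h => absurd h hbna⟩
      have h2 : x * b ∈ Subgroup.zpowers a := h1
      obtain ⟨i, hi⟩ := Cfsg.Agent.Lib.H1Quat.exists_pow_of_mem_zpowers h2
      refine ⟨i, 1, ?_⟩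
      rw [hi, pow_one, mul_assoc, hb', mul_one]
  apply Cfsg.Agent.Lib.PNilp.hasNormalPComplement_of_automizer S
  intro Q hQ g hg hcop
  exact modular_fix S hN4 hN0 hSf ha hb hao' hb' hb1 rfl hz hz1 hza hzb hrel' Q hQ g hg hcop

end Cfsg.Agent.S3178
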