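import Cfsg.Statements.S3180
import Mathlib

set_option autoImplicit false
open Cfsg

namespace Cfsg.Agent.S3180



/-- Let P be a Sylow p-subgroup of a finite group J and P₁ a subgroup of P that is weakly closed in P with respect to J. If J acts on a set and two points, each fixed by every element of P₁, lie in one J-orbit, then they lie in one orbit of the normalizer of P₁ in J. -/
theorem result {J : Type*} [Group J] [Finite J]
    {p : ℕ} [Fact p.Prime] (P : Sylow p J) (P₁ : Subgroup J) (hW : Cfsg.IsWeaklyClosed P₁ (P : Subgroup J))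
    {Ω : Type*} [MulAction J Ω] (x y : Ω) (hx : ∀ g ∈ P₁, g • x = x) (hy : ∀ g ∈ P₁, g • y = y)
    (hc : ∃ g : J, g • x = y) :
    ∃ g ∈ Subgroup.normalizer (P₁ : Set J), g • x = y := by
  classical
  obtain ⟨g, rfl⟩ := hc
  -- the stabilizer of y
  set K := MulAction.stabilizer J (g • x) with hK
  have hP₁K : P₁ ≤ K := fun h hh => hy h hh
  have hgK : P₁.map (MulAut.conj g).toMonoidHom ≤ K := by
    rintro _ ⟨h, hh, rfl⟩
    show (g * h * g⁻¹) • (g • x) = g • x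
    simp [mul_smul, hx h hh]
  have hP₁p : IsPGroup p ↥P₁ := P.2.to_le hW.1
  have hp1 : IsPGroup p ↥(P₁.subgroupOf K) :=
    hP₁p.comap_of_injective _ (Subgroup.subtype_injective K) |>.to_le (le_refl _)
  have hgp : IsPGroup p ↥(P₁.map (MulAut.conj g).toMonoidHom) := hP₁p.map _
  have hp2 : IsPGroup p ↥((P₁.map (MulAut.conj g).toMonoidHom).subgroupOf K) :=
    hgp.comap_of_injective _ (Subgroup.subtype_injective K)
  obtain ⟨R₁, hR₁⟩ := hp1.exists_le_sylow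
  obtain ⟨R₂, hR₂⟩ := hp2.exists_le_sylow
  obtain ⟨h, hh⟩ := MulAction.exists_smul_eq ↥K R₂ R₁
  -- the Sylow subgroup of J
  have hRp : IsPGroup p ↥((R₁ : Subgroup ↥K).map K.subtype) := R₁.2.map _
  obtain ⟨S₁, hS₁⟩ := hRp.exists_le_sylow
  obtain ⟨u, hu⟩ := MulAction.exists_smul_eq J S₁ P
  have hmem : ∀ z ∈ (R₁ : Subgroup ↥K), u * (z : J) * u⁻¹ ∈ (P : Subgroup J) := by
    intro z hz
    rw [← hu]
    exact Subgroup.mem_map_of_mem _ (hS₁ ⟨z, hz, rfl⟩)
  -- `u` normalizes P₁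
  have h1 : P₁.map (MulAut.conj u).toMonoidHom ≤ (P : Subgroup J) := by
    rintro _ ⟨t, ht, rfl⟩
    exact hmem ⟨t, hP₁K ht⟩ (hR₁ (Subgroup.mem_subgroupOf.mpr ht))
  have h1' := hW.2 u h1
  have h2 : P₁.map (MulAut.conj (u * h * g)).toMonoidHom ≤ (P : Subgroup J) := by
    rintro _ ⟨t, ht, rfl⟩
    have ht1 : (⟨g * t * g⁻¹, hgK ⟨t, ht, rfl⟩⟩ : ↥K) ∈ (R₂ : Subgroup ↥K) :=
      hR₂ (Subgroup.mem_subgroupOf.mpr ⟨t, ht, rfl⟩)
    have ht2 : h * (⟨g * t * g⁻¹, hgK ⟨t, ht, rfl⟩⟩ : ↥K) * h⁻¹ ∈ (R₁ : Subgroup ↥K) := by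
      rw [← hh]
      exact Subgroup.mem_map_of_mem _ ht1
    have := hmem _ ht2
    have e : (MulAut.conj (u * (h : J) * g)).toMonoidHom t =
        u * ((h * (⟨g * t * g⁻¹, hgK ⟨t, ht, rfl⟩⟩ : ↥K) * h⁻¹ : ↥K) : J) * u⁻¹ := by
      simp [mul_assoc]
    rw [e]
    exact this
  have h2' := hW.2 _ h2
  -- combine
  refine ⟨h * g, ?_, ?_⟩
  · have hu1 : u ∈ Subgroup.normalizer (P₁ : Set J) := Subgroup.mem_normalizer_iff_map_conj_eq.mpr h1'
    have hv : u * (h : J) * g ∈ Subgroup.normalizer (P₁ : Set J) :=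
      Subgroup.mem_normalizer_iff_map_conj_eq.mpr h2'
    have e : (h : J) * g = u⁻¹ * (u * (h : J) * g) := by group
    rw [e]
    exact Subgroup.mul_mem _ (Subgroup.inv_mem _ hu1) hv
  · show ((h : J) * g) • x = g • x
    rw [mul_smul]
    exact h.2

end Cfsg.Agent.S3180
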