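import Cfsg.Statements.S3183
import Mathlib
import Cfsg.Agent.Lib.SylowTools

set_option autoImplicit false
open Cfsg

namespace Cfsg.Agent.S3183

open Cfsg.Agent.Lib.SylowTools

theorem key {G : Type*} [Group G] [Finite G]
    (hCI : ∀ S T : Sylow 2 G, S ≠ T → ∃ U : Sylow 2 G,
      (S : Subgroup G) ⊓ (T : Subgroup G) ≤ (Subgroup.center ↥(U : Subgroup G)).map (U : Subgroup G).subtype)
    {S T : Sylow 2 G} (hST : S ≠ T) {x : G} (hxS : x ∈ (S : Subgroup G)) (hxT : x ∈ (T : Subgroup G)) :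
    ∀ s ∈ (S : Subgroup G), s * x = x * s := by
  classical
  haveI : Fact (Nat.Prime 2) := ⟨Nat.prime_two⟩
  have hsyl : ∀ (H : Subgroup G) (U : Sylow 2 G), (U : Subgroup G) ≤ H → ∀ Q : Subgroup G, Q ≤ H →
      IsPGroup 2 ↥Q → ∃ c ∈ H, ∀ q ∈ Q, c * q * c⁻¹ ∈ (U : Subgroup G) := by
    intro H U hU Q hQH hQ
    obtain ⟨c, hc, hc2⟩ := exists_conj_le_image H (U.subtype hU) Q hQH hQ
    refine ⟨c, hc, fun q hq => ?_⟩
    have h1 := hc2 ⟨q, hq, rfl⟩
    obtain ⟨w, hw, hw2⟩ := h1
    rw [Sylow.coe_subtype] at hw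
    have h2 : (w : G) ∈ (U : Subgroup G) := Subgroup.mem_subgroupOf.mp hw
    have h3 : (w : G) = c * q * c⁻¹ := hw2
    rw [← h3]
    exact h2
  set C := Subgroup.centralizer ({x} : Set G) with hC
  have hmemC : ∀ s, s ∈ C ↔ s * x = x * s := by
    intro s
    rw [hC, Subgroup.mem_centralizer_iff]
    constructor
    · intro h; exact (h x rfl).symm
    · intro h w hw
      rw [Set.mem_singleton_iff] at hw
      rw [hw]; exact h.symm
  suffices hS : (S : Subgroup G) ≤ C from fun s hs => (hmemC s).mp (hS hs)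
  obtain ⟨U, hU⟩ := hCI S T hST
  have hxU := hU (Subgroup.mem_inf.mpr ⟨hxS, hxT⟩)
  obtain ⟨⟨x', hx'U⟩, hxz, rfl⟩ := hxU
  have hUC : (U : Subgroup G) ≤ C := by
    intro u hu
    rw [hmemC]
    have := Subgroup.mem_center_iff.mp hxz ⟨u, hu⟩
    exact congrArg Subtype.val this
  set x := (x' : G) with hxx'
  set Q := (S : Subgroup G) ⊓ C with hQ
  have hQp : IsPGroup 2 ↥Q := S.2.to_le inf_le_left
  obtain ⟨h, hhC, hh⟩ := hsyl C U hUC Q inf_le_right hQp
  obtain ⟨U₂, hU₂⟩ : ∃ U₂ : Sylow 2 G, (U₂ : Subgroup G) = (U : Subgroup G).map (MulAut.conj h⁻¹).toMonoidHom :=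
    ⟨h⁻¹ • U, rfl⟩
  have hQU₂ : Q ≤ (U₂ : Subgroup G) := by
    intro q hq
    rw [hU₂]
    refine ⟨_, hh q hq, ?_⟩
    simp [mul_assoc]
  have hU₂C : (U₂ : Subgroup G) ≤ C := by
    rw [hU₂]
    rintro _ ⟨u, hu, rfl⟩
    exact C.mul_mem (C.mul_mem (C.inv_mem hhC) (hUC hu)) (by simpa using hhC)
  by_cases hU₂S : U₂ = S
  · rw [← hU₂S]; exact hU₂C
  have hQeq : (S : Subgroup G) ⊓ (U₂ : Subgroup G) = Q :=
    le_antisymm (inf_le_inf_left _ hU₂C) (le_inf inf_le_left hQU₂)
  obtain ⟨U₃, hU₃⟩ := hCI S U₂ (Ne.symm hU₂S)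
  rw [hQeq] at hU₃
  have hcomm : ∀ u ∈ (U₃ : Subgroup G), ∀ q ∈ Q, u * q = q * u := by
    intro u hu q hq
    obtain ⟨z, hz, hzq⟩ := hU₃ hq
    have := Subgroup.mem_center_iff.mp hz ⟨u, hu⟩
    have h2 : u * (z : G) = z * u := congrArg Subtype.val this
    rw [← hzq]
    exact h2
  set N := Subgroup.normalizer (Q : Set G) with hN
  have hU₃N : (U₃ : Subgroup G) ≤ N := by
    intro u hu
    rw [hN, Subgroup.mem_normalizer_iff]
    intro q
    have hc : ∀ q' ∈ Q, u * q' * u⁻¹ = q' := fun q' hq' => by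
      rw [hcomm u hu q' hq']; group
    constructor
    · intro hq
      rw [hc q hq]; exact hq
    · intro hq
      have h1 := hc _ hq
      have h2 : u * q * u⁻¹ = q := by
        have h3 : u * (u * q * u⁻¹) * u⁻¹ = u * q * u⁻¹ := h1
        have h4 : u * (u * q * u⁻¹) * u⁻¹ = u * (u * q * u⁻¹ * u⁻¹) := by group
        rw [h4] at h3
        have h5 := mul_left_cancel (a := u) (b := u * q * u⁻¹ * u⁻¹) (c := q * u⁻¹) (by rw [h3]; group)
        exact mul_right_cancel h5
      rw [h2] at hq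
      exact hq
  set W := (S : Subgroup G) ⊓ N with hW
  have hWp : IsPGroup 2 ↥W := S.2.to_le inf_le_left
  obtain ⟨d, hdN, hd⟩ := hsyl N U₃ hU₃N W inf_le_right hWp
  have hxQ : x ∈ Q := Subgroup.mem_inf.mpr ⟨hxS, (hmemC x).mpr rfl⟩
  have hWQ : W ≤ Q := by
    intro w hw
    refine Subgroup.mem_inf.mpr ⟨(Subgroup.mem_inf.mp hw).1, ?_⟩
    rw [hmemC]
    have h1 := hd w hw
    have h2 : d * x * d⁻¹ ∈ Q := (Subgroup.mem_normalizer_iff.mp hdN x).mp hxQ
    have h3 := hcomm _ h1 _ h2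
    have h4 : d * (w * x) * d⁻¹ = d * (x * w) * d⁻¹ := by
      calc d * (w * x) * d⁻¹ = d * w * d⁻¹ * (d * x * d⁻¹) := by group
        _ = d * x * d⁻¹ * (d * w * d⁻¹) := h3
        _ = d * (x * w) * d⁻¹ := by group
    exact mul_left_cancel (mul_right_cancel h4)
  -- normalizer condition
  haveI : Group.IsNilpotent ↥(S : Subgroup G) := S.2.isNilpotent
  by_contra hne
  have hlt : Q.subgroupOf (S : Subgroup G) < ⊤ := by
    refine lt_top_iff_ne_top.mpr ?_
    intro htop
    apply hne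
    intro s hs
    have : (⟨s, hs⟩ : ↥(S : Subgroup G)) ∈ Q.subgroupOf (S : Subgroup G) := by rw [htop]; trivial
    exact (Subgroup.mem_inf.mp (Subgroup.mem_subgroupOf.mp this)).2
  obtain ⟨s, hsN, hsQ⟩ := SetLike.exists_of_lt (Group.normalizerCondition_of_isNilpotent _ hlt)
  apply hsQ
  apply Subgroup.mem_subgroupOf.mpr
  apply hWQ
  refine Subgroup.mem_inf.mpr ⟨s.2, ?_⟩
  rw [hN, Subgroup.mem_normalizer_iff]
  intro q
  by_cases hqS : q ∈ (S : Subgroup G)
  · have h0 := Subgroup.mem_normalizer_iff.mp hsN ⟨q, hqS⟩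
    rw [Subgroup.mem_subgroupOf, Subgroup.mem_subgroupOf] at h0
    exact h0
  · constructor
    · intro hq
      exact absurd (Subgroup.mem_inf.mp hq).1 hqS
    · intro hq
      exfalso
      apply hqS
      have h1 := (Subgroup.mem_inf.mp hq).1
      have h2 : q = (s : G)⁻¹ * ((s : G) * q * (s : G)⁻¹) * s := by group
      rw [h2]
      exact Subgroup.mul_mem _ (Subgroup.mul_mem _ (Subgroup.inv_mem _ s.2) h1) s.2

/-- Let G be a finite group in which the intersection of any two distinct Sylow 2-subgroups is contained in the centre of some Sylow 2-subgroup, and let S be a Sylow 2-subgroup. Then for every x in S the centralizer of x in S is a Sylow 2-subgroup of the centralizer of x in G (no 2-subgroup centralizing x is larger), and for every other Sylow 2-subgroup T the intersection S ∩ T lies in both the centre of S and the centre of T. -/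
theorem result {G : Type*} [Group G] [Finite G]
    (hCI : ∀ S T : Sylow 2 G, S ≠ T → ∃ U : Sylow 2 G,
      (S : Subgroup G) ⊓ (T : Subgroup G) ≤ (Subgroup.center ↥(U : Subgroup G)).map (U : Subgroup G).subtype)
    (S : Sylow 2 G) :
    (∀ x ∈ (S : Subgroup G), ∀ P : Subgroup G, IsPGroup 2 ↥P → P ≤ Subgroup.centralizer ({x} : Set G) →
        Nat.card ↥P ≤ Nat.card ↥((S : Subgroup G) ⊓ Subgroup.centralizer ({x} : Set G))) ∧
    (∀ T : Sylow 2 G, T ≠ S →
        (S : Subgroup G) ⊓ (T : Subgroup G) ≤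
          (Subgroup.center ↥(S : Subgroup G)).map (S : Subgroup G).subtype ⊓
            (Subgroup.center ↥(T : Subgroup G)).map (T : Subgroup G).subtype) := by
  classical
  haveI : Fact (Nat.Prime 2) := ⟨Nat.prime_two⟩
  refine ⟨?_, ?_⟩
  · intro x hx P hP hPC
    by_cases hcen : ∀ s ∈ (S : Subgroup G), s * x = x * s
    · have hSC : (S : Subgroup G) ≤ Subgroup.centralizer ({x} : Set G) := by
        intro s hs
        rw [Subgroup.mem_centralizer_iff]
        intro w hw
        rw [Set.mem_singleton_iff] at hw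
        rw [hw]; exact (hcen s hs).symm
      rw [inf_eq_left.mpr hSC]
      obtain ⟨R, hR⟩ := hP.exists_le_sylow
      calc Nat.card ↥P ≤ Nat.card ↥(R : Subgroup G) := Subgroup.card_le_of_le hR
        _ = Nat.card ↥(S : Subgroup G) := by
            rw [Sylow.card_eq_multiplicity, Sylow.card_eq_multiplicity]
    · have hnot : ∀ T : Sylow 2 G, x ∈ (T : Subgroup G) → T = S := by
        intro T hT
        by_contra hne
        exact hcen (key hCI (Ne.symm hne) hx hT)
      have hzp : IsPGroup 2 ↥(Subgroup.zpowers x) := S.2.to_le (by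
        rw [Subgroup.zpowers_le]; exact hx)
      have hPN : P ≤ Subgroup.normalizer ((Subgroup.zpowers x : Subgroup G) : Set G) := by
        refine Subgroup.le_normalizer_iff.mpr ?_
        intro g hg c hc
        obtain ⟨k, rfl⟩ := Subgroup.mem_zpowers_iff.mp hc
        have h1 : g * x = x * g := (Subgroup.mem_centralizer_iff.mp (hPC hg) x rfl).symm
        rw [conj_zpow.symm]
        have : g * x * g⁻¹ = x := by rw [h1]; group
        rw [this]
        exact Subgroup.zpow_mem_zpowers x k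
      have hsup := hzp.to_sup_of_normal_left' hP hPN
      obtain ⟨T, hT⟩ := hsup.exists_le_sylow
      have hTS := hnot T (hT (Subgroup.mem_sup_left (Subgroup.mem_zpowers x)))
      rw [hTS] at hT
      exact Subgroup.card_le_of_le (le_inf (le_sup_right.trans hT) hPC)
  · intro T hT x hx
    obtain ⟨hxS, hxT⟩ := Subgroup.mem_inf.mp hx
    refine Subgroup.mem_inf.mpr ⟨⟨⟨x, hxS⟩, Subgroup.mem_center_iff.mpr fun s => ?_, rfl⟩,
      ⟨⟨x, hxT⟩, Subgroup.mem_center_iff.mpr fun s => ?_, rfl⟩⟩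
    · apply Subtype.ext
      exact key hCI (Ne.symm hT) hxS hxT s s.2
    · apply Subtype.ext
      exact key hCI hT hxT hxS s s.2

end Cfsg.Agent.S3183
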