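import Cfsg.Statements.S3184
import Mathlib
import Cfsg.Agent.Lib.H9ZW

set_option autoImplicit false
open Cfsg

namespace Cfsg.Agent.S3184

open Cfsg.Agent.Lib.H9ZW Cfsg.Agent.Lib.H9ZS Subgroup

theorem invol_unique {X : Type*} [Group X] [Finite X] [IsCyclic X] {a b : X} (ha : a * a = 1) (hb : b * b = 1) (ha1 : a ≠ 1) (hb1 : b ≠ 1) : a = b := by
  classical
  haveI := Fintype.ofFinite X
  by_contra hab
  have h2 := IsCyclic.card_pow_eq_one_le (α := X) (n := 2) (by norm_num)
  have h3 : ({1, a, b} : Finset X) ⊆ Finset.univ.filter (fun x : X => x ^ 2 = 1) := by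
    intro x hx
    simp only [Finset.mem_insert, Finset.mem_singleton] at hx
    simp only [Finset.mem_filter, Finset.mem_univ, true_and, pow_two]
    rcases hx with rfl | rfl | rfl
    · simp
    · exact ha
    · exact hb
  have h4 := Finset.card_le_card h3
  have h5 : ({1, a, b} : Finset X).card = 3 := by
    rw [Finset.card_insert_of_notMem, Finset.card_insert_of_notMem, Finset.card_singleton]
    · simp [hab]
    · simp [ha1.symm, hb1.symm]
  omega

theorem weak_closed {G : Type*} [Group G] [Finite G]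
    (hCI : ∀ S T : Sylow 2 G, S ≠ T → ∃ U : Sylow 2 G,
      (S : Subgroup G) ⊓ (T : Subgroup G) ≤ (Subgroup.center ↥(U : Subgroup G)).map (U : Subgroup G).subtype)
    (S : Sylow 2 G) (C : Subgroup ↥(S : Subgroup G)) (hCc : IsCyclic ↥C) (hCh : C.Characteristic)
    (c : ↥(S : Subgroup G)) (hc : c ∈ C) (hc2 : orderOf c = 2) (g : G) (hg : g * (c : G) * g⁻¹ ∈ (S : Subgroup G)) :
    g * (c : G) * g⁻¹ = c := by
  classical
  haveI : Fact (Nat.Prime 2) := ⟨Nat.prime_two⟩
  have hcc : c * c = 1 := by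
    have := pow_orderOf_eq_one c
    rw [hc2, pow_two] at this
    exact this
  have hc1 : c ≠ 1 := by
    rintro rfl
    rw [orderOf_one] at hc2
    omega
  have huniq : ∀ b ∈ C, b * b = 1 → b ≠ 1 → b = c := by
    intro b hb hbb hb1
    have : (⟨b, hb⟩ : C) = ⟨c, hc⟩ := invol_unique (Subtype.ext hbb) (Subtype.ext hcc)
      (fun h => hb1 (congrArg Subtype.val h)) (fun h => hc1 (congrArg Subtype.val h))
    exact congrArg Subtype.val this
  haveI hCn : C.Normal := Subgroup.normal_of_characteristic C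
  -- `c` is central in `S`
  have hcen : ∀ s ∈ (S : Subgroup G), s * (c : G) = c * s := by
    intro s hs
    have h1 := hCn.conj_mem c hc ⟨s, hs⟩
    have h2 := huniq _ h1 (by
      calc (⟨s, hs⟩ : (S : Subgroup G)) * c * (⟨s, hs⟩ : (S : Subgroup G))⁻¹ * ((⟨s, hs⟩ : (S : Subgroup G)) * c * (⟨s, hs⟩ : (S : Subgroup G))⁻¹)
          = (⟨s, hs⟩ : (S : Subgroup G)) * (c * c) * (⟨s, hs⟩ : (S : Subgroup G))⁻¹ := by group
        _ = 1 := by rw [hcc]; group) (by
      intro e
      apply hc1
      have : c = (⟨s, hs⟩ : (S : Subgroup G))⁻¹ * ((⟨s, hs⟩ : (S : Subgroup G)) * c * (⟨s, hs⟩ : (S : Subgroup G))⁻¹) * (⟨s, hs⟩ : (S : Subgroup G)) := by group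
      rw [this, e]; group)
    have h3 : s * (c : G) * s⁻¹ = c := congrArg Subtype.val h2
    calc s * (c : G) = (s * (c : G) * s⁻¹) * s := by group
      _ = c * s := by rw [h3]
  set d : G := g * (c : G) * g⁻¹ with hd
  have hdT : ∀ t ∈ ((g • S : Sylow 2 G) : Subgroup G), t * d = d * t := by
    intro t ht
    have h1 := hcen _ ((mem_smul S g t).mp ht)
    calc t * d = g * ((g⁻¹ * t * g) * (c : G)) * g⁻¹ := by rw [hd]; group
      _ = g * ((c : G) * (g⁻¹ * t * g)) * g⁻¹ := by rw [h1]
      _ = d * t := by rw [hd]; group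
  have hle : ((g • S : Sylow 2 G) : Subgroup G) ≤ centralizer ({d} : Set G) := fun t ht =>
    Subgroup.mem_centralizer_singleton_iff.mpr (hdT t ht)
  have hP2 : IsPGroup 2 (((S : Subgroup G) ⊓ centralizer ({d} : Set G)).subgroupOf (centralizer ({d} : Set G))) :=
    (S.2.to_le inf_le_left).comap_subtype
  obtain ⟨x, hx⟩ := Cfsg.Agent.Lib.SylowTools.exists_conj_le_sylow ((g • S : Sylow 2 G).subtype hle) hP2
  have hxd : (x : G) * d = d * x := Subgroup.mem_centralizer_singleton_iff.mp x.2
  set g' : G := (x : G)⁻¹ * g with hg'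
  have hg'c : g' * (c : G) * g'⁻¹ = d := by
    calc g' * (c : G) * g'⁻¹ = (x : G)⁻¹ * (g * (c : G) * g⁻¹) * x := by rw [hg']; group
      _ = (x : G)⁻¹ * d * x := rfl
      _ = (x : G)⁻¹ * (x * d) := by rw [hxd]; group
      _ = d := by group
  have hPT : ∀ a ∈ (S : Subgroup G), a * d = d * a → a ∈ ((g' • S : Sylow 2 G) : Subgroup G) := by
    intro a ha had
    have haC : a ∈ centralizer ({d} : Set G) := Subgroup.mem_centralizer_singleton_iff.mpr had
    have h1 := hx ⟨⟨a, haC⟩, Subgroup.mem_subgroupOf.mpr ⟨ha, haC⟩, rfl⟩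
    rw [Sylow.coe_subtype] at h1
    have h2 := Subgroup.mem_subgroupOf.mp h1
    have h3 : (x : G) * a * (x : G)⁻¹ ∈ ((g • S : Sylow 2 G) : Subgroup G) := h2
    rw [mem_smul] at h3 ⊢
    have e : g'⁻¹ * a * g' = g⁻¹ * ((x : G) * a * (x : G)⁻¹) * g := by rw [hg']; group
    rw [e]; exact h3
  have hdT' : d ∈ ((g' • S : Sylow 2 G) : Subgroup G) := by
    rw [mem_smul]
    have e : g'⁻¹ * d * g' = c := by
      calc g'⁻¹ * d * g' = g'⁻¹ * (g' * (c : G) * g'⁻¹) * g' := by rw [hg'c]
        _ = c := by group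
    rw [e]; exact c.2
  by_cases hSS : (g' • S : Sylow 2 G) = S
  · -- the normalizer case
    have hmap : (S : Subgroup G).map (MulAut.conj g').toMonoidHom = (S : Subgroup G) := by
      ext y
      constructor
      · rintro ⟨a, ha, rfl⟩
        rw [← hSS, mem_smul]
        simp only [MulEquiv.coe_toMonoidHom, MulAut.conj_apply]
        have : g'⁻¹ * (g' * a * g'⁻¹) * g' = a := by group
        rw [this]; exact ha
      · intro hy
        rw [← hSS, mem_smul] at hy
        exact ⟨_, hy, by simp only [MulEquiv.coe_toMonoidHom, MulAut.conj_apply]; group⟩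
    let φ : (S : Subgroup G) ≃* (S : Subgroup G) := ((MulAut.conj g').subgroupMap (S : Subgroup G)).trans (MulEquiv.subgroupCongr hmap)
    have h1 : φ c ∈ C := by
      have h2 : c ∈ C.comap φ.toMonoidHom := by
        rw [hCh.fixed φ]; exact hc
      exact h2
    have h3 : ((φ c : (S : Subgroup G)) : G) = d := hg'c
    have h4 : φ c = c := huniq _ h1 (by rw [← map_mul, hcc, map_one]) (by
      intro e
      apply hc1
      exact (map_eq_one_iff φ φ.injective).mp e)
    rw [← h3, h4]
  · exfalso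
    obtain ⟨U, hU⟩ := hCI S (g' • S) (Ne.symm hSS)
    set Q : Subgroup G := (S : Subgroup G) ⊓ ((g' • S : Sylow 2 G) : Subgroup G) with hQ
    have hQU : ∀ q ∈ Q, q ∈ (U : Subgroup G) ∧ ∀ u ∈ (U : Subgroup G), u * q = q * u := by
      intro q hq
      obtain ⟨w, hw, rfl⟩ := hU hq
      refine ⟨w.2, ?_⟩
      intro u hu
      exact congrArg Subtype.val (Subgroup.mem_center_iff.mp hw ⟨u, hu⟩)
    have hdQ : d ∈ Q := Subgroup.mem_inf.mpr ⟨hg, hdT'⟩
    have hQd : ∀ a ∈ (S : Subgroup G), a * d = d * a → a ∈ Q := fun a ha had => Subgroup.mem_inf.mpr ⟨ha, hPT a ha had⟩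
    have hlt : Q < (S : Subgroup G) := by
      refine lt_of_le_of_ne inf_le_left ?_
      intro e
      apply hSS
      have hle' : (S : Subgroup G) ≤ ((g' • S : Sylow 2 G) : Subgroup G) := by
        rw [← e]; exact inf_le_right
      have := Subgroup.eq_of_le_of_card_ge hle' (by rw [card_T])
      exact Sylow.ext this.symm
    obtain ⟨y, hy, hyQ⟩ := SetLike.exists_of_lt (grow S.2 hlt)
    have hyS : y ∈ (S : Subgroup G) := (Subgroup.mem_inf.mp hy).1
    have hyN : y ∈ normalizer (Q : Set G) := (Subgroup.mem_inf.mp hy).2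
    have hUN : (U : Subgroup G) ≤ normalizer (Q : Set G) := by
      intro u hu
      rw [Subgroup.mem_normalizer_iff]
      intro q
      constructor
      · intro hq
        have h1 := (hQU q hq).2 u hu
        have e : u * q * u⁻¹ = q := by rw [h1]; group
        rw [e]; exact hq
      · intro hq
        have h1 := (hQU _ hq).2 u hu
        have h2 : u * (u * q * u⁻¹) = (u * q * u⁻¹) * u := h1
        have h3 : u * q * u⁻¹ * u = u * q := by group
        rw [h3] at h2
        have h4 : u * q * u⁻¹ = q := mul_left_cancel h2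
        rw [h4] at hq; exact hq
    obtain ⟨k, hk⟩ := S.2 ⟨y, hyS⟩
    have hk' : y ^ 2 ^ k = 1 := congrArg Subtype.val hk
    obtain ⟨h, hh⟩ := Cfsg.Agent.Lib.PNilp.exists_conj_mem_sylow (U.subtype hUN) (⟨y, hyN⟩ : normalizer (Q : Set G)) ⟨k, Subtype.ext hk'⟩
    have hh1 : (h * (⟨y, hyN⟩ : normalizer (Q : Set G)) * h⁻¹ : normalizer (Q : Set G)) ∈ ((U.subtype hUN : Sylow 2 (normalizer (Q : Set G))) : Subgroup (normalizer (Q : Set G))) := hh
    rw [Sylow.coe_subtype] at hh1
    have hh' : (h : G) * y * (h : G)⁻¹ ∈ (U : Subgroup G) := Subgroup.mem_subgroupOf.mp hh1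
    have hqd : (h : G) * d * (h : G)⁻¹ ∈ Q := (Subgroup.mem_normalizer_iff.mp h.2 d).mp hdQ
    have h1 := (hQU _ hqd).2 _ hh'
    have h2 : y * d = d * y := by
      have e1 : (h : G) * y * (h : G)⁻¹ * ((h : G) * d * (h : G)⁻¹) = (h : G) * (y * d) * (h : G)⁻¹ := by group
      have e2 : (h : G) * d * (h : G)⁻¹ * ((h : G) * y * (h : G)⁻¹) = (h : G) * (d * y) * (h : G)⁻¹ := by group
      rw [e1, e2] at h1
      simpa using h1
    exact hyQ (hQd y hyS h2)

/-- Let G be a finite group in which the intersection of any two distinct Sylow 2-subgroups is contained in the centre of some Sylow 2-subgroup, and let S be a Sylow 2-subgroup. If C is a nontrivial cyclic characteristic subgroup of S, then the involution of C is central modulo the largest normal subgroup of odd order of G: each of its conjugates has the same image in G/O(G). -/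
theorem result {G : Type*} [Group G] [Finite G]
    (hCI : ∀ S T : Sylow 2 G, S ≠ T → ∃ U : Sylow 2 G,
      (S : Subgroup G) ⊓ (T : Subgroup G) ≤ (Subgroup.center ↥(U : Subgroup G)).map (U : Subgroup G).subtype)
    (S : Sylow 2 G) (C : Subgroup ↥(S : Subgroup G)) (hC : C ≠ ⊥) (hCc : IsCyclic ↥C) (hCh : C.Characteristic)
    (c : ↥(S : Subgroup G)) (hc : c ∈ C) (hc2 : orderOf c = 2) :
    ∀ g : G, (QuotientGroup.mk (s := Cfsg.oddCore G) (g * (c : G) * g⁻¹)) =
      QuotientGroup.mk (s := Cfsg.oddCore G) (c : G) := by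
  classical
  haveI : Fact (Nat.Prime 2) := ⟨Nat.prime_two⟩
  have hcc : (c : G) * c = 1 := by
    have h1 : c * c = 1 := by
      have := pow_orderOf_eq_one c
      rw [hc2, pow_two] at this
      exact this
    exact congrArg Subtype.val h1
  have hzo : orderOf (c : G) = 2 := by rw [Subgroup.orderOf_coe]; exact hc2
  have hiso := isolated_of_sylow S hzo c.2 (fun g hg => weak_closed hCI S C hCc hCh c hc hc2 g hg)
  intro g
  have h1 := zstar G _ hzo hiso g
  have h2 : (QuotientGroup.mk' (Cfsg.oddCore G)) ((c : G) * g * (c : G)⁻¹ * g⁻¹) = 1 := (QuotientGroup.eq_one_iff _).mpr h1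
  simp only [map_mul, map_inv] at h2
  have h3 : (QuotientGroup.mk' (Cfsg.oddCore G)) (c : G) * (QuotientGroup.mk' (Cfsg.oddCore G)) g = (QuotientGroup.mk' (Cfsg.oddCore G)) g * (QuotientGroup.mk' (Cfsg.oddCore G)) (c : G) := by
    have := mul_inv_eq_one.mp h2
    exact (mul_inv_eq_iff_eq_mul.mp this)
  show (QuotientGroup.mk' (Cfsg.oddCore G)) (g * (c : G) * g⁻¹) = (QuotientGroup.mk' (Cfsg.oddCore G)) (c : G)
  simp only [map_mul, map_inv]
  rw [← h3]
  group

end Cfsg.Agent.S3184
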