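import Cfsg.Statements.S3190
import Mathlib
import Cfsg.Agent.Lib.CopAb
import Cfsg.Agent.Lib.H1Frat

set_option autoImplicit false
open Cfsg

namespace Cfsg.Agent.S3190

open Cfsg.Agent.Lib.CopAb Cfsg.Agent.Lib.H1Cop Cfsg.Agent.Lib.H1Frat
open scoped commutatorElement

/-- Let p be an odd prime and, inside a finite group, let P be a p-subgroup normalized by a Klein four-group T. Let R be a subgroup of P, normal in P and normalized by T, such that P is the product of R with the centralizer of T in P. If T centralizes the centre of P, then T centralizes the centre of R. -/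
theorem result {X : Type*} [Group X] [Finite X]
    {p : ℕ} (hp : p.Prime) (hodd : Odd p) (P T R : Subgroup X) (hP : IsPGroup p ↥P) (hT : IsKleinFour ↥T)
    (hTP : T ≤ Subgroup.normalizer (P : Set X)) (hRP : R ≤ P) (hRn : (R.subgroupOf P).Normal)
    (hTR : T ≤ Subgroup.normalizer (R : Set X)) (hfac : R ⊔ (P ⊓ Subgroup.centralizer (T : Set X)) = P)
    (hZ : T ≤ Subgroup.centralizer (((Subgroup.center ↥P).map P.subtype : Subgroup X) : Set X)) :
    T ≤ Subgroup.centralizer (((Subgroup.center ↥R).map R.subtype : Subgroup X) : Set X) := by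
  classical
  haveI : Fact p.Prime := ⟨hp⟩
  set Z : Subgroup X := (Subgroup.center ↥R).map R.subtype with hZdef
  have hZR : Z ≤ R := Subgroup.map_subtype_le _
  have hRc : ∀ r ∈ R, ∀ z ∈ Z, r * z = z * r := by
    rintro r hr _ ⟨z, hz, rfl⟩
    have := Subgroup.mem_center_iff.mp hz ⟨r, hr⟩
    exact congrArg Subtype.val this
  have hZc : ∀ a ∈ Z, ∀ b ∈ Z, a * b = b * a := fun a ha b hb => hRc a (hZR ha) b hb
  have hNZ : ∀ g, g ∈ Subgroup.normalizer (R : Set X) → ∀ z ∈ Z, g * z * g⁻¹ ∈ Z := by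
    intro g hg z hz
    have hz' : g * z * g⁻¹ ∈ R := (Subgroup.mem_normalizer_iff.mp hg z).mp (hZR hz)
    refine ⟨⟨_, hz'⟩, Subgroup.mem_center_iff.mpr fun r => ?_, rfl⟩
    apply Subtype.ext
    show (r : X) * (g * z * g⁻¹) = g * z * g⁻¹ * r
    have hg' : g⁻¹ ∈ Subgroup.normalizer (R : Set X) := Subgroup.inv_mem _ hg
    have h1 : g⁻¹ * r * g ∈ R := by
      have := (Subgroup.mem_normalizer_iff.mp hg' r).mp r.2
      simpa using this
    have h2 := hRc _ h1 z hz
    calc (r : X) * (g * z * g⁻¹) = g * ((g⁻¹ * r * g) * z) * g⁻¹ := by group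
      _ = g * (z * (g⁻¹ * r * g)) * g⁻¹ := by rw [h2]
      _ = g * z * g⁻¹ * r := by group
  have hPN : P ≤ Subgroup.normalizer (R : Set X) :=
    (Subgroup.normal_subgroupOf_iff_le_normalizer hRP).mp hRn
  have hTZ : T ≤ Subgroup.normalizer (Z : Set X) :=
    Subgroup.le_normalizer_iff.mpr fun t ht z hz => hNZ t (hTR ht) z hz
  have hPZ : P ≤ Subgroup.normalizer (Z : Set X) :=
    Subgroup.le_normalizer_iff.mpr fun t ht z hz => hNZ t (hPN ht) z hz
  have hZp : IsPGroup p ↥Z := hP.to_le (hZR.trans hRP)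
  have hcop : (Nat.card ↥T).Coprime (Nat.card ↥Z) := by
    have hT4 : Nat.card ↥T = 4 := hT.card_four
    obtain ⟨k, hk⟩ := IsPGroup.iff_card.mp hZp
    rw [hT4, hk]
    apply Nat.Coprime.pow_right
    have hp2 : p ≠ 2 := by
      rintro rfl
      exact absurd hodd (by decide)
    have : Nat.Coprime 2 p := (Nat.coprime_primes Nat.prime_two hp).mpr (Ne.symm hp2)
    have h4 : (4 : ℕ) = 2 ^ 2 := by norm_num
    rw [h4]
    exact Nat.Coprime.pow_left 2 this
  set W : Subgroup X := ⁅Z, T⁆ with hW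
  have hWZ : W ≤ Z := commutator_le_left hTZ
  have hWP : W ≤ P := hWZ.trans (hZR.trans hRP)
  have hcN : P ⊓ Subgroup.centralizer (T : Set X) ≤ Subgroup.normalizer (R : Set X) := inf_le_left.trans hPN
  have hPW : P ≤ Subgroup.normalizer (W : Set X) := by
    refine Subgroup.le_normalizer_iff.mpr fun g hg w hw => ?_
    have hg' : g ∈ R ⊔ (P ⊓ Subgroup.centralizer (T : Set X)) := by rw [hfac]; exact hg
    obtain ⟨r, hr, c, hc, rfl⟩ := (mem_sup_iff hcN).mp hg'
    have hcW : c * w * c⁻¹ ∈ W := by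
      have hle : W ≤ W.comap (MulAut.conj c).toMonoidHom := by
        rw [hW, Subgroup.commutator_le]
        intro z hz t ht
        rw [Subgroup.mem_comap]
        show c * ⁅z, t⁆ * c⁻¹ ∈ ⁅Z, T⁆
        have hct : c * t * c⁻¹ = t := by
          have := Subgroup.mem_centralizer_iff.mp (Subgroup.mem_inf.mp hc).2 t ht
          rw [← this]; group
        have e : c * ⁅z, t⁆ * c⁻¹ = ⁅c * z * c⁻¹, t⁆ := by
          conv_rhs => rw [← hct]
          simp only [commutatorElement_def]
          group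
        rw [e]
        exact Subgroup.commutator_mem_commutator (hNZ c (hcN hc) z hz) ht
      exact hle hw
    have h1 := hRc r hr _ (hWZ hcW)
    have e : (r * c) * w * (r * c)⁻¹ = c * w * c⁻¹ := by
      calc (r * c) * w * (r * c)⁻¹ = (r * (c * w * c⁻¹)) * r⁻¹ := by group
        _ = ((c * w * c⁻¹) * r) * r⁻¹ := by rw [h1]
        _ = c * w * c⁻¹ := by group
    rw [e]
    exact hcW
  haveI hW₁n : (W.subgroupOf P).Normal := (Subgroup.normal_subgroupOf_iff_le_normalizer hWP).mpr hPW
  haveI : Group.IsNilpotent ↥P := hP.isNilpotent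
  have hW₁ : W.subgroupOf P = ⊥ := by
    by_contra hne
    have hne2 := normal_inf_center_ne_bot (W.subgroupOf P) hne
    obtain ⟨w, hw, hw1⟩ := (Subgroup.bot_or_exists_ne_one _).resolve_left hne2
    obtain ⟨hw2, hw3⟩ := Subgroup.mem_inf.mp hw
    have hwW : (w : X) ∈ W := Subgroup.mem_subgroupOf.mp hw2
    have hfix : ∀ t ∈ T, t * (w : X) * t⁻¹ = w := by
      intro t ht
      have h1 := Subgroup.mem_centralizer_iff.mp (hZ ht) (w : X) ⟨w, hw3, rfl⟩
      rw [← h1]; group
    have h2 := commutator_inf_fixed hTZ hZc hcop hwW hfix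
    exact hw1 (Subtype.ext h2)
  have hWbot : W = ⊥ := by
    rw [eq_bot_iff]
    intro w hw
    have : (⟨w, hWP hw⟩ : ↥P) ∈ W.subgroupOf P := Subgroup.mem_subgroupOf.mpr hw
    rw [hW₁, Subgroup.mem_bot] at this
    rw [Subgroup.mem_bot]
    exact congrArg Subtype.val this
  intro t ht
  rw [Subgroup.mem_centralizer_iff]
  intro z hz
  have h1 : ⁅z, t⁆ ∈ W := Subgroup.commutator_mem_commutator hz ht
  rw [hWbot, Subgroup.mem_bot] at h1
  exact commutatorElement_eq_one_iff_mul_comm.mp h1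

end Cfsg.Agent.S3190
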