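import Cfsg.Statements.S3195
import Mathlib
import Cfsg.Agent.Lib.Invol
import Cfsg.Agent.Lib.InvolSylow
import Cfsg.Agent.Lib.BaerSuzuki
import Cfsg.Agent.Lib.H1Quat
import Cfsg.Agent.Lib.H1Core

set_option autoImplicit false
open Cfsg

namespace Cfsg.Agent.S3195

open Cfsg Cfsg.Agent.Lib Cfsg.Agent.Lib.H1Core

section
variable {G : Type*} [Group G] [Finite G]

lemma odd_sq_eq_one {v : G} (hv : Odd (orderOf v)) {k : ℕ} (h : v ^ 2 ^ k = 1) : v = 1 := by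
  have h1 := orderOf_dvd_of_pow_eq_one h
  have h2 : (orderOf v).Coprime (2 ^ k) := Nat.Coprime.pow_right _ (Nat.coprime_two_right.mpr hv)
  exact orderOf_eq_one_iff.mp (Nat.eq_one_of_dvd_coprimes h2 dvd_rfl h1)

lemma comm_of_pow {v w : G} (hv : Odd (orderOf v)) (hw : Odd (orderOf w)) {i j : ℕ}
    (h : v ^ 2 ^ i * w ^ 2 ^ j = w ^ 2 ^ j * v ^ 2 ^ i) : v * w = w * v := by
  have h1 : v ∈ Subgroup.zpowers (v ^ 2 ^ i) := H1Quat.mem_zpowers_pow_of_coprime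
    (Nat.Coprime.pow_left _ (Nat.coprime_two_left.mpr hv))
  have h2 : w ∈ Subgroup.zpowers (w ^ 2 ^ j) := H1Quat.mem_zpowers_pow_of_coprime
    (Nat.Coprime.pow_left _ (Nat.coprime_two_left.mpr hw))
  have h3 : w ^ 2 ^ j * v = v * w ^ 2 ^ j :=
    H1Quat.commute_of_mem_zpowers h.symm h1
  exact H1Quat.commute_of_mem_zpowers h3.symm h2

/-- The key dichotomy for two commuting-type elements. -/
lemma step3 (A : Subgroup G) (hsq : ∀ a ∈ A, a * a = 1) (hcomm : ∀ a ∈ A, ∀ b ∈ A, a * b = b * a)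
    (hthree : ∀ e ∈ A, ∀ f ∈ A, e ≠ 1 → f ≠ 1 → e ≠ f → ∀ z ∈ A, z = 1 ∨ z = e ∨ z = f ∨ z = e * f)
    (hyp : ∀ a ∈ A, a ≠ 1 → ∀ g : G, ∃ d ∈ A, d ≠ 1 ∧ d * (g * a * g⁻¹) = (g * a * g⁻¹) * d)
    {a b y₁ y₂ : G} (ha : a ∈ A) (hb : b ∈ A) (ha1 : a ≠ 1) (hb1 : b ≠ 1) (hab : a ≠ b)
    (hy₁ : Odd (orderOf y₁)) (hy₂ : Odd (orderOf y₂)) (hy₁1 : y₁ ≠ 1) (hy₂1 : y₂ ≠ 1)
    (h1 : a * y₁ * a⁻¹ = y₁) (h2 : a * y₂ * a⁻¹ = y₂⁻¹) (h3 : b * y₁ * b⁻¹ = y₁⁻¹) (h4 : b * y₂ * b⁻¹ = y₂) :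
    False := by
  have hainv : a⁻¹ = a := inv_eq_of_mul_eq_one_left (hsq a ha)
  have hbinv : b⁻¹ = b := inv_eq_of_mul_eq_one_left (hsq b hb)
  set c := a * b with hc
  have hcA : c ∈ A := A.mul_mem ha hb
  have hcinv : c⁻¹ = c := inv_eq_of_mul_eq_one_left (hsq c hcA)
  -- conjugation homomorphisms
  have κ : ∀ (d x y : G), d * (x * y) * d⁻¹ = (d * x * d⁻¹) * (d * y * d⁻¹) := fun d x y => by group
  have κi : ∀ (d x : G), d * x⁻¹ * d⁻¹ = (d * x * d⁻¹)⁻¹ := fun d x => by group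
  have h5 : c * y₁ * c⁻¹ = y₁⁻¹ := by
    calc c * y₁ * c⁻¹ = a * (b * y₁ * b⁻¹) * a⁻¹ := by rw [hc]; group
      _ = y₁⁻¹ := by rw [h3, κi, h1]
  have h6 : c * y₂ * c⁻¹ = y₂⁻¹ := by
    calc c * y₂ * c⁻¹ = a * (b * y₂ * b⁻¹) * a⁻¹ := by rw [hc]; group
      _ = y₂⁻¹ := by rw [h4, h2]
  -- a useful reformulation
  have hreduce : ∀ (d e z : G), d ∈ A → e ∈ A → d * (z * e) = (z * e) * d → d * z * d⁻¹ = z := by
    intro d e z hd he hx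
    have h7 : d * e = e * d := hcomm d hd e he
    calc d * z * d⁻¹ = (d * (z * e)) * (e⁻¹ * d⁻¹) := by group
      _ = ((z * e) * d) * (e⁻¹ * d⁻¹) := by rw [hx]
      _ = z := by
        have h8 : e * d * (e⁻¹ * d⁻¹) = 1 := by
          rw [← h7]; group
        calc z * e * d * (e⁻¹ * d⁻¹) = z * (e * d * (e⁻¹ * d⁻¹)) := by group
          _ = z := by rw [h8, mul_one]
  -- elements of `A`
  have hall := hthree a ha b hb ha1 hb1 hab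
  -- commute
  have hcom : y₁ * y₂ = y₂ * y₁ := by
    set z' := y₁⁻¹ * (y₂ ^ 2)⁻¹ * y₁ with hz'
    have hx : y₁⁻¹ * y₂⁻¹ * a * (y₁⁻¹ * y₂⁻¹)⁻¹ = z' * a := by
      have e1 : y₂⁻¹ * a * y₂ = (y₂ ^ 2)⁻¹ * a := by
        have h7 : a * y₂ = y₂⁻¹ * a := by
          rw [← h2]; group
        calc y₂⁻¹ * a * y₂ = y₂⁻¹ * (a * y₂) := by group
          _ = y₂⁻¹ * (y₂⁻¹ * a) := by rw [h7]
          _ = (y₂ ^ 2)⁻¹ * a := by rw [pow_two]; group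
      have e2 : y₁⁻¹ * a * y₁ = a := by
        have h7 : a * y₁ = y₁ * a := by
          rw [mul_inv_eq_iff_eq_mul] at h1
          exact h1
        rw [mul_assoc, h7]; group
      calc y₁⁻¹ * y₂⁻¹ * a * (y₁⁻¹ * y₂⁻¹)⁻¹ = y₁⁻¹ * (y₂⁻¹ * a * y₂) * y₁ := by group
        _ = y₁⁻¹ * ((y₂ ^ 2)⁻¹ * a) * y₁ := by rw [e1]
        _ = z' * (y₁⁻¹ * a * y₁) := by rw [hz']; group
        _ = z' * a := by rw [e2]
    obtain ⟨d, hd, hd1, hdx⟩ := hyp a ha ha1 (y₁⁻¹ * y₂⁻¹)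
    rw [hx] at hdx
    have hκ := hreduce d a z' hd ha hdx
    rcases hall d hd with hd0 | hd0 | hd0 | hd0
    · exact absurd hd0 hd1
    · -- `d = a`
      exfalso
      rw [hd0] at hκ
      have e1 : a * z' * a⁻¹ = y₁⁻¹ * y₂ ^ 2 * y₁ := by
        have : a * y₂ ^ 2 * a⁻¹ = (y₂⁻¹) ^ 2 := by rw [← conj_pow, h2]
        rw [hz', κ, κ, κi, κi, h1, this, inv_pow, inv_inv]
      rw [e1, hz'] at hκ
      have e2 : y₂ ^ 2 = (y₂ ^ 2)⁻¹ := by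
        have := congrArg (fun w => y₁ * w * y₁⁻¹) hκ
        simpa [mul_assoc] using this
      apply hy₂1
      apply odd_sq_eq_one hy₂ (k := 2)
      have e3 : y₂ ^ 2 ^ 2 = y₂ ^ 2 * y₂ ^ 2 := by show y₂ ^ 4 = _; rw [← pow_add]
      rw [e3]
      nth_rw 1 [e2]
      group
    · -- `d = b`
      rw [hd0] at hκ
      have e1 : b * z' * b⁻¹ = y₁ * (y₂ ^ 2)⁻¹ * y₁⁻¹ := by
        rw [hz', κ, κ, κi, h3, κi]
        have : b * y₂ ^ 2 * b⁻¹ = y₂ ^ 2 := by rw [← conj_pow, h4]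
        rw [this, inv_inv]
      rw [e1, hz'] at hκ
      have e2 : y₁ ^ 2 * y₂ ^ 2 = y₂ ^ 2 * y₁ ^ 2 := by
        have e3 : y₁ ^ 2 * (y₂ ^ 2)⁻¹ * (y₁ ^ 2)⁻¹ = (y₂ ^ 2)⁻¹ := by
          calc y₁ ^ 2 * (y₂ ^ 2)⁻¹ * (y₁ ^ 2)⁻¹ = y₁ * (y₁ * (y₂ ^ 2)⁻¹ * y₁⁻¹) * y₁⁻¹ := by
                rw [pow_two]; group
            _ = y₁ * (y₁⁻¹ * (y₂ ^ 2)⁻¹ * y₁) * y₁⁻¹ := by rw [hκ]
            _ = (y₂ ^ 2)⁻¹ := by group
        have e4 : y₁ ^ 2 * y₂ ^ 2 * (y₁ ^ 2)⁻¹ = y₂ ^ 2 := by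
          have := congrArg (fun w => w⁻¹) e3
          simpa [mul_assoc] using this
        rw [mul_inv_eq_iff_eq_mul] at e4
        exact e4
      exact comm_of_pow (i := 1) (j := 1) hy₁ hy₂ (by simpa using e2)
    · -- `d = c`
      exfalso
      rw [hd0] at hκ
      have e1 : (a * b) * z' * (a * b)⁻¹ = y₁ * y₂ ^ 2 * y₁⁻¹ := by
        have : (a * b) * y₂ ^ 2 * (a * b)⁻¹ = (y₂⁻¹) ^ 2 := by rw [← conj_pow, ← hc, h6]
        rw [hz', κ, κ, κi, κi, ← hc, h5, this, inv_pow, inv_inv, inv_inv]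
      rw [e1, hz'] at hκ
      -- `y₁²` inverts `y₂²`
      have e2 : y₁ ^ 2 * y₂ ^ 2 * (y₁ ^ 2)⁻¹ = (y₂ ^ 2)⁻¹ := by
        calc y₁ ^ 2 * y₂ ^ 2 * (y₁ ^ 2)⁻¹ = y₁ * (y₁ * y₂ ^ 2 * y₁⁻¹) * y₁⁻¹ := by rw [pow_two y₁]; group
          _ = y₁ * (y₁⁻¹ * (y₂ ^ 2)⁻¹ * y₁) * y₁⁻¹ := by rw [hκ]
          _ = (y₂ ^ 2)⁻¹ := by group
      have e3 : y₁ ^ 4 * y₂ ^ 2 * (y₁ ^ 4)⁻¹ = y₂ ^ 2 := by
        have e4 : y₁ ^ 4 = y₁ ^ 2 * y₁ ^ 2 := by rw [← pow_add]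
        calc y₁ ^ 4 * y₂ ^ 2 * (y₁ ^ 4)⁻¹ = y₁ ^ 2 * (y₁ ^ 2 * y₂ ^ 2 * (y₁ ^ 2)⁻¹) * (y₁ ^ 2)⁻¹ := by rw [e4]; group
          _ = y₁ ^ 2 * (y₂ ^ 2)⁻¹ * (y₁ ^ 2)⁻¹ := by rw [e2]
          _ = (y₁ ^ 2 * y₂ ^ 2 * (y₁ ^ 2)⁻¹)⁻¹ := by group
          _ = y₂ ^ 2 := by rw [e2, inv_inv]
      have e5 : y₁ ^ 2 ^ 2 * y₂ ^ 2 ^ 1 = y₂ ^ 2 ^ 1 * y₁ ^ 2 ^ 2 := by
        rw [mul_inv_eq_iff_eq_mul] at e3
        simpa using e3
      have e6 := comm_of_pow hy₁ hy₂ e5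
      have e7 : y₁ ^ 2 * y₂ ^ 2 = y₂ ^ 2 * y₁ ^ 2 := by
        have : Commute y₁ y₂ := e6
        exact (this.pow_pow 2 2).eq
      have e8 : y₂ ^ 2 = (y₂ ^ 2)⁻¹ := by
        rw [← e2, e7]; group
      apply hy₂1
      apply odd_sq_eq_one hy₂ (k := 2)
      have e3' : y₂ ^ 2 ^ 2 = y₂ ^ 2 * y₂ ^ 2 := by show y₂ ^ 4 = _; rw [← pow_add]
      rw [e3']
      nth_rw 1 [e8]
      group
  -- second stage
  have hcomm12 : Commute y₁ y₂ := hcom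
  have hcp : Commute (y₁ ^ 2) (y₂ ^ 2) := hcomm12.pow_pow 2 2
  have hcy : c * (y₁ * y₂) * c⁻¹ = (y₁ * y₂)⁻¹ := by
    rw [κ, h5, h6, ← mul_inv_rev, hcom]
  have hy2 : (y₁ * y₂) ^ 2 = y₁ ^ 2 * y₂ ^ 2 := hcomm12.mul_pow 2
  have hxc : (y₁ * y₂)⁻¹ * c * ((y₁ * y₂)⁻¹)⁻¹ = (y₁ ^ 2 * y₂ ^ 2)⁻¹ * c := by
    have h7 : c * (y₁ * y₂) = (y₁ * y₂)⁻¹ * c := by
      rw [← hcy]; group
    rw [← hy2]
    generalize y₁ * y₂ = y at h7
    calc y⁻¹ * c * (y⁻¹)⁻¹ = y⁻¹ * (c * y) := by group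
      _ = y⁻¹ * (y⁻¹ * c) := by rw [h7]
      _ = (y ^ 2)⁻¹ * c := by rw [pow_two]; group
  obtain ⟨d, hd, hd1, hdx⟩ := hyp c hcA (by
    intro hc1
    apply hab
    have : a * b = 1 := hc1
    rw [mul_eq_one_iff_eq_inv] at this
    rw [this, hbinv]) (y₁ * y₂)⁻¹
  rw [hxc] at hdx
  have hκ := hreduce d c (y₁ ^ 2 * y₂ ^ 2)⁻¹ hd hcA hdx
  rw [κi] at hκ
  have hκ' : d * (y₁ ^ 2 * y₂ ^ 2) * d⁻¹ = y₁ ^ 2 * y₂ ^ 2 := inv_injective hκ
  -- conjugates of the squares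
  have a1 : a * y₁ ^ 2 * a⁻¹ = y₁ ^ 2 := by rw [← conj_pow, h1]
  have a2 : a * y₂ ^ 2 * a⁻¹ = (y₂ ^ 2)⁻¹ := by rw [← conj_pow, h2, inv_pow]
  have b1 : b * y₁ ^ 2 * b⁻¹ = (y₁ ^ 2)⁻¹ := by rw [← conj_pow, h3, inv_pow]
  have b2 : b * y₂ ^ 2 * b⁻¹ = y₂ ^ 2 := by rw [← conj_pow, h4]
  have c1 : c * y₁ ^ 2 * c⁻¹ = (y₁ ^ 2)⁻¹ := by rw [← conj_pow, h5, inv_pow]
  have c2 : c * y₂ ^ 2 * c⁻¹ = (y₂ ^ 2)⁻¹ := by rw [← conj_pow, h6, inv_pow]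
  have hy₂4 : y₂ ^ 2 ^ 2 = y₂ ^ 2 * y₂ ^ 2 := by show y₂ ^ 4 = _; rw [← pow_add]
  have hy₁4 : y₁ ^ 2 ^ 2 = y₁ ^ 2 * y₁ ^ 2 := by show y₁ ^ 4 = _; rw [← pow_add]
  have hy₂8 : y₂ ^ 2 ^ 3 = (y₂ ^ 2 * y₂ ^ 2) * (y₂ ^ 2 * y₂ ^ 2) := by show y₂ ^ 8 = _; simp only [← pow_add]
  generalize y₁ ^ 2 = p at *
  generalize y₂ ^ 2 = q at *
  rcases hall d hd with hd0 | hd0 | hd0 | hd0
  · exact absurd hd0 hd1
  · -- `d = a`
    rw [hd0, κ, a1, a2] at hκ'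
    have e1 : q⁻¹ = q := mul_left_cancel hκ'
    apply hy₂1
    apply odd_sq_eq_one hy₂ (k := 2)
    rw [hy₂4]
    nth_rw 1 [← e1]
    group
  · -- `d = b`
    rw [hd0, κ, b1, b2] at hκ'
    have e1 : p⁻¹ = p := mul_right_cancel hκ'
    apply hy₁1
    apply odd_sq_eq_one hy₁ (k := 2)
    rw [hy₁4]
    nth_rw 1 [← e1]
    group
  · -- `d = c`
    rw [hd0] at hκ
    rw [κ, c1, c2, ← mul_inv_rev, hcp.eq, inv_inv] at hκ
    -- `hκ : p q = (p q)⁻¹`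
    have e1 : p * q * (p * q) = 1 := by
      rw [hcp.eq]
      nth_rw 1 [hκ]
      group
    have e2 : a * (p * q * (p * q)) * a⁻¹ = 1 := by rw [e1]; group
    rw [κ, κ, a1, a2] at e2
    have f1 : p * q * (p * q) = (p * p) * (q * q) := by
      rw [mul_assoc, ← mul_assoc q, ← hcp.eq]; group
    have f2 : p * q⁻¹ * (p * q⁻¹) = (p * p) * (q * q)⁻¹ := by
      have hcp' : Commute p q⁻¹ := hcp.inv_right
      rw [mul_assoc, ← mul_assoc q⁻¹, ← hcp'.eq]; group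
    rw [f1] at e1
    rw [f2] at e2
    have f3 : q * q = (q * q)⁻¹ := mul_left_cancel (e1.trans e2.symm)
    apply hy₂1
    apply odd_sq_eq_one hy₂ (k := 3)
    rw [hy₂8]
    nth_rw 1 [f3]
    group

/-- The first consequence of Baer-Suzuki. -/
lemma step2 (A : Subgroup G) (hsq : ∀ a ∈ A, a * a = 1) (hcomm : ∀ a ∈ A, ∀ b ∈ A, a * b = b * a)
    (hthree : ∀ e ∈ A, ∀ f ∈ A, e ≠ 1 → f ≠ 1 → e ≠ f → ∀ z ∈ A, z = 1 ∨ z = e ∨ z = f ∨ z = e * f)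
    (hyp : ∀ a ∈ A, a ≠ 1 → ∀ g : G, ∃ d ∈ A, d ≠ 1 ∧ d * (g * a * g⁻¹) = (g * a * g⁻¹) * d)
    {e : G} (he : e ∈ A) (he1 : e ≠ 1) (heO : e ∉ Cfsg.pCore 2 G) :
    ∃ f ∈ A, f ≠ 1 ∧ f ≠ e ∧ ∃ y : G, Odd (orderOf y) ∧ y ≠ 1 ∧ f * y * f⁻¹ = y ∧ e * y * e⁻¹ = y⁻¹ := by
  classical
  have heo : orderOf e = 2 := Invol.orderOf_two_of (by rw [pow_two]; exact hsq e he) he1
  -- Baer-Suzuki
  have hX : IsPGroup 2 (Subgroup.zpowers e) := IsPGroup.of_card (n := 1) (by rw [Nat.card_zpowers, heo, pow_one])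
  have hBS : ¬ ∀ g : G, IsPGroup 2 ↥(Subgroup.zpowers e ⊔ (Subgroup.zpowers e).map (MulAut.conj g).toMonoidHom) := by
    intro hall
    obtain ⟨N, hN, hNp, hXN⟩ := BaerSuzuki.baer_suzuki _ hX hall
    exact heO (le_pCore hN hNp (hXN (Subgroup.mem_zpowers e)))
  push Not at hBS
  obtain ⟨g, hg⟩ := hBS
  set e' := g * e * g⁻¹ with he'
  have he'o : orderOf e' = 2 := by rw [he']; rw [Invol.orderOf_conj']; exact heo
  -- `u = e e'` is not a `2`-element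
  have hu : ¬ ∃ k : ℕ, (e * e') ^ 2 ^ k = 1 := by
    rintro ⟨k, hk⟩
    apply hg
    have hle : Subgroup.zpowers e ⊔ (Subgroup.zpowers e).map (MulAut.conj g).toMonoidHom ≤ Subgroup.closure ({e, e'} : Set G) := by
      refine sup_le ?_ ?_
      · rw [Subgroup.zpowers_le]; exact Invol.mem_closure_left
      · rw [Subgroup.map_le_iff_le_comap, Subgroup.zpowers_le]
        exact Invol.mem_closure_right
    refine IsPGroup.to_le ?_ hle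
    rw [IsPGroup.iff_orderOf]
    rintro ⟨d, hd⟩
    have hgoal : ∃ t : ℕ, d ^ 2 ^ t = 1 := by
      obtain ⟨j, hj | hj⟩ := Invol.mem_closure_cases heo he'o hd
      · refine ⟨k, ?_⟩
        rw [hj, ← zpow_natCast, ← zpow_mul, mul_comm, zpow_mul, zpow_natCast, hk, one_zpow]
      · refine ⟨1, ?_⟩
        rw [hj]
        exact Invol.sq_x_zpow heo he'o j
    obtain ⟨t, ht⟩ := hgoal
    have h1 : orderOf d ∣ 2 ^ t := orderOf_dvd_of_pow_eq_one ht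
    obtain ⟨t', -, h2⟩ := (Nat.dvd_prime_pow Nat.prime_two).mp h1
    refine ⟨t', ?_⟩
    rw [Subgroup.orderOf_mk]
    exact h2
  -- the odd part
  have hupos : 0 < orderOf (e * e') := orderOf_pos _
  obtain ⟨k, m, hm, hum⟩ := Nat.exists_eq_two_pow_mul_odd hupos.ne'
  set y := (e * e') ^ 2 ^ k with hy
  have hyo : orderOf y = m := by
    rw [hy, orderOf_pow' _ (by positivity), hum, Nat.gcd_eq_right (Dvd.intro _ rfl),
      Nat.mul_div_cancel_left _ (by positivity)]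
  have hy1 : y ≠ 1 := fun h => hu ⟨k, h⟩
  have hoddy : Odd (orderOf y) := hyo ▸ hm
  have heinv : e * y * e⁻¹ = y⁻¹ := by
    have := Invol.conj_zpow_inv heo he'o ((2 ^ k : ℕ) : ℤ)
    rw [zpow_neg, zpow_natCast] at this
    exact this
  -- the square root of `y`
  obtain ⟨r, hr⟩ := hm
  set v := y ^ (r + 1) with hv
  have hvsq : v * v = y := by
    rw [hv, ← pow_add]
    have : r + 1 + (r + 1) = m + 1 := by omega
    rw [this, pow_succ, ← hyo, pow_orderOf_eq_one, one_mul]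
  have hevinv : e * v * e⁻¹ = v⁻¹ := by
    rw [hv, ← conj_pow, heinv, inv_pow]
  have hconj : v * e * v⁻¹ = y * e := by
    have h7 : e * v⁻¹ = v * e := by
      have : e * v⁻¹ * e⁻¹ = v := by
        have e1 : e * v⁻¹ * e⁻¹ = (e * v * e⁻¹)⁻¹ := by group
        rw [e1, hevinv, inv_inv]
      calc e * v⁻¹ = (e * v⁻¹ * e⁻¹) * e := by group
        _ = v * e := by rw [this]
    calc v * e * v⁻¹ = v * (e * v⁻¹) := by group
      _ = v * (v * e) := by rw [h7]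
      _ = y * e := by rw [← hvsq]; group
  obtain ⟨d, hd, hd1, hdc⟩ := hyp e he he1 v
  rw [hconj] at hdc
  have hde : d * e = e * d := hcomm d hd e he
  have hdy : d * y = y * d := by
    have : d * y * e = y * d * e := by
      calc d * y * e = y * e * d := by
              rw [mul_assoc d y e, hdc]
        _ = y * d * e := by rw [mul_assoc, ← hde, mul_assoc]
    exact mul_right_cancel this
  refine ⟨d, hd, hd1, ?_, y, hoddy, hy1, ?_, heinv⟩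
  · rintro rfl
    apply hy1
    apply odd_sq_eq_one hoddy (k := 1)
    have h1 : d * y * d⁻¹ = y := by rw [hdy]; group
    rw [heinv] at h1
    rw [pow_one]
    rw [pow_two]
    nth_rw 1 [← h1]
    group
  · rw [hdy]; group
end

/-- Let A be a Klein four-subgroup of a finite group G. If every G-conjugate of every involution of A commutes with some involution of A (its centralizer meets A nontrivially), then A meets the largest normal 2-subgroup O₂(G) nontrivially. -/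
theorem result {G : Type*} [Group G] [Finite G]
    (A : Subgroup G) (hA : IsKleinFour ↥A)
    (h : ∀ a ∈ A, a ≠ 1 → ∀ g : G, A ⊓ Subgroup.centralizer ({g * a * g⁻¹} : Set G) ≠ ⊥) :
    A ⊓ Cfsg.pCore 2 G ≠ ⊥ := by
  classical
  have hcard : Nat.card A = 4 := IsKleinFour.card_four
  have hexp : Monoid.exponent A = 2 := IsKleinFour.exponent_two
  have hsq0 : ∀ a ∈ A, a ^ 2 = 1 := by
    intro a ha
    have := Monoid.pow_exponent_eq_one (⟨a, ha⟩ : A)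
    rw [hexp] at this
    exact congrArg Subtype.val this
  have hsq : ∀ a ∈ A, a * a = 1 := fun a ha => by rw [← pow_two]; exact hsq0 a ha
  have hcomm : ∀ a ∈ A, ∀ b ∈ A, a * b = b * a := by
    intro a ha b hb
    have h1 : (a * b) * (a * b) = 1 := hsq _ (A.mul_mem ha hb)
    have h2 : a⁻¹ = a := inv_eq_of_mul_eq_one_left (hsq a ha)
    have h3 : b⁻¹ = b := inv_eq_of_mul_eq_one_left (hsq b hb)
    have h4 : (a * b)⁻¹ = a * b := inv_eq_of_mul_eq_one_left h1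
    rw [mul_inv_rev, h2, h3] at h4
    exact h4.symm
  have hthree : ∀ e ∈ A, ∀ f ∈ A, e ≠ 1 → f ≠ 1 → e ≠ f → ∀ z ∈ A, z = 1 ∨ z = e ∨ z = f ∨ z = e * f := by
    intro e he f hf he1 hf1 hef z hz
    by_contra hcon
    push Not at hcon
    obtain ⟨h1, h2, h3, h4⟩ := hcon
    have hT : (({1, e, f, e * f, z} : Finset G) : Set G) ⊆ A := by
      intro x hx
      simp only [Finset.coe_insert, Finset.coe_singleton, Set.mem_insert_iff, Set.mem_singleton_iff] at hx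
      rcases hx with rfl | rfl | rfl | rfl | rfl
      · exact A.one_mem
      · exact he
      · exact hf
      · exact A.mul_mem he hf
      · exact hz
    have hcardT : ({1, e, f, e * f, z} : Finset G).card = 5 := by
      rw [Finset.card_insert_of_notMem, Finset.card_insert_of_notMem, Finset.card_insert_of_notMem, Finset.card_insert_of_notMem, Finset.card_singleton]
      · simp [h4.symm]
      · simp only [Finset.mem_insert, Finset.mem_singleton, not_or]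
        refine ⟨fun h => hf1 ?_, h3.symm⟩
        have : f = e * f := h
        exact absurd (mul_eq_right.mp this.symm) he1
      · simp only [Finset.mem_insert, Finset.mem_singleton, not_or]
        refine ⟨hef, ?_, h2.symm⟩
        intro h
        exact hf1 (mul_eq_left.mp h.symm)
      · simp only [Finset.mem_insert, Finset.mem_singleton, not_or]
        refine ⟨he1.symm, hf1.symm, ?_, h1.symm⟩
        intro h
        have h5 : e⁻¹ = f := by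
          exact inv_eq_of_mul_eq_one_right h.symm
        rw [inv_eq_of_mul_eq_one_left (hsq e he)] at h5
        exact hef h5
    have hle := Finset.card_le_card_of_injOn (s := ({1, e, f, e * f, z} : Finset G)) (t := (Set.toFinite (A : Set G)).toFinset) id
      (by intro x hx; simpa using hT hx) (by intro x _ y _ h; exact h)
    rw [hcardT] at hle
    have : (Set.toFinite (A : Set G)).toFinset.card = Nat.card A := by
      rw [← Set.ncard_eq_toFinset_card]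
      exact (Nat.card_coe_set_eq _).symm
    omega
  have hyp : ∀ a ∈ A, a ≠ 1 → ∀ g : G, ∃ d ∈ A, d ≠ 1 ∧ d * (g * a * g⁻¹) = (g * a * g⁻¹) * d := by
    intro a ha ha1 g
    obtain ⟨d, hd, hd1⟩ := (Subgroup.bot_or_exists_ne_one _).resolve_left (h a ha ha1 g)
    refine ⟨d, hd.1, hd1, ?_⟩
    have := Subgroup.mem_centralizer_iff.mp hd.2 (g * a * g⁻¹) (by simp)
    exact this.symm
  intro hbot
  have hnot : ∀ e ∈ A, e ≠ 1 → e ∉ Cfsg.pCore 2 G := by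
    intro e he he1 heO
    have : e ∈ A ⊓ Cfsg.pCore 2 G := ⟨he, heO⟩
    rw [hbot] at this
    exact he1 (Subgroup.mem_bot.mp this)
  have hnt : Nontrivial A := by
    apply Finite.one_lt_card_iff_nontrivial.mp
    omega
  obtain ⟨⟨e₁, he₁⟩, he₁1⟩ := exists_ne (1 : A)
  have he₁1' : e₁ ≠ 1 := fun h => he₁1 (Subtype.ext h)
  obtain ⟨f₁, hf₁, hf₁1, hf₁e, y₁, hy₁, hy₁1, h1, h2⟩ := step2 A hsq hcomm hthree hyp he₁ he₁1' (hnot _ he₁ he₁1')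
  obtain ⟨f₂, hf₂, hf₂1, hf₂f, y₂, hy₂, hy₂1, h3, h4⟩ := step2 A hsq hcomm hthree hyp hf₁ hf₁1 (hnot _ hf₁ hf₁1)
  have h5 : f₂ * y₁ * f₂⁻¹ = y₁⁻¹ := by
    rcases hthree e₁ he₁ f₁ hf₁ he₁1' hf₁1 hf₁e.symm f₂ hf₂ with h0 | h0 | h0 | h0
    · exact absurd h0 hf₂1
    · rw [h0]; exact h2
    · exact absurd h0 hf₂f
    · rw [h0]
      calc e₁ * f₁ * y₁ * (e₁ * f₁)⁻¹ = e₁ * (f₁ * y₁ * f₁⁻¹) * e₁⁻¹ := by group
        _ = y₁⁻¹ := by rw [h1, h2]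
  exact step3 A hsq hcomm hthree hyp hf₁ hf₂ hf₁1 hf₂1 hf₂f.symm hy₁ hy₂ hy₁1 hy₂1 h1 h4 h5 h3

end Cfsg.Agent.S3195
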