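import Cfsg.Statements.S3196
import Mathlib
import Cfsg.Agent.Lib.H1Core

set_option autoImplicit false
open Cfsg

namespace Cfsg.Agent.S3196

open Cfsg Cfsg.Agent.Lib.H1Core

section
variable {G : Type*} [Group G] [Finite G] {p : ℕ}

lemma mem_zp (hp : p.Prime) {x : G} (hx : orderOf x = p) {i : ℤ} (hi : x ^ i ≠ 1) :
    x ∈ Subgroup.zpowers (x ^ i) := by
  haveI := Fact.mk hp
  have h1 : (x ^ i) ^ p = 1 := by
    rw [← zpow_natCast, ← zpow_mul, mul_comm, zpow_mul, zpow_natCast, ← hx, pow_orderOf_eq_one, one_zpow]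
  have h2 : orderOf (x ^ i) = p := orderOf_eq_prime h1 hi
  have h3 : Subgroup.zpowers (x ^ i) ≤ Subgroup.zpowers x :=
    (Subgroup.zpowers_le).mpr (Subgroup.zpow_mem_zpowers x i)
  have h4 : Nat.card (Subgroup.zpowers x) ≤ Nat.card (Subgroup.zpowers (x ^ i)) := by
    rw [Nat.card_zpowers, Nat.card_zpowers, h2, hx]
  rw [Subgroup.eq_of_le_of_card_ge h3 h4]
  exact Subgroup.mem_zpowers x

lemma comm_of_zpow (hp : p.Prime) {x t : G} (hx : orderOf x = p) {i : ℤ} (hi : x ^ i ≠ 1)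
    (h : Commute (x ^ i) t) : Commute x t := by
  obtain ⟨k, hk⟩ := Subgroup.mem_zpowers_iff.mp (mem_zp hp hx hi)
  rw [← hk]
  exact h.zpow_left k

lemma zp_eq (hp : p.Prime) {x : G} (hx : orderOf x = p) {i : ℤ} (hi : x ^ i ≠ 1) :
    Subgroup.zpowers (x ^ i) = Subgroup.zpowers x := by
  apply le_antisymm
  · exact (Subgroup.zpowers_le).mpr (Subgroup.zpow_mem_zpowers x i)
  · exact (Subgroup.zpowers_le).mpr (mem_zp hp hx hi)

lemma comm_of_c {a b : G} (h : a⁻¹ * b⁻¹ * a * b = 1) : Commute a b := by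
  show a * b = b * a
  calc a * b = (b * a) * (a⁻¹ * b⁻¹ * a * b) := by group
    _ = b * a := by rw [h, mul_one]

lemma comm_of_c' {a b : G} (h : a * b * a⁻¹ * b⁻¹ = 1) : Commute a b := by
  show a * b = b * a
  calc a * b = (a * b * a⁻¹ * b⁻¹) * (b * a) := by group
    _ = b * a := by rw [h, one_mul]

lemma zp_ne {x y t : G} (hx : ¬ Commute x t) (hy : Commute y t) :
    Subgroup.zpowers x ≠ Subgroup.zpowers y := by
  intro h
  have h1 : x ∈ Subgroup.zpowers y := by rw [← h]; exact Subgroup.mem_zpowers x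
  obtain ⟨k, hk⟩ := Subgroup.mem_zpowers_iff.mp h1
  apply hx
  rw [← hk]
  exact hy.zpow_left k

lemma comm_identity {A B z w : G} (hAB : Commute A B) (hAz : Commute A z) (hBw : Commute B w)
    (hu : Commute (A * B) (z * w)) : w * A * w⁻¹ * A⁻¹ = B⁻¹ * z⁻¹ * B * z := by
  have e1 : A * B * (z * w) = B * z * (A * w) := by
    calc A * B * (z * w) = (A * B) * z * w := by group
      _ = (B * A) * z * w := by rw [hAB.eq]
      _ = B * (A * z) * w := by group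
      _ = B * (z * A) * w := by rw [hAz.eq]
      _ = B * z * (A * w) := by group
  have e2 : (z * w) * (A * B) = z * B * (w * A) := by
    calc (z * w) * (A * B) = z * w * (B * A) := by rw [hAB.eq]
      _ = z * (w * B) * A := by group
      _ = z * (B * w) * A := by rw [hBw.eq]
      _ = z * B * (w * A) := by group
  have e3 := hu.eq
  rw [e1, e2] at e3
  have e4 : w * A = B⁻¹ * z⁻¹ * B * z * (A * w) := by
    calc w * A = (z * B)⁻¹ * (z * B * (w * A)) := by group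
      _ = (z * B)⁻¹ * (B * z * (A * w)) := by rw [e3]
      _ = _ := by group
  calc w * A * w⁻¹ * A⁻¹ = (w * A) * (A * w)⁻¹ := by group
    _ = B⁻¹ * z⁻¹ * B * z * (A * w) * (A * w)⁻¹ := by rw [← e4]
    _ = _ := by group

lemma conj_rule {w z c : G} (hwz : w * z = c * z * w) (hcz : Commute c z) (hcw : Commute c w) (b : ℤ) :
    w ^ b * z = c ^ b * z * w ^ b := by
  have hinv : w⁻¹ * z = c⁻¹ * z * w⁻¹ := by
    have h1 : z = c * (w⁻¹ * z) * w := by
      have h2 : w⁻¹ * c = c * w⁻¹ := (hcw.inv_right).eq.symm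
      calc z = w⁻¹ * (w * z) := by group
        _ = w⁻¹ * (c * z * w) := by rw [hwz]
        _ = (w⁻¹ * c) * z * w := by group
        _ = (c * w⁻¹) * z * w := by rw [h2]
        _ = _ := by group
    calc w⁻¹ * z = c⁻¹ * (c * (w⁻¹ * z) * w) * w⁻¹ := by group
      _ = c⁻¹ * z * w⁻¹ := by rw [← h1]
  induction b using Int.induction_on with
  | zero => simp
  | succ i ih =>
    have hci : Commute (c ^ (i : ℤ)) w := hcw.zpow_left _
    calc w ^ ((i : ℤ) + 1) * z = w ^ (i : ℤ) * (w * z) := by rw [zpow_add_one]; group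
      _ = w ^ (i : ℤ) * (c * z * w) := by rw [hwz]
      _ = w ^ (i : ℤ) * c * z * w := by group
      _ = c * w ^ (i : ℤ) * z * w := by rw [(hcw.zpow_right _).eq.symm]
      _ = c * (w ^ (i : ℤ) * z) * w := by group
      _ = c * (c ^ (i : ℤ) * z * w ^ (i : ℤ)) * w := by rw [ih]
      _ = c ^ ((i : ℤ) + 1) * z * w ^ ((i : ℤ) + 1) := by
        have hcc : c * c ^ (i : ℤ) = c ^ (i : ℤ) * c := (Commute.self_zpow c (i : ℤ)).eq
        rw [zpow_add_one, zpow_add_one, ← hcc]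
        group
  | pred i ih =>
    have hc : Commute c (w ^ (-(i : ℤ))) := hcw.zpow_right _
    calc w ^ (-(i : ℤ) - 1) * z = w ^ (-(i : ℤ)) * (w⁻¹ * z) := by rw [zpow_sub_one]; group
      _ = w ^ (-(i : ℤ)) * (c⁻¹ * z * w⁻¹) := by rw [hinv]
      _ = w ^ (-(i : ℤ)) * c⁻¹ * z * w⁻¹ := by group
      _ = c⁻¹ * w ^ (-(i : ℤ)) * z * w⁻¹ := by rw [(hc.inv_left).eq]
      _ = c⁻¹ * (w ^ (-(i : ℤ)) * z) * w⁻¹ := by group
      _ = c⁻¹ * (c ^ (-(i : ℤ)) * z * w ^ (-(i : ℤ))) * w⁻¹ := by rw [ih]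
      _ = c ^ (-(i : ℤ) - 1) * z * w ^ (-(i : ℤ) - 1) := by
        have hcc : c⁻¹ * c ^ (-(i : ℤ)) = c ^ (-(i : ℤ)) * c⁻¹ := ((Commute.self_zpow c (-(i : ℤ))).inv_left).eq
        rw [zpow_sub_one, zpow_sub_one, ← hcc]
        group

lemma core_radical (hp : p.Prime) (K' : Set G) (hord : ∀ x ∈ K', orderOf x = p)
    (hconj : ∀ x ∈ K', ∀ g : G, g * x * g⁻¹ ∈ K')
    (hE3 : ∀ x ∈ K', ∀ y ∈ K', Commute x y → Subgroup.zpowers x ≠ Subgroup.zpowers y →
      ∀ i j : ℤ, x ^ i * y ^ j ≠ 1 → x ^ i * y ^ j ∈ K')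
    (hE4 : ∀ x ∈ K', ∀ y ∈ K', Commute x y → Subgroup.zpowers x ≠ Subgroup.zpowers y →
      ∀ w ∈ K', ∃ i j : ℤ, x ^ i * y ^ j ≠ 1 ∧ Commute (x ^ i * y ^ j) w)
    (hE5 : ∀ x ∈ K', ∀ i : ℤ, x ^ i ≠ 1 → x ^ i ∈ K')
    (x y : G) (hx : x ∈ K') (hy : y ∈ K') (hxy : Commute x y)
    (hne : Subgroup.zpowers x ≠ Subgroup.zpowers y) : ∃ v ∈ K', ∀ w ∈ K', Commute v w := by
  by_contra H
  push Not at H
  -- Step 1
  obtain ⟨z₁, z₂, w₁, w₂, hz₁, hz₂, hw₁, hw₂, h12, h1, h2, n1, n2⟩ :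
      ∃ z₁ z₂ w₁ w₂ : G, z₁ ∈ K' ∧ z₂ ∈ K' ∧ w₁ ∈ K' ∧ w₂ ∈ K' ∧ Commute z₁ z₂ ∧ Commute z₁ w₁ ∧
        Commute z₂ w₂ ∧ ¬ Commute z₂ w₁ ∧ ¬ Commute z₁ w₂ := by
    obtain ⟨w₁, hw₁, hxw₁⟩ := H x hx
    obtain ⟨i, j, hne1, hc1⟩ := hE4 x hx y hy hxy hne w₁ hw₁
    have hz₁ := hE3 x hx y hy hxy hne i j hne1
    set z₁ := x ^ i * y ^ j with hz₁def
    have hxz₁ : Commute x z₁ := ((Commute.refl x).zpow_right i).mul_right (hxy.zpow_right j)
    have hne2 : Subgroup.zpowers x ≠ Subgroup.zpowers z₁ := zp_ne hxw₁ hc1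
    obtain ⟨w₂, hw₂, hz₁w₂⟩ := H z₁ hz₁
    obtain ⟨a, b, hne3, hc2⟩ := hE4 x hx z₁ hz₁ hxz₁ hne2 w₂ hw₂
    have hz₂ := hE3 x hx z₁ hz₁ hxz₁ hne2 a b hne3
    set z₂ := x ^ a * z₁ ^ b with hz₂def
    have h12 : Commute z₁ z₂ := ((hxz₁.symm.zpow_right a)).mul_right ((Commute.refl z₁).zpow_right b)
    have hxa : x ^ a ≠ 1 := by
      intro hxa
      have h3 : z₂ = z₁ ^ b := by rw [hz₂def, hxa, one_mul]
      have h4 : z₁ ^ b ≠ 1 := by rw [← h3]; exact hne3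
      exact hz₁w₂ (comm_of_zpow hp (hord _ hz₁) h4 (h3 ▸ hc2))
    refine ⟨z₁, z₂, w₁, w₂, hz₁, hz₂, hw₁, hw₂, h12, hc1, hc2, ?_, hz₁w₂⟩
    intro h3
    apply hxw₁
    apply comm_of_zpow hp (hord _ hx) hxa
    have h4 : x ^ a = z₂ * (z₁ ^ b)⁻¹ := by rw [hz₂def]; group
    rw [h4]
    exact h3.mul_left ((hc1.zpow_left b).inv_left)
  -- Step 2
  obtain ⟨w₁', hw₁', h1', n1', h3⟩ : ∃ w ∈ K', Commute z₁ w ∧ ¬ Commute z₂ w ∧ Commute w₂ w := by
    by_cases hww : Commute w₂ w₁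
    · exact ⟨w₁, hw₁, h1, n1, hww⟩
    have hl : Subgroup.zpowers w₁ ≠ Subgroup.zpowers z₁ :=
      zp_ne (t := z₂) (fun h => n1 h.symm) h12
    obtain ⟨α, β, hne4, hc3⟩ := hE4 w₁ hw₁ z₁ hz₁ h1.symm hl w₂ hw₂
    have hP := hE3 w₁ hw₁ z₁ hz₁ h1.symm hl α β hne4
    have hα : w₁ ^ α ≠ 1 := by
      intro hα
      rw [hα, one_mul] at hne4 hc3
      exact n2 (comm_of_zpow hp (hord _ hz₁) hne4 hc3)
    refine ⟨_, hP, ((h1.zpow_right α)).mul_right ((Commute.refl z₁).zpow_right β), ?_, hc3.symm⟩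
    intro h5
    apply n1
    apply Commute.symm
    apply comm_of_zpow hp (hord _ hw₁) hα
    have h4 : w₁ ^ α = (w₁ ^ α * z₁ ^ β) * (z₁ ^ β)⁻¹ := by group
    rw [h4]
    exact (h5.symm).mul_left ((h12.zpow_left β).inv_left)
  clear hw₁ h1 n1 w₁
  rename' w₁' => w₁, hw₁' => hw₁, h1' => h1, n1' => n1
  -- Step 3
  have hl2 : Subgroup.zpowers z₂ ≠ Subgroup.zpowers w₂ := fun h =>
    (zp_ne (t := z₁) (fun h' => n2 h'.symm) h12.symm) h.symm
  have hzw : z₂ ^ (1 : ℤ) * w₂ ^ (1 : ℤ) ≠ 1 := by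
    intro h
    rw [zpow_one, zpow_one] at h
    have h4 : w₂ = z₂⁻¹ := eq_inv_of_mul_eq_one_right h
    exact n2 (h4 ▸ h12.inv_right)
  have hzw' := hE3 z₂ hz₂ w₂ hw₂ h2 hl2 1 1 hzw
  rw [zpow_one, zpow_one] at hzw'
  have hl1 : Subgroup.zpowers z₁ ≠ Subgroup.zpowers w₁ := fun h =>
    (zp_ne (t := z₂) (fun h' => n1 h'.symm) h12) h.symm
  obtain ⟨α, β, hu1, hu⟩ := hE4 z₁ hz₁ w₁ hw₁ h1 hl1 (z₂ * w₂) hzw'
  set A := z₁ ^ α with hAdef
  set B := w₁ ^ β with hBdef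
  have hAB : Commute A B := h1.zpow_zpow α β
  have hAz : Commute A z₂ := h12.zpow_left α
  have hBw : Commute B w₂ := h3.symm.zpow_left β
  have hBz1 : Commute B z₁ := h1.symm.zpow_left β
  have hz2z1 : Commute z₂ z₁ := h12.symm
  have hcd := comm_identity hAB hAz hBw hu
  set c := w₂ * A * w₂⁻¹ * A⁻¹ with hc
  have hAne : A ≠ 1 := by
    intro hA
    have hc1 : c = 1 := by rw [hc, hA]; group
    have hB : B ≠ 1 := by
      intro hB
      exact hu1 (by rw [hA, hB, one_mul])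
    rw [hc1] at hcd
    have hBz : Commute B z₂ := comm_of_c hcd.symm
    exact n1 (comm_of_zpow hp (hord _ hw₁) hB hBz).symm
  have hcne : c ≠ 1 := by
    intro hc1
    have h4 : Commute w₂ A := comm_of_c' hc1
    exact n2 (comm_of_zpow hp (hord _ hz₁) hAne h4.symm)
  have hcz₁ : Commute c z₁ := by
    rw [hcd]
    exact ((hBz1.inv_left.mul_left hz2z1.inv_left).mul_left hBz1).mul_left hz2z1
  have hcw₂ : Commute c w₂ := by
    rw [hcd]
    exact ((hBw.inv_left.mul_left h2.inv_left).mul_left hBw).mul_left h2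
  have hcA : Commute c A := hcz₁.zpow_right α
  have hA_mem : A ∈ K' := hE5 z₁ hz₁ α hAne
  have hAo : orderOf A = p := hord _ hA_mem
  -- Step 4
  have hz' := hconj A hA_mem w₂
  have hzeq : w₂ * A * w₂⁻¹ = c * A := by rw [hc]; group
  have hAw : ¬ Commute A w₂ := fun h => n2 (comm_of_zpow hp (hord _ hz₁) hAne h)
  have hline1 : Subgroup.zpowers (w₂ * A * w₂⁻¹) ≠ Subgroup.zpowers A := by
    intro h
    have h1' : c * A ∈ Subgroup.zpowers A := by
      rw [← hzeq, ← h]; exact Subgroup.mem_zpowers _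
    have h2' : c ∈ Subgroup.zpowers A := by
      have h4 := Subgroup.mul_mem _ h1' (Subgroup.inv_mem _ (Subgroup.mem_zpowers A))
      simpa using h4
    obtain ⟨k, hk⟩ := Subgroup.mem_zpowers_iff.mp h2'
    have hk1 : A ^ k ≠ 1 := by rw [hk]; exact hcne
    have hk2 : Commute (A ^ k) w₂ := by rw [hk]; exact hcw₂
    exact hAw (comm_of_zpow hp hAo hk1 hk2)
  have hc_mem : c ∈ K' := by
    have hcA' : Commute (w₂ * A * w₂⁻¹) A := by
      rw [hzeq]; exact hcA.mul_left (Commute.refl A)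
    have h4 : (w₂ * A * w₂⁻¹) ^ (1 : ℤ) * A ^ (-1 : ℤ) = c := by
      rw [zpow_one, zpow_neg_one, hzeq]; group
    have h5 := hE3 _ hz' A hA_mem hcA' hline1 1 (-1) (by rw [h4]; exact hcne)
    rwa [h4] at h5
  -- Step 5
  obtain ⟨T, hT, hcT⟩ := H c hc_mem
  apply hcT
  have hl3 : Subgroup.zpowers A ≠ Subgroup.zpowers c := zp_ne (t := w₂) hAw hcw₂
  have hl4 : Subgroup.zpowers w₂ ≠ Subgroup.zpowers c := zp_ne (t := A) (fun h => hAw h.symm) hcA
  obtain ⟨a, i, hx1, hxT⟩ := hE4 A hA_mem c hc_mem hcA.symm hl3 T hT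
  obtain ⟨b, j, hy1, hyT⟩ := hE4 w₂ hw₂ c hc_mem hcw₂.symm hl4 T hT
  have hco : orderOf c = p := hord _ hc_mem
  by_cases hAa : A ^ a = 1
  · rw [hAa, one_mul] at hx1 hxT
    exact comm_of_zpow hp hco hx1 hxT
  by_cases hwb : w₂ ^ b = 1
  · rw [hwb, one_mul] at hy1 hyT
    exact comm_of_zpow hp hco hy1 hyT
  have hwz : w₂ * A = c * A * w₂ := by
    calc w₂ * A = (w₂ * A * w₂⁻¹) * w₂ := by group
      _ = c * A * w₂ := by rw [hzeq]
  have h1a := conj_rule hwz hcA hcw₂ b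
  have h2a : w₂ ^ b * A ^ a * (w₂ ^ b)⁻¹ = c ^ (b * a) * A ^ a := by
    have h3a : w₂ ^ b * A * (w₂ ^ b)⁻¹ = c ^ b * A := by rw [h1a]; group
    rw [← conj_zpow, h3a, ((hcA.zpow_left b).mul_zpow a), ← zpow_mul]
  set z₀ := A ^ a with hz₀
  set w₀ := w₂ ^ b with hw₀
  set e := c ^ (b * a) with he
  have hwz₀ : w₀ * z₀ = e * z₀ * w₀ := by
    calc w₀ * z₀ = (w₀ * z₀ * w₀⁻¹) * w₀ := by group
      _ = e * z₀ * w₀ := by rw [h2a]
  have hCz : Commute (c ^ i) z₀ := hcA.zpow_zpow i a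
  have hCw : Commute (c ^ i) w₀ := hcw₂.zpow_zpow i b
  have hDz : Commute (c ^ j) z₀ := hcA.zpow_zpow j a
  have hDw : Commute (c ^ j) w₀ := hcw₂.zpow_zpow j b
  have hCD : Commute (c ^ i) (c ^ j) := (Commute.refl c).zpow_zpow i j
  have hyx : (w₀ * c ^ j) * (z₀ * c ^ i) = e * (z₀ * c ^ i) * (w₀ * c ^ j) := by
    calc (w₀ * c ^ j) * (z₀ * c ^ i) = w₀ * (c ^ j * z₀) * c ^ i := by group
      _ = w₀ * (z₀ * c ^ j) * c ^ i := by rw [hDz.eq]
      _ = (w₀ * z₀) * (c ^ j * c ^ i) := by group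
      _ = (e * z₀ * w₀) * (c ^ j * c ^ i) := by rw [hwz₀]
      _ = (e * z₀ * w₀) * (c ^ i * c ^ j) := by rw [hCD.eq]
      _ = e * z₀ * (w₀ * c ^ i) * c ^ j := by group
      _ = e * z₀ * (c ^ i * w₀) * c ^ j := by rw [hCw.eq]
      _ = e * (z₀ * c ^ i) * (w₀ * c ^ j) := by group
  have hee : e = (w₀ * c ^ j) * (z₀ * c ^ i) * (w₀ * c ^ j)⁻¹ * (z₀ * c ^ i)⁻¹ := by
    rw [hyx]; group
  have heT : Commute e T := by
    rw [hee]
    exact ((hyT.mul_left hxT).mul_left hyT.inv_left).mul_left hxT.inv_left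
  have hene : c ^ (b * a) ≠ 1 := by
    intro h0
    have h5 : ((orderOf c : ℕ) : ℤ) ∣ b * a := orderOf_dvd_iff_zpow_eq_one.mpr h0
    rw [hco] at h5
    rcases (Nat.prime_iff_prime_int.mp hp).dvd_or_dvd h5 with h6 | h6
    · apply hwb
      rw [← orderOf_dvd_iff_zpow_eq_one, hord _ hw₂]
      exact h6
    · apply hAa
      rw [← orderOf_dvd_iff_zpow_eq_one, hAo]
      exact h6
  exact comm_of_zpow hp hco hene heT

end

/-- Let p be a prime and K a set of subgroups of order p of a finite group G, closed under conjugation, such that at least two distinct members of K commute elementwise, and whenever two distinct members X, Y of K commute: every subgroup of order p of the group XY they generate belongs to K, and every member W of K has centralizer meeting XY nontrivially. Then some member V of K commutes elementwise with every member of K and lies in O_p(G); in particular G is not simple. -/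
theorem result {G : Type*} [Group G] [Finite G]
    {p : ℕ} (hp : p.Prime) (K : Set (Subgroup G)) (hK : ∀ X ∈ K, Nat.card ↥X = p)
    (hKc : ∀ X ∈ K, ∀ g : G, X.map (MulAut.conj g).toMonoidHom ∈ K)
    (hex : ∃ X ∈ K, ∃ Y ∈ K, X ≠ Y ∧ ∀ x ∈ X, ∀ y ∈ Y, x * y = y * x)
    (ha : ∀ X ∈ K, ∀ Y ∈ K, X ≠ Y → (∀ x ∈ X, ∀ y ∈ Y, x * y = y * x) →
      ∀ Z : Subgroup G, Z ≤ X ⊔ Y → Nat.card ↥Z = p → Z ∈ K)
    (hb : ∀ X ∈ K, ∀ Y ∈ K, X ≠ Y → (∀ x ∈ X, ∀ y ∈ Y, x * y = y * x) →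
      ∀ W ∈ K, (X ⊔ Y) ⊓ Subgroup.centralizer (W : Set G) ≠ ⊥) :
    (∃ V ∈ K, (∀ W ∈ K, ∀ v ∈ V, ∀ w ∈ W, v * w = w * v) ∧ V ≤ Cfsg.pCore p G) ∧ ¬ IsSimpleGroup G := by
  classical
  haveI := Fact.mk hp
  let K' : Set G := {x | x ≠ 1 ∧ Subgroup.zpowers x ∈ K}
  have hord : ∀ x ∈ K', orderOf x = p := by
    rintro x ⟨_, hx⟩
    have h1 := hK _ hx
    rwa [Nat.card_zpowers] at h1
  have hgen : ∀ X ∈ K, ∀ x ∈ X, x ≠ 1 → Subgroup.zpowers x = X := by
    intro X hX x hx hx1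
    have h1 : Subgroup.zpowers x ≤ X := (Subgroup.zpowers_le).mpr hx
    have h2 : Nat.card (Subgroup.zpowers x) ∣ Nat.card X := Subgroup.card_dvd_of_le h1
    rw [hK X hX] at h2
    rcases (Nat.dvd_prime hp).mp h2 with h3 | h3
    · rw [Nat.card_zpowers, orderOf_eq_one_iff] at h3
      exact absurd h3 hx1
    · exact Subgroup.eq_of_le_of_card_ge h1 (by rw [h3, hK X hX])
  have hconj : ∀ x ∈ K', ∀ g : G, g * x * g⁻¹ ∈ K' := by
    rintro x ⟨h1, hx⟩ g
    refine ⟨fun h => h1 ?_, ?_⟩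
    · have h2 : g * x * g⁻¹ = g * 1 * g⁻¹ := by rw [h]; group
      simpa using h2
    · have h2 := hKc _ hx g
      rw [MonoidHom.map_zpowers] at h2
      simpa using h2
  have hsup : ∀ x y : G, Commute x y → ∀ u ∈ Subgroup.zpowers x ⊔ Subgroup.zpowers y,
      ∃ i j : ℤ, u = x ^ i * y ^ j := by
    intro x y hc u hu
    let S : Subgroup G :=
      { carrier := {u | ∃ i j : ℤ, u = x ^ i * y ^ j}
        one_mem' := ⟨0, 0, by simp⟩
        mul_mem' := by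
          rintro _ _ ⟨i, j, rfl⟩ ⟨k, l, rfl⟩
          refine ⟨i + k, j + l, ?_⟩
          rw [zpow_add, zpow_add]
          have h1 := (hc.zpow_zpow k j).eq
          calc x ^ i * y ^ j * (x ^ k * y ^ l) = x ^ i * (y ^ j * x ^ k) * y ^ l := by group
            _ = x ^ i * (x ^ k * y ^ j) * y ^ l := by rw [h1]
            _ = _ := by group
        inv_mem' := by
          rintro _ ⟨i, j, rfl⟩
          refine ⟨-i, -j, ?_⟩
          rw [zpow_neg, zpow_neg, mul_inv_rev]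
          exact ((hc.zpow_zpow i j).inv_inv).eq.symm }
    have h1 : Subgroup.zpowers x ⊔ Subgroup.zpowers y ≤ S := by
      refine sup_le ((Subgroup.zpowers_le).mpr ⟨1, 0, by simp⟩) ((Subgroup.zpowers_le).mpr ⟨0, 1, by simp⟩)
    exact h1 hu
  have hcomm_zp : ∀ x y : G, Commute x y → ∀ a ∈ Subgroup.zpowers x, ∀ b ∈ Subgroup.zpowers y, a * b = b * a := by
    intro x y hc a ha b hb
    obtain ⟨i, rfl⟩ := Subgroup.mem_zpowers_iff.mp ha
    obtain ⟨j, rfl⟩ := Subgroup.mem_zpowers_iff.mp hb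
    exact (hc.zpow_zpow i j).eq
  have hE3 : ∀ x ∈ K', ∀ y ∈ K', Commute x y → Subgroup.zpowers x ≠ Subgroup.zpowers y →
      ∀ i j : ℤ, x ^ i * y ^ j ≠ 1 → x ^ i * y ^ j ∈ K' := by
    intro x hx y hy hc hne i j h
    refine ⟨h, ?_⟩
    apply ha _ hx.2 _ hy.2 hne (hcomm_zp x y hc)
    · rw [Subgroup.zpowers_le]
      exact Subgroup.mul_mem _ (Subgroup.mem_sup_left (Subgroup.zpow_mem_zpowers x i))
        (Subgroup.mem_sup_right (Subgroup.zpow_mem_zpowers y j))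
    · rw [Nat.card_zpowers]
      apply orderOf_eq_prime _ h
      rw [(hc.zpow_zpow i j).mul_pow]
      have h1 : (x ^ i) ^ p = 1 := by
        rw [← zpow_natCast, ← zpow_mul, mul_comm, zpow_mul, zpow_natCast, ← hord x hx, pow_orderOf_eq_one, one_zpow]
      have h2 : (y ^ j) ^ p = 1 := by
        rw [← zpow_natCast, ← zpow_mul, mul_comm, zpow_mul, zpow_natCast, ← hord y hy, pow_orderOf_eq_one, one_zpow]
      rw [h1, h2, one_mul]
  have hE4 : ∀ x ∈ K', ∀ y ∈ K', Commute x y → Subgroup.zpowers x ≠ Subgroup.zpowers y →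
      ∀ w ∈ K', ∃ i j : ℤ, x ^ i * y ^ j ≠ 1 ∧ Commute (x ^ i * y ^ j) w := by
    intro x hx y hy hc hne w hw
    have h1 := hb _ hx.2 _ hy.2 hne (hcomm_zp x y hc) _ hw.2
    obtain ⟨u, hu, hu1⟩ := (Subgroup.bot_or_exists_ne_one _).resolve_left h1
    obtain ⟨i, j, rfl⟩ := hsup x y hc u hu.1
    refine ⟨i, j, hu1, ?_⟩
    exact (Subgroup.mem_centralizer_iff.mp hu.2 w (Subgroup.mem_zpowers w)).symm
  have hE5 : ∀ x ∈ K', ∀ i : ℤ, x ^ i ≠ 1 → x ^ i ∈ K' := by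
    intro x hx i hi
    refine ⟨hi, ?_⟩
    rw [zp_eq hp (hord x hx) hi]
    exact hx.2
  obtain ⟨X, hX, Y, hY, hne, hcom⟩ := hex
  have hnb : ∀ X ∈ K, X ≠ ⊥ := by
    intro X hX h
    have h1 := hK X hX
    rw [h, Subgroup.card_bot] at h1
    exact hp.one_lt.ne h1
  obtain ⟨x, hxX, hx1⟩ := (Subgroup.bot_or_exists_ne_one X).resolve_left (hnb X hX)
  obtain ⟨y, hyY, hy1⟩ := (Subgroup.bot_or_exists_ne_one Y).resolve_left (hnb Y hY)
  have hzx := hgen X hX x hxX hx1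
  have hzy := hgen Y hY y hyY hy1
  obtain ⟨v, hv, hvr⟩ := core_radical hp K' hord hconj hE3 hE4 hE5 x y ⟨hx1, by rw [hzx]; exact hX⟩
    ⟨hy1, by rw [hzy]; exact hY⟩ (hcom x hxX y hyY) (by rw [hzx, hzy]; exact hne)
  -- the normal closure
  have hall : ∀ w : G, w ≠ 1 → (∃ W ∈ K, w ∈ W) → w ∈ K' := by
    rintro w hw ⟨W, hW, hwW⟩
    exact ⟨hw, by rw [hgen W hW w hwW hw]; exact hW⟩
  have hrc : ∀ g : G, ∀ t ∈ K', Commute (g * v * g⁻¹) t := by
    intro g t ht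
    have h1 := hvr _ (hconj t ht g⁻¹)
    have h2 : g⁻¹ * t * g⁻¹⁻¹ = g⁻¹ * t * g := by group
    rw [h2] at h1
    have h3 : t = g * (g⁻¹ * t * g) * g⁻¹ := by group
    show g * v * g⁻¹ * t = t * (g * v * g⁻¹)
    have h4 := h1.eq
    calc g * v * g⁻¹ * t = g * (v * (g⁻¹ * t * g)) * g⁻¹ := by group
      _ = g * ((g⁻¹ * t * g) * v) * g⁻¹ := by rw [h4]
      _ = _ := by group
  set N := Subgroup.normalClosure ({v} : Set G) with hN
  haveI hNn : N.Normal := Subgroup.normalClosure_normal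
  have hvN : v ∈ N := Subgroup.subset_normalClosure (Set.mem_singleton v)
  have hconjs : ∀ a ∈ Group.conjugatesOfSet ({v} : Set G), ∃ g : G, a = g * v * g⁻¹ := by
    intro a ha
    rw [Group.mem_conjugatesOfSet_iff] at ha
    obtain ⟨b, hb', hab⟩ := ha
    rw [Set.mem_singleton_iff] at hb'
    subst hb'
    obtain ⟨g, hg⟩ := isConj_iff.mp hab
    exact ⟨g, hg.symm⟩
  have hNz : ∀ a ∈ N, ∀ t ∈ Group.conjugatesOfSet ({v} : Set G), Commute a t := by
    intro a ha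
    have h1 : N ≤ Subgroup.centralizer (Group.conjugatesOfSet ({v} : Set G)) := by
      apply Subgroup.closure_le _ |>.mpr
      intro b hb' 
      rw [SetLike.mem_coe, Subgroup.mem_centralizer_iff]
      intro t ht
      obtain ⟨g, rfl⟩ := hconjs b hb'
      obtain ⟨g', rfl⟩ := hconjs t ht
      exact (hrc g' _ (hconj v hv g)).eq
    intro t ht
    exact (Subgroup.mem_centralizer_iff.mp (h1 ha) t ht).symm
  have hNcomm : ∀ a ∈ N, ∀ b ∈ N, Commute a b := by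
    intro a ha b hb'
    have h1 : N ≤ Subgroup.centralizer ({a} : Set G) := by
      apply Subgroup.closure_le _ |>.mpr
      intro t ht
      rw [SetLike.mem_coe, Subgroup.mem_centralizer_iff]
      intro s hs
      rw [Set.mem_singleton_iff] at hs
      subst hs
      exact hNz s ha t ht
    have h2 := Subgroup.mem_centralizer_iff.mp (h1 hb') a (Set.mem_singleton a)
    exact h2
  have hNpow : ∀ a ∈ N, a ^ p = 1 := by
    intro a ha
    induction ha using Subgroup.closure_induction with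
    | mem x hx =>
      obtain ⟨g, rfl⟩ := hconjs x hx
      rw [conj_pow, ← hord v hv, pow_orderOf_eq_one]
      group
    | one => simp
    | mul x y hx hy ihx ihy =>
      rw [(hNcomm x hx y hy).mul_pow, ihx, ihy, one_mul]
    | inv x hx ih =>
      rw [inv_pow, ih, inv_one]
  have hNp : IsPGroup p N := by
    intro a
    refine ⟨1, ?_⟩
    apply Subtype.ext
    rw [pow_one]
    exact hNpow a a.2
  have hNc : N ≤ pCore p G := le_pCore hNn hNp
  constructor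
  · refine ⟨Subgroup.zpowers v, hv.2, ?_, ?_⟩
    · intro W hW a ha w hw
      obtain ⟨k, rfl⟩ := Subgroup.mem_zpowers_iff.mp ha
      by_cases hw1 : w = 1
      · rw [hw1]; simp
      · exact ((hvr w (hall w hw1 ⟨W, hW, hw⟩)).zpow_left k).eq
    · exact le_trans ((Subgroup.zpowers_le).mpr hvN) hNc
  · intro hs
    have hNbot : N ≠ ⊥ := by
      intro h
      rw [h, Subgroup.mem_bot] at hvN
      exact hv.1 hvN
    have hNtop : N = ⊤ := (hs.eq_bot_or_eq_top_of_normal N hNn).resolve_left hNbot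
    have hcm : ∀ a b : G, Commute a b := fun a b =>
      hNcomm a (by rw [hNtop]; trivial) b (by rw [hNtop]; trivial)
    have hnorm : ∀ X : Subgroup G, X.Normal := by
      intro X
      refine ⟨fun n hn g => ?_⟩
      rw [(hcm g n).eq]
      simpa using hn
    have h1 := (hs.eq_bot_or_eq_top_of_normal X (hnorm X)).resolve_left (hnb X hX)
    have h2 := (hs.eq_bot_or_eq_top_of_normal Y (hnorm Y)).resolve_left (hnb Y hY)
    exact hne (h1.trans h2.symm)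

end Cfsg.Agent.S3196
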