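import Cfsg.Statements.S3200
import Mathlib
import Cfsg.Agent.Lib.H1Hall
import Cfsg.Agent.Lib.H1Conj
import Cfsg.Agent.Lib.CharGal

set_option autoImplicit false
open Cfsg

namespace Cfsg.Agent.S3200

open Cfsg.Agent.Lib.H1Hall

universe u

lemma comp_of {X : Type*} [Group X] [Finite X] (D : Subgroup X) (hodd : ¬ 2 ∣ Nat.card D) (r : ℕ)
    (h : Nat.card X = 2 ^ r * Nat.card D) (P : Sylow 2 X) : Subgroup.IsComplement' (P : Subgroup X) D := by
  haveI : Fact (Nat.Prime 2) := ⟨Nat.prime_two⟩
  obtain ⟨a, ha⟩ := IsPGroup.iff_card.mp P.2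
  have h1 := (P : Subgroup X).card_mul_index
  have hi : ¬ 2 ∣ (P : Subgroup X).index := P.not_dvd_index
  have hc1 : Nat.Coprime (2 ^ a) (Nat.card D) :=
    Nat.Coprime.pow_left a ((Nat.Prime.coprime_iff_not_dvd Nat.prime_two).mpr hodd)
  have hc2 : Nat.Coprime (2 ^ r) (P : Subgroup X).index :=
    Nat.Coprime.pow_left r ((Nat.Prime.coprime_iff_not_dvd Nat.prime_two).mpr hi)
  have h2 : 2 ^ a ∣ 2 ^ r := by
    apply hc1.dvd_of_dvd_mul_right
    rw [← h, ← h1, ha]
    exact dvd_mul_right _ _
  have h3 : 2 ^ r ∣ 2 ^ a := by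
    apply hc2.dvd_of_dvd_mul_right
    rw [← ha, h1, h]
    exact dvd_mul_right _ _
  have h4 : a = r := by
    apply le_antisymm
    · exact (Nat.pow_dvd_pow_iff_le_right (by norm_num)).mp h2
    · exact (Nat.pow_dvd_pow_iff_le_right (by norm_num)).mp h3
  subst h4
  apply Subgroup.isComplement'_of_coprime
  · rw [h, ha]
  · rw [ha]
    exact hc1

lemma quot_Q {H : Type u} [Group H] [Finite H] (C : Subgroup H) (hodd : ¬ 2 ∣ Nat.card C) (k : ℕ)
    (hk : Nat.card H = 2 ^ k * Nat.card C) (N : Subgroup H) [N.Normal] :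
    (¬ 2 ∣ Nat.card (C.map (QuotientGroup.mk' N)) ∧
      ∃ r, Nat.card (H ⧸ N) = 2 ^ r * Nat.card (C.map (QuotientGroup.mk' N))) ∧
    (¬ 2 ∣ Nat.card (C.subgroupOf N) ∧ ∃ l, Nat.card N = 2 ^ l * Nat.card (C.subgroupOf N)) := by
  classical
  have hcard0 : ∀ (X : Subgroup H), 0 < Nat.card X := fun X => Nat.card_pos
  set Cb := C.map (QuotientGroup.mk' N) with hCb
  have h1 : Nat.card (Cb.comap (QuotientGroup.mk' N)) = Nat.card Cb * Nat.card N := card_comap_mk N Cb
  have h2 : Cb.comap (QuotientGroup.mk' N) = C ⊔ N := by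
    rw [hCb, Subgroup.comap_map_eq, QuotientGroup.ker_mk']
  rw [h2] at h1
  have h3 := Cfsg.Agent.Lib.H1Conj.card_sup_mul_card_inf C N
  have hd : Nat.card (C.subgroupOf N) = Nat.card (C ⊓ N : Subgroup H) := by
    rw [← Subgroup.subgroupOf_map_subtype, Subgroup.card_map_of_injective N.subtype_injective]
  rw [← hd] at h3
  set c := Nat.card C
  set d := Nat.card (C.subgroupOf N)
  set n := Nat.card N
  set b := Nat.card Cb
  set m := Nat.card (C ⊔ N : Subgroup H)
  have hn0 : 0 < n := Nat.card_pos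
  have hd0 : 0 < d := Nat.card_pos
  have hb0 : 0 < b := Nat.card_pos
  have hbd : b * d = c := by
    have h4 : b * d * n = c * n := by rw [← h3, h1]; ring
    exact Nat.eq_of_mul_eq_mul_right hn0 h4
  have hcm : c ∣ m := Subgroup.card_dvd_of_le le_sup_left
  have hmH : m ∣ 2 ^ k * c := by
    rw [← hk]
    exact Subgroup.card_subgroup_dvd_card _
  obtain ⟨t, ht⟩ := hcm
  have hc0 : 0 < c := Nat.card_pos
  have htk : t ∣ 2 ^ k := by
    rw [ht, mul_comm c t] at hmH
    exact Nat.dvd_of_mul_dvd_mul_right hc0 hmH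
  obtain ⟨l, hl, rfl⟩ := (Nat.dvd_prime_pow Nat.prime_two).mp htk
  have hnd : n = 2 ^ l * d := by
    have h4 : b * n = b * (2 ^ l * d) := by
      rw [← h1, ht, ← hbd]; ring
    exact Nat.eq_of_mul_eq_mul_left hb0 h4
  obtain ⟨r, rfl⟩ := Nat.exists_eq_add_of_le hl
  refine ⟨⟨?_, r, ?_⟩, ?_, l, hnd⟩
  · intro h
    apply hodd
    show 2 ∣ c
    rw [← hbd]
    exact Dvd.dvd.mul_right h d
  · have h5 := Subgroup.card_eq_card_quotient_mul_card_subgroup N
    rw [hk] at h5
    have h6 : Nat.card (H ⧸ N) * n = (2 ^ r * b) * n := by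
      rw [← h5, hnd, ← hbd, pow_add]; ring
    exact Nat.eq_of_mul_eq_mul_right hn0 h6
  · intro h
    apply hodd
    show 2 ∣ c
    rw [← hbd]
    exact Dvd.dvd.mul_left h b

lemma solv_main {H : Type u} [Group H] [Finite H] (C : Subgroup H) (hC : IsMulCommutative C)
    (hodd : ¬ 2 ∣ Nat.card C) (k : ℕ) (hk : Nat.card H = 2 ^ k * Nat.card C) : Group.IsSolvable H := by
  classical
  induction hc : Nat.card H using Nat.strong_induction_on generalizing H k with
  | _ w ih =>
    rcases subsingleton_or_nontrivial H with hs | hnt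
    · infer_instance
    by_cases hsimple : IsSimpleGroup H
    · by_cases hC1 : C = ⊥
      · have h1 : Nat.card H = 2 ^ k := by
          rw [hk, hC1]
          simp
        have h2 : IsPGroup 2 H := IsPGroup.of_card h1
        haveI := h2.isNilpotent
        infer_instance
      · obtain ⟨x, hx, hx1⟩ := (Subgroup.bot_or_exists_ne_one C).resolve_left hC1
        have hle : C ≤ Subgroup.centralizer ({x} : Set H) := by
          intro y hy
          rw [Subgroup.mem_centralizer_iff]
          intro t ht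
          rw [Set.mem_singleton_iff] at ht
          subst ht
          have := hC.1.1 ⟨t, hx⟩ ⟨y, hy⟩
          exact congrArg Subtype.val this
        have h1 : (Subgroup.centralizer ({x} : Set H)).index ∣ 2 ^ k := by
          have h2 := Subgroup.card_mul_index (Subgroup.centralizer ({x} : Set H))
          have h3 : Nat.card C ∣ Nat.card (Subgroup.centralizer ({x} : Set H)) := Subgroup.card_dvd_of_le hle
          obtain ⟨t, ht⟩ := h3
          rw [hk, ht] at h2
          have h4 : Nat.card C * (t * (Subgroup.centralizer ({x} : Set H)).index) = Nat.card C * 2 ^ k := by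
            rw [← mul_assoc, h2, mul_comm]
          have h5 := Nat.eq_of_mul_eq_mul_left Nat.card_pos h4
          exact ⟨t, by rw [← h5]; ring⟩
        obtain ⟨j, -, hj⟩ := (Nat.dvd_prime_pow Nat.prime_two).mp h1
        haveI : Fintype H := Fintype.ofFinite H
        have h6 := Cfsg.Agent.Lib.CharGal.prime_card_of_prime_power_class 2 j Nat.prime_two x hx1 hj
        haveI : Fact (Nat.card H).Prime := ⟨h6⟩
        haveI := isCyclic_of_prime_card (α := H) rfl
        letI := IsCyclic.commGroup (α := H)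
        infer_instance
    · have hnot : ∃ N : Subgroup H, N.Normal ∧ N ≠ ⊥ ∧ N ≠ ⊤ := by
        by_contra hno
        push Not at hno
        apply hsimple
        exact ⟨fun N hN => by
          by_cases h : N = ⊥
          · exact Or.inl h
          · exact Or.inr (hno N hN h)⟩
      obtain ⟨N, hN, hN1, hN2⟩ := hnot
      haveI := hN
      obtain ⟨⟨hb, r, hr⟩, hd, l, hl⟩ := quot_Q C hodd k hk N
      have hH0 : 0 < Nat.card H := Nat.card_pos
      have hNlt : Nat.card N < Nat.card H := by
        have h1 := Subgroup.card_mul_index N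
        have h2 : N.index ≠ 1 := fun h => hN2 (Subgroup.index_eq_one.mp h)
        have h3 : N.index ≠ 0 := Subgroup.index_ne_zero_of_finite
        have h4 : 0 < Nat.card N := Nat.card_pos
        have : 2 ≤ N.index := by omega
        nlinarith
      have hQlt : Nat.card (H ⧸ N) < Nat.card H := by
        have h1 := Subgroup.card_eq_card_quotient_mul_card_subgroup N
        have h2 : Nat.card N ≠ 1 := fun h => hN1 ((Subgroup.eq_bot_iff_card _).2 h)
        have h3 : 0 < Nat.card N := Nat.card_pos
        have h4 : 0 < Nat.card (H ⧸ N) := Nat.card_pos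
        have : 2 ≤ Nat.card N := by omega
        nlinarith
      rw [hc] at hNlt hQlt
      have hsN : Group.IsSolvable N := by
        refine ih _ hNlt (C.subgroupOf N) ⟨⟨fun a b => ?_⟩⟩ hd l hl rfl
        apply Subtype.ext
        apply Subtype.ext
        show ((a : N) : H) * ((b : N) : H) = ((b : N) : H) * ((a : N) : H)
        exact congrArg Subtype.val (hC.1.1 ⟨((a : N) : H), a.2⟩ ⟨((b : N) : H), b.2⟩)
      have hsQ : Group.IsSolvable (H ⧸ N) := by
        refine ih _ hQlt (C.map (QuotientGroup.mk' N)) ⟨⟨?_⟩⟩ hb r hr rfl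
        rintro ⟨_, a, ha, rfl⟩ ⟨_, b, hb', rfl⟩
        apply Subtype.ext
        show QuotientGroup.mk' N a * QuotientGroup.mk' N b = QuotientGroup.mk' N b * QuotientGroup.mk' N a
        rw [← map_mul, ← map_mul]
        congr 1
        exact congrArg Subtype.val (hC.1.1 ⟨a, ha⟩ ⟨b, hb'⟩)
      exact Group.isSolvable_of_ker_le_range N.subtype (QuotientGroup.mk' N) (by
        rw [QuotientGroup.ker_mk', Subgroup.range_subtype])

/-- Let H be a finite group in which a Sylow 2-subgroup has an abelian complement (an abelian subgroup meeting it trivially whose product with it is all of H). Then H is solvable, and every subgroup and every quotient group of H again has a Sylow 2-subgroup with an abelian complement. -/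
theorem result {H : Type*} [Group H] [Finite H]
    (S : Sylow 2 H) (C : Subgroup H) (hC : IsMulCommutative ↥C) (hSC : Subgroup.IsComplement' (S : Subgroup H) C) :
    Group.IsSolvable H ∧
    (∀ L : Subgroup H, ∃ (P : Sylow 2 ↥L) (D : Subgroup ↥L), IsMulCommutative ↥D ∧ Subgroup.IsComplement' (P : Subgroup ↥L) D) ∧
    (∀ (N : Subgroup H) [N.Normal], ∃ (P : Sylow 2 (H ⧸ N)) (D : Subgroup (H ⧸ N)),
      IsMulCommutative ↥D ∧ Subgroup.IsComplement' (P : Subgroup (H ⧸ N)) D) := by
  classical
  haveI : Fact (Nat.Prime 2) := ⟨Nat.prime_two⟩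
  obtain ⟨k, hk⟩ := IsPGroup.iff_card.mp S.2
  have hcm := hSC.card_mul_card
  have hcard : Nat.card H = 2 ^ k * Nat.card C := by rw [← hcm, hk]
  have hindex : (S : Subgroup H).index = Nat.card C := by
    have h1 := (S : Subgroup H).card_mul_index
    rw [← hcm] at h1
    exact Nat.eq_of_mul_eq_mul_left Nat.card_pos h1
  have hodd : ¬ 2 ∣ Nat.card C := by
    rw [← hindex]
    exact S.not_dvd_index
  have hsolv := solv_main C hC hodd k hcard
  refine ⟨hsolv, ?_, ?_⟩
  · intro L
    haveI hsL : Group.IsSolvable L := inferInstance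
    let P : Sylow 2 ↥L := default
    have hcop := P.card_coprime_index
    obtain ⟨D, hD⟩ := hall_exists (G := ↥L) (P : Subgroup ↥L).index (Nat.card (P : Subgroup ↥L))
      (by rw [mul_comm, Subgroup.card_mul_index]) hcop.symm
    refine ⟨P, D, ?_, ?_⟩
    · -- `D` lies in a conjugate of `C`
      have hKodd : Nat.Coprime (Nat.card (D.map L.subtype)) (2 ^ k) := by
        rw [Subgroup.card_map_of_injective L.subtype_injective, hD]
        apply Nat.Coprime.pow_right
        exact Nat.Coprime.symm ((Nat.Prime.coprime_iff_not_dvd Nat.prime_two).mpr P.not_dvd_index)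
      have hCop : (Nat.card C).Coprime (2 ^ k) :=
        Nat.Coprime.symm (Nat.Coprime.pow_left k ((Nat.Prime.coprime_iff_not_dvd Nat.prime_two).mpr hodd))
      have hcard' : Nat.card H = Nat.card C * 2 ^ k := by rw [hcard, mul_comm]
      obtain ⟨H', hH', hle⟩ := hall_contains _ _ hcard' hCop _ hKodd
      obtain ⟨g, hg⟩ := hall_conj _ _ hcard' hCop H' C hH' rfl
      refine ⟨⟨fun a b => ?_⟩⟩
      have hma : ((a : L) : H) ∈ H' := hle ⟨_, a.2, rfl⟩
      have hmb : ((b : L) : H) ∈ H' := hle ⟨_, b.2, rfl⟩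
      have hma' : g * ((a : L) : H) * g⁻¹ ∈ C := by
        rw [← hg]
        exact Subgroup.smul_mem_pointwise_smul _ (MulAut.conj g) _ hma
      have hmb' : g * ((b : L) : H) * g⁻¹ ∈ C := by
        rw [← hg]
        exact Subgroup.smul_mem_pointwise_smul _ (MulAut.conj g) _ hmb
      have h1 := congrArg Subtype.val (hC.1.1 ⟨_, hma'⟩ ⟨_, hmb'⟩)
      have h2 : g * ((a : L) : H) * g⁻¹ * (g * ((b : L) : H) * g⁻¹) =
          g * ((b : L) : H) * g⁻¹ * (g * ((a : L) : H) * g⁻¹) := h1
      have h3 : ((a : L) : H) * ((b : L) : H) = ((b : L) : H) * ((a : L) : H) := by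
        have h4 : g * (((a : L) : H) * ((b : L) : H)) * g⁻¹ = g * (((b : L) : H) * ((a : L) : H)) * g⁻¹ := by
          calc g * (((a : L) : H) * ((b : L) : H)) * g⁻¹
              = g * ((a : L) : H) * g⁻¹ * (g * ((b : L) : H) * g⁻¹) := by group
            _ = g * ((b : L) : H) * g⁻¹ * (g * ((a : L) : H) * g⁻¹) := h2
            _ = _ := by group
        exact mul_left_cancel (mul_right_cancel h4)
      apply Subtype.ext
      apply Subtype.ext
      exact h3
    · apply Subgroup.isComplement'_of_coprime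
      · rw [hD, Subgroup.card_mul_index]
      · rw [hD]
        exact hcop
  · intro N hN
    obtain ⟨⟨hb, r, hr⟩, -⟩ := quot_Q C hodd k hcard N
    refine ⟨default, C.map (QuotientGroup.mk' N), ⟨⟨?_⟩⟩, comp_of _ hb r hr _⟩
    rintro ⟨_, a, ha, rfl⟩ ⟨_, b, hb', rfl⟩
    apply Subtype.ext
    show QuotientGroup.mk' N a * QuotientGroup.mk' N b = QuotientGroup.mk' N b * QuotientGroup.mk' N a
    rw [← map_mul, ← map_mul]
    congr 1
    exact congrArg Subtype.val (hC.1.1 ⟨a, ha⟩ ⟨b, hb'⟩)

end Cfsg.Agent.S3200
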