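import Cfsg.Statements.S3201
import Mathlib
import Cfsg.Agent.Lib.H9Two
import Cfsg.Agent.Lib.H1Frat

set_option autoImplicit false
open Cfsg

namespace Cfsg.Agent.S3201

open Cfsg Cfsg.Agent.Lib.H9Two

lemma quat_rel {M : ℕ} : (QuaternionGroup.xa 0 : QuaternionGroup M) * QuaternionGroup.a 1 * (QuaternionGroup.xa 0)⁻¹
    = (QuaternionGroup.a 1)⁻¹ := by
  have h1 : (QuaternionGroup.a 1 : QuaternionGroup M)⁻¹ = QuaternionGroup.a (-1) := by
    apply inv_eq_of_mul_eq_one_right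
    rw [QuaternionGroup.a_mul_a]
    simp
  rw [h1, mul_inv_eq_iff_eq_mul, QuaternionGroup.xa_mul_a, QuaternionGroup.a_mul_xa]
  simp

lemma main_abs {S : Type*} [Group S] [Finite S] (hS : IsPGroup 2 S) {ι : Type*} (D : ι → Subgroup S)
    [∀ j, (D j).Normal] (i₀ : ι) (hDZ : ∀ j, ∀ x ∈ D j, x ∈ Subgroup.center S)
    (hF1 : ∀ j, ∀ z ∈ Subgroup.center S, z ^ 2 ∈ D j) (hzj : ∀ j, ∃ z ∈ Subgroup.center S, z ∉ D j)
    (hUq : ∀ j, ∃! x : S ⧸ D j, orderOf x = 2) (hF4 : ∀ x : S, (∀ j, x ∈ D j) → x = 1)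
    (hnc : ¬ IsMulCommutative (S ⧸ D i₀)) :
    ∃ E Q : Subgroup S, Cfsg.IsInternalDirectProduct E Q ⊤ ∧ Cfsg.IsElementaryAbelian 2 E ∧
      ¬ IsMulCommutative ↥Q ∧ ∃! x : ↥Q, orderOf x = 2 := by
  classical
  haveI : Fact (Nat.Prime 2) := ⟨Nat.prime_two⟩
  have hU : ∀ j, ∀ x y : S, x ^ 2 ∈ D j → x ∉ D j → y ^ 2 ∈ D j → y ∉ D j → x⁻¹ * y ∈ D j := by
    intro j x y hx hx' hy hy'
    obtain ⟨u, -, huu⟩ := hUq j
    have hord : ∀ w : S, w ^ 2 ∈ D j → w ∉ D j →
        orderOf (QuotientGroup.mk w : S ⧸ D j) = 2 := by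
      intro w hw hw'
      apply orderOf_eq_prime
      · rw [← QuotientGroup.mk_pow]
        exact (QuotientGroup.eq_one_iff _).mpr hw
      · intro h
        exact hw' ((QuotientGroup.eq_one_iff _).mp h)
    have h1 := huu _ (hord x hx hx')
    have h2 := huu _ (hord y hy hy')
    exact QuotientGroup.eq.mp (h1.trans h2.symm)
  have hF3 : ∀ j, ∀ x : S, x ^ 2 ∈ D j → x ∈ Subgroup.center S := by
    intro j x hx
    by_cases hxD : x ∈ D j
    · exact hDZ j x hxD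
    obtain ⟨z, hz, hzD⟩ := hzj j
    have h1 := hDZ j _ (hU j x z hx hxD (hF1 j z hz) hzD)
    have h2 : x = z * (x⁻¹ * z)⁻¹ := by group
    rw [h2]
    exact Subgroup.mul_mem _ hz (Subgroup.inv_mem _ h1)
  have hP1 : ∀ j, ∀ x : S, x ∉ Subgroup.center S → x ^ 2 ∉ D j := fun j x hx h => hx (hF3 j x h)
  have hF6 : ∀ u ∈ Subgroup.center S, ∀ v ∈ Subgroup.center S, (∀ j, u ∉ D j) → (∀ j, v ∉ D j) → u = v := by
    intro u hu v hv hu' hv'
    have h1 : u⁻¹ * v = 1 := hF4 _ (fun j => hU j u v (hF1 j u hu) (hu' j) (hF1 j v hv) (hv' j))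
    exact (inv_mul_eq_one.mp h1)
  have hF7 : ∀ t ∈ Subgroup.center S, t ^ 2 = 1 := fun t ht => hF4 _ (fun j => hF1 j t ht)
  have hQ2 : IsPGroup 2 (S ⧸ D i₀) := hS.to_quotient _
  obtain ⟨M', ⟨e⟩⟩ := exists_quat_of_unique hQ2 (fun h => hnc ⟨⟨h⟩⟩) (hUq i₀)
  have hM' : M' ≠ 0 := by
    rintro rfl
    apply hnc
    have hcyc : IsCyclic (QuaternionGroup (2 ^ 0)) := QuaternionGroup.quaternionGroup_one_isCyclic
    have hcomm : ∀ a b : QuaternionGroup (2 ^ 0), a * b = b * a := by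
      intro a b
      exact hcyc.commGroup.mul_comm a b
    refine ⟨⟨fun a b => e.injective ?_⟩⟩
    rw [map_mul, map_mul, hcomm]
  obtain ⟨m, rfl⟩ : ∃ m, M' = m + 1 := ⟨M' - 1, by omega⟩
  haveI hne : NeZero (2 ^ (m + 1)) := ⟨by positivity⟩
  let π : S →* QuaternionGroup (2 ^ (m + 1)) := e.toMonoidHom.comp (QuotientGroup.mk' (D i₀))
  have hπ : ∀ x, π x = 1 ↔ x ∈ D i₀ := by
    intro x
    constructor
    · intro h
      have h1 : e (QuotientGroup.mk x) = 1 := h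
      have h2 : (QuotientGroup.mk x : S ⧸ D i₀) = 1 := by
        apply e.injective
        rw [h1, map_one]
      exact (QuotientGroup.eq_one_iff _).mp h2
    · intro h
      show e (QuotientGroup.mk x) = 1
      rw [(QuotientGroup.eq_one_iff _).mpr h, map_one]
  have hπs : Function.Surjective π := by
    intro q
    obtain ⟨x, hx⟩ := QuotientGroup.mk_surjective (e.symm q)
    refine ⟨x, ?_⟩
    show e (QuotientGroup.mk x) = q
    rw [hx, e.apply_symm_apply]
  obtain ⟨r, hr⟩ := hπs (QuaternionGroup.a 1)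
  obtain ⟨s, hs⟩ := hπs (QuaternionGroup.xa 0)
  have hao : orderOf (QuaternionGroup.a 1 : QuaternionGroup (2 ^ (m + 1))) = 2 * 2 ^ (m + 1) :=
    QuaternionGroup.orderOf_a_one
  have ha1 : (QuaternionGroup.a 1 : QuaternionGroup (2 ^ (m + 1))) ^ (2 ^ (m + 1)) ≠ 1 := by
    apply pow_ne_one_of_lt_orderOf (by positivity)
    rw [hao]
    have : 0 < 2 ^ (m + 1) := by positivity
    omega
  have ha2 : (QuaternionGroup.a 1 : QuaternionGroup (2 ^ (m + 1))) ^ (2 ^ (m + 1) * 2) = 1 := by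
    have h2 : 2 ^ (m + 1) * 2 = orderOf (QuaternionGroup.a 1 : QuaternionGroup (2 ^ (m + 1))) := by
      rw [hao]; exact mul_comm _ _
    rw [h2, pow_orderOf_eq_one]
  have hr1 : r ^ (2 ^ m) ∉ Subgroup.center S := by
    intro h
    have h1 := hF1 i₀ _ h
    rw [← hπ, map_pow, map_pow, hr, ← pow_mul, ← pow_succ] at h1
    exact ha1 h1
  have htdef : r ^ (2 ^ (m + 1)) = (r ^ (2 ^ m)) ^ 2 := by rw [← pow_mul, pow_succ]
  have htZ : r ^ (2 ^ (m + 1)) ∈ Subgroup.center S := by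
    apply hF3 i₀
    rw [← hπ, map_pow, map_pow, hr, ← pow_mul]
    exact ha2
  have ht' : ∀ j, r ^ (2 ^ (m + 1)) ∉ D j := by
    intro j
    rw [htdef]
    exact hP1 j _ hr1
  have hs1 : s ∉ Subgroup.center S := by
    intro h
    have h1 := hF1 i₀ _ h
    rw [← hπ, map_pow, hs, QuaternionGroup.xa_sq, ← QuaternionGroup.a_one_pow] at h1
    exact ha1 h1
  have hs2Z : s ^ 2 ∈ Subgroup.center S := by
    apply hF3 i₀
    rw [← hπ, map_pow, map_pow, hs, ← pow_mul]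
    exact QuaternionGroup.xa_pow_four _
  have hts : s ^ 2 = r ^ (2 ^ (m + 1)) := hF6 _ hs2Z _ htZ (fun j => hP1 j s hs1) ht'
  have ht2 := hF7 _ htZ
  have ht1 : r ^ (2 ^ (m + 1)) ≠ 1 := by
    intro h
    apply ht' i₀
    rw [h]
    exact Subgroup.one_mem _
  have hro : orderOf r = 2 * 2 ^ (m + 1) := by
    have h1 : orderOf r = 2 ^ (m + 1 + 1) := by
      apply orderOf_eq_prime_pow ht1
      rw [pow_succ 2 (m + 1), pow_mul]
      exact ht2
    rw [h1, pow_succ 2 (m + 1), mul_comm]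
  -- the relation
  have hyD : s * r * s⁻¹ * r ∈ D i₀ := by
    rw [← hπ, map_mul, map_mul, map_mul, map_inv, hs, hr, quat_rel, inv_mul_cancel]
  have hyZ := hDZ i₀ _ hyD
  have hyall : ∀ j, s * r * s⁻¹ * r ∈ D j := by
    intro j
    by_contra hyj
    have h1 := hU j _ _ (hF1 j _ hyZ) hyj (hF1 j _ htZ) (ht' j)
    have h2 := hF7 _ hyZ
    set y := s * r * s⁻¹ * r with hy
    set t := r ^ (2 ^ (m + 1)) with ht
    have h3 : (s * r) ^ 2 = y * t := by
      have htc := (Subgroup.mem_center_iff.mp htZ r)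
      calc (s * r) ^ 2 = (s * r * s⁻¹ * r) * (r⁻¹ * s ^ 2 * r) := by rw [pow_two, pow_two]; group
        _ = y * (r⁻¹ * t * r) := by rw [hts]
        _ = y * (r⁻¹ * (r * t)) := by rw [mul_assoc r⁻¹ t r, ← htc]
        _ = y * t := by group
    have h4 : y * t = (y⁻¹ * t) := by
      have hyinv : y⁻¹ = y := inv_eq_of_mul_eq_one_left (by rw [← pow_two]; exact h2)
      rw [hyinv]
    have h5 : (s * r) ^ 2 ∈ D j := by rw [h3, h4]; exact h1
    have h6 := hF3 j _ h5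
    have h7 := hF1 i₀ _ h6
    rw [← hπ, map_pow, map_mul, hs, hr, QuaternionGroup.xa_mul_a, QuaternionGroup.xa_sq,
      ← QuaternionGroup.a_one_pow] at h7
    exact ha1 h7
  have hy1 : s * r * s⁻¹ * r = 1 := hF4 _ hyall
  have hinv : s * r * s⁻¹ = r⁻¹ := eq_inv_of_mul_eq_one_left hy1
  let ψ := Cfsg.Agent.Lib.H1Quat.quatHom r s hro hinv hts
  have hψπ : ∀ q, π (ψ q) = q := by
    rintro (i | i)
    · change π (Cfsg.Agent.Lib.H1Quat.ee (2 ^ (m + 1)) r i) = QuaternionGroup.a i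
      unfold Cfsg.Agent.Lib.H1Quat.ee
      rw [map_pow, hr, QuaternionGroup.a_one_pow, ZMod.natCast_zmod_val]
    · change π (s * Cfsg.Agent.Lib.H1Quat.ee (2 ^ (m + 1)) r i) = QuaternionGroup.xa i
      unfold Cfsg.Agent.Lib.H1Quat.ee
      rw [map_mul, map_pow, hr, hs, QuaternionGroup.a_one_pow, ZMod.natCast_zmod_val,
        QuaternionGroup.xa_mul_a, zero_add]
  have hψinj : Function.Injective ψ := by
    intro a b h
    rw [← hψπ a, h, hψπ]
  refine ⟨D i₀, ψ.range, ⟨le_top, le_top, ?_, ?_, ?_⟩, ⟨?_, ?_⟩, ?_, ?_⟩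
  · intro a ha b _
    exact (Subgroup.mem_center_iff.mp (hDZ i₀ a ha) b).symm
  · rw [eq_bot_iff]
    rintro x ⟨hx, q, rfl⟩
    have h1 := (hπ _).mpr hx
    rw [hψπ] at h1
    rw [h1, map_one]
    exact Subgroup.one_mem _
  · rw [eq_top_iff]
    intro x _
    have h1 : x * (ψ (π x))⁻¹ ∈ D i₀ := by
      rw [← hπ, map_mul, map_inv, hψπ, mul_inv_cancel]
    have h2 : x = (x * (ψ (π x))⁻¹) * ψ (π x) := by group
    rw [h2]
    exact Subgroup.mul_mem _ (Subgroup.mem_sup_left h1) (Subgroup.mem_sup_right ⟨_, rfl⟩)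
  · exact ⟨⟨fun a b => Subtype.ext ((Subgroup.mem_center_iff.mp (hDZ i₀ a a.2) b).symm)⟩⟩
  · exact fun a ha => hF7 a (hDZ i₀ a ha)
  · rintro ⟨⟨h⟩⟩
    have h1 := h ⟨ψ (QuaternionGroup.a 1), ⟨_, rfl⟩⟩ ⟨ψ (QuaternionGroup.xa 0), ⟨_, rfl⟩⟩
    have h2 : ψ (QuaternionGroup.a 1) * ψ (QuaternionGroup.xa 0) =
        ψ (QuaternionGroup.xa 0) * ψ (QuaternionGroup.a 1) := congrArg Subtype.val h1
    have h3 := congrArg π h2
    rw [map_mul, map_mul, hψπ, hψπ] at h3
    have h4 := quat_rel (M := 2 ^ (m + 1))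
    rw [← h3, mul_inv_cancel_right] at h4
    have h5 : (QuaternionGroup.a 1 : QuaternionGroup (2 ^ (m + 1))) ^ 2 = 1 := by
      rw [pow_two]
      nth_rw 1 [h4]
      exact inv_mul_cancel _
    have h6 : 2 < orderOf (QuaternionGroup.a 1 : QuaternionGroup (2 ^ (m + 1))) := by
      rw [hao]
      have : 2 ^ 1 ≤ 2 ^ (m + 1) := Nat.pow_le_pow_right (by norm_num) (by omega)
      omega
    exact pow_ne_one_of_lt_orderOf (by norm_num) h6 h5
  · obtain ⟨u, hu, huu⟩ := hUq i₀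
    have hmem : ∀ q, ψ q ∈ ψ.range := fun q => MonoidHom.mem_range.mpr ⟨q, rfl⟩
    refine ⟨⟨ψ (e u), hmem _⟩, ?_, ?_⟩
    · show orderOf (⟨ψ (e u), hmem _⟩ : ↥ψ.range) = 2
      rw [Subgroup.orderOf_mk, orderOf_injective ψ hψinj, MulEquiv.orderOf_eq, hu]
    · rintro ⟨_, q, rfl⟩ hq
      apply Subtype.ext
      show ψ q = ψ (e u)
      congr 1
      have h1 : orderOf (⟨ψ q, hmem q⟩ : ↥ψ.range) = orderOf q := by
        rw [Subgroup.orderOf_mk, orderOf_injective ψ hψinj]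
      have h2 : orderOf q = 2 := by rw [← h1]; exact hq
      have h3 : orderOf (e.symm q) = 2 := by rw [MulEquiv.orderOf_eq, h2]
      have h4 := huu _ h3
      rw [← h4, e.apply_symm_apply]

/-- Let S be a finite 2-group whose centre Z(S) has n ≥ 2 distinct maximal subgroups C₁, …, Cₙ with trivial intersection such that each quotient S/Cᵢ is a non-abelian group with exactly one involution (a generalized quaternion group). Then S is the internal direct product of an elementary abelian subgroup and a non-abelian subgroup with exactly one involution. -/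
theorem result {S : Type*} [Group S] [Finite S]
    (hS : IsPGroup 2 S) (n : ℕ) (hn : 2 ≤ n) (C : Fin n → Subgroup ↥(Subgroup.center S))
    (hCmax : ∀ i, IsCoatom (C i)) (hCinj : Function.Injective C) (hCint : ⨅ i, C i = ⊥)
    (hCq : ∀ i, ∃ (_ : ((C i).map (Subgroup.center S).subtype).Normal),
      ¬ IsMulCommutative (S ⧸ (C i).map (Subgroup.center S).subtype) ∧
      ∃! x : S ⧸ (C i).map (Subgroup.center S).subtype, orderOf x = 2) :
    ∃ E Q : Subgroup S, Cfsg.IsInternalDirectProduct E Q ⊤ ∧ Cfsg.IsElementaryAbelian 2 E ∧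
      ¬ IsMulCommutative ↥Q ∧ ∃! x : ↥Q, orderOf x = 2 := by
  classical
  haveI : Fact (Nat.Prime 2) := ⟨Nat.prime_two⟩
  haveI hnil : Group.IsNilpotent ↥(Subgroup.center S) := (hS.to_subgroup _).isNilpotent
  have hDmem : ∀ j, ∀ x (hx : x ∈ Subgroup.center S), x ∈ (C j).map (Subgroup.center S).subtype ↔
      (⟨x, hx⟩ : ↥(Subgroup.center S)) ∈ C j := by
    intro j x hx
    constructor
    · rintro ⟨c, hc, h⟩
      have : c = ⟨x, hx⟩ := Subtype.ext h
      rwa [← this]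
    · intro h
      exact ⟨_, h, rfl⟩
  haveI hNorm : ∀ j, ((C j).map (Subgroup.center S).subtype).Normal := fun j => (hCq j).choose
  let i₀ : Fin n := ⟨0, by omega⟩
  apply main_abs hS (fun j => (C j).map (Subgroup.center S).subtype) i₀
  · rintro j _ ⟨c, _, rfl⟩
    exact c.2
  · intro j z hz
    obtain ⟨hn1, hn2, -⟩ := Cfsg.Agent.Lib.H1Frat.coatom_index_prime_of_nilpotent (hCmax j)
    have hZp : IsPGroup 2 ↥(Subgroup.center S) := hS.to_subgroup _
    obtain ⟨k, hk⟩ := IsPGroup.iff_card.mp hZp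
    have h1 : (C j).index ∣ 2 ^ k := by rw [← hk]; exact Subgroup.index_dvd_card _
    have h2 : (C j).index = 2 := (Nat.prime_dvd_prime_iff_eq hn2 Nat.prime_two).mp (hn2.dvd_of_dvd_pow h1)
    have h3 := Subgroup.pow_index_mem (C j) (⟨z, hz⟩ : ↥(Subgroup.center S))
    rw [h2] at h3
    exact ⟨_, h3, rfl⟩
  · intro j
    by_contra h
    push Not at h
    apply (hCmax j).1
    rw [eq_top_iff]
    rintro ⟨z, hz⟩ -
    exact (hDmem j z hz).mp (h z hz)
  · intro j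
    exact (hCq j).choose_spec.2
  · intro x hx
    have hxZ : x ∈ Subgroup.center S := by
      obtain ⟨c, _, rfl⟩ := hx i₀
      exact c.2
    have h1 : (⟨x, hxZ⟩ : ↥(Subgroup.center S)) ∈ ⨅ i, C i := by
      rw [Subgroup.mem_iInf]
      intro j
      exact (hDmem j x hxZ).mp (hx j)
    rw [hCint, Subgroup.mem_bot] at h1
    exact congrArg Subtype.val h1
  · exact (hCq i₀).choose_spec.1

end Cfsg.Agent.S3201
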