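import Cfsg.Statements.S3202
import Mathlib
import Cfsg.Agent.Lib.H9Two

set_option autoImplicit false
open Cfsg

namespace Cfsg.Agent.S3202

open Cfsg Cfsg.Agent.Lib.H1Core Cfsg.Agent.Lib.H9Two
open scoped commutatorElement

/-- Let S be a finite 2-group of 2-rank exactly 2 and D a maximal subgroup of the centre of S such that S/D is a non-abelian group with exactly one involution (a generalized quaternion group). Then S has a nontrivial cyclic characteristic subgroup. -/
theorem result {S : Type*} [Group S]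
    [Finite S] (hS : IsPGroup 2 S) (hr2 : Cfsg.PRankLE 2 2 S) (hr1 : ¬ Cfsg.PRankLE 2 1 S)
    (D : Subgroup ↥(Subgroup.center S)) (hD : IsCoatom D)
    (hq : ∃ (_ : (D.map (Subgroup.center S).subtype).Normal),
      ¬ IsMulCommutative (S ⧸ D.map (Subgroup.center S).subtype) ∧
      ∃! x : S ⧸ D.map (Subgroup.center S).subtype, orderOf x = 2) :
    ∃ C : Subgroup S, C ≠ ⊥ ∧ IsCyclic ↥C ∧ C.Characteristic := by
  classical
  obtain ⟨hnor, hna, hun⟩ := hq
  set D₁ := D.map (Subgroup.center S).subtype with hD₁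
  have hD₁c : D₁ ≤ Subgroup.center S := by
    rintro _ ⟨z, _, rfl⟩
    exact z.2
  have hQ2 : IsPGroup 2 (S ⧸ D₁) := hS.to_quotient D₁
  have hna' : ¬ ∀ a b : S ⧸ D₁, a * b = b * a := fun h => hna ⟨⟨h⟩⟩
  obtain ⟨n, ⟨e⟩⟩ := exists_quat_of_unique hQ2 hna' hun
  haveI : NeZero (2 ^ n) := ⟨by positivity⟩
  let ψ : S →* QuaternionGroup (2 ^ n) := e.toMonoidHom.comp (QuotientGroup.mk' D₁)
  have hψ : Function.Surjective ψ := e.surjective.comp (QuotientGroup.mk'_surjective D₁)
  have hker : ∀ x, ψ x = 1 → x ∈ D₁ := by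
    intro x hx
    have h1 : e (QuotientGroup.mk x) = 1 := hx
    have h2 : (QuotientGroup.mk x : S ⧸ D₁) = 1 := by simpa using h1
    exact (QuotientGroup.eq_one_iff x).mp h2
  obtain ⟨x₀, hx₀⟩ := hψ (QuaternionGroup.a 1)
  obtain ⟨t, ht⟩ := hψ (QuaternionGroup.xa 0)
  set C := (Subgroup.zpowers (QuaternionGroup.a 1 : QuaternionGroup (2 ^ n))).comap ψ with hC
  have hCi : C.index = 2 := by
    rw [hC, Subgroup.index_comap_of_surjective _ hψ]
    have h1 := Subgroup.card_mul_index (Subgroup.zpowers (QuaternionGroup.a 1 : QuaternionGroup (2 ^ n)))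
    rw [Nat.card_zpowers, QuaternionGroup.orderOf_a_one, Nat.card_eq_fintype_card, QuaternionGroup.card] at h1
    have hpos : 0 < 2 * 2 ^ n := by positivity
    apply Nat.eq_of_mul_eq_mul_left hpos
    rw [h1]; ring
  have hx₀C : x₀ ∈ C := by
    show ψ x₀ ∈ Subgroup.zpowers (QuaternionGroup.a 1 : QuaternionGroup (2 ^ n))
    rw [hx₀]; exact Subgroup.mem_zpowers _
  have htC : t ∉ C := by
    intro h
    have h1 : ψ t ∈ Subgroup.zpowers (QuaternionGroup.a 1 : QuaternionGroup (2 ^ n)) := h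
    rw [ht, Subgroup.mem_zpowers_iff] at h1
    obtain ⟨k, hk⟩ := h1
    have hfin : ∃ m : ℕ, (QuaternionGroup.a 1 : QuaternionGroup (2 ^ n)) ^ m = QuaternionGroup.xa 0 := by
      refine ⟨(k % (orderOf (QuaternionGroup.a 1 : QuaternionGroup (2 ^ n)))).toNat, ?_⟩
      rw [← hk]
      conv_rhs => rw [← zpow_mod_orderOf]
      rw [← zpow_natCast, Int.toNat_of_nonneg (Int.emod_nonneg _ (by
        have := orderOf_pos (QuaternionGroup.a 1 : QuaternionGroup (2 ^ n)); omega))]
    obtain ⟨m, hm⟩ := hfin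
    rw [QuaternionGroup.a_one_pow] at hm
    cases hm
  have hgen : ∀ y ∈ C, ∃ i : ℕ, ∃ d ∈ D₁, y = x₀ ^ i * d := by
    intro y hy
    have h1 : ψ y ∈ Subgroup.zpowers (QuaternionGroup.a 1 : QuaternionGroup (2 ^ n)) := hy
    rw [Subgroup.mem_zpowers_iff] at h1
    obtain ⟨k, hk⟩ := h1
    have hfin : ∃ m : ℕ, (QuaternionGroup.a 1 : QuaternionGroup (2 ^ n)) ^ m = ψ y := by
      refine ⟨(k % (orderOf (QuaternionGroup.a 1 : QuaternionGroup (2 ^ n)))).toNat, ?_⟩
      rw [← hk]
      conv_rhs => rw [← zpow_mod_orderOf]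
      rw [← zpow_natCast, Int.toNat_of_nonneg (Int.emod_nonneg _ (by
        have := orderOf_pos (QuaternionGroup.a 1 : QuaternionGroup (2 ^ n)); omega))]
    obtain ⟨m, hm⟩ := hfin
    refine ⟨m, (x₀ ^ m)⁻¹ * y, hker _ ?_, by group⟩
    rw [map_mul, map_inv, map_pow, hx₀, hm]
    group
  obtain ⟨-, hcyc⟩ := commutator_cyclic_of_index_two C D₁ hCi hD₁c x₀ hx₀C hgen htC
  refine ⟨commutator S, ?_, hcyc, inferInstance⟩
  intro hbot
  apply hna'
  intro a b
  induction a using QuotientGroup.induction_on with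
  | H a =>
    induction b using QuotientGroup.induction_on with
    | H b =>
      have h1 : ⁅a, b⁆ ∈ commutator S :=
        Subgroup.commutator_mem_commutator (Subgroup.mem_top a) (Subgroup.mem_top b)
      rw [hbot, Subgroup.mem_bot, commutatorElement_eq_one_iff_mul_comm] at h1
      rw [← QuotientGroup.mk_mul, h1, QuotientGroup.mk_mul]

end Cfsg.Agent.S3202
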