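import Cfsg.Statements.S3208
import Mathlib
import Cfsg.Agent.Lib.WellPlaced
import Cfsg.Agent.Lib.LBal3

set_option autoImplicit false
open Cfsg

namespace Cfsg.Agent.S3208

open Cfsg.Agent.Lib.WellPlaced

/-- Let j be an involution of a finite group G, H a subgroup of G, and T a Sylow 2-subgroup of H ∩ C_G(j) containing j such that ⟨j⟩ is a characteristic subgroup of T. Then T is a Sylow 2-subgroup of H. -/
theorem result {G : Type*} [Group G] [Finite G]
    (j : G) (hj : orderOf j = 2) (H T : Subgroup G) (hT : T ≤ H ⊓ Subgroup.centralizer ({j} : Set G)) (h2 : IsPGroup 2 ↥T)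
    (hSyl : ¬ 2 ∣ T.relIndex (H ⊓ Subgroup.centralizer ({j} : Set G))) (hjT : j ∈ T)
    (hchar : ((Subgroup.zpowers j).subgroupOf T).Characteristic) :
    ¬ 2 ∣ T.relIndex H := by
  classical
  haveI : Fact (Nat.Prime 2) := ⟨Nat.prime_two⟩
  have hTH : T ≤ H := hT.trans inf_le_left
  have hT' : IsPGroup 2 ↥(T.subgroupOf H) := h2.comap_of_injective _ (Subgroup.subtype_injective H)
  obtain ⟨R', hR'⟩ := hT'.exists_le_sylow
  by_cases heq : T.subgroupOf H = (R' : Subgroup ↥H)
  · show ¬ 2 ∣ (T.subgroupOf H).index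
    rw [heq]
    exact R'.not_dvd_index
  exfalso
  have hlt : T.subgroupOf H < (R' : Subgroup ↥H) := lt_of_le_of_ne hR' heq
  set R : Subgroup G := (R' : Subgroup ↥H).map H.subtype with hR
  have hRH : R ≤ H := Subgroup.map_subtype_le _
  have hRp : IsPGroup 2 ↥R := R'.2.map _
  have hTR : T ≤ R := by
    intro t ht
    exact ⟨⟨t, hTH ht⟩, hR' (Subgroup.mem_subgroupOf.mpr ht), rfl⟩
  have hTRne : T ≠ R := by
    intro h
    apply heq
    rw [hR] at h
    rw [h]
    exact Subgroup.comap_map_eq_self_of_injective (Subgroup.subtype_injective H) _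
  haveI : Group.IsNilpotent ↥R := hRp.isNilpotent
  have hltR : T.subgroupOf R < ⊤ := by
    refine lt_top_iff_ne_top.mpr ?_
    intro htop
    apply hTRne
    apply le_antisymm hTR
    intro r hr
    have : (⟨r, hr⟩ : ↥R) ∈ T.subgroupOf R := by rw [htop]; trivial
    exact Subgroup.mem_subgroupOf.mp this
  obtain ⟨x, hxN, hxT⟩ := SetLike.exists_of_lt (Group.normalizerCondition_of_isNilpotent _ hltR)
  have hxT' : (x : G) ∉ T := fun h => hxT (Subgroup.mem_subgroupOf.mpr h)
  have hxNT : (x : G) ∈ Subgroup.normalizer (T : Set G) := by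
    rw [Subgroup.mem_normalizer_iff]
    intro t
    by_cases ht : t ∈ R
    · have := Subgroup.mem_normalizer_iff.mp hxN ⟨t, ht⟩
      simpa [Subgroup.mem_subgroupOf] using this
    · constructor
      · intro h; exact absurd (hTR h) ht
      · intro h
        have h1 := hTR h
        have h2 : t = (x : G)⁻¹ * ((x : G) * t * (x : G)⁻¹) * x := by group
        rw [h2] at ht
        exact absurd (R.mul_mem (R.mul_mem (R.inv_mem x.2) h1) x.2) ht
  -- x centralizes j
  have hj2 : j ^ 2 = 1 := by rw [← hj]; exact pow_orderOf_eq_one j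
  have hxj : (x : G) * j * (x : G)⁻¹ = j := by
    have hfix := hchar.fixed (Cfsg.Agent.Lib.LBal3.conjEquiv T x hxNT)
    have hmem : (⟨j, hjT⟩ : ↥T) ∈ ((Subgroup.zpowers j).subgroupOf T).comap
        (Cfsg.Agent.Lib.LBal3.conjEquiv T x hxNT).toMonoidHom := by
      rw [hfix]
      exact Subgroup.mem_subgroupOf.mpr (Subgroup.mem_zpowers j)
    have h1 : (x : G) * j * (x : G)⁻¹ ∈ Subgroup.zpowers j :=
      Subgroup.mem_subgroupOf.mp (Subgroup.mem_comap.mp hmem)
    obtain ⟨k, hk⟩ := Subgroup.mem_zpowers_iff.mp h1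
    rw [← zpow_mod_orderOf, hj] at hk
    have h2 : k % ((2 : ℕ) : ℤ) = 0 ∨ k % ((2 : ℕ) : ℤ) = 1 := by omega
    rcases h2 with h2 | h2
    · rw [h2, zpow_zero] at hk
      exfalso
      have : j = 1 := by
        have h3 : (x : G) * j = x := mul_inv_eq_one.mp hk.symm
        simpa using h3
      rw [this, orderOf_one] at hj
      omega
    · rw [h2, zpow_one] at hk
      exact hk.symm
  have hxC : (x : G) ∈ H ⊓ Subgroup.centralizer ({j} : Set G) := by
    refine Subgroup.mem_inf.mpr ⟨hRH x.2, ?_⟩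
    rw [Subgroup.mem_centralizer_iff]
    intro w hw
    rw [Set.mem_singleton_iff] at hw
    rw [hw]
    exact (mul_inv_eq_iff_eq_mul.mp hxj).symm
  -- contradiction
  have hle : T ⊔ Subgroup.zpowers (x : G) ≤ H ⊓ Subgroup.centralizer ({j} : Set G) :=
    sup_le hT (by rw [Subgroup.zpowers_le]; exact hxC)
  have hle2 : T ⊔ Subgroup.zpowers (x : G) ≤ R :=
    sup_le hTR (by rw [Subgroup.zpowers_le]; exact x.2)
  have := eq_of_index_coprime (p := 2) (le_sup_left : T ≤ T ⊔ Subgroup.zpowers (x : G)) hle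
    (hRp.to_le hle2) hSyl
  exact hxT' (this (Subgroup.mem_sup_right (Subgroup.mem_zpowers _)))

end Cfsg.Agent.S3208
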