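import Cfsg.Statements.S3209
import Mathlib

set_option autoImplicit false
open Cfsg

namespace Cfsg.Agent.S3209

open Matrix

lemma sum_two_sq {F : Type*} [Field F] [Fintype F] (hF : Odd (Fintype.card F)) (x : F) :
    ∃ a b : F, a ^ 2 + b ^ 2 = x := by
  have hF' : Fintype.card F % 2 = 1 := Nat.odd_iff.mp hF
  have hg2 : Polynomial.degree ((Polynomial.X ^ 2 - Polynomial.C x : Polynomial F)) = 2 := by
    compute_degree!
  have hf2 : Polynomial.degree ((Polynomial.X ^ 2 : Polynomial F)) = 2 := by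
    compute_degree!
  obtain ⟨a, b, hab⟩ := FiniteField.exists_root_sum_quadratic hf2 hg2 hF'
  refine ⟨a, b, ?_⟩
  simp only [Polynomial.eval_pow, Polynomial.eval_X, Polynomial.eval_sub, Polynomial.eval_C] at hab
  linear_combination hab

lemma mat_eq {F : Type*} {a b c d a' b' c' d' : F} (h1 : a = a') (h2 : b = b') (h3 : c = c') (h4 : d = d') :
    (!![a, b; c, d] : Matrix (Fin 2) (Fin 2) F) = !![a', b'; c', d'] := by
  subst h1 h2 h3 h4
  rfl

lemma sl2_props (F : Type*) [Field F] [Fintype F] (hF : Odd (Fintype.card F)) :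
    ∃ n u₀ : SpecialLinearGroup (Fin 2) F, n ≠ 1 ∧ n * n = 1 ∧ (∀ u, u * u = 1 → u = 1 ∨ u = n) ∧ u₀ * u₀ = n ∧
      ∀ u, u * u = n → ∃ g, g * u₀ * g⁻¹ = u := by
  classical
  have h2 : (2 : F) ≠ 0 := by
    apply Ring.two_ne_zero
    intro h
    have := FiniteField.even_card_iff_char_two.mp h
    exact absurd this (by have := Nat.odd_iff.mp hF; omega)
  have h11 : (1 : F) ≠ -1 := by
    intro h
    apply h2
    linear_combination h
  let n : SpecialLinearGroup (Fin 2) F := ⟨!![-1, 0; 0, -1], by simp [Matrix.det_fin_two_of]⟩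
  let u₀ : SpecialLinearGroup (Fin 2) F := ⟨!![0, -1; 1, 0], by simp [Matrix.det_fin_two_of]⟩
  have hmat : ∀ u : SpecialLinearGroup (Fin 2) F, ∃ p q r s : F, u.1 = !![p, q; r, s] ∧ p * s - q * r = 1 := by
    intro u
    refine ⟨u.1 0 0, u.1 0 1, u.1 1 0, u.1 1 1, (Matrix.eta_fin_two _), ?_⟩
    have := u.2
    rwa [Matrix.det_fin_two] at this
  have hsq : ∀ p q r s : F, (!![p, q; r, s] : Matrix (Fin 2) (Fin 2) F) * !![p, q; r, s] =
      !![p * p + q * r, p * q + q * s; r * p + s * r, r * q + s * s] := by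
    intro p q r s
    rw [Matrix.mul_fin_two]
  refine ⟨n, u₀, ?_, ?_, ?_, ?_, ?_⟩
  · intro h
    have h1 := congrArg (fun A : SpecialLinearGroup (Fin 2) F => A.1 0 0) h
    simp [n] at h1
    exact h11 h1.symm
  · apply Subtype.ext
    show (!![-1, 0; 0, -1] : Matrix (Fin 2) (Fin 2) F) * !![-1, 0; 0, -1] = (1 : Matrix (Fin 2) (Fin 2) F)
    rw [hsq]
    ext i j
    fin_cases i <;> fin_cases j <;> simp
  · intro u hu
    obtain ⟨p, q, r, s, hm, hdet⟩ := hmat u
    have hu' : u.1 * u.1 = 1 := congrArg Subtype.val hu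
    rw [hm, hsq] at hu'
    have e1 := congrFun (congrFun hu' 0) 0
    have e2 := congrFun (congrFun hu' 0) 1
    have e3 := congrFun (congrFun hu' 1) 0
    have e4 := congrFun (congrFun hu' 1) 1
    simp at e1 e2 e3 e4
    have h3 : p * (p + s) = 2 := by linear_combination e1 + hdet
    have hps : p + s ≠ 0 := by
      intro h
      rw [h, mul_zero] at h3
      exact h2 h3.symm
    have hq : q = 0 := by
      have : q * (p + s) = 0 := by linear_combination e2
      exact (mul_eq_zero.mp this).resolve_right hps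
    have hr : r = 0 := by
      have : r * (p + s) = 0 := by linear_combination e3
      exact (mul_eq_zero.mp this).resolve_right hps
    subst hq hr
    have h4 : (p - s) ^ 2 = 0 := by linear_combination e1 + e4 - 2 * hdet
    have hpseq : s = p := by
      have := pow_eq_zero_iff (n := 2) (by norm_num) |>.mp h4
      linear_combination -this
    subst hpseq
    have h5 : (s - 1) * (s + 1) = 0 := by linear_combination e1
    rcases mul_eq_zero.mp h5 with h6 | h6
    · left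
      have hs1 : s = 1 := by linear_combination h6
      apply Subtype.ext
      show u.1 = 1
      rw [hm, hs1, Matrix.one_fin_two]
    · right
      have hs1 : s = -1 := by linear_combination h6
      apply Subtype.ext
      show u.1 = !![-1, 0; 0, -1]
      rw [hm, hs1]
  · apply Subtype.ext
    show (!![0, -1; 1, 0] : Matrix (Fin 2) (Fin 2) F) * !![0, -1; 1, 0] = !![-1, 0; 0, -1]
    rw [hsq]
    exact mat_eq (by ring) (by ring) (by ring) (by ring)
  · intro u hu
    obtain ⟨p, q, r, s, hm, hdet⟩ := hmat u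
    have hu' : u.1 * u.1 = !![-1, 0; 0, -1] := congrArg Subtype.val hu
    rw [hm, hsq] at hu'
    have e1 := congrFun (congrFun hu' 0) 0
    have e2 := congrFun (congrFun hu' 0) 1
    have e3 := congrFun (congrFun hu' 1) 0
    have e4 := congrFun (congrFun hu' 1) 1
    simp at e1 e2 e3 e4
    have hps : s = -p := by
      have h3 : p * (p + s) = 0 := by linear_combination e1 + hdet
      rcases mul_eq_zero.mp h3 with h4 | h4
      · have h5 : q ≠ 0 := by
          intro h6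
          rw [h4, h6] at hdet
          have : (0 : F) = 1 := by linear_combination hdet
          exact zero_ne_one this
        have h6 : q * (p + s) = 0 := by linear_combination e2
        have h7 := (mul_eq_zero.mp h6).resolve_left h5
        linear_combination h7
      · linear_combination h4
    subst hps
    obtain ⟨x, y, hD⟩ : ∃ x y : F, r * x ^ 2 - 2 * p * x * y - q * y ^ 2 ≠ 0 := by
      by_cases hr : r = 0
      · by_cases hq : q = 0
        · refine ⟨1, 1, ?_⟩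
          subst hr hq
          have hp : p ≠ 0 := by
            intro hp
            rw [hp] at e1
            have : (0 : F) = 1 := by linear_combination -e1
            exact zero_ne_one this
          have : (0 : F) * 1 ^ 2 - 2 * p * 1 * 1 - 0 * 1 ^ 2 = -(2 * p) := by ring
          rw [this]
          exact neg_ne_zero.mpr (mul_ne_zero h2 hp)
        · refine ⟨0, 1, ?_⟩
          have : r * 0 ^ 2 - 2 * p * 0 * 1 - q * 1 ^ 2 = -q := by ring
          rw [this]
          exact neg_ne_zero.mpr hq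
      · refine ⟨1, 0, ?_⟩
        have : r * 1 ^ 2 - 2 * p * 1 * 0 - q * 0 ^ 2 = r := by ring
        rw [this]
        exact hr
    obtain ⟨a, b, hab⟩ := sum_two_sq hF (r * x ^ 2 - 2 * p * x * y - q * y ^ 2)⁻¹
    have hab' : (r * x ^ 2 - 2 * p * x * y - q * y ^ 2) * (a ^ 2 + b ^ 2) = 1 := by
      rw [hab]
      exact mul_inv_cancel₀ hD
    let g : SpecialLinearGroup (Fin 2) F :=
      ⟨!![x * a + (p * x + q * y) * b, -x * b + (p * x + q * y) * a;
          y * a + (r * x - p * y) * b, -y * b + (r * x - p * y) * a], by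
        rw [Matrix.det_fin_two_of]
        linear_combination hab'⟩
    refine ⟨g, ?_⟩
    rw [mul_inv_eq_iff_eq_mul]
    apply Subtype.ext
    show g.1 * u₀.1 = u.1 * g.1
    rw [hm]
    show (!![x * a + (p * x + q * y) * b, -x * b + (p * x + q * y) * a;
          y * a + (r * x - p * y) * b, -y * b + (r * x - p * y) * a] : Matrix (Fin 2) (Fin 2) F) * !![0, -1; 1, 0]
        = !![p, q; r, -p] * !![x * a + (p * x + q * y) * b, -x * b + (p * x + q * y) * a;
          y * a + (r * x - p * y) * b, -y * b + (r * x - p * y) * a]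
    rw [Matrix.mul_fin_two, Matrix.mul_fin_two]
    exact mat_eq (by linear_combination (-(b * x)) * e1) (by linear_combination (-(a * x)) * e1)
      (by linear_combination (-(b * y)) * e1) (by linear_combination (-(a * y)) * e1)

lemma pull {G A : Type*} [Group G] [Group A] (L : Subgroup G) (e : ↥L ≃* A) (j : G) (hjL : j ∈ L)
    (hj2 : j * j = 1) (hj1 : j ≠ 1) (n u₀ : A) (hnu : ∀ u, u * u = 1 → u = 1 ∨ u = n)
    (hu₀ : u₀ * u₀ = n) (hc : ∀ u, u * u = n → ∃ g, g * u₀ * g⁻¹ = u) :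
    ∃ U ∈ L, U * U = j ∧ (∀ u ∈ L, u * u = 1 → u = 1 ∨ u = j) ∧ ∀ u ∈ L, u * u = j → ∃ g ∈ L, g * U * g⁻¹ = u := by
  have hen : e ⟨j, hjL⟩ = n := by
    have h1 : e ⟨j, hjL⟩ * e ⟨j, hjL⟩ = 1 := by
      rw [← map_mul, ← map_one e]
      congr 1
      exact Subtype.ext hj2
    refine (hnu _ h1).resolve_left ?_
    intro h
    apply hj1
    have h2 : (⟨j, hjL⟩ : ↥L) = 1 := by
      apply e.injective
      rw [h, map_one]
    exact congrArg Subtype.val h2
  have hsn : e.symm n = ⟨j, hjL⟩ := by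
    rw [← hen, e.symm_apply_apply]
  refine ⟨(e.symm u₀ : G), (e.symm u₀).2, ?_, ?_, ?_⟩
  · have h1 : e.symm u₀ * e.symm u₀ = ⟨j, hjL⟩ := by
      rw [← map_mul, hu₀, hsn]
    exact congrArg Subtype.val h1
  · intro u hu huu
    have h1 : e ⟨u, hu⟩ * e ⟨u, hu⟩ = 1 := by
      rw [← map_mul, ← map_one e]
      congr 1
      exact Subtype.ext huu
    rcases hnu _ h1 with h2 | h2
    · left
      have h3 : (⟨u, hu⟩ : ↥L) = 1 := by
        apply e.injective
        rw [h2, map_one]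
      exact congrArg Subtype.val h3
    · right
      have h3 : (⟨u, hu⟩ : ↥L) = ⟨j, hjL⟩ := by
        apply e.injective
        rw [h2, hen]
      exact congrArg Subtype.val h3
  · intro u hu huu
    have h1 : e ⟨u, hu⟩ * e ⟨u, hu⟩ = n := by
      rw [← map_mul, ← hen]
      congr 1
      exact Subtype.ext huu
    obtain ⟨g, hg⟩ := hc _ h1
    refine ⟨(e.symm g : G), (e.symm g).2, ?_⟩
    have h2 : e.symm g * e.symm u₀ * (e.symm g)⁻¹ = ⟨u, hu⟩ := by
      rw [← map_inv, ← map_mul, ← map_mul, hg, e.symm_apply_apply]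
    exact congrArg Subtype.val h2

/-- Let L₁ ≅ SL₂(q₁) and L₂ ≅ SL₂(q₂), q₁ and q₂ odd, be elementwise-commuting subgroups of a finite group meeting in ⟨j⟩ for an involution j. Then L₁L₂ has exactly two conjugacy classes of involutions: the central involution j, and one further class (there is an involution x ≠ j in L₁L₂, and every involution of L₁L₂ other than j is conjugate to x by an element of L₁L₂). -/
theorem result {G : Type*} [Group G] [Finite G]
    {F₁ : Type*} [Field F₁] [Fintype F₁] {F₂ : Type*} [Field F₂] [Fintype F₂]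
    (hF₁ : Odd (Fintype.card F₁)) (hF₂ : Odd (Fintype.card F₂)) (L₁ L₂ : Subgroup G)
    (e₁ : ↥L₁ ≃* Matrix.SpecialLinearGroup (Fin 2) F₁) (e₂ : ↥L₂ ≃* Matrix.SpecialLinearGroup (Fin 2) F₂)
    (hc : ∀ x ∈ L₁, ∀ y ∈ L₂, x * y = y * x) (j : G) (hj : orderOf j = 2) (hm : L₁ ⊓ L₂ = Subgroup.zpowers j) :
    ∃ x ∈ L₁ ⊔ L₂, orderOf x = 2 ∧ x ≠ j ∧
      ∀ y ∈ L₁ ⊔ L₂, orderOf y = 2 → y = j ∨ ∃ g ∈ L₁ ⊔ L₂, g * x * g⁻¹ = y := by
  classical
  haveI : Fact (Nat.Prime 2) := ⟨Nat.prime_two⟩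
  obtain ⟨n₁, u₁, -, -, hn₁u, hu₁, hu₁c⟩ := sl2_props F₁ hF₁
  obtain ⟨n₂, u₂, -, -, hn₂u, hu₂, hu₂c⟩ := sl2_props F₂ hF₂
  have hjmem : j ∈ L₁ ⊓ L₂ := by rw [hm]; exact Subgroup.mem_zpowers j
  have hj2 : j * j = 1 := by rw [← pow_two, ← hj, pow_orderOf_eq_one]
  have hj1 : j ≠ 1 := by
    intro h
    rw [h, orderOf_one] at hj
    omega
  obtain ⟨U₁, hU₁, hU₁2, hI₁, hC₁⟩ := pull L₁ e₁ j hjmem.1 hj2 hj1 n₁ u₁ hn₁u hu₁ hu₁c
  obtain ⟨U₂, hU₂, hU₂2, hI₂, hC₂⟩ := pull L₂ e₂ j hjmem.2 hj2 hj1 n₂ u₂ hn₂u hu₂ hu₂c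
  have hmemj : ∀ x, x ∈ L₁ → x ∈ L₂ → x = 1 ∨ x = j := by
    intro x hx1 hx2
    have h1 : x ∈ Subgroup.zpowers j := by rw [← hm]; exact ⟨hx1, hx2⟩
    obtain ⟨k, rfl⟩ := Subgroup.mem_zpowers_iff.mp h1
    rcases Int.even_or_odd k with hk | hk
    · obtain ⟨m, rfl⟩ := hk
      left
      rw [← two_mul, _root_.zpow_mul, zpow_two, hj2, _root_.one_zpow]
    · obtain ⟨m, rfl⟩ := hk
      right
      rw [_root_.zpow_add, _root_.zpow_mul, zpow_two, hj2, _root_.one_zpow, one_mul, zpow_one]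
  have hprod : ∀ y ∈ L₁ ⊔ L₂, ∃ u ∈ L₁, ∃ v ∈ L₂, y = u * v := by
    intro y hy
    let S' : Subgroup G :=
      { carrier := {y | ∃ u ∈ L₁, ∃ v ∈ L₂, y = u * v}
        one_mem' := ⟨1, L₁.one_mem, 1, L₂.one_mem, by simp⟩
        mul_mem' := by
          rintro _ _ ⟨u, hu, v, hv, rfl⟩ ⟨u', hu', v', hv', rfl⟩
          refine ⟨u * u', L₁.mul_mem hu hu', v * v', L₂.mul_mem hv hv', ?_⟩
          calc u * v * (u' * v') = u * (v * u') * v' := by group
            _ = u * (u' * v) * v' := by rw [hc u' hu' v hv]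
            _ = _ := by group
        inv_mem' := by
          rintro _ ⟨u, hu, v, hv, rfl⟩
          refine ⟨u⁻¹, L₁.inv_mem hu, v⁻¹, L₂.inv_mem hv, ?_⟩
          rw [_root_.mul_inv_rev]
          exact (hc u⁻¹ (L₁.inv_mem hu) v⁻¹ (L₂.inv_mem hv)).symm }
    have h1 : L₁ ⊔ L₂ ≤ S' :=
      sup_le (fun x hx => ⟨x, hx, 1, L₂.one_mem, by simp⟩) (fun x hx => ⟨1, L₁.one_mem, x, hx, by simp⟩)
    exact h1 hy
  have hU₁no : U₁ ∉ L₂ := by
    intro h
    rcases hmemj U₁ hU₁ h with h1 | h1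
    · rw [h1, one_mul] at hU₁2
      exact hj1 hU₁2.symm
    · rw [h1, hj2] at hU₁2
      exact hj1 hU₁2.symm
  have hsq : (U₁ * U₂) * (U₁ * U₂) = 1 := by
    calc (U₁ * U₂) * (U₁ * U₂) = U₁ * (U₂ * U₁) * U₂ := by group
      _ = U₁ * (U₁ * U₂) * U₂ := by rw [hc U₁ hU₁ U₂ hU₂]
      _ = (U₁ * U₁) * (U₂ * U₂) := by group
      _ = 1 := by rw [hU₁2, hU₂2, hj2]
  refine ⟨U₁ * U₂, Subgroup.mul_mem _ (Subgroup.mem_sup_left hU₁) (Subgroup.mem_sup_right hU₂), ?_, ?_, ?_⟩
  · apply orderOf_eq_prime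
    · rw [pow_two]; exact hsq
    · intro h
      apply hU₁no
      have h1 : U₁ = U₂⁻¹ := eq_inv_of_mul_eq_one_left h
      rw [h1]
      exact L₂.inv_mem hU₂
  · intro h
    apply hU₁no
    have h1 : U₁ = j * U₂⁻¹ := by rw [← h]; group
    rw [h1]
    exact L₂.mul_mem hjmem.2 (L₂.inv_mem hU₂)
  · intro y hy hyo
    obtain ⟨u, hu, v, hv, rfl⟩ := hprod y hy
    have hyy : (u * v) * (u * v) = 1 := by rw [← pow_two, ← hyo, pow_orderOf_eq_one]
    have hy1 : u * v ≠ 1 := by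
      intro h
      rw [h, orderOf_one] at hyo
      omega
    have h1 : (u * u) * (v * v) = 1 := by
      calc (u * u) * (v * v) = u * (u * v) * v := by group
        _ = u * (v * u) * v := by rw [hc u hu v hv]
        _ = (u * v) * (u * v) := by group
        _ = 1 := hyy
    have h2 : u * u = (v * v)⁻¹ := eq_inv_of_mul_eq_one_left h1
    have h3 : u * u ∈ L₂ := by
      rw [h2]
      exact L₂.inv_mem (L₂.mul_mem hv hv)
    rcases hmemj _ (L₁.mul_mem hu hu) h3 with h4 | h4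
    · left
      have h5 : v * v = 1 := by
        rw [h4, one_mul] at h1
        exact h1
      rcases hI₁ u hu h4 with h6 | h6 <;> rcases hI₂ v hv h5 with h7 | h7
      · exfalso; apply hy1; rw [h6, h7, one_mul]
      · rw [h6, h7, one_mul]
      · rw [h6, h7, mul_one]
      · exfalso; apply hy1; rw [h6, h7, hj2]
    · right
      have h5 : v * v = j := by
        rw [h4] at h1
        have h6 : v * v = j⁻¹ := eq_inv_of_mul_eq_one_right h1
        rw [h6]
        exact inv_eq_of_mul_eq_one_left hj2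
      obtain ⟨g₁, hg₁, hg₁'⟩ := hC₁ u hu h4
      obtain ⟨g₂, hg₂, hg₂'⟩ := hC₂ v hv h5
      refine ⟨g₁ * g₂, Subgroup.mul_mem _ (Subgroup.mem_sup_left hg₁) (Subgroup.mem_sup_right hg₂), ?_⟩
      rw [← hg₁', ← hg₂']
      have e1 : g₂ * U₁ = U₁ * g₂ := (hc U₁ hU₁ g₂ hg₂).symm
      have e2 : (g₂ * U₂ * g₂⁻¹) * g₁⁻¹ = g₁⁻¹ * (g₂ * U₂ * g₂⁻¹) :=
        (hc g₁⁻¹ (L₁.inv_mem hg₁) _ (L₂.mul_mem (L₂.mul_mem hg₂ hU₂) (L₂.inv_mem hg₂))).symm
      calc g₁ * g₂ * (U₁ * U₂) * (g₁ * g₂)⁻¹ = g₁ * (g₂ * U₁) * U₂ * g₂⁻¹ * g₁⁻¹ := by group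
        _ = g₁ * (U₁ * g₂) * U₂ * g₂⁻¹ * g₁⁻¹ := by rw [e1]
        _ = g₁ * U₁ * ((g₂ * U₂ * g₂⁻¹) * g₁⁻¹) := by group
        _ = g₁ * U₁ * (g₁⁻¹ * (g₂ * U₂ * g₂⁻¹)) := by rw [e2]
        _ = _ := by group

end Cfsg.Agent.S3209
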