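import Cfsg.Statements.S3224
import Mathlib
import Cfsg.Agent.Lib.PMaxClass3
import Cfsg.Agent.Lib.H9Two

set_option autoImplicit false
open Cfsg

namespace Cfsg.Agent.S3224

open Cfsg Subgroup

lemma num_split (k N : ℕ) (hk : Odd k) (h : 2 ^ (N + 2) ∣ k * k - 1) :
    2 ^ (N + 1) ∣ k - 1 ∨ 2 ^ (N + 1) ∣ k + 1 := by
  obtain ⟨u, rfl⟩ := hk
  have e1 : (2 * u + 1) * (2 * u + 1) - 1 = 4 * (u * (u + 1)) := by
    have : (2 * u + 1) * (2 * u + 1) = 4 * (u * (u + 1)) + 1 := by ring
    rw [this]; simp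
  rw [e1, pow_add, mul_comm (2 ^ N), show (2 : ℕ) ^ 2 = 4 by norm_num] at h
  have h2 : 2 ^ N ∣ u * (u + 1) := Nat.dvd_of_mul_dvd_mul_left (by norm_num) h
  have e2 : 2 * u + 1 - 1 = 2 * u := by omega
  have e3 : 2 * u + 1 + 1 = 2 * (u + 1) := by ring
  rw [e2, e3, pow_succ']
  rcases Nat.even_or_odd u with hu | hu
  · have hc : Nat.Coprime (2 ^ N) (u + 1) := Nat.Coprime.pow_left _ (by
      rw [Nat.coprime_two_left]; exact hu.add_one)
    left
    exact Nat.mul_dvd_mul_left 2 (hc.dvd_of_dvd_mul_right h2)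
  · have hc : Nat.Coprime (2 ^ N) u := Nat.Coprime.pow_left _ (by
      rw [Nat.coprime_two_left]; exact hu)
    right
    exact Nat.mul_dvd_mul_left 2 (hc.dvd_of_dvd_mul_left h2)

/-- A finite 2-group containing an involution whose centralizer has order 4 is dihedral, quasi-dihedral (semidihedral), or of order 4. -/
theorem result {S : Type*} [Group S] [Finite S] (hS : IsPGroup 2 S)
    (x : S) (hx : orderOf x = 2) (hC : Nat.card ↥(Subgroup.centralizer ({x} : Set S)) = 4) :
    (∃ n : ℕ, Nonempty (S ≃* DihedralGroup n)) ∨ Cfsg.IsQuasiDihedral S ∨ Nat.card S = 4 := by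
  classical
  haveI : Fact (Nat.Prime 2) := ⟨Nat.prime_two⟩
  obtain ⟨n, hn⟩ := IsPGroup.iff_card.mp hS
  have hxx : x * x = 1 := by rw [← pow_two, ← hx, pow_orderOf_eq_one]
  have hxA : x ∈ centralizer ({x} : Set S) := by
    rw [mem_centralizer_iff]
    intro y hy
    rw [Set.mem_singleton_iff.mp hy]
  have h4dvd : 2 ^ 2 ∣ 2 ^ n := by
    rw [← hn, show (2 : ℕ) ^ 2 = 4 by norm_num, ← hC]
    exact Subgroup.card_subgroup_dvd_card _
  have hn2 : 2 ≤ n := (Nat.pow_dvd_pow_iff_le_right (by norm_num)).mp h4dvd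
  rcases (by omega : n = 2 ∨ 3 ≤ n) with rfl | hn3
  · right; right
    rw [hn]
    norm_num
  have hAc : centralizer ((centralizer ({x} : Set S) : Subgroup S) : Set S) = centralizer ({x} : Set S) := by
    apply le_antisymm
    · intro y hy
      rw [mem_centralizer_iff]
      intro t ht
      rw [Set.mem_singleton_iff.mp ht]
      exact (mem_centralizer_iff.mp hy x hxA)
    · intro y hy
      rw [mem_centralizer_iff]
      intro t ht
      have hcomm := IsPGroup.isMulCommutative_of_card_eq_prime_sq (G := ↥(centralizer ({x} : Set S))) (p := 2)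
        (by rw [hC]; norm_num)
      exact congrArg Subtype.val (hcomm.1.1 ⟨t, ht⟩ ⟨y, hy⟩)
  have hc := Cfsg.Agent.Lib.PMaxClass.nilpotencyClass_of_self_centralizing (p := 2) n S hn _
    (by rw [hC]; norm_num) hAc
  obtain ⟨C, hCc, hCi⟩ := Cfsg.Agent.Lib.PMaxClass.exists_cyclic_index_two n S hn3 hn hc
  obtain ⟨N, rfl⟩ : ∃ N, n = N + 1 := ⟨n - 1, by omega⟩
  have hN2 : 2 ≤ N := by omega
  have hCcard : Nat.card C = 2 ^ N := by
    have h1 := C.card_mul_index
    rw [hCi, hn, pow_succ] at h1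
    exact Nat.eq_of_mul_eq_mul_right (by norm_num) h1
  obtain ⟨⟨a, haC⟩, hgen⟩ := IsCyclic.exists_generator (α := ↥C)
  have hCz : C = zpowers a := by
    apply le_antisymm
    · intro y hy
      obtain ⟨k, hk⟩ := Subgroup.mem_zpowers_iff.mp (hgen ⟨y, hy⟩)
      exact ⟨k, congrArg Subtype.val hk⟩
    · exact (Subgroup.zpowers_le).mpr haC
  have hao : orderOf a = 2 ^ N := by rw [← Nat.card_zpowers, ← hCz, hCcard]
  haveI hCn : C.Normal := Subgroup.normal_of_index_eq_two hCi
  -- `x` is not in `C`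
  have hxC : x ∉ C := by
    intro hxC
    haveI hCc' := hCc
    have hcen : ∀ g : S, g * x * g⁻¹ = x := by
      intro g
      have h1 : g * x * g⁻¹ ∈ C := hCn.conj_mem x hxC g
      have h2 : (⟨g * x * g⁻¹, h1⟩ : ↥C) * ⟨g * x * g⁻¹, h1⟩ = 1 := by
        apply Subtype.ext
        show g * x * g⁻¹ * (g * x * g⁻¹) = 1
        calc g * x * g⁻¹ * (g * x * g⁻¹) = g * (x * x) * g⁻¹ := by group
          _ = 1 := by rw [hxx]; group
      have h3 : (⟨x, hxC⟩ : ↥C) * ⟨x, hxC⟩ = 1 := Subtype.ext hxx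
      have hx1 : x ≠ 1 := by
        intro h
        rw [h, orderOf_one] at hx
        omega
      have h4 : (⟨g * x * g⁻¹, h1⟩ : ↥C) ≠ 1 := by
        intro h
        have h5 : g * x * g⁻¹ = 1 := congrArg Subtype.val h
        apply hx1
        have h6 : g * x = g := by
          rw [mul_inv_eq_one] at h5
          exact h5
        exact mul_left_cancel (a := g) (h6.trans (mul_one g).symm)
      have h5 : (⟨x, hxC⟩ : ↥C) ≠ 1 := fun h => hx1 (congrArg Subtype.val h)
      exact congrArg Subtype.val (Cfsg.Agent.Lib.H9Two.unique_invol_cyclic h2 h3 h4 h5)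
    have htop : centralizer ({x} : Set S) = ⊤ := by
      rw [eq_top_iff]
      intro g _
      rw [mem_centralizer_iff]
      intro t ht
      rw [Set.mem_singleton_iff.mp ht]
      exact (mul_inv_eq_iff_eq_mul.mp (hcen g)).symm
    rw [htop, Subgroup.card_top, hn] at hC
    have : 2 ^ 3 ≤ 2 ^ (N + 1) := Nat.pow_le_pow_right (by norm_num) (by omega)
    omega
  have hxna : x ∉ zpowers a := by rw [← hCz]; exact hxC
  -- Lemma Z
  have hZ : ∀ y ∈ zpowers a, y * x = x * y → y * y = 1 := by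
    intro y hy hyx
    by_contra hyy
    have h1 : y ∈ centralizer ({x} : Set S) := by
      rw [mem_centralizer_iff]
      intro t ht
      rw [Set.mem_singleton_iff.mp ht]
      exact hyx.symm
    have h2 : zpowers y ≤ centralizer ({x} : Set S) := (Subgroup.zpowers_le).mpr h1
    have h3 : orderOf y ∣ 4 := by
      rw [← Nat.card_zpowers, ← hC]
      exact Subgroup.card_dvd_of_le h2
    have h4 : orderOf y ≠ 1 := by
      intro h
      rw [orderOf_eq_one_iff] at h
      apply hyy
      rw [h, one_mul]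
    have h5 : orderOf y ≠ 2 := by
      intro h
      apply hyy
      rw [← pow_two, ← h, pow_orderOf_eq_one]
    have h6 : orderOf y = 4 := by
      have : (4 : ℕ) = 2 ^ 2 := by norm_num
      rw [this] at h3
      obtain ⟨j, hj, hj'⟩ := (Nat.dvd_prime_pow Nat.prime_two).mp h3
      interval_cases j
      · rw [pow_zero] at hj'; exact absurd hj' h4
      · rw [pow_one] at hj'; exact absurd hj' h5
      · rw [hj']; norm_num
    have h7 : zpowers y = centralizer ({x} : Set S) := by
      apply Subgroup.eq_of_le_of_card_ge h2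
      rw [hC, Nat.card_zpowers, h6]
    have h8 : x ∈ zpowers y := by rw [h7]; exact hxA
    exact hxna (((Subgroup.zpowers_le).mpr hy) h8)
  -- the action
  have h1 : x * a * x⁻¹ ∈ zpowers a := by
    rw [← hCz]
    exact hCn.conj_mem a haC x
  obtain ⟨k, hk⟩ := Cfsg.Agent.Lib.H1Quat.exists_pow_of_mem_zpowers h1
  have hxinv : x⁻¹ = x := inv_eq_of_mul_eq_one_left hxx
  have hkk : a ^ (k * k) = a := by
    calc a ^ (k * k) = (a ^ k) ^ k := by rw [pow_mul]
      _ = (x * a * x⁻¹) ^ k := by rw [hk]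
      _ = x * a ^ k * x⁻¹ := conj_pow
      _ = x * (x * a * x⁻¹) * x⁻¹ := by rw [hk]
      _ = (x * x) * a * (x * x)⁻¹ := by group
      _ = a := by rw [hxx]; group
  have ha1 : a ≠ 1 := by
    intro h
    rw [h, orderOf_one] at hao
    have : 2 ^ 2 ≤ 2 ^ N := Nat.pow_le_pow_right (by norm_num) hN2
    omega
  have hk0 : k ≠ 0 := by
    rintro rfl
    rw [pow_zero] at hk
    apply ha1
    have h6 : x * a = x := by
      rw [eq_comm, mul_inv_eq_one] at hk
      exact hk
    exact mul_left_cancel (a := x) (h6.trans (mul_one x).symm)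
  have hkk1 : a ^ (k * k - 1) = 1 := by
    have h2 : a ^ (k * k - 1) * a = a := by
      rw [← pow_succ, Nat.sub_add_cancel (Nat.mul_pos (Nat.pos_of_ne_zero hk0) (Nat.pos_of_ne_zero hk0)), hkk]
    exact mul_eq_right.mp h2
  have hdvd : 2 ^ N ∣ k * k - 1 := by
    rw [← hao]
    exact orderOf_dvd_of_pow_eq_one hkk1
  have hkodd : Odd k := by
    by_contra hne
    rw [Nat.not_odd_iff_even] at hne
    have h2 : 2 ∣ k * k - 1 := dvd_trans (dvd_pow_self 2 (by omega)) hdvd
    have h3 : Even (k * k) := hne.mul_right k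
    have h4 : 0 < k * k := Nat.mul_pos (Nat.pos_of_ne_zero hk0) (Nat.pos_of_ne_zero hk0)
    obtain ⟨v, hv⟩ := h3
    obtain ⟨w, hw⟩ := h2
    omega
  have hcard : Nat.card S = 2 * 2 ^ N := by rw [hn, pow_succ']
  -- the dihedral conclusion
  have hD : 2 ^ N ∣ k + 1 → (∃ n : ℕ, Nonempty (S ≃* DihedralGroup n)) ∨ Cfsg.IsQuasiDihedral S ∨ Nat.card S = 4 := by
    intro hdv
    left
    haveI hne : NeZero (2 ^ N) := ⟨by positivity⟩
    refine ⟨2 ^ N, Cfsg.Agent.Lib.PMaxClass.dihedral_iso a x hao hxx ?_ hxna hcard⟩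
    rw [← hk]
    have h2 : a ^ (k + 1) = 1 := by
      rw [← hao] at hdv
      exact orderOf_dvd_iff_pow_eq_one.mp hdv
    rw [pow_succ] at h2
    exact eq_inv_of_mul_eq_one_left h2
  obtain ⟨M, rfl⟩ : ∃ M, N = M + 2 := ⟨N - 2, by omega⟩
  have hpow : ∀ j : ℕ, 2 ^ (M + 2) ∣ j → a ^ j = 1 := by
    intro j hj
    rw [← hao] at hj
    exact orderOf_dvd_iff_pow_eq_one.mp hj
  have hcontra4 : ¬ (a ^ k = a) := by
    intro h
    rw [h] at hk
    have h2 : a * x = x * a := by
      calc a * x = (x * a * x⁻¹) * x := by rw [← hk]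
        _ = x * a := by group
    have h3 := hZ a (Subgroup.mem_zpowers a) h2
    have h4 : a ^ 2 = 1 := by rw [pow_two]; exact h3
    have h5 : orderOf a ∣ 2 := orderOf_dvd_of_pow_eq_one h4
    rw [hao] at h5
    have h6 := Nat.le_of_dvd (by norm_num) h5
    have h7 : 2 ^ 2 ≤ 2 ^ (M + 2) := Nat.pow_le_pow_right (by norm_num) (by omega)
    omega
  have hcase := num_split k M hkodd hdvd
  rcases Nat.eq_zero_or_pos M with rfl | hM
  · -- order of `a` is 4
    obtain ⟨u, rfl⟩ := hkodd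
    rcases Nat.even_or_odd u with hu | hu
    · exfalso
      obtain ⟨v, rfl⟩ := hu
      apply hcontra4
      have h2 : a ^ (4 * v) = 1 := hpow _ ⟨v, by norm_num⟩
      have h3 : 2 * (v + v) + 1 = 4 * v + 1 := by ring
      rw [h3, pow_succ, h2, one_mul]
    · obtain ⟨v, rfl⟩ := hu
      apply hD
      exact ⟨v + 1, by ring⟩
  · rcases hcase with h | h
    · -- `a ^ 2` centralizes `x`
      exfalso
      obtain ⟨t, ht⟩ := h
      have hk1 : k = 1 + 2 ^ (M + 1) * t := by
        have : 1 ≤ k := Nat.pos_of_ne_zero hk0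
        omega
      have h2 : a ^ (2 * k) = a ^ 2 := by
        have h3 : 2 * k = 2 + 2 ^ (M + 2) * t := by
          rw [hk1, pow_succ 2 (M + 1)]; ring
        rw [h3, pow_add, hpow _ ⟨t, rfl⟩, mul_one]
      have h3 : a ^ 2 * x = x * a ^ 2 := by
        have h4 : x * a ^ 2 * x⁻¹ = a ^ 2 := by
          rw [← conj_pow, ← hk, ← pow_mul, mul_comm, h2]
        calc a ^ 2 * x = (x * a ^ 2 * x⁻¹) * x := by rw [h4]
          _ = x * a ^ 2 := by group
      have h4 := hZ _ (Subgroup.npow_mem_zpowers a 2) h3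
      have h5 : a ^ 4 = 1 := by
        rw [← h4, ← pow_add]
      have h6 : orderOf a ∣ 4 := orderOf_dvd_of_pow_eq_one h5
      rw [hao] at h6
      have h7 := Nat.le_of_dvd (by norm_num) h6
      have h8 : 2 ^ 3 ≤ 2 ^ (M + 2) := Nat.pow_le_pow_right (by norm_num) (by omega)
      omega
    · obtain ⟨t, ht⟩ := h
      rcases Nat.even_or_odd t with htt | htt
      · apply hD
        obtain ⟨s, rfl⟩ := htt
        exact ⟨s, by rw [ht, pow_succ 2 (M + 1)]; ring⟩
      · right; left
        obtain ⟨s, rfl⟩ := htt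
        refine ⟨M + 2, by omega, hn, a, x, hao, hx, ?_⟩
        rw [← hk]
        have hh : M + 2 - 1 = M + 1 := rfl
        rw [hh]
        have h2 : a ^ (k + 1) = a ^ (2 ^ (M + 1)) := by
          have h3 : k + 1 = 2 ^ (M + 2) * s + 2 ^ (M + 1) := by
            rw [ht, pow_succ 2 (M + 1)]; ring
          rw [h3, pow_add, hpow _ ⟨s, rfl⟩, one_mul]
        have h4 : 2 ^ (M + 1) = 2 ^ (M + 1) - 1 + 1 := by
          have : 0 < 2 ^ (M + 1) := by positivity
          omega
        rw [h4, pow_succ, pow_succ] at h2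
        have h5 := mul_right_cancel h2
        rw [h5]

end Cfsg.Agent.S3224
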