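import Cfsg.Statements.S3225
import Mathlib
import Cfsg.Agent.Lib.InvolSylow

set_option autoImplicit false
open Cfsg

namespace Cfsg.Agent.S3225

open Cfsg Cfsg.Agent.Lib

/-- Transfer to a subgroup of index two in a Sylow subgroup. -/
lemma key {G : Type*} [Group G] [Finite G] (S : Sylow 2 G) (M : Subgroup G) (hMS : M ≤ (S : Subgroup G))
    (hM : M.relIndex (S : Subgroup G) = 2) (hG : ∀ H : Subgroup G, H.index ≠ 2) (n : ℕ) (hn : 1 ≤ n)
    (hord : ∀ y ∈ (S : Subgroup G), y ∉ M → 2 ^ (n - 1) < orderOf y)
    (x : G) (hx : x ∈ (S : Subgroup G)) (hxn : orderOf x = 2 ^ n) (hno : ∀ g : G, g * x * g⁻¹ ∉ M) : False := by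
  classical
  set M' := M.subgroupOf (S : Subgroup G) with hM'
  have hidx : M'.index = 2 := hM
  haveI hn' : M'.Normal := Subgroup.normal_of_index_eq_two hidx
  have hcardA : Nat.card (↥(S : Subgroup G) ⧸ M') = 2 := hidx
  haveI : Fact (Nat.card (↥(S : Subgroup G) ⧸ M')).Prime := ⟨by rw [hcardA]; exact Nat.prime_two⟩
  haveI hcyc : IsCyclic (↥(S : Subgroup G) ⧸ M') := isCyclic_of_prime_card rfl
  letI instA : CommGroup (↥(S : Subgroup G) ⧸ M') := IsCyclic.commGroup
  let ϕ : ↥(S : Subgroup G) →* (↥(S : Subgroup G) ⧸ M') := QuotientGroup.mk' _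
  have hne : ∃ s₀ : ↥(S : Subgroup G), s₀ ∉ M' := by
    by_contra hall
    push Not at hall
    have : M' = ⊤ := eq_top_iff.mpr fun s _ => hall s
    rw [this, Subgroup.index_top] at hidx
    omega
  obtain ⟨s₀, hs₀⟩ := hne
  set ι := ϕ s₀ with hι
  have hι1 : ι ≠ 1 := fun h => hs₀ ((QuotientGroup.eq_one_iff _).mp h)
  have hϕ : ∀ u : ↥(S : Subgroup G), u ∉ M' → ϕ u = ι := by
    intro u hu
    rw [hι]
    apply QuotientGroup.eq.mpr
    rw [Subgroup.mul_mem_iff_of_index_two hidx]
    constructor
    · intro h; exact absurd (by simpa using h) hu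
    · intro h; exact absurd h hs₀
  have hϕ1 : ∀ u : ↥(S : Subgroup G), u ∈ M' → ϕ u = 1 := fun u hu => (QuotientGroup.eq_one_iff _).mpr hu
  -- the transfer vanishes
  have hV : ϕ.transfer x = 1 := by
    by_contra hne1
    apply hG (ϕ.transfer).ker
    rw [Subgroup.index_ker]
    have h1 : Nat.card (ϕ.transfer).range ∣ 2 := by
      have h0 := Subgroup.card_subgroup_dvd_card (ϕ.transfer).range
      rw [hcardA] at h0
      exact h0
    have h2 : Nat.card (ϕ.transfer).range ≠ 1 := by
      intro h
      have := (Subgroup.eq_bot_of_card_eq _ h)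
      apply hne1
      have h3 : ϕ.transfer x ∈ (ϕ.transfer).range := ⟨x, rfl⟩
      rw [this, Subgroup.mem_bot] at h3
      exact h3
    rcases (Nat.dvd_prime Nat.prime_two).mp h1 with h | h
    · exact absurd h h2
    · exact h
  haveI : Fintype (G ⧸ (S : Subgroup G)) := Fintype.ofFinite _
  haveI : Fintype (Quotient (MulAction.orbitRel (Subgroup.zpowers x) (G ⧸ (S : Subgroup G)))) := Fintype.ofFinite _
  rw [MonoidHom.transfer_eq_prod_quotient_orbitRel_zpowers_quot] at hV
  have hterm : ∀ q : Quotient (MulAction.orbitRel (Subgroup.zpowers x) (G ⧸ (S : Subgroup G))),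
      ϕ ⟨q.out.out⁻¹ * x ^ Function.minimalPeriod (x • ·) q.out * q.out.out,
        QuotientGroup.out_conj_pow_minimalPeriod_mem (S : Subgroup G) x q.out⟩ = if x • q.out = q.out then ι else 1 := by
    intro q
    set c := q.out with hc
    set u := c.out with hu
    have hmem := QuotientGroup.out_conj_pow_minimalPeriod_mem (S : Subgroup G) x c
    by_cases hfix : x • c = c
    · rw [if_pos hfix]
      apply hϕ
      have hm : Function.minimalPeriod (x • ·) c = 1 := Function.minimalPeriod_eq_one_iff_isFixedPt.mpr hfix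
      intro hin
      have h1 : u⁻¹ * x ^ Function.minimalPeriod (x • ·) c * u ∈ M := hin
      rw [hm, pow_one] at h1
      apply hno u⁻¹
      rwa [inv_inv]
    · rw [if_neg hfix]
      apply hϕ1
      by_contra hnot
      have hnot' : u⁻¹ * x ^ Function.minimalPeriod (x • ·) c * u ∉ M := hnot
      set m := Function.minimalPeriod (x • ·) c with hm
      have h1 : 2 ^ (n - 1) < orderOf (u⁻¹ * x ^ m * u) := hord _ hmem hnot'
      have hper : (x • ·)^[2 ^ n] c = c := by
        have : ∀ k : ℕ, (x • ·)^[k] c = x ^ k • c := by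
          intro k
          induction k with
          | zero => simp
          | succ k ih =>
            rw [Function.iterate_succ_apply', ih, smul_smul, pow_succ']
        rw [this, ← hxn, pow_orderOf_eq_one, one_smul]
      have hdvd : m ∣ 2 ^ n := Function.IsPeriodicPt.minimalPeriod_dvd hper
      have hm1 : m ≠ 1 := fun h => hfix (Function.minimalPeriod_eq_one_iff_isFixedPt.mp h)
      obtain ⟨i, hi, hmi⟩ := (Nat.dvd_prime_pow Nat.prime_two).mp hdvd
      have hi1 : 1 ≤ i := by
        by_contra h
        have : i = 0 := by omega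
        rw [this, pow_zero] at hmi
        exact hm1 hmi
      have h2 : (u⁻¹ * x ^ m * u) ^ 2 ^ (n - 1) = 1 := by
        have e : u⁻¹ * x ^ m * u = u⁻¹ * x ^ m * u⁻¹⁻¹ := by rw [inv_inv]
        rw [e, conj_pow, ← pow_mul]
        have e2 : m * 2 ^ (n - 1) = 2 ^ n * 2 ^ (i - 1) := by
          rw [hmi]
          rw [← pow_add, ← pow_add]
          congr 1
          omega
        rw [e2, pow_mul, ← hxn, pow_orderOf_eq_one, one_pow]
        group
      have h3 := orderOf_le_of_pow_eq_one (by positivity) h2
      omega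
  rw [Finset.prod_congr rfl (fun q _ => hterm q), Finset.prod_ite, Finset.prod_const, Finset.prod_const_one, mul_one] at hV
  -- count
  have hxp : IsPGroup 2 (Subgroup.zpowers x) :=
    InvolSylow.isPGroup_zpowers_of_pow (r := n) (by rw [← hxn, pow_orderOf_eq_one])
  have hmod := IsPGroup.card_modEq_card_fixedPoints hxp (G ⧸ (S : Subgroup G))
  have hfixiff : ∀ c : G ⧸ (S : Subgroup G), c ∈ MulAction.fixedPoints (Subgroup.zpowers x) (G ⧸ (S : Subgroup G)) ↔ x • c = c := by
    intro c
    constructor
    · intro h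
      exact h ⟨x, Subgroup.mem_zpowers x⟩
    · rintro h ⟨z, hz⟩
      have hle : Subgroup.zpowers x ≤ MulAction.stabilizer G c := by
        rw [Subgroup.zpowers_le]
        exact h
      exact hle hz
  have hcount : (Finset.univ.filter (fun q : Quotient (MulAction.orbitRel (Subgroup.zpowers x) (G ⧸ (S : Subgroup G))) => x • q.out = q.out)).card =
      Nat.card (MulAction.fixedPoints (Subgroup.zpowers x) (G ⧸ (S : Subgroup G))) := by
    rw [Nat.card_eq_fintype_card]
    have : Fintype.card (MulAction.fixedPoints (Subgroup.zpowers x) (G ⧸ (S : Subgroup G))) =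
        (Finset.univ.filter (fun c : G ⧸ (S : Subgroup G) => x • c = c)).card := by
      rw [← Fintype.card_subtype]
      exact Fintype.card_congr (Equiv.subtypeEquivRight hfixiff)
    rw [this]
    refine Finset.card_bij (fun q _ => q.out) ?_ ?_ ?_
    · intro q hq
      simpa using hq
    · intro a _ b _ h
      exact Quotient.out_inj.mp h
    · intro c hc
      have hc' : x • c = c := by simpa using hc
      have h4 : (Quotient.mk (MulAction.orbitRel (Subgroup.zpowers x) (G ⧸ (S : Subgroup G))) c).out = c := by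
        obtain ⟨⟨z, hz⟩, hze⟩ := Quotient.mk_out (s := MulAction.orbitRel (Subgroup.zpowers x) (G ⧸ (S : Subgroup G))) c
        rw [← hze]
        exact (hfixiff c).mpr hc' ⟨z, hz⟩
      refine ⟨Quotient.mk _ c, ?_, h4⟩
      simp only [Finset.mem_filter, Finset.mem_univ, true_and]
      rw [h4]
      exact hc'
  rw [hcount] at hV
  have hidxodd : Nat.card (G ⧸ (S : Subgroup G)) % 2 = 1 := by
    have h1 : ¬ 2 ∣ (S : Subgroup G).index := S.not_dvd_index
    have h2 : (S : Subgroup G).index = Nat.card (G ⧸ (S : Subgroup G)) := rfl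
    rw [← h2]
    omega
  have hfixodd : Nat.card (MulAction.fixedPoints (Subgroup.zpowers x) (G ⧸ (S : Subgroup G))) % 2 = 1 := by
    have := hmod
    unfold Nat.ModEq at this
    omega
  have hιι : ι * ι = 1 := by
    have h1 : ι ^ Nat.card (↥(S : Subgroup G) ⧸ M') = 1 := pow_card_eq_one'
    rw [hcardA, pow_two] at h1
    exact h1
  obtain ⟨j, hj⟩ := Nat.odd_iff.mpr hfixodd
  rw [hj, pow_succ, pow_mul, pow_two, hιι, one_pow, one_mul] at hV
  exact hι1 hV

/-- Let G be a finite group of even order with no subgroup of index 2, S a Sylow 2-subgroup of G and M a subgroup of index 2 in S such that, for some n ≥ 1, every element of S outside M has order greater than 2^(n−1). Then every element of S of order 2ⁿ is conjugate in G to an element of M. -/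
theorem result {G : Type*} [Group G] [Finite G] (hev : Even (Nat.card G))
    (hG : ∀ H : Subgroup G, H.index ≠ 2) (S : Sylow 2 G) (M : Subgroup G) (hMS : M ≤ (S : Subgroup G)) (hM : M.relIndex (S : Subgroup G) = 2)
    (n : ℕ) (hn : 1 ≤ n) (hord : ∀ y ∈ (S : Subgroup G), y ∉ M → 2 ^ (n - 1) < orderOf y)
    (x : G) (hx : x ∈ (S : Subgroup G)) (hxn : orderOf x = 2 ^ n) :
    ∃ g : G, g * x * g⁻¹ ∈ M := by
  by_contra hno
  push Not at hno
  exact key S M hMS hM hG n hn hord x hx hxn hno

end Cfsg.Agent.S3225
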