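import Cfsg.Statements.S3247
import Mathlib
import Cfsg.Agent.Lib.PConstr3
import Cfsg.Agent.Lib.TwoLayer

set_option autoImplicit false
open Cfsg

namespace Cfsg.Agent.S3247

open Cfsg Cfsg.Agent.Lib.H1Core Cfsg.Agent.Lib.Comp Cfsg.Agent.Lib.Comp2 Cfsg.Agent.Lib.Comp3

universe u

section
variable {p : ℕ} [hp : Fact p.Prime]

/-- A `p`-component contained in a subgroup yields a `p`-component of this subgroup. -/
lemma pcomp_descends {X : Type u} [Group X] [Finite X] (K D : Subgroup X) (hK : IsPComponent p K)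
    (hKD : K ≤ D) : pLayer p ↥D ≠ ⊥ := by
  intro hbot
  have hL := layer_eq_bot_of_pLayer (p := p) hbot
  rw [layer_eq_bot_iff] at hL
  have hsub : (K.subgroupOf D).IsSubnormal := hK.1.comap D.subtype
  obtain ⟨e⟩ := pcomp_quot_equiv (X := ↥D) (p := p) hsub
  apply hL ((K.subgroupOf D).map (QuotientGroup.mk' (pPrimeCore p ↥D)))
  refine ⟨hsub.map (QuotientGroup.mk'_surjective _), qs_of_equiv e ?_⟩
  have hq := pcomp_quot_qs hK
  have e₀ : ↥(K.subgroupOf D) ≃* ↥K := Subgroup.subgroupOfEquivOfLe hKD
  have h1 := Cfsg.Agent.Lib.TwoLayer.pPrimeCore_map_equiv e₀.symm p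
  exact qs_of_equiv (QuotientGroup.congr _ _ e₀.symm h1) hq

lemma norm_transfer {G Y : Type u} [Group G] [Finite G] [Group Y] [Finite Y] (T C : Subgroup G) (hTC : T ≤ C)
    (ι : Y →* G) (hι : Function.Injective ι) (hr1 : ∀ y, ι y ∈ C) (hr2 : ∀ y, ι y ∈ Subgroup.normalizer (T : Set G))
    (hr3 : ∀ z, z ∈ C → z ∈ Subgroup.normalizer (T : Set G) → ∃ y, ι y = z)
    (h : IsPConstrained p ↥(Subgroup.normalizer ((T.subgroupOf C : Subgroup ↥C) : Set ↥C))) :
    IsPConstrained p Y := by
  classical
  have hmem : ∀ y : Y, (⟨ι y, hr1 y⟩ : ↥C) ∈ Subgroup.normalizer ((T.subgroupOf C : Subgroup ↥C) : Set ↥C) := by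
    intro y
    rw [Subgroup.mem_normalizer_iff]
    intro w
    exact Subgroup.mem_normalizer_iff.mp (hr2 y) (w : G)
  let f : Y →* ↥(Subgroup.normalizer ((T.subgroupOf C : Subgroup ↥C) : Set ↥C)) :=
    { toFun := fun y => ⟨⟨ι y, hr1 y⟩, hmem y⟩
      map_one' := by
        apply Subtype.ext
        apply Subtype.ext
        exact map_one ι
      map_mul' := by
        intro a b
        apply Subtype.ext
        apply Subtype.ext
        exact map_mul ι a b }
  have hf : Function.Injective f := by
    intro a b hab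
    apply hι
    exact congrArg (fun z : ↥(Subgroup.normalizer ((T.subgroupOf C : Subgroup ↥C) : Set ↥C)) => ((z : ↥C) : G)) hab
  have hkey : ∀ w : ↥(Subgroup.normalizer ((T.subgroupOf C : Subgroup ↥C) : Set ↥C)), ∀ t ∈ T,
      ((w : ↥C) : G) * t * ((w : ↥C) : G)⁻¹ ∈ T := by
    intro w t ht
    have h1 := (Subgroup.mem_normalizer_iff.mp w.2 ⟨t, hTC ht⟩).mp ht
    exact h1
  have hsurj : Function.Surjective f := by
    intro w
    have h1 : ((w : ↥C) : G) ∈ Subgroup.normalizer (T : Set G) := by
      rw [Subgroup.mem_normalizer_iff]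
      intro g
      refine ⟨fun hg => hkey w g hg, fun hg => ?_⟩
      have h2 := hkey w⁻¹ _ hg
      have h3 : ((w⁻¹ : ↥(Subgroup.normalizer ((T.subgroupOf C : Subgroup ↥C) : Set ↥C)) ) : ↥C) = (w : ↥C)⁻¹ := rfl
      rw [h3] at h2
      simpa [mul_assoc] using h2
    obtain ⟨y, hy⟩ := hr3 _ (w : ↥C).2 h1
    refine ⟨y, ?_⟩
    apply Subtype.ext
    apply Subtype.ext
    exact hy
  have hn : f.range.Normal := by
    rw [MonoidHom.range_eq_top.mpr hsurj]
    infer_instance
  exact Cfsg.Agent.Lib.PConstr3.pconstrained_of_injective_normal f hf hn h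

end

/-- Let G be a finite group and p a prime; here a p-local subgroup means the normalizer of a nontrivial p-subgroup, other than G itself. If every p-local subgroup of G that is maximal among p-local subgroups is p-constrained, or if the centralizer of every element of order p of G is p-constrained, then every p-local subgroup of G is p-constrained. -/
theorem result {G : Type*} [Group G] [Finite G] (p : ℕ) [hp : Fact p.Prime]
    (h : (∀ M : Subgroup G, (∃ T : Subgroup G, IsPGroup p ↥T ∧ T ≠ ⊥ ∧ M = Subgroup.normalizer (T : Set G)) → M ≠ ⊤ →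
        (∀ M' : Subgroup G, (∃ T' : Subgroup G, IsPGroup p ↥T' ∧ T' ≠ ⊥ ∧ M' = Subgroup.normalizer (T' : Set G)) → M' ≠ ⊤ → M ≤ M' → M = M') →
        Cfsg.IsPConstrained p ↥M) ∨
      (∀ x : G, orderOf x = p → Cfsg.IsPConstrained p ↥(Subgroup.centralizer ({x} : Set G))))
    (T : Subgroup G) (hT : IsPGroup p ↥T) (hT1 : T ≠ ⊥) (hTG : Subgroup.normalizer (T : Set G) ≠ ⊤) :
    Cfsg.IsPConstrained p ↥(Subgroup.normalizer (T : Set G)) := by
  classical
  rcases h with h | h
  · let S : Set (Subgroup G) := {M | (∃ T' : Subgroup G, IsPGroup p ↥T' ∧ T' ≠ ⊥ ∧ M = Subgroup.normalizer (T' : Set G)) ∧ M ≠ ⊤}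
    have hNS : Subgroup.normalizer (T : Set G) ∈ S := ⟨⟨T, hT, hT1, rfl⟩, hTG⟩
    obtain ⟨M, hle, hmax⟩ := S.toFinite.exists_le_maximal hNS
    have hMc := h M hmax.prop.1 hmax.prop.2 (fun M' hM' hM't hle' =>
      le_antisymm hle' (hmax.le_of_ge ⟨hM', hM't⟩ hle'))
    have hLM := pConstrained_iff.mp hMc
    have hT'' : IsPGroup p ↥(T.subgroupOf M) := hT.comap_subtype
    have h3 := (pLayer_normalizer hLM (T.subgroupOf M) hT'').1
    have h4 := pConstrained_iff.mpr h3
    have hTM : T ≤ M := le_trans Subgroup.le_normalizer hle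
    refine norm_transfer T M hTM (Subgroup.normalizer (T : Set G)).subtype (Subgroup.subtype_injective _)
      (fun y => hle y.2) (fun y => y.2) (fun z _ hz => ⟨⟨z, hz⟩, rfl⟩) h4
  · -- a central element of order `p`
    haveI hnt : Nontrivial ↥T := (Subgroup.nontrivial_iff_ne_bot T).mpr hT1
    have hcn := hT.center_nontrivial
    obtain ⟨k, hk⟩ := IsPGroup.iff_card.mp (hT.to_subgroup (Subgroup.center ↥T))
    have hk0 : k ≠ 0 := by
      rintro rfl
      rw [pow_zero] at hk
      have := Nat.card_eq_one_iff_unique.mp hk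
      exact not_subsingleton _ this.1
    have hd : p ∣ Nat.card (Subgroup.center ↥T) := by
      rw [hk]
      exact dvd_pow_self p hk0
    obtain ⟨z, hz⟩ := exists_prime_orderOf_dvd_card' p hd
    set x : G := ((z : ↥T) : G) with hxdef
    have hxo : orderOf x = p := by
      rw [hxdef, Subgroup.orderOf_coe, Subgroup.orderOf_coe]
      exact hz
    have hxT : x ∈ T := (z : ↥T).2
    have hxc : ∀ t ∈ T, t * x = x * t := by
      intro t ht
      have h1 := Subgroup.mem_center_iff.mp z.2 ⟨t, ht⟩
      exact congrArg Subtype.val h1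
    have hTC : T ≤ Subgroup.centralizer ({x} : Set G) := by
      intro t ht
      rw [Subgroup.mem_centralizer_iff]
      intro y hy
      rw [Set.mem_singleton_iff] at hy
      subst hy
      exact (hxc t ht).symm
    have hLC := pConstrained_iff.mp (h x hxo)
    have hT'' : IsPGroup p ↥(T.subgroupOf (Subgroup.centralizer ({x} : Set G))) := hT.comap_subtype
    have h3 := (pLayer_normalizer hLC (T.subgroupOf (Subgroup.centralizer ({x} : Set G))) hT'').1
    have h4 := pConstrained_iff.mpr h3
    set N := Subgroup.normalizer (T : Set G) with hN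
    set D : Subgroup ↥N := (Subgroup.centralizer ({x} : Set G)).subgroupOf N with hD
    have hDc : IsPConstrained p ↥D := by
      refine norm_transfer T _ hTC (N.subtype.comp D.subtype)
        ((Subgroup.subtype_injective _).comp (Subgroup.subtype_injective _))
        (fun y => y.2) (fun y => (y : ↥N).2) (fun z hz1 hz2 => ⟨⟨⟨z, hz2⟩, hz1⟩, rfl⟩) h4
    have hLD := pConstrained_iff.mp hDc
    rw [pConstrained_iff, eq_bot_iff]
    apply sSup_le
    intro K hK
    exfalso
    have hKD : K ≤ D := by
      intro y hy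
      have h5 : y ∈ layerPre p ↥N := by
        show QuotientGroup.mk' (pPrimeCore p ↥N) y ∈ layer _
        exact comp_le_layer hK.2.1 ⟨y, hy, rfl⟩
      have hTn : (T.subgroupOf N).Normal := Subgroup.normal_subgroupOf_of_le_normalizer le_rfl
      have hTp : IsPGroup p ↥(T.subgroupOf N) := hT.comap_subtype
      have hxN : x ∈ N := Subgroup.le_normalizer hxT
      have h6 := layerPre_comm hTn hTp h5 (t := ⟨x, hxN⟩) hxT
      have h7 : (y : G) * x = x * (y : G) := congrArg Subtype.val h6
      show (y : G) ∈ Subgroup.centralizer ({x} : Set G)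
      rw [Subgroup.mem_centralizer_iff]
      intro w hw
      rw [Set.mem_singleton_iff] at hw
      subst hw
      exact h7.symm
    exact pcomp_descends K D hK hKD hLD

end Cfsg.Agent.S3247
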