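import Cfsg.Statements.S3276
import Mathlib
import Cfsg.Agent.Lib.Invol

set_option autoImplicit false
open Cfsg

namespace Cfsg.Agent.S3276

open Cfsg.Agent.Lib.Invol

/-- Let x and y be commuting, non-conjugate involutions of a finite group G, and suppose that for every involution u commuting with x, each conjugate of y that commutes with u also commutes with y. Then the normal closure of y is a proper, normal, elementary abelian 2-subgroup of G; and if y is the only involution of that normal closure commuting with x, it has order at most 4. -/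
theorem result {G : Type*} [Group G] [Finite G] (x y : G) (hx : orderOf x = 2) (hy : orderOf y = 2)
    (hxy : Commute x y) (hnc : ¬ IsConj x y)
    (hstar : ∀ u : G, orderOf u = 2 → Commute u x → ∀ g : G, Commute (g * y * g⁻¹) u → Commute (g * y * g⁻¹) y) :
    Subgroup.normalClosure ({y} : Set G) ≠ ⊤ ∧ Cfsg.IsElementaryAbelian 2 (Subgroup.normalClosure ({y} : Set G)) ∧
      ((∀ u ∈ Subgroup.normalClosure ({y} : Set G), orderOf u = 2 → Commute u x → u = y) →
        Nat.card ↥(Subgroup.normalClosure ({y} : Set G)) ≤ 4) := by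
  classical
  -- Step 1
  have h1 : ∀ g : G, Commute (g * y * g⁻¹) y := by
    intro g
    set y₁ := g * y * g⁻¹ with hy₁
    have hy₁o : orderOf y₁ = 2 := by rw [hy₁, orderOf_conj']; exact hy
    rcases Nat.even_or_odd (orderOf (x * y₁)) with heven | hodd
    · have hu := orderOf_half' heven
      have h2 := half_commute_left hx hy₁o heven
      have h3 := half_commute_right hx hy₁o heven
      exact hstar _ hu h2 g h3.symm
    · exfalso
      obtain ⟨d, -, hd⟩ := exists_conj_of_odd hx hy₁o hodd
      apply hnc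
      rw [isConj_iff]
      refine ⟨g⁻¹ * d, ?_⟩
      calc g⁻¹ * d * x * (g⁻¹ * d)⁻¹ = g⁻¹ * (d * x * d⁻¹) * g := by group
        _ = g⁻¹ * y₁ * g := by rw [hd]
        _ = y := by rw [hy₁]; group
  -- Step 2
  have h2 : ∀ a ∈ Group.conjugatesOfSet ({y} : Set G), ∀ b ∈ Group.conjugatesOfSet ({y} : Set G), a * b = b * a := by
    intro a ha b hb
    rw [Group.mem_conjugatesOfSet_iff] at ha hb
    obtain ⟨y', hy', hc⟩ := ha
    obtain ⟨y'', hy'', hc'⟩ := hb
    rw [Set.mem_singleton_iff] at hy' hy''
    rw [hy'] at hc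
    rw [hy''] at hc'
    obtain ⟨g, rfl⟩ := isConj_iff.mp hc
    obtain ⟨k, rfl⟩ := isConj_iff.mp hc'
    have h3 := h1 (k⁻¹ * g)
    have h4 : (k⁻¹ * g) * y * (k⁻¹ * g)⁻¹ * y = y * ((k⁻¹ * g) * y * (k⁻¹ * g)⁻¹) := h3
    calc g * y * g⁻¹ * (k * y * k⁻¹) = k * ((k⁻¹ * g) * y * (k⁻¹ * g)⁻¹ * y) * k⁻¹ := by group
      _ = k * (y * ((k⁻¹ * g) * y * (k⁻¹ * g)⁻¹)) * k⁻¹ := by rw [h4]
      _ = k * y * k⁻¹ * (g * y * g⁻¹) := by group
  set N := Subgroup.normalClosure ({y} : Set G) with hN
  have hNc : IsMulCommutative ↥N := Subgroup.isMulCommutative_closure h2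
  have hcm : ∀ a ∈ N, ∀ b ∈ N, a * b = b * a := by
    intro a ha b hb
    have := hNc.is_comm.comm ⟨a, ha⟩ ⟨b, hb⟩
    exact congrArg Subtype.val this
  have hsq : ∀ a ∈ N, a ^ 2 = 1 := by
    intro a ha
    have hy2 : y ^ 2 = 1 := by rw [← hy]; exact pow_orderOf_eq_one y
    induction ha using Subgroup.closure_induction with
    | mem z hz =>
      rw [Group.mem_conjugatesOfSet_iff] at hz
      obtain ⟨y', hy', hc⟩ := hz
      rw [Set.mem_singleton_iff] at hy'
      subst hy'
      obtain ⟨g, rfl⟩ := isConj_iff.mp hc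
      rw [conj_pow, hy2]; simp
    | one => simp
    | mul a b ha hb h3 h4 =>
      have := hcm a ha b hb
      rw [(show Commute a b from this).mul_pow, h3, h4, one_mul]
    | inv a ha h3 => rw [inv_pow, h3, inv_one]
  have hyN : y ∈ N := Subgroup.subset_normalClosure rfl
  refine ⟨?_, ⟨hNc, hsq⟩, ?_⟩
  · intro htop
    have hcomm : ∀ a b : G, a * b = b * a := fun a b =>
      hcm a (by rw [htop]; trivial) b (by rw [htop]; trivial)
    have hzn : (Subgroup.zpowers y).Normal := by
      constructor
      intro n hn g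
      rw [hcomm g n, mul_inv_cancel_right]
      exact hn
    have hle : N ≤ Subgroup.zpowers y :=
      Subgroup.normalClosure_le_normal (by
        intro z hz
        rw [Set.mem_singleton_iff] at hz
        rw [hz]
        exact Subgroup.mem_zpowers y)
    have hxz : x ∈ Subgroup.zpowers y := hle (by rw [htop]; trivial)
    obtain ⟨k, hk⟩ := Subgroup.mem_zpowers_iff.mp hxz
    rw [← zpow_mod_orderOf, hy] at hk
    have h3 : k % ((2 : ℕ) : ℤ) = 0 ∨ k % ((2 : ℕ) : ℤ) = 1 := by omega
    rcases h3 with h3 | h3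
    · rw [h3, zpow_zero] at hk
      rw [← hk, orderOf_one] at hx
      omega
    · rw [h3, zpow_one] at hk
      rw [← hk] at hnc
      exact hnc (IsConj.refl _)
  · intro huniq
    have hxinv : x⁻¹ = x := inv_eq_self hx
    have hx2 : x * x = 1 := mul_self_eq_one hx
    haveI hNn : N.Normal := Subgroup.normalClosure_normal
    -- the map
    let φ : ↥N →* ↥N := MonoidHom.mk' (fun n => ⟨(n : G) * (x * n * x⁻¹),
      N.mul_mem n.2 (hNn.conj_mem _ n.2 x)⟩) (by
        intro a b
        apply Subtype.ext
        show (a : G) * b * (x * (a * b) * x⁻¹) = (a : G) * (x * a * x⁻¹) * ((b : G) * (x * b * x⁻¹))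
        have h3 := hcm b b.2 _ (hNn.conj_mem _ a.2 x)
        calc (a : G) * b * (x * (a * b) * x⁻¹) = (a : G) * (b * (x * a * x⁻¹)) * (x * b * x⁻¹) := by group
          _ = (a : G) * ((x * a * x⁻¹) * b) * (x * b * x⁻¹) := by rw [h3]
          _ = _ := by group)
    let y₁ : ↥N := ⟨y, hyN⟩
    have hz : ∀ n : ↥N, Commute (n : G) x → n ∈ Subgroup.zpowers y₁ := by
      intro n hn
      by_cases hn1 : n = 1
      · rw [hn1]; exact Subgroup.one_mem _
      · have hnn : (n : G) ≠ 1 := fun h => hn1 (Subtype.ext h)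
        have h3 := huniq n n.2 (orderOf_two_of (hsq n n.2) hnn) hn
        have : n = y₁ := Subtype.ext h3
        rw [this]
        exact Subgroup.mem_zpowers _
    have hy₁card : Nat.card (Subgroup.zpowers y₁) = 2 := by
      rw [Nat.card_zpowers, Subgroup.orderOf_mk]
      exact hy
    have hker : φ.ker ≤ Subgroup.zpowers y₁ := by
      intro n hn
      apply hz
      have h3 : (n : G) * (x * n * x⁻¹) = 1 := congrArg Subtype.val (MonoidHom.mem_ker.mp hn)
      have h4 : x * n * x⁻¹ = (n : G)⁻¹ := eq_inv_of_mul_eq_one_right h3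
      have h5 : (n : G)⁻¹ = n := inv_eq_of_mul_eq_one_left (by rw [← pow_two]; exact hsq n n.2)
      rw [h5] at h4
      exact (mul_inv_eq_iff_eq_mul.mp h4).symm
    have hrange : φ.range ≤ Subgroup.zpowers y₁ := by
      rintro _ ⟨n, rfl⟩
      apply hz
      show Commute ((n : G) * (x * n * x⁻¹)) x
      have h3 := hcm n n.2 _ (hNn.conj_mem _ n.2 x)
      show (n : G) * (x * n * x⁻¹) * x = x * ((n : G) * (x * n * x⁻¹))
      set X := x * (n : G) * x⁻¹ with hX
      have e1 : x * (n : G) = X * x := by rw [hX]; group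
      have e2 : x * X = (n : G) * x := by
        rw [hX, hxinv]
        calc x * (x * (n : G) * x) = (x * x) * n * x := by group
          _ = (n : G) * x := by rw [hx2, one_mul]
      calc (n : G) * X * x = X * n * x := by rw [h3]
        _ = X * ((n : G) * x) := by group
        _ = X * (x * X) := by rw [e2]
        _ = (X * x) * X := by group
        _ = (x * n) * X := by rw [e1]
        _ = x * ((n : G) * X) := by group
    have h5 : Nat.card φ.ker ≤ 2 := by
      rw [← hy₁card]
      exact Subgroup.card_le_of_le hker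
    have h6 : Nat.card φ.range ≤ 2 := by
      rw [← hy₁card]
      exact Subgroup.card_le_of_le hrange
    have h7 := Subgroup.card_mul_index φ.ker
    rw [Subgroup.index_ker] at h7
    rw [← h7]
    exact Nat.mul_le_mul h5 h6

end Cfsg.Agent.S3276
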