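import Cfsg.Statements.S3305
import Mathlib
import Cfsg.Agent.Lib.SylowTools

set_option autoImplicit false
open Cfsg

namespace Cfsg.Agent.S3305

open Cfsg Cfsg.Agent.Lib Cfsg.Agent.Lib.SylowTools

/-- If any two distinct Sylow 2-subgroups of the finite group G intersect in a cyclic group, then the same holds in every quotient group G/H, H a normal subgroup of G. -/
theorem result {G : Type*} [Group G] [Finite G]
    (hC : ∀ S T : Sylow 2 G, S ≠ T → IsCyclic ↥((S : Subgroup G) ⊓ (T : Subgroup G))) (H : Subgroup G) [H.Normal] :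
    ∀ S T : Sylow 2 (G ⧸ H), S ≠ T → IsCyclic ↥((S : Subgroup (G ⧸ H)) ⊓ (T : Subgroup (G ⧸ H))) := by
  intro S' T' hne
  set π := QuotientGroup.mk' H with hπ
  have hsurj : Function.Surjective π := QuotientGroup.mk'_surjective H
  obtain ⟨S, rfl⟩ := Sylow.mapSurjective_surjective hsurj 2 S'
  obtain ⟨T, rfl⟩ := Sylow.mapSurjective_surjective hsurj 2 T'
  set A := (S : Subgroup G) ⊓ ((((S.mapSurjective hsurj : Sylow 2 (G ⧸ H)) : Subgroup (G ⧸ H)) ⊓ ((T.mapSurjective hsurj : Sylow 2 (G ⧸ H)) : Subgroup (G ⧸ H))).comap π) with hA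
  have hAS : A ≤ S := inf_le_left
  have hAp : IsPGroup 2 A := S.isPGroup'.to_le hAS
  have hAT : A ≤ (T : Subgroup G) ⊔ H := by
    rintro a ⟨_, _, ha⟩
    obtain ⟨t, ht, hta⟩ := ha
    have h1 : t⁻¹ * a ∈ H := QuotientGroup.eq.mp hta
    have e : a = t * (t⁻¹ * a) := by group
    rw [e]
    exact Subgroup.mul_mem_sup ht h1
  obtain ⟨y, hy, hle⟩ := exists_conj_le_image ((T : Subgroup G) ⊔ H) (T.subtype le_sup_left) A hAT hAp
  obtain ⟨t, ht, h', hh', rfl⟩ := Subgroup.mem_sup_of_normal_right.mp hy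
  have hTmem : ∀ a ∈ A, h' * a * h'⁻¹ ∈ (T : Subgroup G) := by
    intro a ha
    have h1 := hle ⟨a, ha, rfl⟩
    rw [Sylow.coe_subtype, Subgroup.subgroupOf_map_subtype] at h1
    have h2 : (MulAut.conj (t * h')).toMonoidHom a = (t * h') * a * (t * h')⁻¹ := rfl
    rw [h2] at h1
    have e : h' * a * h'⁻¹ = t⁻¹ * ((t * h') * a * (t * h')⁻¹) * t := by group
    rw [e]
    exact Subgroup.mul_mem _ (Subgroup.mul_mem _ (Subgroup.inv_mem _ ht) h1.1) ht
  set T₁ : Sylow 2 G := h'⁻¹ • T with hT₁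
  have hT₁mem : ∀ x, x ∈ (T₁ : Subgroup G) ↔ h' * x * h'⁻¹ ∈ (T : Subgroup G) := by
    intro x
    have := InvolSylow.mem_sylow_smul_iff (P := T) (g := h'⁻¹) (s := x)
    rw [inv_inv] at this
    exact this
  have hAT₁ : A ≤ (T₁ : Subgroup G) := fun a ha => (hT₁mem a).mpr (hTmem a ha)
  have hmapT : (T₁ : Subgroup G).map π = (T : Subgroup G).map π := by
    have hconj : ∀ x, π (h' * x * h'⁻¹) = π x := by
      intro x
      have h1 : π h' = 1 := (QuotientGroup.eq_one_iff _).mpr hh'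
      rw [map_mul, map_mul, map_inv, h1]
      simp
    ext z
    constructor
    · rintro ⟨x, hx, rfl⟩
      exact ⟨_, (hT₁mem x).mp hx, hconj x⟩
    · rintro ⟨x, hx, rfl⟩
      refine ⟨h'⁻¹ * x * h', (hT₁mem _).mpr ?_, ?_⟩
      · have e : h' * (h'⁻¹ * x * h') * h'⁻¹ = x := by group
        rw [e]; exact hx
      · have := hconj (h'⁻¹ * x * h')
        rw [← this]
        congr 1
        group
  have hST : S ≠ T₁ := by
    intro h
    apply hne
    apply Sylow.ext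
    rw [Sylow.coe_mapSurjective, Sylow.coe_mapSurjective, ← hmapT, ← h]
  haveI hc := hC S T₁ hST
  set C := (S : Subgroup G) ⊓ (T₁ : Subgroup G) with hCd
  have hcm : IsCyclic ↥(C.map π) := isCyclic_of_surjective (π.subgroupMap C) (π.subgroupMap_surjective C)
  have hle2 : ((S.mapSurjective hsurj : Sylow 2 (G ⧸ H)) : Subgroup (G ⧸ H)) ⊓ ((T.mapSurjective hsurj : Sylow 2 (G ⧸ H)) : Subgroup (G ⧸ H)) ≤ C.map π := by
    rintro z ⟨hz1, hz2⟩
    obtain ⟨s, hs, rfl⟩ := hz1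
    have hsA : s ∈ A := ⟨hs, ⟨⟨s, hs, rfl⟩, hz2⟩⟩
    exact ⟨s, ⟨hs, hAT₁ hsA⟩, rfl⟩
  haveI := hcm
  haveI h5 : IsCyclic ↥((((S.mapSurjective hsurj : Sylow 2 (G ⧸ H)) : Subgroup (G ⧸ H)) ⊓ ((T.mapSurjective hsurj : Sylow 2 (G ⧸ H)) : Subgroup (G ⧸ H))).subgroupOf (C.map π)) := Subgroup.isCyclic _
  exact isCyclic_of_surjective (Subgroup.subgroupOfEquivOfLe hle2).toMonoidHom (Subgroup.subgroupOfEquivOfLe hle2).surjective

end Cfsg.Agent.S3305
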