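import Cfsg.Statements.S3303
import Mathlib
import Cfsg.Agent.S3305
import Cfsg.Agent.Lib.H9Two

set_option autoImplicit false
open Cfsg

namespace Cfsg.Agent.S3303

open Cfsg Cfsg.Agent.Lib.H1Core Cfsg.Agent.Lib.H1Fit Cfsg.Agent.Lib.H9Two

/-- Let G be a finite solvable group in which the intersection of any two distinct Sylow 2-subgroups is cyclic. Then G/O(G) has a normal Sylow 2-subgroup, where O(G) is the largest normal subgroup of odd order. -/
theorem result {G : Type*} [Group G] [Finite G] (hs : Group.IsSolvable G)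
    (hC : ∀ S T : Sylow 2 G, S ≠ T → IsCyclic ↥((S : Subgroup G) ⊓ (T : Subgroup G))) :
    ∃ P : Sylow 2 (G ⧸ Cfsg.oddCore G), (P : Subgroup (G ⧸ Cfsg.oddCore G)).Normal := by
  classical
  haveI : Fact (Nat.Prime 2) := ⟨Nat.prime_two⟩
  have hC' := Cfsg.Agent.S3305.result hC (oddCore G)
  have hcore : pPrimeCore 2 (G ⧸ oddCore G) = ⊥ := pPrimeCore_quotient 2
  obtain ⟨P⟩ : Nonempty (Sylow 2 (G ⧸ oddCore G)) := inferInstance
  by_cases hall : ∀ S T : Sylow 2 (G ⧸ oddCore G), S = T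
  · refine ⟨P, ?_⟩
    haveI : Subsingleton (Sylow 2 (G ⧸ oddCore G)) := ⟨hall⟩
    exact Sylow.normal_of_subsingleton P
  · push Not at hall
    obtain ⟨S, T, hne⟩ := hall
    haveI hcyc := hC' S T hne
    have hle : pCore 2 (G ⧸ oddCore G) ≤ (S : Subgroup (G ⧸ oddCore G)) ⊓ (T : Subgroup (G ⧸ oddCore G)) :=
      le_inf (pCore_le_sylow 2 S) (pCore_le_sylow 2 T)
    haveI h5 : IsCyclic ↥((pCore 2 (G ⧸ oddCore G)).subgroupOf ((S : Subgroup (G ⧸ oddCore G)) ⊓ (T : Subgroup (G ⧸ oddCore G)))) := Subgroup.isCyclic _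
    have hY : IsCyclic (pCore 2 (G ⧸ oddCore G)) :=
      isCyclic_of_surjective (Subgroup.subgroupOfEquivOfLe hle).toMonoidHom (Subgroup.subgroupOfEquivOfLe hle).surjective
    have hp := isPGroup_of_cyclic_core hcore hY
    refine ⟨P, ?_⟩
    have ht : IsPGroup 2 (⊤ : Subgroup (G ⧸ oddCore G)) := hp.to_subgroup ⊤
    have : (⊤ : Subgroup (G ⧸ oddCore G)) = P := P.3 ht le_top
    rw [← this]
    infer_instance

end Cfsg.Agent.S3303
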