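import Cfsg.Statements.S3335
import Cfsg.Agent.Lib.H1Carm2

set_option autoImplicit false
open Cfsg

namespace Cfsg.Agent.S3335

/-- A presentation of the alternating group of degree n ≥ 3 on generators x_1, …, x_{n−2} (indexed here by 0, …, n−3): the first generator cubes to 1, every other generator squares to 1, the product of two consecutive generators has order dividing 3, and the product of two generators at distance at least 2 has order dividing 2. The group so presented is isomorphic to the alternating group of degree n. -/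
theorem result (n : ℕ) (hn : 3 ≤ n) :
    Nonempty (PresentedGroup
      ({g : FreeGroup (Fin (n - 2)) | ∃ i : Fin (n - 2), i.val = 0 ∧ g = FreeGroup.of i ^ 3} ∪
       {g | ∃ i : Fin (n - 2), 1 ≤ i.val ∧ g = FreeGroup.of i ^ 2} ∪
       {g | ∃ i j : Fin (n - 2), j.val = i.val + 1 ∧ g = (FreeGroup.of i * FreeGroup.of j) ^ 3} ∪
       {g | ∃ i j : Fin (n - 2), i.val + 1 < j.val ∧ g = (FreeGroup.of i * FreeGroup.of j) ^ 2})
      ≃* alternatingGroup (Fin n)) := by
  classical
  set R : Set (FreeGroup (Fin (n - 2))) :=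
    ({g : FreeGroup (Fin (n - 2)) | ∃ i : Fin (n - 2), i.val = 0 ∧ g = FreeGroup.of i ^ 3} ∪
       {g | ∃ i : Fin (n - 2), 1 ≤ i.val ∧ g = FreeGroup.of i ^ 2} ∪
       {g | ∃ i j : Fin (n - 2), j.val = i.val + 1 ∧ g = (FreeGroup.of i * FreeGroup.of j) ^ 3} ∪
       {g | ∃ i j : Fin (n - 2), i.val + 1 < j.val ∧ g = (FreeGroup.of i * FreeGroup.of j) ^ 2}) with hR
  -- the points
  have hn0 : 0 < n := by omega
  let p : ℕ → Fin n := fun k => ⟨k % n, Nat.mod_lt _ hn0⟩
  have hp : ∀ i j, i < n → j < n → i ≠ j → p i ≠ p j := by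
    intro i j hi hj hne h
    have := congrArg Fin.val h
    simp only [p, Nat.mod_eq_of_lt hi, Nat.mod_eq_of_lt hj] at this
    exact hne this
  have hrel := Cfsg.Agent.Lib.H1Carm2.relations n hn p hp
  let f : Fin (n - 2) → alternatingGroup (Fin n) := fun i =>
    ⟨Cfsg.Agent.Lib.H1Carm2.yy p i, Cfsg.Agent.Lib.H1Carm2.yy_alt hp (by have := i.2; omega)⟩
  have hf : ∀ r ∈ R, FreeGroup.lift f r = 1 := by
    rintro r (((⟨i, hi, rfl⟩ | ⟨i, hi, rfl⟩) | ⟨i, j, hij, rfl⟩) | ⟨i, j, hij, rfl⟩)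
    · simp only [map_pow, FreeGroup.lift_apply_of]
      apply Subtype.ext
      show Cfsg.Agent.Lib.H1Carm2.yy p i ^ 3 = 1
      rw [hi]
      exact hrel.r0
    · simp only [map_pow, FreeGroup.lift_apply_of]
      apply Subtype.ext
      show Cfsg.Agent.Lib.H1Carm2.yy p i ^ 2 = 1
      rw [sq]
      exact hrel.r1 _ hi (by have := i.2; omega)
    · simp only [map_pow, map_mul, FreeGroup.lift_apply_of]
      apply Subtype.ext
      show (Cfsg.Agent.Lib.H1Carm2.yy p i * Cfsg.Agent.Lib.H1Carm2.yy p j) ^ 3 = 1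
      rw [hij]
      exact hrel.r2 _ (by have := j.2; omega)
    · simp only [map_pow, map_mul, FreeGroup.lift_apply_of]
      apply Subtype.ext
      show (Cfsg.Agent.Lib.H1Carm2.yy p i * Cfsg.Agent.Lib.H1Carm2.yy p j) ^ 2 = 1
      exact hrel.r3 _ _ hij (by have := j.2; omega)
  let φ := PresentedGroup.toGroup hf
  have hφof : ∀ i, φ (PresentedGroup.of i) = f i := fun i => PresentedGroup.toGroup.of hf
  -- generators of the presented group
  let x : ℕ → PresentedGroup R := fun i =>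
    if h : i < n - 2 then PresentedGroup.of ⟨i, h⟩ else 1
  have hx : ∀ i (h : i < n - 2), x i = PresentedGroup.of ⟨i, h⟩ := fun i h => by
    simp [x, h]
  have hone : ∀ r ∈ R, PresentedGroup.mk R r = 1 := fun r hr => PresentedGroup.one_of_mem hr
  have hCar : Cfsg.Agent.Lib.H1Carm.CarRel x (n - 3) := by
    refine ⟨?_, ?_, ?_, ?_⟩
    · rw [hx 0 (by omega)]
      have := hone (FreeGroup.of (⟨0, by omega⟩ : Fin (n - 2)) ^ 3)
        (Or.inl (Or.inl (Or.inl ⟨⟨0, by omega⟩, rfl, rfl⟩)))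
      rw [map_pow] at this
      exact this
    · intro i hi him
      rw [hx i (by omega)]
      have := hone (FreeGroup.of (⟨i, by omega⟩ : Fin (n - 2)) ^ 2)
        (Or.inl (Or.inl (Or.inr ⟨⟨i, by omega⟩, hi, rfl⟩)))
      rw [map_pow, sq] at this
      exact this
    · intro i him
      rw [hx i (by omega), hx (i + 1) (by omega)]
      have := hone ((FreeGroup.of (⟨i, by omega⟩ : Fin (n - 2)) *
        FreeGroup.of (⟨i + 1, by omega⟩ : Fin (n - 2))) ^ 3)
        (Or.inl (Or.inr ⟨⟨i, by omega⟩, ⟨i + 1, by omega⟩, rfl, rfl⟩))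
      rw [map_pow, map_mul] at this
      exact this
    · intro i j hij hj
      rw [hx i (by omega), hx j (by omega)]
      have := hone ((FreeGroup.of (⟨i, by omega⟩ : Fin (n - 2)) *
        FreeGroup.of (⟨j, by omega⟩ : Fin (n - 2))) ^ 2)
        (Or.inr ⟨⟨i, by omega⟩, ⟨j, by omega⟩, hij, rfl⟩)
      rw [map_pow, map_mul] at this
      exact this
  have hgen : Subgroup.closure (x '' {i | i ≤ n - 3}) = ⊤ := by
    rw [← PresentedGroup.closure_range_of]
    congr 1
    ext z
    constructor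
    · rintro ⟨i, hi, rfl⟩
      have hi' : i ≤ n - 3 := hi
      exact ⟨⟨i, by omega⟩, (hx i (by omega)).symm⟩
    · rintro ⟨i, rfl⟩
      exact ⟨i, by have := i.2; show (i : ℕ) ≤ n - 3; omega, hx i i.2⟩
  obtain ⟨hfin, hcard⟩ := Cfsg.Agent.Lib.H1Carm.card_bound (n - 3) x hCar hgen
  rw [show n - 3 + 3 = n by omega] at hcard
  have hcard' : Fintype.card (Fin n) = n := Fintype.card_fin n
  -- surjectivity
  have hsurj : Function.Surjective φ := by
    have hrange : Cfsg.Agent.Lib.H1Carm2.SS p (n - 3) ≤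
        (φ.range).map (alternatingGroup (Fin n)).subtype := by
      rw [Cfsg.Agent.Lib.H1Carm2.SS, Subgroup.closure_le]
      rintro _ ⟨i, hi, rfl⟩
      have hi' : i ≤ n - 3 := hi
      refine ⟨f ⟨i, by omega⟩, ⟨PresentedGroup.of ⟨i, by omega⟩, hφof _⟩, rfl⟩
    rw [Cfsg.Agent.Lib.H1Carm2.SS_eq hn hcard' hp] at hrange
    rintro ⟨σ, hσ⟩
    obtain ⟨τ, ⟨g, rfl⟩, e⟩ := hrange hσ
    exact ⟨g, Subtype.ext e⟩
  have hA : 2 * Nat.card (alternatingGroup (Fin n)) = n.factorial := by
    haveI : Nontrivial (Fin n) := Fin.nontrivial_iff_two_le.2 (by omega)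
    rw [two_mul_nat_card_alternatingGroup, Nat.card_eq_fintype_card, Fintype.card_perm, hcard']
  exact ⟨MulEquiv.ofBijective φ (hsurj.bijective_of_nat_card_le (by omega))⟩

end Cfsg.Agent.S3335
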