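import Cfsg.Statements.S3349

set_option autoImplicit false
open Cfsg

namespace Cfsg.Agent.S3349

/-- Let Q be a finite extraspecial p-group and α an automorphism of Q fixing every element of some maximal abelian subgroup of Q. Then the order of α is a power of p. -/
theorem result {Q : Type*} [Group Q] [Finite Q]
    (p : ℕ) [Fact p.Prime] (hQ : Cfsg.IsExtraspecial p Q) (α : MulAut Q)
    (A : Subgroup Q) (hA : IsMulCommutative A) (hmax : ∀ B : Subgroup Q, A ≤ B → IsMulCommutative B → B = A)
    (hfix : ∀ a ∈ A, α a = a) :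
    ∃ k : ℕ, orderOf α = p ^ k := by
  classical
  obtain ⟨⟨hpg, hfr, hcomm⟩, hz⟩ := hQ
  have hAc : ∀ a ∈ A, ∀ b ∈ A, a * b = b * a := by
    intro a ha b hb
    have := mul_comm' (⟨a, ha⟩ : A) ⟨b, hb⟩
    exact congrArg Subtype.val this
  have hcent : ∀ x : Q, (∀ a ∈ A, x * a = a * x) → x ∈ A := by
    intro x hx
    have hk : ∀ y ∈ (A : Set Q) ∪ {x}, ∀ z ∈ (A : Set Q) ∪ {x}, y * z = z * y := by
      rintro y (hy | rfl) z (hz | rfl)
      · exact hAc y hy z hz
      · exact (hx y hy).symm
      · exact hx z hz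
      · rfl
    let B : Subgroup Q := Subgroup.closure ((A : Set Q) ∪ {x})
    have hB : IsMulCommutative B := by
      refine ⟨⟨fun a b => ?_⟩⟩
      have := (Subgroup.closureCommGroupOfComm hk).mul_comm a b
      exact this
    have hAB : A ≤ B := fun y hy => Subgroup.subset_closure (Or.inl hy)
    have heq := hmax B hAB hB
    rw [← heq]
    exact Subgroup.subset_closure (Or.inr rfl)
  have hZA : ∀ z ∈ Subgroup.center Q, z ∈ A := by
    intro z hz'
    apply hcent
    intro a _
    exact ((Subgroup.mem_center_iff.1 hz') a).symm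
  have hcomm' : ∀ x y : Q, x * y * x⁻¹ * y⁻¹ ∈ A := by
    intro x y
    apply hZA
    rw [← hcomm]
    exact Subgroup.commutator_mem_commutator (Subgroup.mem_top x) (Subgroup.mem_top y)
  have hy : ∀ x : Q, x⁻¹ * α x ∈ A := by
    intro x
    apply hcent
    intro a ha
    have h1 := hfix _ (hcomm' x a)
    simp only [map_mul, map_inv, hfix a ha] at h1
    have h2 : α x * a * (α x)⁻¹ = x * a * x⁻¹ := mul_right_cancel h1
    calc x⁻¹ * α x * a = x⁻¹ * (α x * a * (α x)⁻¹) * α x := by group
      _ = x⁻¹ * (x * a * x⁻¹) * α x := by rw [h2]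
      _ = a * (x⁻¹ * α x) := by group
  have hiter : ∀ (k : ℕ) (x : Q), (α ^ k) x = x * (x⁻¹ * α x) ^ k := by
    intro k x
    induction k with
    | zero => simp
    | succ k ih =>
      rw [pow_succ', MulAut.mul_apply, ih, map_mul, map_pow, hfix _ (hy x), pow_succ', ← mul_assoc, ← mul_assoc]
      group
  have hord : orderOf α ∣ Nat.card A := by
    apply orderOf_dvd_of_pow_eq_one
    ext x
    rw [hiter]
    have : (x⁻¹ * α x) ^ Nat.card A = 1 := by
      have := pow_card_eq_one' (G := A) (x := ⟨_, hy x⟩)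
      exact congrArg Subtype.val this
    rw [this, mul_one]
    rfl
  obtain ⟨n, hn⟩ := IsPGroup.iff_card.1 hpg
  have hd : orderOf α ∣ p ^ n := by
    rw [← hn]
    exact hord.trans (Subgroup.card_subgroup_dvd_card A)
  obtain ⟨k, _, hk⟩ := (Nat.dvd_prime_pow Fact.out).1 hd
  exact ⟨k, hk⟩

end Cfsg.Agent.S3349
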