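import Cfsg.Statements.S3548
import Mathlib
import Cfsg.Agent.Lib.Invol

set_option autoImplicit false
open Cfsg

namespace Cfsg.Agent.S3548

open Cfsg Cfsg.Agent.Lib Cfsg.Agent.Lib.Invol
open scoped Pointwise

section
variable (G Ω : Type*) [Group G] [MulAction G Ω]

/-- The subgroup generated by the derangements. -/
def dSub : Subgroup G := Subgroup.closure {g : G | ∀ ω : Ω, g • ω ≠ ω}

instance dSub_normal : (dSub G Ω).Normal := by
  constructor
  intro n hn g
  unfold dSub at hn ⊢
  induction hn using Subgroup.closure_induction with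
  | mem x hx =>
    apply Subgroup.subset_closure
    intro ω hω
    have : x • (g⁻¹ • ω) = g⁻¹ • ω := by
      have h2 : g⁻¹ • ((g * x * g⁻¹) • ω) = g⁻¹ • ω := by rw [hω]
      simpa [mul_smul] using h2
    exact hx _ this
  | one => simp
  | mul x y _ _ hx hy =>
    have : g * (x * y) * g⁻¹ = (g * x * g⁻¹) * (g * y * g⁻¹) := by group
    rw [this]
    exact Subgroup.mul_mem _ hx hy
  | inv x _ hx =>
    have : g * x⁻¹ * g⁻¹ = (g * x * g⁻¹)⁻¹ := by group
    rw [this]
    exact Subgroup.inv_mem _ hx
end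

section
variable {G Ω : Type*} [Group G] [Finite G] [MulAction G Ω] [Finite Ω]

lemma dvd_card_of_index_dvd {A X : Type*} [Group A] [MulAction A X] [Finite A] [Finite X] (q : ℕ)
    (h : ∀ x : X, q ∣ (MulAction.stabilizer A x).index) : q ∣ Nat.card X := by
  classical
  haveI : Fintype (MulAction.orbitRel.Quotient A X) := Fintype.ofFinite _
  rw [Nat.card_congr (MulAction.selfEquivSigmaOrbits A X), Nat.card_sigma]
  apply Finset.dvd_sum
  intro ω _
  have := h ω.out
  rwa [MulAction.index_stabilizer, ← Nat.card_coe_set_eq] at this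

/-- The counting argument: `dSub` is transitive and outside it elements have a unique fixed point. -/
lemma dSub_main [Nonempty Ω] (htrans : MulAction.IsPretransitive G Ω) :
    MulAction.IsPretransitive (dSub G Ω) Ω ∧ ∀ g : G, g ∉ dSub G Ω → ∀ x y : Ω, g • x = x → g • y = y → x = y := by
  classical
  haveI := Fintype.ofFinite G
  haveI := Fintype.ofFinite Ω
  haveI : Fintype (dSub G Ω) := Fintype.ofFinite _
  haveI : Fintype (MulAction.orbitRel.Quotient (dSub G Ω) Ω) := Fintype.ofFinite _
  haveI : Fintype (MulAction.orbitRel.Quotient G Ω) := Fintype.ofFinite _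
  have hB1 := MulAction.sum_card_fixedBy_eq_card_orbits_mul_card_group G Ω
  have hB2 := MulAction.sum_card_fixedBy_eq_card_orbits_mul_card_group (dSub G Ω) Ω
  have hq1 : Fintype.card (MulAction.orbitRel.Quotient G Ω) = 1 := by
    haveI : Subsingleton (MulAction.orbitRel.Quotient G Ω) :=
      (MulAction.pretransitive_iff_subsingleton_quotient G Ω).mp htrans
    haveI : Nonempty (MulAction.orbitRel.Quotient G Ω) := by
      obtain ⟨a⟩ := ‹Nonempty Ω›
      exact ⟨Quotient.mk _ a⟩
    obtain ⟨x⟩ := ‹Nonempty (MulAction.orbitRel.Quotient G Ω)›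
    exact Fintype.card_eq_one_iff.mpr ⟨x, fun y => Subsingleton.elim _ _⟩
  rw [hq1, one_mul] at hB1
  obtain ⟨f, hf⟩ : ∃ f : G → ℕ, ∀ g, f g = Fintype.card (MulAction.fixedBy Ω g) := ⟨_, fun _ => rfl⟩
  simp only [← hf] at hB1
  have hB2' : ∑ d : (dSub G Ω), f d = Fintype.card (MulAction.orbitRel.Quotient (dSub G Ω) Ω) * Fintype.card (dSub G Ω) := by
    rw [← hB2]
    refine Finset.sum_congr rfl fun d _ => ?_
    rw [hf]
    apply Fintype.card_congr
    exact Equiv.subtypeEquivRight fun x => by rfl
  set t := Fintype.card (MulAction.orbitRel.Quotient (dSub G Ω) Ω) with ht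
  have htpos : 1 ≤ t := by
    rw [ht, Nat.succ_le_iff, Fintype.card_pos_iff]
    obtain ⟨a⟩ := ‹Nonempty Ω›
    exact ⟨Quotient.mk _ a⟩
  have hA : ∑ d : (dSub G Ω), f d = ∑ g ∈ Finset.univ.filter (· ∈ dSub G Ω), f g := by
    rw [Finset.sum_filter, Finset.sum_ite, Finset.sum_const_zero, add_zero]
    exact Finset.sum_subtype _ (by simp) f |>.symm
  have hcard : (Finset.univ.filter (· ∈ dSub G Ω)).card = Fintype.card (dSub G Ω) := by
    rw [Fintype.card_subtype]
  have hsplit := Finset.sum_filter_add_sum_filter_not (Finset.univ : Finset G) (· ∈ dSub G Ω) f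
  have hcsplit := Finset.card_filter_add_card_filter_not (s := (Finset.univ : Finset G)) (· ∈ dSub G Ω)
  rw [Finset.card_univ] at hcsplit
  rw [← hA, hB2', hB1] at hsplit
  have hfpos : ∀ g ∈ Finset.univ.filter (fun g => ¬ g ∈ dSub G Ω), 1 ≤ f g := by
    intro g hg
    have hg' : g ∉ dSub G Ω := (Finset.mem_filter.mp hg).2
    have : ∃ x : Ω, g • x = x := by
      by_contra hcon
      push Not at hcon
      exact hg' (Subgroup.subset_closure hcon)
    obtain ⟨x, hx⟩ := this
    rw [hf, Nat.succ_le_iff, Fintype.card_pos_iff]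
    exact ⟨⟨x, hx⟩⟩
  have hlow : (Finset.univ.filter (fun g => ¬ g ∈ dSub G Ω)).card ≤ ∑ g ∈ Finset.univ.filter (fun g => ¬ g ∈ dSub G Ω), f g := by
    have := Finset.card_nsmul_le_sum _ f 1 hfpos
    simpa using this
  have hdpos : 0 < Fintype.card (dSub G Ω) := Fintype.card_pos
  have ht1 : t = 1 := by
    by_contra hne
    have h2 : 2 ≤ t := by omega
    have : 2 * Fintype.card (dSub G Ω) ≤ t * Fintype.card (dSub G Ω) := Nat.mul_le_mul_right _ h2
    omega
  constructor
  · rw [MulAction.pretransitive_iff_subsingleton_quotient]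
    exact Fintype.card_le_one_iff_subsingleton.mp (by omega)
  · intro g hg x y hx hy
    have hgmem : g ∈ Finset.univ.filter (fun g => ¬ g ∈ dSub G Ω) := by simp [hg]
    have hle : f g ≤ 1 := by
      by_contra hcon
      push Not at hcon
      have h1 : ∑ g ∈ Finset.univ.filter (fun g => ¬ g ∈ dSub G Ω), 1 < ∑ g ∈ Finset.univ.filter (fun g => ¬ g ∈ dSub G Ω), f g :=
        Finset.sum_lt_sum hfpos ⟨g, hgmem, hcon⟩
      simp only [Finset.sum_const, smul_eq_mul, mul_one] at h1
      rw [ht1, one_mul] at hsplit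
      omega
    rw [hf, Fintype.card_le_one_iff] at hle
    have := hle ⟨x, hx⟩ ⟨y, hy⟩
    exact congrArg Subtype.val this

/-- Stabilizers of two points lie in `dSub`. -/
lemma two_pt_le [Nonempty Ω] (htrans : MulAction.IsPretransitive G Ω) {a b : Ω} (hab : a ≠ b) {g : G}
    (ha : g • a = a) (hb : g • b = b) : g ∈ dSub G Ω := by
  by_contra hg
  exact hab ((dSub_main htrans).2 g hg a b ha hb)

lemma index_subgroupOf [Nonempty Ω] (htrans : MulAction.IsPretransitive G Ω) (a : Ω) :
    (dSub G Ω).index = ((dSub G Ω).subgroupOf (MulAction.stabilizer G a)).index := by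
  set H := MulAction.stabilizer G a with hH
  haveI : MulAction.IsPretransitive (dSub G Ω) Ω := (dSub_main htrans).1
  have hsup : H ⊔ dSub G Ω = ⊤ := by
    rw [eq_top_iff]
    intro g _
    obtain ⟨d, hd⟩ := MulAction.exists_smul_eq (dSub G Ω) a (g • a)
    have hd' : (d : G) • a = g • a := hd
    have h1 : (d : G)⁻¹ * g ∈ H := by
      rw [hH, MulAction.mem_stabilizer_iff, mul_smul, ← hd', inv_smul_smul]
    have h2 : g = (d : G) * ((d : G)⁻¹ * g) := by group
    rw [h2, sup_comm]
    exact Subgroup.mul_mem_sup d.2 h1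
  have h1 := Subgroup.relIndex_sup_right H (dSub G Ω)
  rw [hsup, Subgroup.relIndex_top_right] at h1
  rw [h1]
  rfl

/-- The index of `dSub` divides the size of invariant sets. -/
lemma index_dvd_of_invariant [Nonempty Ω] (htrans : MulAction.IsPretransitive G Ω) (a : Ω) (S : Set Ω) (haS : a ∉ S)
    (hS : ∀ h : G, h • a = a → ∀ s ∈ S, h • s ∈ S) : (dSub G Ω).index ∣ Nat.card S := by
  classical
  set H := MulAction.stabilizer G a with hH
  have hidx := index_subgroupOf htrans a
  let S' : SubMulAction H Ω :=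
    { carrier := S
      smul_mem' := fun h s hs => hS h h.2 s hs }
  have hc : Nat.card S' = Nat.card S := rfl
  rw [← hc, hidx]
  haveI : Finite S' := Finite.of_injective (Subtype.val) Subtype.val_injective
  apply dvd_card_of_index_dvd (A := H) (X := S')
  rintro ⟨b, hb⟩
  apply Subgroup.index_dvd_of_le
  intro h hh
  have h1 : (h : G) • b = b := by
    have : h • (⟨b, hb⟩ : S') = ⟨b, hb⟩ := hh
    exact congrArg Subtype.val this
  have hab : a ≠ b := fun e => haS (e ▸ hb)
  exact two_pt_le htrans hab h.2 h1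
end

/-- Let G act faithfully and transitively on a finite set with n ≥ 2 points and let D be the subgroup generated by the derangements. Then the index of D in G divides n − 1, and if it equals n − 1 then n is a prime power. -/
theorem result {G Ω : Type*} [Group G] [Finite G] [MulAction G Ω] [FaithfulSMul G Ω] [Finite Ω]
    (htrans : MulAction.IsPretransitive G Ω) (hΩ : 2 ≤ Nat.card Ω) :
    (Subgroup.closure {g : G | ∀ ω : Ω, g • ω ≠ ω}).index ∣ Nat.card Ω - 1 ∧
    ((Subgroup.closure {g : G | ∀ ω : Ω, g • ω ≠ ω}).index = Nat.card Ω - 1 → IsPrimePow (Nat.card Ω)) := by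
  classical
  haveI : Nonempty Ω := by
    by_contra hcon
    rw [not_nonempty_iff] at hcon
    rw [Nat.card_of_isEmpty] at hΩ
    omega
  obtain ⟨a⟩ := ‹Nonempty Ω›
  haveI : Nonempty Ω := ⟨a⟩
  have hSc : Nat.card ({b : Ω | b ≠ a} : Set Ω) = Nat.card Ω - 1 := by
    have : ({b : Ω | b ≠ a} : Set Ω) = {a}ᶜ := by ext; simp
    rw [this, Nat.card_coe_set_eq, Set.ncard_compl, Set.ncard_singleton]
  have hdvd : (dSub G Ω).index ∣ Nat.card Ω - 1 := by
    rw [← hSc]
    apply index_dvd_of_invariant htrans a
    · simp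
    · intro h hh s hs hcon
      apply hs
      rw [← hh] at hcon
      exact smul_left_cancel h hcon
  show (dSub G Ω).index ∣ _ ∧ ((dSub G Ω).index = _ → _)
  refine ⟨hdvd, fun heq => ?_⟩
  -- the equality case
  have hdt := (dSub_main htrans).1
  set H := MulAction.stabilizer G a with hH
  -- every orbit of `H` on the remaining points has size divisible by the index
  have horb : ∀ b : Ω, b ≠ a → Nat.card (MulAction.orbit H b) = Nat.card Ω - 1 := by
    intro b hb
    have h1 : (dSub G Ω).index ∣ Nat.card (MulAction.orbit H b) := by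
      apply index_dvd_of_invariant htrans a
      · rintro ⟨h, hh⟩
        have : (h : G) • b = a := hh
        apply hb
        have h2 : (h : G) • a = a := h.2
        rw [← h2] at this
        exact smul_left_cancel _ this
      · rintro g hg s ⟨h, rfl⟩
        refine ⟨(⟨g, hg⟩ : H) * h, ?_⟩
        show ((g * (h : G)) • b) = g • ((h : G) • b)
        rw [mul_smul]
    haveI : Nonempty (MulAction.orbit H b) := ⟨⟨b, MulAction.mem_orbit_self b⟩⟩
    have hpos : 0 < Nat.card (MulAction.orbit H b) := Nat.card_pos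
    have hle : Nat.card (MulAction.orbit H b) ≤ Nat.card Ω - 1 := by
      rw [← hSc]
      apply Nat.card_mono (Set.toFinite _)
      rintro s ⟨h, rfl⟩ hcon
      apply hb
      have h2 : (h : G) • a = a := h.2
      have h3 : (h : G) • b = a := hcon
      rw [← h2] at h3
      exact smul_left_cancel _ h3
    have h2 := Nat.le_of_dvd hpos h1
    omega
  have hntwo : ∃ b : Ω, b ≠ a := by
    by_contra hcon
    push Not at hcon
    have : Subsingleton Ω := ⟨fun x y => by rw [hcon x, hcon y]⟩
    rw [Nat.card_of_subsingleton a] at hΩ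
    omega
  -- transitivity on the complement
  have htr2 : ∀ b c : Ω, b ≠ a → c ≠ a → ∃ h : G, h • a = a ∧ h • b = c := by
    intro b c hb hc
    have h1 : (MulAction.orbit H b : Set Ω) = {x | x ≠ a} := by
      apply Set.eq_of_subset_of_ncard_le _ _ (Set.toFinite _)
      · rintro s ⟨h, rfl⟩ hcon
        apply hb
        have h2 : (h : G) • a = a := h.2
        have h3 : (h : G) • b = a := hcon
        rw [← h2] at h3
        exact smul_left_cancel _ h3
      · rw [← Nat.card_coe_set_eq, ← Nat.card_coe_set_eq, hSc, horb b hb]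
    have h2 : c ∈ MulAction.orbit H b := by rw [h1]; exact hc
    obtain ⟨h, hh⟩ := h2
    exact ⟨h, h.2, hh⟩
  -- `D ∩ H = 1`
  have hDH : ∀ d ∈ dSub G Ω, d • a = a → d = 1 := by
    intro d hd hda
    apply FaithfulSMul.eq_of_smul_eq_smul (α := Ω)
    intro x
    rw [one_smul]
    by_cases hxa : x = a
    · rw [hxa, hda]
    · -- index comparison
      have hle : MulAction.stabilizer H x ≤ (dSub G Ω).subgroupOf H := by
        intro h hh
        have h1 : (h : G) • x = x := hh
        exact two_pt_le htrans (Ne.symm hxa) h.2 h1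
      have hi1 : (MulAction.stabilizer H x).index = ((dSub G Ω).subgroupOf H).index := by
        rw [← index_subgroupOf htrans a, heq, MulAction.index_stabilizer, ← Nat.card_coe_set_eq]
        exact horb x hxa
      have hc1 := Subgroup.card_mul_index (MulAction.stabilizer H x)
      have hc2 := Subgroup.card_mul_index ((dSub G Ω).subgroupOf H)
      rw [hi1] at hc1
      have hip : 0 < ((dSub G Ω).subgroupOf H).index := Nat.pos_of_ne_zero Subgroup.index_ne_zero_of_finite
      have hcc : Nat.card (MulAction.stabilizer H x) = Nat.card ((dSub G Ω).subgroupOf H) :=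
        Nat.eq_of_mul_eq_mul_right hip (hc1.trans hc2.symm)
      have heq2 : MulAction.stabilizer H x = (dSub G Ω).subgroupOf H :=
        Subgroup.eq_of_le_of_card_ge hle hcc.ge
      have hm : (⟨d, hda⟩ : H) ∈ (dSub G Ω).subgroupOf H := hd
      rw [← heq2] at hm
      exact hm
  -- regularity
  have hinj : Function.Injective (fun d : dSub G Ω => (d : G) • a) := by
    intro d₁ d₂ h
    have h1 : ((d₂ : G)⁻¹ * d₁) • a = a := by
      rw [mul_smul]
      have h2 : (d₁ : G) • a = (d₂ : G) • a := h
      rw [h2, inv_smul_smul]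
    have h3 := hDH _ (Subgroup.mul_mem _ (Subgroup.inv_mem _ d₂.2) d₁.2) h1
    have h4 : (d₁ : G) = d₂ := by
      have := inv_mul_eq_one.mp h3
      exact this.symm
    exact Subtype.ext h4
  have hsurj : Function.Surjective (fun d : dSub G Ω => (d : G) • a) := by
    intro x
    obtain ⟨d, hd⟩ := MulAction.exists_smul_eq (dSub G Ω) a x
    exact ⟨d, hd⟩
  have hcardD : Nat.card (dSub G Ω) = Nat.card Ω :=
    Nat.card_congr (Equiv.ofBijective _ ⟨hinj, hsurj⟩)
  -- all non-identity elements are conjugate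
  have hconj : ∀ d ∈ dSub G Ω, ∀ d' ∈ dSub G Ω, d ≠ 1 → d' ≠ 1 → orderOf d = orderOf d' := by
    intro d hd d' hd' h1 h1'
    have e1 : d • a ≠ a := fun e => h1 (hDH d hd e)
    have e2 : d' • a ≠ a := fun e => h1' (hDH d' hd' e)
    obtain ⟨h, hha, hhb⟩ := htr2 _ _ e1 e2
    have hmem : h * d * h⁻¹ ∈ dSub G Ω := (dSub_normal G Ω).conj_mem d hd h
    have h3 : ((h * d * h⁻¹) : G) • a = d' • a := by
      rw [mul_smul, mul_smul, ← hhb]
      congr 2
      have : h⁻¹ • a = a := by
        conv_lhs => rw [← hha]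
        rw [inv_smul_smul]
      exact this
    have h4 : d'⁻¹ * (h * d * h⁻¹) ∈ dSub G Ω := Subgroup.mul_mem _ (Subgroup.inv_mem _ hd') hmem
    have h5 : (d'⁻¹ * (h * d * h⁻¹)) • a = a := by
      rw [mul_smul, h3, inv_smul_smul]
    have h6 := hDH _ h4 h5
    have h7 : d' = h * d * h⁻¹ := by
      have := inv_mul_eq_one.mp h6
      exact this
    rw [h7]
    exact (orderOf_conj' h d).symm
  -- conclusion
  have hn1 : Nat.card Ω ≠ 1 := by omega
  obtain ⟨p, hp, hpd⟩ := Nat.exists_prime_and_dvd hn1
  haveI : Fact p.Prime := ⟨hp⟩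
  rw [← hcardD] at hpd
  obtain ⟨x, hx⟩ := exists_prime_orderOf_dvd_card' p hpd
  have hP : IsPGroup p (dSub G Ω) := by
    intro d
    by_cases hd : d = 1
    · exact ⟨0, by rw [hd]; simp⟩
    · refine ⟨1, ?_⟩
      have hx1 : (x : G) ≠ 1 := by
        intro h
        have : x = 1 := Subtype.ext h
        rw [this, orderOf_one] at hx
        exact hp.one_lt.ne hx
      have hd1 : (d : G) ≠ 1 := fun h => hd (Subtype.ext h)
      have h1 := hconj d d.2 x x.2 hd1 hx1
      have h2 : orderOf (d : G) = p := by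
        rw [h1, Subgroup.orderOf_coe, hx]
      have h3 : (d : G) ^ p = 1 := by
        rw [← h2, pow_orderOf_eq_one]
      rw [pow_one]
      exact Subtype.ext h3
  obtain ⟨k, hk⟩ := IsPGroup.iff_card.mp hP
  rw [hcardD] at hk
  rw [hk]
  apply (isPrimePow_nat_iff _).mpr
  refine ⟨p, k, hp, ?_, rfl⟩
  rcases Nat.eq_zero_or_pos k with h0 | h0
  · rw [h0, pow_zero] at hk
    omega
  · exact h0

end Cfsg.Agent.S3548
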