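import Cfsg.Statements.S3356
import Mathlib
import Cfsg.Agent.S3548

set_option autoImplicit false
open Cfsg

namespace Cfsg.Agent.S3356

open Cfsg Cfsg.Agent.S3548
open scoped Pointwise

theorem block_core {H X : Type*} [Group H] [Finite H] [MulAction H X] (k d : ℕ) (hk : d * k = Nat.card H)
    (Y : Set X) (hfin : Y.Finite) (hne : Y.Nonempty) (hk' : ∀ y ∈ Y, Nat.card (MulAction.stabilizer H y) = k)
    (hblock : ∀ h : H, ∀ y ∈ Y, h • y ∈ Y → ∀ y' ∈ Y, h • y' ∈ Y) (hcop : Nat.Coprime d Y.ncard) :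
    ∀ y ∈ Y, ∀ y' ∈ Y, MulAction.stabilizer H y = MulAction.stabilizer H y' := by
  classical
  let A : Subgroup H := MulAction.stabilizer H (Y : Set X)
  have hA : ∀ h : H, ∀ y ∈ Y, h • y ∈ Y → h ∈ A := by
    intro h y hy hhy
    rw [MulAction.mem_stabilizer_iff]
    apply Set.eq_of_subset_of_ncard_le _ _ hfin
    · rintro _ ⟨y', hy', rfl⟩
      exact hblock h y hy hhy y' hy'
    · rw [Set.ncard_smul_set]
  have hAmem : ∀ h ∈ A, ∀ y ∈ Y, h • y ∈ Y := by
    intro h hh y hy
    have h1 : h • Y = Y := hh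
    rw [← h1]
    exact Set.smul_mem_smul_set hy
  have hle : ∀ y ∈ Y, MulAction.stabilizer H y ≤ A := by
    intro y hy h hh
    have h1 : h • y = y := hh
    exact hA h y hy (by rw [h1]; exact hy)
  let S : SubMulAction A X :=
    { carrier := Y
      smul_mem' := fun a y hy => hAmem a a.2 y hy }
  haveI : Finite S := hfin.to_subtype
  obtain ⟨y₀, hy₀⟩ := hne
  have hAk : k ∣ Nat.card A := by
    rw [← hk' y₀ hy₀]
    exact Subgroup.card_dvd_of_le (hle y₀ hy₀)
  have hkpos : 0 < k := by
    rw [← hk' y₀ hy₀]; exact Nat.card_pos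
  obtain ⟨s, hs⟩ := hAk
  have hindex : ∀ x : S, (MulAction.stabilizer A x).index = s := by
    rintro ⟨y, hy⟩
    have e1 : MulAction.stabilizer A (⟨y, hy⟩ : S) = (MulAction.stabilizer H y).subgroupOf A := by
      ext a
      rw [MulAction.mem_stabilizer_iff, Subgroup.mem_subgroupOf, MulAction.mem_stabilizer_iff]
      constructor
      · intro h
        exact congrArg Subtype.val h
      · intro h
        exact Subtype.ext h
    have e2 : Nat.card ((MulAction.stabilizer H y).subgroupOf A) = k := by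
      rw [← hk' y hy]
      exact Nat.card_congr (Subgroup.subgroupOfEquivOfLe (hle y hy)).toEquiv
    have e3 := Subgroup.card_mul_index ((MulAction.stabilizer H y).subgroupOf A)
    rw [e2, hs] at e3
    rw [e1]
    exact Nat.eq_of_mul_eq_mul_left hkpos e3
  have hsY : s ∣ Nat.card S := dvd_card_of_index_dvd s fun x => (hindex x).symm.dvd
  have hcS : Nat.card S = Y.ncard := Nat.card_coe_set_eq Y
  rw [hcS] at hsY
  have hsd : s ∣ d := by
    have e1 := Subgroup.card_mul_index A
    rw [hs, ← hk] at e1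
    have e2 : k * (s * A.index) = k * d := by
      rw [← mul_assoc, e1, mul_comm]
    have e3 := Nat.eq_of_mul_eq_mul_left hkpos e2
    exact ⟨A.index, e3.symm⟩
  have hs1 : s = 1 := Nat.eq_one_of_dvd_coprimes hcop hsd hsY
  rw [hs1, mul_one] at hs
  have hstabA : ∀ y ∈ Y, MulAction.stabilizer H y = A := by
    intro y hy
    apply Subgroup.eq_of_le_of_card_ge (hle y hy)
    rw [hs, hk' y hy]
  intro y hy y' hy'
  rw [hstabA y hy, hstabA y' hy']

/-- Let G be a finite 3/2-transitive permutation group: G acts faithfully and transitively on a finite set, the point stabilizers are non-trivial, and for each point a all orbits of G_a on the remaining points have the same size. Suppose G has a regular normal subgroup N and G is not a Frobenius group (some two-point stabilizer is non-trivial). Then N is an elementary abelian p-group for some prime p, and every non-trivial normal subgroup of G contains N (so N is the unique minimal normal subgroup). -/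
theorem result {G Ω : Type*} [Group G] [Finite G]
    [MulAction G Ω] [FaithfulSMul G Ω] [Finite Ω] (htrans : MulAction.IsPretransitive G Ω)
    (hne : ∀ a : Ω, MulAction.stabilizer G a ≠ ⊥)
    (hhalf : ∀ a b c : Ω, b ≠ a → c ≠ a →
      Nat.card (MulAction.orbit (MulAction.stabilizer G a) b) = Nat.card (MulAction.orbit (MulAction.stabilizer G a) c))
    (N : Subgroup G) [hN : N.Normal] (hNt : MulAction.IsPretransitive N Ω) (hNr : ∀ a : Ω, MulAction.stabilizer N a = ⊥)
    (hnotF : ∃ a b : Ω, a ≠ b ∧ MulAction.stabilizer G a ⊓ MulAction.stabilizer G b ≠ ⊥) :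
    (∃ p : ℕ, p.Prime ∧ IsMulCommutative N ∧ ∀ x ∈ N, x ^ p = 1) ∧
    (∀ M : Subgroup G, M.Normal → M ≠ ⊥ → N ≤ M) := by
  classical
  obtain ⟨a, b, hab, hstab₀⟩ := hnotF
  set H := MulAction.stabilizer G a with hH
  -- parametrisation by `N`
  have hθs : ∀ y : Ω, ∃ x ∈ N, x • a = y := by
    intro y
    obtain ⟨x, hx⟩ := hNt.exists_smul_eq a y
    exact ⟨x, x.2, hx⟩
  have hθi : ∀ x ∈ N, ∀ x' ∈ N, x • a = x' • a → x = x' := by
    intro x hx x' hx' h
    have h1 : (⟨x'⁻¹ * x, N.mul_mem (N.inv_mem hx') hx⟩ : N) ∈ MulAction.stabilizer N a := by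
      rw [MulAction.mem_stabilizer_iff]
      show (x'⁻¹ * x) • a = a
      rw [mul_smul, h, inv_smul_smul]
    rw [hNr a, Subgroup.mem_bot] at h1
    have h2 : x'⁻¹ * x = 1 := congrArg Subtype.val h1
    exact (inv_mul_eq_one.mp h2).symm
  have hact : ∀ h ∈ H, ∀ x : G, h • (x • a) = (h * x * h⁻¹) • a := by
    intro h hh x
    have h1 : h⁻¹ • a = a := by
      have h2 : h • a = a := hh
      conv_lhs => rw [← h2]
      rw [inv_smul_smul]
    rw [mul_smul, mul_smul, h1]
  -- the numbers `k`, `d`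
  set k := Nat.card (MulAction.stabilizer H b) with hkdef
  set d := Nat.card (MulAction.orbit H b) with hddef
  have hdk : d * k = Nat.card H := by
    have h1 := Subgroup.card_mul_index (MulAction.stabilizer H b)
    rw [MulAction.index_stabilizer, ← Nat.card_coe_set_eq] at h1
    rw [mul_comm]
    exact h1
  have horb : ∀ y : Ω, y ≠ a → Nat.card (MulAction.orbit H y) = d := fun y hy =>
    hhalf a y b hy (Ne.symm hab)
  have hkk : ∀ y : Ω, y ≠ a → Nat.card (MulAction.stabilizer H y) = k := by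
    intro y hy
    have h1 := Subgroup.card_mul_index (MulAction.stabilizer H y)
    rw [MulAction.index_stabilizer, ← Nat.card_coe_set_eq, horb y hy, ← hdk, mul_comm] at h1
    have hd0 : 0 < d := by
      by_contra hcon
      have : d = 0 := by omega
      rw [this] at hdk
      have : 0 < Nat.card H := Nat.card_pos
      omega
    exact Nat.eq_of_mul_eq_mul_left hd0 h1
  have hk2 : 1 < k := by
    obtain ⟨t, ht, ht1⟩ := (Subgroup.bot_or_exists_ne_one _).resolve_left hstab₀
    haveI : Nontrivial (MulAction.stabilizer H b) := by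
      refine ⟨⟨⟨⟨t, ht.1⟩, ht.2⟩, 1, ?_⟩⟩
      intro h
      apply ht1
      have := congrArg (fun z : MulAction.stabilizer H b => ((z : H) : G)) h
      exact this
    exact Finite.one_lt_card
  have hdS : ∀ S : Set Ω, a ∉ S → (∀ h ∈ H, ∀ s ∈ S, h • s ∈ S) → d ∣ S.ncard := by
    intro S haS hS
    let S' : SubMulAction H Ω :=
      { carrier := S
        smul_mem' := fun h s hs => hS h h.2 s hs }
    haveI : Finite S' := Finite.of_injective (Subtype.val) Subtype.val_injective
    have h1 : d ∣ Nat.card S' := by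
      apply dvd_card_of_index_dvd (A := H) (X := S')
      rintro ⟨y, hy⟩
      have hya : y ≠ a := fun e => haS (e ▸ hy)
      have e1 : MulAction.stabilizer H (⟨y, hy⟩ : S') = MulAction.stabilizer H y := by
        ext h
        rw [MulAction.mem_stabilizer_iff, MulAction.mem_stabilizer_iff]
        constructor
        · intro e
          exact congrArg Subtype.val e
        · intro e
          exact Subtype.ext e
      rw [e1, MulAction.index_stabilizer, ← Nat.card_coe_set_eq, horb y hya]
    have e2 : Nat.card S' = S.ncard := Nat.card_coe_set_eq S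
    rwa [e2] at h1
  -- the stabilizer of a point, in terms of `N`
  have hCmem : ∀ x ∈ N, ∀ h : H, h ∈ MulAction.stabilizer H (x • a) ↔ (h : G) * x * (h : G)⁻¹ = x := by
    intro x hx h
    rw [MulAction.mem_stabilizer_iff]
    show (h : G) • (x • a) = x • a ↔ _
    rw [hact h h.2 x]
    constructor
    · intro e
      exact hθi _ (hN.conj_mem x hx h) x hx e
    · intro e
      rw [e]
  have hne1 : ∀ x ∈ N, x ≠ 1 → x • a ≠ a := by
    intro x hx h1 e
    apply h1
    apply hθi x hx 1 N.one_mem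
    rw [e, one_smul]
  have hCk : ∀ x ∈ N, x ≠ 1 → Nat.card (MulAction.stabilizer H (x • a)) = k := fun x hx h1 =>
    hkk _ (hne1 x hx h1)
  -- `d` is prime to `|N|`
  have hdn : Nat.Coprime d (Nat.card N) := by
    have hSc : ({y : Ω | y ≠ a} : Set Ω).ncard = Nat.card Ω - 1 := by
      have : ({b : Ω | b ≠ a} : Set Ω) = {a}ᶜ := by ext; simp
      rw [this, Set.ncard_compl, Set.ncard_singleton]
    have h1 : d ∣ Nat.card Ω - 1 := by
      rw [← hSc]
      apply hdS
      · simp
      · intro h hh s hs hcon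
        apply hs
        have h2 : h • s = a := hcon
        have h3 : h • a = a := hh
        rw [← h3] at h2
        exact smul_left_cancel h h2
    have hcN : Nat.card N = Nat.card Ω :=
      Nat.card_congr (Equiv.ofBijective (fun x : N => (x : G) • a)
        ⟨fun x x' e => Subtype.ext (hθi x x.2 x' x'.2 e), fun y => by
          obtain ⟨x, hx, e⟩ := hθs y
          exact ⟨⟨x, hx⟩, e⟩⟩)
    rw [hcN]
    have hpos : 0 < Nat.card Ω := by
      haveI : Nonempty Ω := ⟨a⟩
      exact Nat.card_pos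
    have h2 : Nat.Coprime (Nat.card Ω - 1) (Nat.card Ω) := by
      have e : Nat.card Ω = (Nat.card Ω - 1) + 1 := by omega
      rw [Nat.coprime_comm]
      rw [e]
      simp
    exact Nat.Coprime.coprime_dvd_left h1 h2
  -- U2: classes
  have hU2 : ∀ x ∈ N, x ≠ 1 → ∀ n ∈ N, MulAction.stabilizer H (x • a) = MulAction.stabilizer H ((n * x * n⁻¹) • a) := by
    intro x hx hx1 n hn
    let Y : Set Ω := (fun n : G => (n * x * n⁻¹) • a) '' (N : Set G)
    have hYfin : Y.Finite := Set.toFinite _
    have hYmem : ∀ n ∈ N, (n * x * n⁻¹) • a ∈ Y := fun n hn => ⟨n, hn, rfl⟩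
    have hx0 : x • a ∈ Y := ⟨1, N.one_mem, by simp⟩
    have hconj1 : ∀ n : G, n * x * n⁻¹ ≠ 1 := by
      intro n e
      apply hx1
      have : x = n⁻¹ * (n * x * n⁻¹) * n := by group
      rw [this, e]
      group
    refine block_core k d hdk Y hYfin ⟨_, hx0⟩ ?_ ?_ ?_ _ hx0 _ (hYmem n hn)
    · rintro _ ⟨m, hm, rfl⟩
      exact hkk _ (hne1 _ (hN.conj_mem x hx m) (hconj1 m))
    · rintro h _ ⟨m, hm, rfl⟩ hh _ ⟨m', hm', rfl⟩
      obtain ⟨m₂, hm₂, hm₂e⟩ := hh
      have e0 : (h : G) • ((m * x * m⁻¹) • a) = ((h : G) * (m * x * m⁻¹) * (h : G)⁻¹) • a := hact h h.2 _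
      have e1 : m₂ * x * m₂⁻¹ = (h : G) * (m * x * m⁻¹) * (h : G)⁻¹ :=
        hθi _ (hN.conj_mem x hx m₂) _ (hN.conj_mem _ (hN.conj_mem x hx m) h) (by
          show (m₂ * x * m₂⁻¹) • a = _
          have : (fun n : G => (n * x * n⁻¹) • a) m₂ = (m₂ * x * m₂⁻¹) • a := rfl
          rw [← this, hm₂e]
          exact e0)
      -- so `h x h⁻¹` is a conjugate of `x` by an element of `N`
      have e2 : (h : G) * x * (h : G)⁻¹ = ((h : G) * m⁻¹ * (h : G)⁻¹ * m₂) * x * ((h : G) * m⁻¹ * (h : G)⁻¹ * m₂)⁻¹ := by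
        have e3 : (h : G) * x * (h : G)⁻¹ = ((h : G) * m⁻¹ * (h : G)⁻¹) * ((h : G) * (m * x * m⁻¹) * (h : G)⁻¹) * ((h : G) * m * (h : G)⁻¹) := by group
        rw [e3, ← e1]
        group
      have hm3 : (h : G) * m⁻¹ * (h : G)⁻¹ * m₂ ∈ N := N.mul_mem (hN.conj_mem _ (N.inv_mem hm) h) hm₂
      refine ⟨(h : G) * m' * (h : G)⁻¹ * ((h : G) * m⁻¹ * (h : G)⁻¹ * m₂), N.mul_mem (hN.conj_mem _ hm' h) hm3, ?_⟩
      show _ • a = (h : G) • ((m' * x * m'⁻¹) • a)
      rw [hact h h.2]
      congr 1
      have e4 : (h : G) * (m' * x * m'⁻¹) * (h : G)⁻¹ = ((h : G) * m' * (h : G)⁻¹) * ((h : G) * x * (h : G)⁻¹) * ((h : G) * m' * (h : G)⁻¹)⁻¹ := by group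
      rw [e4, e2]
      group
    · -- `|Y|` divides `|N|`
      apply Nat.Coprime.coprime_dvd_right _ hdn
      let c : N := ⟨x, hx⟩
      have hY : Y = (fun z : N => (z : G) • a) '' (MulAction.orbit (ConjAct N) c) := by
        ext y
        constructor
        · rintro ⟨m, hm, rfl⟩
          refine ⟨(ConjAct.toConjAct (⟨m, hm⟩ : N)) • c, ⟨_, rfl⟩, ?_⟩
          show (((ConjAct.toConjAct (⟨m, hm⟩ : N)) • c : N) : G) • a = _
          rw [ConjAct.smul_def]
          rfl
        · rintro ⟨_, ⟨m, rfl⟩, rfl⟩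
          refine ⟨(ConjAct.ofConjAct m : N), (ConjAct.ofConjAct m).2, ?_⟩
          show _ = (((m • c : N)) : G) • a
          rw [ConjAct.smul_def]
          rfl
      rw [hY, Set.ncard_image_of_injective _ (fun z z' e => Subtype.ext (hθi z z.2 z' z'.2 e)),
        ← MulAction.index_stabilizer]
      have h1 := Subgroup.index_dvd_card (MulAction.stabilizer (ConjAct N) c)
      have h2 : Nat.card (ConjAct N) = Nat.card N := Nat.card_congr ConjAct.toConjAct.symm.toEquiv
      rwa [h2] at h1
  -- inverses and products in the stabilizers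
  have hCinv : ∀ x ∈ N, x ≠ 1 → MulAction.stabilizer H (x⁻¹ • a) = MulAction.stabilizer H (x • a) := by
    intro x hx hx1
    ext h
    rw [hCmem _ (N.inv_mem hx), hCmem _ hx]
    constructor
    · intro e
      have := congrArg (·⁻¹) e
      simp only [mul_inv_rev, inv_inv] at this
      rw [← mul_assoc] at this
      exact this
    · intro e
      have := congrArg (·⁻¹) e
      simp only [mul_inv_rev, inv_inv] at this
      rw [← mul_assoc] at this
      exact this
  have hCmul : ∀ x ∈ N, ∀ y ∈ N, x * y ≠ 1 → MulAction.stabilizer H (x • a) ≤ MulAction.stabilizer H (y • a) →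
      MulAction.stabilizer H (x • a) ≤ MulAction.stabilizer H ((x * y) • a) := by
    intro x hx y hy _ hle h hh
    rw [hCmem _ (N.mul_mem hx hy)]
    have h1 := (hCmem x hx h).mp hh
    have h2 := (hCmem y hy h).mp (hle hh)
    calc (h : G) * (x * y) * (h : G)⁻¹ = ((h : G) * x * (h : G)⁻¹) * ((h : G) * y * (h : G)⁻¹) := by group
      _ = x * y := by rw [h1, h2]
  have hCeq : ∀ x ∈ N, ∀ y ∈ N, x ≠ 1 → y ≠ 1 → MulAction.stabilizer H (x • a) ≤ MulAction.stabilizer H (y • a) →
      MulAction.stabilizer H (x • a) = MulAction.stabilizer H (y • a) := by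
    intro x hx y hy hx1 hy1 hle
    apply Subgroup.eq_of_le_of_card_ge hle
    rw [hCk x hx hx1, hCk y hy hy1]
  -- claim 0
  have hcl0 : ∀ x ∈ N, ∀ y ∈ N, x ≠ 1 → y ≠ 1 → MulAction.stabilizer H (x • a) ≠ MulAction.stabilizer H (y • a) →
      x * y = y * x := by
    intro x hx y hy hx1 hy1 hne'
    by_contra hcon
    have hw : x * y * x⁻¹ * y⁻¹ ≠ 1 := by
      intro e
      apply hcon
      have : x * y = (x * y * x⁻¹ * y⁻¹) * (y * x) := by group
      rw [this, e, one_mul]
    apply hne'
    have hz : y * x⁻¹ * y⁻¹ ∈ N := hN.conj_mem _ (N.inv_mem hx) y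
    have hz1 : y * x⁻¹ * y⁻¹ ≠ 1 := by
      intro e
      apply hx1
      have h1 : x⁻¹ = y⁻¹ * (y * x⁻¹ * y⁻¹) * y := by group
      rw [e] at h1
      simpa using h1
    have hu : x * y * x⁻¹ ∈ N := hN.conj_mem _ hy x
    have hu1 : x * y * x⁻¹ ≠ 1 := by
      intro e
      apply hy1
      have h1 : y = x⁻¹ * (x * y * x⁻¹) * x := by group
      rw [e] at h1
      simpa using h1
    have e1 : x * y * x⁻¹ * y⁻¹ = x * (y * x⁻¹ * y⁻¹) := by group
    have hwN : x * y * x⁻¹ * y⁻¹ ∈ N := N.mul_mem hu (N.inv_mem hy)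
    -- stabilizer of `w` equals that of `x`
    have h1 : MulAction.stabilizer H (x • a) = MulAction.stabilizer H ((x * y * x⁻¹ * y⁻¹) • a) := by
      apply hCeq x hx _ hwN hx1 hw
      rw [e1]
      apply hCmul x hx _ hz (by rw [← e1]; exact hw)
      have e2 := hU2 x⁻¹ (N.inv_mem hx) (inv_ne_one.mpr hx1) y hy
      rw [hCinv x hx hx1] at e2
      exact e2.le
    have h2 : MulAction.stabilizer H (y • a) = MulAction.stabilizer H ((x * y * x⁻¹ * y⁻¹) • a) := by
      apply hCeq y hy _ hwN hy1 hw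
      have e3 : x * y * x⁻¹ * y⁻¹ = y⁻¹ * (y * (x * y * x⁻¹) * y⁻¹) := by group
      rw [e3]
      have hy' : y⁻¹ ∈ N := N.inv_mem hy
      have e4 : MulAction.stabilizer H (y • a) = MulAction.stabilizer H (y⁻¹ • a) := (hCinv y hy hy1).symm
      rw [e4]
      apply hCmul y⁻¹ hy' _ (hN.conj_mem _ hu y) (by rw [← e3]; exact hw)
      have e2 := hU2 y hy hy1 (y * x) (N.mul_mem hy hx)
      have e5 : y * x * y * (y * x)⁻¹ = y * (x * y * x⁻¹) * y⁻¹ := by group
      rw [e5] at e2
      rw [← e4]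
      exact e2.le
    rw [h1, h2]
  have hC1 : ∀ K : Subgroup H, (∀ y : Ω, K ≤ MulAction.stabilizer H y) → K = ⊥ := by
    intro K hK
    rw [eq_bot_iff]
    intro h hh
    rw [Subgroup.mem_bot]
    apply Subtype.ext
    apply FaithfulSMul.eq_of_smul_eq_smul (α := Ω)
    intro y
    have := hK y hh
    rw [MulAction.mem_stabilizer_iff] at this
    show (h : G) • y = (1 : G) • y
    rw [one_smul]
    exact this
  have hKbot : ∀ x ∈ N, x ≠ 1 → MulAction.stabilizer H (x • a) ≠ ⊥ := by
    intro x hx hx1 e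
    have := hCk x hx hx1
    rw [e, Nat.card_eq_one_iff_unique.mpr ⟨inferInstance, ⟨1⟩⟩] at this
    omega
  -- commutativity
  have hab' : ∀ x ∈ N, ∀ y ∈ N, x * y = y * x := by
    intro x hx y hy
    by_cases hx1 : x = 1
    · rw [hx1]; simp
    by_cases hy1 : y = 1
    · rw [hy1]; simp
    by_cases hxy : MulAction.stabilizer H (x • a) = MulAction.stabilizer H (y • a)
    · -- find `z` with a different stabilizer
      have hex : ∃ z ∈ N, z ≠ 1 ∧ MulAction.stabilizer H (z • a) ≠ MulAction.stabilizer H (x • a) := by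
        by_contra hcon
        push Not at hcon
        apply hKbot x hx hx1
        apply hC1
        intro w
        obtain ⟨z, hz, rfl⟩ := hθs w
        by_cases hz1 : z = 1
        · rw [hz1, one_smul]
          intro h _
          exact h.2
        · rw [hcon z hz hz1]
      obtain ⟨z, hz, hz1, hzx⟩ := hex
      have hxz1 : x * z ≠ 1 := by
        intro e
        have : z = x⁻¹ := eq_inv_of_mul_eq_one_right e
        apply hzx
        rw [this, hCinv x hx hx1]
      have hxzne : MulAction.stabilizer H ((x * z) • a) ≠ MulAction.stabilizer H (y • a) := by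
        intro e
        apply hzx
        rw [hxy]
        symm
        apply hCeq y hy z hz hy1 hz1
        rw [← e]
        -- from `x`, `xz` to `z`
        intro h hh
        rw [e, ← hxy] at hh
        have h1 := (hCmem x hx h).mp hh
        have h2 := (hCmem _ (N.mul_mem hx hz) h).mp (by rw [e, ← hxy]; exact hh)
        rw [hCmem z hz]
        have e3 : ((h : G) * x * (h : G)⁻¹) * ((h : G) * z * (h : G)⁻¹) = x * z := by
          rw [← h2]; group
        rw [h1] at e3
        exact mul_left_cancel e3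
      have h1 := hcl0 _ (N.mul_mem hx hz) y hy hxz1 hy1 hxzne
      have h2 := hcl0 z hz y hy hz1 hy1 (by rw [← hxy]; exact hzx)
      have h3 : x * y * z = y * x * z := by
        calc x * y * z = x * (y * z) := by group
          _ = x * (z * y) := by rw [h2]
          _ = x * z * y := by group
          _ = y * (x * z) := h1
          _ = y * x * z := by group
      exact mul_right_cancel h3
    · exact hcl0 x hx y hy hx1 hy1 hxy
  -- U1: invariant subgroups
  have hU1 : ∀ M : Subgroup G, M ≤ N → (∀ h ∈ H, ∀ m ∈ M, h * m * h⁻¹ ∈ M) → ∀ x ∈ N, x ∉ M → ∀ m ∈ M,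
      MulAction.stabilizer H (x • a) = MulAction.stabilizer H ((x * m) • a) := by
    intro M hMN hMi x hx hxM m hm
    let Y : Set Ω := (fun m : G => (x * m) • a) '' (M : Set G)
    have hx0 : x • a ∈ Y := ⟨1, M.one_mem, by simp⟩
    have hxm1 : ∀ m ∈ M, x * m ≠ 1 := by
      intro m hm e
      apply hxM
      rw [eq_inv_of_mul_eq_one_left e]
      exact M.inv_mem hm
    refine block_core k d hdk Y (Set.toFinite _) ⟨_, hx0⟩ ?_ ?_ ?_ _ hx0 _ ⟨m, hm, rfl⟩
    · rintro _ ⟨m, hm, rfl⟩
      exact hkk _ (hne1 _ (N.mul_mem hx (hMN hm)) (hxm1 m hm))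
    · rintro h _ ⟨m, hm, rfl⟩ hh _ ⟨m', hm', rfl⟩
      obtain ⟨m₂, hm₂, hm₂e⟩ := hh
      have e0 : (h : G) • ((x * m) • a) = ((h : G) * (x * m) * (h : G)⁻¹) • a := hact h h.2 _
      have hhm : (h : G) * m * (h : G)⁻¹ ∈ M := hMi h h.2 m hm
      have hhm' : (h : G) * m' * (h : G)⁻¹ ∈ M := hMi h h.2 m' hm'
      have e1 : x * m₂ = (h : G) * (x * m) * (h : G)⁻¹ :=
        hθi _ (N.mul_mem hx (hMN hm₂)) _ (hN.conj_mem _ (N.mul_mem hx (hMN hm)) h) (by
          have : (fun m : G => (x * m) • a) m₂ = (x * m₂) • a := rfl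
          rw [← this, hm₂e]
          exact e0)
      have e2 : (h : G) * x * (h : G)⁻¹ = x * m₂ * ((h : G) * m * (h : G)⁻¹)⁻¹ := by
        rw [e1]; group
      refine ⟨m₂ * ((h : G) * m * (h : G)⁻¹)⁻¹ * ((h : G) * m' * (h : G)⁻¹),
        M.mul_mem (M.mul_mem hm₂ (M.inv_mem hhm)) hhm', ?_⟩
      show (x * _) • a = (h : G) • ((x * m') • a)
      rw [hact h h.2]
      congr 1
      have e4 : (h : G) * (x * m') * (h : G)⁻¹ = ((h : G) * x * (h : G)⁻¹) * ((h : G) * m' * (h : G)⁻¹) := by group
      rw [e4, e2]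
      group
    · -- cardinalities
      have hYc : Y.ncard = Nat.card M := by
        rw [Set.InjOn.ncard_image, ← Nat.card_coe_set_eq]
        · rfl
        · intro u hu v hv e
          have := hθi _ (N.mul_mem hx (hMN hu)) _ (N.mul_mem hx (hMN hv)) e
          exact mul_left_cancel this
      rw [hYc]
      let S : Set Ω := (fun m : G => m • a) '' ((M : Set G) \ {1})
      have hSc : S.ncard = Nat.card M - 1 := by
        rw [Set.InjOn.ncard_image, Set.ncard_sdiff_singleton_of_mem (M.one_mem), ← Nat.card_coe_set_eq]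
        · rfl
        · intro u hu v hv e
          exact hθi _ (hMN hu.1) _ (hMN hv.1) e
      have h1 : d ∣ Nat.card M - 1 := by
        rw [← hSc]
        apply hdS
        · rintro ⟨u, hu, e⟩
          exact hne1 u (hMN hu.1) hu.2 e
        · rintro h hh _ ⟨u, hu, rfl⟩
          refine ⟨h * u * h⁻¹, ⟨hMi h hh u hu.1, ?_⟩, ?_⟩
          · intro e
            apply hu.2
            show u = 1
            have e' : h * u * h⁻¹ = 1 := e
            have : u = h⁻¹ * (h * u * h⁻¹) * h := by group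
            rw [this, e']
            group
          · exact (hact h hh u).symm
      have hpos : 0 < Nat.card M := Nat.card_pos
      have h2 : Nat.Coprime (Nat.card M - 1) (Nat.card M) := by
        have e : Nat.card M = (Nat.card M - 1) + 1 := by omega
        rw [Nat.coprime_comm]
        rw [e]
        simp
      exact Nat.Coprime.coprime_dvd_left h1 h2
  -- no proper invariant subgroups
  have hinv : ∀ M : Subgroup G, M ≤ N → (∀ h ∈ H, ∀ m ∈ M, h * m * h⁻¹ ∈ M) → M = ⊥ ∨ M = N := by
    intro M hMN hMi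
    by_contra hcon
    push Not at hcon
    obtain ⟨hMb, hMne⟩ := hcon
    obtain ⟨m₀, hm₀, hm₀1⟩ := (Subgroup.bot_or_exists_ne_one M).resolve_left hMb
    obtain ⟨x₀, hx₀, hx₀M⟩ : ∃ x ∈ N, x ∉ M := by
      by_contra hc
      push Not at hc
      exact hMne (le_antisymm hMN hc)
    have hkey : ∀ x ∈ N, x ∉ M → ∀ m ∈ M, m ≠ 1 →
        MulAction.stabilizer H (x • a) = MulAction.stabilizer H (m • a) := by
      intro x hx hxM m hm hm1
      have hx1 : x ≠ 1 := fun e => hxM (e ▸ M.one_mem)
      apply hCeq x hx m (hMN hm) hx1 hm1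
      intro h hh
      have h1 := (hCmem x hx h).mp hh
      rw [hU1 M hMN hMi x hx hxM m hm] at hh
      have h2 := (hCmem _ (N.mul_mem hx (hMN hm)) h).mp hh
      rw [hCmem m (hMN hm)]
      have e3 : ((h : G) * x * (h : G)⁻¹) * ((h : G) * m * (h : G)⁻¹) = x * m := by
        rw [← h2]; group
      rw [h1] at e3
      exact mul_left_cancel e3
    apply hKbot m₀ (hMN hm₀) hm₀1
    apply hC1
    intro w
    obtain ⟨z, hz, rfl⟩ := hθs w
    by_cases hz1 : z = 1
    · rw [hz1, one_smul]
      intro h _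
      exact h.2
    by_cases hzM : z ∈ M
    · rw [← hkey x₀ hx₀ hx₀M m₀ hm₀ hm₀1, hkey x₀ hx₀ hx₀M z hzM hz1]
    · rw [hkey z hz hzM m₀ hm₀ hm₀1]
  -- `N` is non-trivial
  obtain ⟨x₁, hx₁, hx₁e⟩ := hθs b
  have hx₁1 : x₁ ≠ 1 := by
    intro e
    rw [e, one_smul] at hx₁e
    exact hab hx₁e
  have hNb : N ≠ ⊥ := by
    intro e
    rw [e] at hx₁
    exact hx₁1 (Subgroup.mem_bot.mp hx₁)
  have hcardN : Nat.card N ≠ 1 := fun e => hNb (Subgroup.card_eq_one.mp e)
  obtain ⟨p, hp, hpd⟩ := Nat.exists_prime_and_dvd hcardN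
  haveI : Fact p.Prime := ⟨hp⟩
  obtain ⟨x₂, hx₂⟩ := exists_prime_orderOf_dvd_card' p hpd
  refine ⟨⟨p, hp, ?_, ?_⟩, ?_⟩
  · exact IsMulCommutative.of_setLike_mul_comm hab'
  · -- exponent `p`
    let M : Subgroup G :=
      { carrier := {x | x ∈ N ∧ x ^ p = 1}
        mul_mem' := by
          rintro u v ⟨hu, hu'⟩ ⟨hv, hv'⟩
          refine ⟨N.mul_mem hu hv, ?_⟩
          have : Commute u v := hab' u hu v hv
          rw [this.mul_pow, hu', hv', one_mul]
        one_mem' := ⟨N.one_mem, one_pow _⟩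
        inv_mem' := by
          rintro u ⟨hu, hu'⟩
          exact ⟨N.inv_mem hu, by rw [inv_pow, hu', inv_one]⟩ }
    have hMN : M ≤ N := fun u hu => hu.1
    have hMi : ∀ h ∈ H, ∀ m ∈ M, h * m * h⁻¹ ∈ M := by
      rintro h _ m ⟨hm, hm'⟩
      refine ⟨hN.conj_mem m hm h, ?_⟩
      rw [conj_pow, hm']
      group
    have hMne : M ≠ ⊥ := by
      intro e
      have h1 : (x₂ : G) ∈ M := ⟨x₂.2, by
        have : x₂ ^ p = 1 := by rw [← hx₂, pow_orderOf_eq_one]
        exact congrArg Subtype.val this⟩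
      rw [e, Subgroup.mem_bot] at h1
      have h2 : x₂ = 1 := Subtype.ext h1
      rw [h2, orderOf_one] at hx₂
      exact hp.one_lt.ne hx₂
    have hMeq := (hinv M hMN hMi).resolve_left hMne
    intro x hx
    rw [← hMeq] at hx
    exact hx.2
  · -- unique minimal normal subgroup
    intro M hMn hMb
    have h1 := hinv (M ⊓ N) inf_le_right (by
      rintro h hh m ⟨hm, hm'⟩
      exact ⟨hMn.conj_mem m hm h, hN.conj_mem m hm' h⟩)
    rcases h1 with h1 | h1
    · exfalso
      obtain ⟨m, hm, hm1⟩ := (Subgroup.bot_or_exists_ne_one M).resolve_left hMb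
      have hcomm : ∀ y ∈ N, m * y = y * m := by
        intro y hy
        have e1 : m * y * m⁻¹ * y⁻¹ ∈ M ⊓ N := by
          refine ⟨?_, ?_⟩
          · have : m * y * m⁻¹ * y⁻¹ = m * (y * m⁻¹ * y⁻¹) := by group
            rw [this]
            exact M.mul_mem hm (hMn.conj_mem _ (M.inv_mem hm) y)
          · exact N.mul_mem (hN.conj_mem y hy m) (N.inv_mem hy)
        rw [h1, Subgroup.mem_bot] at e1
        have : m * y = (m * y * m⁻¹ * y⁻¹) * (y * m) := by group
        rw [this, e1, one_mul]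
      obtain ⟨x, hx, hxe⟩ := hθs (m • a)
      have hm2 : x⁻¹ * m = 1 := by
        apply FaithfulSMul.eq_of_smul_eq_smul (α := Ω)
        intro w
        obtain ⟨z, hz, rfl⟩ := hθs w
        rw [one_smul, mul_smul, ← mul_smul m, hcomm z hz, mul_smul, ← hxe, ← mul_smul, ← mul_smul]
        congr 1
        rw [mul_assoc, hab' z hz x hx]
        group
      have hmx : m = x := (inv_mul_eq_one.mp hm2).symm
      have : m ∈ M ⊓ N := ⟨hm, hmx ▸ hx⟩
      rw [h1, Subgroup.mem_bot] at this
      exact hm1 this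
    · rw [← h1]
      exact inf_le_left

end Cfsg.Agent.S3356
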