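import Cfsg.Statements.S3380
import Cfsg.Agent.Lib.H1TwoClass

set_option autoImplicit false
open Cfsg

namespace Cfsg.Agent.S3380

section core

variable {q : ℕ} [Fact q.Prime] {V : Type*} [AddCommGroup V] [Module (ZMod q) V]
  {G : Type*} [Group G] (p : ℕ) [Fact p.Prime]
  (ρ : G →* (V ≃ₗ[ZMod q] V))

theorem rho_mul (g h : G) (v : V) : ρ (g * h) v = ρ g (ρ h v) := by
  rw [map_mul, LinearEquiv.mul_apply]

theorem rho_one (v : V) : ρ 1 v = v := by
  rw [map_one]; rfl

/-- Fixed space. -/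
def Fx (x : G) : Submodule (ZMod q) V where
  carrier := {w | ρ x w = w}
  add_mem' := by
    intro u w hu hw
    simp only [Set.mem_setOf_eq] at hu hw ⊢
    rw [map_add, hu, hw]
  zero_mem' := by simp
  smul_mem' := by
    intro c u hu
    simp only [Set.mem_setOf_eq] at hu ⊢
    rw [map_smul, hu]

theorem mem_Fx (x : G) (w : V) : w ∈ Fx ρ x ↔ ρ x w = w := Iff.rfl

theorem fix_bot (hρ : Function.Injective ρ)
    (hirr : ∀ W : Submodule (ZMod q) V, (∀ g : G, ∀ w ∈ W, ρ g w ∈ W) → W = ⊥ ∨ W = ⊤)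
    {x : G} (hx : ∀ g, g * x = x * g) (hx1 : x ≠ 1) {v : V} (hv : ρ x v = v) : v = 0 := by
  rcases hirr (Fx ρ x) (by
    intro g w hw
    rw [mem_Fx] at hw ⊢
    rw [← rho_mul, ← hx, rho_mul, hw]) with h | h
  · have : v ∈ Fx ρ x := (mem_Fx ρ x v).mpr hv
    rw [h] at this
    simpa using this
  · exfalso
    apply hx1
    apply hρ
    rw [map_one]
    ext w
    have : w ∈ Fx ρ x := by rw [h]; trivial
    exact (mem_Fx ρ x w).mp this

/-- Averaging operator. -/
noncomputable def E (c : G) : V →ₗ[ZMod q] V :=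
  ∑ k ∈ Finset.range p, ((ρ (c ^ k) : V ≃ₗ[ZMod q] V) : V →ₗ[ZMod q] V)

theorem E_apply (c : G) (v : V) : E p ρ c v = ∑ k ∈ Finset.range p, ρ (c ^ k) v := by
  simp [E, LinearMap.sum_apply]

theorem E_fixed {c : G} (hc : c ^ p = 1) (v : V) : ρ c (E p ρ c v) = E p ρ c v := by
  rw [E_apply, map_sum]
  have h1 : ∀ k, ρ c (ρ (c ^ k) v) = ρ (c ^ (k + 1)) v := by
    intro k
    rw [← rho_mul, pow_succ']
  simp_rw [h1]
  have h2 := Finset.sum_range_succ (fun k => ρ (c ^ k) v) p
  have h3 := Finset.sum_range_succ' (fun k => ρ (c ^ k) v) p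
  simp only [pow_zero, hc] at h2 h3
  rw [h2] at h3
  exact (add_right_cancel h3).symm

theorem pow_fix {c : G} {v : V} (hv : ρ c v = v) (k : ℕ) : ρ (c ^ k) v = v := by
  induction k with
  | zero => simp [rho_one]
  | succ k ih => rw [pow_succ, rho_mul, hv, ih]

theorem E_of_fix {c : G} {v : V} (hv : ρ c v = v) : E p ρ c v = p • v := by
  rw [E_apply, Finset.sum_congr rfl (fun k _ => pow_fix ρ hv k)]
  simp

theorem E_comm {c x : G} (h : x * c = c * x) (v : V) : ρ x (E p ρ c v) = E p ρ c (ρ x v) := by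
  rw [E_apply, E_apply, map_sum]
  apply Finset.sum_congr rfl
  intro k _
  rw [← rho_mul, ← rho_mul, (show Commute x (c ^ k) from (show Commute x c from h).pow_right k).eq]

theorem sum_reindex {b : G} (hb : b ^ p = 1) {k : ℕ} (hk : 0 < k) (hkp : k < p) (v : V) :
    ∑ i ∈ Finset.range p, ρ (b ^ (i * k)) v = E p ρ b v := by
  rw [E_apply]
  have hpp : p.Prime := Fact.out
  have hcop : Nat.Coprime p k := (Nat.Prime.coprime_iff_not_dvd hpp).mpr (Nat.not_dvd_of_pos_of_lt hk hkp)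
  have h1 : ∀ i, ρ (b ^ (i * k)) v = (fun j => ρ (b ^ j) v) (i * k % p) := by
    intro i
    simp only
    rw [← pow_eq_pow_mod (i * k) hb]
  simp_rw [h1]
  have hinj : Set.InjOn (fun i => i * k % p) (Finset.range p : Set ℕ) := by
    intro x hx y hy hxy
    have hxy' : x * k ≡ y * k [MOD p] := hxy
    have h2 : x ≡ y [MOD p] := Nat.ModEq.cancel_right_of_coprime (by rwa [Nat.coprime_iff_gcd_eq_one] at hcop) hxy'
    exact Nat.ModEq.eq_of_lt_of_lt h2 (by simpa using hx) (by simpa using hy)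
  have himg : (Finset.range p).image (fun i => i * k % p) = Finset.range p := by
    apply Finset.eq_of_subset_of_card_le
    · intro y hy
      obtain ⟨i, -, rfl⟩ := Finset.mem_image.mp hy
      exact Finset.mem_range.mpr (Nat.mod_lt _ hpp.pos)
    · rw [Finset.card_image_of_injOn hinj]
  conv_rhs => rw [← himg]
  rw [Finset.sum_image hinj]

theorem sum_E {a b : G} (hab : a * b = b * a) (hb : b ^ p = 1) (hE : ∀ v : V, E p ρ b v = 0) (v : V) :
    ∑ i ∈ Finset.range p, E p ρ (a * b ^ i) v = p • v := by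
  simp_rw [E_apply]
  rw [Finset.sum_comm]
  have hk : ∀ k ∈ Finset.range p, ∑ i ∈ Finset.range p, ρ ((a * b ^ i) ^ k) v = if k = 0 then p • v else 0 := by
    intro k hk
    have hk' := Finset.mem_range.mp hk
    split_ifs with h0
    · subst h0
      simp [rho_one]
    · have h1 : ∀ i, ρ ((a * b ^ i) ^ k) v = ρ (a ^ k) (ρ (b ^ (i * k)) v) := by
        intro i
        rw [(show Commute a (b ^ i) from (show Commute a b from hab).pow_right i).mul_pow, rho_mul, pow_mul]
      simp_rw [h1]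
      rw [← map_sum, sum_reindex p ρ hb (Nat.pos_of_ne_zero h0) hk', hE, map_zero]
  rw [Finset.sum_congr rfl hk, Finset.sum_ite_eq' (Finset.range p) 0]
  rw [if_pos (Finset.mem_range.mpr (Fact.out : p.Prime).pos)]

theorem fix_exists [Nontrivial V] (hqp : q = p) {b : G} (hb : b ^ p = 1) : ∃ v : V, v ≠ 0 ∧ ρ b v = v := by
  subst hqp
  let T : Module.End (ZMod q) V := ((ρ b : V ≃ₗ[ZMod q] V) : V →ₗ[ZMod q] V)
  haveI : CharP (Module.End (ZMod q) V) q :=
    charP_of_injective_algebraMap (algebraMap (ZMod q) (Module.End (ZMod q) V)).injective q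
  have hTk : ∀ k (w : V), (T ^ k) w = ρ (b ^ k) w := by
    intro k w
    induction k with
    | zero => simp [rho_one]
    | succ k ih =>
      rw [pow_succ', Module.End.mul_apply, ih, pow_succ', rho_mul]
      rfl
  have hT : T ^ q = 1 := by
    ext w
    rw [hTk, hb]
    simp [rho_one]
  have h0 : (T - 1) ^ q = 0 := by
    rw [sub_pow_char_of_commute q (Commute.one_right T), hT, one_pow, sub_self]
  by_contra hno
  push_neg at hno
  have hinj : Function.Injective (⇑(T - (1 : Module.End (ZMod q) V))) := by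
    rw [injective_iff_map_eq_zero]
    intro w hw
    by_contra hw0
    apply hno w hw0
    have : T w - w = 0 := hw
    have h2 : T w = w := sub_eq_zero.mp this
    exact h2
  obtain ⟨w, hw⟩ := exists_ne (0 : V)
  apply hw
  have h3 : ((T - 1) ^ q) w = ((T - 1) ^ q) 0 := by
    rw [h0]; simp
  rw [Module.End.pow_apply, Module.End.pow_apply] at h3
  exact hinj.iterate q h3

theorem core_thm [Nontrivial V] [Finite G] (hρ : Function.Injective ρ)
    (hirr : ∀ W : Submodule (ZMod q) V, (∀ g : G, ∀ w ∈ W, ρ g w ∈ W) → W = ⊥ ∨ W = ⊤)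
    {a b : G} (hbc : ∀ g, g * b = b * g) (hbo : orderOf b = p) (hap : a ^ p = 1)
    (hnab : a ∉ Subgroup.zpowers b) (hconj : ∀ g, ∃ c : ℕ, g * a * g⁻¹ = a * b ^ c) :
    ∃ (H : Subgroup G) (W : Fin p → Submodule (ZMod q) V), H.index = p ∧
      iSup W = ⊤ ∧ iSupIndep W ∧
      (∀ h ∈ H, ∀ i, ∀ w ∈ W i, ρ h w ∈ W i) ∧
      (∀ i, ∃ h ∈ H, h ≠ 1 ∧ ∀ w ∈ W i, ρ h w = w) ∧
      ∀ g : G, g ∉ H → ∃ σ : Equiv.Perm (Fin p), orderOf σ = p ∧ ∀ i, (W i).map (ρ g : V →ₗ[ZMod q] V) = W (σ i) := by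
  have hpp : p.Prime := Fact.out
  haveI : NeZero p := ⟨hpp.ne_zero⟩
  have hb : b ^ p = 1 := by rw [← hbo]; exact pow_orderOf_eq_one b
  have hb1 : b ≠ 1 := by
    intro h
    rw [h, orderOf_one] at hbo
    exact hpp.one_lt.ne hbo
  have hab : a * b = b * a := hbc a
  have hqp : q ≠ p := by
    intro h
    obtain ⟨v, hv0, hv⟩ := fix_exists p ρ h hb
    exact hv0 (fix_bot ρ hρ hirr hbc hb1 hv)
  have hpz : (p : ZMod q) ≠ 0 := by
    intro h
    rw [ZMod.natCast_eq_zero_iff] at h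
    have hq : q.Prime := Fact.out
    exact hqp ((Nat.prime_dvd_prime_iff_eq hq hpp).mp h)
  have hsmul : ∀ v : V, p • v = 0 → v = 0 := by
    intro v hv
    rw [← Nat.cast_smul_eq_nsmul (ZMod q)] at hv
    exact (smul_eq_zero.mp hv).resolve_left hpz
  have hE : ∀ v : V, E p ρ b v = 0 := fun v => fix_bot ρ hρ hirr hbc hb1 (E_fixed p ρ hb v)
  let c : Fin p → G := fun i => a * b ^ (i : ℕ)
  have hcp : ∀ i, c i ^ p = 1 := by
    intro i
    show (a * b ^ (i : ℕ)) ^ p = 1
    rw [(show Commute a (b ^ (i : ℕ)) from (show Commute a b from hab).pow_right _).mul_pow, hap, ← pow_mul,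
      mul_comm, pow_mul, hb, one_pow, one_mul]
  have hc1 : ∀ i, c i ≠ 1 := by
    intro i h
    apply hnab
    have : a = (b ^ (i : ℕ))⁻¹ := eq_inv_of_mul_eq_one_left h
    rw [this]
    exact Subgroup.inv_mem _ (Subgroup.npow_mem_zpowers _ _)
  have hsum : ∀ v : V, ∑ i : Fin p, E p ρ (c i) v = p • v := by
    intro v
    rw [← sum_E p ρ hab hb hE v, Finset.sum_range]
  have hbpow : ∀ (k : ℕ) (g : G), g * b ^ k = b ^ k * g := by
    intro k g
    exact (show Commute g (b ^ k) from (show Commute g b from hbc g).pow_right k).eq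
  -- a is not central
  have hnc : ∃ g, g * a ≠ a * g := by
    by_contra hall
    push_neg at hall
    obtain ⟨w, hw⟩ := exists_ne (0 : V)
    apply hw
    apply hsmul
    rw [← hsum]
    apply Finset.sum_eq_zero
    intro i _
    refine fix_bot ρ hρ hirr (x := c i) ?_ (hc1 i) (E_fixed p ρ (hcp i) w)
    intro g
    show g * (a * b ^ (i : ℕ)) = a * b ^ (i : ℕ) * g
    rw [← mul_assoc, hall, mul_assoc, hbpow, mul_assoc]
  let H : Subgroup G := Subgroup.centralizer ({a} : Set G)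
  have hmemH : ∀ g, g ∈ H ↔ g * a = a * g := by
    intro g
    rw [Subgroup.mem_centralizer_singleton_iff]
  have hcommab : ∀ g, g * a * g⁻¹ * a⁻¹ ∈ Subgroup.zpowers b := by
    intro g
    obtain ⟨c, hc⟩ := hconj g
    rw [hc, mul_assoc, ← hbpow c a⁻¹, mul_inv_cancel_left]
    exact Subgroup.npow_mem_zpowers _ _
  let φ : G →* Subgroup.zpowers b := MonoidHom.mk' (fun g => ⟨g * a * g⁻¹ * a⁻¹, hcommab g⟩) (by
    intro g h
    apply Subtype.ext
    obtain ⟨r, hr⟩ := hconj g
    obtain ⟨s, hs⟩ := hconj h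
    show (g * h) * a * (g * h)⁻¹ * a⁻¹ = (g * a * g⁻¹ * a⁻¹) * (h * a * h⁻¹ * a⁻¹)
    have h1 : (g * h) * a * (g * h)⁻¹ = g * (h * a * h⁻¹) * g⁻¹ := by group
    rw [h1, hs, hr]
    have h2 : g * (a * b ^ s) * g⁻¹ = (g * a * g⁻¹) * b ^ s := by
      have h3 := hbpow s g⁻¹
      calc g * (a * b ^ s) * g⁻¹ = g * a * (b ^ s * g⁻¹) := by group
        _ = g * a * (g⁻¹ * b ^ s) := by rw [h3]
        _ = _ := by group
    rw [h2, hr]
    group)
  have hker : φ.ker = H := by
    ext g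
    rw [MonoidHom.mem_ker, hmemH]
    constructor
    · intro h
      have h1 : g * a * g⁻¹ * a⁻¹ = 1 := congrArg Subtype.val h
      rw [mul_inv_eq_one, mul_inv_eq_iff_eq_mul] at h1
      exact h1
    · intro h
      apply Subtype.ext
      show g * a * g⁻¹ * a⁻¹ = 1
      rw [h]
      group
  have hindex : H.index = p := by
    rw [← hker, Subgroup.index_ker]
    have h1 : Nat.card φ.range ∣ p := by
      have h2 := Subgroup.card_subgroup_dvd_card φ.range
      rwa [Nat.card_zpowers, hbo] at h2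
    rcases (Nat.dvd_prime hpp).mp h1 with h2 | h2
    · exfalso
      have h3 : H = ⊤ := by
        rw [← hker]
        apply Subgroup.index_eq_one.mp
        rw [Subgroup.index_ker, h2]
      obtain ⟨g, hg⟩ := hnc
      apply hg
      have : g ∈ H := by rw [h3]; trivial
      exact (hmemH g).mp this
    · exact h2
  have hcH : ∀ h ∈ H, ∀ i, h * c i = c i * h := by
    intro h hh i
    show h * (a * b ^ (i : ℕ)) = a * b ^ (i : ℕ) * h
    rw [← mul_assoc, (hmemH h).mp hh, mul_assoc, hbpow, mul_assoc]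
  have hEW : ∀ i j, i ≠ j → ∀ v ∈ Fx ρ (c j), E p ρ (c i) v = 0 := by
    intro i j hij v hv
    rw [mem_Fx] at hv
    set u := E p ρ (c i) v with hu
    have h1 : ρ (c i) u = u := E_fixed p ρ (hcp i) v
    have h2 : ρ (c j) u = u := by
      rw [hu, E_comm p ρ ?_ v, hv]
      show a * b ^ (j : ℕ) * (a * b ^ (i : ℕ)) = a * b ^ (i : ℕ) * (a * b ^ (j : ℕ))
      calc a * b ^ (j : ℕ) * (a * b ^ (i : ℕ)) = a * (b ^ (j : ℕ) * a) * b ^ (i : ℕ) := by group
        _ = a * (a * b ^ (j : ℕ)) * b ^ (i : ℕ) := by rw [hbpow (j : ℕ) a]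
        _ = a * a * (b ^ (j : ℕ) * b ^ (i : ℕ)) := by group
        _ = a * a * (b ^ (i : ℕ) * b ^ (j : ℕ)) := by rw [← pow_add, ← pow_add, add_comm]
        _ = a * (a * b ^ (i : ℕ)) * b ^ (j : ℕ) := by group
        _ = a * (b ^ (i : ℕ) * a) * b ^ (j : ℕ) := by rw [hbpow (i : ℕ) a]
        _ = _ := by group
    have hx : c i = (b ^ (i : ℕ) * (b ^ (j : ℕ))⁻¹) * c j := by
      show a * b ^ (i : ℕ) = (b ^ (i : ℕ) * (b ^ (j : ℕ))⁻¹) * (a * b ^ (j : ℕ))
      have h3 : (b ^ (j : ℕ))⁻¹ * (a * b ^ (j : ℕ)) = a := by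
        rw [hbpow (j : ℕ) a, inv_mul_cancel_left]
      rw [mul_assoc, h3, hbpow]
    have h3 : ρ (b ^ (i : ℕ) * (b ^ (j : ℕ))⁻¹) u = u := by
      have h4 := h1
      rw [hx, rho_mul, h2] at h4
      exact h4
    refine fix_bot ρ hρ hirr ?_ ?_ h3
    · intro g
      have h4 : Commute g (b ^ (i : ℕ) * (b ^ (j : ℕ))⁻¹) :=
        ((show Commute g b from hbc g).pow_right _).mul_right (((show Commute g b from hbc g).pow_right _).inv_right)
      exact h4.eq
    · intro h
      apply hij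
      rw [mul_inv_eq_one] at h
      have h5 := pow_inj_mod.mp h
      rw [hbo, Nat.mod_eq_of_lt i.2, Nat.mod_eq_of_lt j.2] at h5
      exact Fin.ext h5
  refine ⟨H, fun i => Fx ρ (c i), hindex, ?_, ?_, ?_, ?_, ?_⟩
  · -- spanning
    rw [eq_top_iff]
    intro v _
    have hv : (p : ZMod q) • v = ∑ i : Fin p, E p ρ (c i) v := by
      rw [hsum, Nat.cast_smul_eq_nsmul]
    have hv2 : v = (p : ZMod q)⁻¹ • (∑ i : Fin p, E p ρ (c i) v) := by
      rw [← hv, smul_smul, inv_mul_cancel₀ hpz, one_smul]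
    rw [hv2]
    apply Submodule.smul_mem
    apply Submodule.sum_mem
    intro i _
    apply Submodule.mem_iSup_of_mem i
    rw [mem_Fx]
    exact E_fixed p ρ (hcp i) v
  · -- independence
    rw [iSupIndep_def]
    intro i
    rw [Submodule.disjoint_def]
    intro v hv hv2
    have h1 : (⨆ j, ⨆ (_ : j ≠ i), Fx ρ (c j)) ≤ LinearMap.ker (E p ρ (c i)) := by
      apply iSup₂_le
      intro j hj w hw
      rw [LinearMap.mem_ker]
      exact hEW i j (Ne.symm hj) w hw
    have h2 : E p ρ (c i) v = 0 := h1 hv2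
    rw [E_of_fix p ρ ((mem_Fx ρ _ v).mp hv)] at h2
    exact hsmul v h2
  · intro h hh i w hw
    rw [mem_Fx] at hw ⊢
    rw [← rho_mul, ← hcH h hh i, rho_mul, hw]
  · intro i
    refine ⟨c i, ?_, hc1 i, fun w hw => hw⟩
    rw [hmemH]
    show a * b ^ (i : ℕ) * a = a * (a * b ^ (i : ℕ))
    rw [mul_assoc, ← hbpow]
  · intro g hg
    obtain ⟨r, hr⟩ := hconj g
    let r' : Fin p := ⟨r % p, Nat.mod_lt _ hpp.pos⟩
    have hr0 : r' ≠ 0 := by
      intro h
      apply hg
      rw [hmemH]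
      have h1 : r % p = 0 := by
        have := congrArg Fin.val h
        simpa [r'] using this
      rw [pow_eq_pow_mod r hb, h1, pow_zero, mul_one, mul_inv_eq_iff_eq_mul] at hr
      exact hr
    let σ : Equiv.Perm (Fin p) := Equiv.addRight r'
    have hσ : ∀ i, σ i = i + r' := fun i => rfl
    have hσk : ∀ (n : ℕ) (i : Fin p), (σ ^ n) i = i + n • r' := by
      intro n i
      induction n with
      | zero => simp
      | succ n ih =>
        rw [pow_succ', Equiv.Perm.mul_apply, ih, hσ, succ_nsmul, add_assoc]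
    refine ⟨σ, ?_, ?_⟩
    · apply orderOf_eq_prime
      · ext i
        have h1 : p • r' = 0 := by
          have h2 := card_nsmul_eq_zero' (x := r')
          rwa [Nat.card_eq_fintype_card, Fintype.card_fin] at h2
        rw [hσk, h1, add_zero]
        rfl
      · intro h
        have h1 : σ 0 = 0 := by rw [h]; rfl
        rw [hσ, zero_add] at h1
        exact hr0 h1
    · intro i
      have hgc : g * c i * g⁻¹ = c (σ i) := by
        show g * (a * b ^ (i : ℕ)) * g⁻¹ = a * b ^ ((σ i : Fin p) : ℕ)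
        have h1 : ((σ i : Fin p) : ℕ) = ((i : ℕ) + r % p) % p := by
          rw [hσ, Fin.val_add]
        rw [h1, ← pow_eq_pow_mod _ hb, pow_add, ← pow_eq_pow_mod r hb]
        have h2 : g * (a * b ^ (i : ℕ)) * g⁻¹ = (g * a * g⁻¹) * b ^ (i : ℕ) := by
          have h3 := hbpow (i : ℕ) g⁻¹
          calc g * (a * b ^ (i : ℕ)) * g⁻¹ = g * a * (b ^ (i : ℕ) * g⁻¹) := by group
            _ = g * a * (g⁻¹ * b ^ (i : ℕ)) := by rw [h3]
            _ = _ := by group
        rw [h2, hr, mul_assoc, ← pow_add, ← pow_add, add_comm]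
      ext w
      rw [Submodule.mem_map]
      constructor
      · rintro ⟨v, hv, rfl⟩
        rw [mem_Fx] at hv ⊢
        show ρ (c (σ i)) (ρ g v) = ρ g v
        rw [← hgc, ← rho_mul, inv_mul_cancel_right, rho_mul, hv]
      · intro hw
        rw [mem_Fx] at hw
        refine ⟨ρ g⁻¹ w, ?_, ?_⟩
        · rw [mem_Fx]
          rw [← hgc] at hw
          have h1 : ρ (c i) (ρ g⁻¹ w) = ρ g⁻¹ (ρ (g * c i * g⁻¹) w) := by
            rw [← rho_mul, ← rho_mul]
            congr 1
            group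
          rw [h1, hw]
        · show ρ g (ρ g⁻¹ w) = w
          rw [← rho_mul, mul_inv_cancel, rho_one]

end core
theorem exists_ab {G : Type*} [Group G] [Finite G] (p : ℕ) [Fact p.Prime] (hG : IsPGroup p G)
    (hS : ∃ S : Subgroup G, S.Normal ∧ (∀ x ∈ S, x ^ p = 1) ∧ p ^ 2 ≤ Nat.card S) :
    ∃ a b : G, (∀ g, g * b = b * g) ∧ orderOf b = p ∧ a ^ p = 1 ∧ a ∉ Subgroup.zpowers b ∧
      ∀ g, ∃ c : ℕ, g * a * g⁻¹ = a * b ^ c := by
  obtain ⟨S, hSn, hSp, hScard⟩ := hS
  have hpp : p.Prime := Fact.out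
  have h1lt : (⊥ : Subgroup G) < S := by
    rw [bot_lt_iff_ne_bot]
    intro h
    rw [h] at hScard
    simp at hScard
    have := hpp.two_le
    nlinarith
  obtain ⟨V, hVn, hV1, hVS, hVc, hVz, v, hv, hv1, -, hvgen⟩ :=
    Cfsg.Agent.Lib.PGrp.exists_normal_between hG ⊥ S h1lt
  have hVcard : Nat.card V = p := by simpa using hVc
  have hVlt : V < S := by
    refine lt_of_le_of_ne hVS ?_
    intro h
    rw [← h, hVcard] at hScard
    have := hpp.two_le
    nlinarith
  obtain ⟨V2, hV2n, hV21, hV2S, hV2c, hV2z, a, ha, ha1, -, hagen⟩ :=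
    Cfsg.Agent.Lib.PGrp.exists_normal_between hG V S hVlt
  have hbz : ∀ g, g * v = v * g := by
    intro g
    have h1 := hVz v hv g
    rw [Subgroup.mem_bot, commutatorElement_eq_one_iff_mul_comm] at h1
    exact h1.symm
  have hv1' : v ≠ 1 := by simpa using hv1
  have hvp : v ^ p = 1 := hSp v (hVS hv)
  have hvo : orderOf v = p := orderOf_eq_prime hvp hv1'
  have hVz' : V = Subgroup.zpowers v := by
    symm
    apply Subgroup.eq_of_le_of_card_ge
    · exact (Subgroup.zpowers_le).mpr hv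
    · rw [Nat.card_zpowers, hvo, hVcard]
  refine ⟨a, v, hbz, hvo, hSp a (hV2S ha), ?_, ?_⟩
  · rw [← hVz']; exact ha1
  · intro g
    have h1 := hV2z a ha g
    rw [hVz', commutatorElement_def] at h1
    obtain ⟨c, hc⟩ := Cfsg.Agent.Lib.H1Quat.exists_pow_of_mem_zpowers (Subgroup.inv_mem _ h1)
    refine ⟨c, ?_⟩
    rw [hc, ← (show Commute ((a * g * a⁻¹ * g⁻¹)⁻¹) a from ?_).eq]
    · group
    · rw [← hc]
      exact (((show Commute a v from hbz a).pow_right c)).symm

theorem exists_omega {G : Type*} [Group G] [Finite G] {p : ℕ} [Fact p.Prime] (hG : IsPGroup p G)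
    (A : Subgroup G) (hAn : A.Normal) (hAc : IsMulCommutative A) (hAnc : ¬ IsCyclic A) :
    ∃ S : Subgroup G, S.Normal ∧ (∀ x ∈ S, x ^ p = 1) ∧ p ^ 2 ≤ Nat.card S := by
  have hpp : p.Prime := Fact.out
  have hcomm : ∀ x y : A, x * y = y * x := fun x y => by
    have := hAc.is_comm.comm x y
    exact this
  obtain ⟨⟨a, ha⟩, ⟨b, hb⟩, ha1, hap, hbp, hb'⟩ :=
    Cfsg.Agent.Lib.PGrp.exists_two_of_noncyclic_abelian (hG.to_subgroup A) hcomm hAnc
  let S : Subgroup G :=
    { carrier := {y | y ∈ A ∧ y ^ p = 1}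
      mul_mem' := by
        rintro x y ⟨hx, hx'⟩ ⟨hy, hy'⟩
        refine ⟨mul_mem hx hy, ?_⟩
        have hxy : Commute x y := by
          have := hcomm ⟨x, hx⟩ ⟨y, hy⟩
          exact congrArg Subtype.val this
        rw [hxy.mul_pow, hx', hy', one_mul]
      one_mem' := ⟨one_mem _, one_pow _⟩
      inv_mem' := by
        rintro x ⟨hx, hx'⟩
        exact ⟨inv_mem hx, by rw [inv_pow, hx', inv_one]⟩ }
  have hmem : ∀ x, x ∈ S ↔ x ∈ A ∧ x ^ p = 1 := fun x => Iff.rfl
  refine ⟨S, ⟨?_⟩, fun x hx => ((hmem x).mp hx).2, ?_⟩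
  · intro x hx g
    obtain ⟨h1, h2⟩ := (hmem x).mp hx
    refine (hmem _).mpr ⟨hAn.conj_mem x h1 g, ?_⟩
    rw [conj_pow, h2]
    group
  · have hap' : a ^ p = 1 := congrArg Subtype.val hap
    have hbp' : b ^ p = 1 := congrArg Subtype.val hbp
    have ha1' : a ≠ 1 := fun h => ha1 (Subtype.ext h)
    have hao : orderOf a = p := orderOf_eq_prime hap' ha1'
    have hle : Subgroup.zpowers a ≤ S := by
      rw [Subgroup.zpowers_le]
      exact (hmem a).mpr ⟨ha, hap'⟩
    have hlt : Subgroup.zpowers a < S := by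
      refine lt_of_le_of_ne hle ?_
      intro h
      have hbS : b ∈ S := (hmem b).mpr ⟨hb, hbp'⟩
      rw [← h] at hbS
      apply hb'
      obtain ⟨k, hk⟩ := Subgroup.mem_zpowers_iff.mp hbS
      exact Subgroup.mem_zpowers_iff.mpr ⟨k, Subtype.ext (by simpa using hk)⟩
    obtain ⟨n, hn⟩ := IsPGroup.iff_card.mp (hG.to_subgroup S)
    have h1 : Nat.card (Subgroup.zpowers a) < Nat.card S := by
      by_contra hh
      exact hlt.ne (Subgroup.eq_of_le_of_card_ge hle (not_lt.mp hh))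
    rw [Nat.card_zpowers, hao, hn] at h1
    rw [hn]
    apply Nat.pow_le_pow_right hpp.pos
    by_contra hlt2
    have hn1 : n ≤ 1 := by omega
    have := Nat.pow_le_pow_right hpp.pos hn1
    rw [pow_one] at this
    omega

/-- Let a finite p-group G act faithfully and irreducibly on a non-trivial finite vector space V over the field with q elements (q prime), and suppose G is not cyclic, generalized quaternion, dihedral or semidihedral. Then G has a subgroup H of index p and V is the direct sum of p subspaces, each invariant under H, on none of which H acts faithfully, and which every element of G outside H permutes in a single p-cycle. -/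
theorem result
    (q : ℕ) [Fact q.Prime] {V : Type*} [AddCommGroup V] [Module (ZMod q) V] [Finite V] [Nontrivial V]
    {G : Type*} [Group G] [Finite G] (p : ℕ) [Fact p.Prime] (hG : IsPGroup p G)
    (ρ : G →* (V ≃ₗ[ZMod q] V)) (hρ : Function.Injective ρ)
    (hirr : ∀ W : Submodule (ZMod q) V, (∀ g : G, ∀ w ∈ W, ρ g w ∈ W) → W = ⊥ ∨ W = ⊤)
    (hnc : ¬ IsCyclic G) (hnq : ∀ n : ℕ, ¬ Nonempty (G ≃* QuaternionGroup n))
    (hnd : ∀ n : ℕ, ¬ Nonempty (G ≃* DihedralGroup n)) (hnsd : ¬ Cfsg.IsQuasiDihedral G) :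
    ∃ (H : Subgroup G) (W : Fin p → Submodule (ZMod q) V), H.index = p ∧
      iSup W = ⊤ ∧ iSupIndep W ∧
      (∀ h ∈ H, ∀ i, ∀ w ∈ W i, ρ h w ∈ W i) ∧
      (∀ i, ∃ h ∈ H, h ≠ 1 ∧ ∀ w ∈ W i, ρ h w = w) ∧
      ∀ g : G, g ∉ H → ∃ σ : Equiv.Perm (Fin p), orderOf σ = p ∧ ∀ i, (W i).map (ρ g : V →ₗ[ZMod q] V) = W (σ i) := by

  have hpp : p.Prime := Fact.out
  have hS : ∃ S : Subgroup G, S.Normal ∧ (∀ x ∈ S, x ^ p = 1) ∧ p ^ 2 ≤ Nat.card S := by
    rcases eq_or_ne p 2 with rfl | hp2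
    · have hV : ¬ ∀ A : Subgroup G, A.Normal → IsMulCommutative A → IsCyclic A := by
        intro hV
        rcases Cfsg.Agent.Lib.H1TwoClass.two_class hG hnc hV with ⟨k, -, h⟩ | ⟨k, -, h⟩ | h
        · exact hnq _ h
        · exact hnd _ h
        · exact hnsd h
      push_neg at hV
      obtain ⟨A, hAn, hAc, hAnc⟩ := hV
      exact exists_omega hG A hAn hAc hAnc
    · obtain ⟨A, hAn, hAe, hAc⟩ := Cfsg.Agent.Lib.PGrp.exists_elem_sq_of_noncyclic hp2 hG hnc
      exact ⟨A, hAn, hAe.2, hAc.ge⟩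
  obtain ⟨a, b, hbc, hbo, hap, hnab, hconj⟩ := exists_ab p hG hS
  exact core_thm p ρ hρ hirr hbc hbo hap hnab hconj

end Cfsg.Agent.S3380
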