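import Cfsg.Statements.S3488
import Cfsg.Agent.Lib.H1Spec

set_option autoImplicit false
open Cfsg

namespace Cfsg.Agent.S3488

open Matrix Cfsg.Agent.Lib.H1GL2 Cfsg.Agent.Lib.H1SL2 Cfsg.Agent.Lib.H1Spec

/-- The matrix of an element of `F² ⋊ SL₂(F)`. -/
def rawM {F : Type*} [Field F] (g : Aff F 1) : Matrix (Fin 3) (Fin 3) F :=
  !![(g.1 : M2 F) 0 0, (g.1 : M2 F) 0 1, g.2 0 0;
     (g.1 : M2 F) 1 0, (g.1 : M2 F) 1 1, g.2 1 0;
     0, 0, 1]

theorem rawM_mul {F : Type*} [Field F] (a b : Aff F 1) : rawM (a * b) = rawM a * rawM b := by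
  ext i j
  simp only [rawM, Aff.mul_fst, Aff.mul_snd, Matrix.SpecialLinearGroup.coe_mul]
  fin_cases i <;> fin_cases j <;>
    simp [Matrix.mul_apply, Fin.sum_univ_three, Fin.sum_univ_two] <;> ring

/-- The embedding of `F² ⋊ SL₂(F)` in `SL₃(F)`. -/
def psi {F : Type*} [Field F] : Aff F 1 →* Matrix.SpecialLinearGroup (Fin 3) F where
  toFun g := ⟨rawM g, by
    have hd := sl_det g.1
    rw [Matrix.det_fin_three]
    simp [rawM]
    linear_combination hd⟩
  map_one' := by
    apply Matrix.SpecialLinearGroup.ext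
    intro i j
    fin_cases i <;> fin_cases j <;> simp [rawM, Aff.one_fst, Aff.one_snd]
  map_mul' a b := by
    apply Subtype.ext
    exact rawM_mul a b

theorem psi_injective {F : Type*} [Field F] : Function.Injective (psi (F := F)) := by
  intro a b hab
  have h : rawM a = rawM b := congrArg Subtype.val hab
  have h0 : ∀ i j, rawM a i j = rawM b i j := fun i j => by rw [h]
  apply Aff.ext'
  · apply sl_ext
    · exact h0 0 0
    · exact h0 0 1
    · exact h0 1 0
    · exact h0 1 1
  · ext i j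
    have : j = 0 := Subsingleton.elim _ _
    subst this
    fin_cases i
    · exact h0 0 2
    · exact h0 1 2

theorem psi_surj {F : Type*} [Field F] (M : Matrix.SpecialLinearGroup (Fin 3) F)
    (h0 : (M : Matrix (Fin 3) (Fin 3) F) 2 0 = 0) (h1 : (M : Matrix (Fin 3) (Fin 3) F) 2 1 = 0)
    (h2 : (M : Matrix (Fin 3) (Fin 3) F) 2 2 = 1) : ∃ g : Aff F 1, psi g = M := by
  have hd : (M : Matrix (Fin 3) (Fin 3) F).det = 1 := M.2
  rw [Matrix.det_fin_three, h0, h1, h2] at hd
  refine ⟨(mk _ _ _ _ (by linear_combination hd : (M : Matrix (Fin 3) (Fin 3) F) 0 0 * (M : Matrix (Fin 3) (Fin 3) F) 1 1 - (M : Matrix (Fin 3) (Fin 3) F) 0 1 * (M : Matrix (Fin 3) (Fin 3) F) 1 0 = 1),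
    fun i _ => (M : Matrix (Fin 3) (Fin 3) F) (if i = 0 then 0 else 1) 2), ?_⟩
  apply Subtype.ext
  ext i j
  change rawM _ i j = _
  fin_cases i <;> fin_cases j <;> simp [rawM, mk, h0, h1, h2]
/-- Let F be the field with four elements. The affine group F² ⋊ SL(2,F), realised as the subgroup of SL(3,F) of matrices with last row (0, 0, 1), has exactly the same set of element orders as the alternating group of degree 6 (namely {1, 2, 3, 4, 5}); so the alternating group of degree 6 is not determined by its element orders. -/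
theorem result {F : Type*} [Field F] [Fintype F] (hF : Fintype.card F = 4) :
    Set.range (orderOf : Subgroup.closure {M : Matrix.SpecialLinearGroup (Fin 3) F |
        (M : Matrix (Fin 3) (Fin 3) F) 2 0 = 0 ∧ (M : Matrix (Fin 3) (Fin 3) F) 2 1 = 0 ∧ (M : Matrix (Fin 3) (Fin 3) F) 2 2 = 1} → ℕ) =
      Set.range (orderOf : alternatingGroup (Fin 6) → ℕ) := by

  classical
  set C := Subgroup.closure {M : Matrix.SpecialLinearGroup (Fin 3) F |
        (M : Matrix (Fin 3) (Fin 3) F) 2 0 = 0 ∧ (M : Matrix (Fin 3) (Fin 3) F) 2 1 = 0 ∧ (M : Matrix (Fin 3) (Fin 3) F) 2 2 = 1} with hC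
  have hmem : ∀ g : Aff F 1, psi g ∈ C := by
    intro g
    apply Subgroup.subset_closure
    refine ⟨?_, ?_, ?_⟩
    · change rawM g 2 0 = 0
      simp [rawM]
    · change rawM g 2 1 = 0
      simp [rawM]
    · change rawM g 2 2 = 1
      simp [rawM]
  have hle : ∀ M ∈ C, ∃ g : Aff F 1, psi g = M := by
    intro M hM
    have h1 : C ≤ (psi (F := F)).range := by
      rw [hC, Subgroup.closure_le]
      rintro N ⟨h0, h1, h2⟩
      exact psi_surj N h0 h1 h2
    exact h1 hM
  let e : Aff F 1 →* C := (psi (F := F)).codRestrict C hmem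
  have he : Function.Injective e := by
    intro a b hab
    exact psi_injective (congrArg Subtype.val hab)
  have hsurj : Function.Surjective e := by
    rintro ⟨M, hM⟩
    obtain ⟨g, rfl⟩ := hle M hM
    exact ⟨g, rfl⟩
  have hrange : Set.range (orderOf : C → ℕ) = Set.range (orderOf : Aff F 1 → ℕ) := by
    ext n
    constructor
    · rintro ⟨x, rfl⟩
      obtain ⟨g, rfl⟩ := hsurj x
      exact ⟨g, (orderOf_injective e he g).symm⟩
    · rintro ⟨g, rfl⟩
      exact ⟨e g, orderOf_injective e he g⟩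
  rw [hrange, Aff.aff_spec hF (by norm_num), a6_spec]

end Cfsg.Agent.S3488
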