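import Cfsg.Statements.S3498
import Mathlib
import Cfsg.Agent.Lib.H1Cop

set_option autoImplicit false
open Cfsg

namespace Cfsg.Agent.S3498

/-- A maximal subgroup of a finite almost simple group does not have prime order. Here G is almost simple in the sense that it has a non-abelian simple normal subgroup T with trivial centralizer. -/
theorem result {G : Type*} [Group G] [Finite G] (T : Subgroup G) [T.Normal] (hT : IsSimpleGroup T) (hTc : ¬ IsMulCommutative T)
    (hC : Subgroup.centralizer (T : Set G) = ⊥) (H : Subgroup G) (hmax : IsCoatom H) : ¬ (Nat.card H).Prime := by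
  classical
  intro hprime
  have hT1 := hT.1
  have hp : Fact (Nat.card H).Prime := ⟨hprime⟩
  have hHcyc : IsCyclic H := isCyclic_of_prime_card rfl
  have hHcomm : ∀ a ∈ H, ∀ b ∈ H, a * b = b * a := by
    intro a ha b hb
    have := hHcyc.commGroup.mul_comm ⟨a, ha⟩ ⟨b, hb⟩
    exact congrArg Subtype.val this
  have hnotn : ¬ H.Normal := by
    intro hn
    have hTH : (H.subgroupOf T).Normal := inferInstance
    rcases hT.eq_bot_or_eq_top_of_normal _ hTH with h | h
    · -- `H ∩ T = 1`
      have hcomm : ∀ x ∈ H, ∀ y ∈ T, x * y = y * x := by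
        intro x hx y hy
        have h1 : x * y * x⁻¹ * y⁻¹ ∈ H := by
          have := hn.conj_mem x⁻¹ (H.inv_mem hx) y
          have e : x * y * x⁻¹ * y⁻¹ = x * (y * x⁻¹ * y⁻¹) := by group
          rw [e]
          exact H.mul_mem hx this
        have h2 : x * y * x⁻¹ * y⁻¹ ∈ T := by
          have := ‹T.Normal›.conj_mem y hy x
          exact T.mul_mem this (T.inv_mem hy)
        have h3 : (⟨x * y * x⁻¹ * y⁻¹, h2⟩ : T) ∈ H.subgroupOf T := h1
        rw [h, Subgroup.mem_bot] at h3
        have h4 : x * y * x⁻¹ * y⁻¹ = 1 := congrArg Subtype.val h3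
        have h5 : x * y * x⁻¹ = y := by
          rwa [mul_inv_eq_one] at h4
        exact mul_inv_eq_iff_eq_mul.1 h5
      have hle : H ≤ Subgroup.centralizer (T : Set G) := by
        intro x hx
        rw [Subgroup.mem_centralizer_iff]
        intro y hy
        exact (hcomm x hx y hy).symm
      rw [hC, le_bot_iff] at hle
      rw [hle, Subgroup.card_bot] at hprime
      exact Nat.not_prime_one hprime
    · -- `T ≤ H`
      have hle : T ≤ H := by
        rwa [Subgroup.subgroupOf_eq_top] at h
      have hd : Nat.card T ∣ Nat.card H := Subgroup.card_dvd_of_le hle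
      rcases (Nat.dvd_prime hprime).1 hd with h1 | h1
      · have : Subsingleton T := (Nat.card_eq_one_iff_unique.1 h1).1
        exact not_subsingleton T this
      · apply hTc
        refine ⟨⟨fun a b => Subtype.ext (hHcomm _ (hle a.2) _ (hle b.2))⟩⟩
  have hNH : Subgroup.normalizer (H : Set G) = H := by
    by_contra hne
    have hlt : H < Subgroup.normalizer (H : Set G) := lt_of_le_of_ne Subgroup.le_normalizer (Ne.symm hne)
    have htop := hmax.2 _ hlt
    exact hnotn (Subgroup.normalizer_eq_top_iff.1 htop)
  -- `H` is Sylow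
  have hHp : IsPGroup (Nat.card H) H := IsPGroup.of_card (n := 1) (by simp)
  obtain ⟨P, hHP⟩ := hHp.exists_le_sylow
  have hPH : (P : Subgroup G) = H := by
    by_contra hne
    have hQnil : Group.IsNilpotent (P : Subgroup G) := IsPGroup.isNilpotent P.2
    have hlt : H.subgroupOf P < ⊤ := by
      rw [lt_top_iff_ne_top]
      intro h
      apply hne
      apply le_antisymm _ hHP
      rwa [Subgroup.subgroupOf_eq_top] at h
    have hgrow := normalizerCondition_of_isNilpotent (G := (P : Subgroup G)) _ hlt
    obtain ⟨y, hyN, hyP⟩ := SetLike.exists_of_lt hgrow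
    apply hyP
    have hfw : ∀ w ∈ Subgroup.normalizer ((H.subgroupOf (P : Subgroup G)) : Set (P : Subgroup G)), ∀ z ∈ H, w.1 * z * w.1⁻¹ ∈ H := by
      intro w hw z hz
      have := (Subgroup.mem_normalizer_iff.1 hw ⟨z, hHP hz⟩).1 (by simpa [Subgroup.mem_subgroupOf] using hz)
      simpa [Subgroup.mem_subgroupOf] using this
    have hy : y.1 ∈ Subgroup.normalizer (H : Set G) := by
      rw [Subgroup.mem_normalizer_iff]
      intro z
      constructor
      · exact hfw y hyN z
      · intro hz
        have := hfw y⁻¹ (Subgroup.inv_mem _ hyN) _ hz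
        simpa [mul_assoc] using this
    rw [hNH] at hy
    rw [Subgroup.mem_subgroupOf]
    exact hy
  have hP : Subgroup.normalizer ((P : Subgroup G) : Set G) ≤ Subgroup.centralizer ((P : Subgroup G) : Set G) := by
    rw [hPH, hNH]
    intro x hx
    rw [Subgroup.mem_centralizer_iff]
    intro y hy
    exact hHcomm y hy x hx
  have hcompl := MonoidHom.ker_transferSylow_isComplement' P hP
  have hndvd := MonoidHom.not_dvd_card_ker_transferSylow P hP
  set N := (MonoidHom.transferSylow P hP).ker with hN
  have hNn : N.Normal := MonoidHom.normal_ker _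
  have hNne : N ≠ ⊥ := by
    intro h
    have h1 := hcompl.card_mul
    rw [h, Subgroup.card_bot, one_mul, hPH] at h1
    exact hmax.1 (Subgroup.eq_top_of_card_eq _ h1)
  have hcop : (Nat.card H).Coprime (Nat.card N) := (Nat.Prime.coprime_iff_not_dvd hprime).2 hndvd
  have hNcard1 : Nat.card N ≠ 1 := by
    rw [Ne, Subgroup.card_eq_one]
    exact hNne
  have hr := Nat.minFac_prime hNcard1
  set r := (Nat.card N).minFac with hrdef
  have hrf : Fact r.Prime := ⟨hr⟩
  have hrd : r ∣ Nat.card N := Nat.minFac_dvd _
  have hsolvH : Group.IsSolvable H := Group.isSolvable_of_comm (fun a b => Subtype.ext (hHcomm _ a.2 _ b.2))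
  obtain ⟨R, ⟨hRN, hRp, hRidx⟩, hHR⟩ := Cfsg.Agent.Lib.H1Cop.exists_invariant_sylow (A := H) (K := N)
    (by
      rw [Subgroup.normalizer_eq_top]
      exact le_top) hcop (Or.inl hsolvH) r
  have hRne : R ≠ ⊥ := by
    rintro rfl
    rw [Subgroup.relIndex_bot_left] at hRidx
    exact hRidx hrd
  have hinter : ∀ x ∈ N, x ∈ H → x = 1 := by
    intro x hxN hxH
    have hd : Disjoint N (P : Subgroup G) := hcompl.disjoint
    rw [hPH] at hd
    exact Subgroup.disjoint_def.1 hd hxN hxH
  have hRnotH : ¬ R ≤ H := by
    intro hle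
    apply hRne
    rw [eq_bot_iff]
    intro x hx
    exact hinter x (hRN hx) (hle hx)
  have hsup : R ⊔ H = ⊤ := by
    rw [sup_comm]
    apply hmax.2
    refine lt_of_le_of_ne le_sup_left ?_
    intro h
    exact hRnotH (h ▸ le_sup_right)
  have hNR : N ≤ R := by
    intro x hx
    have hxt : x ∈ R ⊔ H := by rw [hsup]; exact Subgroup.mem_top x
    rw [Cfsg.Agent.Lib.H1Cop.mem_sup_iff hHR] at hxt
    obtain ⟨k, hk, a, ha, rfl⟩ := hxt
    have h1 : a ∈ N := by
      have : a = k⁻¹ * (k * a) := by group
      rw [this]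
      exact N.mul_mem (N.inv_mem (hRN hk)) hx
    rw [hinter a h1 ha, mul_one]
    exact hk
  have hNp : IsPGroup r N := hRp.to_le hNR
  have hsN : Group.IsSolvable N := by
    have : Group.IsNilpotent N := hNp.isNilpotent
    infer_instance
  have hsP : Group.IsSolvable (P : Subgroup G) := by
    apply Group.isSolvable_of_comm
    intro a b
    apply Subtype.ext
    have hPle : ∀ z, z ∈ (P : Subgroup G) → z ∈ H := fun z hz => by rw [← hPH]; exact hz
    exact hHcomm _ (hPle _ a.2) _ (hPle _ b.2)
  have hsG : Group.IsSolvable G := by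
    apply Group.isSolvable_of_ker_le_range N.subtype (MonoidHom.transferSylow P hP)
    rw [Subgroup.range_subtype]
  have hsT : Group.IsSolvable T := inferInstance
  have hlt := Group.IsSolvable.commutator_lt_top_of_nontrivial (G := T)
  have hcbot := hT.eq_bot_or_eq_top_of_normal (commutator T) inferInstance
  rcases hcbot with h | h
  · apply hTc
    refine ⟨⟨fun a b => ?_⟩⟩
    open scoped commutatorElement in
    have h1 : ⁅a, b⁆ ∈ commutator T := Subgroup.commutator_mem_commutator (Subgroup.mem_top a) (Subgroup.mem_top b)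
    rw [h, Subgroup.mem_bot] at h1
    exact commutatorElement_eq_one_iff_mul_comm.1 h1
  · exact hlt.ne h

end Cfsg.Agent.S3498
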