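import Cfsg.Statements.S3504
import Mathlib

set_option autoImplicit false
open Cfsg

namespace Cfsg.Agent.S3504

/-- For n ≥ 5, the fixed-point-free permutations of prime order in the symmetric group of degree n form a single conjugacy class if and only if n is a prime power. -/
theorem result (n : ℕ) (hn : 5 ≤ n) :
    Nat.card {c : ConjClasses (Equiv.Perm (Fin n)) // ∃ g : Equiv.Perm (Fin n), ConjClasses.mk g = c ∧ (orderOf g).Prime ∧ ∀ i : Fin n, g i ≠ i} = 1 ↔ IsPrimePow n := by
  classical
  have hn0 : 0 < n := by omega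
  -- cycle type of an fpf prime order element
  have hct : ∀ g : Equiv.Perm (Fin n), (orderOf g).Prime → (∀ i, g i ≠ i) →
      orderOf g ∣ n ∧ g.cycleType = Multiset.replicate (n / orderOf g) (orderOf g) := by
    intro g hg hfix
    obtain ⟨m, hm⟩ := Equiv.Perm.cycleType_prime_order hg
    have hsupp : g.support = Finset.univ := by
      ext i
      simp [hfix i]
    have hsum := Equiv.Perm.sum_cycleType g
    rw [hm, hsupp, Finset.card_univ, Fintype.card_fin, Multiset.sum_replicate, smul_eq_mul] at hsum
    have hd : orderOf g ∣ n := Dvd.intro_left (m + 1) hsum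
    refine ⟨hd, ?_⟩
    rw [hm]
    congr 1
    exact (Nat.div_eq_of_eq_mul_left hg.pos hsum.symm).symm
  have hex : ∀ p : ℕ, p.Prime → p ∣ n → ∃ g : Equiv.Perm (Fin n), orderOf g = p ∧ ∀ i, g i ≠ i := by
    intro p hp hd
    have hq : 0 < n / p := Nat.div_pos (Nat.le_of_dvd hn0 hd) hp.pos
    obtain ⟨g, hg⟩ := (Equiv.Perm.exists_with_cycleType_iff (α := Fin n) (m := Multiset.replicate (n / p) p)).2 (by
      constructor
      · rw [Multiset.sum_replicate, smul_eq_mul, Fintype.card_fin, Nat.div_mul_cancel hd]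
      · intro a ha
        rw [Multiset.eq_of_mem_replicate ha]
        exact hp.two_le)
    have hord : orderOf g = p := by
      rw [← Equiv.Perm.lcm_cycleType, hg]
      have : (n / p) ≠ 0 := hq.ne'
      obtain ⟨k, hk⟩ := Nat.exists_eq_succ_of_ne_zero this
      rw [hk, Multiset.replicate_succ, Multiset.lcm_cons]
      have h2 : (Multiset.replicate k p).lcm ∣ p := by
        rw [Multiset.lcm_dvd]
        intro b hb
        rw [Multiset.eq_of_mem_replicate hb]
      exact Nat.dvd_antisymm (lcm_dvd dvd_rfl h2) (dvd_lcm_left _ _)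
    refine ⟨g, hord, fun i => ?_⟩
    have hsum := Equiv.Perm.sum_cycleType g
    rw [hg, Multiset.sum_replicate, smul_eq_mul, Nat.div_mul_cancel hd] at hsum
    have hu : g.support = Finset.univ := by
      apply Finset.eq_univ_of_card
      rw [← hsum, Fintype.card_fin]
    have : i ∈ g.support := by rw [hu]; exact Finset.mem_univ i
    exact Equiv.Perm.mem_support.1 this
  -- the bijection to the prime factors
  let X := {c : ConjClasses (Equiv.Perm (Fin n)) // ∃ g : Equiv.Perm (Fin n), ConjClasses.mk g = c ∧ (orderOf g).Prime ∧ ∀ i : Fin n, g i ≠ i}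
  have hX : Nat.card X = n.primeFactors.card := by
    have hw : ∀ c : X, ∃ g : Equiv.Perm (Fin n), ConjClasses.mk g = c.1 ∧ (orderOf g).Prime ∧ ∀ i : Fin n, g i ≠ i := fun c => c.2
    choose w hw1 hw2 hw3 using hw
    let f : X → n.primeFactors := fun c => ⟨orderOf (w c), Nat.mem_primeFactors.2 ⟨hw2 c, (hct _ (hw2 c) (hw3 c)).1, hn0.ne'⟩⟩
    have hbij : Function.Bijective f := by
      constructor
      · intro c c' h
        have h1 : orderOf (w c) = orderOf (w c') := congrArg Subtype.val h
        apply Subtype.ext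
        rw [← hw1 c, ← hw1 c', ConjClasses.mk_eq_mk_iff_isConj, Equiv.Perm.isConj_iff_cycleType_eq,
          (hct _ (hw2 c) (hw3 c)).2, (hct _ (hw2 c') (hw3 c')).2, h1]
      · rintro ⟨p, hp⟩
        have hp' := Nat.mem_primeFactors.1 hp
        obtain ⟨g, hg1, hg2⟩ := hex p hp'.1 hp'.2.1
        let c : X := ⟨ConjClasses.mk g, g, rfl, by rw [hg1]; exact hp'.1, hg2⟩
        refine ⟨c, Subtype.ext ?_⟩
        show orderOf (w c) = p
        have h1 : ConjClasses.mk (w c) = ConjClasses.mk g := hw1 c
        rw [ConjClasses.mk_eq_mk_iff_isConj, Equiv.Perm.isConj_iff_cycleType_eq] at h1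
        rw [← Equiv.Perm.lcm_cycleType, h1, Equiv.Perm.lcm_cycleType, hg1]
    rw [Nat.card_congr (Equiv.ofBijective f hbij), Nat.card_eq_fintype_card, Fintype.card_coe]
  show Nat.card X = 1 ↔ _
  rw [hX, isPrimePow_iff_card_primeFactors_eq_one]

end Cfsg.Agent.S3504
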