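import Cfsg.Statements.S3511

set_option autoImplicit false
open Cfsg

namespace Cfsg.Agent.S3511

/-- Let a finite group G act faithfully on a set Ω. If every element of G of square-free order has a regular cycle (an orbit of the cyclic group it generates with trivial stabilizer), then every element of G has a regular cycle. -/
theorem result {G : Type*} [Group G] [Finite G] {Ω : Type*} [MulAction G Ω] [FaithfulSMul G Ω]
    (h : ∀ g : G, Squarefree (orderOf g) → ∃ ω : Ω, MulAction.stabilizer (Subgroup.zpowers g) ω = ⊥) (g : G) :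
    ∃ ω : Ω, MulAction.stabilizer (Subgroup.zpowers g) ω = ⊥ := by
  classical
  set n := orderOf g with hn
  have hn0 : 0 < n := orderOf_pos g
  -- the radical of `n`
  set r := ∏ q ∈ n.primeFactors, q with hr
  have hrn : r ∣ n := Nat.prod_primeFactors_dvd n
  have hrsq : Squarefree r := by
    rw [hr]
    apply Finset.squarefree_prod_of_pairwise_isCoprime
    · intro a ha b hb hab
      exact (Nat.coprime_primes (Nat.prime_of_mem_primeFactors ha) (Nat.prime_of_mem_primeFactors hb)).2 hab |>.isCoprime.isRelPrime |> (Nat.isCoprime_iff_coprime.2 ((Nat.coprime_primes (Nat.prime_of_mem_primeFactors ha) (Nat.prime_of_mem_primeFactors hb)).2 hab) |>.isRelPrime |> fun _ => Nat.coprime_iff_isRelPrime.1 ((Nat.coprime_primes (Nat.prime_of_mem_primeFactors ha) (Nat.prime_of_mem_primeFactors hb)).2 hab) |> fun h _ => h)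
    · intro a ha
      exact (Nat.prime_of_mem_primeFactors ha).prime.squarefree
  obtain ⟨m, hm⟩ := hrn
  have hm0 : 0 < m := by
    rcases Nat.eq_zero_or_pos m with h | h
    · rw [h, mul_zero] at hm
      omega
    · exact h
  have hr0 : 0 < r := by
    rcases Nat.eq_zero_or_pos r with h | h
    · rw [h, zero_mul] at hm
      omega
    · exact h
  have hord : orderOf (g ^ m) = r := by
    rw [orderOf_pow' g hm0.ne', ← hn, hm, Nat.gcd_mul_left_left, Nat.mul_div_cancel _ hm0]
  obtain ⟨ω, hω⟩ := h (g ^ m) (by rw [hord]; exact hrsq)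
  refine ⟨ω, ?_⟩
  rw [eq_bot_iff]
  rintro ⟨x, hx⟩ hxs
  by_contra hne
  have hx1 : x ≠ 1 := fun h1 => hne (by simp [h1])
  have hxω : x • ω = ω := hxs
  obtain ⟨a, rfl⟩ : ∃ a : ℕ, g ^ a = x := by
    have := (mem_powers_iff_mem_zpowers (y := x) (x := g)).2 hx
    exact Submonoid.mem_powers_iff _ _ |>.1 this
  -- a prime divisor of the order
  have hod : orderOf (g ^ a) ≠ 1 := by
    rw [Ne, orderOf_eq_one_iff]; exact hx1
  have hq := Nat.minFac_prime hod
  set q := (orderOf (g ^ a)).minFac with hqd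
  have hqdvd : q ∣ orderOf (g ^ a) := Nat.minFac_dvd _
  set k := orderOf (g ^ a) / q with hk
  set y := (g ^ a) ^ k with hy
  have hyord : orderOf y = q := orderOf_pow_orderOf_div (orderOf_pos _).ne' hqdvd
  have hyω : y • ω = ω := by
    have : g ^ a ∈ MulAction.stabilizer G ω := hxω
    exact Subgroup.pow_mem _ this k
  have hqn : q ∣ n := hqdvd.trans (orderOf_dvd_of_pow_eq_one (by
    rw [← pow_mul, mul_comm, pow_mul, pow_orderOf_eq_one, one_pow]))
  have hqr : q ∣ r := by
    rw [hr]
    exact Finset.dvd_prod_of_mem _ (Nat.mem_primeFactors.2 ⟨hq, hqn, hn0.ne'⟩)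
  obtain ⟨r', hr'⟩ := hqr
  have hyq : y ^ q = 1 := by rw [← hyord]; exact pow_orderOf_eq_one y
  have hy2 : y = g ^ (a * k) := by rw [hy, pow_mul]
  have hdvd : n ∣ (a * k) * q := by
    apply orderOf_dvd_of_pow_eq_one
    rw [pow_mul, ← hy2, hyq]
  have hdvd2 : r' * m ∣ a * k := by
    have e : n = (r' * m) * q := by rw [hm, hr']; ring
    rw [e] at hdvd
    exact Nat.dvd_of_mul_dvd_mul_right hq.pos hdvd
  obtain ⟨b, hb⟩ := hdvd2
  have hymem : y ∈ Subgroup.zpowers (g ^ m) := by
    rw [hy2, hb]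
    have : g ^ (r' * m * b) = (g ^ m) ^ (r' * b) := by
      rw [← pow_mul]; congr 1; ring
    rw [this]
    exact Subgroup.pow_mem _ (Subgroup.mem_zpowers _) _
  have hst : (⟨y, hymem⟩ : Subgroup.zpowers (g ^ m)) ∈ MulAction.stabilizer (Subgroup.zpowers (g ^ m)) ω := hyω
  rw [hω, Subgroup.mem_bot] at hst
  have hy1 : y = 1 := congrArg Subtype.val hst
  rw [hy1, orderOf_one] at hyord
  exact hq.one_lt.ne hyord

end Cfsg.Agent.S3511
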