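import Cfsg.Statements.S3514
import Cfsg.Agent.Lib.LeadOrbit

set_option autoImplicit false
open Cfsg

namespace Cfsg.Agent.S3514

/-- Let p be a prime, V a finite vector space over the field with p elements, and H a group of linear transformations of V all of whose orbits on V have size coprime to p. (i) Every normal subgroup K of H has all its orbits on V of size coprime to p. (ii) If N is a group of linear transformations of V of order coprime to p that is normalized by H, then the group generated by N and H has all its orbits on V of size coprime to p. -/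
theorem result (p : ℕ) [Fact p.Prime] {V : Type*} [AddCommGroup V] [Module (ZMod p) V] [Finite V]
    (H : Subgroup (V ≃ₗ[ZMod p] V)) (hH : ∀ v : V, ¬ p ∣ Nat.card {u : V | ∃ h ∈ H, h v = u}) :
    (∀ K : Subgroup (V ≃ₗ[ZMod p] V), K ≤ H → H ≤ Subgroup.normalizer (K : Set (V ≃ₗ[ZMod p] V)) →
        ∀ v : V, ¬ p ∣ Nat.card {u : V | ∃ k ∈ K, k v = u}) ∧
    (∀ N : Subgroup (V ≃ₗ[ZMod p] V), ¬ p ∣ Nat.card N → H ≤ Subgroup.normalizer (N : Set (V ≃ₗ[ZMod p] V)) →
        ∀ v : V, ¬ p ∣ Nat.card {u : V | ∃ x ∈ N ⊔ H, x v = u}) := by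
  classical
  open Cfsg.Agent.Lib.LeadOrbit MulAction in
  have hfin : Finite (V ≃ₗ[ZMod p] V) := Finite.of_injective (fun e => (e : V → V)) DFunLike.coe_injective
  have hH' : ∀ v : V, ¬ p ∣ (stabilizer (V ≃ₗ[ZMod p] V) v).relIndex H := by
    intro v
    rw [← card_orb H v]
    exact hH v
  constructor
  · intro K hKH hn v
    have := card_orb K v
    change ¬ p ∣ Nat.card {u : V | ∃ k ∈ K, k • v = u}
    rw [this]
    intro hd
    exact hH' v (hd.trans (relIndex_dvd_of_normalized _ K H hKH hn))
  · intro N hN hn v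
    change ¬ p ∣ Nat.card {u : V | ∃ x ∈ N ⊔ H, x • v = u}
    rw [card_orb]
    set S := stabilizer (V ≃ₗ[ZMod p] V) v with hS
    intro hd
    have hp := (Fact.out : p.Prime)
    have h1 : S.relIndex (N ⊔ H) ∣ (S ⊓ H).relIndex (N ⊔ H) :=
      Subgroup.relIndex_dvd_of_le_left _ inf_le_left
    have h2 : (S ⊓ H).relIndex H * H.relIndex (N ⊔ H) = (S ⊓ H).relIndex (N ⊔ H) :=
      Subgroup.relIndex_mul_relIndex _ _ _ inf_le_right le_sup_right
    have h3 : (S ⊓ H).relIndex H = S.relIndex H := Subgroup.inf_relIndex_right _ _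
    rw [← h2, h3] at h1
    rcases (Nat.Prime.dvd_mul hp).1 (hd.trans h1) with h4 | h4
    · exact hH' v h4
    · exact hN (h4.trans (relIndex_sup_dvd_card N H hn))

end Cfsg.Agent.S3514
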