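import Cfsg.Statements.S3515
import Mathlib
import Cfsg.Agent.Lib.LeadAffine

set_option autoImplicit false
open Cfsg

namespace Cfsg.Agent.S3515

theorem four_points : ∀ x : Fin 2 → ZMod 2, x = 0 ∨ x = Pi.single 0 1 ∨ x = Pi.single 1 1 ∨ x = Pi.single 0 1 + Pi.single 1 1 := by
  decide

theorem four_ne0 : ((Pi.single 0 1 + Pi.single 1 1 : Fin 2 → ZMod 2)) ≠ 0 := by decide

theorem four_ne1 : ((Pi.single 0 1 + Pi.single 1 1 : Fin 2 → ZMod 2)) ≠ Pi.single 0 1 := by decide

theorem four_ne2 : ((Pi.single 0 1 + Pi.single 1 1 : Fin 2 → ZMod 2)) ≠ Pi.single 1 1 := by decide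

/-- Every primitive affine permutation group of degree p² is 3-closed. Let p be a prime and G a group of permutations of the plane V = F_p² consisting of affine maps x ↦ Ax + b, containing all translations, and acting primitively on V. Then any permutation σ of V that agrees on every triple of points with some element of G (σ preserves every G-orbit on ordered triples) already lies in G. -/
theorem result (p : ℕ) [Fact p.Prime] (G : Subgroup (Equiv.Perm (Fin 2 → ZMod p)))
    (haff : (G : Set (Equiv.Perm (Fin 2 → ZMod p))) ⊆ {τ : Equiv.Perm (Fin 2 → ZMod p) | ∃ (A : (Fin 2 → ZMod p) ≃ₗ[ZMod p] (Fin 2 → ZMod p)) (b : Fin 2 → ZMod p), ∀ x, τ x = A x + b})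
    (htrans : ∀ b : Fin 2 → ZMod p, ∃ g ∈ G, ∀ x, g x = x + b) (hprim : MulAction.IsPreprimitive G (Fin 2 → ZMod p))
    (σ : Equiv.Perm (Fin 2 → ZMod p)) (hσ : (∀ t : Fin 3 → (Fin 2 → ZMod p), ∃ g ∈ G, ∀ i, σ (t i) = g (t i))) : σ ∈ G := by
  classical
  open Cfsg.Agent.Lib.LeadAffine in
  have hfd : FiniteDimensional (ZMod p) (Fin 2 → ZMod p) := inferInstance
  let e₁ : Fin 2 → ZMod p := Pi.single 0 1
  let e₂ : Fin 2 → ZMod p := Pi.single 1 1
  have hdecomp : ∀ x : Fin 2 → ZMod p, x = x 0 • e₁ + x 1 • e₂ := by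
    intro x
    ext i
    fin_cases i <;> simp [e₁, e₂]
  obtain ⟨g, hg, hgt⟩ := hσ ![0, e₁, e₂]
  have h0 : σ 0 = g 0 := hgt 0
  have h1 : σ e₁ = g e₁ := hgt 1
  have h2 : σ e₂ = g e₂ := hgt 2
  suffices h : σ = g by rw [h]; exact hg
  by_cases hp2 : p = 2
  · subst hp2
    -- a permutation of the four points agreeing on three agrees everywhere
    have hall := four_points
    ext1 x
    rcases hall x with hx | hx | hx | hx
    · rw [hx]; exact h0
    · rw [hx]; exact h1
    · rw [hx]; exact h2
    · obtain ⟨y, hy⟩ := g.surjective (σ x)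
      rcases hall y with hy' | hy' | hy' | hy'
      · exfalso
        have h3 : x = 0 := σ.injective ((hy.symm.trans (by rw [hy'])).trans h0.symm)
        rw [h3] at hx
        exact four_ne0 hx.symm
      · exfalso
        have h3 : x = e₁ := σ.injective ((hy.symm.trans (by rw [hy'])).trans h1.symm)
        rw [h3] at hx
        exact four_ne1 hx.symm
      · exfalso
        have h3 : x = e₂ := σ.injective ((hy.symm.trans (by rw [hy'])).trans h2.symm)
        rw [h3] at hx
        exact four_ne2 hx.symm
      · rw [← hy, hy', hx]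
  · have h20 : (2 : ZMod p) ≠ 0 := by
      intro h2
      have : ((2 : ℕ) : ZMod p) = 0 := by exact_mod_cast h2
      rw [ZMod.natCast_eq_zero_iff] at this
      have := (Nat.prime_dvd_prime_iff_eq (Fact.out) Nat.prime_two).1 this
      exact hp2 this
    haveI : Invertible (2 : ZMod p) := invertibleOfNonzero h20
    obtain ⟨A, b, hA⟩ : ∃ (A : (Fin 2 → ZMod p) ≃ₗ[ZMod p] (Fin 2 → ZMod p)) (b : Fin 2 → ZMod p), ∀ x, σ x = A x + b := by
      apply affine_of_combination
      intro x y c
      obtain ⟨g, hg, hgt⟩ := hσ ![x, y, x + c • (y - x)]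
      obtain ⟨A, b, hA⟩ := haff hg
      have h0 := hgt 0
      have h1 := hgt 1
      have h2 := hgt 2
      simp only [Matrix.cons_val_zero, Matrix.cons_val_one, Matrix.cons_val] at h0 h1 h2
      rw [h2, h0, h1, hA, hA, hA]
      simp only [map_add, map_smul, map_sub, smul_add, smul_sub]
      abel
    obtain ⟨A', b', hA'⟩ := haff hg
    have hb : b = b' := by
      have := h0
      rw [hA, hA', map_zero, map_zero] at this
      simpa using this
    subst hb
    ext1 x
    rw [hA, hA']
    have h1' : A e₁ = A' e₁ := by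
      have := h1
      rw [hA, hA'] at this
      exact add_right_cancel this
    have h2' : A e₂ = A' e₂ := by
      have := h2
      rw [hA, hA'] at this
      exact add_right_cancel this
    congr 1
    rw [hdecomp x, map_add, map_add, map_smul, map_smul, map_smul, map_smul, h1', h2']

end Cfsg.Agent.S3515
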