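import Cfsg.Statements.S3516
import Mathlib
import Cfsg.Agent.Lib.LeadAffine

set_option autoImplicit false
open Cfsg

namespace Cfsg.Agent.S3516

/-- Let p be an odd prime, d ≥ 3, and G a group of affine permutations x ↦ Ax + b of V = F_p^d containing all translations and all maps x ↦ Ax with A of determinant 1. Then the 3-closure of G is the full affine group: a permutation σ of V agrees on every triple of points with some element of G if and only if σ is an affine map. -/
theorem result (p : ℕ) [Fact p.Prime] (hp : p ≠ 2) (d : ℕ) (hd : 3 ≤ d) (G : Subgroup (Equiv.Perm (Fin d → ZMod p)))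
    (haff : (G : Set (Equiv.Perm (Fin d → ZMod p))) ⊆ {τ : Equiv.Perm (Fin d → ZMod p) | ∃ (A : (Fin d → ZMod p) ≃ₗ[ZMod p] (Fin d → ZMod p)) (b : Fin d → ZMod p), ∀ x, τ x = A x + b})
    (htrans : ∀ b : Fin d → ZMod p, ∃ g ∈ G, ∀ x, g x = x + b)
    (hsl : ∀ A : (Fin d → ZMod p) ≃ₗ[ZMod p] (Fin d → ZMod p), LinearMap.det (A : (Fin d → ZMod p) →ₗ[ZMod p] (Fin d → ZMod p)) = 1 → ∃ g ∈ G, ∀ x, g x = A x)
    (σ : Equiv.Perm (Fin d → ZMod p)) :
    (∀ t : Fin 3 → (Fin d → ZMod p), ∃ g ∈ G, ∀ i, σ (t i) = g (t i)) ↔ σ ∈ {τ : Equiv.Perm (Fin d → ZMod p) | ∃ (A : (Fin d → ZMod p) ≃ₗ[ZMod p] (Fin d → ZMod p)) (b : Fin d → ZMod p), ∀ x, τ x = A x + b} := by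
  classical
  open Cfsg.Agent.Lib.LeadAffine in
  have hfd : FiniteDimensional (ZMod p) (Fin d → ZMod p) := inferInstance
  constructor
  · intro h
    have h20 : (2 : ZMod p) ≠ 0 := by
      intro h2
      have : ((2 : ℕ) : ZMod p) = 0 := by exact_mod_cast h2
      rw [ZMod.natCast_eq_zero_iff] at this
      have := (Nat.prime_dvd_prime_iff_eq (Fact.out) Nat.prime_two).1 this
      exact hp this
    haveI : Invertible (2 : ZMod p) := invertibleOfNonzero h20
    apply affine_of_combination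
    intro x y c
    obtain ⟨g, hg, hgt⟩ := h ![x, y, x + c • (y - x)]
    obtain ⟨A, b, hA⟩ := haff hg
    have h0 := hgt 0
    have h1 := hgt 1
    have h2 := hgt 2
    simp only [Matrix.cons_val_zero, Matrix.cons_val_one, Matrix.cons_val] at h0 h1 h2
    rw [h2, h0, h1, hA, hA, hA]
    simp only [map_add, map_smul, map_sub, smul_add, smul_sub]
    abel
  · rintro ⟨A, b, hA⟩ t
    set u₁ := t 1 - t 0 with hu₁
    set u₂ := t 2 - t 0 with hu₂
    let W := Submodule.span (ZMod p) ((({u₁, u₂} : Finset (Fin d → ZMod p))) : Set (Fin d → ZMod p))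
    have hW : W < ⊤ := by
      rw [lt_top_iff_ne_top]
      intro h
      have h1 : Module.finrank (ZMod p) W ≤ 2 :=
        (finrank_span_finset_le_card (R := ZMod p) ({u₁, u₂} : Finset (Fin d → ZMod p))).trans Finset.card_le_two
      have h2 : Module.finrank (ZMod p) W = d := by
        rw [h, finrank_top, Module.finrank_fin_fun]
      omega
    obtain ⟨f, hf0, hfW⟩ := Submodule.exists_le_ker_of_lt_top W hW
    obtain ⟨v₀, hv₀⟩ : ∃ v₀, f v₀ = 1 := by
      obtain ⟨w, hw⟩ : ∃ w, f w ≠ 0 := by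
        by_contra hcon
        push Not at hcon
        exact hf0 (LinearMap.ext hcon)
      refine ⟨(f w)⁻¹ • w, ?_⟩
      rw [map_smul, smul_eq_mul, inv_mul_cancel₀ hw]
    have hfu₁ : f u₁ = 0 := hfW (Submodule.subset_span (by simp))
    have hfu₂ : f u₂ = 0 := hfW (Submodule.subset_span (by simp))
    set c := LinearMap.det (A : (Fin d → ZMod p) →ₗ[ZMod p] (Fin d → ZMod p)) with hc
    have hc0 : c ≠ 0 := (LinearEquiv.isUnit_det' A).ne_zero
    set v := (c⁻¹ - 1) • v₀ with hv
    have hfv : 1 + f v = c⁻¹ := by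
      rw [hv, map_smul, hv₀, smul_eq_mul, mul_one]
      ring
    have hun : IsUnit (1 + f v) := by
      rw [hfv]
      exact (inv_ne_zero hc0).isUnit
    let D := LinearEquiv.dilatransvection hun
    have hDapply : ∀ x, D x = x + f x • v := fun x => LinearEquiv.dilatransvection.apply
    have hDdet : LinearMap.det (D : (Fin d → ZMod p) →ₗ[ZMod p] (Fin d → ZMod p)) = c⁻¹ := by
      rw [← hfv, ← LinearMap.transvection.det f v]
      rfl
    let C : (Fin d → ZMod p) ≃ₗ[ZMod p] (Fin d → ZMod p) := D.trans A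
    have hCdet : LinearMap.det (C : (Fin d → ZMod p) →ₗ[ZMod p] (Fin d → ZMod p)) = 1 := by
      have : (C : (Fin d → ZMod p) →ₗ[ZMod p] (Fin d → ZMod p)) =
          (A : (Fin d → ZMod p) →ₗ[ZMod p] (Fin d → ZMod p)) ∘ₗ (D : (Fin d → ZMod p) →ₗ[ZMod p] (Fin d → ZMod p)) := rfl
      rw [this, LinearMap.det_comp, hDdet, ← hc, mul_inv_cancel₀ hc0]
    obtain ⟨g₁, hg₁, hg₁x⟩ := hsl C hCdet
    obtain ⟨g₂, hg₂, hg₂x⟩ := htrans (A (t 0) + b - C (t 0))
    refine ⟨g₂ * g₁, G.mul_mem hg₂ hg₁, fun i => ?_⟩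
    rw [Equiv.Perm.mul_apply, hg₁x, hg₂x, hA]
    have hCu : ∀ u, f u = 0 → C u = A u := by
      intro u hu
      show A (D u) = A u
      rw [hDapply, hu, zero_smul, add_zero]
    have hCt : ∀ w, f (w - t 0) = 0 → C w = A w - A (t 0) + C (t 0) := by
      intro w hw
      have : C (w - t 0) = A (w - t 0) := hCu _ hw
      rw [map_sub, map_sub] at this
      rw [← this]
      abel
    have hfinal : f (t i - t 0) = 0 := by
      fin_cases i
      · simp
      · exact hfu₁
      · exact hfu₂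
    rw [hCt _ hfinal]
    abel

end Cfsg.Agent.S3516
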