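import Cfsg.Statements.S3517
import Mathlib
import Cfsg.Agent.Lib.LeadAffine

set_option autoImplicit false
open Cfsg

namespace Cfsg.Agent.S3517

/-- For d ≥ 3, the 3-closure of the affine group AGL_d(2) acting on F_2^d is the full symmetric group: every permutation of F_2^d agrees on every ordered triple of points with some affine map (AGL_d(2) is 3-transitive). -/
theorem result (d : ℕ) (hd : 3 ≤ d) (σ : Equiv.Perm (Fin d → ZMod 2)) (t : Fin 3 → (Fin d → ZMod 2)) :
    ∃ (A : (Fin d → ZMod 2) ≃ₗ[ZMod 2] (Fin d → ZMod 2)) (b : Fin d → ZMod 2), ∀ i, σ (t i) = A (t i) + b := by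
  classical
  open Cfsg.Agent.Lib.LeadAffine in
  have hfd : FiniteDimensional (ZMod 2) (Fin d → ZMod 2) := inferInstance
  set u₁ := t 1 - t 0 with hu₁
  set u₂ := t 2 - t 0 with hu₂
  set v₁ := σ (t 1) - σ (t 0) with hv₁
  set v₂ := σ (t 2) - σ (t 0) with hv₂
  have h1 : u₁ = 0 ↔ v₁ = 0 := by
    rw [hu₁, hv₁, sub_eq_zero, sub_eq_zero, σ.injective.eq_iff]
  have h2 : u₂ = 0 ↔ v₂ = 0 := by
    rw [hu₂, hv₂, sub_eq_zero, sub_eq_zero, σ.injective.eq_iff]
  have h12 : u₁ = u₂ ↔ v₁ = v₂ := by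
    rw [hu₁, hu₂, hv₁, hv₂, sub_left_inj, sub_left_inj, σ.injective.eq_iff]
  -- It is enough to find `A` with `A u₁ = v₁` and `A u₂ = v₂`.
  suffices h : ∃ A : (Fin d → ZMod 2) ≃ₗ[ZMod 2] (Fin d → ZMod 2), A u₁ = v₁ ∧ A u₂ = v₂ by
    obtain ⟨A, hA1, hA2⟩ := h
    refine ⟨A, σ (t 0) - A (t 0), fun i => ?_⟩
    fin_cases i
    · simp
    · show σ (t 1) = A (t 1) + (σ (t 0) - A (t 0))
      have : A (t 1) - A (t 0) = v₁ := by rw [← map_sub, ← hu₁, hA1]
      rw [hv₁] at this
      have e : σ (t 1) = (A (t 1) - A (t 0)) + σ (t 0) := by rw [this]; abel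
      rw [e]; abel
    · show σ (t 2) = A (t 2) + (σ (t 0) - A (t 0))
      have : A (t 2) - A (t 0) = v₂ := by rw [← map_sub, ← hu₂, hA2]
      rw [hv₂] at this
      have e : σ (t 2) = (A (t 2) - A (t 0)) + σ (t 0) := by rw [this]; abel
      rw [e]; abel
  by_cases hu1 : u₁ = 0
  · have hv1 : v₁ = 0 := h1.1 hu1
    by_cases hu2 : u₂ = 0
    · exact ⟨LinearEquiv.refl _ _, by simp [hu1, hv1], by simp [hu2, h2.1 hu2]⟩
    · obtain ⟨A, hA⟩ := exists_linearEquiv_single (K := ZMod 2) hu2 (fun h => hu2 (h2.2 h))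
      exact ⟨A, by simp [hu1, hv1], hA⟩
  · have hv1 : v₁ ≠ 0 := fun h => hu1 (h1.2 h)
    by_cases hu2 : u₂ = 0
    · obtain ⟨A, hA⟩ := exists_linearEquiv_single (K := ZMod 2) hu1 hv1
      exact ⟨A, hA, by simp [hu2, h2.1 hu2]⟩
    · have hv2 : v₂ ≠ 0 := fun h => hu2 (h2.2 h)
      by_cases hu12 : u₁ = u₂
      · obtain ⟨A, hA⟩ := exists_linearEquiv_single (K := ZMod 2) hu1 hv1
        exact ⟨A, hA, by rw [← hu12, hA, h12.1 hu12]⟩
      · have hv12 : v₁ ≠ v₂ := fun h => hu12 (h12.2 h)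
        have hli : ∀ x y : (Fin d → ZMod 2), x ≠ 0 → y ≠ 0 → x ≠ y → LinearIndependent (ZMod 2) ![x, y] := by
          intro x y hx hy hxy
          rw [LinearIndependent.pair_iff]
          intro s t hst
          have hZ : ∀ a : ZMod 2, a = 0 ∨ a = 1 := by decide
          have hs := hZ s
          have ht := hZ t
          rcases hs with rfl | rfl <;> rcases ht with rfl | rfl
          · exact ⟨rfl, rfl⟩
          · simp at hst
            exact absurd hst hy
          · simp at hst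
            exact absurd hst hx
          · simp at hst
            exfalso
            apply hxy
            have := eq_neg_of_add_eq_zero_left hst
            rw [this]
            ext i
            simp [ZMod.neg_eq_self_mod_two]
        obtain ⟨A, hA⟩ := exists_linearEquiv_of_linearIndependent (hli _ _ hu1 hu2 hu12) (hli _ _ hv1 hv2 hv12)
        exact ⟨A, hA 0, hA 1⟩

end Cfsg.Agent.S3517
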