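import Cfsg.Statements.S3518
import Mathlib
import Cfsg.Agent.Lib.PrimeDeg3

set_option autoImplicit false
open Cfsg

namespace Cfsg.Agent.S3518

open Cfsg

/-- The 2-closure of a permutation group. -/
def twoClosure {K : Type*} (G : Subgroup (Equiv.Perm K)) : Subgroup (Equiv.Perm K) where
  carrier := {τ | ∀ x y, ∃ g ∈ G, τ x = g x ∧ τ y = g y}
  one_mem' := fun x y => ⟨1, G.one_mem, rfl, rfl⟩
  mul_mem' := by
    intro a b ha hb x y
    obtain ⟨g₂, hg₂, h1, h2⟩ := hb x y
    obtain ⟨g₁, hg₁, h3, h4⟩ := ha (b x) (b y)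
    refine ⟨g₁ * g₂, G.mul_mem hg₁ hg₂, ?_, ?_⟩
    · simp only [Equiv.Perm.mul_apply]
      rw [h3, h1]
    · simp only [Equiv.Perm.mul_apply]
      rw [h4, h2]
  inv_mem' := by
    intro a ha x y
    obtain ⟨g, hg, h1, h2⟩ := ha (a⁻¹ x) (a⁻¹ y)
    refine ⟨g⁻¹, G.inv_mem hg, ?_, ?_⟩
    · have e : a (a⁻¹ x) = x := by simp
      rw [e] at h1
      rw [Equiv.Perm.eq_inv_iff_eq]
      exact h1.symm
    · have e : a (a⁻¹ y) = y := by simp
      rw [e] at h2
      rw [Equiv.Perm.eq_inv_iff_eq]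
      exact h2.symm

/-- Closures of subgroups of the one-dimensional affine group. Let p be a prime and G a group of permutations of F_p lying in the affine group AGL₁(p) = {x ↦ ax + b, a ≠ 0} and containing all translations. (1) If G is a proper subgroup of AGL₁(p), then G is 2-closed: a permutation of F_p agreeing on every ordered pair of points with some element of G lies in G. (2) Every permutation of F_p agrees on every ordered pair with some element of AGL₁(p) (the 2-closure of AGL₁(p) is the symmetric group). (3) AGL₁(p) is 3-closed: a permutation agreeing on every ordered triple with some affine map is affine. -/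
theorem result (p : ℕ) [Fact p.Prime] (G : Subgroup (Equiv.Perm (ZMod p))) (hG : G ≤ Cfsg.affineGroup (ZMod p))
    (htrans : ∀ b : ZMod p, ∃ g ∈ G, ∀ x, g x = x + b) :
    (G ≠ Cfsg.affineGroup (ZMod p) → ∀ σ : Equiv.Perm (ZMod p), (∀ t : Fin 2 → ZMod p, ∃ g ∈ G, ∀ i, σ (t i) = g (t i)) → σ ∈ G) ∧
    (∀ σ : Equiv.Perm (ZMod p), (∀ t : Fin 2 → ZMod p, ∃ g ∈ Cfsg.affineGroup (ZMod p), ∀ i, σ (t i) = g (t i))) ∧
    (∀ σ : Equiv.Perm (ZMod p), (∀ t : Fin 3 → ZMod p, ∃ g ∈ Cfsg.affineGroup (ZMod p), ∀ i, σ (t i) = g (t i)) → σ ∈ Cfsg.affineGroup (ZMod p)) := by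
  classical
  have haff : ∀ σ ∈ Cfsg.affineGroup (ZMod p), ∃ a b : ZMod p, a ≠ 0 ∧ ∀ x, σ x = a * x + b := by
    rintro σ ⟨a, b, h⟩
    exact ⟨a, b, a.ne_zero, h⟩
  have hmem : ∀ (a b : ZMod p) (σ : Equiv.Perm (ZMod p)), a ≠ 0 → (∀ x, σ x = a * x + b) → σ ∈ Cfsg.affineGroup (ZMod p) := by
    intro a b σ ha h
    exact ⟨Units.mk0 a ha, b, h⟩
  have hp1 : (0 : ZMod p) ≠ 1 := zero_ne_one
  refine ⟨?_, ?_, ?_⟩
  · -- part (1)
    intro hne σ hσ
    have hτ : ∀ c : ZMod p, Equiv.addRight c ∈ twoClosure G := by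
      intro c x y
      obtain ⟨g, hg, hgx⟩ := htrans c
      refine ⟨g, hg, ?_, ?_⟩
      · rw [hgx]; rfl
      · rw [hgx]; rfl
    -- a multiplier missing from `G`
    obtain ⟨a₀, ha₀, hmiss⟩ : ∃ a₀ : ZMod p, a₀ ≠ 0 ∧ ∀ g ∈ G, ∀ b : ZMod p, ¬ ∀ x, g x = a₀ * x + b := by
      by_contra hcon
      push Not at hcon
      apply hne
      apply le_antisymm hG
      intro τ hτ'
      obtain ⟨a, b, ha, hab⟩ := haff τ hτ'
      obtain ⟨g, hg, b', hg'⟩ := hcon a ha
      obtain ⟨t, ht, ht'⟩ := htrans (b - b')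
      have : τ = t * g := by
        ext x
        simp only [Equiv.Perm.mul_apply, ht', hg', hab]
        ring
      rw [this]
      exact G.mul_mem ht hg
    have hσcl : σ ∈ twoClosure G := by
      intro x y
      obtain ⟨g, hg, h⟩ := hσ ![x, y]
      exact ⟨g, hg, h 0, h 1⟩
    rcases Cfsg.Agent.Lib.PrimeDeg.main_zmod (twoClosure G) hτ with h1 | h2
    · obtain ⟨a, b, ha, hab⟩ := h1 σ hσcl
      obtain ⟨g, hg, h3, h4⟩ := hσcl 0 1
      obtain ⟨a', b', _, hg'⟩ := haff g (hG hg)
      rw [hab, hg'] at h3 h4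
      simp only [mul_zero, zero_add, mul_one] at h3 h4
      have hb : b = b' := h3
      have ha' : a = a' := by
        rw [hb] at h4
        exact add_right_cancel h4
      have : σ = g := by
        ext x
        rw [hab, hg', ha', hb]
      rw [this]
      exact hg
    · obtain ⟨g, hg, hg0, hg1⟩ := h2 a₀ ha₀
      obtain ⟨h, hh, h3, h4⟩ := hg 0 1
      obtain ⟨a', b', _, hh'⟩ := haff h (hG hh)
      rw [hg0, hh'] at h3
      rw [hg1, hh'] at h4
      simp only [mul_zero, zero_add, mul_one] at h3 h4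
      exfalso
      apply hmiss h hh 0
      intro x
      subst h3
      rw [hh', h4]
      simp
  · -- part (2)
    intro σ t
    by_cases hteq : t 0 = t 1
    · let g : Equiv.Perm (ZMod p) := Equiv.addRight (σ (t 0) - t 0)
      refine ⟨g, hmem 1 (σ (t 0) - t 0) g one_ne_zero (fun x => ?_), ?_⟩
      · show x + (σ (t 0) - t 0) = 1 * x + _
        ring
      · intro i
        fin_cases i
        · show σ (t 0) = t 0 + (σ (t 0) - t 0)
          ring
        · show σ (t 1) = t 1 + (σ (t 0) - t 0)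
          rw [← hteq]
          ring
    · have hd : t 1 - t 0 ≠ 0 := fun h => hteq (sub_eq_zero.mp h).symm
      have hd' : σ (t 1) - σ (t 0) ≠ 0 := fun h => hteq (σ.injective (sub_eq_zero.mp h)).symm
      set a := (σ (t 1) - σ (t 0)) / (t 1 - t 0) with ha
      have ha0 : a ≠ 0 := div_ne_zero hd' hd
      set b := σ (t 0) - a * t 0 with hb
      let g : Equiv.Perm (ZMod p) :=
        { toFun := fun x => a * x + b
          invFun := fun x => a⁻¹ * (x - b)
          left_inv := fun x => by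
            simp only [add_sub_cancel_right]
            rw [← mul_assoc, inv_mul_cancel₀ ha0, one_mul]
          right_inv := fun x => by
            simp only
            rw [← mul_assoc, mul_inv_cancel₀ ha0, one_mul]
            ring }
      refine ⟨g, hmem a b g ha0 (fun x => rfl), ?_⟩
      intro i
      fin_cases i
      · show σ (t 0) = a * t 0 + b
        rw [hb]; ring
      · show σ (t 1) = a * t 1 + b
        rw [hb, ha]
        field_simp
        ring
  · -- part (3)
    intro σ hσ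
    set a := σ 1 - σ 0 with ha
    have ha0 : a ≠ 0 := fun h => hp1 (σ.injective (sub_eq_zero.mp h)).symm
    refine hmem a (σ 0) σ ha0 (fun x => ?_)
    obtain ⟨g, hg, h⟩ := hσ ![0, 1, x]
    obtain ⟨a', b', _, hg'⟩ := haff g hg
    have h0 := h 0
    have h1 := h 1
    have h2 := h 2
    simp only [Matrix.cons_val_zero, Matrix.cons_val_one, Matrix.cons_val] at h0 h1 h2
    rw [hg'] at h0 h1 h2
    simp only [mul_zero, zero_add, mul_one] at h0 h1
    rw [h2, ha, h1, h0]
    ring

end Cfsg.Agent.S3518
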