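import Cfsg.Statements.S3532
import Cfsg.Agent.Lib.H1Spec3

set_option autoImplicit false
open Cfsg

namespace Cfsg.Agent.S3532

open Cfsg.Agent.Lib.H1Spec3 Cfsg.Agent.Lib.H1PSL2

theorem range_prod {A B : Type*} [Group A] [Group B] [Finite A] [Finite B] :
    Set.range (orderOf : A × B → ℕ) = {m | ∃ u ∈ Set.range (orderOf : A → ℕ), ∃ v ∈ Set.range (orderOf : B → ℕ), m = Nat.lcm u v} := by
  ext m
  constructor
  · rintro ⟨⟨x, y⟩, rfl⟩
    exact ⟨_, ⟨x, rfl⟩, _, ⟨y, rfl⟩, Prod.orderOf_mk⟩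
  · rintro ⟨_, ⟨x, rfl⟩, _, ⟨y, rfl⟩, rfl⟩
    exact ⟨(x, y), Prod.orderOf_mk⟩
/-- Let q ≥ 4 be a prime power and L = PSL(2,q). There is a finite solvable group with the same set of element orders as L × L (so L × L is not determined by its spectrum). -/
theorem result {F : Type*} [Field F] [Fintype F] (hF : 4 ≤ Fintype.card F) :
    ∃ (H : Type) (_ : Group H) (_ : Finite H), Group.IsSolvable H ∧
      Set.range (orderOf : H → ℕ) = Set.range (orderOf : Matrix.ProjectiveSpecialLinearGroup (Fin 2) F × Matrix.ProjectiveSpecialLinearGroup (Fin 2) F → ℕ) := by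

  classical
  obtain ⟨p, hp⟩ := CharP.exists F
  have hpp : p.Prime := CharP.char_is_prime F p
  haveI : Fact p.Prime := ⟨hpp⟩
  obtain ⟨n, hn0, hn⟩ := FiniteField.card F p
  set q := Fintype.card F with hq
  have hq1 : 1 < q := Fintype.one_lt_card
  set d := Nat.gcd 2 (q - 1) with hd
  have hd1 : d ∣ q - 1 := Nat.gcd_dvd_right _ _
  have hd2 : d ∣ q + 1 := by
    have h3 : q + 1 = (q - 1) + 2 := by omega
    rw [h3]
    exact Nat.dvd_add hd1 (Nat.gcd_dvd_left _ _)
  have hn' : (n : ℕ) ≠ 0 := n.ne_zero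
  haveI : Fintype (GaloisField p n) := Fintype.ofFinite _
  haveI : Fintype (GaloisField p (2 * n)) := Fintype.ofFinite _
  have hK1 : Fintype.card (GaloisField p n) = q := by
    have := GaloisField.card p n hn'
    rw [Nat.card_eq_fintype_card] at this
    rw [this, hn]
  have hK2 : Fintype.card (GaloisField p (2 * n)) = q ^ 2 := by
    have := GaloisField.card p (2 * n) (by omega)
    rw [Nat.card_eq_fintype_card] at this
    rw [this, hn]
    ring
  -- units of given orders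
  have hunits : ∀ (K : Type) [Field K] [Fintype K] (e : ℕ), e ∣ Fintype.card K - 1 → ∃ a : Kˣ, orderOf a = e := by
    intro K _ _ e he
    obtain ⟨u, hu⟩ := IsCyclic.exists_generator (α := Kˣ)
    have hu1 : orderOf u = Fintype.card K - 1 := by
      rw [orderOf_eq_card_of_forall_mem_zpowers hu, Nat.card_eq_fintype_card, Fintype.card_units]
    have hK : 1 < Fintype.card K := Fintype.one_lt_card
    refine ⟨u ^ (orderOf u / e), orderOf_pow_orderOf_div (by omega) (by rwa [hu1])⟩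
  set b := (q - 1) / d with hb
  set c := (q + 1) / d with hc
  have hbd : b ∣ q - 1 := Nat.div_dvd_of_dvd hd1
  have hcd : c ∣ q ^ 2 - 1 := by
    have h3 : q ^ 2 - 1 = (q + 1) * (q - 1) := by
      have := Nat.sq_sub_sq q 1
      simpa using this
    rw [h3]
    exact (Nat.div_dvd_of_dvd hd2).mul_right _
  obtain ⟨a₁, ha₁⟩ := hunits (GaloisField p n) b (by rw [hK1]; exact hbd)
  obtain ⟨a₂, ha₂⟩ := hunits (GaloisField p (2 * n)) c (by rw [hK2]; exact hcd)
  have hb0 : b ≠ 0 := by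
    have := Nat.div_pos (Nat.le_of_dvd (by omega) hd1) (Nat.pos_of_dvd_of_pos hd1 (by omega))
    omega
  have hc0 : c ≠ 0 := by
    have := Nat.div_pos (Nat.le_of_dvd (by omega) hd2) (Nat.pos_of_dvd_of_pos hd2 (by omega))
    omega
  have hS1 := FG.spec (K := GaloisField p n) (C := Subgroup.zpowers a₁) hpp ha₁ hb0 rfl
  have hS2 := FG.spec (K := GaloisField p (2 * n)) (C := Subgroup.zpowers a₂) hpp ha₂ hc0 rfl
  haveI := FG.solvable (Subgroup.zpowers a₁)
  haveI := FG.solvable (Subgroup.zpowers a₂)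
  have hSL := spec_L (F := F) hpp
  rw [← hq, ← hd, ← hb, ← hc] at hSL
  refine ⟨FG (Subgroup.zpowers a₁) × FG (Subgroup.zpowers a₂), inferInstance, inferInstance, inferInstance, ?_⟩
  rw [range_prod, range_prod, hS1, hS2, hSL]
  ext m
  simp only [Set.mem_setOf_eq]
  constructor
  · rintro ⟨u, hu, v, hv, rfl⟩
    refine ⟨u, ?_, v, ?_, rfl⟩
    · tauto
    · tauto
  · rintro ⟨u, hu, v, hv, rfl⟩
    rcases hu with hu | hu | hu <;> rcases hv with hv | hv | hv
    · exact ⟨u, Or.inl hu, v, Or.inl hv, rfl⟩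
    · exact ⟨v, Or.inr hv, u, Or.inl hu, Nat.lcm_comm _ _⟩
    · exact ⟨u, Or.inl hu, v, Or.inr hv, rfl⟩
    · exact ⟨u, Or.inr hu, v, Or.inl hv, rfl⟩
    · exact ⟨Nat.lcm u v, Or.inr (Nat.lcm_dvd hu hv), 1, Or.inl (one_dvd _), by simp⟩
    · exact ⟨u, Or.inr hu, v, Or.inr hv, rfl⟩
    · exact ⟨v, Or.inl hv, u, Or.inr hu, Nat.lcm_comm _ _⟩
    · exact ⟨v, Or.inr hv, u, Or.inr hu, Nat.lcm_comm _ _⟩
    · exact ⟨1, Or.inl (one_dvd _), Nat.lcm u v, Or.inr (Nat.lcm_dvd hu hv), by simp⟩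

end Cfsg.Agent.S3532
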