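import Cfsg.Statements.S3549
import Mathlib
import Cfsg.Agent.S3548

set_option autoImplicit false
open Cfsg

namespace Cfsg.Agent.S3549

open Cfsg Cfsg.Agent.S3548
open scoped Pointwise

/-- Let G act faithfully, transitively but imprimitively on a finite set with n points, and let D be the subgroup generated by the derangements. Then the index of D in G is at most √n − 1. -/
theorem result {G Ω : Type*} [Group G] [Finite G] [MulAction G Ω] [FaithfulSMul G Ω] [Finite Ω]
    (htrans : MulAction.IsPretransitive G Ω) (himp : ¬ MulAction.IsPreprimitive G Ω) :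
    ((Subgroup.closure {g : G | ∀ ω : Ω, g • ω ≠ ω}).index : ℝ) ≤ Real.sqrt (Nat.card Ω) - 1 := by
  classical
  -- a non-trivial block
  have hB : ∃ B : Set Ω, MulAction.IsBlock G B ∧ ¬ MulAction.IsTrivialBlock B := by
    by_contra hcon
    push Not at hcon
    exact himp { exists_smul_eq := htrans.exists_smul_eq, isTrivialBlock_of_isBlock := fun {B} hB => hcon B hB }
  obtain ⟨B, hB, hBt⟩ := hB
  have hBs : ¬ B.Subsingleton := fun h => hBt (Or.inl h)
  have hBu : B ≠ Set.univ := fun h => hBt (Or.inr h)
  rw [Set.not_subsingleton_iff] at hBs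
  obtain ⟨a, ha, c, hc, hac⟩ := hBs
  haveI : Nonempty Ω := ⟨a⟩
  show (((dSub G Ω).index : ℕ) : ℝ) ≤ _
  set q := (dSub G Ω).index with hq
  -- divisibility
  have h1 : q ∣ Nat.card Ω - 1 := by
    have hSc : Nat.card ({b : Ω | b ≠ a} : Set Ω) = Nat.card Ω - 1 := by
      have : ({b : Ω | b ≠ a} : Set Ω) = {a}ᶜ := by ext; simp
      rw [this, Nat.card_coe_set_eq, Set.ncard_compl, Set.ncard_singleton]
    rw [← hSc]
    apply index_dvd_of_invariant htrans a
    · simp
    · intro h hh s hs hcon
      apply hs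
      rw [← hh] at hcon
      exact smul_left_cancel h hcon
  have hm1 : B.ncard - 1 = Nat.card ((B \ {a} : Set Ω)) := by
    rw [Nat.card_coe_set_eq, Set.ncard_sdiff_singleton_of_mem ha]
  have h2 : q ∣ B.ncard - 1 := by
    rw [hm1]
    apply index_dvd_of_invariant htrans a
    · simp
    · intro h hh s hs
      obtain ⟨hs1, hs2⟩ := hs
      refine ⟨?_, ?_⟩
      · have hinv : h • B = B := hB.smul_eq_of_mem ha (by rw [hh]; exact ha)
        rw [← hinv]
        exact Set.smul_mem_smul_set hs1
      · intro hcon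
        apply hs2
        have hcon' : h • s = a := hcon
        rw [← hh] at hcon'
        exact smul_left_cancel h hcon'
  -- arithmetic
  have hm2 : 2 ≤ B.ncard := by
    have := Set.one_lt_ncard_iff (Set.toFinite B) |>.mpr ⟨a, c, ha, hc, hac⟩
    omega
  obtain ⟨t, ht⟩ := hB.ncard_dvd_card ⟨a, ha⟩
  set m := B.ncard with hm
  have hq0 : 0 < q := Nat.pos_of_ne_zero Subgroup.index_ne_zero_of_finite
  have hqm : q + 1 ≤ m := by
    have := Nat.le_of_dvd (by omega) h2
    omega
  have hmlt : m < Nat.card Ω := by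
    have hle : m ≤ Nat.card Ω := by
      rw [← Set.ncard_univ]
      exact Set.ncard_le_ncard (Set.subset_univ _) (Set.toFinite _)
    refine lt_of_le_of_ne hle ?_
    intro he
    apply hBu
    apply Set.eq_of_subset_of_ncard_le (Set.subset_univ _) _ (Set.toFinite _)
    rw [Set.ncard_univ, ← hm, he]
  have ht2 : 2 ≤ t := by
    by_contra hcon
    have : t ≤ 1 := by omega
    have h3 : m * t ≤ m * 1 := Nat.mul_le_mul_left _ this
    omega
  have hcop : Nat.Coprime q m := by
    have h3 : Nat.Coprime (m - 1) m := by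
      rw [Nat.coprime_comm]
      have : m = (m - 1) + 1 := by omega
      rw [this]
      simp
    exact Nat.Coprime.coprime_dvd_left h2 h3
  have hdvd : q ∣ m * (t - 1) := by
    have e1 : m * (t - 1) = (Nat.card Ω - 1) - (m - 1) := by
      rw [ht, Nat.mul_sub]
      have : m * t ≥ m := Nat.le_mul_of_pos_right _ (by omega)
      simp only [mul_one]
      omega
    rw [e1]
    exact Nat.dvd_sub h1 h2
  have hqt : q ∣ t - 1 := hcop.dvd_of_dvd_mul_left hdvd
  have hqt' : q + 1 ≤ t := by
    have := Nat.le_of_dvd (by omega) hqt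
    omega
  have hfinal : (q + 1) * (q + 1) ≤ Nat.card Ω := by
    rw [ht]
    exact Nat.mul_le_mul hqm hqt'
  have hreal : ((q : ℝ) + 1) ≤ Real.sqrt (Nat.card Ω) := by
    apply Real.le_sqrt_of_sq_le
    have : ((q + 1) * (q + 1) : ℝ) ≤ (Nat.card Ω : ℝ) := by exact_mod_cast hfinal
    nlinarith
  linarith

end Cfsg.Agent.S3549
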