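import Cfsg.Statements.S3559
import Cfsg.Agent.Lib.H1Schur

set_option autoImplicit false
open Cfsg

namespace Cfsg.Agent.S3559

section Aux

variable {G Ω : Type*} [Group G] [MulAction G Ω] (C : Subgroup G) (α : Ω) (E : C ≃ Ω)

/-- The permutation group of `C` induced by the stabilizer of `α`. -/
def PP : Subgroup (Equiv.Perm C) where
  carrier := {p | ∃ h : G, h • α = α ∧ ∀ c, E (p c) = h • E c}
  mul_mem' := by
    rintro p q ⟨h, hh, e⟩ ⟨k, hk, e'⟩
    exact ⟨h * k, by rw [mul_smul, hk, hh], fun c => by rw [Equiv.Perm.mul_apply, e, e', mul_smul]⟩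
  one_mem' := ⟨1, one_smul _ _, fun c => by simp⟩
  inv_mem' := by
    rintro p ⟨h, hh, e⟩
    refine ⟨h⁻¹, by rw [inv_smul_eq_iff, hh], fun c => ?_⟩
    rw [eq_inv_smul_iff, ← e]
    simp

variable {C α E}

lemma mem_PP {p : Equiv.Perm C} : p ∈ PP C α E ↔ ∃ h : G, h • α = α ∧ ∀ c, E (p c) = h • E c :=
  Iff.rfl

lemma PP_one (hE : ∀ c : C, E c = (c : G) • α) : ∀ p ∈ PP C α E, p 1 = 1 := by
  rintro p ⟨h, hh, e⟩
  apply E.injective
  rw [e, hE 1]
  simp [hh]

lemma PP_two (hE : ∀ c : C, E c = (c : G) • α) :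
    ∀ p ∈ PP C α E, ∀ c, ∃ p' ∈ PP C α E, ∀ x, p' x = (p c)⁻¹ * p (c * x) := by
  rintro p ⟨h, hh, e⟩ c
  let p' : Equiv.Perm C :=
    { toFun := fun x => (p c)⁻¹ * p (c * x)
      invFun := fun y => c⁻¹ * p⁻¹ (p c * y)
      left_inv := fun x => by simp
      right_inv := fun y => by simp }
  refine ⟨p', ⟨((p c : C) : G)⁻¹ * h * (c : G), ?_, fun x => ?_⟩, fun x => rfl⟩
  · have e1 := e c
    rw [hE (p c), hE c] at e1
    rw [mul_smul, mul_smul, ← e1, inv_smul_smul]
  · have e1 := e (c * x)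
    rw [hE (p (c * x)), hE (c * x)] at e1
    rw [hE x]
    change E ((p c)⁻¹ * p (c * x)) = _
    rw [hE, Subgroup.coe_mul, mul_smul, e1]
    simp [mul_smul]

lemma PP_prim (hE : ∀ c : C, E c = (c : G) • α) (hprim : MulAction.IsPreprimitive G Ω)
    (U : Subgroup C) (hU : ∀ p ∈ PP C α E, ∀ u ∈ U, p u ∈ U) : U = ⊥ ∨ U = ⊤ := by
  have hblock : MulAction.IsBlock G (E '' (U : Set C)) := by
    rw [MulAction.isBlock_iff_smul_eq_of_mem]
    rintro g _ ⟨u1, hu1, rfl⟩ hg
    obtain ⟨u2, hu2, e2⟩ := hg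
    -- decomposition g = c * h
    set c : C := E.symm (g • α) with hc
    have hcα : (c : G) • α = g • α := by
      rw [← hE, hc, Equiv.apply_symm_apply]
    set h : G := (c : G)⁻¹ * g with hh
    have hhα : h • α = α := by
      rw [hh, mul_smul, ← hcα, inv_smul_smul]
    let ph : Equiv.Perm C :=
      (E.trans (MulAction.toPerm h)).trans E.symm
    have hph : ∀ x, E (ph x) = h • E x := fun x => by
      simp [ph]
    have hphP : ph ∈ PP C α E := ⟨h, hhα, hph⟩
    have hgE : ∀ x, g • E x = E (c * ph x) := by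
      intro x
      rw [hE (c * ph x), Subgroup.coe_mul, mul_smul, ← hE (ph x), hph, smul_smul, hh,
        mul_inv_cancel_left]
    have hcU : c ∈ U := by
      rw [hgE] at e2
      have e3 := E.injective e2
      have : c = u2 * (ph u1)⁻¹ := by rw [e3]; group
      rw [this]
      exact U.mul_mem hu2 (U.inv_mem (hU ph hphP u1 hu1))
    apply Set.Subset.antisymm
    · rintro _ ⟨_, ⟨x, hx, rfl⟩, rfl⟩
      refine ⟨c * ph x, U.mul_mem hcU (hU ph hphP x hx), ?_⟩
      simp only [hgE]
    · rintro _ ⟨y, hy, rfl⟩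
      refine ⟨E (ph⁻¹ (c⁻¹ * y)), ⟨_, ?_, rfl⟩, ?_⟩
      · exact hU _ ((PP C α E).inv_mem hphP) _ (U.mul_mem (U.inv_mem hcU) hy)
      · change g • E _ = _
        rw [hgE]
        simp
  rcases hprim.isTrivialBlock_of_isBlock hblock with hs | hu
  · left
    rw [Subgroup.eq_bot_iff_forall]
    intro x hx
    exact E.injective (hs ⟨x, hx, rfl⟩ ⟨1, U.one_mem, rfl⟩)
  · right
    rw [Subgroup.eq_top_iff']
    intro x
    have : E x ∈ E '' (U : Set C) := by rw [hu]; trivial
    obtain ⟨y, hy, e⟩ := this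
    rw [← E.injective e]
    exact hy

end Aux
/-- Let G act faithfully and transitively on a finite set whose number of points n ≥ 2 is not a prime power, and suppose G has a cyclic subgroup acting regularly (transitively with trivial point stabilizers). Then G is imprimitive or doubly transitive. -/
theorem result {G Ω : Type*} [Group G] [Finite G] [MulAction G Ω] [FaithfulSMul G Ω] [Finite Ω]
    (htrans : MulAction.IsPretransitive G Ω) (hn : 2 ≤ Nat.card Ω) (hnp : ¬ IsPrimePow (Nat.card Ω))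
    (C : Subgroup G) (hcyc : IsCyclic ↥C) (hC : MulAction.IsPretransitive ↥C Ω ∧ ∀ a : Ω, MulAction.stabilizer ↥C a = ⊥) :
    ¬ MulAction.IsPreprimitive G Ω ∨ MulAction.IsMultiplyPretransitive G Ω 2 := by

  classical
  by_cases hprim : MulAction.IsPreprimitive G Ω
  swap
  · exact Or.inl hprim
  right
  have hne : Nonempty Ω := by
    by_contra h
    rw [not_nonempty_iff] at h
    simp at hn
  obtain ⟨α⟩ := hne
  let f : C → Ω := fun c => (c : G) • α
  have hfbij : Function.Bijective f := by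
    constructor
    · intro c d hcd
      have e : (d⁻¹ * c) ∈ MulAction.stabilizer C α := by
        rw [MulAction.mem_stabilizer_iff, Subgroup.smul_def, Subgroup.coe_mul, mul_smul]
        change (d : G)⁻¹ • f c = α
        rw [hcd]
        simp [f]
      rw [hC.2 α, Subgroup.mem_bot] at e
      have := mul_left_cancel (a := d⁻¹) (b := c) (c := d) (by rw [e]; simp)
      exact this
    · intro x
      have := hC.1
      obtain ⟨c, hc⟩ := MulAction.exists_smul_eq C α x
      exact ⟨c, hc⟩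
  let E : C ≃ Ω := Equiv.ofBijective f hfbij
  have hE : ∀ c : C, E c = (c : G) • α := fun c => rfl
  have hcard : Nat.card C = Nat.card Ω := Nat.card_congr E
  rw [MulAction.is_two_pretransitive_iff]
  intro a b c d hab hcd
  obtain ⟨g1, hg1⟩ := MulAction.exists_smul_eq G a α
  obtain ⟨g2, hg2⟩ := MulAction.exists_smul_eq G c α
  have hE1 : E 1 = α := by simp [hE]
  have hx : E.symm (g1 • b) ≠ 1 := by
    intro h
    rw [Equiv.symm_apply_eq, hE1, ← hg1] at h
    exact hab (MulAction.injective g1 h).symm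
  have hy : E.symm (g2 • d) ≠ 1 := by
    intro h
    rw [Equiv.symm_apply_eq, hE1, ← hg2] at h
    exact hcd (MulAction.injective g2 h).symm
  obtain ⟨p, ⟨h, hh, e⟩, hpe⟩ := Cfsg.Agent.Lib.H1Schur.schur hcyc (PP_one hE) (PP_two hE)
    (PP_prim hE hprim) (by rw [hcard]; exact hnp) (by rw [hcard]; exact hn) _ _ hx hy
  refine ⟨g2⁻¹ * h * g1, ?_, ?_⟩
  · rw [mul_smul, mul_smul, hg1, hh, inv_smul_eq_iff, hg2]
  · have := e (E.symm (g1 • b))
    rw [hpe] at this
    simp only [Equiv.apply_symm_apply] at this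
    rw [mul_smul, mul_smul, ← this, inv_smul_smul]

end Cfsg.Agent.S3559
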