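import Cfsg.Statements.S3560
import Mathlib

set_option autoImplicit false
open Cfsg

namespace Cfsg.Agent.S3560

open Cfsg
open scoped Pointwise

section prim
variable {Y : Type*}

/-- Primitivity from a "distance". -/
lemma prim_of_dist (G : Subgroup (Equiv.Perm Y)) (d : Y → Y → ℕ)
    (hiso : ∀ g ∈ G, ∀ x y, d (g x) (g y) = d x y)
    (htr : ∀ a b : Y, ∃ g ∈ G, g a = b)
    (hF2 : ∀ a b c : Y, d a b = d a c → ∃ g ∈ G, g a = a ∧ g b = c)
    (hF3 : ∀ a b : Y, a ≠ b → ∃ c : Y, d a c = d a b ∧ d b c = 1)
    (hF4 : ∀ B : Set Y, B.Nonempty → (∀ x ∈ B, ∀ y, d x y = 1 → y ∈ B) → B = Set.univ) :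
    MulAction.IsPreprimitive G Y := by
  classical
  haveI htr' : MulAction.IsPretransitive G Y := ⟨fun a b => by
    obtain ⟨g, hg, h⟩ := htr a b
    exact ⟨⟨g, hg⟩, h⟩⟩
  refine { exists_smul_eq := htr'.exists_smul_eq, isTrivialBlock_of_isBlock := ?_ }
  intro B hB
  by_cases hsub : B.Subsingleton
  · exact Or.inl hsub
  right
  rw [Set.not_subsingleton_iff] at hsub
  obtain ⟨a, ha, b, hb, hab⟩ := hsub
  -- block property
  have hblock : ∀ g ∈ G, ∀ x ∈ B, g x ∈ B → ∀ y ∈ B, g y ∈ B := by
    intro g hg x hx hgx y hy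
    have h1 : (⟨g, hg⟩ : G) • B = B := hB.smul_eq_of_mem hx hgx
    rw [← h1]
    exact Set.smul_mem_smul_set hy
  obtain ⟨c, hc1, hc2⟩ := hF3 a b hab
  have hcB : c ∈ B := by
    obtain ⟨g, hg, hg1, hg2⟩ := hF2 a b c hc1.symm
    rw [← hg2]
    exact hblock g hg a ha (by rw [hg1]; exact ha) b hb
  apply hF4 B ⟨a, ha⟩
  intro x hx y hxy
  obtain ⟨h, hh, hhe⟩ := htr b x
  have h1 : h c ∈ B := hblock h hh b hb (by rw [hhe]; exact hx) c hcB
  have h2 : d x (h c) = 1 := by
    rw [← hhe, hiso h hh, hc2]
  obtain ⟨g, hg, hg1, hg2⟩ := hF2 x (h c) y (by rw [h2, hxy])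
  rw [← hg2]
  exact hblock g hg x hx (by rw [hg1]; exact hx) _ h1
end prim

section hamming
variable {ι : Type*} [Fintype ι] [DecidableEq ι] {m : ℕ}

/-- The isometry group of the Hamming scheme. -/
def isoGrp (ι : Type*) [Fintype ι] (m : ℕ) : Subgroup (Equiv.Perm (ι → Fin m)) where
  carrier := {σ | ∀ x y, hammingDist (σ x) (σ y) = hammingDist x y}
  one_mem' := fun x y => rfl
  mul_mem' := fun {a b} ha hb x y => by
    show hammingDist (a (b x)) (a (b y)) = _
    rw [ha, hb]
  inv_mem' := fun {a} ha x y => by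
    have e : ∀ z, a (a⁻¹ z) = z := fun z => by simp
    have := ha (a⁻¹ x) (a⁻¹ y)
    rw [e, e] at this
    exact this.symm

lemma perm2 {Δ : Type*} [DecidableEq Δ] (u v u' v' : Δ) (h : u = v ↔ u' = v') :
    ∃ σ : Equiv.Perm Δ, σ u = u' ∧ σ v = v' := by
  by_cases huv : u = v
  · have hu' := h.mp huv
    refine ⟨Equiv.swap u u', by simp, ?_⟩
    rw [← huv, ← hu']; simp
  · have hu' : u' ≠ v' := fun e => huv (h.mpr e)
    set w := Equiv.swap u u' v with hw
    have hwu : w ≠ u' := by
      intro e
      have : Equiv.swap u u' w = Equiv.swap u u' u' := by rw [e]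
      rw [hw, Equiv.swap_apply_self, Equiv.swap_apply_right] at this
      exact huv this.symm
    refine ⟨Equiv.swap w v' * Equiv.swap u u', ?_, ?_⟩
    · simp only [Equiv.Perm.mul_apply, Equiv.swap_apply_left]
      exact Equiv.swap_apply_of_ne_of_ne hwu.symm hu'
    · simp only [Equiv.Perm.mul_apply]
      rw [← hw, Equiv.swap_apply_left]

lemma hamming_perCoord (α : ι → Equiv.Perm (Fin m)) (x y : ι → Fin m) :
    hammingDist (fun i => α i (x i)) (fun i => α i (y i)) = hammingDist x y := by
  unfold hammingDist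
  congr 1
  ext i
  simp

/-- Two-point transitivity. -/
lemma iso_F2 (a b c : ι → Fin m) (h : hammingDist a b = hammingDist a c) :
    ∃ g ∈ isoGrp ι m, g a = a ∧ g b = c := by
  classical
  set S := Finset.univ.filter (fun i => a i ≠ b i) with hS
  set S' := Finset.univ.filter (fun i => a i ≠ c i) with hS'
  have hcard : S.card = S'.card := h
  let e₀ : {i // i ∈ S} ≃ {i // i ∈ S'} := Finset.equivOfCardEq hcard
  let π : Equiv.Perm ι := e₀.extendSubtype
  have hπ : ∀ i, i ∈ S ↔ π i ∈ S' := by
    intro i
    constructor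
    · exact fun hi => e₀.extendSubtype_mem i hi
    · intro hi
      by_contra hn
      exact e₀.extendSubtype_not_mem i hn hi
  -- the coordinate permutation
  let τ : Equiv.Perm (ι → Fin m) :=
    { toFun := fun x i => x (π.symm i)
      invFun := fun x i => x (π i)
      left_inv := fun x => by ext i; simp
      right_inv := fun x => by ext i; simp }
  have hτ : τ ∈ isoGrp ι m := by
    intro x y
    show hammingDist (fun i => x (π.symm i)) (fun i => y (π.symm i)) = _
    unfold hammingDist
    apply Finset.card_bij (fun i _ => π.symm i)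
    · intro i hi
      simpa using hi
    · intro i _ j _ hij
      exact π.symm.injective hij
    · intro j hj
      exact ⟨π j, by simpa using hj, by simp⟩
  have hα : ∀ i, ∃ σ : Equiv.Perm (Fin m), σ (a (π.symm i)) = a i ∧ σ (b (π.symm i)) = c i := by
    intro i
    apply perm2
    constructor
    · intro e
      have h1 : π.symm i ∉ S := by simp [hS, e]
      rw [hπ] at h1
      simp only [Equiv.apply_symm_apply] at h1
      by_contra hn
      exact h1 (by simp [hS', hn])
    · intro e
      have h1 : i ∉ S' := by simp [hS', e]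
      by_contra hn
      have h2 : π.symm i ∈ S := by simp [hS, hn]
      rw [hπ] at h2
      simp only [Equiv.apply_symm_apply] at h2
      exact h1 h2
  choose α hα1 hα2 using hα
  let ρ : Equiv.Perm (ι → Fin m) := Equiv.piCongrRight α
  have hρ : ρ ∈ isoGrp ι m := by
    intro x y
    exact hamming_perCoord α x y
  refine ⟨ρ * τ, (isoGrp ι m).mul_mem hρ hτ, ?_, ?_⟩
  · ext i
    show (α i (a (π.symm i)) : ℕ) = _
    rw [hα1]
  · ext i
    show (α i (b (π.symm i)) : ℕ) = _
    rw [hα2]

lemma iso_F3 (hm : 3 ≤ m) (a b : ι → Fin m) (hab : a ≠ b) :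
    ∃ c : ι → Fin m, hammingDist a c = hammingDist a b ∧ hammingDist b c = 1 := by
  classical
  obtain ⟨i, hi⟩ := Function.ne_iff.mp hab
  obtain ⟨w, hw1, hw2⟩ : ∃ w : Fin m, w ≠ a i ∧ w ≠ b i := by
    by_contra hcon
    push Not at hcon
    have hsub : (Finset.univ : Finset (Fin m)) ⊆ {a i, b i} := by
      intro w _
      by_cases h : w = a i
      · simp [h]
      · simp [hcon w h]
    have h1 := Finset.card_le_card hsub
    have h2 : ({a i, b i} : Finset (Fin m)).card ≤ 2 := Finset.card_le_two
    simp only [Finset.card_univ, Fintype.card_fin] at h1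
    omega
  refine ⟨Function.update b i w, ?_, ?_⟩
  · unfold hammingDist
    congr 1
    ext j
    by_cases hj : j = i
    · subst hj
      simp [hi, hw1.symm]
    · simp [hj]
  · have : hammingDist b (Function.update b i w) = ({i} : Finset ι).card := by
      unfold hammingDist
      congr 1
      ext j
      by_cases hj : j = i
      · subst hj
        simp [hw2.symm]
      · simp [hj]
    rw [this, Finset.card_singleton]

lemma iso_F4 (B : Set (ι → Fin m)) (hB : B.Nonempty) (hcl : ∀ x ∈ B, ∀ y, hammingDist x y = 1 → y ∈ B) :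
    B = Set.univ := by
  classical
  obtain ⟨x₀, hx₀⟩ := hB
  have key : ∀ (n : ℕ) (x y : ι → Fin m), x ∈ B → hammingDist x y = n → y ∈ B := by
    intro n
    induction n with
    | zero =>
      intro x y hx h
      rw [hammingDist_eq_zero] at h
      rwa [← h]
    | succ n ih =>
      intro x y hx h
      have hne : x ≠ y := by
        intro e
        rw [e, hammingDist_self] at h
        omega
      obtain ⟨i, hi⟩ := Function.ne_iff.mp hne
      have h1 : hammingDist x (Function.update x i (y i)) = 1 := by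
        have : hammingDist x (Function.update x i (y i)) = ({i} : Finset ι).card := by
          unfold hammingDist
          congr 1
          ext j
          by_cases hj : j = i
          · subst hj
            simp [hi]
          · simp [hj]
        rw [this, Finset.card_singleton]
      have h2 : hammingDist (Function.update x i (y i)) y = n := by
        have e1 : (Finset.univ.filter (fun j => x j ≠ y j)) = insert i (Finset.univ.filter (fun j => Function.update x i (y i) j ≠ y j)) := by
          ext j
          by_cases hj : j = i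
          · subst hj
            simp [hi]
          · simp [hj]
        have e2 : i ∉ (Finset.univ.filter (fun j => Function.update x i (y i) j ≠ y j)) := by simp
        have e3 : hammingDist x y = (Finset.univ.filter (fun j => x j ≠ y j)).card := rfl
        rw [e3, e1, Finset.card_insert_of_notMem e2] at h
        have e4 : hammingDist (Function.update x i (y i)) y = (Finset.univ.filter (fun j => Function.update x i (y i) j ≠ y j)).card := rfl
        rw [e4]
        omega
      exact ih _ y (hcl x hx _ h1) h2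
  ext y
  simp only [Set.mem_univ, iff_true]
  exact key _ x₀ y hx₀ rfl
end hamming

/-- Let K be a finite group isomorphic to a direct product of r ≥ 2 groups all of the same order m ≥ 3. Then K is not a B-group: there is a primitive but not doubly transitive permutation group (on some finite set) containing a regular subgroup isomorphic to K. -/
theorem result {K : Type*} [Group K] [Finite K] {ι : Type*} [Fintype ι] (F : ι → Type*) [∀ i, Group (F i)]
    (hr : 2 ≤ Fintype.card ι) (m : ℕ) (hm : 3 ≤ m) (hcard : ∀ i, Nat.card (F i) = m) (e : K ≃* (∀ i, F i)) :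
    ∃ (n : ℕ) (G R : Subgroup (Equiv.Perm (Fin n))), R ≤ G ∧ Nonempty (↥R ≃* K) ∧
      MulAction.IsPretransitive ↥R (Fin n) ∧ (∀ a : Fin n, MulAction.stabilizer ↥R a = ⊥) ∧
      MulAction.IsPreprimitive ↥G (Fin n) ∧ ¬ MulAction.IsMultiplyPretransitive ↥G (Fin n) 2 := by
  classical
  haveI hfin : ∀ i, Finite (F i) := fun i => Nat.finite_of_card_ne_zero (by rw [hcard i]; omega)
  let X := ι → Fin m
  let n := Fintype.card X
  let ε : X ≃ Fin n := Fintype.equivFin X
  let Ψ : Equiv.Perm X ≃* Equiv.Perm (Fin n) := ε.permCongrHom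
  have hΨ : ∀ (σ : Equiv.Perm X) (y : Fin n), Ψ σ y = ε (σ (ε.symm y)) := fun σ y => rfl
  let ei : ∀ i, F i ≃ Fin m := fun i => Finite.equivFinOfCardEq (hcard i)
  let E : X ≃ ∀ i, F i := Equiv.piCongrRight (fun i => (ei i).symm)
  have hE : ∀ (x : X) i, E x i = (ei i).symm (x i) := fun x i => rfl
  have hEs : ∀ (z : ∀ i, F i) i, E.symm z i = ei i (z i) := fun z i => rfl
  let φ : K →* Equiv.Perm X :=
    (E.symm.permCongrHom.toMonoidHom).comp ((MulAction.toPermHom (∀ i, F i) (∀ i, F i)).comp e.toMonoidHom)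
  have hφ : ∀ (k : K) (x : X), φ k x = E.symm (e k * E x) := fun k x => rfl
  have hφiso : ∀ k, φ k ∈ isoGrp ι m := by
    intro k x y
    unfold hammingDist
    congr 1
    ext i
    simp only [Finset.mem_filter, Finset.mem_univ, true_and, hφ, hEs, Pi.mul_apply, hE, ne_eq,
      EmbeddingLike.apply_eq_iff_eq, mul_right_inj]
  have hφinj : Function.Injective φ := by
    rw [injective_iff_map_eq_one]
    intro k hk
    have h1 : φ k (E.symm 1) = E.symm 1 := by rw [hk]; rfl
    rw [hφ, Equiv.apply_symm_apply] at h1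
    have h2 : e k * 1 = 1 := E.symm.injective h1
    rw [mul_one] at h2
    exact e.map_eq_one_iff.mp h2
  have hφtr : ∀ x y : X, ∃ k, φ k x = y := by
    intro x y
    refine ⟨e.symm (E y * (E x)⁻¹), ?_⟩
    rw [hφ, MulEquiv.apply_symm_apply, inv_mul_cancel_right, Equiv.symm_apply_apply]
  let G : Subgroup (Equiv.Perm (Fin n)) := (isoGrp ι m).map Ψ.toMonoidHom
  let R : Subgroup (Equiv.Perm (Fin n)) := φ.range.map Ψ.toMonoidHom
  have hRG : R ≤ G := by
    apply Subgroup.map_mono
    rintro _ ⟨k, rfl⟩
    exact hφiso k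
  let d : Fin n → Fin n → ℕ := fun a b => hammingDist (ε.symm a) (ε.symm b)
  have hd : ∀ (τ : Equiv.Perm X) (a : Fin n), ε.symm (Ψ τ a) = τ (ε.symm a) := by
    intro τ a
    rw [hΨ, Equiv.symm_apply_apply]
  have hiso : ∀ g ∈ G, ∀ x y, d (g x) (g y) = d x y := by
    rintro _ ⟨τ, hτ, rfl⟩ x y
    show hammingDist (ε.symm (Ψ τ x)) (ε.symm (Ψ τ y)) = _
    rw [hd, hd]
    exact hτ _ _
  have htr : ∀ a b : Fin n, ∃ g ∈ G, g a = b := by
    intro a b
    obtain ⟨k, hk⟩ := hφtr (ε.symm a) (ε.symm b)
    refine ⟨Ψ (φ k), ⟨φ k, hφiso k, rfl⟩, ?_⟩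
    rw [hΨ, hk, Equiv.apply_symm_apply]
  refine ⟨n, G, R, hRG, ?_, ?_, ?_, ?_, ?_⟩
  · exact ⟨((MonoidHom.ofInjective hφinj).trans (Ψ.subgroupMap φ.range)).symm⟩
  · refine ⟨fun a b => ?_⟩
    obtain ⟨k, hk⟩ := hφtr (ε.symm a) (ε.symm b)
    refine ⟨⟨Ψ (φ k), ⟨φ k, ⟨k, rfl⟩, rfl⟩⟩, ?_⟩
    show Ψ (φ k) a = b
    rw [hΨ, hk, Equiv.apply_symm_apply]
  · intro a
    rw [eq_bot_iff]
    rintro ⟨_, ⟨_, ⟨k, rfl⟩, rfl⟩⟩ hr
    rw [MulAction.mem_stabilizer_iff] at hr
    have hr' : Ψ (φ k) a = a := hr
    rw [hΨ] at hr'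
    have h1 : φ k (ε.symm a) = ε.symm a := by
      have := congrArg ε.symm hr'
      simpa using this
    rw [hφ] at h1
    have h2 : E (E.symm (e k * E (ε.symm a))) = E (ε.symm a) := by rw [h1]
    rw [Equiv.apply_symm_apply] at h2
    have h3 : e k = 1 := mul_eq_right.mp h2
    have h4 : k = 1 := e.map_eq_one_iff.mp h3
    rw [Subgroup.mem_bot]
    apply Subtype.ext
    show Ψ (φ k) = 1
    rw [h4]
    simp
  · apply prim_of_dist G d hiso htr
    · intro a b c hab
      obtain ⟨g, hg, h1, h2⟩ := iso_F2 (ε.symm a) (ε.symm b) (ε.symm c) hab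
      refine ⟨Ψ g, ⟨g, hg, rfl⟩, ?_, ?_⟩
      · rw [hΨ, h1, Equiv.apply_symm_apply]
      · rw [hΨ, h2, Equiv.apply_symm_apply]
    · intro a b hab
      obtain ⟨c, h1, h2⟩ := iso_F3 hm (ε.symm a) (ε.symm b) (fun h => hab (ε.symm.injective h))
      refine ⟨ε c, ?_, ?_⟩
      · show hammingDist (ε.symm a) (ε.symm (ε c)) = _
        rw [Equiv.symm_apply_apply]; exact h1
      · show hammingDist (ε.symm b) (ε.symm (ε c)) = _
        rw [Equiv.symm_apply_apply]; exact h2
    · intro B hB hcl
      have h1 := iso_F4 (ι := ι) (m := m) (ε ⁻¹' B) (by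
        obtain ⟨a, ha⟩ := hB
        exact ⟨ε.symm a, by simpa using ha⟩) (by
        intro x hx y hxy
        apply hcl (ε x) hx (ε y)
        show hammingDist (ε.symm (ε x)) (ε.symm (ε y)) = 1
        rw [Equiv.symm_apply_apply, Equiv.symm_apply_apply]
        exact hxy)
      ext a
      simp only [Set.mem_univ, iff_true]
      have h2 : ε.symm a ∈ ε ⁻¹' B := by rw [h1]; trivial
      simpa using h2
  · -- not 2-transitive
    intro h2t
    rw [MulAction.is_two_pretransitive_iff] at h2t
    obtain ⟨i₁, i₂, hi⟩ := Fintype.exists_pair_of_one_lt_card (by omega : 1 < Fintype.card ι)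
    haveI : NeZero m := ⟨by omega⟩
    let w₀ : Fin m := ⟨0, by omega⟩
    let w₁ : Fin m := ⟨1, by omega⟩
    have hw : w₀ ≠ w₁ := by simp [w₀, w₁, Fin.ext_iff]
    let x : X := fun _ => w₀
    let y : X := Function.update x i₁ w₁
    let z : X := Function.update y i₂ w₁
    have hxy : hammingDist x y = 1 := by
      have : hammingDist x y = ({i₁} : Finset ι).card := by
        unfold hammingDist
        congr 1
        ext j
        by_cases hj : j = i₁
        · subst hj
          simp [x, y, hw]
        · simp [x, y, hj]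
      rw [this, Finset.card_singleton]
    have hxz : hammingDist x z = 2 := by
      have : hammingDist x z = ({i₁, i₂} : Finset ι).card := by
        unfold hammingDist
        congr 1
        ext j
        by_cases hj : j = i₂
        · subst hj
          simp [x, y, z, hw]
        · by_cases hj' : j = i₁
          · subst hj'
            simp [x, y, z, hw, hj]
          · simp [x, y, z, hj, hj']
      rw [this, Finset.card_pair hi]
    have hxy' : ε x ≠ ε y := by
      intro e'
      have := ε.injective e'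
      rw [this, hammingDist_self] at hxy
      omega
    have hxz' : ε x ≠ ε z := by
      intro e'
      have := ε.injective e'
      rw [this, hammingDist_self] at hxz
      omega
    obtain ⟨g, hg1, hg2⟩ := h2t hxy' hxz'
    have h3 := hiso g.1 g.2 (ε x) (ε y)
    have hg1' : g.1 (ε x) = ε x := hg1
    have hg2' : g.1 (ε y) = ε z := hg2
    rw [hg1', hg2'] at h3
    have h4 : hammingDist x z = hammingDist x y := by
      have := h3
      simp only [d, Equiv.symm_apply_apply] at this
      exact this
    omega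

end Cfsg.Agent.S3560
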