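import Cfsg.Statements.S3619

set_option autoImplicit false
open Cfsg

namespace Cfsg.Agent.S3619

section
open scoped Pointwise

/-- A quasiprimitive group with a Jordan set on which the pointwise stabilizer of the complement is primitive is primitive. -/
theorem prim_of_jordan {G Ω : Type*} [Group G] [MulAction G Ω]
    (hqp : ∀ N : Subgroup G, N.Normal → N ≠ ⊥ → MulAction.IsPretransitive ↥N Ω)
    (Γ : Set Ω) (hJp : MulAction.IsPreprimitive ↥(fixingSubgroup G Γᶜ) ↥(SubMulAction.ofFixingSubgroup G Γᶜ))
    (k₀ : G) (hk₀ : ∀ z ∉ Γ, k₀ • z = z) (hk₀1 : k₀ ≠ 1) (htrans : MulAction.IsPretransitive G Ω) :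
    MulAction.IsPreprimitive G Ω := by
  refine { toIsPretransitive := htrans, isTrivialBlock_of_isBlock := ?_ }
  intro B hB
  by_contra hB'
  rw [MulAction.IsTrivialBlock, not_or] at hB'
  obtain ⟨hB1, hB2⟩ := hB'
  -- the kernel of the action on the translates of `B`
  have key : ∀ C : Set Ω, MulAction.IsBlock G C → ¬ C.Subsingleton → ∀ k : G, (∀ z ∉ Γ, k • z = z) → k • C = C := by
    intro C hC hCs k hk
    by_cases hCΓ : C ⊆ Γ
    · -- a block of the action on `Γ`
      let C' : Set (SubMulAction.ofFixingSubgroup G Γᶜ) := Subtype.val ⁻¹' C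
      have hC' : MulAction.IsBlock (fixingSubgroup G Γᶜ) C' := by
        have h1 : MulAction.IsBlock (fixingSubgroup G Γᶜ) C := hC.subgroup
        exact h1.subtype_val_preimage
      have hmemC : ∀ a ∈ C, a ∈ SubMulAction.ofFixingSubgroup G Γᶜ := by
        intro a ha
        rw [SubMulAction.mem_ofFixingSubgroup_iff]
        simpa using hCΓ ha
      rcases hJp.isTrivialBlock_of_isBlock hC' with h | h
      · exfalso
        apply hCs
        intro a ha b hb
        have := h (show (⟨a, hmemC a ha⟩ : SubMulAction.ofFixingSubgroup G Γᶜ) ∈ C' from ha) (show (⟨b, hmemC b hb⟩ : SubMulAction.ofFixingSubgroup G Γᶜ) ∈ C' from hb)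
        exact congrArg Subtype.val this
      · have hCeq : C = Γ := by
          apply Set.Subset.antisymm hCΓ
          intro a ha
          have ha' : a ∈ SubMulAction.ofFixingSubgroup G Γᶜ := by
            rw [SubMulAction.mem_ofFixingSubgroup_iff]
            simpa using ha
          have : (⟨a, ha'⟩ : SubMulAction.ofFixingSubgroup G Γᶜ) ∈ C' := by
            rw [h]
            trivial
          exact this
        rw [hCeq]
        -- `k` preserves `Γ`
        have hpres : ∀ a, k • a ∈ Γ ↔ a ∈ Γ := by
          intro a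
          constructor
          · intro h1
            by_contra h2
            rw [hk a h2] at h1
            exact h2 h1
          · intro h1
            by_contra h2
            have h3 := hk _ h2
            have h4 : k • a = a := smul_left_cancel k h3
            rw [h4] at h2
            exact h2 h1
        ext a
        rw [Set.mem_smul_set_iff_inv_smul_mem]
        constructor
        · intro h1
          have := (hpres (k⁻¹ • a)).mpr h1
          rwa [smul_inv_smul] at this
        · intro h1
          apply (hpres _).mp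
          rwa [smul_inv_smul]
    · obtain ⟨z, hzC, hzΓ⟩ := Set.not_subset.mp hCΓ
      have := (MulAction.isBlock_iff_smul_eq_of_nonempty.mp hC) (g := k) (by
        refine ⟨z, ?_, hzC⟩
        rw [Set.mem_smul_set]
        exact ⟨z, hzC, hk z hzΓ⟩)
      exact this
  -- every translate of `B` is fixed by `k₀`
  have hN : ∀ g : G, g * k₀ * g⁻¹ ∈ MulAction.stabilizer G B := by
    intro g
    rw [MulAction.mem_stabilizer_iff]
    have hC := hB.translate g⁻¹
    have hCs : ¬ (g⁻¹ • B).Subsingleton := by
      intro h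
      apply hB1
      intro a ha b hb
      have h1 := h (Set.smul_mem_smul_set ha) (Set.smul_mem_smul_set hb)
      exact smul_left_cancel _ h1
    have h2 := key _ hC hCs k₀ hk₀
    have h3 : (g * k₀ * g⁻¹) • B = g • (k₀ • (g⁻¹ • B)) := by
      rw [mul_smul, mul_smul]
    rw [h3, h2, smul_inv_smul]
  let N := (MulAction.stabilizer G B).normalCore
  have hk₀N : k₀ ∈ N := hN
  have hNne : N ≠ ⊥ := by
    intro h
    rw [h, Subgroup.mem_bot] at hk₀N
    exact hk₀1 hk₀N
  have hNt := hqp N inferInstance hNne
  -- `B` is a proper nonempty subset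
  have hBne : B.Nonempty := by
    by_contra h
    apply hB1
    rw [Set.not_nonempty_iff_eq_empty] at h
    rw [h]
    exact Set.subsingleton_empty
  obtain ⟨a, ha⟩ := hBne
  obtain ⟨b, hb⟩ : ∃ b, b ∉ B := by
    by_contra h
    push Not at h
    exact hB2 (Set.eq_univ_of_forall h)
  obtain ⟨n, hn⟩ := hNt.exists_smul_eq a b
  have hnB : (n : G) ∈ MulAction.stabilizer G B := Subgroup.normalCore_le _ n.2
  rw [MulAction.mem_stabilizer_iff] at hnB
  apply hb
  rw [← hn, ← hnB]
  exact Set.smul_mem_smul_set ha

end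
/-- Let G act faithfully on a finite set in such a way that every non-trivial normal subgroup of G is transitive (G is quasiprimitive). Let Γ be a subset with more than one point and not the whole set, such that the pointwise stabilizer of the complement of Γ acts transitively on Γ (a Jordan set). If that pointwise stabilizer acts primitively on Γ, then G is k-fold transitive where k is one more than the number of points outside Γ (the Jordan set is a trivial one). -/
theorem result {G Ω : Type*} [Group G] [Finite G] [MulAction G Ω] [FaithfulSMul G Ω] [Finite Ω]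
    (hqp : ∀ N : Subgroup G, N.Normal → N ≠ ⊥ → MulAction.IsPretransitive ↥N Ω)
    (Γ : Set Ω) (hΓ1 : 1 < Γ.ncard) (hΓ2 : Γ.ncard < Nat.card Ω)
    (hJ : MulAction.IsPretransitive ↥(fixingSubgroup G Γᶜ) ↥(SubMulAction.ofFixingSubgroup G Γᶜ))
    (hJp : MulAction.IsPreprimitive ↥(fixingSubgroup G Γᶜ) ↥(SubMulAction.ofFixingSubgroup G Γᶜ)) :
    MulAction.IsMultiplyPretransitive G Ω (Nat.card Ω - Γ.ncard + 1) := by

  classical
  have hcompl : (Γᶜ).ncard + Γ.ncard = Nat.card Ω := by
    rw [add_comm]
    exact Set.ncard_add_ncard_compl Γ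
  -- two points of `Γ`
  obtain ⟨x, y, hx, hy, hxy⟩ := (Set.one_lt_ncard_iff (Set.toFinite Γ)).mp hΓ1
  have hJ' : ∀ u ∈ Γ, ∀ v ∈ Γ, ∃ g : G, (∀ z ∉ Γ, g • z = z) ∧ g • u = v := by
    intro u hu v hv
    have hu' : u ∈ SubMulAction.ofFixingSubgroup G Γᶜ := by
      rw [SubMulAction.mem_ofFixingSubgroup_iff]
      simpa using hu
    have hv' : v ∈ SubMulAction.ofFixingSubgroup G Γᶜ := by
      rw [SubMulAction.mem_ofFixingSubgroup_iff]
      simpa using hv
    obtain ⟨k, hk⟩ := MulAction.exists_smul_eq (fixingSubgroup G Γᶜ) (⟨u, hu'⟩ : SubMulAction.ofFixingSubgroup G Γᶜ) ⟨v, hv'⟩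
    refine ⟨k, ?_, congrArg Subtype.val hk⟩
    intro z hz
    exact (mem_fixingSubgroup_iff G).mp k.2 z (by simpa using hz)
  obtain ⟨k₀, hk₀, hk₀xy⟩ := hJ' x hx y hy
  have hk₀1 : k₀ ≠ 1 := by
    rintro rfl
    rw [one_smul] at hk₀xy
    exact hxy hk₀xy
  haveI : Nontrivial G := ⟨⟨k₀, 1, hk₀1⟩⟩
  have htrans : MulAction.IsPretransitive G Ω := by
    have h1 := hqp ⊤ inferInstance top_ne_bot
    constructor
    intro a b
    obtain ⟨g, hg⟩ := h1.exists_smul_eq a b
    exact ⟨g, hg⟩
  have hprim : MulAction.IsPreprimitive G Ω := prim_of_jordan hqp Γ hJp k₀ hk₀ hk₀1 htrans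
  obtain ⟨m, hm⟩ : ∃ m, (Γᶜ).ncard = m + 1 := by
    have : 0 < (Γᶜ).ncard := by omega
    exact ⟨(Γᶜ).ncard - 1, by omega⟩
  have h1 := hprim.isMultiplyPreprimitive hm (by omega) hJp
  have h2 : Nat.card Ω - Γ.ncard + 1 = m + 2 := by omega
  rw [h2]
  exact h1.isMultiplyPretransitive

end Cfsg.Agent.S3619
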