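import Cfsg.Statements.S3660
import Cfsg.Agent.Lib.H1Spec2

set_option autoImplicit false
open Cfsg

namespace Cfsg.Agent.S3660

/-- The prime graph of a finite group has the prime divisors of its order as vertices, two distinct primes p, q being joined when the group has an element of order pq; two groups have the same prime graph when they have the same prime divisors and the same joined pairs. Let F be a finite field of characteristic 2 with at least 4 elements. Then there are finite groups of arbitrarily large order with the same prime graph as PSL(2,F); in particular PSL(2,F) is not determined by its prime graph. -/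
theorem result {F : Type*} [Field F] [Fintype F] [CharP F 2] (hF : 4 ≤ Fintype.card F) (N : ℕ) :
    ∃ (H : Type) (_ : Group H) (_ : Finite H), N < Nat.card H ∧
      ((∀ p : ℕ, p.Prime → (p ∣ Nat.card (Matrix.ProjectiveSpecialLinearGroup (Fin 2) F) ↔ p ∣ Nat.card H)) ∧
      (∀ p q : ℕ, p.Prime → q.Prime → p ≠ q → ((∃ g : (Matrix.ProjectiveSpecialLinearGroup (Fin 2) F), orderOf g = p * q) ↔ (∃ g : H, orderOf g = p * q)))) := by
  classical
  have h2 : (2 : F) = 0 := CharTwo.two_eq_zero
  -- `PSL₂(F) ≃ SL₂(F)` in characteristic two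
  have hinj : Function.Injective (Cfsg.Agent.Lib.H1PSL2.pi (F := F)) := by
    rw [injective_iff_map_eq_one]
    intro g hg
    rw [Cfsg.Agent.Lib.H1PSL2.pi_eq_one_iff, Cfsg.Agent.Lib.H1PSL2.mone_eq_one_of_two h2, or_self] at hg
    exact hg
  let e : Cfsg.Agent.Lib.H1GL2.SL2 F ≃* Matrix.ProjectiveSpecialLinearGroup (Fin 2) F :=
    MulEquiv.ofBijective (Cfsg.Agent.Lib.H1PSL2.pi (F := F)) ⟨hinj, Cfsg.Agent.Lib.H1PSL2.pi_surj⟩
  obtain ⟨H, i1, i2, hN, hp, hpq⟩ := Cfsg.Agent.Lib.H1Spec2.exists_large h2 N
  refine ⟨H, i1, i2, hN, ?_, ?_⟩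
  · intro p hpp
    rw [← Nat.card_congr e.toEquiv]
    exact hp p hpp
  · intro p q hpp hq hne
    rw [← hpq p q hpp hq hne]
    constructor
    · rintro ⟨g, hg⟩
      refine ⟨e.symm g, ?_⟩
      rw [MulEquiv.orderOf_eq, hg]
    · rintro ⟨g, hg⟩
      refine ⟨e g, ?_⟩
      rw [MulEquiv.orderOf_eq, hg]

end Cfsg.Agent.S3660
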