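import Cfsg.Statements.S3669
import Cfsg.Agent.S0494
import Cfsg.Agent.Lib.BlockOku
import Cfsg.Agent.Lib.BlockNorm
import Cfsg.Agent.Lib.H4Cod
import Cfsg.Agent.Lib.CharClifford
import Cfsg.Agent.Lib.H1Small3

set_option autoImplicit false
open Cfsg

namespace Cfsg.Agent.S3669

open Cfsg.Agent.Lib

abbrev A5 := alternatingGroup (Fin 5)

set_option maxRecDepth 100000 in
theorem a5_comm : Fintype.card {p : A5 × A5 // p.1 * p.2 = p.2 * p.1} = 300 := by
  decide +kernel

set_option maxRecDepth 100000 in
theorem a5_not_comm : ¬ ∀ a b : A5, a * b = b * a := by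
  decide +kernel

theorem a5_card : Nat.card A5 = 60 := by
  have := two_mul_nat_card_alternatingGroup (α := Fin 5)
  simp [Nat.card_eq_fintype_card, Fintype.card_perm, Nat.factorial] at this ⊢
  omega

theorem a5_classes : Nat.card (ConjClasses A5) = 5 := by
  have h := card_comm_eq_card_conjClasses_mul_card A5
  have h2 : Nat.card {p : A5 × A5 // Commute p.1 p.2} = 300 := by
    rw [Nat.card_congr (Equiv.subtypeEquivRight (fun p : A5 × A5 => commute_iff_eq p.1 p.2)),
      Nat.card_eq_fintype_card]
    convert a5_comm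
  rw [h2, a5_card] at h
  omega

theorem a5_commutator : (commutator A5).index = 1 := by
  haveI := alternatingGroup.isSimpleGroup_five
  have h1 : (commutator A5).Normal := inferInstance
  rcases h1.eq_bot_or_eq_top with h | h
  · exfalso
    apply a5_not_comm
    intro a b
    have h2 := (_root_.commutator_eq_bot_iff_center_eq_top A5).mp h
    have h3 : a ∈ Subgroup.center A5 := by rw [h2]; trivial
    exact (Subgroup.mem_center_iff.mp h3 b).symm
  · rw [h, Subgroup.index_top]

theorem key_a5 : ∀ a ∈ [1, 2, 3, 4, 6], ∀ b ∈ [1, 2, 3, 4, 6], ∀ c ∈ [1, 2, 3, 4, 6],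
    ∀ d ∈ [1, 2, 3, 4, 6], ∀ e ∈ [1, 2, 3, 4, 6],
    a ^ 2 + b ^ 2 + c ^ 2 + d ^ 2 + e ^ 2 = 60 →
    (if a = 1 then 1 else 0) + (if b = 1 then 1 else 0) + (if c = 1 then 1 else 0)
      + (if d = 1 then 1 else 0) + (if e = 1 then 1 else 0) ≠ 1 := by
  decide +kernel

theorem five_mem : (5 : ℕ) ∈ degreePrimes A5 := by
  classical
  by_contra hn
  have hd : ∀ χ : IrrCharacter A5, charDegree χ.1 ∈ [1, 2, 3, 4, 6] := by
    intro χ
    have h1 := BlockNorm.charDegree_dvd_card χ
    have h2 := H4Cod.degree_sq_le χ
    have h3 : ¬ 5 ∣ charDegree χ.1 := fun h => hn ⟨by norm_num, _, ⟨χ, rfl⟩, h⟩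
    have h4 := BlockOku.charDegree_ne_zero' χ
    rw [a5_card] at h1 h2
    generalize charDegree χ.1 = d at *
    have h5 : d ≤ 7 := by nlinarith
    interval_cases d <;> simp_all <;> omega
  have hcard : Nat.card (IrrCharacter A5) = 5 := CharOrth.card_irr.trans a5_classes
  haveI : Fintype (IrrCharacter A5) := Fintype.ofFinite _
  have hcard' : Fintype.card (IrrCharacter A5) = Fintype.card (Fin 5) := by
    rw [← Nat.card_eq_fintype_card, hcard]; simp
  let e : Fin 5 ≃ IrrCharacter A5 := (Fintype.equivOfCardEq hcard').symm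
  let f : Fin 5 → ℕ := fun i => charDegree (e i).1
  have hs : f 0 ^ 2 + f 1 ^ 2 + f 2 ^ 2 + f 3 ^ 2 + f 4 ^ 2 = 60 := by
    have h1 := CharLin.sum_degree_sq (G := A5)
    have h2 : ∑ χ : IrrCharacter A5, (charDegree χ.1 : ℂ) ^ 2 = ((60 : ℕ) : ℂ) := by
      rw [← a5_card, ← h1]
      apply Finset.sum_congr (by ext; simp)
      intro χ _
      rw [BlockOku.val_one_eq_charDegree]
    rw [← Equiv.sum_comp e, Fin.sum_univ_five] at h2
    exact_mod_cast h2
  have hl : (if f 0 = 1 then 1 else 0) + (if f 1 = 1 then 1 else 0) + (if f 2 = 1 then 1 else 0)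
      + (if f 3 = 1 then 1 else 0) + (if f 4 = 1 then 1 else 0) = 1 := by
    have h1 := CharLin.card_linear (G := A5)
    rw [a5_commutator, Nat.card_eq_fintype_card, Fintype.card_subtype, Finset.card_filter,
      ← Equiv.sum_comp e, Fin.sum_univ_five] at h1
    simp only [BlockOku.val_one_eq_charDegree, Nat.cast_eq_one] at h1
    exact h1
  exact key_a5 _ (hd _) _ (hd _) _ (hd _) _ (hd _) _ (hd _) hs hl

section
variable {G : Type*} [Group G] [Finite G]

theorem sylow15 {K : Type*} [Group K] [Finite K] (h : Nat.card K = 15) :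
    ∃ R : Subgroup K, Nat.card R = 5 ∧ R.Normal := by
  haveI : Fact (Nat.Prime 5) := ⟨by norm_num⟩
  obtain ⟨P⟩ : Nonempty (Sylow 5 K) := inferInstance
  obtain ⟨h1, h2, h3, h4⟩ := H1Small.sylow_data 1 3 (by simpa using h) (by norm_num) P
  have h5 : Nat.card (Sylow 5 K) = 1 := by
    have := Nat.le_of_dvd (by norm_num) h2
    generalize Nat.card (Sylow 5 K) = n at *
    interval_cases n <;> omega
  haveI : Subsingleton (Sylow 5 K) := (Nat.card_eq_one_iff_unique.mp h5).1
  exact ⟨P, by simpa using h1, Sylow.normal_of_subsingleton P⟩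

theorem index2 {H : Type*} [Group H] [Finite H] (h : Nat.card H = 30) :
    ∃ K : Subgroup H, Nat.card K = 15 := by
  classical
  haveI : Fintype H := Fintype.ofFinite H
  haveI : Fact (Nat.Prime 2) := ⟨by norm_num⟩
  obtain ⟨t, ht⟩ := exists_prime_orderOf_dvd_card' 2 (by rw [h]; norm_num : 2 ∣ Nat.card H)
  let φ : H →* ℤˣ := Equiv.Perm.sign.comp (MulAction.toPermHom H H)
  have ht1 : t ≠ 1 := by
    rintro rfl
    simp at ht
  have hφ : φ t ≠ 1 := by
    intro hs
    have h2 : (MulAction.toPermHom H H t) ^ 2 = 1 := by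
      rw [← map_pow, ← ht, pow_orderOf_eq_one, map_one]
    obtain ⟨k, hk⟩ := H1Small.sign_involution _ h2 hs
    haveI hem : IsEmpty (Function.fixedPoints (MulAction.toPermHom H H t)) := by
      constructor
      rintro ⟨x, hx⟩
      have h3 : t * x = x := hx
      exact ht1 (by simpa using h3)
    have hc0 : Fintype.card (Function.fixedPoints (MulAction.toPermHom H H t)) = 0 :=
      Fintype.card_eq_zero_iff.mpr hem
    rw [hc0, zero_add, ← Nat.card_eq_fintype_card, h] at hk
    omega
  have hi : φ.ker.index = 2 := by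
    rw [Subgroup.index_ker]
    have h1 : Nat.card φ.range ∣ Nat.card ℤˣ := Subgroup.card_subgroup_dvd_card _
    have h2 : Nat.card ℤˣ = 2 := by simp [Nat.card_eq_fintype_card]
    rw [h2] at h1
    rcases (Nat.dvd_prime Nat.prime_two).mp h1 with h3 | h3
    · exfalso
      have h4 := Subgroup.eq_bot_of_card_eq _ h3
      have h5 : φ t ∈ φ.range := ⟨t, rfl⟩
      rw [h4] at h5
      exact hφ (Subgroup.mem_bot.mp h5)
    · exact h3
  have h5 := φ.ker.index_mul_card
  rw [hi, h] at h5
  exact ⟨φ.ker, by omega⟩

theorem le_norm (K : Subgroup G) (R : Subgroup K) (hn : R.Normal) :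
    K ≤ Subgroup.normalizer ((R.map K.subtype : Subgroup G) : Set G) := by
  have h0 : (R.map K.subtype).subgroupOf K = R :=
    Subgroup.comap_map_eq_self_of_injective K.subtype_injective R
  haveI : ((R.map K.subtype).subgroupOf K).Normal := by rwa [h0]
  exact Subgroup.le_normalizer_of_normal_subgroupOf (Subgroup.map_subtype_le R)

theorem card_map_sub (K : Subgroup G) (R : Subgroup K) : Nat.card (R.map K.subtype) = Nat.card R :=
  Nat.card_congr (Subgroup.equivMapOfInjective R _ K.subtype_injective).symm.toEquiv

/-- the simplicity argument -/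
theorem simple_of (hG : Nat.card G = 60) (hA : ∀ A : Subgroup G, Nat.card A = 5 → ¬ A.Normal) :
    IsSimpleGroup G := by
  haveI f5 : Fact (Nat.Prime 5) := ⟨by norm_num⟩
  haveI f3 : Fact (Nat.Prime 3) := ⟨by norm_num⟩
  haveI f2 : Fact (Nat.Prime 2) := ⟨by norm_num⟩
  -- normalizers
  have h10 : ∀ A : Subgroup G, Nat.card A = 5 → Nat.card (Subgroup.normalizer (A : Set G)) = 10 := by
    intro A hcA
    have hf : Nat.card A = 5 ^ (Nat.card G).factorization 5 := by
      rw [hG, hcA]
      have : (60 : ℕ).factorization 5 = 1 := by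
        rw [show (60 : ℕ) = 5 ^ 1 * 12 by norm_num, Nat.factorization_mul (by norm_num) (by norm_num),
          Nat.Prime.factorization_pow f5.out]
        simp [Nat.factorization_eq_zero_of_not_dvd (by norm_num : ¬ 5 ∣ 12)]
      rw [this]; norm_num
    let S : Sylow 5 G := Sylow.ofCard A hf
    obtain ⟨h1, h2, h3, h4⟩ := H1Small.sylow_data 1 12 (by simpa using hG) (by norm_num) S
    have h5 : Nat.card (Sylow 5 G) ≠ 1 := by
      intro h6
      haveI : Subsingleton (Sylow 5 G) := (Nat.card_eq_one_iff_unique.mp h6).1
      exact hA A hcA (Sylow.normal_of_subsingleton S)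
    have h6 : Nat.card (Sylow 5 G) = 6 := by
      have := Nat.le_of_dvd (by norm_num) h2
      generalize Nat.card (Sylow 5 G) = n at *
      interval_cases n <;> omega
    rw [h6, hG] at h4
    have h7 : Nat.card (Subgroup.normalizer ((S : Subgroup G) : Set G)) = 10 := by omega
    exact h7
  -- no subgroup of order 15
  have h15 : ∀ K : Subgroup G, Nat.card K ≠ 15 := by
    intro K hK
    obtain ⟨R, hR, hn⟩ := sylow15 hK
    have h1 : Nat.card (R.map K.subtype) = 5 := by rw [card_map_sub, hR]
    have h2 := h10 _ h1
    have h3 := le_norm K R hn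
    have h4 := Subgroup.card_dvd_of_le h3
    rw [h2, hK] at h4
    omega
  have h30 : ∀ K : Subgroup G, Nat.card K ≠ 30 := by
    intro K hK
    obtain ⟨L, hL⟩ := index2 hK
    apply h15 (L.map K.subtype)
    rw [card_map_sub, hL]
  have h5n : ∀ (N : Subgroup G) (_ : N.Normal) (m : ℕ), Nat.card N = 5 * m → m ∣ 4 → False := by
    intro N hNn m hN hm
    obtain ⟨R⟩ : Nonempty (Sylow 5 N) := inferInstance
    have hm5 : ¬ 5 ∣ m := fun h => by
      have := h.trans hm
      omega
    obtain ⟨h1, h2, h3, h4⟩ := H1Small.sylow_data 1 m (by simpa using hN) hm5 R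
    have h5 : Nat.card (Sylow 5 N) = 1 := by
      have := Nat.le_of_dvd (by norm_num) (h2.trans hm)
      generalize Nat.card (Sylow 5 N) = n at *
      interval_cases n <;> omega
    haveI : Subsingleton (Sylow 5 N) := (Nat.card_eq_one_iff_unique.mp h5).1
    have hn := Sylow.normal_of_subsingleton R
    have hT := Sylow.normalizer_sup_eq_top R
    have h6 := le_norm N R hn
    have hcA : Nat.card ((R : Subgroup N).map N.subtype) = 5 := by
      rw [card_map_sub, h1, pow_one]
    rw [sup_eq_left.mpr h6] at hT
    exact hA _ hcA (Subgroup.normalizer_eq_top_iff.mp hT)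
  have h3n : ∀ (N : Subgroup G) (_ : N.Normal) (m : ℕ), Nat.card N = 3 * m → m ∣ 4 → False := by
    intro N hNn m hN hm
    obtain ⟨R⟩ : Nonempty (Sylow 3 N) := inferInstance
    have hm3 : ¬ 3 ∣ m := fun h => by
      have := h.trans hm
      omega
    obtain ⟨h1, _, _, _⟩ := H1Small.sylow_data 1 m (by simpa using hN) hm3 R
    have hcA : Nat.card ((R : Subgroup N).map N.subtype) = 3 := by
      rw [card_map_sub, h1, pow_one]
    have hT := Sylow.normalizer_sup_eq_top R
    set A : Subgroup G := (R : Subgroup N).map N.subtype with hAdef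
    have hi : N.index = N.relIndex (Subgroup.normalizer (A : Set G)) := by
      have := Subgroup.relIndex_sup_right (H := Subgroup.normalizer (A : Set G)) (K := N)
      rw [hT, Subgroup.relIndex_top_right] at this
      exact this
    have h5d : 5 ∣ N.index := by
      have h2 := N.index_mul_card
      rw [hN, hG] at h2
      have h3 : 5 ∣ N.index * (3 * m) := by rw [h2]; norm_num
      have h4 : Nat.Coprime 5 (3 * m) := by
        apply Nat.Coprime.mul_right (by norm_num)
        exact (Nat.Prime.coprime_iff_not_dvd f5.out).mpr (fun h => by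
          have := h.trans hm
          omega)
      exact h4.dvd_of_dvd_mul_right h3
    have h5N : 5 ∣ Nat.card (Subgroup.normalizer (A : Set G)) :=
      h5d.trans (hi ▸ Subgroup.relIndex_dvd_card _ _)
    have h6 := H1Small.relIndex_centralizer_dvd_sub_one A hcA
    have h7 := H1Small.relIndex_mul_card (H1Small.centralizer_le_normalizer' A)
    have h9 : 5 ∣ Nat.card (Subgroup.centralizer (A : Set G)) := by
      rw [← h7] at h5N
      have h8 : Nat.Coprime 5 ((Subgroup.centralizer (A : Set G)).relIndex (Subgroup.normalizer (A : Set G))) := by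
        exact (Nat.Prime.coprime_iff_not_dvd f5.out).mpr (fun h => by
          have := h.trans h6
          omega)
      exact h8.dvd_of_dvd_mul_left h5N
    obtain ⟨x, hx⟩ := exists_prime_orderOf_dvd_card' 5 h9
    have hx' : orderOf (x : G) = 5 := by rw [← hx]; exact Subgroup.orderOf_coe x
    have hcB : Nat.card (Subgroup.zpowers (x : G)) = 5 := by rw [Nat.card_zpowers, hx']
    have hN10 := h10 _ hcB
    have hAB : A ≤ Subgroup.normalizer ((Subgroup.zpowers (x : G) : Subgroup G) : Set G) := by
      intro a ha
      apply H1Small.centralizer_le_normalizer'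
      rw [Subgroup.mem_centralizer_iff]
      intro g hg
      obtain ⟨k, rfl⟩ := Subgroup.mem_zpowers_iff.mp hg
      have hc : Commute (x : G) a := by
        have := Subgroup.mem_centralizer_iff.mp x.2 a ha
        exact this.symm
      exact (hc.zpow_left k)
    have h11 := Subgroup.card_dvd_of_le hAB
    rw [hN10, hcA] at h11
    omega
  haveI : Nontrivial G := by
    apply (Finite.one_lt_card_iff_nontrivial).mp
    omega
  refine ⟨?_⟩
  intro N hN
  have hd := Subgroup.card_subgroup_dvd_card N
  rw [hG] at hd
  have hm : Nat.card N ∈ Nat.divisors 60 := by simp [hd]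
  have hdiv : Nat.divisors 60 = {1, 2, 3, 4, 5, 6, 10, 12, 15, 20, 30, 60} := by decide +kernel
  rw [hdiv] at hm
  simp only [Finset.mem_insert, Finset.mem_singleton] at hm
  rcases hm with h | h | h | h | h | h | h | h | h | h | h | h
  · left; exact Subgroup.eq_bot_of_card_eq N h
  · exfalso
    have hq : Nat.card (G ⧸ N) = 30 := by
      have h2 := N.index_mul_card
      rw [h, hG] at h2
      rw [← Subgroup.index_eq_card]
      omega
    obtain ⟨K, hK⟩ := index2 hq
    have h3 := K.index_mul_card
    rw [hK, hq] at h3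
    have h3' : K.index = 2 := by omega
    have h4 := Subgroup.index_comap_of_surjective K (QuotientGroup.mk'_surjective N)
    have h5 := (K.comap (QuotientGroup.mk' N)).index_mul_card
    rw [hG, h4, h3'] at h5
    exact h30 _ (by omega : Nat.card (K.comap (QuotientGroup.mk' N)) = 30)
  · exact (h3n N hN 1 (by simpa using h) (by norm_num)).elim
  · exfalso
    have hq : Nat.card (G ⧸ N) = 15 := by
      have h2 := N.index_mul_card
      rw [h, hG] at h2
      rw [← Subgroup.index_eq_card]
      omega
    obtain ⟨K, hK, hKn⟩ := sylow15 hq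
    have h3 := K.index_mul_card
    rw [hK, hq] at h3
    have h3' : K.index = 3 := by omega
    have h4 := Subgroup.index_comap_of_surjective K (QuotientGroup.mk'_surjective N)
    have h5 := (K.comap (QuotientGroup.mk' N)).index_mul_card
    rw [hG, h4, h3'] at h5
    exact h5n (K.comap (QuotientGroup.mk' N)) (hKn.comap _) 4 (by omega) (by norm_num)
  · exact (h5n N hN 1 (by simpa using h) (by norm_num)).elim
  · exact (h3n N hN 2 (by simpa using h) (by norm_num)).elim
  · exact (h5n N hN 2 (by simpa using h) (by norm_num)).elim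
  · exact (h3n N hN 4 (by simpa using h) (by norm_num)).elim
  · exact (h15 N h).elim
  · exact (h5n N hN 4 (by simpa using h) (by norm_num)).elim
  · exact (h30 N h).elim
  · right; exact Subgroup.eq_top_of_card_eq N (h.trans hG.symm)

end

/-- The character degree graph of a finite group has as vertices the primes dividing some irreducible complex character degree, two distinct primes being joined when their product divides some irreducible character degree; two groups have the same character degree graph when they have the same vertices and the same joined pairs. A finite group of order 60 with the same character degree graph as the alternating group A₅ (whose character degrees are 1, 3, 4, 5, so the graph has vertices 2, 3, 5 and no edges) is isomorphic to A₅. -/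
theorem result {G : Type*} [Group G] [Finite G] (hcard : Nat.card G = 60)
    (hΓ : Cfsg.degreePrimes G = Cfsg.degreePrimes (alternatingGroup (Fin 5)) ∧ Cfsg.degreeGraph G = Cfsg.degreeGraph (alternatingGroup (Fin 5))) : Nonempty (G ≃* alternatingGroup (Fin 5)) := by

  classical
  haveI : Fintype G := Fintype.ofFinite G
  have h5 : (5 : ℕ) ∈ degreePrimes G := by rw [hΓ.1]; exact five_mem
  obtain ⟨-, d, ⟨χ, hχ⟩, h5d⟩ := h5
  haveI : IsSimpleGroup G := by
    apply simple_of hcard
    intro A hcA hn
    obtain ⟨n, ρ, hρ, hc⟩ := χ.2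
    have hab : ∀ a ∈ A, ∀ b ∈ A, a * b = b * a := by
      intro a ha b hb
      haveI f5 : Fact (Nat.Prime 5) := ⟨by norm_num⟩
      have h1 := H1Small.le_centralizer_of_prime_card A hcA hb
      exact (Subgroup.mem_centralizer_iff.mp h1 a ha)
    have h2 := CharClifford.ito ρ hρ A hab
    have h3 : d = n := by
      rw [← hχ, charDegree, ← hc, Representation.char_one]
      simp
    have h4 := A.index_mul_card
    rw [hcA, hcard] at h4
    rw [Module.finrank_fin_fun] at h2
    have h5 : A.index = 12 := by omega
    rw [h5, ← h3] at h2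
    have := h5d.trans h2
    omega
  exact Cfsg.Agent.S0494.result hcard

end Cfsg.Agent.S3669
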