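import Cfsg.Statements.S3678
import Cfsg.Agent.Lib.H1Spec2
import Cfsg.Agent.Lib.H1Rigid
import Cfsg.Agent.Lib.H1L168b

set_option autoImplicit false
open Cfsg

namespace Cfsg.Agent.S3678

theorem no_pq {p q r k n : ℕ} (hp : p.Prime) (hq : q.Prime) (hr : r.Prime) (hne : p ≠ q) (hn : n ∣ r ^ k)
    (h : n = p * q) : False := by
  subst h
  have h1 : p ∣ r ^ k := (Dvd.intro _ rfl).trans hn
  have h2 : q ∣ r ^ k := (Dvd.intro_left _ rfl).trans hn
  have h3 := (Nat.prime_dvd_prime_iff_eq hp hr).mp (hp.dvd_of_dvd_pow h1)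
  have h4 := (Nat.prime_dvd_prime_iff_eq hq hr).mp (hq.dvd_of_dvd_pow h2)
  exact hne (h3.trans h4.symm)
/-- The prime graph of a finite group has the prime divisors of its order as vertices, two distinct primes p, q being joined when the group has an element of order pq; two groups have the same prime graph when they have the same prime divisors and the same joined pairs. Let F be the field with 7 elements. There are finite groups of arbitrarily large order with the same prime graph as PSL(2,F) (the graph on {2, 3, 7} with no edges, which is also the prime graph of PSL(2,8)). -/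
theorem result {F : Type*} [Field F] [Fintype F] (hF : Fintype.card F = 7) (N : ℕ) :
    ∃ (H : Type) (_ : Group H) (_ : Finite H), N < Nat.card H ∧
      ((∀ p : ℕ, p.Prime → (p ∣ Nat.card (Matrix.ProjectiveSpecialLinearGroup (Fin 2) F) ↔ p ∣ Nat.card H)) ∧
      (∀ p q : ℕ, p.Prime → q.Prime → p ≠ q → ((∃ g : (Matrix.ProjectiveSpecialLinearGroup (Fin 2) F), orderOf g = p * q) ↔ (∃ g : H, orderOf g = p * q)))) := by

  classical
  -- the field with eight elements
  haveI : Fact (Nat.Prime 2) := ⟨Nat.prime_two⟩
  haveI : Fintype (GaloisField 2 3) := Fintype.ofFinite _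
  have hK : Fintype.card (GaloisField 2 3) = 8 := by
    have := GaloisField.card 2 3 (by norm_num)
    rw [Nat.card_eq_fintype_card] at this
    rw [this]
    norm_num
  have h2K : (2 : GaloisField 2 3) = 0 := CharTwo.two_eq_zero
  obtain ⟨H, i1, i2, hN, hp, hpq⟩ := Cfsg.Agent.Lib.H1Spec2.exists_large h2K N
  -- `PSL₂(7)` is simple of order 168
  have hs : IsSimpleGroup (Matrix.ProjectiveSpecialLinearGroup (Fin 2) F) := by
    have h1 : ∃ a : F, a ≠ 0 ∧ a ≠ 1 ∧ a ≠ -1 := by
      by_contra hcon
      push Not at hcon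
      have : (Finset.univ : Finset F) ⊆ {0, 1, -1} := by
        intro w _
        by_cases hw : w = 0
        · simp [hw]
        · by_cases hw1 : w = 1
          · simp [hw1]
          · simp [hcon w hw hw1]
      have h3 := Finset.card_le_card this
      rw [Finset.card_univ, hF] at h3
      have h4 : ({0, 1, -1} : Finset F).card ≤ 3 := Finset.card_le_three
      omega
    obtain ⟨a, h0, h1, h3⟩ := h1
    apply Cfsg.Agent.Lib.H1Rigid.PSL2_isSimple h0
    intro h4
    have h5 : (a - 1) * (a + 1) = 0 := by linear_combination h4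
    rcases mul_eq_zero.mp h5 with h6 | h6
    · exact h1 (sub_eq_zero.mp h6)
    · exact h3 (eq_neg_of_add_eq_zero_left h6)
  have hc : Nat.card (Matrix.ProjectiveSpecialLinearGroup (Fin 2) F) = 168 := by
    have := Cfsg.Agent.Lib.H1Rigid.PSL2_card (F := F)
    rw [hF] at this
    have e1 : Nat.gcd 2 (7 - 1) = 2 := by decide
    have e2 : 7 * (7 ^ 2 - 1) = 336 := by norm_num
    rw [e1, e2] at this
    omega
  have hcK : Nat.card (Cfsg.Agent.Lib.H1GL2.SL2 (GaloisField 2 3)) = 504 := by
    rw [Cfsg.Agent.Lib.H1SL2.card_sl2, hK]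
    norm_num
  refine ⟨H, i1, i2, hN, ?_, ?_⟩
  · intro p hpp
    rw [← hp p hpp, hc, hcK]
    constructor
    · intro h
      exact h.trans (by norm_num)
    · intro h
      have h3 : p ∣ 168 * 3 := by simpa using h
      rcases (Nat.Prime.dvd_mul hpp).mp h3 with h4 | h4
      · exact h4
      · exact h4.trans (by norm_num)
  · intro p q hpp hq hne
    rw [← hpq p q hpp hq hne]
    constructor
    · rintro ⟨g, hg⟩
      exfalso
      rcases Cfsg.Agent.Lib.H1L168.order_all hc g with h1 | h1 | h1 | h1 | h1
      · exact no_pq (r := 2) (k := 2) hpp hq Nat.prime_two hne (by rw [← hg, h1]; norm_num) rfl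
      · exact no_pq (r := 2) (k := 2) hpp hq Nat.prime_two hne (by rw [← hg, h1]; norm_num) rfl
      · exact no_pq (r := 3) (k := 1) hpp hq (by norm_num) hne (by rw [← hg, h1]; norm_num) rfl
      · exact no_pq (r := 2) (k := 2) hpp hq Nat.prime_two hne (by rw [← hg, h1]; norm_num) rfl
      · exact no_pq (r := 7) (k := 1) hpp hq (by norm_num) hne (by rw [← hg, h1]; norm_num) rfl
    · rintro ⟨g, hg⟩
      exfalso
      have hinj : Function.Injective (Cfsg.Agent.Lib.H1PSL2.pi (F := GaloisField 2 3)) := by
        rw [injective_iff_map_eq_one]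
        intro g hg
        rw [Cfsg.Agent.Lib.H1PSL2.pi_eq_one_iff, Cfsg.Agent.Lib.H1PSL2.mone_eq_one_of_two h2K, or_self] at hg
        exact hg
      have hor : orderOf (Cfsg.Agent.Lib.H1PSL2.pi g) = p * q := by
        rw [orderOf_injective _ hinj, hg]
      rcases Cfsg.Agent.Lib.H1PSL2.order_cases 2 (Cfsg.Agent.Lib.H1PSL2.pi g) with h1 | h1 | h1
      · exact no_pq (r := 2) (k := 1) hpp hq Nat.prime_two hne (orderOf_dvd_of_pow_eq_one (by simpa using h1)) hor
      · rw [hK] at h1
        norm_num at h1
        exact no_pq (r := 7) (k := 1) hpp hq (by norm_num) hne (orderOf_dvd_of_pow_eq_one (by simpa using h1)) hor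
      · rw [hK] at h1
        norm_num at h1
        exact no_pq (r := 3) (k := 2) hpp hq (by norm_num) hne (orderOf_dvd_of_pow_eq_one (by simpa using h1)) hor

end Cfsg.Agent.S3678
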