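import Cfsg.Statements.S3681
import Mathlib

set_option autoImplicit false
open Cfsg

namespace Cfsg.Agent.S3681

theorem p_ai {Ω : Type*} (g : Equiv.Perm Ω) (y : Ω) : g (g⁻¹ y) = y := by simp
theorem p_ia {Ω : Type*} (g : Equiv.Perm Ω) (y : Ω) : g⁻¹ (g y) = y := by simp

theorem three_cycle {Ω : Type*} [Fintype Ω] [DecidableEq Ω] (x g : Equiv.Perm Ω) (δ : Ω)
    (hx : x δ ≠ δ) (hg : g δ ≠ δ)
    (hdisj : ∀ y, x y ≠ y → g y ≠ y → y = δ) :
    (x * g * x⁻¹ * g⁻¹).IsThreeCycle := by
  -- basic facts
  have hA : ∀ y, x y ≠ y → x (x y) ≠ x y := fun y hy h => hy (x.injective h)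
  have hB : ∀ y, g y ≠ y → g (g y) ≠ g y := fun y hy h => hy (g.injective h)
  have hxδ : g (x δ) = x δ := by
    by_contra h
    have := hdisj (x δ) (hA δ hx) h
    exact hx this
  have hgδ : x (g δ) = g δ := by
    by_contra h
    have := hdisj (g δ) h (hB δ hg)
    exact hg this
  have hne : x δ ≠ g δ := by
    intro h
    rw [h] at hxδ
    exact hB δ hg hxδ
  have hsupp : (x * g * x⁻¹ * g⁻¹).support = {δ, x δ, g δ} := by
    ext y
    simp only [Equiv.Perm.mem_support, Finset.mem_insert, Finset.mem_singleton, Equiv.Perm.mul_apply]
    constructor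
    · intro hy
      by_contra hcon
      push_neg at hcon
      obtain ⟨h1, h2, h3⟩ := hcon
      apply hy
      by_cases hgy : g y = y
      · -- g⁻¹ y = y
        have h4 : g⁻¹ y = y := by rw [Equiv.Perm.inv_eq_iff_eq]; exact hgy.symm
        rw [h4]
        by_cases hxy : x y = y
        · have h5 : x⁻¹ y = y := by rw [Equiv.Perm.inv_eq_iff_eq]; exact hxy.symm
          rw [h5, hgy, hxy]
        · -- y moved by x
          have h6 : x (x⁻¹ y) ≠ x⁻¹ y := by
            intro h
            rw [p_ai] at h
            apply hxy
            calc x y = x (x⁻¹ y) := by rw [← h]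
              _ = y := p_ai x y
          have h7 : g (x⁻¹ y) = x⁻¹ y := by
            by_contra h8
            have := hdisj _ h6 h8
            apply h2
            rw [← this]
            simp
          rw [h7]
          simp
      · -- y moved by g
        have h6 : g (g⁻¹ y) ≠ g⁻¹ y := by
          intro h
          rw [p_ai] at h
          apply hgy
          calc g y = g (g⁻¹ y) := by rw [← h]
            _ = y := p_ai g y
        have h7 : x (g⁻¹ y) = g⁻¹ y := by
          by_contra h8
          have := hdisj _ h8 h6
          apply h3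
          rw [← this]
          simp
        have h7' : x⁻¹ (g⁻¹ y) = g⁻¹ y := by
          rw [Equiv.Perm.inv_eq_iff_eq]; exact h7.symm
        rw [h7']
        simp only [p_ai]
        by_contra h8
        have := hdisj _ h8 hgy
        exact h1 this
    · rintro (rfl | rfl | rfl)
      · -- c δ = x δ
        have h1 : x (g⁻¹ y) = g⁻¹ y := by
          by_cases h : g⁻¹ y = y
          · exfalso
            apply hg
            nth_rewrite 1 [← h]
            simp
          · by_contra h8
            have h9 : g (g⁻¹ y) ≠ g⁻¹ y := by
              rw [p_ai]; exact fun h' => h h'.symm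
            exact h (hdisj _ h8 h9)
        have h1' : x⁻¹ (g⁻¹ y) = g⁻¹ y := by
          rw [Equiv.Perm.inv_eq_iff_eq]; exact h1.symm
        rw [h1']
        simp only [p_ai]
        exact hx
      · -- c (x δ) = g δ
        have h4 : g⁻¹ (x δ) = x δ := by rw [Equiv.Perm.inv_eq_iff_eq]; exact hxδ.symm
        rw [h4]
        simp only [p_ia]
        rw [hgδ]
        exact fun h => hne h.symm
      · -- c (g δ) = δ
        simp only [p_ia]
        have h1 : g (x⁻¹ δ) = x⁻¹ δ := by
          by_contra h8
          have h9 : x (x⁻¹ δ) ≠ x⁻¹ δ := by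
            rw [p_ai]
            intro h'
            apply hx
            nth_rewrite 1 [h']
            simp
          have := hdisj _ h9 h8
          apply hx
          nth_rewrite 1 [← this]
          simp
        rw [h1]
        simp only [p_ai]
        exact hg.symm
  rw [← card_support_eq_three_iff, hsupp]
  rw [Finset.card_insert_of_notMem, Finset.card_insert_of_notMem, Finset.card_singleton]
  · simpa using hne
  · simp only [Finset.mem_insert, Finset.mem_singleton, not_or]
    exact ⟨fun h => hx h.symm, fun h => hg h.symm⟩

/-- Bochert's bound for primitive groups. Let a finite group G act faithfully and primitively on a finite set Ω with n elements, and suppose the image of G in the symmetric group of Ω does not contain the alternating group of Ω. Then |G| · ⌊(n + 1)/2⌋! ≤ n!, that is, the index of G in the symmetric group is at least ⌊(n + 1)/2⌋!. -/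
theorem result {G Ω : Type*} [Group G] [Finite G] [MulAction G Ω] [FaithfulSMul G Ω] [Fintype Ω] [DecidableEq Ω]
    (hprim : MulAction.IsPreprimitive G Ω) (hA : ¬ alternatingGroup Ω ≤ (MulAction.toPermHom G Ω).range) :
    Nat.card G * Nat.factorial ((Fintype.card Ω + 1) / 2) ≤ Nat.factorial (Fintype.card Ω) := by

  classical
  set n := Fintype.card Ω with hn
  -- bases
  let IsB : Finset Ω → Prop := fun B => ∀ g : G, (∀ y ∈ B, g • y = y) → g = 1
  have huniv : IsB Finset.univ := fun g hg => by
    apply FaithfulSMul.eq_of_smul_eq_smul (α := Ω)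
    intro y
    rw [hg y (Finset.mem_univ y), one_smul]
  obtain ⟨B, hB, hmin⟩ : ∃ B : Finset Ω, IsB B ∧ ∀ C : Finset Ω, IsB C → B.card ≤ C.card := by
    classical
    let P : ℕ → Prop := fun k => ∃ C : Finset Ω, IsB C ∧ C.card = k
    have hP : ∃ k, P k := ⟨_, Finset.univ, huniv, rfl⟩
    obtain ⟨B, hB, hk⟩ := Nat.find_spec hP
    refine ⟨B, hB, fun C hC => ?_⟩
    rw [hk]
    exact Nat.find_min' hP ⟨C, hC, rfl⟩
  have hprimR : MulAction.IsPreprimitive (MulAction.toPermHom G Ω).range Ω := by
    haveI := hprim
    let f : G →* (MulAction.toPermHom G Ω).range := (MulAction.toPermHom G Ω).rangeRestrict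
    have hf : Function.Surjective f := (MulAction.toPermHom G Ω).rangeRestrict_surjective
    let φ : Ω →ₑ[f] Ω :=
      { toFun := id
        map_smul' := fun _ _ => rfl }
    exact MulAction.IsPreprimitive.of_surjective (f := φ) Function.surjective_id
  -- complement is a base
  have hcompl : IsB Bᶜ := by
    intro x hx
    by_contra hx1
    -- x moves δ
    obtain ⟨δ, hδ⟩ : ∃ δ, x • δ ≠ δ := by
      by_contra hcon
      push_neg at hcon
      exact hx1 (FaithfulSMul.eq_of_smul_eq_smul (α := Ω) (fun y => by rw [hcon y, one_smul]))
    have hδB : δ ∈ B := by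
      by_contra h
      exact hδ (hx δ (Finset.mem_compl.mpr h))
    -- minimality
    have hnot : ¬ IsB (B.erase δ) := by
      intro h
      have := hmin _ h
      rw [Finset.card_erase_of_mem hδB] at this
      have hpos : 0 < B.card := Finset.card_pos.mpr ⟨δ, hδB⟩
      omega
    simp only [IsB] at hnot
    push_neg at hnot
    obtain ⟨g, hg, hg1⟩ := hnot
    have hgδ : g • δ ≠ δ := by
      intro h
      apply hg1
      apply hB
      intro y hy
      by_cases hyδ : y = δ
      · rw [hyδ, h]
      · exact hg y (Finset.mem_erase.mpr ⟨hyδ, hy⟩)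
    have h3 := three_cycle (MulAction.toPerm x) (MulAction.toPerm g) δ hδ hgδ (by
      intro y hy1 hy2
      simp only [MulAction.toPerm_apply] at hy1 hy2
      by_contra hne
      have hyB : y ∈ B := by
        by_contra h
        exact hy1 (hx y (Finset.mem_compl.mpr h))
      exact hy2 (hg y (Finset.mem_erase.mpr ⟨hne, hyB⟩)))
    apply hA
    refine Equiv.Perm.alternatingGroup_le_of_isPreprimitive_of_isThreeCycle_mem hprimR h3 ?_
    refine ⟨x * g * x⁻¹ * g⁻¹, ?_⟩
    ext y
    simp [MulAction.toPermHom, mul_smul]
  have hcard : B.card ≤ n - B.card := by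
    have := hmin _ hcompl
    rwa [Finset.card_compl] at this
  have hBn : B.card ≤ n := Finset.card_le_univ B
  -- injection into embeddings
  have hle : Nat.card G ≤ n.descFactorial B.card := by
    haveI := Fintype.ofFinite G
    let f : G → (B ↪ Ω) := fun g =>
      ⟨fun y => g • (y : Ω), fun a b h => Subtype.ext (MulAction.injective g h)⟩
    have hf : Function.Injective f := by
      intro g h hgh
      have h1 : h⁻¹ * g = 1 := by
        apply hB
        intro y hy
        have : g • y = h • y := DFunLike.congr_fun hgh ⟨y, hy⟩
        rw [mul_smul, this, inv_smul_smul]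
      exact (inv_mul_eq_one.mp h1).symm
    have := Fintype.card_le_of_injective f hf
    rw [Fintype.card_embedding_eq, Fintype.card_coe] at this
    rwa [Nat.card_eq_fintype_card]
  have hfac := Nat.factorial_mul_descFactorial hBn
  have h2 : (n + 1) / 2 ≤ n - B.card := by omega
  calc Nat.card G * ((n + 1) / 2).factorial
      ≤ n.descFactorial B.card * (n - B.card).factorial :=
        Nat.mul_le_mul hle (Nat.factorial_le h2)
    _ = n.factorial := by rw [mul_comm]; exact hfac

end Cfsg.Agent.S3681
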