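import Cfsg.Statements.S3684
import Cfsg.Agent.Lib.LeadPerm
import Cfsg.Agent.Lib.LeadDihedral

set_option autoImplicit false
open Cfsg

namespace Cfsg.Agent.S3684

/-- Let a finite group G act faithfully and primitively on a set Ω, and suppose the stabilizer of a point a has an orbit of length 2. Then the stabilizer of a has order 2 and G is isomorphic to the dihedral group of order 2p for some prime p. -/
theorem result {G Ω : Type*} [Group G] [Finite G] [MulAction G Ω] [FaithfulSMul G Ω] [Finite Ω]
    (hprim : MulAction.IsPreprimitive G Ω) (a b : Ω) (h2 : Nat.card (MulAction.orbit (MulAction.stabilizer G a) b) = 2) :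
    Nat.card (MulAction.stabilizer G a) = 2 ∧ ∃ p : ℕ, p.Prime ∧ Nonempty (G ≃* DihedralGroup p) := by
  classical
  open Cfsg.Agent.Lib.LeadPerm Cfsg.Agent.Lib.LeadDihedral MulAction in
  have hp : IsPretransitive G Ω := hprim.toIsPretransitive
  have hab : a ≠ b := by
    rintro rfl
    have : orbit (stabilizer G a) a = {a} := by
      ext y
      constructor
      · rintro ⟨g, rfl⟩
        exact g.2
      · intro h
        rw [h]
        exact mem_orbit_self _
    rw [this] at h2
    simp at h2
  have hnt : Nontrivial Ω := ⟨⟨a, b, hab⟩⟩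
  have hcoat := (isCoatom_stabilizer_iff_preprimitive G a).2 hprim
  obtain ⟨g, hg⟩ := exists_smul_eq G a b
  set H := stabilizer G a with hH
  set H' := stabilizer G b with hH'
  have hcard' : Nat.card H' = Nat.card H := by
    rw [hH', ← hg]; exact card_stabilizer_smul g a
  set K := H ⊓ H' with hK
  have hrel : K.relIndex H = 2 := by
    have h1 : K.subgroupOf H = stabilizer H b := by
      ext x
      simp only [Subgroup.mem_subgroupOf, hK, Subgroup.mem_inf, mem_stabilizer_iff]
      constructor
      · exact fun h => h.2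
      · exact fun h => ⟨x.2, h⟩
    rw [Subgroup.relIndex, h1, index_stabilizer]
    exact h2
  have hKH : K ≤ H := inf_le_left
  have hKH' : K ≤ H' := inf_le_right
  have hc1 : K.relIndex H * Nat.card K = Nat.card H := relIndex_mul_card' hKH
  have hc2 : K.relIndex H' * Nat.card K = Nat.card H' := relIndex_mul_card' hKH'
  have hpos : 0 < Nat.card K := Nat.card_pos
  have hrel' : K.relIndex H' = 2 := by
    rw [hcard', ← hc1, hrel] at hc2
    exact Nat.eq_of_mul_eq_mul_right hpos hc2
  have hn1 : ∀ h ∈ H, ∀ x ∈ K, h * x * h⁻¹ ∈ K := by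
    intro h hh x hx
    have hnn : (K.subgroupOf H).Normal := Subgroup.normal_of_index_eq_two hrel
    have := hnn.conj_mem ⟨x, hKH hx⟩ (by simpa [Subgroup.mem_subgroupOf] using hx) ⟨h, hh⟩
    simpa [Subgroup.mem_subgroupOf] using this
  have hn2 : ∀ h ∈ H', ∀ x ∈ K, h * x * h⁻¹ ∈ K := by
    intro h hh x hx
    have hnn : (K.subgroupOf H').Normal := Subgroup.normal_of_index_eq_two hrel'
    have := hnn.conj_mem ⟨x, hKH' hx⟩ (by simpa [Subgroup.mem_subgroupOf] using hx) ⟨h, hh⟩
    simpa [Subgroup.mem_subgroupOf] using this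
  have hnotle : ¬ H' ≤ H := by
    intro hle
    have heq : H' = H := Subgroup.eq_of_le_of_card_ge hle hcard'.ge
    have : K = H := by rw [hK, heq, inf_idem]
    rw [this, Subgroup.relIndex_self] at hrel
    omega
  have hsup : H ⊔ H' = ⊤ := by
    apply hcoat.2
    refine lt_of_le_of_ne le_sup_left ?_
    intro h
    exact hnotle (h ▸ le_sup_right)
  have hKn : K.Normal := by
    rw [← Subgroup.normalizer_eq_top_iff, eq_top_iff, ← hsup]
    apply sup_le
    · intro h hh
      rw [Subgroup.mem_normalizer_iff]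
      intro x
      constructor
      · exact hn1 h hh x
      · intro hx
        have := hn1 h⁻¹ (H.inv_mem hh) _ hx
        simpa [mul_assoc] using this
    · intro h hh
      rw [Subgroup.mem_normalizer_iff]
      intro x
      constructor
      · exact hn2 h hh x
      · intro hx
        have := hn2 h⁻¹ (H'.inv_mem hh) _ hx
        simpa [mul_assoc] using this
  have hKbot : K = ⊥ := normal_le_stabilizer_eq_bot hKn hKH
  have hKcard : Nat.card K = 1 := by rw [hKbot]; exact Subgroup.card_bot
  have hHcard : Nat.card H = 2 := by rw [← hc1, hrel, hKcard]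
  have hH'card : Nat.card H' = 2 := by rw [hcard', hHcard]
  have hinvol : ∀ L : Subgroup G, Nat.card L = 2 → ∃ u ∈ L, u ≠ 1 ∧ u * u = 1 ∧ ∀ x ∈ L, x = 1 ∨ x = u := by
    intro L hL
    obtain ⟨p, q, hpq, huniv⟩ := Nat.card_eq_two_iff.1 hL
    have h : ∀ z : L, z = p ∨ z = q := by
      intro z
      have : z ∈ ({p, q} : Set L) := huniv ▸ Set.mem_univ z
      exact this
    have hsq : ∀ z : L, z.1 * z.1 = 1 := by
      intro z
      have := pow_card_eq_one' (x := z)
      rw [hL, sq] at this
      exact congrArg Subtype.val this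
    rcases h 1 with h1 | h1
    · refine ⟨q.1, q.2, ?_, hsq q, ?_⟩
      · intro hq
        apply hpq
        rw [← h1]
        exact (Subtype.ext hq : q = 1).symm
      · intro x hx
        rcases h ⟨x, hx⟩ with h2 | h2
        · left
          rw [← h1] at h2
          exact congrArg Subtype.val h2
        · right
          exact congrArg Subtype.val h2
    · refine ⟨p.1, p.2, ?_, hsq p, ?_⟩
      · intro hq
        apply hpq
        rw [← h1]
        exact (Subtype.ext hq : p = 1)
      · intro x hx
        rcases h ⟨x, hx⟩ with h2 | h2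
        · right
          exact congrArg Subtype.val h2
        · left
          rw [← h1] at h2
          exact congrArg Subtype.val h2
  obtain ⟨u, huH, hu1, hu2, huall⟩ := hinvol H hHcard
  obtain ⟨v, hvH, hv1, hv2, hvall⟩ := hinvol H' hH'card
  have huv : u ≠ v := by
    rintro rfl
    have : u ∈ K := ⟨huH, hvH⟩
    rw [hKbot, Subgroup.mem_bot] at this
    exact hu1 this
  have hgen : Subgroup.closure ({u, v} : Set G) = ⊤ := by
    rw [eq_top_iff, ← hsup]
    apply sup_le
    · intro x hx
      rcases huall x hx with h | h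
      · rw [h]; exact Subgroup.one_mem _
      · rw [h]; exact Subgroup.subset_closure (Set.mem_insert _ _)
    · intro x hx
      rcases hvall x hx with h | h
      · rw [h]; exact Subgroup.one_mem _
      · rw [h]; exact Subgroup.subset_closure (Set.mem_insert_of_mem _ rfl)
  obtain ⟨e⟩ := dihedral_of_two_involutions hu2 hv2 hu1 hv1 huv hgen
  set ρ := u * v with hρ
  have hui : u⁻¹ = u := inv_eq_of_mul_eq_one_left hu2
  have hvi : v⁻¹ = v := inv_eq_of_mul_eq_one_left hv2
  have huρ : u * ρ * u = ρ⁻¹ := by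
    rw [hρ, mul_inv_rev, hui, hvi, ← mul_assoc, hu2, one_mul]
  have hvρ : v * ρ * v = ρ⁻¹ := by
    rw [hρ, mul_inv_rev, hui, hvi, mul_assoc, mul_assoc, hv2, mul_one]
  have hρ1 : ρ ≠ 1 := by
    intro h
    apply huv
    have : u * v = v * v := by rw [hv2]; exact h
    exact mul_right_cancel this
  -- if `u` is a power of `ρ`, then `ρ² = 1`
  have hcomm : ∀ k : ℤ, ρ ^ k = u → ρ * ρ = 1 := by
    intro k hk
    have e1 : u * ρ = ρ * u := by
      rw [← hk]
      exact (Commute.zpow_self ρ k)
    have : ρ⁻¹ = ρ := by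
      rw [← huρ, e1, mul_assoc, hu2, mul_one]
    exact mul_eq_one_iff_eq_inv.2 this.symm
  have hm2 : ρ * ρ = 1 → orderOf ρ ≤ 2 := by
    intro h
    apply orderOf_le_of_pow_eq_one (by norm_num)
    rw [sq]; exact h
  refine ⟨hHcard, orderOf ρ, ?_, ⟨e.symm⟩⟩
  rw [Nat.prime_def]
  have hm2' : 2 ≤ orderOf ρ := by
    have h0 : 0 < orderOf ρ := orderOf_pos ρ
    have h1 : orderOf ρ ≠ 1 := by
      rw [Ne, orderOf_eq_one_iff]; exact hρ1
    omega
  refine ⟨hm2', ?_⟩
  intro x hx
  by_contra hcon
  push Not at hcon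
  obtain ⟨hx1, hx2⟩ := hcon
  have hxpos : 0 < x := Nat.pos_of_dvd_of_pos hx (by omega)
  have hxlt : x < orderOf ρ := lt_of_le_of_ne (Nat.le_of_dvd (by omega) hx) hx2
  have hx1' : 1 < x := by omega
  have hm3 : 2 < orderOf ρ := by
    obtain ⟨c, hc⟩ := hx
    have hc0 : c ≠ 0 := by
      rintro rfl
      rw [mul_zero] at hc
      omega
    have hc1 : c ≠ 1 := by
      rintro rfl
      omega
    have h4 : 2 * 2 ≤ orderOf ρ := by
      rw [hc]
      exact Nat.mul_le_mul hx1' (by omega)
    omega
  have hnotρ2 : ρ * ρ ≠ 1 := fun h => absurd (hm2 h) (by omega)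
  -- `L = ⟨ρ^x⟩` is normal.
  set L := Subgroup.zpowers (ρ ^ x) with hL
  have hLn : L.Normal := by
    rw [← Subgroup.normalizer_eq_top_iff, eq_top_iff, ← hgen, Subgroup.closure_le]
    have hinv : ∀ w : G, w * w = 1 → w * ρ * w = ρ⁻¹ → w ∈ Subgroup.normalizer (L : Set G) := by
      intro w hw hwρ
      have hwi : w⁻¹ = w := inv_eq_of_mul_eq_one_left hw
      have hc := conj_zpow_inv hw hwρ
      have hkey : ∀ y ∈ L, w * y * w⁻¹ ∈ L := by
        intro y hy
        obtain ⟨k, rfl⟩ := Subgroup.mem_zpowers_iff.1 hy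
        rw [hwi]
        have e1 : (ρ ^ x) ^ k = ρ ^ ((x : ℤ) * k) := by
          rw [zpow_mul, zpow_natCast]
        rw [e1, hc, ← e1]
        exact Subgroup.inv_mem _ (Subgroup.zpow_mem_zpowers _ _)
      rw [Subgroup.mem_normalizer_iff]
      intro y
      constructor
      · exact hkey y
      · intro hy
        have := hkey _ hy
        rw [hwi] at this
        have e2 : w * (w * y * w) * w = y := by
          calc w * (w * y * w) * w = (w * w) * y * (w * w) := by group
            _ = y := by rw [hw]; group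
        rw [hwi] at *
        rwa [e2] at this
    rintro z (hz | hz)
    · rw [hz]; exact hinv u hu2 huρ
    · rw [show z = v from hz]; exact hinv v hv2 hvρ
  have hnot : ¬ L ≤ H := by
    intro hle
    have hmem : ρ ^ x ∈ H := hle (Subgroup.mem_zpowers _)
    rcases huall _ hmem with h | h
    · have := orderOf_le_of_pow_eq_one hxpos h
      omega
    · apply hnotρ2
      apply hcomm x
      rw [zpow_natCast]; exact h
  have hsupL : H ⊔ L = ⊤ := by
    apply hcoat.2
    refine lt_of_le_of_ne le_sup_left ?_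
    intro h
    exact hnot (h ▸ le_sup_right)
  have hρmem : ρ ∈ H ⊔ L := by rw [hsupL]; exact Subgroup.mem_top _
  rw [Subgroup.mem_sup_of_normal_right] at hρmem
  obtain ⟨h, hh, l, hl, hhl⟩ := hρmem
  obtain ⟨k, rfl⟩ := Subgroup.mem_zpowers_iff.1 hl
  rcases huall h hh with h0 | h0
  · -- `ρ = ρ^(xk)`: so `x ∣ 1`
    rw [h0, one_mul] at hhl
    have e1 : (ρ ^ x) ^ k = ρ ^ ((x : ℤ) * k) := by
      rw [zpow_mul, zpow_natCast]
    rw [e1] at hhl
    have e2 : ρ ^ ((1 : ℤ) - (x : ℤ) * k) = 1 := by
      rw [zpow_sub, zpow_one, hhl]; group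
    have e3 : ((orderOf ρ : ℕ) : ℤ) ∣ 1 - (x : ℤ) * k := orderOf_dvd_iff_zpow_eq_one.2 e2
    have e4 : (x : ℤ) ∣ 1 - (x : ℤ) * k := (Int.natCast_dvd_natCast.2 hx).trans e3
    have e5 : (x : ℤ) ∣ 1 := by
      have := dvd_add e4 (Dvd.intro k rfl)
      simpa using this
    have : x = 1 := by
      have := Int.natCast_dvd_natCast.1 (by simpa using e5 : (x : ℤ) ∣ ((1 : ℕ) : ℤ))
      exact Nat.dvd_one.1 this
    omega
  · apply hnotρ2
    rw [h0] at hhl
    apply hcomm (1 - (x : ℤ) * k)
    have e1 : (ρ ^ x) ^ k = ρ ^ ((x : ℤ) * k) := by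
      rw [zpow_mul, zpow_natCast]
    rw [e1] at hhl
    rw [zpow_sub, zpow_one]
    exact (eq_mul_inv_of_mul_eq hhl).symm

end Cfsg.Agent.S3684
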