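import Cfsg.Statements.S3696
import Mathlib

set_option autoImplicit false
open Cfsg

namespace Cfsg.Agent.S3696

open Finset

lemma amgm_real (a b : ℝ) (ha : 0 ≤ a) (hb : 0 ≤ b) (r s : ℕ) (hr : 0 < r) (hs : 0 < s) :
    a ^ r * b ^ s * ((r + s : ℕ) : ℝ) ^ (r + s) ≤ (a + b) ^ (r + s) * ((r : ℝ) ^ r * (s : ℝ) ^ s) := by
  have hrR : (0 : ℝ) < r := by exact_mod_cast hr
  have hsR : (0 : ℝ) < s := by exact_mod_cast hs
  set N : ℝ := ((r + s : ℕ) : ℝ) with hN
  have hNeq : N = r + s := by rw [hN]; push_cast; ring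
  have hNpos : 0 < N := by rw [hNeq]; positivity
  have key := Real.geom_mean_le_arith_mean2_weighted (w₁ := r / N) (w₂ := s / N)
    (p₁ := a * N / r) (p₂ := b * N / s)
    (by positivity) (by positivity) (by positivity) (by positivity)
    (by rw [← add_div, ← hNeq]; exact div_self hNpos.ne')
  have h2 : (r / N) * (a * N / r) + (s / N) * (b * N / s) = a + b := by field_simp
  rw [h2] at key
  have h3 := pow_le_pow_left₀ (by positivity) key (r + s)
  have h4 : ((a * N / r) ^ ((r : ℝ) / N) * (b * N / s) ^ ((s : ℝ) / N)) ^ (r + s)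
      = (a * N / r) ^ r * (b * N / s) ^ s := by
    rw [mul_pow]
    congr 1
    · rw [← Real.rpow_natCast, ← Real.rpow_mul (by positivity)]
      have : ((r : ℝ) / N) * ((r + s : ℕ) : ℝ) = r := by rw [← hN]; field_simp
      rw [this, Real.rpow_natCast]
    · rw [← Real.rpow_natCast, ← Real.rpow_mul (by positivity)]
      have : ((s : ℝ) / N) * ((r + s : ℕ) : ℝ) = s := by rw [← hN]; field_simp
      rw [this, Real.rpow_natCast]
  rw [h4] at h3
  have h5 : (a * N / r) ^ r * (b * N / s) ^ s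
      = a ^ r * b ^ s * N ^ (r + s) / ((r : ℝ) ^ r * (s : ℝ) ^ s) := by
    rw [div_pow, div_pow, mul_pow, mul_pow, pow_add]; field_simp
  rw [h5, div_le_iff₀ (by positivity)] at h3
  exact h3

lemma amgm_nat (a b r s : ℕ) (hr : 0 < r) :
    a ^ r * b ^ s * (r + s) ^ (r + s) ≤ (a + b) ^ (r + s) * (r ^ r * s ^ s) := by
  rcases Nat.eq_zero_or_pos s with rfl | hs
  · simp only [pow_zero, mul_one, add_zero]
    exact Nat.mul_le_mul_right _ (Nat.pow_le_pow_left (Nat.le_add_right _ _) _)
  · have := amgm_real a b (by positivity) (by positivity) r s hr hs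
    exact_mod_cast this

lemma numeric (m c n' r s : ℕ) (hr : 1 ≤ r) (hm : 2 ^ r ≤ m) (hc : c * s ^ s ≤ n' ^ s) :
    m * c * (s + r) ^ (s + r) ≤ (m + n') ^ (s + r) := by
  have h1 : m * r ^ r ≤ m ^ r := by
    obtain ⟨t, rfl⟩ : ∃ t, r = t + 1 := ⟨r - 1, by omega⟩
    have h2 : t + 1 ≤ 2 ^ t := Nat.lt_two_pow_self
    calc m * (t + 1) ^ (t + 1) ≤ m * (2 ^ t) ^ (t + 1) := by gcongr
      _ = m * (2 ^ (t + 1)) ^ t := by rw [← pow_mul, ← pow_mul, mul_comm t]
      _ ≤ m * m ^ t := by gcongr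
      _ = m ^ (t + 1) := by ring
  have h2 := amgm_nat m n' r s hr
  have pos : 0 < r ^ r * s ^ s := Nat.mul_pos (Nat.pow_self_pos) (Nat.pow_self_pos)
  refine Nat.le_of_mul_le_mul_right ?_ pos
  calc m * c * (s + r) ^ (s + r) * (r ^ r * s ^ s)
      = (m * r ^ r) * (c * s ^ s) * (r + s) ^ (r + s) := by rw [add_comm s r]; ring
    _ ≤ m ^ r * n' ^ s * (r + s) ^ (r + s) := by gcongr
    _ ≤ (m + n') ^ (r + s) * (r ^ r * s ^ s) := h2
    _ = (m + n') ^ (s + r) * (r ^ r * s ^ s) := by rw [add_comm s r]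

variable {Ω : Type*} [Fintype Ω] [DecidableEq Ω]

/-- elements of exponent dividing `p` of a commutative subgroup -/
def expSub (p : ℕ) (B : Subgroup (Equiv.Perm Ω)) (hB : ∀ g ∈ B, ∀ h ∈ B, g * h = h * g) :
    Subgroup (Equiv.Perm Ω) where
  carrier := {g | g ∈ B ∧ g ^ p = 1}
  mul_mem' := by
    rintro a b ⟨ha, ha'⟩ ⟨hb, hb'⟩
    refine ⟨B.mul_mem ha hb, ?_⟩
    have : Commute a b := hB a ha b hb
    rw [this.mul_pow, ha', hb', one_mul]
  one_mem' := ⟨B.one_mem, one_pow _⟩
  inv_mem' := by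
    rintro a ⟨ha, ha'⟩
    exact ⟨B.inv_mem ha, by rw [inv_pow, ha', inv_one]⟩

lemma fiber_bound (F F' : Finset (Equiv.Perm Ω)) (x : Ω)
    (hF : ∀ g ∈ F, ∀ g₀ ∈ F, g x = g₀ x → g₀⁻¹ * g ∈ F') :
    F.card ≤ F'.card * (F.image (fun g : Equiv.Perm Ω => g x)).card := by
  apply Finset.card_le_mul_card_image
  intro a ha
  obtain ⟨g₀, hg₀, rfl⟩ := Finset.mem_image.mp ha
  apply Finset.card_le_card_of_injOn (fun g => g₀⁻¹ * g)
  · intro g hg
    have hg' := Finset.mem_filter.mp (Finset.mem_coe.mp hg)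
    exact hF g hg'.1 g₀ hg₀ hg'.2
  · intro g _ g' _ h
    exact mul_left_cancel h

open Classical in
theorem main_ineq (p : ℕ) (hp : p.Prime) (A : Subgroup (Equiv.Perm Ω)) (hA : IsPGroup p A)
    (hcomm : ∀ g ∈ A, ∀ h ∈ A, g * h = h * g) :
    ∀ (n : ℕ) (B : Subgroup (Equiv.Perm Ω)), Nat.card B = n → B ≤ A → ∀ e : ℕ,
      (univ.filter (fun g : Equiv.Perm Ω => g ∈ B ∧ g ^ p = 1)).card = p ^ e →
      Nat.card B * e ^ e ≤ (univ.filter (fun x : Ω => ∃ g ∈ B, g x ≠ x)).card ^ e := by
  intro n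
  induction n using Nat.strong_induction_on with
  | _ n ih =>
  intro B hn hBA e he
  haveI : Fact p.Prime := ⟨hp⟩
  by_cases hB : B = ⊥
  · subst hB
    have h1 : (univ.filter (fun g : Equiv.Perm Ω => g ∈ (⊥ : Subgroup (Equiv.Perm Ω)) ∧ g ^ p = 1))
        = {1} := by
      ext g
      simp only [mem_filter, mem_univ, true_and, Subgroup.mem_bot, mem_singleton]
      constructor
      · exact fun h => h.1
      · rintro rfl; exact ⟨rfl, one_pow _⟩
    rw [h1, card_singleton] at he
    have he0 : e = 0 := by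
      by_contra h
      have : 1 < p ^ e := Nat.one_lt_pow h hp.one_lt
      omega
    subst he0
    simp
  · have hBp : IsPGroup p B := hA.to_le hBA
    obtain ⟨k, hk⟩ := IsPGroup.iff_card.mp hBp
    have hk0 : k ≠ 0 := by
      rintro rfl
      apply hB
      have : Nat.card B = 1 := by simpa using hk
      exact Subgroup.eq_bot_of_card_eq _ this
    have hdvd : p ∣ Nat.card B := by rw [hk]; exact dvd_pow_self _ hk0
    obtain ⟨y, hy⟩ := exists_prime_orderOf_dvd_card' p hdvd
    have hyB : (y : Equiv.Perm Ω) ∈ B := y.2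
    have hyp : (y : Equiv.Perm Ω) ^ p = 1 := by
      have := pow_orderOf_eq_one y
      rw [hy] at this
      exact_mod_cast congrArg Subtype.val this
    have hy1 : (y : Equiv.Perm Ω) ≠ 1 := by
      intro h
      have : y = 1 := Subtype.ext h
      rw [this, orderOf_one] at hy
      exact hp.one_lt.ne hy
    obtain ⟨x, hx⟩ : ∃ x, (y : Equiv.Perm Ω) x ≠ x := by
      by_contra hcon
      push_neg at hcon
      exact hy1 (Equiv.ext hcon)
    -- the point stabiliser
    let C : Subgroup (Equiv.Perm Ω) := B ⊓ MulAction.stabilizer (Equiv.Perm Ω) x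
    have memC : ∀ g, g ∈ C ↔ g ∈ B ∧ g x = x := by
      intro g
      simp [C, Subgroup.mem_inf, MulAction.mem_stabilizer_iff, Equiv.Perm.smul_def]
    have hCB : C ≤ B := inf_le_left
    have hcB : ∀ g ∈ B, ∀ h ∈ B, g * h = h * g := fun g hg h hh => hcomm g (hBA hg) h (hBA hh)
    have hcC : ∀ g ∈ C, ∀ h ∈ C, g * h = h * g := fun g hg h hh => hcB g (hCB hg) h (hCB hh)
    -- cardinalities
    have cardB : Nat.card B = (univ.filter (fun g : Equiv.Perm Ω => g ∈ B)).card :=
      Nat.subtype_card _ (by simp)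
    have cardC : Nat.card C = (univ.filter (fun g : Equiv.Perm Ω => g ∈ C)).card :=
      Nat.subtype_card _ (by simp)
    set O := (univ.filter (fun g : Equiv.Perm Ω => g ∈ B)).image (fun g : Equiv.Perm Ω => g x)
      with hO
    have h_B_bound : Nat.card B ≤ Nat.card C * O.card := by
      rw [cardB, cardC]
      apply fiber_bound
      intro g hg g₀ hg₀ hgx
      have hg1 := (mem_filter.mp hg).2
      have hg2 := (mem_filter.mp hg₀).2
      refine mem_filter.mpr ⟨mem_univ _, (memC _).mpr ⟨B.mul_mem (B.inv_mem hg2) hg1, ?_⟩⟩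
      simp only [Equiv.Perm.coe_mul, Function.comp_apply, hgx]
      simp
    -- the exponent p parts
    obtain ⟨e', he'⟩ : ∃ e', (univ.filter (fun g : Equiv.Perm Ω => g ∈ C ∧ g ^ p = 1)).card
        = p ^ e' := by
      have hP : IsPGroup p (expSub p C hcC) := by
        intro g
        refine ⟨1, Subtype.ext ?_⟩
        simpa using g.2.2
      obtain ⟨e', he'⟩ := IsPGroup.iff_card.mp hP
      refine ⟨e', ?_⟩
      rw [← he']
      symm
      apply Nat.subtype_card
      intro g
      simp only [mem_filter, mem_univ, true_and]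
      rfl
    have h_E_bound : p ^ e ≤ p ^ e' * O.card := by
      rw [← he, ← he']
      refine (fiber_bound (univ.filter (fun g : Equiv.Perm Ω => g ∈ B ∧ g ^ p = 1))
        (univ.filter (fun g : Equiv.Perm Ω => g ∈ C ∧ g ^ p = 1)) x ?_).trans ?_
      · intro g hg g₀ hg₀ hgx
        have hg1 := (mem_filter.mp hg).2
        have hg2 := (mem_filter.mp hg₀).2
        refine mem_filter.mpr ⟨mem_univ _, (memC _).mpr ⟨B.mul_mem (B.inv_mem hg2.1) hg1.1, ?_⟩, ?_⟩
        · simp only [Equiv.Perm.coe_mul, Function.comp_apply, hgx]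
          simp
        · have hc : Commute g₀⁻¹ g := hcB _ (B.inv_mem hg2.1) _ hg1.1
          rw [hc.mul_pow, inv_pow, hg2.2, hg1.2, inv_one, one_mul]
      · apply Nat.mul_le_mul_left
        apply card_le_card
        intro z hz
        obtain ⟨g, hg, rfl⟩ := mem_image.mp hz
        exact mem_image.mpr ⟨g, mem_filter.mpr ⟨mem_univ _, (mem_filter.mp hg).2.1⟩, rfl⟩
    have hyC : (y : Equiv.Perm Ω) ∉ C := fun h => hx ((memC _).mp h).2
    have he'lt : e' < e := by
      have hss : (univ.filter (fun g : Equiv.Perm Ω => g ∈ C ∧ g ^ p = 1))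
          ⊂ (univ.filter (fun g : Equiv.Perm Ω => g ∈ B ∧ g ^ p = 1)) := by
        refine (ssubset_iff_of_subset ?_).mpr ⟨y, ?_, ?_⟩
        · intro g hg
          have := (mem_filter.mp hg).2
          exact mem_filter.mpr ⟨mem_univ _, hCB this.1, this.2⟩
        · exact mem_filter.mpr ⟨mem_univ _, hyB, hyp⟩
        · intro h
          exact hyC (mem_filter.mp h).2.1
      have := card_lt_card hss
      rw [he, he'] at this
      exact (Nat.pow_lt_pow_iff_right hp.one_lt).mp this
    obtain ⟨r, rfl⟩ : ∃ r, e = e' + r := ⟨e - e', by omega⟩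
    have hr : 1 ≤ r := by omega
    have h_r : 2 ^ r ≤ O.card := by
      have h1 : p ^ r ≤ O.card := by
        rw [pow_add] at h_E_bound
        exact Nat.le_of_mul_le_mul_left h_E_bound (pow_pos hp.pos _)
      exact (Nat.pow_le_pow_left hp.two_le r).trans h1
    -- induction
    have hClt : Nat.card C < n := by
      rw [← hn, cardB, cardC]
      apply card_lt_card
      refine (ssubset_iff_of_subset ?_).mpr ⟨y, ?_, ?_⟩
      · intro g hg
        exact mem_filter.mpr ⟨mem_univ _, hCB (mem_filter.mp hg).2⟩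
      · exact mem_filter.mpr ⟨mem_univ _, hyB⟩
      · intro h
        exact hyC (mem_filter.mp h).2
    have hind := ih _ hClt C rfl (hCB.trans hBA) e' he'
    have hnum := numeric O.card (Nat.card C)
      (univ.filter (fun x : Ω => ∃ g ∈ C, g x ≠ x)).card r e' hr h_r hind
    -- supports
    have hdisj : Disjoint O (univ.filter (fun x : Ω => ∃ g ∈ C, g x ≠ x)) := by
      rw [Finset.disjoint_left]
      intro z hz hz'
      obtain ⟨h, hh, rfl⟩ := mem_image.mp hz
      obtain ⟨g, hg, hgz⟩ := (mem_filter.mp hz').2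
      apply hgz
      have hh' := (mem_filter.mp hh).2
      have hgB := hCB hg
      have e1 : g * h = h * g := hcB g hgB h hh'
      have e2 : g (h x) = (g * h) x := rfl
      rw [e2, e1, Equiv.Perm.mul_apply, ((memC g).mp hg).2]
    have hsub : O ∪ (univ.filter (fun x : Ω => ∃ g ∈ C, g x ≠ x))
        ⊆ (univ.filter (fun x : Ω => ∃ g ∈ B, g x ≠ x)) := by
      intro z hz
      rcases mem_union.mp hz with hz | hz
      · obtain ⟨h, hh, rfl⟩ := mem_image.mp hz
        have hh' := (mem_filter.mp hh).2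
        refine mem_filter.mpr ⟨mem_univ _, y, hyB, ?_⟩
        intro hcon
        have e1 : (y : Equiv.Perm Ω) * h = h * y := hcB _ hyB h hh'
        have e2 : (y : Equiv.Perm Ω) (h x) = ((y : Equiv.Perm Ω) * h) x := rfl
        rw [e2, e1, Equiv.Perm.mul_apply] at hcon
        exact hx (h.injective hcon)
      · obtain ⟨g, hg, hgz⟩ := (mem_filter.mp hz).2
        exact mem_filter.mpr ⟨mem_univ _, g, hCB hg, hgz⟩
    have hcard : O.card + (univ.filter (fun x : Ω => ∃ g ∈ C, g x ≠ x)).card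
        ≤ (univ.filter (fun x : Ω => ∃ g ∈ B, g x ≠ x)).card := by
      rw [← card_union_of_disjoint hdisj]
      exact card_le_card hsub
    calc Nat.card B * (e' + r) ^ (e' + r)
        ≤ (O.card * Nat.card C) * (e' + r) ^ (e' + r) := by
          apply Nat.mul_le_mul_right
          rw [mul_comm]; exact h_B_bound
      _ ≤ _ := hnum
      _ ≤ _ := Nat.pow_le_pow_left hcard _

/-- Let p be a prime, Ω a finite set with n ≥ p elements, and A an abelian p-subgroup of the symmetric group on Ω whose elements of order dividing p number p^k (so k is the rank of A). Then |A| · k^k ≤ n^k, that is, |A| ≤ (n/k)^k. -/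
theorem result {Ω : Type*} [Fintype Ω] [DecidableEq Ω]
    (p : ℕ) (hp : p.Prime) (hn : p ≤ Fintype.card Ω) (A : Subgroup (Equiv.Perm Ω)) (hA : IsPGroup p A) (hab : IsMulCommutative A)
    (k : ℕ) (hk : Nat.card {x : A // x ^ p = 1} = p ^ k) :
    Nat.card A * k ^ k ≤ Fintype.card Ω ^ k := by
  classical
  have hcomm : ∀ g ∈ A, ∀ h ∈ A, g * h = h * g := by
    intro g hg h hh
    have := hab.is_comm.comm ⟨g, hg⟩ ⟨h, hh⟩
    exact congrArg Subtype.val this
  have hk' : (univ.filter (fun g : Equiv.Perm Ω => g ∈ A ∧ g ^ p = 1)).card = p ^ k := by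
    rw [← hk]
    have e1 : Nat.card {x : A // x ^ p = 1} = Nat.card {g : Equiv.Perm Ω // g ∈ A ∧ g ^ p = 1} := by
      apply Nat.card_congr
      refine ⟨fun x => ⟨x.1.1, x.1.2, ?_⟩, fun g => ⟨⟨g.1, g.2.1⟩, Subtype.ext g.2.2⟩, ?_, ?_⟩
      · exact_mod_cast congrArg Subtype.val x.2
      · intro x; rfl
      · intro x; rfl
    rw [e1]
    symm
    apply Nat.subtype_card
    intro g
    simp
  have := main_ineq p hp A hA hcomm _ A rfl le_rfl k hk'
  refine this.trans (Nat.pow_le_pow_left ?_ _)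
  exact (card_le_univ _)

end Cfsg.Agent.S3696
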