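import Cfsg.Statements.S3703
import Cfsg.Agent.Lib.H1FrobK
import Cfsg.Agent.Lib.H1Small

set_option autoImplicit false
open Cfsg

namespace Cfsg.Agent.S3703

section Trace

/-- The trace identity: abstract version. -/
theorem trace_lemma {Γ V : Type*} [Group Γ] [CommGroup V] (ρ : Γ → V →* V)
    (hρ1 : ∀ v, ρ 1 v = v) (hρm : ∀ a b v, ρ (a * b) v = ρ a (ρ b v))
    (R : Subgroup Γ) [Fintype R] (h : Γ) (m : ℕ) (hm0 : 0 < m)
    (hN : h ∈ Subgroup.normalizer (R : Set Γ))
    (fpf : ∀ i, 0 < i → i < m → ∀ z ∈ R, h ^ i * z * (h ^ i)⁻¹ = z → z = 1)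
    (htr : ∀ v : V, ∏ i ∈ Finset.range m, ρ (h ^ i) v = 1)
    (hpow : ∀ w : V, w ^ (Fintype.card R) = 1 → w = 1) (t₀ : Γ) (ht₀ : t₀ ∈ R) (v : V) :
    ρ t₀ v = v := by
  classical
  have key1 : ∀ t₁ ∈ R, ∀ v₁ : V, ∏ t : R, ρ t (ρ t₁ v₁ / v₁) = 1 := by
    intro t₁ ht₁ v₁
    have h1 : ∏ t : R, ρ t (ρ t₁ v₁ / v₁) = (∏ t : R, ρ t (ρ t₁ v₁)) / ∏ t : R, ρ t v₁ := by
      rw [← Finset.prod_div_distrib]
      apply Finset.prod_congr rfl
      intro t _
      rw [map_div]
    rw [h1, div_eq_one]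
    calc ∏ t : R, ρ t (ρ t₁ v₁) = ∏ t : R, ρ ((t * ⟨t₁, ht₁⟩ : R) : Γ) v₁ := by
          apply Finset.prod_congr rfl
          intro t _
          rw [Subgroup.coe_mul, hρm]
      _ = ∏ t : R, ρ t v₁ := Equiv.prod_comp (Equiv.mulRight (⟨t₁, ht₁⟩ : R)) (fun t : R => ρ t v₁)
  set w := ρ t₀ v / v with hw
  have key2 : ∀ i, 0 < i → i < m → ∏ t : R, ρ ((t : Γ)⁻¹ * h ^ i * t) w = 1 := by
    intro i hi0 him
    have hNi : h ^ i ∈ Subgroup.normalizer (R : Set Γ) := Subgroup.pow_mem _ hN i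
    have hconj : ∀ x ∈ R, h ^ i * x * (h ^ i)⁻¹ ∈ R :=
      fun x hx => (Subgroup.mem_normalizer_iff.mp hNi x).mp hx
    let c : R → R := fun t => ⟨(t : Γ)⁻¹ * (h ^ i * t * (h ^ i)⁻¹),
      R.mul_mem (R.inv_mem t.2) (hconj t t.2)⟩
    have hinj : Function.Injective c := by
      intro s t hst
      have h2 : (s : Γ)⁻¹ * (h ^ i * s * (h ^ i)⁻¹) = (t : Γ)⁻¹ * (h ^ i * t * (h ^ i)⁻¹) :=
        congrArg Subtype.val hst
      have hmem : (s : Γ) * (t : Γ)⁻¹ ∈ R := R.mul_mem s.2 (R.inv_mem t.2)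
      have h3 : h ^ i * ((s : Γ) * (t : Γ)⁻¹) * (h ^ i)⁻¹ = (s : Γ) * (t : Γ)⁻¹ := by
        have h4 : h ^ i * (s : Γ) * (h ^ i)⁻¹ = (s : Γ) * ((t : Γ)⁻¹ * (h ^ i * t * (h ^ i)⁻¹)) := by
          rw [← h2]; group
        calc h ^ i * ((s : Γ) * (t : Γ)⁻¹) * (h ^ i)⁻¹
            = (h ^ i * (s : Γ) * (h ^ i)⁻¹) * (h ^ i * (t : Γ)⁻¹ * (h ^ i)⁻¹) := by group
          _ = (s : Γ) * (t : Γ)⁻¹ := by rw [h4]; group
      have h5 := fpf i hi0 him _ hmem h3
      exact Subtype.ext (mul_inv_eq_one.mp h5)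
    have hbij : Function.Bijective c := Finite.injective_iff_bijective.mp hinj
    have ht₁ : h ^ i * t₀ * (h ^ i)⁻¹ ∈ R := hconj t₀ ht₀
    have hwi : ρ (h ^ i) w = ρ (h ^ i * t₀ * (h ^ i)⁻¹) (ρ (h ^ i) v) / ρ (h ^ i) v := by
      rw [hw, map_div, ← hρm, ← hρm]
      congr 2
      group
    calc ∏ t : R, ρ ((t : Γ)⁻¹ * h ^ i * t) w = ∏ t : R, ρ (c t) (ρ (h ^ i) w) := by
          apply Finset.prod_congr rfl
          intro t _
          rw [← hρm]
          have e : (t : Γ)⁻¹ * h ^ i * t = ((c t : R) : Γ) * h ^ i := by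
            show (t : Γ)⁻¹ * h ^ i * t = ((t : Γ)⁻¹ * (h ^ i * t * (h ^ i)⁻¹)) * h ^ i
            group
          rw [e]
      _ = ∏ t : R, ρ t (ρ (h ^ i) w) := hbij.prod_comp (fun t : R => ρ t (ρ (h ^ i) w))
      _ = 1 := by
          rw [hwi]
          exact key1 _ ht₁ _
  have key3 : ∀ t : R, ∏ i ∈ Finset.range m, ρ ((t : Γ)⁻¹ * h ^ i * t) w = 1 := by
    intro t
    have h1 : ∀ i, ρ ((t : Γ)⁻¹ * h ^ i * t) w = ρ (t : Γ)⁻¹ (ρ (h ^ i) (ρ t w)) := by
      intro i
      rw [hρm, hρm]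
    simp_rw [h1]
    rw [← map_prod, htr, map_one]
  have key4 : ∏ t : R, ∏ i ∈ Finset.range m, ρ ((t : Γ)⁻¹ * h ^ i * t) w = 1 :=
    Finset.prod_eq_one (fun t _ => key3 t)
  rw [Finset.prod_comm, Finset.prod_eq_single 0] at key4
  · have h1 : ∀ t : R, ρ ((t : Γ)⁻¹ * h ^ 0 * t) w = w := by
      intro t
      have : (t : Γ)⁻¹ * h ^ 0 * t = 1 := by group
      rw [this, hρ1]
    simp_rw [h1] at key4
    rw [Finset.prod_const, Finset.card_univ] at key4
    have h2 := hpow w key4
    rw [hw, div_eq_one] at h2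
    exact h2
  · intro i hi hi0
    exact key2 i (Nat.pos_of_ne_zero hi0) (Finset.mem_range.mp hi)
  · intro h0
    exact absurd (Finset.mem_range.mpr hm0) h0

end Trace

section Conj

variable {G : Type*} [Group G] [Finite G]

/-- conjugation on `U` by an element normalizing it -/
def conjHom (U : Subgroup G) (g : Subgroup.normalizer (U : Set G)) : U →* U where
  toFun u := ⟨(g : G) * u * (g : G)⁻¹, (Subgroup.mem_normalizer_iff.mp g.2 u).mp u.2⟩
  map_one' := Subtype.ext (by simp)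
  map_mul' a b := Subtype.ext (by
    show (g : G) * ((a : G) * b) * (g : G)⁻¹ = ((g : G) * a * (g : G)⁻¹) * ((g : G) * b * (g : G)⁻¹)
    group)

theorem mem_norm_of_forall (R : Subgroup G) (g : G) (h : ∀ x ∈ R, g * x * g⁻¹ ∈ R) :
    g ∈ Subgroup.normalizer (R : Set G) := by
  have h1 : ∀ n : ℕ, ∀ x ∈ R, g ^ n * x * (g ^ n)⁻¹ ∈ R := by
    intro n
    induction n with
    | zero => intro x hx; simpa using hx
    | succ k ih =>
      intro x hx
      have := h _ (ih x hx)
      convert this using 1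
      rw [pow_succ']
      group
  rw [Subgroup.mem_normalizer_iff]
  intro x
  refine ⟨h x, fun hx => ?_⟩
  have h2 := h1 (orderOf g - 1) _ hx
  have h3 : g ^ (orderOf g - 1) * g = 1 := by
    rw [← pow_succ, Nat.sub_add_cancel (orderOf_pos g), pow_orderOf_eq_one]
  have h4 : g ^ (orderOf g - 1) = g⁻¹ := eq_inv_of_mul_eq_one_left h3
  rw [h4] at h2
  simpa [mul_assoc] using h2

/-- powers of `u * h`. -/
theorem pow_mul_expand (U : Subgroup G) (h : Subgroup.normalizer (U : Set G)) (u : U) :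
    ∀ n : ℕ, ∃ a : U, ((u : G) * h) ^ n = a * (h : G) ^ n ∧
      Abelianization.of a = ∏ i ∈ Finset.range n, Abelianization.of (conjHom U (h ^ i) u) := by
  intro n
  induction n with
  | zero => exact ⟨1, by simp, by simp⟩
  | succ k ih =>
    obtain ⟨a, ha, hb⟩ := ih
    refine ⟨a * conjHom U (h ^ k) u, ?_, ?_⟩
    · rw [pow_succ, ha]
      show _ = (a : G) * (((h ^ k : Subgroup.normalizer (U : Set G)) : G) * u *
        ((h ^ k : Subgroup.normalizer (U : Set G)) : G)⁻¹) * (h : G) ^ (k + 1)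
      simp only [Subgroup.coe_pow]
      rw [pow_succ]
      group
    · rw [map_mul, hb, Finset.prod_range_succ]

theorem ab_induction {U : Type*} [Group U] (P : Abelianization U → Prop)
    (h : ∀ x : U, P (Abelianization.of x)) (v : Abelianization U) : P v := by
  obtain ⟨x, rfl⟩ := QuotientGroup.mk_surjective v
  exact h x

/-- the centralizing lemma -/
theorem centralize {p r m : ℕ} (hp : p.Prime) (hr : r.Prime) (hpr : p ≠ r) (hm0 : 0 < m)
    (R : Subgroup G) (h : G) (hRr : IsPGroup r R) (hN : h ∈ Subgroup.normalizer (R : Set G))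
    (fpf : ∀ i, 0 < i → i < m → ∀ z ∈ R, h ^ i * z * (h ^ i)⁻¹ = z → z = 1) :
    ∀ (n : ℕ) (U : Subgroup G), Nat.card U = n → IsPGroup p U →
      (∀ t ∈ R, t ∈ Subgroup.normalizer (U : Set G)) → h ∈ Subgroup.normalizer (U : Set G) →
      (∀ u ∈ U, (u * h) ^ m = 1) → ∀ t ∈ R, ∀ u ∈ U, t * u * t⁻¹ = u := by
  classical
  haveI : Fact p.Prime := ⟨hp⟩
  intro n
  induction n using Nat.strong_induction_on with
  | _ n ih =>
    intro U hUc hUp hRU hhU hstar t ht u hu
    by_cases hnt : Nontrivial U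
    swap
    · rw [not_nontrivial_iff_subsingleton] at hnt
      have : (⟨u, hu⟩ : U) = 1 := Subsingleton.elim _ _
      have hu1 : u = 1 := congrArg Subtype.val this
      rw [hu1]; simp
    -- the commutator subgroup
    set W : Subgroup G := ⁅U, U⁆ with hWdef
    have hWU : W ≤ U := Subgroup.commutator_le_self U
    haveI hnil : Group.IsNilpotent U := hUp.isNilpotent
    have hlt : commutator U < ⊤ := IsSolvable.commutator_lt_top_of_nontrivial U
    have hWmap : (commutator U).map U.subtype = W := Subgroup.map_subtype_commutator U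
    have hWc : Nat.card W < n := by
      rw [← hUc]
      refine lt_of_le_of_ne (Subgroup.card_le_of_le hWU) (fun heq => ?_)
      have h1 := Subgroup.eq_of_le_of_card_ge hWU heq.ge
      apply hlt.ne
      rw [← Subgroup.map_injective U.subtype_injective |>.eq_iff]
      rw [hWmap, h1, ← MonoidHom.range_eq_map, Subgroup.range_subtype]
    have hnW : ∀ g ∈ Subgroup.normalizer (U : Set G), g ∈ Subgroup.normalizer (W : Set G) := by
      intro g hg
      apply mem_norm_of_forall
      intro x hx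
      have h1 : U.map (MulAut.conj g).toMonoidHom = U := by
        ext y
        constructor
        · rintro ⟨z, hz, rfl⟩
          exact (Subgroup.mem_normalizer_iff.mp hg z).mp hz
        · intro hy
          refine ⟨g⁻¹ * y * g, ?_, by
            show g * (g⁻¹ * y * g) * g⁻¹ = y
            group⟩
          apply (Subgroup.mem_normalizer_iff.mp hg _).mpr
          convert hy using 1
          group
      have h2 : g * x * g⁻¹ ∈ W.map (MulAut.conj g).toMonoidHom := ⟨x, hx, rfl⟩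
      rw [hWdef, Subgroup.map_commutator, h1] at h2
      exact h2
    have hWcent := ih _ hWc W rfl (hUp.to_le hWU) (fun t ht => hnW t (hRU t ht)) (hnW h hhU)
      (fun u hu => hstar u (hWU hu))
    -- the abelian section
    let Γ := Subgroup.normalizer (U : Set G)
    let V := Abelianization U
    let ρ : Γ → V →* V := fun g => Abelianization.map (conjHom U g)
    have hρof : ∀ g (x : U), ρ g (Abelianization.of x) = Abelianization.of (conjHom U g x) :=
      fun g x => Abelianization.map_of _ _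
    have hρ1 : ∀ v, ρ 1 v = v := by
      refine ab_induction _ (fun x => ?_)
      rw [hρof]
      congr 1
      exact Subtype.ext (by show ((1 : Γ) : G) * x * ((1 : Γ) : G)⁻¹ = x; simp)
    have hρm : ∀ a b v, ρ (a * b) v = ρ a (ρ b v) := by
      intro a b
      refine ab_induction _ (fun x => ?_)
      rw [hρof, hρof, hρof]
      congr 1
      exact Subtype.ext (by
        show ((a * b : Γ) : G) * x * ((a * b : Γ) : G)⁻¹ = (a : G) * ((b : G) * x * (b : G)⁻¹) * (a : G)⁻¹
        simp only [Subgroup.coe_mul]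
        group)
    let R' : Subgroup Γ := R.comap Γ.subtype
    haveI : Fintype R' := Fintype.ofFinite _
    let h' : Γ := ⟨h, hhU⟩
    have hR'r : IsPGroup r R' := by
      intro g
      obtain ⟨k, hk⟩ := hRr ⟨g.1, g.2⟩
      refine ⟨k, ?_⟩
      have h1 : ((g ^ r ^ k : R') : G) = 1 := by
        simpa using congrArg Subtype.val hk
      exact Subtype.ext (Subtype.ext h1)
    have hN' : h' ∈ Subgroup.normalizer (R' : Set Γ) := by
      rw [Subgroup.mem_normalizer_iff]
      intro x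
      exact Subgroup.mem_normalizer_iff.mp hN x.1
    have fpf' : ∀ i, 0 < i → i < m → ∀ z ∈ R', h' ^ i * z * (h' ^ i)⁻¹ = z → z = 1 := by
      intro i hi0 him z hz hzc
      have h1 := fpf i hi0 him z.1 hz (by
        have := congrArg Subtype.val hzc
        simpa using this)
      exact Subtype.ext h1
    have hh1 : h ^ m = 1 := by
      have := hstar 1 U.one_mem
      simpa using this
    have htr : ∀ v : V, ∏ i ∈ Finset.range m, ρ (h' ^ i) v = 1 := by
      refine ab_induction _ (fun x => ?_)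
      obtain ⟨a, ha, hb⟩ := pow_mul_expand U h' x m
      have h1 : ((x : G) * h) ^ m = 1 := hstar x x.2
      have h2 : a = 1 := by
        apply Subtype.ext
        have h3 : (a : G) * h ^ m = 1 := by rw [← h1]; exact ha.symm
        rw [hh1, mul_one] at h3
        exact h3
      simp_rw [hρof]
      rw [← hb, h2, map_one]
    have hpow : ∀ w : V, w ^ (Fintype.card R') = 1 → w = 1 := by
      refine ab_induction (fun w => w ^ (Fintype.card R') = 1 → w = 1) (fun x hw => ?_)
      obtain ⟨k, hk⟩ := hUp x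
      have h1 : (Abelianization.of x : V) ^ (p ^ k) = 1 := by rw [← map_pow, hk, map_one]
      have h2 := pow_gcd_eq_one.mpr ⟨hw, h1⟩
      haveI : Fact r.Prime := ⟨hr⟩
      obtain ⟨a, ha⟩ := (IsPGroup.iff_card.mp hR'r)
      have h3 : Nat.gcd (Fintype.card R') (p ^ k) = 1 := by
        rw [← Nat.card_eq_fintype_card, ha]
        exact Nat.Coprime.pow _ _ ((Nat.coprime_primes hr hp).mpr hpr.symm)
      rw [h3, pow_one] at h2
      exact h2
    have hmain := trace_lemma ρ hρ1 hρm R' h' m hm0 hN' fpf' htr hpow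
      ⟨t, hRU t ht⟩ ht (Abelianization.of ⟨u, hu⟩)
    rw [hρof] at hmain
    -- extract commutator membership
    have h1 : (Abelianization.of (conjHom U ⟨t, hRU t ht⟩ ⟨u, hu⟩) : V) = Abelianization.of ⟨u, hu⟩ := hmain
    have h2 : (⟨u, hu⟩ : U)⁻¹ * conjHom U ⟨t, hRU t ht⟩ ⟨u, hu⟩ ∈ commutator U := by
      have h3 : Abelianization.of ((⟨u, hu⟩ : U)⁻¹ * conjHom U ⟨t, hRU t ht⟩ ⟨u, hu⟩) = 1 := by
        rw [map_mul, map_inv, h1, inv_mul_cancel]
      rw [← Abelianization.ker_of]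
      exact h3
    set w : G := u⁻¹ * (t * u * t⁻¹) with hw
    have hwW : w ∈ W := by
      rw [← hWmap]
      exact ⟨_, h2, rfl⟩
    have htw : t * w * t⁻¹ = w := hWcent t ht w hwW
    have hpowt : ∀ k : ℕ, t ^ k * u * (t ^ k)⁻¹ = u * w ^ k := by
      intro k
      induction k with
      | zero => simp
      | succ k ihk =>
        have h3 : t * (u * w ^ k) * t⁻¹ = (t * u * t⁻¹) * (t * w * t⁻¹) ^ k := by
          rw [conj_pow]
          group
        calc t ^ (k + 1) * u * (t ^ (k + 1))⁻¹ = t * (t ^ k * u * (t ^ k)⁻¹) * t⁻¹ := by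
              rw [pow_succ']; group
          _ = (t * u * t⁻¹) * (t * w * t⁻¹) ^ k := by rw [ihk, h3]
          _ = u * w * w ^ k := by rw [htw, hw]; group
          _ = u * w ^ (k + 1) := by rw [pow_succ']; group
    obtain ⟨a, ha⟩ := hRr ⟨t, ht⟩
    have hta : t ^ (r ^ a) = 1 := congrArg Subtype.val ha
    have h5 := hpowt (r ^ a)
    rw [hta] at h5
    have h6 : w ^ (r ^ a) = 1 := by
      have : u = u * w ^ (r ^ a) := by simpa using h5
      exact mul_eq_left.mp this.symm
    obtain ⟨b, hb⟩ := hUp ⟨w, hWU hwW⟩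
    have h7 : w ^ (p ^ b) = 1 := congrArg Subtype.val hb
    have h8 := pow_gcd_eq_one.mpr ⟨h6, h7⟩
    have h9 : Nat.gcd (r ^ a) (p ^ b) = 1 :=
      Nat.Coprime.pow _ _ ((Nat.coprime_primes hr hp).mpr hpr.symm)
    rw [h9, pow_one] at h8
    rw [hw, inv_mul_eq_one] at h8
    exact h8.symm

theorem map_sylow {Y B : Type*} [Group Y] [Finite Y] [Group B] [Finite B] (π : Y →* B)
    (hπ : Function.Surjective π) (Rb : Subgroup B) {r : ℕ} (hr : r.Prime) [Fact r.Prime]
    (hRb : IsPGroup r Rb) (S : Sylow r (Rb.comap π)) :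
    ((S : Subgroup (Rb.comap π)).map (Rb.comap π).subtype).map π = Rb := by
  apply le_antisymm
  · rintro _ ⟨x, hx, rfl⟩
    exact (Subgroup.map_subtype_le (S : Subgroup (Rb.comap π))) hx
  · let f : (Rb.comap π) →* Rb := (π.comp (Rb.comap π).subtype).codRestrict Rb (fun x => x.2)
    have hf : Function.Surjective f := by
      intro z
      obtain ⟨y, hy⟩ := hπ z
      have hyK : y ∈ Rb.comap π := by
        show π y ∈ Rb
        rw [hy]; exact z.2
      exact ⟨⟨y, hyK⟩, Subtype.ext hy⟩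
    have h1 : ((S : Subgroup (Rb.comap π)).map f).index ∣ (S : Subgroup (Rb.comap π)).index :=
      Subgroup.index_map_dvd _ hf
    have h2 : ¬ r ∣ (S : Subgroup (Rb.comap π)).index := S.not_dvd_index
    have h3 : ((S : Subgroup (Rb.comap π)).map f).index ∣ Nat.card Rb := Subgroup.index_dvd_card _
    obtain ⟨n, hn⟩ := IsPGroup.iff_card.mp hRb
    rw [hn] at h3
    obtain ⟨k, -, hk⟩ := (Nat.dvd_prime_pow hr).mp h3
    have h4 : ((S : Subgroup (Rb.comap π)).map f).index = 1 := by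
      rcases Nat.eq_zero_or_pos k with rfl | hk0
      · simpa using hk
      · exfalso
        apply h2
        refine dvd_trans ?_ h1
        rw [hk]
        exact dvd_pow_self r hk0.ne'
    have h5 := Subgroup.index_eq_one.mp h4
    intro z hz
    have h6 : (⟨z, hz⟩ : Rb) ∈ (S : Subgroup (Rb.comap π)).map f := by rw [h5]; trivial
    obtain ⟨s, hs, hsz⟩ := h6
    exact ⟨s, ⟨s, hs, rfl⟩, congrArg Subtype.val hsz⟩

/-- Step A': reduction to a group with normal `P`. -/
theorem stepA {Y B : Type*} [Group Y] [Finite Y] [Group B] [Finite B] (π : Y →* B)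
    (hπ : Function.Surjective π) (Rb : Subgroup B) (hRbn : Rb.Normal) {r p m : ℕ} (hr : r.Prime) (hp : p.Prime)
    (hpr : p ≠ r) (hm0 : 0 < m)
    (hRb : IsPGroup r Rb) (hker : ¬ r ∣ Nat.card π.ker) (hb : B)
    (hfpf : ∀ i, 0 < i → i < m → ∀ z ∈ Rb, hb ^ i * z * (hb ^ i)⁻¹ = z → z = 1)
    (hstar : ∀ y : Y, π y = hb → y ^ m = 1)
    (P : Subgroup Y) (hPn : P.Normal) (hPp : IsPGroup p P) (hPk : P ≤ π.ker) :
    ∃ R₁ : Subgroup Y, IsPGroup r R₁ ∧ R₁.map π = Rb ∧ ∀ t ∈ R₁, ∀ u ∈ P, t * u * t⁻¹ = u := by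
  classical
  haveI : Fact r.Prime := ⟨hr⟩
  set K : Subgroup Y := Rb.comap π with hK
  haveI hKn : K.Normal := hRbn.comap π
  obtain ⟨S⟩ : Nonempty (Sylow r K) := inferInstance
  set R₁ : Subgroup Y := (S : Subgroup K).map K.subtype with hR₁
  have hR₁K : R₁ ≤ K := Subgroup.map_subtype_le _
  have hR₁p : IsPGroup r R₁ := S.isPGroup'.map K.subtype
  have hmap : R₁.map π = Rb := map_sylow π hπ Rb hr hRb S
  -- Frattini
  have hT := Sylow.normalizer_sup_eq_top S
  obtain ⟨a, ha⟩ := hπ hb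
  have ha' : a ∈ ((Subgroup.normalizer (((S : Subgroup K).map K.subtype : Subgroup Y) : Set Y) ⊔ K : Subgroup Y) : Set Y) := by
    rw [hT]; trivial
  rw [Subgroup.mul_normal] at ha'
  obtain ⟨b, hb', k, hk, rfl⟩ := Set.mem_mul.mp ha'
  have hkRb : π k ∈ Rb.map (MonoidHom.id B) := by
    exact ⟨π k, hk, rfl⟩
  have hk2 : π k ∈ R₁.map π := by rw [hmap]; exact hk
  obtain ⟨t, ht, htk⟩ := hk2
  have hbN : b ∈ Subgroup.normalizer (R₁ : Set Y) := hb'
  set h₁ := b * t with hh₁
  have hh₁N : h₁ ∈ Subgroup.normalizer (R₁ : Set Y) :=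
    Subgroup.mul_mem _ hbN (Subgroup.le_normalizer ht)
  have hπh₁ : π h₁ = hb := by
    rw [hh₁, map_mul, htk, ← map_mul, ha]
  have hker2 : ∀ z ∈ R₁, π z = 1 → z = 1 := by
    intro z hz hz1
    obtain ⟨c, hc⟩ := hR₁p ⟨z, hz⟩
    have hzc : z ^ r ^ c = 1 := congrArg Subtype.val hc
    have hz1' : z ∈ π.ker := hz1
    have h1 : orderOf (⟨z, hz1'⟩ : π.ker) ∣ Nat.card π.ker := orderOf_dvd_natCard _
    have h2 : orderOf z ∣ Nat.card π.ker := by
      rwa [Subgroup.orderOf_mk] at h1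
    have h3 : orderOf z ∣ r ^ c := orderOf_dvd_of_pow_eq_one hzc
    obtain ⟨e, -, he⟩ := (Nat.dvd_prime_pow hr).mp h3
    rcases Nat.eq_zero_or_pos e with rfl | he0
    · rw [pow_zero] at he
      exact orderOf_eq_one_iff.mp he
    · exfalso
      apply hker
      refine dvd_trans ?_ h2
      rw [he]
      exact dvd_pow_self r he0.ne'
  have fpf : ∀ i, 0 < i → i < m → ∀ z ∈ R₁, h₁ ^ i * z * (h₁ ^ i)⁻¹ = z → z = 1 := by
    intro i hi0 him z hz hzc
    apply hker2 z hz
    apply hfpf i hi0 him (π z) (hR₁K hz)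
    have := congrArg π hzc
    simpa [hπh₁] using this
  refine ⟨R₁, hR₁p, hmap, ?_⟩
  intro t' ht' u hu
  refine centralize hp hr hpr hm0 R₁ h₁ hR₁p hh₁N fpf _ P rfl hPp
    (fun x _ => Subgroup.mem_normalizer_iff.mpr (fun y => ?_)) (Subgroup.mem_normalizer_iff.mpr (fun y => ?_))
    (fun u hu => hstar _ ?_) t' ht' u hu
  · exact ⟨fun hy => hPn.conj_mem y hy x, fun hy => by
      have := hPn.conj_mem _ hy x⁻¹
      simpa [mul_assoc] using this⟩
  · exact ⟨fun hy => hPn.conj_mem y hy h₁, fun hy => by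
      have := hPn.conj_mem _ hy h₁⁻¹
      simpa [mul_assoc] using this⟩
  · rw [map_mul, hπh₁, (hPk hu : π u = 1), one_mul]

/-- The centralizer contains `R̄`. -/
theorem stepM (N : Subgroup G) [hN : N.Normal] (Rb : Subgroup (G ⧸ N)) (hRbn : Rb.Normal) {r m : ℕ}
    (hr : r.Prime) (hm0 : 0 < m) (hRb : IsPGroup r Rb) (hrN : ¬ r ∣ Nat.card N) (hb : G ⧸ N)
    (hfpf : ∀ i, 0 < i → i < m → ∀ z ∈ Rb, hb ^ i * z * (hb ^ i)⁻¹ = z → z = 1)
    (hstar : ∀ y : G, (y : G ⧸ N) = hb → y ^ m = 1) :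
    Rb ≤ (Subgroup.centralizer (N : Set G)).map (QuotientGroup.mk' N) := by
  classical
  haveI : Fact r.Prime := ⟨hr⟩
  set π : G →* G ⧸ N := QuotientGroup.mk' N with hπdef
  have hπ : Function.Surjective π := QuotientGroup.mk'_surjective N
  set K : Subgroup G := Rb.comap π with hK
  obtain ⟨S₀⟩ : Nonempty (Sylow r K) := inferInstance
  set R₀ : Subgroup G := (S₀ : Subgroup K).map K.subtype with hR₀
  have hR₀map : R₀.map π = Rb := map_sylow π hπ Rb hr hRb S₀
  have hrelt : ∀ z : G, z ∈ N → (∃ c : ℕ, z ^ r ^ c = 1) → z = 1 := by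
    rintro z hz ⟨c, hc⟩
    have h1 : orderOf (⟨z, hz⟩ : N) ∣ Nat.card N := orderOf_dvd_natCard _
    have h2 : orderOf z ∣ Nat.card N := by
      rwa [Subgroup.orderOf_mk] at h1
    have h3 : orderOf z ∣ r ^ c := orderOf_dvd_of_pow_eq_one hc
    obtain ⟨e, -, he⟩ := (Nat.dvd_prime_pow hr).mp h3
    rcases Nat.eq_zero_or_pos e with rfl | he0
    · rw [pow_zero] at he
      exact orderOf_eq_one_iff.mp he
    · exfalso
      apply hrN
      refine dvd_trans ?_ h2
      rw [he]
      exact dvd_pow_self r he0.ne'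
  -- for each Sylow of `N` a conjugate is centralized by `R₀`
  have hQ : ∀ (p : ℕ) (hp : p.Prime) (_ : Fact p.Prime) (P : Sylow p N), ∃ Q : Subgroup G, Nat.card Q = Nat.card P ∧
      Q ≤ N ⊓ Subgroup.centralizer (R₀ : Set G) := by
    intro p hp _ P
    by_cases hpr : p = r
    · subst hpr
      refine ⟨⊥, ?_, bot_le⟩
      rw [Subgroup.card_bot]
      obtain ⟨n, hn⟩ := IsPGroup.iff_card.mp P.isPGroup'
      have h1 : Nat.card (P : Subgroup N) ∣ Nat.card N := Subgroup.card_subgroup_dvd_card _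
      rw [Sylow.card_eq_multiplicity, Nat.factorization_eq_zero_of_not_dvd hrN, pow_zero]
    set PG : Subgroup G := (P : Subgroup N).map N.subtype with hPG
    have hT := Sylow.normalizer_sup_eq_top P
    set G₁ : Subgroup G := Subgroup.normalizer (PG : Set G) with hG₁
    let πY : G₁ →* G ⧸ N := π.comp G₁.subtype
    have hPGN : PG ≤ N := Subgroup.map_subtype_le _
    have hPGp : IsPGroup p PG := P.isPGroup'.map N.subtype
    have hπY : Function.Surjective πY := by
      intro z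
      obtain ⟨g, rfl⟩ := hπ z
      have hg : g ∈ ((G₁ ⊔ N : Subgroup G) : Set G) := by
        rw [hT]; trivial
      rw [Subgroup.mul_normal] at hg
      obtain ⟨a, ha, n, hn, rfl⟩ := Set.mem_mul.mp hg
      refine ⟨⟨a, ha⟩, ?_⟩
      show π a = π (a * n)
      have hn1 : π n = 1 := (QuotientGroup.eq_one_iff n).mpr hn
      rw [map_mul, hn1, mul_one]
    have hker : ¬ r ∣ Nat.card πY.ker := by
      intro h
      apply hrN
      refine h.trans ?_
      have h1 : πY.ker.map G₁.subtype ≤ N := by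
        rintro _ ⟨y, hy, rfl⟩
        exact (QuotientGroup.eq_one_iff _).mp hy
      have h2 := Subgroup.card_dvd_of_le h1
      rwa [show Nat.card (πY.ker.map G₁.subtype) = Nat.card πY.ker from
        Nat.card_congr (Subgroup.equivMapOfInjective _ _ G₁.subtype_injective).symm.toEquiv] at h2
    have hstarY : ∀ y : G₁, πY y = hb → y ^ m = 1 := by
      intro y hy
      apply Subtype.ext
      simpa using hstar y hy
    have hPYn : (PG.subgroupOf G₁).Normal := Subgroup.normal_in_normalizer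
    have hPYp : IsPGroup p (PG.subgroupOf G₁) := by
      intro g
      obtain ⟨k, hk⟩ := hPGp ⟨g.1.1, g.2⟩
      refine ⟨k, ?_⟩
      have h1 : ((g ^ p ^ k : PG.subgroupOf G₁) : G) = 1 := by
        simpa using congrArg Subtype.val hk
      exact Subtype.ext (Subtype.ext h1)
    have hPYk : PG.subgroupOf G₁ ≤ πY.ker := by
      intro y hy
      exact (QuotientGroup.eq_one_iff _).mpr (hPGN hy)
    obtain ⟨R₁', hR₁p', hR₁map', hR₁c'⟩ := stepA πY hπY Rb hRbn hr hp hpr hm0 hRb hker hb hfpf hstarY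
      (PG.subgroupOf G₁) hPYn hPYp hPYk
    set R₁ : Subgroup G := R₁'.map G₁.subtype with hR₁
    have hR₁p : IsPGroup r R₁ := hR₁p'.map G₁.subtype
    have hR₁map : R₁.map π = Rb := by
      rw [← hR₁map', hR₁, Subgroup.map_map]
    have hR₁K : R₁ ≤ K := by
      intro x hx
      show π x ∈ Rb
      rw [← hR₁map]
      exact ⟨x, hx, rfl⟩
    have hR₁c : ∀ t ∈ R₁, ∀ u ∈ PG, t * u * t⁻¹ = u := by
      rintro _ ⟨t, ht, rfl⟩ u hu
      have huG₁ : u ∈ G₁ := Subgroup.le_normalizer hu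
      have := hR₁c' t ht ⟨u, huG₁⟩ hu
      exact congrArg Subtype.val this
    -- `R₁` is Sylow in `K`
    have hS₁p : IsPGroup r (R₁.subgroupOf K) := by
      intro g
      obtain ⟨k, hk⟩ := hR₁p ⟨g.1.1, g.2⟩
      refine ⟨k, ?_⟩
      have h1 : ((g ^ r ^ k : R₁.subgroupOf K) : G) = 1 := by
        simpa using congrArg Subtype.val hk
      exact Subtype.ext (Subtype.ext h1)
    obtain ⟨S₁, hS₁⟩ := hS₁p.exists_le_sylow
    have hS₁R : ∀ s : K, s ∈ (S₁ : Subgroup K) → (s : G) ∈ R₁ := by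
      intro s hs
      have h1 : π s ∈ R₁.map π := by
        rw [hR₁map]; exact s.2
      obtain ⟨t, ht, htk⟩ := h1
      have htK : t ∈ K := hR₁K ht
      have htS : (⟨t, htK⟩ : K) ∈ (S₁ : Subgroup K) := hS₁ ht
      have h2 : (⟨t, htK⟩ : K)⁻¹ * s ∈ (S₁ : Subgroup K) := Subgroup.mul_mem _ (Subgroup.inv_mem _ htS) hs
      obtain ⟨c, hc⟩ := S₁.isPGroup' ⟨_, h2⟩
      have h3 : (t⁻¹ * (s : G)) ^ r ^ c = 1 := by
        simpa using congrArg (fun x => ((x : (S₁ : Subgroup K)) : K).1) hc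
      have h4 : t⁻¹ * (s : G) ∈ N := by
        apply (QuotientGroup.eq_one_iff _).mp
        show π (t⁻¹ * (s : G)) = 1
        rw [map_mul, map_inv, htk, inv_mul_cancel]
      have h5 := hrelt _ h4 ⟨c, h3⟩
      rw [inv_mul_eq_one] at h5
      rw [← h5]
      exact ht
    obtain ⟨x, hx⟩ := MulAction.exists_smul_eq K S₁ S₀
    refine ⟨PG.map (MulAut.conj (x : G)).toMonoidHom, ?_, ?_⟩
    · rw [show Nat.card (PG.map (MulAut.conj (x : G)).toMonoidHom) = Nat.card PG from
        Nat.card_congr (Subgroup.equivMapOfInjective _ _ (MulAut.conj (x : G)).injective).symm.toEquiv]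
      exact Nat.card_congr (Subgroup.equivMapOfInjective _ _ N.subtype_injective).symm.toEquiv
    · rintro _ ⟨u, hu, rfl⟩
      refine ⟨hN.conj_mem u (hPGN hu) x, ?_⟩
      show _ ∈ Subgroup.centralizer (R₀ : Set G)
      rw [Subgroup.mem_centralizer_iff]
      rintro _ ⟨s₀, hs₀, rfl⟩
      -- `s₀ = x s x⁻¹`
      have hs₀' : s₀ ∈ ((x • S₁ : Sylow r K) : Subgroup K) := by rw [hx]; exact hs₀
      rw [Cfsg.Agent.Lib.H1Small.mem_smul_sylow] at hs₀'
      have h1 := hS₁R _ hs₀'
      have h2 := hR₁c _ h1 u hu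
      have h3 : (x⁻¹ * s₀ * x : K).1 = (x : G)⁻¹ * s₀ * x := rfl
      rw [h3] at h2
      show (s₀ : G) * ((x : G) * u * (x : G)⁻¹) = ((x : G) * u * (x : G)⁻¹) * s₀
      have h4 : (s₀ : G) = (x : G) * ((x : G)⁻¹ * s₀ * x) * (x : G)⁻¹ := by group
      generalize (x : G)⁻¹ * s₀ * x = s at h2 h4
      rw [h4]
      have h5 : s * u = u * s := by
        have := congrArg (· * s) h2
        simpa [mul_assoc] using this
      calc (x : G) * s * (x : G)⁻¹ * ((x : G) * u * (x : G)⁻¹)
          = (x : G) * (s * u) * (x : G)⁻¹ := by group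
        _ = (x : G) * (u * s) * (x : G)⁻¹ := by rw [h5]
        _ = _ := by group
  have hdvd : Nat.card N ∣ Nat.card (N ⊓ Subgroup.centralizer (R₀ : Set G) : Subgroup G) := by
    rw [Nat.dvd_iff_prime_pow_dvd_dvd]
    intro p k hp hk
    haveI : Fact p.Prime := ⟨hp⟩
    obtain ⟨P⟩ : Nonempty (Sylow p N) := inferInstance
    obtain ⟨Q, hQc, hQle⟩ := hQ p hp inferInstance P
    have h1 := P.pow_dvd_card_of_pow_dvd_card hk
    rw [← hQc] at h1
    exact h1.trans (Subgroup.card_dvd_of_le hQle)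
  have hle : N ≤ Subgroup.centralizer (R₀ : Set G) :=
    inf_eq_left.mp (Subgroup.eq_of_le_of_card_ge inf_le_left (Nat.le_of_dvd Nat.card_pos hdvd))
  intro z hz
  rw [← hR₀map] at hz
  obtain ⟨s₀, hs₀, rfl⟩ := hz
  refine ⟨s₀, ?_, rfl⟩
  show s₀ ∈ Subgroup.centralizer (N : Set G)
  rw [Subgroup.mem_centralizer_iff]
  intro n hn
  exact (Subgroup.mem_centralizer_iff.mp (hle hn) s₀ hs₀).symm

end Conj

/-- Elements of order `p * m` from a lift with nontrivial `m`-th power. -/
theorem order_lemma {G : Type*} [Group G] [Finite G] (N : Subgroup G) [N.Normal] (hb : G ⧸ N) (m : ℕ)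
    (hm0 : 0 < m) (hord : orderOf hb = m) (y : G) (hy : (y : G ⧸ N) = hb) (hym : y ^ m ≠ 1) :
    ∃ p : ℕ, p.Prime ∧ p ∣ Nat.card N ∧ ∃ g : G, orderOf g = p * m := by
  have h1 : y ^ m ∈ N := by
    apply (QuotientGroup.eq_one_iff _).mp
    rw [QuotientGroup.mk_pow, hy, ← hord, pow_orderOf_eq_one]
  set s := orderOf (y ^ m) with hs
  have hs1 : s ≠ 1 := fun h => hym (orderOf_eq_one_iff.mp h)
  have hsN : s ∣ Nat.card N := by
    have := orderOf_dvd_natCard (⟨y ^ m, h1⟩ : N)
    rwa [Subgroup.orderOf_mk] at this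
  have hp := Nat.minFac_prime hs1
  have hps := Nat.minFac_dvd s
  refine ⟨s.minFac, hp, hps.trans hsN, ?_⟩
  have hmy : m ∣ orderOf y := by
    have := orderOf_map_dvd (QuotientGroup.mk' N) y
    rwa [show (QuotientGroup.mk' N) y = hb from hy, hord] at this
  have hs2 : s = orderOf y / m := by
    rw [hs, orderOf_pow' y hm0.ne', Nat.gcd_eq_right hmy]
  have hoy : orderOf y = m * s := by
    rw [hs2, Nat.mul_div_cancel' hmy]
  obtain ⟨c, hc⟩ := hps
  have hspos : 0 < s := orderOf_pos _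
  have hc0 : c ≠ 0 := by
    rintro rfl
    simp at hc
    omega
  refine ⟨y ^ c, ?_⟩
  have h3 : orderOf y = (s.minFac * m) * c := by
    rw [hoy]
    nth_rw 1 [hc]
    ring
  rw [orderOf_pow' y hc0, h3, Nat.gcd_eq_right (dvd_mul_left c _), Nat.mul_div_cancel _ (Nat.pos_of_ne_zero hc0)]

/-- Let N be a normal subgroup of the finite group G such that G/N is a Frobenius group with kernel F and cyclic complement H, where the order of F is coprime to that of N and F is not contained in the image of C_G(N) in G/N. Then G has an element of order p·#H for some prime p dividing the order of N. (A standard tool in recognising groups by their element orders.) -/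
theorem result {G : Type*} [Group G] [Finite G] (N : Subgroup G) [N.Normal]
    (Fb Hb : Subgroup (G ⧸ N)) [Fb.Normal] (hHb : Cfsg.IsFrobeniusComplement Hb) (hker : Cfsg.frobeniusKernel Hb = (Fb : Set (G ⧸ N)))
    (hcyc : IsCyclic Hb) (hcop : (Nat.card Fb).Coprime (Nat.card N))
    (hnot : ¬ Fb ≤ (Subgroup.centralizer (N : Set G)).map (QuotientGroup.mk' N)) :
    ∃ p : ℕ, p.Prime ∧ p ∣ Nat.card N ∧ ∃ g : G, orderOf g = p * Nat.card Hb := by

  classical
  haveI : Fintype (G ⧸ N) := Fintype.ofFinite _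
  obtain ⟨N₀, hN₀s, hN₀n, hc⟩ := Cfsg.Agent.Lib.H1FrobThm.frobenius_theorem hHb
  have hN₀ : N₀ = Fb := by
    apply SetLike.coe_injective
    rw [hN₀s, hker]
  subst hN₀
  have hnil := Cfsg.Agent.Lib.H1FrobK.kernel_nilpotent hHb hc
  obtain ⟨g, hg⟩ := IsCyclic.exists_generator (α := Hb)
  set hb : G ⧸ N := (g : G ⧸ N) with hhb
  set m := Nat.card Hb with hm
  have hm0 : 0 < m := Nat.card_pos
  have hord : orderOf hb = m := (Subgroup.orderOf_coe g).trans (orderOf_eq_card_of_forall_mem_zpowers hg)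
  by_cases hstar : ∀ y : G, (y : G ⧸ N) = hb → y ^ m = 1
  · exfalso
    apply hnot
    set D : Subgroup (G ⧸ N) := (Subgroup.centralizer (N : Set G)).map (QuotientGroup.mk' N) with hD
    have hdvd : Nat.card N₀ ∣ Nat.card (N₀ ⊓ D : Subgroup (G ⧸ N)) := by
      rw [Nat.dvd_iff_prime_pow_dvd_dvd]
      intro r k hr hk
      rcases Nat.eq_zero_or_pos k with rfl | hk0
      · simp
      have hrF : r ∣ Nat.card N₀ := (dvd_pow_self r hk0.ne').trans hk
      have hrN : ¬ r ∣ Nat.card N := by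
        intro h
        have := Nat.dvd_gcd hrF h
        rw [hcop.gcd_eq_one] at this
        exact hr.one_lt.ne' (Nat.dvd_one.mp this)
      haveI : Fact r.Prime := ⟨hr⟩
      obtain ⟨Q⟩ : Nonempty (Sylow r N₀) := inferInstance
      have hQn : (Q : Subgroup N₀).Normal :=
        Sylow.normal_of_normalizerCondition (normalizerCondition_of_isNilpotent) Q
      have hQc : (Q : Subgroup N₀).Characteristic := Sylow.characteristic_of_normal Q hQn
      set Rb : Subgroup (G ⧸ N) := (Q : Subgroup N₀).map N₀.subtype with hRb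
      have hRbn : Rb.Normal := by
        constructor
        rintro _ ⟨q, hq, rfl⟩ x
        refine ⟨MulAut.conjNormal x q, ?_, ?_⟩
        · have h1 := hQc.fixed (MulAut.conjNormal x)
          rw [← h1] at hq
          exact hq
        · rfl
      have hRbp : IsPGroup r Rb := Q.isPGroup'.map N₀.subtype
      have hRbF : Rb ≤ N₀ := Subgroup.map_subtype_le _
      have hfpf : ∀ i, 0 < i → i < m → ∀ z ∈ Rb, hb ^ i * z * (hb ^ i)⁻¹ = z → z = 1 := by
        intro i hi0 him z hz hzc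
        have h1 : hb ^ i ∈ Hb := Subgroup.pow_mem _ g.2 i
        have h2 : hb ^ i ≠ 1 := pow_ne_one_of_lt_orderOf hi0.ne' (by rw [hord]; exact him)
        have h3 := Cfsg.Agent.Lib.H1FrobK.fpf_of_frob hHb hc h1 h2
        have h4 : z ∈ N₀ ⊓ Subgroup.centralizer ({hb ^ i} : Set (G ⧸ N)) := by
          refine ⟨hRbF hz, ?_⟩
          show z ∈ Subgroup.centralizer ({hb ^ i} : Set (G ⧸ N))
          rw [Subgroup.mem_centralizer_singleton_iff]
          exact (mul_inv_eq_iff_eq_mul.mp hzc).symm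
        rw [h3] at h4
        exact h4
      have hle := stepM N Rb hRbn hr hm0 hRbp hrN hb hfpf hstar
      have h5 : r ^ k ∣ Nat.card Q := Q.pow_dvd_card_of_pow_dvd_card hk
      have h6 : Nat.card Rb = Nat.card Q :=
        Nat.card_congr (Subgroup.equivMapOfInjective _ _ N₀.subtype_injective).symm.toEquiv
      rw [← h6] at h5
      exact h5.trans (Subgroup.card_dvd_of_le (le_inf hRbF hle))
    exact inf_eq_left.mp (Subgroup.eq_of_le_of_card_ge inf_le_left (Nat.le_of_dvd Nat.card_pos hdvd))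
  · push_neg at hstar
    obtain ⟨y, hy, hym⟩ := hstar
    exact order_lemma N hb m hm0 hord y hy hym

end Cfsg.Agent.S3703
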