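import Cfsg.Statements.S3736
import Cfsg.Agent.Lib.CritAut
import Cfsg.Agent.Lib.H1Cop
import Cfsg.Agent.Lib.H1Odd2
import Cfsg.Agent.Lib.Herstein
-- import your own Cfsg.Agent.* helpers here

set_option autoImplicit false
open Cfsg

namespace Cfsg.Agent.S3736

open Subgroup
open scoped commutatorElement

/-- The Hall–Higman reduction for a minimal non-trivial action. Let B, A and P be subgroups of a finite group with P a p-group, B normalizing P, and A a normal subgroup of B of order prime to p. Suppose A does not centralize P but centralizes every proper B-invariant subgroup of P. Then [P, A] = P; P is elementary abelian or special; B acts irreducibly on P/Φ(P), that is, the only B-invariant subgroups of P containing Φ(P) are Φ(P) and P; and if p is odd then every element of P has order dividing p. -/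
theorem result {X : Type*} [Group X] [Finite X] {p : ℕ} [Fact p.Prime] (B A P : Subgroup X) (hP : IsPGroup p P) (hBP : B ≤ Subgroup.normalizer (P : Set X)) (hAB : A ≤ B) (hAn : B ≤ Subgroup.normalizer (A : Set X)) (hAp : (Nat.card A).Coprime p) (hnt : ⁅P, A⁆ ≠ ⊥) (hmin : ∀ U : Subgroup X, U < P → B ≤ Subgroup.normalizer (U : Set X) → ⁅U, A⁆ = ⊥) : ⁅P, A⁆ = P ∧ (Cfsg.IsElementaryAbelian p P ∨ Cfsg.IsSpecial p ↥P) ∧ (∀ U : Subgroup X, (frattini ↥P).map P.subtype ≤ U → U ≤ P → B ≤ Subgroup.normalizer (U : Set X) → U = (frattini ↥P).map P.subtype ∨ U = P) ∧ (p ≠ 2 → ∀ x ∈ P, x ^ p = 1) := by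
  classical
  have hprime : p.Prime := Fact.out
  have hAP : A ≤ normalizer (P : Set X) := hAB.trans hBP
  have hPne : P ≠ ⊥ := by
    rintro rfl
    apply hnt
    exact Subgroup.commutator_bot_left A
  haveI hQnt : Nontrivial ↥P := (Subgroup.nontrivial_iff_ne_bot P).mpr hPne
  have hchar : ∀ T : Subgroup ↥P, T.Characteristic →
      B ≤ normalizer ((T.map P.subtype : Subgroup X) : Set X) := by
    intro T hT b hb
    apply Lib.Herstein.mem_normalizer_of_conj_le
    rintro _ ⟨t, ht, rfl⟩
    have hbP := hBP hb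
    let φ : MulAut ↥P := Subgroup.normalizerMonoidHom P ⟨b, hbP⟩
    have h1 : T.comap φ.toMonoidHom = T := Subgroup.characteristic_iff_comap_eq.mp hT φ
    have h2 : φ t ∈ T := by
      have : t ∈ T.comap φ.toMonoidHom := by rw [h1]; exact ht
      exact this
    exact ⟨φ t, h2, rfl⟩
  have hcentU : ∀ U : Subgroup X, U ≤ P → U ≠ P → B ≤ normalizer (U : Set X) →
      U ≤ centralizer (A : Set X) := by
    intro U hU hne hB'
    have := hmin U (lt_of_le_of_ne hU hne) hB'
    exact Subgroup.commutator_eq_bot_iff_le_centralizer.mp this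
  have hsolvP : Group.IsSolvable ↥P := by haveI := hP.isNilpotent; infer_instance
  have hcop : (Nat.card A).Coprime (Nat.card P) := by
    obtain ⟨n, hn⟩ := IsPGroup.iff_card.mp hP
    rw [hn]; exact Nat.Coprime.pow_right _ hAp
  have hsup := Lib.H1Cop.commutator_sup_centralizer hAP hcop (Or.inr hsolvP)
  have hle : ⁅P, A⁆ ≤ P := Lib.H1Cop.commutator_le_left hAP
  have hBinv : B ≤ normalizer ((⁅P, A⁆ : Subgroup X) : Set X) := by
    intro b hb
    apply Lib.Herstein.mem_normalizer_of_conj_le
    have : ⁅P, A⁆ ≤ (⁅P, A⁆ : Subgroup X).comap (MulAut.conj b).toMonoidHom := by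
      rw [Subgroup.commutator_le]
      intro u hu a ha
      show b * ⁅u, a⁆ * b⁻¹ ∈ ⁅P, A⁆
      have e : b * ⁅u, a⁆ * b⁻¹ = ⁅b * u * b⁻¹, b * a * b⁻¹⁆ := by
        simp only [commutatorElement_def]; group
      rw [e]
      exact Subgroup.commutator_mem_commutator ((mem_normalizer_iff.mp (hBP hb) u).mp hu)
        ((mem_normalizer_iff.mp (hAn hb) a).mp ha)
    intro w hw
    exact this hw
  have hPA : ⁅P, A⁆ = P := by
    by_contra hne
    have hc1 := hcentU _ hle hne hBinv
    apply hnt
    have : P ≤ centralizer (A : Set X) := by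
      conv_lhs => rw [← hsup]
      exact sup_le hc1 inf_le_right
    exact Subgroup.commutator_eq_bot_iff_le_centralizer.mpr this
  have hPcen : P ⊓ centralizer (A : Set X) ≤ ⁅P, P⁆ := by
    set N := normalizer (P : Set X) with hN
    have hPN : P ≤ N := Subgroup.le_normalizer
    haveI hH' : (P.subgroupOf N).Normal := by
      rw [← Subgroup.normalizer_eq_top_iff]
      rw [eq_top_iff]
      rintro ⟨g, hg⟩ -
      rw [mem_normalizer_iff]
      rintro ⟨k, hk⟩
      simp only [Subgroup.mem_subgroupOf, MulMemClass.coe_mul, InvMemClass.coe_inv]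
      exact (mem_normalizer_iff.mp hg k)
    have hcop' : (Nat.card (A.subgroupOf N)).Coprime (Nat.card (P.subgroupOf N)) := by
      have h1 : Nat.card (A.subgroupOf N) = Nat.card A :=
        Nat.card_congr (Subgroup.subgroupOfEquivOfLe hAP).toEquiv
      have h2 : Nat.card (P.subgroupOf N) = Nat.card P :=
        Nat.card_congr (Subgroup.subgroupOfEquivOfLe hPN).toEquiv
      rw [h1, h2]; exact hcop
    have hmapP : (P.subgroupOf N).map N.subtype = P := Subgroup.map_subgroupOf_eq_of_le hPN
    have hmapA : (A.subgroupOf N).map N.subtype = A := Subgroup.map_subgroupOf_eq_of_le hAP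
    have hHK : P.subgroupOf N = ⁅P.subgroupOf N, A.subgroupOf N⁆ := by
      apply Subgroup.map_injective N.subtype_injective
      rw [Subgroup.map_commutator, hmapP, hmapA, hPA]
    have h := Lib.H1Odd2.inf_centralizer_le_commutator hcop' hHK
    intro u hu
    have huN : u ∈ N := hPN hu.1
    have h2 : (⟨u, huN⟩ : N) ∈ P.subgroupOf N ⊓ centralizer ((A.subgroupOf N : Subgroup N) : Set N) := by
      refine ⟨hu.1, Subgroup.mem_centralizer_iff.mpr ?_⟩
      intro k hk
      apply Subtype.ext
      exact mem_centralizer_iff.mp hu.2 k hk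
    have h3 := h h2
    have h4 := Subgroup.mem_map_of_mem N.subtype h3
    rwa [Subgroup.map_commutator, hmapP] at h4
  set Φ : Subgroup X := (frattini ↥P).map P.subtype with hΦdef
  have hΦP : Φ ≤ P := Subgroup.map_subtype_le _
  have hΦne : Φ ≠ P := by
    intro h
    obtain ⟨M, hM⟩ : ∃ M : Subgroup ↥P, IsCoatom M := by
      obtain h | ⟨M, hM, -⟩ := eq_top_or_exists_le_coatom (⊥ : Subgroup ↥P)
      · exact absurd h bot_ne_top
      · exact ⟨M, hM⟩
    apply hM.1
    rw [eq_top_iff]
    rintro v -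
    have hv : (v : X) ∈ Φ := by rw [h]; exact v.2
    obtain ⟨w, hw, hwv⟩ := hv
    have : w = v := Subtype.ext hwv
    rw [← this]
    exact Lib.H1Frat.mem_frattini.1 hw M hM
  have hΦA : Φ ≤ centralizer (A : Set X) := hcentU Φ hΦP hΦne (hchar _ inferInstance)
  have hΦcomm : Φ ≤ ⁅P, P⁆ := fun x hx => hPcen ⟨hΦP hx, hΦA hx⟩
  have hmapc : (commutator ↥P).map P.subtype = ⁅P, P⁆ := Subgroup.map_subtype_commutator P
  have hQfc : frattini ↥P ≤ commutator ↥P := by
    rw [← Subgroup.map_le_map_iff_of_injective P.subtype_injective, hmapc]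
    exact hΦcomm
  have hQcf : commutator ↥P ≤ frattini ↥P := Lib.PGrp.commutator_le_frattini hP
  have hPPΦ : ⁅P, P⁆ ≤ Φ := by
    rw [← hmapc]
    exact Subgroup.map_mono hQcf
  have hΦcen : Φ ≤ centralizer (P : Set X) := by
    have h1 : ⁅⁅A, Φ⁆, P⁆ ≤ (⊥ : Subgroup X) := by
      have : ⁅A, Φ⁆ = ⊥ := by
        rw [Subgroup.commutator_comm]
        exact Subgroup.commutator_eq_bot_iff_le_centralizer.mpr hΦA
      rw [this, Subgroup.commutator_bot_left]
    have h2 : ⁅⁅Φ, P⁆, A⁆ ≤ (⊥ : Subgroup X) := by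
      have h3 : ⁅Φ, P⁆ ≤ Φ := by
        rw [Subgroup.commutator_le]
        rintro _ ⟨u, hu, rfl⟩ v hv
        have hn : (frattini ↥P).Normal := inferInstance
        have h4 := (frattini ↥P).mul_mem hu (hn.conj_mem u⁻¹ ((frattini ↥P).inv_mem hu) ⟨v, hv⟩)
        refine ⟨_, h4, ?_⟩
        simp [commutatorElement_def, mul_assoc]
      have h5 : ⁅Φ, A⁆ = ⊥ := Subgroup.commutator_eq_bot_iff_le_centralizer.mpr hΦA
      calc ⁅⁅Φ, P⁆, A⁆ ≤ ⁅Φ, A⁆ := Subgroup.commutator_mono h3 le_rfl
        _ = ⊥ := h5
    have h3 := Lib.FGSBasic.three_subgroups ⊥ P A Φ h1 h2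
    rw [hPA] at h3
    rw [← Subgroup.commutator_eq_bot_iff_le_centralizer, Subgroup.commutator_comm]
    exact le_bot_iff.mp h3
  have hQcen : ∀ z ∈ frattini ↥P, ∀ v : ↥P, v * z = z * v := by
    intro z hz v
    apply Subtype.ext
    exact mem_centralizer_iff.mp (hΦcen (Subgroup.mem_map_of_mem P.subtype hz)) v v.2
  refine ⟨hPA, ?_, ?_, ?_⟩
  · by_cases hab : commutator ↥P = ⊥
    · left
      have hf : frattini ↥P = ⊥ := le_bot_iff.mp (hQfc.trans hab.le)
      constructor
      · refine ⟨⟨fun a b => ?_⟩⟩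
        have h1 : ⁅a, b⁆ ∈ commutator ↥P := by
          rw [_root_.commutator_def]
          exact Subgroup.commutator_mem_commutator (mem_top _) (mem_top _)
        rw [hab, mem_bot, commutatorElement_eq_one_iff_mul_comm] at h1
        exact h1
      · intro a ha
        have h1 := Lib.PGrp.pow_mem_frattini hP (⟨a, ha⟩ : ↥P)
        rw [hf, mem_bot] at h1
        exact congrArg Subtype.val h1
    · right
      have hctop : center ↥P ≠ ⊤ := by
        intro h
        apply hab
        rw [eq_bot_iff, _root_.commutator_def, Subgroup.commutator_le]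
        intro a _ b _
        have h1 : a ∈ center ↥P := by rw [h]; trivial
        rw [mem_bot, commutatorElement_eq_one_iff_mul_comm]
        exact (Subgroup.mem_center_iff.mp h1 b).symm
      have hmne : (center ↥P).map P.subtype ≠ P := by
        intro h
        apply hctop
        rw [eq_top_iff]
        rintro v -
        have hv : (v : X) ∈ (center ↥P).map P.subtype := by rw [h]; exact v.2
        obtain ⟨w, hw, hwv⟩ := hv
        have : w = v := Subtype.ext hwv
        rwa [← this]
      have hZ := hcentU _ (Subgroup.map_subtype_le _) hmne (hchar _ inferInstance)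
      have hZc : center ↥P ≤ commutator ↥P := by
        rw [← Subgroup.map_le_map_iff_of_injective P.subtype_injective, hmapc]
        intro x hx
        exact hPcen ⟨Subgroup.map_subtype_le _ hx, hZ hx⟩
      have hfZ : frattini ↥P ≤ center ↥P := by
        intro z hz
        exact Subgroup.mem_center_iff.mpr (fun v => hQcen z hz v)
      exact ⟨hP, le_antisymm hfZ (hZc.trans hQcf), le_antisymm (hQcf.trans hfZ) hZc⟩
  · intro U hΦU hUP hUB
    by_cases hUeq : U = P
    · exact Or.inr hUeq
    · left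
      apply le_antisymm _ hΦU
      intro x hx
      exact hPPΦ (hPcen ⟨hUP hx, hcentU U hUP hUeq hUB hx⟩)
  · intro hp2
    have hpowF : ∀ x : ↥P, x ^ p ∈ frattini ↥P := fun x => Lib.PGrp.pow_mem_frattini hP x
    have hcF : ∀ a b : ↥P, (a * b)⁻¹ * (b * a) ∈ frattini ↥P := by
      intro a b
      have h1 : ⁅b⁻¹, a⁻¹⁆ ∈ commutator ↥P := by
        rw [_root_.commutator_def]
        exact Subgroup.commutator_mem_commutator (mem_top _) (mem_top _)
      have h3 : (a * b)⁻¹ * (b * a) = ⁅b⁻¹, a⁻¹⁆ := by
        rw [commutatorElement_def]; group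
      rw [h3]; exact hQcf h1
    have hmul : ∀ a b : ↥P, (a * b) ^ p = a ^ p * b ^ p := by
      intro a b
      set c := (a * b)⁻¹ * (b * a) with hc
      have hcc := hQcen c (hcF a b)
      have hab : b * a = a * b * c := by rw [hc]; group
      have h1 := Lib.CritAut.pow_class_two hcc hab p
      have hcp : c ^ p = 1 := by
        have h3 := Lib.CritAut.pow_comm_class_two hcc hab p
        have h4 : b ^ p * a = a * b ^ p := (hQcen _ (hpowF b) a).symm
        rw [h4] at h3
        exact (mul_left_cancel (a := a * b ^ p) (by rw [mul_one]; exact h3)).symm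
      obtain ⟨k, hk⟩ : Odd p := hprime.odd_of_ne_two hp2
      have h2 : p * (p - 1) / 2 = p * k := by
        have : p - 1 = 2 * k := by omega
        rw [this]
        rw [show p * (2 * k) = 2 * (p * k) by ring]
        exact Nat.mul_div_cancel_left _ (by norm_num)
      rw [h2, pow_mul, hcp, one_pow, mul_one] at h1
      exact h1
    let π : ↥P →* ↥P := MonoidHom.mk' (fun x => x ^ p) hmul
    have hπ : ∀ x, π x = x ^ p := fun x => rfl
    have hk : ⁅P, A⁆ ≤ π.ker.map P.subtype := by
      rw [Subgroup.commutator_le]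
      intro u hu a ha
      have hvP : a * u⁻¹ * a⁻¹ ∈ P := (mem_normalizer_iff.mp (hAP ha) u⁻¹).mp (P.inv_mem hu)
      refine ⟨(⟨u, hu⟩ : ↥P) * ⟨a * u⁻¹ * a⁻¹, hvP⟩, ?_, ?_⟩
      · show _ ∈ π.ker
        rw [MonoidHom.mem_ker, hπ, hmul]
        apply Subtype.ext
        simp only [MulMemClass.coe_mul, SubmonoidClass.coe_pow, Subgroup.coe_one]
        have hz : a * u ^ p * a⁻¹ = u ^ p := by
          have h1 : (u ^ p) ∈ Φ := ⟨(⟨u, hu⟩ : ↥P) ^ p, hpowF _, rfl⟩
          have h2 := mem_centralizer_iff.mp (hΦA h1) a ha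
          rw [h2]; group
        have h3 : (a * u⁻¹ * a⁻¹) ^ p = (u ^ p)⁻¹ := by
          rw [conj_pow, inv_pow]
          calc a * (u ^ p)⁻¹ * a⁻¹ = (a * u ^ p * a⁻¹)⁻¹ := by group
            _ = (u ^ p)⁻¹ := by rw [hz]
        rw [h3]; group
      · simp only [Subgroup.coe_subtype, MulMemClass.coe_mul]
        rw [commutatorElement_def]; group
    intro x hx
    rw [← hPA] at hx
    obtain ⟨k, hk1, rfl⟩ := hk hx
    have : π k = 1 := hk1
    rw [hπ] at this
    exact congrArg Subtype.val this

end Cfsg.Agent.S3736
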