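import Cfsg.Statements.S3766
import Mathlib
import Cfsg.Agent.Lib.H1Core
import Cfsg.Agent.Lib.H1Fit
import Cfsg.Agent.Lib.FGSBasic
import Cfsg.Agent.Lib.FGS4
import Cfsg.Agent.Lib.Comp
import Cfsg.Agent.Lib.Comp2
import Cfsg.Agent.Lib.H9Two
-- import your own Cfsg.Agent.* helpers here

set_option autoImplicit false
open Cfsg

namespace Cfsg.Agent.S3766

open Subgroup
open scoped commutatorElement

section
variable {G : Type*} [Group G] [Finite G]

/-- chief factors -/
def IsChiefPair (U V : Subgroup G) : Prop :=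
  U.Normal ∧ V.Normal ∧ V < U ∧ ∀ W : Subgroup G, W.Normal → V ≤ W → W ≤ U → W = V ∨ W = U

/-- a normal nilpotent subgroup centralizes every chief factor -/
theorem nilp_centralizes {F : Subgroup G} (hFn : F.Normal) (hF : Group.IsNilpotent F) {U V : Subgroup G}
    (hc : IsChiefPair U V) : ∀ u ∈ U, ∀ f ∈ F, u * f * u⁻¹ * f⁻¹ ∈ V := by
  classical
  obtain ⟨hUn, hVn, hlt, hmin⟩ := hc
  let T : Subgroup G :=
    { carrier := {x | x ∈ U ∧ ∀ f ∈ F, x * f * x⁻¹ * f⁻¹ ∈ V}
      mul_mem' := by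
        rintro x y ⟨hx, hx'⟩ ⟨hy, hy'⟩
        refine ⟨mul_mem hx hy, fun f hf => ?_⟩
        have e : x * y * f * (x * y)⁻¹ * f⁻¹ = x * (y * f * y⁻¹ * f⁻¹) * x⁻¹ * (x * f * x⁻¹ * f⁻¹) := by
          group
        rw [e]
        exact mul_mem (hVn.conj_mem _ (hy' f hf) x) (hx' f hf)
      one_mem' := ⟨one_mem _, fun f _ => by simp [one_mem]⟩
      inv_mem' := by
        rintro x ⟨hx, hx'⟩
        refine ⟨inv_mem hx, fun f hf => ?_⟩
        have e : x⁻¹ * f * x⁻¹⁻¹ * f⁻¹ = x⁻¹ * (x * f * x⁻¹ * f⁻¹)⁻¹ * x⁻¹⁻¹ := by group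
        rw [e]
        exact hVn.conj_mem _ (inv_mem (hx' f hf)) _ }
  have hTn : T.Normal := by
    constructor
    rintro x ⟨hx, hx'⟩ g
    refine ⟨hUn.conj_mem x hx g, fun f hf => ?_⟩
    have h1 := hx' (g⁻¹ * f * g) (by simpa using hFn.conj_mem f hf g⁻¹)
    have e : g * x * g⁻¹ * f * (g * x * g⁻¹)⁻¹ * f⁻¹ =
        g * (x * (g⁻¹ * f * g) * x⁻¹ * (g⁻¹ * f * g)⁻¹) * g⁻¹ := by group
    rw [e]
    exact hVn.conj_mem _ h1 g
  have hVT : V ≤ T := by
    intro v hv
    refine ⟨hlt.le hv, fun f _ => ?_⟩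
    have e : v * f * v⁻¹ * f⁻¹ = v * (f * v⁻¹ * f⁻¹) := by group
    rw [e]
    exact mul_mem hv (hVn.conj_mem _ (inv_mem hv) f)
  have hTU : T ≤ U := fun x hx => hx.1
  rcases hmin T hTn hVT hTU with h | h
  · exfalso
    -- `U ∩ F ≤ V`
    have hZ : ∀ i, ∀ x : F, x ∈ Subgroup.upperCentralSeries F i → (x : G) ∈ U → (x : G) ∈ V := by
      intro i
      induction i with
      | zero =>
        intro x hx _
        have : x = 1 := by simpa using hx
        rw [this]; exact one_mem _
      | succ i ih =>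
        intro x hx hxU
        rw [← h]
        refine ⟨hxU, fun f hf => ?_⟩
        have h1 := Subgroup.mem_upperCentralSeries_succ_iff.mp hx ⟨f, hf⟩
        have hcoe : ((⁅x, (⟨f, hf⟩ : F)⁆ : F) : G) = (x : G) * f * (x : G)⁻¹ * f⁻¹ := by
          simp [commutatorElement_def]
        have hU : (x : G) * f * (x : G)⁻¹ * f⁻¹ ∈ U := by
          have e : (x : G) * f * (x : G)⁻¹ * f⁻¹ = x * (f * (x : G)⁻¹ * f⁻¹) := by group
          rw [e]
          exact mul_mem hxU (hUn.conj_mem _ (inv_mem hxU) f)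
        rw [← hcoe] at hU ⊢
        exact ih _ h1 hU
    obtain ⟨n, hn⟩ := hF.nilpotent
    have hUF : ∀ x ∈ U, x ∈ F → x ∈ V := by
      intro x hxU hxF
      refine hZ n ⟨x, hxF⟩ ?_ hxU
      rw [hn]; exact mem_top _
    have hUV : U ≤ T := by
      intro u hu
      refine ⟨hu, fun f hf => ?_⟩
      apply hUF
      · have e : u * f * u⁻¹ * f⁻¹ = u * (f * u⁻¹ * f⁻¹) := by group
        rw [e]
        exact mul_mem hu (hUn.conj_mem _ (inv_mem hu) f)
      · exact mul_mem (hFn.conj_mem f hf u) (inv_mem hf)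
    rw [h] at hUV
    exact absurd hUV (not_le_of_gt hlt)
  · intro u hu f hf
    rw [← h] at hu
    exact hu.2 f hf

theorem exists_chief {W : Subgroup G} (hW : W.Normal) (hne : W ≠ ⊥) : ∃ V, IsChiefPair W V := by
  classical
  let S : Set (Subgroup G) := {V | V.Normal ∧ V < W}
  have hbot : (⊥ : Subgroup G) ∈ S := ⟨inferInstance, bot_lt_iff_ne_bot.mpr hne⟩
  obtain ⟨V, -, hV⟩ := (Set.toFinite S).exists_le_maximal hbot
  obtain ⟨hVn, hVlt⟩ := hV.prop
  refine ⟨V, hW, hVn, hVlt, ?_⟩
  intro K hK hVK hKW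
  by_cases h : K = W
  · exact Or.inr h
  · left
    exact le_antisymm (hV.le_of_ge ⟨hK, lt_of_le_of_ne hKW h⟩ hVK) hVK

/-- coprime elements stabilizing a chief series of a normal `p`-subgroup centralize it -/
theorem coprime_centralizes {F : Subgroup G} {p : ℕ} {c : G} (hcp : (orderOf c).Coprime p)
    (hc : ∀ U V : Subgroup G, IsChiefPair U V → U ≤ F → ∀ u ∈ U, u * c * u⁻¹ * c⁻¹ ∈ V)
    (W : Subgroup G) : W.Normal → W ≤ F → IsPGroup p W → ∀ w ∈ W, c * w * c⁻¹ = w := by
  induction W using WellFoundedLT.induction with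
  | ind W ih =>
    intro hWn hWF hWp w hw
    by_cases hb : W = ⊥
    · subst hb
      have : w = 1 := by simpa using hw
      rw [this]; group
    obtain ⟨V, hV⟩ := exists_chief hWn hb
    have hVn : V.Normal := hV.2.1
    have hVlt : V < W := hV.2.2.1
    have hVc := ih V hVlt hVn (hVlt.le.trans hWF) (hWp.to_le hVlt.le)
    have h1 := hc W V hV hWF w hw
    have h2 : c * w * c⁻¹ * w⁻¹ ∈ V := by
      have e : c * w * c⁻¹ * w⁻¹ = (w * c * w⁻¹ * c⁻¹)⁻¹ := by group
      rw [e]; exact inv_mem h1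
    obtain ⟨k, hk⟩ := hWp ⟨_, hVlt.le h2⟩
    have hk' : (c * w * c⁻¹ * w⁻¹) ^ p ^ k = 1 := by simpa using congrArg Subtype.val hk
    exact Lib.H9Two.fixed_of_quot hcp rfl (hVc _ h2) hk'

/-- the main direction -/
theorem main_mem [Group.IsSolvable G] (N : Subgroup G) [hNn : N.Normal] (g : G) (hgN : g ∈ N)
    (hg : ∀ U V : Subgroup G, IsChiefPair U V → U ≤ (Cfsg.fittingSubgroup ↥N).map N.subtype →
      ∀ u ∈ U, u * g * u⁻¹ * g⁻¹ ∈ V) : g ∈ (Cfsg.fittingSubgroup ↥N).map N.subtype := by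
  classical
  set F := (Cfsg.fittingSubgroup ↥N).map N.subtype with hF
  haveI hFc : (Cfsg.fittingSubgroup ↥N).Characteristic := Lib.Comp.fitting_characteristic
  haveI hFn : F.Normal := Lib.H1Core.normal_map_of_characteristic N _
  have hFN : F ≤ N := by
    rintro _ ⟨x, -, rfl⟩
    exact x.2
  haveI hNsol : Group.IsSolvable N := inferInstance
  have hFnil : Group.IsNilpotent F := by
    have e := (Cfsg.fittingSubgroup ↥N).equivMapOfInjective N.subtype N.subtype_injective
    have := Lib.H1Core.fittingSubgroup_isNilpotent (G := N)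
    exact (Group.isNilpotent_congr e).mp this
  -- the subgroup `C`
  let C : Subgroup G :=
    { carrier := {c | c ∈ N ∧ ∀ U V : Subgroup G, IsChiefPair U V → U ≤ F → ∀ u ∈ U, u * c * u⁻¹ * c⁻¹ ∈ V}
      mul_mem' := by
        rintro x y ⟨hx, hx'⟩ ⟨hy, hy'⟩
        refine ⟨mul_mem hx hy, fun U V hc hU u hu => ?_⟩
        have hVn : V.Normal := hc.2.1
        have e : u * (x * y) * u⁻¹ * (x * y)⁻¹ = (u * x * u⁻¹ * x⁻¹) * (x * (u * y * u⁻¹ * y⁻¹) * x⁻¹) := by
          group
        rw [e]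
        exact mul_mem (hx' U V hc hU u hu) (hVn.conj_mem _ (hy' U V hc hU u hu) x)
      one_mem' := ⟨one_mem _, fun U V hc _ u _ => by simp [one_mem]⟩
      inv_mem' := by
        rintro x ⟨hx, hx'⟩
        refine ⟨inv_mem hx, fun U V hc hU u hu => ?_⟩
        have hVn : V.Normal := hc.2.1
        have e : u * x⁻¹ * u⁻¹ * x⁻¹⁻¹ = x⁻¹ * (u * x * u⁻¹ * x⁻¹)⁻¹ * x⁻¹⁻¹ := by group
        rw [e]
        exact hVn.conj_mem _ (inv_mem (hx' U V hc hU u hu)) _ }
  have hCn : C.Normal := by
    constructor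
    rintro x ⟨hx, hx'⟩ a
    refine ⟨hNn.conj_mem x hx a, fun U V hc hU u hu => ?_⟩
    have hVn : V.Normal := hc.2.1
    have hUn : U.Normal := hc.1
    have h1 := hx' U V hc hU (a⁻¹ * u * a) (by simpa using hUn.conj_mem u hu a⁻¹)
    have e : u * (a * x * a⁻¹) * u⁻¹ * (a * x * a⁻¹)⁻¹ =
        a * ((a⁻¹ * u * a) * x * (a⁻¹ * u * a)⁻¹ * x⁻¹) * a⁻¹ := by group
    rw [e]
    exact hVn.conj_mem _ h1 a
  -- the `p`-parts of `F`
  let Fp : ℕ → Subgroup G := fun p => (Cfsg.pCore p F).map F.subtype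
  have hFpn : ∀ p, (Fp p).Normal := by
    intro p
    haveI : (Cfsg.pCore p F).Characteristic := Lib.Comp2.pCore_char p
    exact Lib.H1Core.normal_map_of_characteristic F _
  have hFpF : ∀ p, Fp p ≤ F := by
    rintro p _ ⟨x, -, rfl⟩
    exact x.2
  have hFpp : ∀ p, p.Prime → IsPGroup p (Fp p) := by
    intro p hp
    haveI : Fact p.Prime := ⟨hp⟩
    exact (Lib.H1Core.pCore_isPGroup (G := F) p).map _
  have hprim : ∀ (w : G), w ∈ F → ∀ r k : ℕ, r.Prime → orderOf w = r ^ k → w ∈ Fp r := by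
    intro w hw r k hr hk
    refine ⟨⟨w, hw⟩, ?_, rfl⟩
    apply Lib.FGS4.mem_pCore_of_mem_fitting hr
    · exact Lib.H1Core.le_fittingSubgroup (inferInstance) (by
        have e : (⊤ : Subgroup F) ≃* F := Subgroup.topEquiv
        exact (Group.isNilpotent_congr e).mpr hFnil) (mem_top _)
    · rw [Subgroup.orderOf_mk]; exact hk
  -- primary elements of `C` lie in `F`
  have hprimary : ∀ c ∈ C, ∀ q e : ℕ, q.Prime → orderOf c = q ^ e → c ∈ F := by
    intro c hc q e hq hce
    haveI : Fact q.Prime := ⟨hq⟩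
    let E : Subgroup G :=
      { carrier := {x | x ∈ C ∧ ∀ p : ℕ, p.Prime → p ≠ q → ∀ w ∈ Fp p, x * w = w * x}
        mul_mem' := by
          rintro x y ⟨hx, hx'⟩ ⟨hy, hy'⟩
          refine ⟨mul_mem hx hy, fun p hp hpq w hw => ?_⟩
          have h1 : Commute x w := hx' p hp hpq w hw
          have h2 : Commute y w := hy' p hp hpq w hw
          exact h1.mul_left h2
        one_mem' := ⟨one_mem _, fun p _ _ w _ => by simp⟩
        inv_mem' := by
          rintro x ⟨hx, hx'⟩
          refine ⟨inv_mem hx, fun p hp hpq w hw => ?_⟩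
          have h1 : Commute x w := hx' p hp hpq w hw
          exact h1.inv_left }
    have hEC : E ≤ C := fun x hx => hx.1
    have hEn : E.Normal := by
      constructor
      rintro x ⟨hx, hx'⟩ a
      refine ⟨hCn.conj_mem x hx a, fun p hp hpq w hw => ?_⟩
      have h1 : a⁻¹ * w * a ∈ Fp p := by simpa using (hFpn p).conj_mem w hw a⁻¹
      have h2 := hx' p hp hpq _ h1
      calc a * x * a⁻¹ * w = a * (x * (a⁻¹ * w * a)) * a⁻¹ := by group
        _ = a * ((a⁻¹ * w * a) * x) * a⁻¹ := by rw [h2]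
        _ = _ := by group
    have hcE : c ∈ E := by
      refine ⟨hc, fun p hp hpq w hw => ?_⟩
      have hcop : (orderOf c).Coprime p := by
        rw [hce]
        exact Nat.Coprime.pow_left _ ((Nat.coprime_primes hq hp).mpr hpq.symm)
      have h1 := coprime_centralizes hcop hc.2 (Fp p) (hFpn p) (hFpF p) (hFpp p hp) w hw
      rw [mul_inv_eq_iff_eq_mul] at h1
      exact h1
    -- `q'`-elements of `E` are central in `E`
    have hEcent : ∀ y ∈ E, (orderOf y).Coprime q → ∀ x ∈ E, x * y = y * x := by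
      intro y hy hyc x hx
      -- `y` centralizes `F`
      have hyF : ∀ w ∈ F, y * w = w * y := by
        intro w hw
        have h1 := Lib.FGSBasic.mem_closure_primePow_parts w
        have h2 : closure {v | v ∈ zpowers w ∧ ∃ r k : ℕ, r.Prime ∧ orderOf v = r ^ k} ≤
            centralizer ({y} : Set G) := by
          rw [closure_le]
          rintro v ⟨hv, r, k, hr, hvk⟩
          have hvF : v ∈ F := (Subgroup.zpowers_le.mpr hw) hv
          have hvp := hprim v hvF r k hr hvk
          show v ∈ centralizer ({y} : Set G)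
          rw [Subgroup.mem_centralizer_singleton_iff]
          by_cases hrq : r = q
          · subst hrq
            have h3 := coprime_centralizes hyc hy.1.2 (Fp r) (hFpn r) (hFpF r) (hFpp r hr) v hvp
            rw [mul_inv_eq_iff_eq_mul] at h3
            exact h3.symm
          · exact (hy.2 r hr hrq v hvp).symm
        have h3 := h2 h1
        rw [Subgroup.mem_centralizer_singleton_iff] at h3
        exact h3.symm
      -- so `y ∈ F`
      have hyN : y ∈ N := (hEC hy).1
      have hyFit : y ∈ F := by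
        have h1 : (⟨y, hyN⟩ : N) ∈ centralizer ((Cfsg.fittingSubgroup ↥N : Subgroup N) : Set N) := by
          rw [Subgroup.mem_centralizer_iff]
          intro w hw
          apply Subtype.ext
          have := hyF w ⟨w, hw, rfl⟩
          simpa using this.symm
        exact ⟨_, Lib.H1Fit.centralizer_fitting_le h1, rfl⟩
      -- so `x` commutes with `y`
      have h1 := Lib.FGSBasic.mem_closure_primePow_parts y
      have h2 : closure {v | v ∈ zpowers y ∧ ∃ r k : ℕ, r.Prime ∧ orderOf v = r ^ k} ≤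
          centralizer ({x} : Set G) := by
        rw [closure_le]
        rintro v ⟨hv, r, k, hr, hvk⟩
        have hvF : v ∈ F := (Subgroup.zpowers_le.mpr hyFit) hv
        have hvp := hprim v hvF r k hr hvk
        show v ∈ centralizer ({x} : Set G)
        rw [Subgroup.mem_centralizer_singleton_iff]
        by_cases hv1 : v = 1
        · rw [hv1]; simp
        have hrq : r ≠ q := by
          rintro rfl
          have h3 : orderOf v ∣ orderOf y := orderOf_dvd_of_mem_zpowers hv
          have h4 : orderOf v = 1 := by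
            have h5 : Nat.Coprime (orderOf v) (r ^ k) := by
              exact Nat.Coprime.pow_right _ (Nat.Coprime.coprime_dvd_left h3 hyc)
            exact Nat.Coprime.eq_one_of_dvd h5 (by rw [hvk])
          exact hv1 (orderOf_eq_one_iff.mp h4)
        exact (hx.2 r hr hrq v hvp).symm
      have h3 := h2 h1
      rw [Subgroup.mem_centralizer_singleton_iff] at h3
      exact h3.symm
    have hqp : IsPGroup q (E ⧸ center E) := by
      intro z
      obtain ⟨e', rfl⟩ := QuotientGroup.mk'_surjective (center E) z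
      obtain ⟨s, t, hs, ht, hst, ⟨k, hk⟩, htc⟩ := Lib.FGSBasic.exists_p_decomp q (e' : G)
      have hzle : zpowers (e' : G) ≤ E := (Subgroup.zpowers_le).mpr e'.2
      have hsE := hzle hs
      have htE := hzle ht
      refine ⟨k, ?_⟩
      rw [← map_pow, QuotientGroup.mk'_apply, QuotientGroup.eq_one_iff]
      have e1 : e' = ⟨s, hsE⟩ * ⟨t, htE⟩ := Subtype.ext hst.symm
      have htcent : (⟨t, htE⟩ : E) ∈ center E := by
        rw [Subgroup.mem_center_iff]
        intro x
        apply Subtype.ext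
        exact hEcent t htE htc x x.2
      have hcomm : Commute (⟨s, hsE⟩ : E) ⟨t, htE⟩ := (Subgroup.mem_center_iff.mp htcent _)
      rw [e1, hcomm.mul_pow]
      have h1 : (⟨s, hsE⟩ : E) ^ q ^ k = 1 := by
        apply Subtype.ext
        simpa [← hk] using pow_orderOf_eq_one s
      rw [h1, one_mul]
      exact pow_mem htcent _
    haveI := hqp.isNilpotent
    have hEnil : Group.IsNilpotent E := of_quotient_center_nilpotent this
    have hEN : E ≤ N := fun x hx => hx.1.1
    have h1 : E.subgroupOf N ≤ Cfsg.fittingSubgroup N := by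
      apply Lib.H1Core.le_fittingSubgroup
      · exact Subgroup.Normal.subgroupOf hEn N
      · exact (Group.isNilpotent_congr (Subgroup.subgroupOfEquivOfLe hEN)).mpr hEnil
    exact ⟨⟨c, hEN hcE⟩, h1 (Subgroup.mem_subgroupOf.mpr hcE), rfl⟩
  -- general elements
  have hgC : g ∈ C := ⟨hgN, hg⟩
  have h1 := Lib.FGSBasic.mem_closure_primePow_parts g
  have h2 : closure {v | v ∈ zpowers g ∧ ∃ r k : ℕ, r.Prime ∧ orderOf v = r ^ k} ≤ F := by
    rw [closure_le]
    rintro v ⟨hv, r, k, hr, hvk⟩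
    exact hprimary v ((Subgroup.zpowers_le.mpr hgC) hv) r k hr hvk
  exact h2 h1

end

/-- Let G be a finite solvable group and N a normal subgroup of G. Call a pair V < U of normal subgroups of G a chief factor of G when no normal subgroup of G lies strictly between them; an element g centralizes the chief factor U/V when u g u⁻¹ g⁻¹ ∈ V for all u ∈ U. Then an element of G lies in the Fitting subgroup F(N) if and only if it lies in N and centralizes every chief factor of G; and also if and only if it lies in N and centralizes every chief factor U/V of G with U ≤ F(N). -/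
theorem result {G : Type*} [Group G] [Finite G] (hG : Group.IsSolvable G) (N : Subgroup G) [N.Normal] (g : G) : (g ∈ (Cfsg.fittingSubgroup ↥N).map N.subtype ↔ g ∈ N ∧ ∀ U V : Subgroup G, (U.Normal ∧ V.Normal ∧ V < U ∧ ∀ W : Subgroup G, W.Normal → V ≤ W → W ≤ U → W = V ∨ W = U) → ∀ u ∈ U, u * g * u⁻¹ * g⁻¹ ∈ V) ∧ (g ∈ (Cfsg.fittingSubgroup ↥N).map N.subtype ↔ g ∈ N ∧ ∀ U V : Subgroup G, (U.Normal ∧ V.Normal ∧ V < U ∧ ∀ W : Subgroup G, W.Normal → V ≤ W → W ≤ U → W = V ∨ W = U) → U ≤ (Cfsg.fittingSubgroup ↥N).map N.subtype → ∀ u ∈ U, u * g * u⁻¹ * g⁻¹ ∈ V) := by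
  haveI := hG
  have ha : ∀ g ∈ (Cfsg.fittingSubgroup ↥N).map N.subtype, g ∈ N ∧ ∀ U V : Subgroup G, (U.Normal ∧ V.Normal ∧ V < U ∧ ∀ W : Subgroup G, W.Normal → V ≤ W → W ≤ U → W = V ∨ W = U) → ∀ u ∈ U, u * g * u⁻¹ * g⁻¹ ∈ V := by
    intro g hg
    haveI hFc : (Cfsg.fittingSubgroup ↥N).Characteristic := Lib.Comp.fitting_characteristic
    have hFn : ((Cfsg.fittingSubgroup ↥N).map N.subtype).Normal := Lib.H1Core.normal_map_of_characteristic N _
    have hFnil : Group.IsNilpotent ((Cfsg.fittingSubgroup ↥N).map N.subtype) := by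
      have e := (Cfsg.fittingSubgroup ↥N).equivMapOfInjective N.subtype N.subtype_injective
      have := Lib.H1Core.fittingSubgroup_isNilpotent (G := N)
      exact (Group.isNilpotent_congr e).mp this
    refine ⟨?_, fun U V hc u hu => nilp_centralizes hFn hFnil hc u hu g hg⟩
    obtain ⟨x, -, rfl⟩ := hg
    exact x.2
  constructor
  · exact ⟨ha g, fun h => main_mem N g h.1 (fun U V hc _ => h.2 U V hc)⟩
  · exact ⟨fun h => ⟨(ha g h).1, fun U V hc _ => (ha g h).2 U V hc⟩, fun h => main_mem N g h.1 h.2⟩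

end Cfsg.Agent.S3766
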