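import Cfsg.Statements.S3785
import Cfsg.Agent.Lib.FGS4
import Cfsg.Agent.Lib.CritAut
-- import your own Cfsg.Agent.* helpers here

set_option autoImplicit false
open Cfsg

namespace Cfsg.Agent.S3785

open Subgroup

/-- Let G be a finite solvable group whose Fitting subgroup F(G) has odd order. If an element g of G commutes with every element of prime order of F(G), then g ∈ F(G). -/
theorem result {G : Type*} [Group G] [Finite G] (hG : Group.IsSolvable G) (hodd : Odd (Nat.card (Cfsg.fittingSubgroup G))) (g : G) (hg : ∀ x ∈ Cfsg.fittingSubgroup G, (orderOf x).Prime → g * x = x * g) : g ∈ Cfsg.fittingSubgroup G := by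
  classical
  haveI := hG
  haveI hFn : (fittingSubgroup G).Normal := Lib.H1Core.fittingSubgroup_normal G
  set X : Set G := {x | x ∈ fittingSubgroup G ∧ (orderOf x).Prime} with hX
  set C := Subgroup.centralizer X with hCdef
  have hCn : C.Normal := by
    constructor
    intro c hc h
    rw [Subgroup.mem_centralizer_iff] at hc ⊢
    intro x hx
    have hx' : h⁻¹ * x * h ∈ X := by
      refine ⟨?_, ?_⟩
      · have := hFn.conj_mem x hx.1 h⁻¹; simpa using this
      · have e : h⁻¹ * x * h = h⁻¹ * x * h⁻¹⁻¹ := by group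
        rw [e, Lib.FGSBasic.orderOf_conj]; exact hx.2
    have := hc _ hx'
    calc x * (h * c * h⁻¹) = h * ((h⁻¹ * x * h) * c) * h⁻¹ := by group
      _ = h * (c * (h⁻¹ * x * h)) * h⁻¹ := by rw [this]
      _ = h * c * h⁻¹ * x := by group
  have hgC : g ∈ C := by
    rw [Subgroup.mem_centralizer_iff]
    intro x hx
    exact (hg x hx.1 hx.2).symm
  have step0 : ∀ y ∈ C, ∀ (p b : ℕ) (x : G), p.Prime → (orderOf y).Coprime p → x ∈ fittingSubgroup G →
      orderOf x = p ^ b → y * x = x * y := by
    intro y hy p b x hp hcop hxF hxo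
    haveI : Fact p.Prime := ⟨hp⟩
    have hxQ : x ∈ pCore p G := Lib.FGS4.mem_pCore_of_mem_fitting hp x hxF hxo
    haveI hQn := Lib.H1Core.pCore_normal p G
    have hQF : pCore p G ≤ fittingSubgroup G := Lib.H1Core.pCore_le_fitting p
    by_cases hp2 : p = 2
    · subst hp2
      have hdvd : orderOf x ∣ Nat.card (fittingSubgroup G) := Subgroup.orderOf_dvd_natCard _ hxF
      have hodd' : Odd (orderOf x) := Odd.of_dvd_nat hodd hdvd
      have h1 : orderOf x = 1 := by
        rw [hxo] at hodd' ⊢
        rcases Nat.eq_zero_or_pos b with rfl | hb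
        · simp
        · exfalso
          rw [Nat.odd_iff] at hodd'
          obtain ⟨c, rfl⟩ := Nat.exists_eq_succ_of_ne_zero hb.ne'
          rw [pow_succ] at hodd'
          omega
      rw [orderOf_eq_one_iff] at h1
      simp [h1]
    · by_contra hne
      have hyc : y ∉ Subgroup.centralizer ((pCore p G : Subgroup G) : Set G) := by
        intro h
        exact hne (Subgroup.mem_centralizer_iff.mp h x hxQ).symm
      obtain ⟨R, hRQ, -, hRc, -, hexp, -⟩ := Lib.CritAut.crit_exists y hcop (pCore p G)
        (Lib.H1Core.pCore_isPGroup p) (by rw [normalizer_eq_top_iff.mpr hQn]; exact mem_top _) hyc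
      apply hRc
      rw [Subgroup.mem_centralizer_iff]
      intro w hw
      rcases hexp w hw with h | ⟨h2, -⟩
      · by_cases hw1 : w = 1
        · simp [hw1]
        · have hord : orderOf w = p := orderOf_eq_prime h hw1
          exact Subgroup.mem_centralizer_iff.mp hy w ⟨hQF (hRQ hw), by rw [hord]; exact hp⟩
      · exact absurd h2 hp2
  by_contra hgF
  set N := C ⊓ fittingSubgroup G with hN
  haveI hNn : N.Normal := Subgroup.normal_inf_normal _ _
  let π := QuotientGroup.mk' N
  have hπs : Function.Surjective π := QuotientGroup.mk'_surjective N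
  haveI hCb : (C.map π).Normal := hCn.map π hπs
  have hne : C.map π ≠ ⊥ := by
    intro h
    apply hgF
    have : g ∈ (⊥ : Subgroup (G ⧸ N)).comap π := by
      rw [← h]
      exact Subgroup.mem_comap.mpr ⟨g, hgC, rfl⟩
    have h2 : π g = 1 := by simpa using this
    have h3 : g ∈ N := (QuotientGroup.eq_one_iff g).mp h2
    exact h3.2
  obtain ⟨D, hDn, hDne, hDC, hmin⟩ := Lib.FGS4.exists_minimal_normal_le (C.map π) hCb hne
  haveI : Group.IsSolvable (G ⧸ N) := inferInstance
  haveI := hDn
  obtain ⟨-, r, hr, hDr⟩ := Lib.H1SZ.minimal_normal_elementary D hDne hmin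
  set T := D.comap π with hT
  have hTn : T.Normal := hDn.comap π
  have hTC : T ≤ C := by
    intro t ht
    obtain ⟨c, hc, hct⟩ := hDC ht
    have h1 : c⁻¹ * t ∈ N := by
      apply (QuotientGroup.eq_one_iff _).mp
      show π (c⁻¹ * t) = 1
      rw [map_mul, map_inv, ← hct]
      simp
    have h2 : c⁻¹ * t ∈ C := h1.1
    have h3 := C.mul_mem hc h2
    simpa using h3
  have hTr : ∀ w ∈ T, (orderOf w).Coprime r → w ∈ N := by
    intro w hw hcop
    have h1 : π w ^ r = 1 := hDr _ hw
    have h2 : orderOf (π w) ∣ r := orderOf_dvd_of_pow_eq_one h1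
    have h3 : orderOf (π w) ∣ orderOf w := orderOf_map_dvd π w
    have h4 : orderOf (π w) = 1 := Nat.eq_one_of_dvd_coprimes hcop h3 h2
    rw [orderOf_eq_one_iff] at h4
    exact (QuotientGroup.eq_one_iff w).mp h4
  have key : ∀ (p q a b : ℕ) (u v : G), u ∈ T → v ∈ T → q.Prime → p.Prime → p ≠ q → orderOf u = p ^ a →
      orderOf v = q ^ b → q ≠ r → u * v = v * u := by
    intro p q a b u v hu hv hq hp hpq huo hvo hqr
    have hvN : v ∈ N := hTr v hv (by
      rw [hvo]; exact Nat.Coprime.pow_left b ((Nat.coprime_primes hq hr).mpr hqr))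
    exact step0 u (hTC hu) q b v hq (by
      rw [huo]; exact Nat.Coprime.pow_left a ((Nat.coprime_primes hp hq).mpr hpq)) hvN.2 hvo
  have hTnil : Group.IsNilpotent T := by
    apply Lib.FGS4.nilp_of_comm
    intro p q a b x y hp hq hpq hx hy
    apply Subtype.ext
    have hxo : orderOf (x : G) = p ^ a := by rw [Subgroup.orderOf_coe]; exact hx
    have hyo : orderOf (y : G) = q ^ b := by rw [Subgroup.orderOf_coe]; exact hy
    show (x : G) * y = y * x
    by_cases hqr : q = r
    · have hpr : p ≠ r := by rw [← hqr]; exact hpq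
      exact (key q p b a y x y.2 x.2 hp hq hpq.symm hyo hxo hpr).symm
    · exact key p q a b x y x.2 y.2 hq hp hpq hxo hyo hqr
  have hTF : T ≤ fittingSubgroup G := Lib.H1Core.le_fittingSubgroup hTn hTnil
  have hTN : T ≤ N := le_inf hTC hTF
  apply hDne
  rw [eq_bot_iff]
  intro d hd
  obtain ⟨t, rfl⟩ := hπs d
  have : t ∈ N := hTN hd
  have h1 : π t = 1 := (QuotientGroup.eq_one_iff t).mpr this
  rw [h1]
  exact one_mem _

end Cfsg.Agent.S3785
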