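import Cfsg.Statements.S3802
import Cfsg.Agent.Lib.WielandtJoin
-- import your own Cfsg.Agent.* helpers here

set_option autoImplicit false
open Cfsg

namespace Cfsg.Agent.S3802

/-- Let G be a finite group, M a maximal subgroup of G and N a subnormal subgroup of G contained in M. Then N is contained in every conjugate of M, that is, N lies in the core of M in G. -/
theorem result {G : Type*} [Group G] [Finite G] (M N : Subgroup G) (hM : IsCoatom M) (hN : N.IsSubnormal) (hNM : N ≤ M) :
    N ≤ Subgroup.normalCore M := by
  exact Cfsg.Agent.Lib.WielandtJoin.le_normalCore_of_coatom M hM hN hNM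

end Cfsg.Agent.S3802
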