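import Cfsg.Statements.S3815
import Mathlib
-- import your own Cfsg.Agent.* helpers here

set_option autoImplicit false
open Cfsg

namespace Cfsg.Agent.S3815

/-- Let G be a finite group, p a prime and d ∈ G an element of order prime to p. If dg has order prime to p for every element g ∈ G of order prime to p, then d ∈ O_{p'}(G). -/
theorem result {G : Type*} [Group G] [Finite G] {p : ℕ} [Fact p.Prime]
    (d : G) (hd : (orderOf d).Coprime p)
    (h : ∀ g : G, (orderOf g).Coprime p → (orderOf (d * g)).Coprime p) :
    d ∈ Cfsg.pPrimeCore p G := by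
  classical
  haveI : Fintype G := Fintype.ofFinite G
  -- D = elements that preserve the p'-elements by left multiplication
  let S : Set G := {g | (orderOf g).Coprime p}
  have h1 : (1 : G) ∈ S := by simp [S]
  let D : Subgroup G :=
    { carrier := {a | ∀ g ∈ S, a * g ∈ S}
      one_mem' := by intro g hg; simpa using hg
      mul_mem' := by
        intro a b ha hb g hg
        rw [mul_assoc]
        exact ha _ (hb g hg)
      inv_mem' := by
        intro a ha g hg
        -- a has finite order; a⁻¹ is a power of a
        have hfin : IsOfFinOrder a := isOfFinOrder_of_finite a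
        have hpow : ∀ n : ℕ, ∀ g ∈ S, a ^ n * g ∈ S := by
          intro n
          induction n with
          | zero => intro g hg; simpa using hg
          | succ n ih =>
            intro g hg
            rw [pow_succ, mul_assoc]
            exact ih _ (ha g hg)
        obtain ⟨n, hn⟩ : ∃ n : ℕ, a⁻¹ = a ^ n := by
          refine ⟨orderOf a - 1, ?_⟩
          have hpos := hfin.orderOf_pos
          rw [inv_eq_iff_mul_eq_one, ← pow_succ']
          rw [Nat.sub_add_cancel hpos]
          exact pow_orderOf_eq_one a
        rw [hn]
        exact hpow n g hg }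
  have hDS : ∀ a ∈ D, a ∈ S := by
    intro a ha
    have := ha 1 h1
    simpa using this
  have hDn : D.Normal := by
    constructor
    intro a ha b g hg
    -- b a b⁻¹ g = b (a (b⁻¹ g b)) b⁻¹
    have h2 : ∀ (x : G), x ∈ S → b⁻¹ * x * b ∈ S := by
      intro x hx
      show (orderOf (b⁻¹ * x * b)).Coprime p
      have : b⁻¹ * x * b = MulAut.conj b⁻¹ x := by simp [MulAut.conj_apply]
      rw [this, MulEquiv.orderOf_eq]
      exact hx
    have h3 : ∀ (x : G), x ∈ S → b * x * b⁻¹ ∈ S := by
      intro x hx
      show (orderOf (b * x * b⁻¹)).Coprime p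
      have : b * x * b⁻¹ = MulAut.conj b x := by simp [MulAut.conj_apply]
      rw [this, MulEquiv.orderOf_eq]
      exact hx
    have h4 := h3 _ (ha _ (h2 g hg))
    have : b * (a * (b⁻¹ * g * b)) * b⁻¹ = b * a * b⁻¹ * g := by group
    rw [← this]
    exact h4
  have hcop : (Nat.card D).Coprime p := by
    -- all elements of D have order coprime to p
    have hp : p.Prime := Fact.out
    rw [Nat.coprime_comm, Nat.Prime.coprime_iff_not_dvd hp]
    intro hpd
    obtain ⟨x, hx⟩ := exists_prime_orderOf_dvd_card' (G := D) p hpd
    have hxS : (orderOf (x : G)).Coprime p := hDS x x.2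
    have h6 : orderOf (x : G) = p := by
      rw [Subgroup.orderOf_coe]; exact hx
    rw [h6] at hxS
    exact hp.one_lt.ne' (by simpa using hxS)
  have hdD : d ∈ D := by
    intro g hg
    exact h g hg
  unfold Cfsg.pPrimeCore
  exact (le_sSup (show D ∈ {N : Subgroup G | N.Normal ∧ (Nat.card N).Coprime p} from ⟨hDn, hcop⟩)) hdD

end Cfsg.Agent.S3815
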