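import Cfsg.Statements.S3820
import Cfsg.Agent.Lib.FGSBasic
-- import your own Cfsg.Agent.* helpers here

set_option autoImplicit false
open Cfsg

namespace Cfsg.Agent.S3820

theorem conj_mem_sup {G : Type*} [Group G] {L : Subgroup G} {x w : G} (hx : x ∈ L) (hw : x * w * x⁻¹ ∈ L) : x * w ∈ L := by
  have : x * w = (x * w * x⁻¹) * x := by group
  rw [this]
  exact L.mul_mem hw hx

/-- Call a subgroup H of G pronormal if H and gHg⁻¹ are conjugate inside ⟨H, gHg⁻¹⟩ for every g ∈ G. Let S ≤ H ≤ G be subgroups of a finite group with S pronormal in G (for instance S a Sylow subgroup). Then H is pronormal in G if and only if H and gHg⁻¹ are conjugate inside ⟨H, gHg⁻¹⟩ for every g ∈ N_G(S). In particular H is pronormal whenever N_G(S) ≤ H. -/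
theorem result {G : Type*} [Group G] [Finite G] (S H : Subgroup G) (hSH : S ≤ H)
    (hS : Cfsg.IsPronormal S) :
    Cfsg.IsPronormal H ↔
      ∀ g ∈ Subgroup.normalizer (S : Set G), ∃ w ∈ H ⊔ H.map (MulAut.conj g).toMonoidHom,
        H.map (MulAut.conj g).toMonoidHom = H.map (MulAut.conj w).toMonoidHom := by
  constructor
  · intro h g _
    exact h g
  · intro h g
    obtain ⟨x, hx, hxe⟩ := hS g
    have hSH' : S.map (MulAut.conj g).toMonoidHom ≤ H.map (MulAut.conj g).toMonoidHom :=
      Subgroup.map_mono hSH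
    have hle : S ⊔ S.map (MulAut.conj g).toMonoidHom ≤ H ⊔ H.map (MulAut.conj g).toMonoidHom :=
      sup_le_sup hSH hSH'
    have hxL := hle hx
    have hn : x⁻¹ * g ∈ Subgroup.normalizer (S : Set G) := (Lib.FGSBasic.map_conj_eq_iff S g x).1 hxe
    obtain ⟨w, hw, hwe⟩ := h _ hn
    -- compute
    have hcomp : ∀ (A : Subgroup G) (a b : G), A.map (MulAut.conj (a * b)).toMonoidHom =
        (A.map (MulAut.conj b).toMonoidHom).map (MulAut.conj a).toMonoidHom := by
      intro A a b
      rw [Subgroup.map_map]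
      congr 1
      ext y
      simp [MulAut.conj_apply]
    have hgx : g = x * (x⁻¹ * g) := by group
    have hHg : H.map (MulAut.conj g).toMonoidHom = H.map (MulAut.conj (x * w)).toMonoidHom := by
      nth_rewrite 1 [hgx]
      rw [hcomp H x (x⁻¹ * g), hwe, hcomp H x w]
    refine ⟨x * w, ?_, hHg⟩
    apply conj_mem_sup hxL
    -- `x w x⁻¹` lies in `⟨H^x, H^g⟩ ≤ L`
    set L := H ⊔ H.map (MulAut.conj g).toMonoidHom with hL
    have hHx : H.map (MulAut.conj x).toMonoidHom ≤ L := by
      rintro _ ⟨y, hy, rfl⟩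
      exact L.mul_mem (L.mul_mem hxL (le_sup_left (a := H) hy)) (L.inv_mem hxL)
    have hHn : (H ⊔ H.map (MulAut.conj (x⁻¹ * g)).toMonoidHom).map (MulAut.conj x).toMonoidHom ≤ L := by
      rw [Subgroup.map_sup, ← hcomp, ← hgx]
      exact sup_le hHx le_sup_right
    exact hHn ⟨w, hw, rfl⟩

end Cfsg.Agent.S3820
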