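import Cfsg.Statements.S3821
import Cfsg.Agent.Lib.FGSBasic
-- import your own Cfsg.Agent.* helpers here

set_option autoImplicit false
open Cfsg

namespace Cfsg.Agent.S3821

theorem map_sub {G : Type*} [Group G] (A H : Subgroup G) (hHA : H ≤ A) (g : A) :
    ((H.subgroupOf A).map (MulAut.conj g).toMonoidHom).map A.subtype = H.map (MulAut.conj (g : G)).toMonoidHom := by
  ext x
  simp only [Subgroup.mem_map, MulEquiv.coe_toMonoidHom, MulAut.conj_apply, Subgroup.coe_subtype, Subgroup.mem_subgroupOf]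
  constructor
  · rintro ⟨_, ⟨y, hy, rfl⟩, rfl⟩
    exact ⟨y, hy, by simp⟩
  · rintro ⟨y, hy, rfl⟩
    exact ⟨g * ⟨y, hHA hy⟩ * g⁻¹, ⟨⟨y, hHA hy⟩, hy, rfl⟩, by simp⟩

theorem map_sub0 {G : Type*} [Group G] (A H : Subgroup G) (hHA : H ≤ A) :
    (H.subgroupOf A).map A.subtype = H := by
  rw [Subgroup.subgroupOf_map_subtype, inf_of_le_left hHA]

theorem conj_le {G : Type*} [Group G] (A H : Subgroup G) [hA : A.Normal] (hHA : H ≤ A) (g : G) :
    H.map (MulAut.conj g).toMonoidHom ≤ A := by
  rintro _ ⟨y, hy, rfl⟩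
  exact hA.conj_mem y (hHA hy) g

/-- Let A be a normal subgroup of the finite group G and H a subgroup of A. Then H is pronormal in G (H and gHg⁻¹ conjugate inside ⟨H, gHg⁻¹⟩ for every g ∈ G) if and only if H is pronormal in A and G = A · N_G(H). -/
theorem result {G : Type*} [Group G] [Finite G] (A H : Subgroup G) [A.Normal] (hHA : H ≤ A) :
    Cfsg.IsPronormal H ↔ (Cfsg.IsPronormal (H.subgroupOf A) ∧ A ⊔ Subgroup.normalizer (H : Set G) = ⊤) := by
  constructor
  · intro h
    refine ⟨?_, ?_⟩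
    · intro g
      obtain ⟨x, hx, hxe⟩ := h (g : G)
      have hLA : H ⊔ H.map (MulAut.conj (g : G)).toMonoidHom ≤ A := sup_le hHA (conj_le A H hHA g)
      refine ⟨⟨x, hLA hx⟩, ?_, ?_⟩
      · have : (H.subgroupOf A ⊔ (H.subgroupOf A).map (MulAut.conj g).toMonoidHom).map A.subtype = H ⊔ H.map (MulAut.conj (g : G)).toMonoidHom := by
          rw [Subgroup.map_sup, map_sub0 A H hHA, map_sub A H hHA]
        rw [← this] at hx
        obtain ⟨y, hy, hyx⟩ := hx
        have : y = ⟨x, hLA (by rw [← hyx]; exact (by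
          have := (Subgroup.mem_map_of_mem A.subtype hy)
          rw [‹(H.subgroupOf A ⊔ (H.subgroupOf A).map (MulAut.conj g).toMonoidHom).map A.subtype = H ⊔ H.map (MulAut.conj (g : G)).toMonoidHom›] at this
          exact this))⟩ := Subtype.ext hyx
        rw [← this]
        exact hy
      · apply Subgroup.map_injective A.subtype_injective
        rw [map_sub A H hHA, map_sub A H hHA]
        exact hxe
    · rw [eq_top_iff]
      intro g _
      obtain ⟨x, hx, hxe⟩ := h g
      have hLA : H ⊔ H.map (MulAut.conj g).toMonoidHom ≤ A := sup_le hHA (conj_le A H hHA g)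
      have hn : x⁻¹ * g ∈ Subgroup.normalizer (H : Set G) := (Lib.FGSBasic.map_conj_eq_iff H g x).1 hxe
      have e : g = x * (x⁻¹ * g) := by group
      rw [e]
      exact Subgroup.mul_mem_sup (hLA hx) hn
  · rintro ⟨h1, h2⟩ g
    have hg : g ∈ A ⊔ Subgroup.normalizer (H : Set G) := by
      rw [h2]
      trivial
    obtain ⟨a, ha, n, hn, rfl⟩ := Subgroup.mem_sup_of_normal_left.1 hg
    have hHe : H.map (MulAut.conj (a * n)).toMonoidHom = H.map (MulAut.conj a).toMonoidHom := by
      rw [Lib.FGSBasic.map_conj_eq_iff]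
      have : a⁻¹ * (a * n) = n := by group
      rw [this]
      exact hn
    obtain ⟨x, hx, hxe⟩ := h1 ⟨a, ha⟩
    refine ⟨x, ?_, ?_⟩
    · rw [hHe]
      have : (H.subgroupOf A ⊔ (H.subgroupOf A).map (MulAut.conj (⟨a, ha⟩ : A)).toMonoidHom).map A.subtype = H ⊔ H.map (MulAut.conj a).toMonoidHom := by
        rw [Subgroup.map_sup, map_sub0 A H hHA, map_sub A H hHA]
      rw [← this]
      exact ⟨x, hx, rfl⟩
    · rw [hHe]
      have h3 := congrArg (Subgroup.map A.subtype) hxe
      rw [map_sub A H hHA, map_sub A H hHA] at h3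
      exact h3

end Cfsg.Agent.S3821
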