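import Cfsg.Statements.S3836
import Mathlib
import Cfsg.Agent.Lib.H1Core
-- import your own Cfsg.Agent.* helpers here

set_option autoImplicit false
open Cfsg

namespace Cfsg.Agent.S3836

/-- Let G be a finite group that is p-stable in the normalizer form: for every p-subgroup Q and every x ∈ N_G(Q) with [Q, x, x] = 1, the image of x in N_G(Q)/C_G(Q) lies in O_p(N_G(Q)/C_G(Q)). Then every subgroup of G is p-stable in the same sense. -/
theorem result {G : Type*} [Group G] [Finite G] {p : ℕ} [Fact p.Prime] (hst : Cfsg.IsNormalizerPStable p G) (H : Subgroup G) : Cfsg.IsNormalizerPStable p ↥H := by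
  classical
  intro P hP g hg hcomm
  set P' : Subgroup G := P.map H.subtype with hP'
  have hP'p : IsPGroup p P' := hP.map H.subtype
  have hconj : ∀ x : H, x ∈ Subgroup.normalizer (P : Set H) → (x : G) ∈ Subgroup.normalizer (P' : Set G) := by
    intro x hx
    rw [Subgroup.mem_normalizer_iff]
    intro y
    constructor
    · rintro ⟨z, hz, rfl⟩
      exact ⟨x * z * x⁻¹, (Subgroup.mem_normalizer_iff.mp hx z).mp hz, rfl⟩
    · rintro ⟨z, hz, hzy⟩
      have h1 : (z : G) = x * y * (x : G)⁻¹ := hzy
      have hyH : y ∈ H := by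
        have h3 : y = (x : G)⁻¹ * z * x := by rw [h1]; group
        rw [h3]
        exact H.mul_mem (H.mul_mem (H.inv_mem x.2) z.2) x.2
      have h2 : (⟨y, hyH⟩ : H) ∈ P := by
        rw [Subgroup.mem_normalizer_iff.mp hx ⟨y, hyH⟩]
        have h4 : x * (⟨y, hyH⟩ : H) * x⁻¹ = z := Subtype.ext h1.symm
        rw [h4]
        exact hz
      exact ⟨_, h2, rfl⟩
  have hg' : (g : G) ∈ Subgroup.normalizer (P' : Set G) := hconj g hg
  have hcomm' : ⁅⁅P', Subgroup.zpowers (g : G)⁆, Subgroup.zpowers (g : G)⁆ = ⊥ := by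
    have h1 : Subgroup.zpowers (g : G) = (Subgroup.zpowers g).map H.subtype := by
      rw [MonoidHom.map_zpowers]; rfl
    rw [h1, hP', ← Subgroup.map_commutator, ← Subgroup.map_commutator, hcomm, Subgroup.map_bot]
  have h2 := hst P' hP'p g hg' hcomm'
  let j : ↥(Subgroup.normalizer (P : Set H)) →* ↥(Subgroup.normalizer (P' : Set G)) :=
    MonoidHom.mk' (fun x => ⟨(x.1 : G), hconj x.1 x.2⟩) (fun _ _ => rfl)
  let θ : ↥(Subgroup.normalizer (P : Set H)) →* (↥(Subgroup.normalizer (P' : Set G)) ⧸
      (Subgroup.centralizer (P' : Set G)).subgroupOf (Subgroup.normalizer (P' : Set G))) :=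
    (QuotientGroup.mk' _).comp j
  have hmemC : ∀ x : ↥(Subgroup.normalizer (P : Set H)),
      x ∈ (Subgroup.centralizer (P : Set H)).subgroupOf (Subgroup.normalizer (P : Set H)) ↔ θ x = 1 := by
    intro x
    rw [Subgroup.mem_subgroupOf]
    show _ ↔ (QuotientGroup.mk (s := (Subgroup.centralizer (P' : Set G)).subgroupOf (Subgroup.normalizer (P' : Set G))) (j x)) = 1
    rw [QuotientGroup.eq_one_iff, Subgroup.mem_subgroupOf, Subgroup.mem_centralizer_iff, Subgroup.mem_centralizer_iff]
    constructor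
    · rintro h _ ⟨z, hz, rfl⟩
      have := h z hz
      exact congrArg Subtype.val this
    · intro h z hz
      apply Subtype.ext
      exact h _ ⟨z, hz, rfl⟩
  let ι := QuotientGroup.lift ((Subgroup.centralizer (P : Set H)).subgroupOf (Subgroup.normalizer (P : Set H))) θ
    (fun x hx => (hmemC x).mp hx)
  have hinj : Function.Injective ι := by
    rw [injective_iff_map_eq_one]
    intro a ha
    obtain ⟨x, rfl⟩ := QuotientGroup.mk_surjective a
    have h3 : θ x = 1 := ha
    exact (QuotientGroup.eq_one_iff x).mpr ((hmemC x).mpr h3)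
  have hKn : ((Cfsg.pCore p (↥(Subgroup.normalizer (P' : Set G)) ⧸
      (Subgroup.centralizer (P' : Set G)).subgroupOf (Subgroup.normalizer (P' : Set G)))).comap ι).Normal :=
    (Lib.H1Core.pCore_normal p _).comap ι
  have hKp0 : IsPGroup p (Cfsg.pCore p (↥(Subgroup.normalizer (P' : Set G)) ⧸
      (Subgroup.centralizer (P' : Set G)).subgroupOf (Subgroup.normalizer (P' : Set G)))) := Lib.H1Core.pCore_isPGroup p
  have hKp := hKp0.comap_of_injective ι hinj
  apply Lib.H1Core.le_pCore hKn hKp
  exact h2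

end Cfsg.Agent.S3836
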