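import Cfsg.Statements.S3838
import Mathlib
import Cfsg.Agent.Lib.PNilp
import Cfsg.Agent.Lib.PTate
-- import your own Cfsg.Agent.* helpers here

set_option autoImplicit false
open Cfsg

namespace Cfsg.Agent.S3838

open Subgroup
open scoped commutatorElement

/-- Let G be a finite group with Sylow p-subgroup P such that N_G(P) has a normal p-complement. Then N_G(Q) has a normal p-complement for every subgroup Q with [P, P] ≤ Q ≤ Φ(P). -/
theorem result {G : Type*} [Group G] [Finite G] {p : ℕ} [Fact p.Prime] (P : Sylow p G) (hN : Cfsg.HasNormalPComplement p ↥(Subgroup.normalizer ((P : Subgroup G) : Set G))) (Q : Subgroup G) (h1 : (commutator ↥(P : Subgroup G)).map (P : Subgroup G).subtype ≤ Q) (h2 : Q ≤ (frattini ↥(P : Subgroup G)).map (P : Subgroup G).subtype) : Cfsg.HasNormalPComplement p ↥(Subgroup.normalizer (Q : Set G)) := by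
  classical
  have hQP : Q ≤ (P : Subgroup G) := h2.trans (Subgroup.map_subtype_le _)
  have hcomm : ∀ x ∈ (P : Subgroup G), ∀ y ∈ (P : Subgroup G), x * y * x⁻¹ * y⁻¹ ∈ Q := by
    intro x hx y hy
    apply h1
    refine ⟨⁅(⟨x, hx⟩ : (P : Subgroup G)), (⟨y, hy⟩ : (P : Subgroup G))⁆, ?_, rfl⟩
    exact commutator_mem_commutator (Subgroup.mem_top _) (Subgroup.mem_top _)
  have hPH : (P : Subgroup G) ≤ Subgroup.normalizer (Q : Set G) := by
    rw [Subgroup.le_normalizer_iff]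
    intro h hh k hk
    have := mul_mem (hcomm h hh k (hQP hk)) hk
    simpa [mul_assoc] using this
  -- the key property of `N_G(P)`
  have hdec : ∀ y ∈ Subgroup.normalizer ((P : Subgroup G) : Set G), ∀ x ∈ (P : Subgroup G), y * x * y⁻¹ * x⁻¹ ∈ Q := by
    intro y hy x hx
    obtain ⟨P₁, C, hCn, hcompl⟩ := hN
    haveI := hCn
    let P₂ : Sylow p (Subgroup.normalizer ((P : Subgroup G) : Set G)) := P.subtype Subgroup.le_normalizer
    haveI hP₂n : (P₂ : Subgroup (Subgroup.normalizer ((P : Subgroup G) : Set G))).Normal := by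
      show ((P : Subgroup G).subgroupOf _).Normal
      exact Subgroup.normal_in_normalizer
    have hP₁ : P₁ = P₂ := by
      haveI := Sylow.unique_of_normal P₂ hP₂n
      exact Subsingleton.elim _ _
    subst hP₁
    have hy' : (⟨y, hy⟩ : Subgroup.normalizer ((P : Subgroup G) : Set G)) ∈ C ⊔ (P₂ : Subgroup _) := by
      rw [hcompl.sup_eq_top]; trivial
    rw [← SetLike.mem_coe, Subgroup.normal_mul, Set.mem_mul] at hy'
    obtain ⟨c, hc, u, hu, hcu⟩ := hy'
    have hcm := Subgroup.commute_of_normal_of_disjoint C (P₂ : Subgroup _) hCn hP₂n hcompl.disjoint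
    have hu' : (u : G) ∈ (P : Subgroup G) := hu
    have hxN : (⟨x, Subgroup.le_normalizer hx⟩ : Subgroup.normalizer ((P : Subgroup G) : Set G)) ∈ (P₂ : Subgroup _) := hx
    have h3 : u * ⟨x, Subgroup.le_normalizer hx⟩ * u⁻¹ ∈ (P₂ : Subgroup _) := mul_mem (mul_mem hu hxN) (inv_mem hu)
    have h4 := hcm c _ hc h3
    have h5 : (⟨y, hy⟩ : Subgroup.normalizer ((P : Subgroup G) : Set G)) * ⟨x, Subgroup.le_normalizer hx⟩ * (⟨y, hy⟩ : Subgroup.normalizer ((P : Subgroup G) : Set G))⁻¹ =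
        u * ⟨x, Subgroup.le_normalizer hx⟩ * u⁻¹ := by
      rw [← hcu]
      have : c * u * ⟨x, Subgroup.le_normalizer hx⟩ * (c * u)⁻¹ = (c * (u * ⟨x, Subgroup.le_normalizer hx⟩ * u⁻¹)) * c⁻¹ := by group
      rw [this, h4]
      group
    have h6 : y * x * y⁻¹ = (u : G) * x * (u : G)⁻¹ := congrArg Subtype.val h5
    rw [h6]
    exact hcomm _ hu' x hx
  set H : Subgroup G := Subgroup.normalizer (Q : Set G) with hH
  let P_H : Sylow p H := P.subtype hPH
  let Q_H : Subgroup H := Q.subgroupOf H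
  haveI hQn : Q_H.Normal := Subgroup.normal_in_normalizer
  let π : H →* H ⧸ Q_H := QuotientGroup.mk' Q_H
  have hπ : Function.Surjective π := QuotientGroup.mk'_surjective Q_H
  let Pb : Sylow p (H ⧸ Q_H) := P_H.mapSurjective hπ
  have hπ1 : ∀ x : H, π x = 1 ↔ (x : G) ∈ Q := fun x => QuotientGroup.eq_one_iff x
  -- elements normalizing `Pb`
  have hclaim : ∀ y : H, π y ∈ Subgroup.normalizer ((Pb : Subgroup (H ⧸ Q_H)) : Set (H ⧸ Q_H)) →
      ∀ x ∈ (P : Subgroup G), (y : G) * x * (y : G)⁻¹ ∈ (P : Subgroup G) := by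
    intro y hy x hx
    have hx1 : π ⟨x, hPH hx⟩ ∈ (Pb : Subgroup (H ⧸ Q_H)) := ⟨⟨x, hPH hx⟩, hx, rfl⟩
    have hx2 := (Subgroup.mem_normalizer_iff.mp hy _).mp hx1
    obtain ⟨w, hw, hwe⟩ := hx2
    have h3 : π (w⁻¹ * (y * ⟨x, hPH hx⟩ * y⁻¹)) = 1 := by
      rw [map_mul, map_inv, hwe, map_mul, map_mul, map_inv]
      group
    have h4 := (hπ1 _).mp h3
    have hw' : (w : G) ∈ (P : Subgroup G) := hw
    have h5 : (y : G) * x * (y : G)⁻¹ = (w : G) * ((w : G)⁻¹ * ((y : G) * x * (y : G)⁻¹)) := by group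
    rw [h5]
    exact mul_mem hw' (hQP h4)
  have hBurn : Subgroup.normalizer ((Pb : Subgroup (H ⧸ Q_H)) : Set (H ⧸ Q_H)) ≤ Subgroup.centralizer ((Pb : Subgroup (H ⧸ Q_H)) : Set (H ⧸ Q_H)) := by
    intro z hz
    obtain ⟨y, rfl⟩ := hπ z
    have hyN : (y : G) ∈ Subgroup.normalizer ((P : Subgroup G) : Set G) := by
      rw [Subgroup.mem_normalizer_iff]
      intro x
      constructor
      · exact hclaim y hz x
      · intro hx
        have hz' : π y⁻¹ ∈ Subgroup.normalizer ((Pb : Subgroup (H ⧸ Q_H)) : Set (H ⧸ Q_H)) := by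
          rw [map_inv]; exact inv_mem hz
        have := hclaim y⁻¹ hz' _ hx
        simpa [mul_assoc] using this
    rw [Subgroup.mem_centralizer_iff]
    rintro _ ⟨x, hx, rfl⟩
    have hx' : (x : G) ∈ (P : Subgroup G) := hx
    have h3 := hdec _ hyN _ hx'
    have h4 : π (y * x * y⁻¹ * x⁻¹) = 1 := (hπ1 _).mpr h3
    rw [map_mul, map_mul, map_mul, map_inv, map_inv, mul_inv_eq_one, mul_inv_eq_iff_eq_mul] at h4
    exact h4.symm
  have hcompl := MonoidHom.ker_transferSylow_isComplement' Pb hBurn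
  set Kb : Subgroup (H ⧸ Q_H) := (MonoidHom.transferSylow Pb hBurn).ker with hKb
  haveI hKbn : Kb.Normal := MonoidHom.normal_ker _
  set K : Subgroup H := Kb.comap π with hK
  haveI hKn : K.Normal := hKbn.comap π
  have hinf : K ⊓ (P_H : Subgroup H) ≤ (frattini ↥(P_H : Subgroup H)).map (P_H : Subgroup H).subtype := by
    rintro x ⟨hx1, hx2⟩
    have h3 : π x ∈ Kb ⊓ (Pb : Subgroup (H ⧸ Q_H)) := ⟨hx1, ⟨x, hx2, rfl⟩⟩
    rw [disjoint_iff.mp hcompl.disjoint, Subgroup.mem_bot] at h3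
    have h4 : (x : G) ∈ Q := (hπ1 x).mp h3
    obtain ⟨y, hy, hyx⟩ := h2 h4
    let φ : (P : Subgroup G) ≃* (P_H : Subgroup H) := (Subgroup.subgroupOfEquivOfLe hPH).symm
    have h5 := frattini_le_comap_frattini_of_surjective (φ := φ.toMonoidHom) φ.surjective hy
    refine ⟨φ y, h5, ?_⟩
    apply Subtype.ext
    exact hyx
  have hKc : HasNormalPComplement p K := Lib.PTate.tate P_H K hinf
  obtain ⟨N₀, hN₀n, hN₀c, hN₀q⟩ := Lib.PNilp.hasNormalPComplement_iff.mp hKc
  haveI := hN₀n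
  rw [Lib.PNilp.hasNormalPComplement_iff_pResidual]
  have hle : Cfsg.pResidual p H ≤ N₀.map K.subtype := by
    unfold Cfsg.pResidual
    rw [Subgroup.closure_le]
    intro x hx
    have hx' : Nat.Coprime (orderOf x) p := hx
    have h3 : Nat.Coprime (orderOf (π x)) p := Nat.Coprime.coprime_dvd_left (orderOf_map_dvd π x) hx'
    have h4 : π x ∈ Kb := Lib.PNilp.mem_of_coprime_of_isPGroup_quotient Kb
      (Lib.PNilp.isPGroup_quotient_of_isComplement Pb Kb hcompl) (π x) h3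
    have h5 : x ∈ K := h4
    have h6 : Nat.Coprime (orderOf (⟨x, h5⟩ : K)) p := by
      rw [Subgroup.orderOf_mk]; exact hx'
    exact ⟨⟨x, h5⟩, Lib.PNilp.mem_of_coprime_of_isPGroup_quotient N₀ hN₀q _ h6, rfl⟩
  have hd : Nat.card (Cfsg.pResidual p H) ∣ Nat.card N₀ := by
    have h3 := Subgroup.card_dvd_of_le hle
    have h4 : Nat.card (N₀.map K.subtype) = Nat.card N₀ :=
      (Nat.card_congr (Subgroup.equivMapOfInjective _ _ K.subtype_injective).toEquiv).symm
    rwa [h4] at h3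
  exact Nat.Coprime.coprime_dvd_left hd hN₀c

end Cfsg.Agent.S3838
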