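import Cfsg.Statements.S3862
import Cfsg.Agent.Lib.PNilp
import Cfsg.Agent.Lib.PGrp2
import Cfsg.Agent.Lib.Herstein
import Cfsg.Agent.Lib.FGSBasic
import Cfsg.Agent.Lib.H1Frat
-- import your own Cfsg.Agent.* helpers here

set_option autoImplicit false
open Cfsg

namespace Cfsg.Agent.S3862

open Subgroup

/-- Partial norm. -/
def pn {Q : Type*} [Group Q] (σ : MulAut Q) (k : ℕ) (x : Q) : Q :=
  ((List.range k).map fun i => (σ ^ i) x).prod

theorem pn_zero {Q : Type*} [Group Q] (σ : MulAut Q) (x : Q) : pn σ 0 x = 1 := by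
  simp [pn]

theorem pn_succ {Q : Type*} [Group Q] (σ : MulAut Q) (k : ℕ) (x : Q) :
    pn σ (k + 1) x = pn σ k x * (σ ^ k) x := by
  simp [pn, List.range_succ]

theorem pn_add {Q : Type*} [Group Q] (σ : MulAut Q) (a b : ℕ) (x : Q) :
    pn σ (a + b) x = pn σ a x * (σ ^ a) (pn σ b x) := by
  induction b with
  | zero => simp [pn_zero]
  | succ b ih =>
    rw [← add_assoc, pn_succ, ih, pn_succ, map_mul, pow_add, mul_assoc]
    rfl

theorem pn_one {Q : Type*} [Group Q] (σ : MulAut Q) (x : Q) : pn σ 1 x = x := by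
  simp [pn]

theorem pn_map {Q : Type*} [Group Q] (σ : MulAut Q) (k : ℕ) (x : Q) :
    pn σ k (σ x) = σ (pn σ k x) := by
  induction k with
  | zero => simp [pn_zero]
  | succ k ih =>
    rw [pn_succ, pn_succ, ih, map_mul]
    congr 1
    have h1 : (σ ^ k) (σ x) = (σ ^ k * σ) x := rfl
    have h2 : σ ((σ ^ k) x) = (σ * σ ^ k) x := rfl
    rw [h1, h2, ← pow_succ, ← pow_succ']

theorem crit_real {Q : Type*} [Group Q] [Finite Q] (hQ : IsPGroup 2 Q) (σ : MulAut Q) (m : ℕ)
    (hσ : σ ^ (2 * m + 1) = 1) (hne : ∃ q, σ q ≠ q)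
    (hmin : ∀ H : Subgroup Q, H ≠ ⊤ → (∀ h ∈ H, σ h ∈ H) → ∀ h ∈ H, σ h = h) (x : Q) :
    ∃ u : Q, u⁻¹ * x * u = x⁻¹ := by
  classical
  haveI : Fact (Nat.Prime 2) := ⟨Nat.prime_two⟩
  set D : Subgroup Q := closure {d | ∃ u : Q, d = u⁻¹ * σ u} with hD
  have hDtop : ∀ v : Q, v ∈ D := by
    by_contra hDne
    have hDne' : D ≠ ⊤ := fun h => hDne fun v => by rw [h]; trivial
    have hinv : ∀ h ∈ D, σ h ∈ D := by
      intro h hh
      induction hh using closure_induction with
      | mem d hd =>
        obtain ⟨u, rfl⟩ := hd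
        exact subset_closure ⟨σ u, by simp⟩
      | one => simp [D.one_mem]
      | mul a b _ _ ha hb => rw [map_mul]; exact D.mul_mem ha hb
      | inv a _ ha => rw [map_inv]; exact D.inv_mem ha
    have hfix := hmin D hDne' hinv
    obtain ⟨q, hq⟩ := hne
    apply hq
    set d := q⁻¹ * σ q with hd
    have hdD : d ∈ D := subset_closure ⟨q, rfl⟩
    have hσd : σ d = d := hfix d hdD
    have hσq : σ q = q * d := by rw [hd]; group
    have hpow : ∀ k : ℕ, (σ ^ k) q = q * d ^ k := by
      intro k
      induction k with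
      | zero => simp
      | succ k ih =>
        rw [pow_succ', MulAut.mul_apply, ih, map_mul, hσq, map_pow, hσd, mul_assoc, ← pow_succ']
    have h1 := hpow (2 * m + 1)
    rw [hσ] at h1
    have h2 : d ^ (2 * m + 1) = 1 := by
      have : q = q * d ^ (2 * m + 1) := h1
      simpa using this.symm
    obtain ⟨k, hk⟩ := hQ d
    have h3 : orderOf d ∣ Nat.gcd (2 * m + 1) (2 ^ k) :=
      Nat.dvd_gcd (orderOf_dvd_of_pow_eq_one h2) (orderOf_dvd_of_pow_eq_one hk)
    have h4 : Nat.gcd (2 * m + 1) (2 ^ k) = 1 := by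
      apply Nat.Coprime.pow_right
      exact Nat.coprime_two_right.mpr ⟨m, rfl⟩
    rw [h4, Nat.dvd_one, orderOf_eq_one_iff] at h3
    rw [hσq, h3, mul_one]
  set S : Subgroup Q := closure {s | ∃ u : Q, s = u * u} with hS
  have hSne : S ≠ ⊤ := by
    intro htop
    obtain ⟨q, hq⟩ := hne
    have hnon : q ≠ 1 := by
      rintro rfl
      simp at hq
    have hfr : S ≤ frattini Q := by
      rw [hS, closure_le]
      rintro _ ⟨u, rfl⟩
      have := Cfsg.Agent.Lib.PGrp.pow_mem_frattini hQ u
      rwa [pow_two] at this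
    have htop2 : frattini Q = ⊤ := eq_top_iff.mpr (htop ▸ hfr)
    haveI : Nontrivial Q := ⟨⟨q, 1, hnon⟩⟩
    obtain ⟨M, hM⟩ : ∃ M : Subgroup Q, IsCoatom M := by
      obtain h | ⟨M, hM, -⟩ := eq_top_or_exists_le_coatom (⊥ : Subgroup Q)
      · exact absurd h bot_ne_top
      · exact ⟨M, hM⟩
    apply hM.1
    rw [eq_top_iff]
    intro v _
    have hv : v ∈ frattini Q := by rw [htop2]; trivial
    exact Cfsg.Agent.Lib.H1Frat.mem_frattini.1 hv M hM
  have hSinv : ∀ h ∈ S, σ h ∈ S := by
    intro h hh
    induction hh using closure_induction with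
    | mem d hd =>
      obtain ⟨u, rfl⟩ := hd
      exact subset_closure ⟨σ u, by simp⟩
    | one => simp [S.one_mem]
    | mul a b _ _ ha hb => rw [map_mul]; exact S.mul_mem ha hb
    | inv a _ ha => rw [map_inv]; exact S.inv_mem ha
  have hSfix := hmin S hSne hSinv
  have hSnormal : S.Normal := by
    apply Cfsg.Agent.Lib.FGSBasic.normal_closure_of_conj_inv
    rintro g _ ⟨u, rfl⟩
    exact ⟨g * u * g⁻¹, by group⟩
  have hcent : ∀ z ∈ S, ∀ v : Q, v * z = z * v := by
    intro z hz v
    have hv := hDtop v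
    have hC : D ≤ centralizer ({z} : Set Q) := by
      rw [hD, closure_le]
      rintro _ ⟨u, rfl⟩
      rw [SetLike.mem_coe, mem_centralizer_singleton_iff]
      have h1 : u * z * u⁻¹ ∈ S := hSnormal.conj_mem z hz u
      have h2 := hSfix _ h1
      rw [map_mul, map_mul, map_inv, hSfix z hz] at h2
      -- σ u * z * (σ u)⁻¹ = u * z * u⁻¹
      have h3 : σ u * z = u * z * u⁻¹ * σ u := by
        rw [← h2]; group
      calc u⁻¹ * σ u * z = u⁻¹ * (σ u * z) := by group
        _ = u⁻¹ * (u * z * u⁻¹ * σ u) := by rw [h3]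
        _ = z * (u⁻¹ * σ u) := by group
    exact mem_centralizer_singleton_iff.mp (hC hv)
  have hsq : ∀ a : Q, a * a ∈ S := fun a => subset_closure ⟨a, rfl⟩
  -- fourth powers
  have hmul4 : ∀ a b : Q, (a * b) ^ 4 = a ^ 4 * b ^ 4 := by
    intro a b
    set A := a * a with hA
    set B := b * b with hB
    set p := a * b * (a * b) with hp
    have hAc := hcent A (hsq a)
    have hBc := hcent B (hsq b)
    have hpc := hcent p (hsq (a * b))
    set c := p * A⁻¹ * B⁻¹ with hc
    have hcS : c ∈ S := S.mul_mem (S.mul_mem (hsq _) (S.inv_mem (hsq a))) (S.inv_mem (hsq b))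
    have hcc := hcent c hcS
    have h1 : a * b = c * (b * a) := by
      have e1 : c * (b * a) = p * A⁻¹ * (B⁻¹ * (b * a)) := by rw [hc]; group
      have e2 : A⁻¹ * (B⁻¹ * (b * a)) = B⁻¹ * (A⁻¹ * (b * a)) := by
        have h5 := (hcent A⁻¹ (S.inv_mem (hsq a)) B⁻¹)
        calc A⁻¹ * (B⁻¹ * (b * a)) = (A⁻¹ * B⁻¹) * (b * a) := by group
          _ = (B⁻¹ * A⁻¹) * (b * a) := by rw [h5]
          _ = _ := by group
      have e3 : p * A⁻¹ * (B⁻¹ * (b * a)) = p * (A⁻¹ * (B⁻¹ * (b * a))) := by group
      rw [e1, e3, e2]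
      have e4 : B⁻¹ * (A⁻¹ * (b * a)) = b⁻¹ * a⁻¹ := by
        have h6 : A⁻¹ * (b * a) = b * (A⁻¹ * a) := by
          have h8 := hcent A⁻¹ (S.inv_mem (hsq a)) b
          calc A⁻¹ * (b * a) = (A⁻¹ * b) * a := by group
            _ = (b * A⁻¹) * a := by rw [h8]
            _ = _ := by group
        rw [h6]
        have h7 : A⁻¹ * a = a⁻¹ := by rw [hA]; group
        rw [h7, hB]
        group
      rw [e4, hp]
      group
    have h2 : c * c = 1 := by
      have h3 : A * b = c * c * (b * A) := by
        calc A * b = a * (a * b) := by rw [hA]; group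
          _ = a * (c * (b * a)) := by rw [← h1]
          _ = (a * c) * (b * a) := by group
          _ = (c * a) * (b * a) := by rw [hcc a]
          _ = c * (a * b) * a := by group
          _ = c * (c * (b * a)) * a := by rw [← h1]
          _ = c * c * (b * A) := by rw [hA]; group
      have h4 : A * b = b * A := (hAc b).symm
      rw [h4] at h3
      have h5 : b * A = 1 * (b * A) := by group
      exact (mul_right_cancel (h5.symm.trans h3)).symm
    have hpe : p = c * A * B := by
      have h9 : p = c * (B * A) := by rw [hc]; group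
      rw [h9, hAc B]; group
    have h4pow : ∀ y : Q, y ^ 4 = (y * y) * (y * y) := by
      intro y; simp only [pow_succ, pow_zero, one_mul]; group
    rw [h4pow, h4pow a, h4pow b, ← hp, ← hA, ← hB]
    calc p * p = c * A * B * (c * A * B) := by rw [← hpe]
      _ = c * A * (B * c) * A * B := by group
      _ = c * A * (c * B) * A * B := by rw [hBc c]
      _ = c * (A * c) * (B * A) * B := by group
      _ = c * (c * A) * (A * B) * B := by rw [hAc c, hBc A]
      _ = c * c * (A * A) * (B * B) := by group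
      _ = A * A * (B * B) := by rw [h2, one_mul]
  have h4 : ∀ v : Q, v ^ 4 = 1 := by
    intro v
    have hv := hDtop v
    induction hv using closure_induction with
    | mem d hd =>
      obtain ⟨u, rfl⟩ := hd
      rw [hmul4, ← map_pow]
      have h1 : u ^ 4 ∈ S := by
        have : u ^ 4 = (u * u) * (u * u) := by simp only [pow_succ, pow_zero, one_mul]; group
        rw [this]; exact S.mul_mem (hsq u) (hsq u)
      rw [hSfix _ h1, inv_pow]
      group
    | one => simp
    | mul a b _ _ ha hb => rw [hmul4, ha, hb, one_mul]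
    | inv a _ ha => rw [inv_pow, ha, inv_one]
  have hzz : ∀ z ∈ S, z * z = 1 := by
    intro z hz
    induction hz using closure_induction with
    | mem d hd =>
      obtain ⟨u, rfl⟩ := hd
      have := h4 u
      simp only [pow_succ, pow_zero, one_mul] at this
      rw [← this]; group
    | one => simp
    | mul a b ha _ iha ihb =>
      have h1 := hcent a ha b
      calc a * b * (a * b) = a * (b * a) * b := by group
        _ = a * (a * b) * b := by rw [h1]
        _ = (a * a) * (b * b) := by group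
        _ = 1 := by rw [iha, ihb, one_mul]
    | inv a _ ih =>
      calc a⁻¹ * a⁻¹ = (a * a)⁻¹ := by group
        _ = 1 := by rw [ih, inv_one]
  -- the quotient
  haveI := hSnormal
  let π := QuotientGroup.mk' S
  have hπ1 : ∀ a : Q, π a = 1 ↔ a ∈ S := fun a => QuotientGroup.eq_one_iff a
  have hπs : Function.Surjective π := QuotientGroup.mk'_surjective S
  have hVsq : ∀ a : Q ⧸ S, a * a = 1 := by
    intro a
    obtain ⟨b, rfl⟩ := hπs a
    rw [← map_mul, hπ1]
    exact hsq b
  have hVcomm : ∀ a b : Q ⧸ S, a * b = b * a := by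
    intro a b
    have h1 := hVsq (a * b)
    have h2 := hVsq a
    have h3 := hVsq b
    calc a * b = a * b * (b * a) * (b * a)⁻¹ := by group
      _ = (b * a)⁻¹ := by
        have : a * b * (b * a) = 1 := by
          calc a * b * (b * a) = a * (b * b) * a := by group
            _ = a * a := by rw [h3, mul_one]
            _ = 1 := h2
        rw [this, one_mul]
      _ = b * a := by
        have := hVsq (b * a)
        exact inv_eq_of_mul_eq_one_left this
  set n := 2 * m + 1 with hn
  have hFmul : ∀ k : ℕ, ∀ a b : Q, π (pn σ k (a * b)) = π (pn σ k a) * π (pn σ k b) := by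
    intro k a b
    induction k with
    | zero => simp [pn_zero]
    | succ k ih =>
      rw [pn_succ, pn_succ, pn_succ, map_mul, map_mul, map_mul, ih, map_mul, map_mul]
      calc _ = π (pn σ k a) * (π (pn σ k b) * π ((σ ^ k) a)) * π ((σ ^ k) b) := by group
        _ = π (pn σ k a) * (π ((σ ^ k) a) * π (pn σ k b)) * π ((σ ^ k) b) := by
            rw [hVcomm (π (pn σ k b))]
        _ = _ := by group
  let F : Q →* Q ⧸ S := MonoidHom.mk' (fun v => π (pn σ n v)) (hFmul n)
  have hFa : ∀ v, F v = π (pn σ n v) := fun v => rfl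
  have hFσ : ∀ u, F (σ u) = F u := by
    intro u
    rw [hFa, hFa, pn_map]
    have e1 : pn σ (n + 1) u = pn σ n u * u := by
      rw [pn_succ, hσ]; rfl
    have e2 : pn σ (1 + n) u = u * σ (pn σ n u) := by
      rw [pn_add, pn_one, pow_one]
    have e3 : pn σ n u * u = u * σ (pn σ n u) := by
      rw [← e1, ← e2, add_comm]
    have e4 := congrArg π e3
    rw [map_mul, map_mul, hVcomm] at e4
    exact (mul_left_cancel e4).symm
  have hDF : D ≤ F.ker := by
    rw [hD, closure_le]
    rintro _ ⟨u, rfl⟩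
    rw [SetLike.mem_coe, MonoidHom.mem_ker, map_mul, map_inv, hFσ, inv_mul_cancel]
  have hFtriv : ∀ v, pn σ n v ∈ S := by
    intro v
    rw [← hπ1, ← hFa]
    exact hDF (hDtop v)
  have hfixpow : ∀ h ∈ S, ∀ k : ℕ, (σ ^ k) h = h := by
    intro h hh k
    induction k with
    | zero => rfl
    | succ k ih =>
      rw [pow_succ', MulAut.mul_apply, ih, hSfix h hh]
  set w := pn σ m x with hw
  set A₁ := σ w with hA₁
  set B := (σ ^ m) A₁ with hB
  have hsplit : pn σ n x = x * A₁ * B := by
    have e1 : n = (1 + m) + m := by omega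
    have e2 : (σ ^ (1 + m)) w = (σ ^ m) (σ w) := by
      rw [add_comm, pow_succ]; rfl
    rw [e1, pn_add, pn_add, pn_one, pow_one, ← hw, e2]
  have hz := hFtriv x
  rw [hsplit] at hz
  set z := x * A₁ * B with hzdef
  have hBB : B * B = A₁ * A₁ := by
    rw [hB, ← map_mul, hfixpow _ (hsq A₁)]
  have hA : x * A₁ = z * B⁻¹ := by rw [hzdef]; group
  have hB4 : B * B * (B * B) = 1 := by
    have := h4 B
    simp only [pow_succ, pow_zero, one_mul] at this
    rw [← this]; group
  have hAA : (x * A₁) * (x * A₁) = B * B := by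
    rw [hA]
    calc z * B⁻¹ * (z * B⁻¹) = z * (B⁻¹ * z) * B⁻¹ := by group
      _ = z * (z * B⁻¹) * B⁻¹ := by rw [hcent z hz B⁻¹]
      _ = (z * z) * (B * B)⁻¹ := by group
      _ = (B * B)⁻¹ := by rw [hzz z hz, one_mul]
      _ = B * B := inv_eq_of_mul_eq_one_left hB4
  rw [hBB] at hAA
  refine ⟨A₁, ?_⟩
  have h1 : x * A₁ * x = A₁ := by
    have : x * A₁ * x * A₁ = A₁ * A₁ := by rw [← hAA]; group
    exact mul_right_cancel this
  have h2 : A₁⁻¹ * x * A₁ * x = 1 := by
    calc A₁⁻¹ * x * A₁ * x = A₁⁻¹ * (x * A₁ * x) := by group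
      _ = 1 := by rw [h1, inv_mul_cancel]
  exact eq_inv_of_mul_eq_one_left h2

/-- If every 2-element of the finite group G that is conjugate to its inverse lies in the centre of G, then G has a normal 2-complement. -/
theorem result {G : Type*} [Group G] [Finite G] (h : ∀ x : G, (∃ j : ℕ, orderOf x = 2 ^ j) → IsConj x x⁻¹ → x ∈ Subgroup.center G) : Cfsg.HasNormalPComplement 2 G := by
  classical
  haveI : Fact (Nat.Prime 2) := ⟨Nat.prime_two⟩
  obtain ⟨P⟩ : Nonempty (Sylow 2 G) := inferInstance
  apply Cfsg.Agent.Lib.PNilp.hasNormalPComplement_of_automizer P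
  intro Q hQ g hg hcop
  have hQ' : IsPGroup 2 Q := P.2.to_le hQ
  obtain ⟨m, hm⟩ : Odd (orderOf g) := Nat.coprime_two_right.mp hcop
  have key : ∀ n : ℕ, ∀ R : Subgroup G, Nat.card R = n → IsPGroup 2 R →
      g ∈ normalizer (R : Set G) → g ∈ centralizer (R : Set G) := by
    intro n
    induction n using Nat.strong_induction_on with
    | _ n ih =>
      intro R hRc hR hgR
      let σ : MulAut R := R.normalizerMonoidHom ⟨g, hgR⟩
      have hσa : ∀ q : R, ((σ q : R) : G) = g * q * g⁻¹ := fun q => rfl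
      have hσ : σ ^ (2 * m + 1) = 1 := by
        show (R.normalizerMonoidHom ⟨g, hgR⟩) ^ (2 * m + 1) = 1
        rw [← map_pow, ← hm]
        have : (⟨g, hgR⟩ : normalizer (R : Set G)) ^ orderOf g = 1 :=
          Subtype.ext (pow_orderOf_eq_one g)
        rw [this, map_one]
      by_cases hne : ∃ q, σ q ≠ q
      · have hmin : ∀ H : Subgroup R, H ≠ ⊤ → (∀ h ∈ H, σ h ∈ H) → ∀ h ∈ H, σ h = h := by
          intro H hH hinv h hh
          have hcard : Nat.card (H.map R.subtype) < n := by
            rw [card_map_of_injective R.subtype_injective, ← hRc]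
            exact lt_of_le_of_ne (Subgroup.card_le_card_group H)
              (fun h => hH ((Subgroup.card_eq_iff_eq_top H).mp h))
          have hgH : g ∈ normalizer ((H.map R.subtype : Subgroup G) : Set G) := by
            apply Cfsg.Agent.Lib.Herstein.mem_normalizer_of_conj_le
            rintro _ ⟨w, hw, rfl⟩
            exact ⟨σ w, hinv w hw, rfl⟩
          have hc := ih _ hcard _ rfl (hR.to_le (map_subtype_le H)) hgH
          apply Subtype.ext
          rw [hσa]
          have h1 := mem_centralizer_iff.mp hc (h : G) ⟨h, hh, rfl⟩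
          rw [← h1]
          group
        rw [mem_centralizer_iff]
        intro x hx
        obtain ⟨u, hu⟩ := crit_real hR σ m hσ hne hmin ⟨x, hx⟩
        have hu' : (u : G)⁻¹ * x * u = x⁻¹ := by
          have := congrArg (Subtype.val) hu
          simpa using this
        have hreal : IsConj x x⁻¹ := by
          rw [isConj_iff]
          exact ⟨(u : G)⁻¹, by rw [← hu']; group⟩
        have hord : ∃ j, orderOf x = 2 ^ j := by
          obtain ⟨j, hj⟩ := IsPGroup.iff_orderOf.mp hR ⟨x, hx⟩
          exact ⟨j, by rw [← hj, Subgroup.orderOf_mk]⟩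
        have hcen := h x hord hreal
        exact (Subgroup.mem_center_iff.mp hcen g).symm
      · push Not at hne
        rw [mem_centralizer_iff]
        intro q hq
        have h1 := congrArg Subtype.val (hne ⟨q, hq⟩)
        rw [hσa] at h1
        have h2 : g * q * g⁻¹ = q := h1
        calc q * g = (g * q * g⁻¹) * g := by rw [h2]
          _ = g * q := by group
  exact key _ Q rfl hQ' hg

end Cfsg.Agent.S3862
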