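import Cfsg.Statements.S3866
import Mathlib
import Cfsg.Agent.Lib.FGSBasic
-- import your own Cfsg.Agent.* helpers here

set_option autoImplicit false
open Cfsg

namespace Cfsg.Agent.S3866

/-- Let A be a commutative normal subgroup of the finite group G with G generated by A and an element x. Then a ↦ x a x⁻¹ a⁻¹ is a surjective homomorphism from A onto the commutator subgroup of G whose kernel is the centralizer of x in A; in particular the commutator subgroup has order equal to the index in A of that centralizer. -/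
theorem result {G : Type*} [Group G] [Finite G] (A : Subgroup G) [A.Normal] (hA : IsMulCommutative A) (x : G) (hgen : A ⊔ Subgroup.zpowers x = ⊤) : (∀ a ∈ A, x * a * x⁻¹ * a⁻¹ ∈ commutator G) ∧ (∀ c ∈ commutator G, ∃ a ∈ A, x * a * x⁻¹ * a⁻¹ = c) ∧ (∀ a ∈ A, ∀ b ∈ A, x * (a * b) * x⁻¹ * (a * b)⁻¹ = (x * a * x⁻¹ * a⁻¹) * (x * b * x⁻¹ * b⁻¹)) ∧ Nat.card (commutator G) * Nat.card ↥(A ⊓ Subgroup.centralizer ({x} : Set G)) = Nat.card A := by
  classical
  have hcomm : ∀ {a b : G}, a ∈ A → b ∈ A → a * b = b * a := fun ha hb =>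
    Cfsg.Agent.Lib.FGSBasic.mul_comm_of_mem A ha hb
  have hconj : ∀ a ∈ A, ∀ g : G, g * a * g⁻¹ ∈ A := fun a ha g => ‹A.Normal›.conj_mem a ha g
  have hmul : ∀ a ∈ A, ∀ b ∈ A, x * (a * b) * x⁻¹ * (a * b)⁻¹ = (x * a * x⁻¹ * a⁻¹) * (x * b * x⁻¹ * b⁻¹) := by
    intro a ha b hb
    have h1 : a⁻¹ * (x * b * x⁻¹) = (x * b * x⁻¹) * a⁻¹ := hcomm (inv_mem ha) (hconj b hb x)
    have h2 : (a * b)⁻¹ = a⁻¹ * b⁻¹ := by rw [mul_inv_rev, hcomm (inv_mem hb) (inv_mem ha)]
    calc x * (a * b) * x⁻¹ * (a * b)⁻¹ = (x * a * x⁻¹) * ((x * b * x⁻¹) * a⁻¹) * b⁻¹ := by rw [h2]; group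
      _ = (x * a * x⁻¹) * (a⁻¹ * (x * b * x⁻¹)) * b⁻¹ := by rw [h1]
      _ = _ := by group
  let f : A →* A := MonoidHom.mk' (fun a => ⟨x * a * x⁻¹ * a⁻¹, mul_mem (hconj a a.2 x) (inv_mem a.2)⟩)
    (by intro a b; apply Subtype.ext; exact hmul a a.2 b b.2)
  have hfv : ∀ a : A, ((f a : A) : G) = x * a * x⁻¹ * a⁻¹ := fun a => rfl
  let I : Subgroup G := f.range.map A.subtype
  have hI : ∀ c, c ∈ I ↔ ∃ a ∈ A, x * a * x⁻¹ * a⁻¹ = c := by
    intro c
    constructor
    · rintro ⟨_, ⟨a, rfl⟩, rfl⟩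
      exact ⟨a, a.2, rfl⟩
    · rintro ⟨a, ha, rfl⟩
      exact ⟨f ⟨a, ha⟩, ⟨⟨a, ha⟩, rfl⟩, rfl⟩
  have hIA : I ≤ A := Subgroup.map_subtype_le _
  have hgen' : Subgroup.closure ((A : Set G) ∪ {x}) = ⊤ := by
    rw [Subgroup.closure_union, Subgroup.closure_eq, ← Subgroup.zpowers_eq_closure]
    exact hgen
  have hnorm : I.Normal := by
    rw [← Subgroup.normalizer_eq_top_iff, eq_top_iff, ← hgen', Subgroup.closure_le]
    rintro g (hg | hg)
    · rw [SetLike.mem_coe, Subgroup.mem_normalizer_iff]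
      intro h
      constructor
      · intro hh
        have hhA := hIA hh
        rw [hcomm hg hhA]; simpa using hh
      · intro hh
        have h1 : g⁻¹ * (g * h * g⁻¹) * g ∈ A := by
          have h2 := hIA hh
          have h3 := hconj _ h2 g⁻¹
          simpa using h3
        have h4 : h ∈ A := by
          have : g⁻¹ * (g * h * g⁻¹) * g = h := by group
          rwa [this] at h1
        rw [hcomm hg h4] at hh
        simpa using hh
    · rw [Set.mem_singleton_iff] at hg
      subst hg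
      rw [SetLike.mem_coe, Subgroup.mem_normalizer_iff]
      intro h
      rw [hI, hI]
      constructor
      · rintro ⟨a, ha, rfl⟩
        exact ⟨g * a * g⁻¹, hconj a ha g, by group⟩
      · rintro ⟨a, ha, hac⟩
        refine ⟨g⁻¹ * a * g, by simpa using hconj a ha g⁻¹, ?_⟩
        have : h = g⁻¹ * (g * h * g⁻¹) * g := by group
        rw [this, ← hac]; group
  have hle : commutator G ≤ I := by
    apply Cfsg.Agent.Lib.FGSBasic.commutator_le_of_generators I _ hgen'
    rintro s (hs | hs) t (ht | ht)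
    · have hst : s * t = t * s := hcomm hs ht
      rw [hst]; simp
    · rw [Set.mem_singleton_iff] at ht
      subst ht
      have h2 : t * s * t⁻¹ * s⁻¹ ∈ I := (hI _).mpr ⟨s, hs, rfl⟩
      have h3 := inv_mem h2
      have h1 : (t * s * t⁻¹ * s⁻¹)⁻¹ = s * t * s⁻¹ * t⁻¹ := by group
      rwa [h1] at h3
    · rw [Set.mem_singleton_iff] at hs
      subst hs
      rw [hI]
      exact ⟨t, ht, rfl⟩
    · rw [Set.mem_singleton_iff] at hs ht
      subst hs; subst ht
      simp
  have hfirst : ∀ a ∈ A, x * a * x⁻¹ * a⁻¹ ∈ commutator G := by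
    intro a ha
    have := Subgroup.commutator_mem_commutator (Subgroup.mem_top x) (Subgroup.mem_top a)
    exact this
  refine ⟨hfirst, ?_, hmul, ?_⟩
  · intro c hc
    exact (hI c).mp (hle hc)
  · have h1 : commutator G = I := by
      apply le_antisymm hle
      intro c hc
      obtain ⟨a, ha, rfl⟩ := (hI c).mp hc
      exact hfirst a ha
    have h2 : f.ker.map A.subtype = A ⊓ Subgroup.centralizer ({x} : Set G) := by
      ext y
      constructor
      · rintro ⟨a, ha, rfl⟩
        refine ⟨a.2, ?_⟩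
        show (a : G) ∈ Subgroup.centralizer ({x} : Set G)
        rw [Subgroup.mem_centralizer_singleton_iff]
        have h3 : ((f a : A) : G) = 1 := by
          have ha' : a ∈ f.ker := ha
          rw [MonoidHom.mem_ker] at ha'
          rw [ha']; rfl
        rw [hfv] at h3
        have h4 := mul_inv_eq_one.mp h3
        have h5 := mul_inv_eq_iff_eq_mul.mp h4
        exact h5.symm
      · rintro ⟨hyA, hyC⟩
        have hyC' : y ∈ Subgroup.centralizer ({x} : Set G) := hyC
        rw [Subgroup.mem_centralizer_singleton_iff] at hyC'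
        refine ⟨⟨y, hyA⟩, ?_, rfl⟩
        rw [SetLike.mem_coe, MonoidHom.mem_ker]
        apply Subtype.ext
        rw [hfv]
        show x * y * x⁻¹ * y⁻¹ = 1
        rw [← hyC']
        group
    rw [h1, ← h2]
    have h3 : Nat.card I = Nat.card f.range :=
      Nat.card_congr (Subgroup.equivMapOfInjective _ _ A.subtype_injective).toEquiv.symm
    have h4 : Nat.card (f.ker.map A.subtype) = Nat.card f.ker :=
      Nat.card_congr (Subgroup.equivMapOfInjective _ _ A.subtype_injective).toEquiv.symm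
    rw [h3, h4, ← Subgroup.index_ker, mul_comm]
    exact f.ker.card_mul_index

end Cfsg.Agent.S3866
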