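import Cfsg.Statements.S3867
import Cfsg.Agent.Lib.H1Cop
import Cfsg.Agent.Lib.FGS2
import Cfsg.Agent.Lib.Herstein
-- import your own Cfsg.Agent.* helpers here

set_option autoImplicit false
open Cfsg

namespace Cfsg.Agent.S3867

open scoped Pointwise in
theorem key {G : Type*} [Group G] [Finite G] {p : ℕ} [Fact p.Prime] (N : Subgroup G) [N.Normal] (P : Sylow p G)
    (q : G ⧸ N) (hq : q ∈ Subgroup.normalizer (((P : Subgroup G).map (QuotientGroup.mk' N)) : Set (G ⧸ N))) :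
    ∃ g ∈ Subgroup.normalizer ((P : Subgroup G) : Set G), (g : G ⧸ N) = q := by
  have hp : p.Prime := Fact.out
  obtain ⟨g, rfl⟩ := QuotientGroup.mk_surjective q
  have hL : N ⊔ (P : Subgroup G) = ((P : Subgroup G).map (QuotientGroup.mk' N)).comap (QuotientGroup.mk' N) := by
    rw [Subgroup.comap_map_eq, QuotientGroup.ker_mk', sup_comm]
  have hgL : g ∈ Subgroup.normalizer ((N ⊔ (P : Subgroup G) : Subgroup G) : Set G) := by
    rw [hL]
    exact Subgroup.le_normalizer_comap _ (show g ∈ _ from hq)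
  have hrel : ¬ p ∣ (P : Subgroup G).relIndex (N ⊔ (P : Subgroup G)) := by
    intro hd
    exact P.not_dvd_index (hd.trans (Subgroup.relIndex_dvd_index_of_le le_sup_right))
  have hS : Lib.H1Cop.IsSylowIn p (P : Subgroup G) (N ⊔ (P : Subgroup G)) := ⟨le_sup_right, P.isPGroup', hrel⟩
  have hS' := Lib.H1Cop.IsSylowIn.conj_smul hgL hS
  obtain ⟨x, hx, hxe⟩ := hS.exists_conj hS'
  obtain ⟨n, hn, s, hs, rfl⟩ := Subgroup.mem_sup_of_normal_left.1 hx
  have h1 : MulAut.conj s • (P : Subgroup G) = P := Lib.H1Conj.conj_smul_eq_self_of_mem_normalizer (Subgroup.le_normalizer hs)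
  have h2 : MulAut.conj n • (P : Subgroup G) = MulAut.conj g • (P : Subgroup G) := by rw [← hxe, map_mul, mul_smul, h1]
  refine ⟨n⁻¹ * g, Lib.H1Conj.mem_normalizer_of_conj_smul_eq ?_, ?_⟩
  · rw [map_mul, mul_smul, ← h2, ← mul_smul, ← map_mul]
    simp
  · rw [QuotientGroup.mk_mul, QuotientGroup.mk_inv, (QuotientGroup.eq_one_iff n).2 hn]
    simp

theorem card_sylow_quot {G : Type*} [Group G] [Finite G] {p : ℕ} [Fact p.Prime] (N : Subgroup G) [N.Normal] (P : Sylow p G) :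
    Nat.card (Sylow p (G ⧸ N)) = (Subgroup.normalizer ((P : Subgroup G) : Set G) ⊔ N).index := by
  let P' : Sylow p (G ⧸ N) := P.mapSurjective (QuotientGroup.mk'_surjective N)
  rw [Sylow.card_eq_index_normalizer P']
  have hcoe : (P' : Subgroup (G ⧸ N)) = (P : Subgroup G).map (QuotientGroup.mk' N) := rfl
  have heq : Subgroup.normalizer ((P' : Subgroup (G ⧸ N)) : Set (G ⧸ N)) =
      (Subgroup.normalizer ((P : Subgroup G) : Set G)).map (QuotientGroup.mk' N) := by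
    rw [hcoe]
    apply le_antisymm
    · intro q hq
      obtain ⟨g, hg, rfl⟩ := key N P q hq
      exact ⟨g, hg, rfl⟩
    · exact Subgroup.le_normalizer_map _
  change (Subgroup.normalizer ((P' : Subgroup (G ⧸ N)) : Set (G ⧸ N))).index = _
  rw [heq, Subgroup.index_map, QuotientGroup.ker_mk', MonoidHom.range_eq_top.2 (QuotientGroup.mk'_surjective N),
    Subgroup.index_top, mul_one]

theorem inf_le_P {G : Type*} [Group G] [Finite G] {p : ℕ} [Fact p.Prime] (M N : Subgroup G) [M.Normal] [N.Normal]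
    (hMN : M ⊓ N = ⊥) (P : Sylow p G) : M ⊓ ((P : Subgroup G) ⊔ N) ≤ (P : Subgroup G) := by
  have hp : p.Prime := Fact.out
  set T := M ⊓ ((P : Subgroup G) ⊔ N) with hT
  have hTp : IsPGroup p T := by
    rintro ⟨y, hyM, hyL⟩
    obtain ⟨u, hu, n, hn, rfl⟩ := Subgroup.mem_sup_of_normal_right.1 hyL
    obtain ⟨k, hk⟩ := P.isPGroup' ⟨u, hu⟩
    refine ⟨k, ?_⟩
    apply Subtype.ext
    have hk' : u ^ (p ^ k) = 1 := by simpa using congrArg Subtype.val hk
    have h1 : (u * n) ^ (p ^ k) ∈ N := by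
      rw [← QuotientGroup.eq_one_iff, QuotientGroup.mk_pow, QuotientGroup.mk_mul,
        (QuotientGroup.eq_one_iff n).2 hn, mul_one, ← QuotientGroup.mk_pow, hk']
      rfl
    have h2 : (u * n) ^ (p ^ k) ∈ M := M.pow_mem hyM _
    have h3 : (u * n) ^ (p ^ k) ∈ M ⊓ N := Subgroup.mem_inf.2 ⟨h2, h1⟩
    rw [hMN] at h3
    simpa using h3
  have hle : (P : Subgroup G) ⊓ M ≤ T := by
    intro x hx
    obtain ⟨hx1, hx2⟩ := Subgroup.mem_inf.1 hx
    exact Subgroup.mem_inf.2 ⟨hx2, Subgroup.mem_sup_left hx1⟩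
  have hTM : T ≤ M := inf_le_left
  have h1 := Subgroup.relIndex_mul_relIndex _ _ _ hle hTM
  have h2 : ¬ p ∣ ((P : Subgroup G) ⊓ M).relIndex M := by
    rw [Subgroup.inf_relIndex_right]
    intro hd
    exact P.not_dvd_index (hd.trans (Lib.FGS2.relIndex_normal_dvd_index M _))
  have h3 : ((P : Subgroup G) ⊓ M).relIndex T = 1 := by
    obtain ⟨j, hj⟩ := hTp.exists_card_eq
    have h4 : ((P : Subgroup G) ⊓ M).relIndex T ∣ p ^ j := by
      rw [← hj]
      exact Subgroup.relIndex_dvd_card _ _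
    obtain ⟨i, _, hi⟩ := (Nat.dvd_prime_pow hp).1 h4
    rw [hi]
    by_cases hi0 : i = 0
    · simp [hi0]
    · exfalso
      apply h2
      rw [← h1, hi]
      exact Dvd.dvd.mul_right (dvd_pow_self p hi0) _
  have h5 := Subgroup.relIndex_eq_one.1 h3
  exact h5.trans inf_le_left

/-- Let M and N be nontrivial normal subgroups of the finite group G with M ⊓ N trivial, and let p be a prime. Writing n(X) for the number of Sylow p-subgroups of a group X, one has n(G) · n(G/MN) = n(G/M) · n(G/N). -/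
theorem result {G : Type*} [Group G] [Finite G] (p : ℕ) [Fact p.Prime] (M N : Subgroup G) [M.Normal] [N.Normal] (hM : M ≠ ⊥) (hN : N ≠ ⊥) (hMN : M ⊓ N = ⊥) : Nat.card (Sylow p G) * Nat.card (Sylow p (G ⧸ (M ⊔ N))) = Nat.card (Sylow p (G ⧸ M)) * Nat.card (Sylow p (G ⧸ N)) := by
  classical
  obtain ⟨P⟩ : Nonempty (Sylow p G) := inferInstance
  set H := Subgroup.normalizer ((P : Subgroup G) : Set G) with hH
  rw [card_sylow_quot (M ⊔ N) P, card_sylow_quot M P, card_sylow_quot N P, Sylow.card_eq_index_normalizer P]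
  change H.index * _ = _
  have hclaim : M ⊓ (H ⊔ N) ≤ H := by
    intro x hx
    obtain ⟨hxM, hxL⟩ := Subgroup.mem_inf.1 hx
    obtain ⟨h, hh, n, hn, hxe⟩ := Subgroup.mem_sup_of_normal_right.1 hxL
    apply Lib.Herstein.mem_normalizer_of_conj_le
    intro u hu
    have h1 : x * u * x⁻¹ * u⁻¹ ∈ M := by
      have : x * u * x⁻¹ * u⁻¹ = x * (u * x⁻¹ * u⁻¹) := by group
      rw [this]
      exact M.mul_mem hxM (‹M.Normal›.conj_mem _ (M.inv_mem hxM) u)
    have h2 : h * u * h⁻¹ ∈ (P : Subgroup G) := (Subgroup.mem_normalizer_iff.1 hh u).1 hu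
    have h3 : h * u * h⁻¹ * u⁻¹ ∈ (P : Subgroup G) := Subgroup.mul_mem _ h2 (Subgroup.inv_mem _ hu)
    have h4 : (h * u * h⁻¹ * u⁻¹)⁻¹ * (x * u * x⁻¹ * u⁻¹) ∈ N := by
      rw [← QuotientGroup.eq]
      have h5 : (x : G ⧸ N) = (h : G ⧸ N) := by
        rw [← hxe, QuotientGroup.mk_mul, (QuotientGroup.eq_one_iff n).2 hn, mul_one]
      simp only [QuotientGroup.mk_mul, QuotientGroup.mk_inv, h5]
    have h6 : x * u * x⁻¹ * u⁻¹ ∈ (P : Subgroup G) ⊔ N := by
      have e : x * u * x⁻¹ * u⁻¹ = (h * u * h⁻¹ * u⁻¹) * ((h * u * h⁻¹ * u⁻¹)⁻¹ * (x * u * x⁻¹ * u⁻¹)) := by group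
      rw [e]
      exact Subgroup.mul_mem_sup h3 h4
    have h7 := inf_le_P M N hMN P (Subgroup.mem_inf.2 ⟨h1, h6⟩)
    have e : x * u * x⁻¹ = (x * u * x⁻¹ * u⁻¹) * u := by group
    rw [e]
    exact Subgroup.mul_mem _ h7 hu
  have heq1 : (H ⊔ N) ⊓ M = H ⊓ M := by
    apply le_antisymm
    · intro x hx
      obtain ⟨hx1, hx2⟩ := Subgroup.mem_inf.1 hx
      exact Subgroup.mem_inf.2 ⟨hclaim (Subgroup.mem_inf.2 ⟨hx2, hx1⟩), hx2⟩
    · exact inf_le_inf_right _ le_sup_left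
  have hrel : (H ⊔ N).relIndex M = H.relIndex M := by
    rw [← Subgroup.inf_relIndex_right (H ⊔ N) M, heq1, Subgroup.inf_relIndex_right]
  have h1 := Lib.FGSBasic.relIndex_eq_relIndex_sup M H
  have h2 := Lib.FGSBasic.relIndex_eq_relIndex_sup M (H ⊔ N)
  have h3 : H.relIndex (M ⊔ H) * (M ⊔ H).index = H.index := Subgroup.relIndex_mul_index le_sup_right
  have h4 : (H ⊔ N).relIndex (M ⊔ (H ⊔ N)) * (M ⊔ (H ⊔ N)).index = (H ⊔ N).index := Subgroup.relIndex_mul_index le_sup_right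
  have h5 : M ⊔ H = H ⊔ M := sup_comm _ _
  have h6 : M ⊔ (H ⊔ N) = H ⊔ (M ⊔ N) := by
    rw [sup_left_comm]
  rw [← h1, h5] at h3
  rw [← h2, hrel, h6] at h4
  rw [← h3, ← h4]
  ring

end Cfsg.Agent.S3867
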