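import Cfsg.Statements.S3897
import Cfsg.Agent.Lib.FGSBasic
-- import your own Cfsg.Agent.* helpers here

set_option autoImplicit false
open Cfsg

namespace Cfsg.Agent.S3897

open Classical in
theorem count_fiber {α β : Type*} [Fintype α] [Fintype β] (f : α → β)
    (hf : Function.Surjective f) (T : Finset α) (hT : ∀ a, (∀ b, f b = f a → b = a) → a ∈ T) :
    2 * Fintype.card β ≤ Fintype.card α + T.card := by
  have h1 : Fintype.card α = ∑ b : β, (Finset.univ.filter (fun a => f a = b)).card := by
    rw [← Finset.card_univ]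
    exact Finset.card_eq_sum_card_fiberwise (fun a _ => Finset.mem_univ _)
  have h2 : T.card = ∑ b : β, (T.filter (fun a => f a = b)).card :=
    Finset.card_eq_sum_card_fiberwise (fun a _ => Finset.mem_univ _)
  have h3 : ∀ b : β, 2 ≤ (Finset.univ.filter (fun a => f a = b)).card + (T.filter (fun a => f a = b)).card := by
    intro b
    obtain ⟨a, rfl⟩ := hf b
    by_cases hc : ∀ c, f c = f a → c = a
    · have h4 : a ∈ T := hT a hc
      have h5 : 1 ≤ (Finset.univ.filter (fun c => f c = f a)).card :=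
        Finset.card_pos.mpr ⟨a, by simp⟩
      have h6 : 1 ≤ (T.filter (fun c => f c = f a)).card :=
        Finset.card_pos.mpr ⟨a, by simp [h4]⟩
      omega
    · push_neg at hc
      obtain ⟨c, hc1, hc2⟩ := hc
      have h7 : 1 < (Finset.univ.filter (fun c => f c = f a)).card :=
        Finset.one_lt_card.mpr ⟨c, by simp [hc1], a, by simp, hc2⟩
      omega
  calc 2 * Fintype.card β = ∑ _b : β, 2 := by simp [mul_comm]
    _ ≤ ∑ b : β, ((Finset.univ.filter (fun a => f a = b)).card + (T.filter (fun a => f a = b)).card) :=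
        Finset.sum_le_sum (fun b _ => h3 b)
    _ = Fintype.card α + T.card := by rw [Finset.sum_add_distrib, ← h1, ← h2]

theorem eq_of_big {G : Type*} [Group G] [Finite G] {p : ℕ} [Fact p.Prime] (P : Sylow p G)
    (H : Subgroup G) (hH : H ≤ (P : Subgroup G)) (hc : Nat.card (P : Subgroup G) < p * Nat.card H) :
    H = (P : Subgroup G) := by
  have hdvd : Nat.card H ∣ Nat.card (P : Subgroup G) := Subgroup.card_dvd_of_le hH
  obtain ⟨m, hm⟩ := hdvd
  obtain ⟨n, hn⟩ := (P.isPGroup').exists_card_eq
  have hpos : 0 < Nat.card H := Nat.card_pos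
  have hlt : m < p := by
    rw [hm] at hc
    rw [mul_comm] at hc
    exact lt_of_mul_lt_mul_right hc (Nat.zero_le _)
  have hmd : m ∣ p ^ n := by rw [← hn, hm]; exact dvd_mul_left _ _
  obtain ⟨j, _, rfl⟩ := (Nat.dvd_prime_pow (Fact.out : p.Prime)).1 hmd
  have hj : j = 0 := by
    by_contra hj
    have : p ≤ p ^ j := Nat.le_self_pow hj p
    omega
  subst hj
  simp at hm
  exact Subgroup.eq_of_le_of_card_ge hH (le_of_eq hm)

theorem key {G : Type*} [Group G] [Finite G] {p : ℕ} [Fact p.Prime] (P : Sylow p G)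
    (h : (p + 1) * Nat.card ↥(P : Subgroup G) <
      2 * p * Nat.card {c : ConjClasses G // ∀ x ∈ c.carrier, ∃ k : ℕ, orderOf x = p ^ k}) :
    ∀ u ∈ Subgroup.normalizer ((P : Subgroup G) : Set G), ∀ x ∈ (P : Subgroup G), u * x * u⁻¹ = x := by
  classical
  haveI := Fintype.ofFinite G
  haveI := Fintype.ofFinite ↥(P : Subgroup G)
  have hpp : p.Prime := Fact.out
  let K := {c : ConjClasses G // ∀ x ∈ c.carrier, ∃ k : ℕ, orderOf x = p ^ k}
  haveI : Fintype K := Fintype.ofFinite _
  have hφ : ∀ x : ↥(P : Subgroup G), ∀ y ∈ (ConjClasses.mk (x : G)).carrier, ∃ k : ℕ, orderOf y = p ^ k := by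
    intro x y hy
    have hy' : IsConj y (x : G) := by
      rw [ConjClasses.mem_carrier_iff_mk_eq] at hy
      exact ConjClasses.mk_eq_mk_iff_isConj.1 hy
    obtain ⟨k, hk⟩ := Lib.FGSBasic.orderOf_of_mem_sylow P x.2
    refine ⟨k, ?_⟩
    rw [← hk]
    obtain ⟨c, hc⟩ := isConj_iff.1 hy'
    rw [← hc]
    exact (Lib.FGSBasic.orderOf_conj c y).symm
  let φ : ↥(P : Subgroup G) → K := fun x => ⟨ConjClasses.mk (x : G), hφ x⟩
  have hsurj : Function.Surjective φ := by
    rintro ⟨c, hc⟩
    obtain ⟨g, rfl⟩ := ConjClasses.mk_surjective c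
    obtain ⟨k, hk⟩ := hc g (ConjClasses.mem_carrier_mk)
    have hZ : IsPGroup p (Subgroup.zpowers g) := by
      rw [IsPGroup.iff_card]
      exact ⟨k, by rw [Nat.card_zpowers, hk]⟩
    obtain ⟨Q, hQ⟩ := hZ.exists_le_sylow
    obtain ⟨t, ht⟩ := MulAction.exists_smul_eq G Q P
    have hg : g ∈ (Q : Subgroup G) := hQ (Subgroup.mem_zpowers g)
    have : t * g * t⁻¹ ∈ (P : Subgroup G) := by
      rw [← ht]
      rw [Lib.FGSBasic.mem_smul_sylow_iff]
      simpa [mul_assoc] using hg
    refine ⟨⟨_, this⟩, ?_⟩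
    apply Subtype.ext
    exact ConjClasses.mk_eq_mk_iff_isConj.2 (isConj_iff.2 ⟨t⁻¹, by simp [mul_assoc]⟩)
  let T : Finset ↥(P : Subgroup G) := Finset.univ.filter (fun a => ∀ b : ↥(P : Subgroup G), φ b = φ a → b = a)
  have hcount := count_fiber φ hsurj T (fun a ha => Finset.mem_filter.2 ⟨Finset.mem_univ _, ha⟩)
  have hcardK : Nat.card K = Fintype.card K := Nat.card_eq_fintype_card
  have hcardP : Nat.card ↥(P : Subgroup G) = Fintype.card ↥(P : Subgroup G) := Nat.card_eq_fintype_card
  have hlt : Nat.card ↥(P : Subgroup G) < p * T.card := by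
    change (p + 1) * Nat.card ↥(P : Subgroup G) < 2 * p * Nat.card K at h
    have h2 : 2 * p * Nat.card K ≤ p * (Nat.card ↥(P : Subgroup G) + T.card) := by
      rw [hcardK, hcardP]
      rw [mul_comm 2 p, mul_assoc]
      exact Nat.mul_le_mul_left p hcount
    have h3 : (p + 1) * Nat.card ↥(P : Subgroup G) = p * Nat.card ↥(P : Subgroup G) + Nat.card ↥(P : Subgroup G) := by ring
    rw [h3] at h
    rw [Nat.mul_add] at h2
    omega
  intro u hu x hx
  let H : Subgroup G := (P : Subgroup G) ⊓ Subgroup.centralizer {u}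
  have hTH : ∀ a ∈ T, (a : G) ∈ H := by
    intro a ha
    refine Subgroup.mem_inf.2 ⟨a.2, ?_⟩
    rw [Subgroup.mem_centralizer_singleton_iff]
    have hb : u * (a : G) * u⁻¹ ∈ (P : Subgroup G) := by
      exact (Subgroup.mem_normalizer_iff.1 hu (a : G)).1 a.2
    have ha' := (Finset.mem_filter.1 ha).2 ⟨_, hb⟩ (by
      apply Subtype.ext
      exact ConjClasses.mk_eq_mk_iff_isConj.2 (isConj_iff.2 ⟨u⁻¹, by simp [mul_assoc]⟩))
    have := congrArg Subtype.val ha'
    simp only at this
    rw [mul_inv_eq_iff_eq_mul] at this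
    exact this.symm
  have hTc : T.card ≤ Nat.card H := by
    haveI : Fintype H := Fintype.ofFinite _
    rw [Nat.card_eq_fintype_card (α := H), ← Finset.card_attach, ← Finset.card_univ]
    refine Finset.card_le_card_of_injOn (fun a => ⟨a.1, hTH a.1 a.2⟩) (fun _ _ => Finset.mem_coe.2 (Finset.mem_univ _)) ?_
    intro a _ b _ hab
    have := congrArg Subtype.val hab
    exact Subtype.ext (Subtype.ext this)
  have hHP : H = (P : Subgroup G) := by
    apply eq_of_big P H inf_le_left
    calc Nat.card ↥(P : Subgroup G) < p * T.card := hlt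
      _ ≤ p * Nat.card H := Nat.mul_le_mul_left p hTc
  have hxH : x ∈ H := by rw [hHP]; exact hx
  have := Subgroup.mem_centralizer_singleton_iff.1 (Subgroup.mem_inf.1 hxH).2
  rw [mul_inv_eq_iff_eq_mul]
  exact this.symm

/-- Let p be an odd prime and G a finite group with Sylow p-subgroup P, and write k_p(G) for the number of conjugacy classes of G consisting of p-elements (elements of p-power order, the identity included). Then k_p(G) > (p + 1)|P|/(2p) if and only if G has a normal p-complement and P is abelian. -/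
theorem result {G : Type*} [Group G] [Finite G] {p : ℕ} [Fact p.Prime] (hp : p ≠ 2) (P : Sylow p G) :
    (p + 1) * Nat.card ↥(P : Subgroup G) < 2 * p * Nat.card {c : ConjClasses G // ∀ x ∈ c.carrier, ∃ k : ℕ, orderOf x = p ^ k} ↔
      Cfsg.HasNormalPComplement p G ∧ IsMulCommutative ↥(P : Subgroup G) := by
  classical
  constructor
  · intro h
    have hk := key P h
    have hcomm : ∀ x ∈ (P : Subgroup G), ∀ y ∈ (P : Subgroup G), x * y = y * x := by
      intro x hx y hy
      have hxN : x ∈ Subgroup.normalizer ((P : Subgroup G) : Set G) := by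
        apply Subgroup.le_normalizer hx
      have := hk x hxN y hy
      rw [mul_inv_eq_iff_eq_mul] at this
      exact this
    refine ⟨?_, ⟨⟨fun a b => Subtype.ext (hcomm a a.2 b b.2)⟩⟩⟩
    have hN : Subgroup.normalizer ((P : Subgroup G) : Set G) ≤ Subgroup.centralizer ((P : Subgroup G) : Set G) := by
      intro u hu
      rw [Subgroup.mem_centralizer_iff]
      intro x hx
      have := hk u hu x hx
      rw [mul_inv_eq_iff_eq_mul] at this
      exact this.symm
    exact ⟨P, _, MonoidHom.normal_ker _, MonoidHom.ker_transferSylow_isComplement' P hN⟩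
  · rintro ⟨⟨P', N, hNn, hc⟩, hab⟩
    have hcard : Nat.card N * Nat.card (P' : Subgroup G) = Nat.card G := hc.card_mul
    have hPP' : Nat.card (P : Subgroup G) = Nat.card (P' : Subgroup G) := by
      rw [Sylow.card_eq_multiplicity, Sylow.card_eq_multiplicity]
    have hcop : (Nat.card N).Coprime (Nat.card (P : Subgroup G)) := by
      rw [hc.index_eq_card.symm, hPP']
      exact (P'.card_coprime_index).symm
    have hc2 : N.IsComplement' (P : Subgroup G) :=
      Subgroup.isComplement'_of_coprime (by rw [hPP']; exact hcard) hcop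
    have hinj : ∀ x y : ↥(P : Subgroup G), IsConj (x : G) y → x = y := by
      intro x y hxy
      obtain ⟨g, hg⟩ := isConj_iff.1 hxy
      obtain ⟨⟨n, s⟩, hns⟩ := hc2.2 g
      change (n : G) * s = g at hns
      have hsx : (s : G) * x * (s : G)⁻¹ = x := by
        have h2 : (s : G) * x = x * s := congrArg Subtype.val (hab.is_comm.comm s x)
        rw [h2]; group
      have hy : (y : G) = n * x * (n : G)⁻¹ := by
        rw [← hg, ← hns]
        calc (n : G) * s * x * ((n : G) * s)⁻¹ = n * ((s : G) * x * (s : G)⁻¹) * (n : G)⁻¹ := by group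
          _ = _ := by rw [hsx]
      have h1 : (y : G) * (x : G)⁻¹ ∈ N := by
        rw [hy]
        have : (n : G) * x * (n : G)⁻¹ * (x : G)⁻¹ = n * ((x : G) * (n : G)⁻¹ * (x : G)⁻¹) := by group
        rw [this]
        exact N.mul_mem n.2 (hNn.conj_mem _ (N.inv_mem n.2) _)
      have h2 : (y : G) * (x : G)⁻¹ ∈ (P : Subgroup G) := (P : Subgroup G).mul_mem y.2 ((P : Subgroup G).inv_mem x.2)
      have h3 : (y : G) * (x : G)⁻¹ = 1 := by
        have := Subgroup.disjoint_def.1 hc2.disjoint h1 h2
        exact this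
      exact Subtype.ext (mul_inv_eq_one.1 h3).symm
    have hφ : ∀ x : ↥(P : Subgroup G), ∀ y ∈ (ConjClasses.mk (x : G)).carrier, ∃ k : ℕ, orderOf y = p ^ k := by
      intro x y hy
      have hy' : IsConj y (x : G) := by
        rw [ConjClasses.mem_carrier_iff_mk_eq] at hy
        exact ConjClasses.mk_eq_mk_iff_isConj.1 hy
      obtain ⟨k, hk⟩ := Lib.FGSBasic.orderOf_of_mem_sylow P x.2
      refine ⟨k, ?_⟩
      rw [← hk]
      obtain ⟨c, hc⟩ := isConj_iff.1 hy'
      rw [← hc]
      exact (Lib.FGSBasic.orderOf_conj c y).symm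
    let φ : ↥(P : Subgroup G) → {c : ConjClasses G // ∀ x ∈ c.carrier, ∃ k : ℕ, orderOf x = p ^ k} := fun x => ⟨ConjClasses.mk (x : G), hφ x⟩
    have hφinj : Function.Injective φ := by
      intro x y hxy
      have := congrArg Subtype.val hxy
      exact hinj x y (ConjClasses.mk_eq_mk_iff_isConj.1 this)
    have hle : Nat.card ↥(P : Subgroup G) ≤ Nat.card {c : ConjClasses G // ∀ x ∈ c.carrier, ∃ k : ℕ, orderOf x = p ^ k} :=
      Nat.card_le_card_of_injective φ hφinj
    have hpp : p.Prime := Fact.out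
    have hp2 := hpp.two_le
    have hpos : 0 < Nat.card ↥(P : Subgroup G) := Nat.card_pos
    calc (p + 1) * Nat.card ↥(P : Subgroup G) < (2 * p) * Nat.card ↥(P : Subgroup G) :=
          Nat.mul_lt_mul_of_pos_right (by omega) hpos
      _ ≤ 2 * p * _ := Nat.mul_le_mul_left _ hle

end Cfsg.Agent.S3897
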