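import Cfsg.Statements.S3899
import Cfsg.Agent.S3897
import Cfsg.Agent.Lib.FGS2
-- import your own Cfsg.Agent.* helpers here

set_option autoImplicit false
open Cfsg

namespace Cfsg.Agent.S3899

abbrev kPi (σ : Finset ℕ) (X : Type*) [Group X] : Type _ :=
  {c : ConjClasses X // ∀ x ∈ c.carrier, ∀ r : ℕ, r.Prime → r ∣ orderOf x → r ∈ σ}

abbrev kQ (q : ℕ) (X : Type*) [Group X] : Type _ :=
  {c : ConjClasses X // ∀ x ∈ c.carrier, ∃ k : ℕ, orderOf x = q ^ k}

noncomputable abbrev sPart (σ : Finset ℕ) (X : Type*) : ℕ := σ.prod (fun r => r ^ (Nat.card X).factorization r)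

theorem isConj_of_mem_carrier {X : Type*} [Group X] {x y : X}
    (hy : y ∈ (ConjClasses.mk x).carrier) : IsConj y x := by
  rw [ConjClasses.mem_carrier_iff_mk_eq] at hy
  exact ConjClasses.mk_eq_mk_iff_isConj.1 hy

theorem orderOf_isConj {X : Type*} [Group X] {x y : X} (h : IsConj x y) : orderOf x = orderOf y := by
  obtain ⟨c, hc⟩ := isConj_iff.1 h
  rw [← hc]
  exact (Lib.FGSBasic.orderOf_conj c x).symm

theorem sPart_mono (σ : Finset ℕ) (hσ : ∀ r ∈ σ, r.Prime) {X Y : Type*} [Finite X] [Finite Y]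
    [Nonempty X] [Nonempty Y]
    (h : Nat.card X ∣ Nat.card Y) : sPart σ X ≤ sPart σ Y := by
  apply Finset.prod_le_prod'
  intro r hr
  apply Nat.pow_le_pow_right (hσ r hr).pos
  have hY : Nat.card Y ≠ 0 := Nat.card_pos.ne'
  have hX : Nat.card X ≠ 0 := Nat.card_pos.ne'
  exact ((Nat.factorization_le_iff_dvd hX hY).2 h) r

theorem kQ_le (q : ℕ) [Fact q.Prime] (X : Type*) [Group X] [Finite X] :
    Nat.card (kQ q X) ≤ q ^ (Nat.card X).factorization q := by
  classical
  obtain ⟨P⟩ : Nonempty (Sylow q X) := inferInstance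
  rw [← Sylow.card_eq_multiplicity P]
  have hφ : ∀ x : ↥(P : Subgroup X), ∀ y ∈ (ConjClasses.mk (x : X)).carrier, ∃ k : ℕ, orderOf y = q ^ k := by
    intro x y hy
    obtain ⟨k, hk⟩ := Lib.FGSBasic.orderOf_of_mem_sylow P x.2
    exact ⟨k, by rw [← hk]; exact orderOf_isConj (isConj_of_mem_carrier hy)⟩
  let φ : ↥(P : Subgroup X) → kQ q X := fun x => ⟨ConjClasses.mk (x : X), hφ x⟩
  have hsurj : Function.Surjective φ := by
    rintro ⟨c, hc⟩
    obtain ⟨g, rfl⟩ := ConjClasses.mk_surjective c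
    obtain ⟨k, hk⟩ := hc g (ConjClasses.mem_carrier_mk)
    have hZ : IsPGroup q (Subgroup.zpowers g) := by
      rw [IsPGroup.iff_card]
      exact ⟨k, by rw [Nat.card_zpowers, hk]⟩
    obtain ⟨Q, hQ⟩ := hZ.exists_le_sylow
    obtain ⟨t, ht⟩ := MulAction.exists_smul_eq X Q P
    have hg : g ∈ (Q : Subgroup X) := hQ (Subgroup.mem_zpowers g)
    have : t * g * t⁻¹ ∈ (P : Subgroup X) := by
      rw [← ht]
      rw [Lib.FGSBasic.mem_smul_sylow_iff]
      simpa [mul_assoc] using hg
    refine ⟨⟨_, this⟩, ?_⟩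
    apply Subtype.ext
    exact ConjClasses.mk_eq_mk_iff_isConj.2 (isConj_iff.2 ⟨t⁻¹, by simp [mul_assoc]⟩)
  exact Nat.card_le_card_of_surjective φ hsurj

theorem kPi_empty (X : Type*) [Group X] [Finite X] : Nat.card (kPi ∅ X) ≤ 1 := by
  have : Subsingleton (kPi ∅ X) := by
    constructor
    rintro ⟨c, hc⟩ ⟨d, hd⟩
    apply Subtype.ext
    obtain ⟨g, rfl⟩ := ConjClasses.mk_surjective c
    obtain ⟨h, rfl⟩ := ConjClasses.mk_surjective d
    have h1 : ∀ x : X, (∀ r : ℕ, r.Prime → r ∣ orderOf x → r ∈ (∅ : Finset ℕ)) → x = 1 := by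
      intro x hx
      rw [← orderOf_eq_one_iff]
      by_contra hne
      obtain ⟨r, hr, hd⟩ := Nat.exists_prime_and_dvd hne
      simpa using hx r hr hd
    have h2 := h1 g (hc g ConjClasses.mem_carrier_mk)
    have h3 := h1 h (hd h ConjClasses.mem_carrier_mk)
    simp only [h2, h3]
  exact Finite.card_le_one_iff_subsingleton.2 this

theorem kPi_insert_le {G : Type*} [Group G] [Finite G] (σ : Finset ℕ) (hσ : ∀ r ∈ σ, r.Prime) (q : ℕ) [Fact q.Prime] (hq : q ∉ σ)
    (hind : ∀ (Y : Subgroup G), Nat.card (kPi σ Y) ≤ sPart σ Y) :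
    Nat.card (kPi (insert q σ) G) ≤ Nat.card (kQ q G) * sPart σ G := by
  classical
  haveI : Fintype (kQ q G) := Fintype.ofFinite _
  have hrep : ∀ c : kQ q G, ∃ x : G, ConjClasses.mk x = c.1 := fun c => ConjClasses.mk_surjective c.1
  choose x hx using hrep
  let C : kQ q G → Subgroup G := fun c => Subgroup.centralizer {x c}
  let R : kPi (insert q σ) G → (Σ c : kQ q G, kPi σ (C c)) → Prop := fun d s =>
    ∃ y : C s.1, s.2.1 = ConjClasses.mk y ∧ d.1 = ConjClasses.mk (x s.1 * (y : G))
  have hex : ∀ d, ∃ s, R d s := by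
    rintro ⟨d, hd⟩
    obtain ⟨g, rfl⟩ := ConjClasses.mk_surjective d
    obtain ⟨a, b, ha, hb, hab, ⟨k, hk⟩, hcop⟩ := Lib.FGSBasic.exists_p_decomp q g
    have hac : ∀ z ∈ (ConjClasses.mk a).carrier, ∃ k : ℕ, orderOf z = q ^ k :=
      fun z hz => ⟨k, by rw [← hk]; exact orderOf_isConj (isConj_of_mem_carrier hz)⟩
    let c : kQ q G := ⟨ConjClasses.mk a, hac⟩
    have hconj : IsConj a (x c) := ConjClasses.mk_eq_mk_iff_isConj.1 (hx c).symm
    obtain ⟨t, ht⟩ := isConj_iff.1 hconj
    obtain ⟨i, rfl⟩ := Subgroup.mem_zpowers_iff.1 ha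
    obtain ⟨j, rfl⟩ := Subgroup.mem_zpowers_iff.1 hb
    have hcomm : g ^ i * g ^ j = g ^ j * g ^ i := by
      rw [← zpow_add, ← zpow_add, add_comm]
    have hymem : t * g ^ j * t⁻¹ ∈ C c := by
      change t * g ^ j * t⁻¹ ∈ Subgroup.centralizer {x c}
      rw [Subgroup.mem_centralizer_singleton_iff, ← ht]
      calc t * g ^ j * t⁻¹ * (t * g ^ i * t⁻¹) = t * (g ^ j * g ^ i) * t⁻¹ := by group
        _ = t * (g ^ i * g ^ j) * t⁻¹ := by rw [hcomm]
        _ = t * g ^ i * t⁻¹ * (t * g ^ j * t⁻¹) := by group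
    let y : C c := ⟨t * g ^ j * t⁻¹, hymem⟩
    have hy : ∀ z ∈ (ConjClasses.mk y).carrier, ∀ r : ℕ, r.Prime → r ∣ orderOf z → r ∈ σ := by
      intro z hz r hr hrz
      have h1 : orderOf z = orderOf y := orderOf_isConj (isConj_of_mem_carrier hz)
      have h2 : orderOf y = orderOf (g ^ j) := by
        rw [← Subgroup.orderOf_coe]
        exact Lib.FGSBasic.orderOf_conj t _
      rw [h1, h2] at hrz
      have h3 : orderOf (g ^ j) ∣ orderOf g := orderOf_dvd_of_mem_zpowers (Subgroup.zpow_mem_zpowers g j)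
      have h4 := hd g ConjClasses.mem_carrier_mk r hr (hrz.trans h3)
      rcases Finset.mem_insert.1 h4 with h5 | h5
      · subst h5
        exact absurd hrz (by
          intro h6
          have := Nat.dvd_gcd h6 (dvd_refl r)
          rw [hcop] at this
          exact hr.one_lt.ne' (Nat.dvd_one.1 this))
      · exact h5
    refine ⟨⟨c, ⟨ConjClasses.mk y, hy⟩⟩, y, rfl, ?_⟩
    apply ConjClasses.mk_eq_mk_iff_isConj.2
    rw [isConj_iff]
    refine ⟨t, ?_⟩
    change t * g * t⁻¹ = x c * (t * g ^ j * t⁻¹)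
    rw [← ht]
    nth_rewrite 1 [← hab]
    group
  choose F hF using hex
  have hinj : Function.Injective F := by
    intro d d' h
    have h1 := hF d
    have h2 := hF d'
    rw [← h] at h2
    obtain ⟨y, hy1, hy2⟩ := h1
    obtain ⟨y', hy1', hy2'⟩ := h2
    apply Subtype.ext
    rw [hy2, hy2']
    apply ConjClasses.mk_eq_mk_iff_isConj.2
    have h3 : IsConj y y' := ConjClasses.mk_eq_mk_iff_isConj.1 (hy1.symm.trans hy1')
    obtain ⟨u, hu⟩ := isConj_iff.1 h3
    rw [isConj_iff]
    refine ⟨u, ?_⟩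
    have h4 : (u : G) * y * (u : G)⁻¹ = y' := congrArg Subtype.val hu
    rw [← h4]
    have h5 : (u : G) * x (F d).1 = x (F d).1 * u := by
      have := Subgroup.mem_centralizer_singleton_iff.1 u.2
      exact this
    calc (u : G) * (x (F d).1 * y) * (u : G)⁻¹ = ((u : G) * x (F d).1) * y * (u : G)⁻¹ := by group
      _ = x (F d).1 * (u * y * (u : G)⁻¹) := by rw [h5]; group
  calc Nat.card (kPi (insert q σ) G) ≤ Nat.card (Σ c : kQ q G, kPi σ (C c)) :=
        Nat.card_le_card_of_injective F hinj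
    _ = ∑ c : kQ q G, Nat.card (kPi σ (C c)) := Nat.card_sigma
    _ ≤ ∑ _c : kQ q G, sPart σ G := by
        apply Finset.sum_le_sum
        intro c _
        exact (hind (C c)).trans (sPart_mono σ hσ (Subgroup.card_subgroup_dvd_card _))
    _ = Nat.card (kQ q G) * sPart σ G := by
        rw [Finset.sum_const, Finset.card_univ, Nat.card_eq_fintype_card, smul_eq_mul]

theorem kPi_le.{u} (σ : Finset ℕ) (hσ : ∀ r ∈ σ, r.Prime) :
    ∀ (X : Type u) [Group X] [Finite X], Nat.card (kPi σ X) ≤ sPart σ X := by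
  classical
  induction σ using Finset.induction_on with
  | empty =>
    intro X _ _
    simpa [sPart] using kPi_empty X
  | insert q s hq ih =>
    intro X _ _
    have hs : ∀ r ∈ s, r.Prime := fun r hr => hσ r (Finset.mem_insert_of_mem hr)
    haveI : Fact q.Prime := ⟨hσ q (Finset.mem_insert_self _ _)⟩
    have h1 := kPi_insert_le s hs q hq (fun Y : Subgroup X => ih hs Y)
    have h2 := kQ_le q X
    calc Nat.card (kPi (insert q s) X) ≤ Nat.card (kQ q X) * sPart s X := h1
      _ ≤ q ^ (Nat.card X).factorization q * sPart s X := Nat.mul_le_mul_right _ h2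
      _ = sPart (insert q s) X := by
        simp only [sPart]
        rw [Finset.prod_insert hq]

/-- Let π be a finite non-empty set of odd primes with smallest member p and G a finite group. Write k_π(G) for the number of conjugacy classes of G consisting of π-elements (elements all of whose order's prime divisors lie in π) and |G|_π for the π-part of the order of G. If k_π(G) > (p + 1)|G|_π/(2p), then G has a normal π-complement (a normal subgroup of order prime to π whose index is a π-number) and an abelian Hall π-subgroup. -/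
theorem result {G : Type*} [Group G] [Finite G] (π : Finset ℕ) (hπ : ∀ r ∈ π, r.Prime) (h2 : 2 ∉ π) (p : ℕ) (hp : p ∈ π)
    (hmin : ∀ r ∈ π, p ≤ r) (hk : (p + 1) * π.prod (fun r => r ^ (Nat.card G).factorization r) < 2 * p * Nat.card {c : ConjClasses G // ∀ x ∈ c.carrier, ∀ r : ℕ, r.Prime → r ∣ orderOf x → r ∈ π}) :
    (∃ N : Subgroup G, N.Normal ∧ (∀ r : ℕ, r.Prime → r ∣ Nat.card ↥N → r ∉ π) ∧ ∀ r : ℕ, r.Prime → r ∣ N.index → r ∈ π) ∧ ∃ H : Subgroup G, Cfsg.IsPiHall (↑π : Set ℕ) H ∧ IsMulCommutative ↥H := by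
  classical
  have hstep : ∀ q ∈ π, ∀ Q : Sylow q G, (q + 1) * Nat.card (Q : Subgroup G) < 2 * q * Nat.card (kQ q G) := by
    intro q hq Q
    haveI : Fact q.Prime := ⟨hπ q hq⟩
    have herase : π = insert q (π.erase q) := (Finset.insert_erase hq).symm
    have hs : ∀ r ∈ π.erase q, r.Prime := fun r hr => hπ r (Finset.mem_of_mem_erase hr)
    have h1 := kPi_insert_le (G := G) (π.erase q) hs q (Finset.notMem_erase _ _)
      (fun Y => kPi_le (π.erase q) hs Y)
    rw [← herase] at h1
    have hcardQ : Nat.card (Q : Subgroup G) = q ^ (Nat.card G).factorization q := Sylow.card_eq_multiplicity Q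
    have hprod : π.prod (fun r => r ^ (Nat.card G).factorization r)
        = q ^ (Nat.card G).factorization q * sPart (π.erase q) G := by
      simp only [sPart]
      exact (Finset.mul_prod_erase π _ hq).symm
    rw [hprod, ← hcardQ] at hk
    set A := Nat.card (Q : Subgroup G) with hA
    set B := sPart (π.erase q) G with hB
    set K := Nat.card (kQ q G) with hK
    have hBpos : 0 < B := by
      apply Finset.prod_pos
      intro r hr
      exact pow_pos (hs r hr).pos _
    have hpp : 0 < p := (hπ p hp).pos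
    have hpq : p ≤ q := hmin q hq
    have h2 : (p + 1) * A * B < 2 * p * K * B := by
      calc (p + 1) * A * B = (p + 1) * (A * B) := by ring
        _ < 2 * p * _ := hk
        _ ≤ 2 * p * (K * B) := Nat.mul_le_mul_left _ h1
        _ = 2 * p * K * B := by ring
    have h3 : (p + 1) * A < 2 * p * K := lt_of_mul_lt_mul_right h2 (Nat.zero_le _)
    have h4 : (q + 1) * p ≤ (p + 1) * q := by nlinarith
    have h5 : (q + 1) * A * p < 2 * q * K * p := by
      calc (q + 1) * A * p = ((q + 1) * p) * A := by ring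
        _ ≤ ((p + 1) * q) * A := Nat.mul_le_mul_right _ h4
        _ = q * ((p + 1) * A) := by ring
        _ < q * (2 * p * K) := Nat.mul_lt_mul_of_pos_left h3 (hπ q hq).pos
        _ = 2 * q * K * p := by ring
    exact lt_of_mul_lt_mul_right h5 (Nat.zero_le _)
  have hres : ∀ q ∈ π, ∀ Q : Sylow q G, Cfsg.HasNormalPComplement q G ∧ IsMulCommutative ↥(Q : Subgroup G) := by
    intro q hq Q
    haveI : Fact q.Prime := ⟨hπ q hq⟩
    have hq2 : q ≠ 2 := fun h => h2 (h ▸ hq)
    exact (Cfsg.Agent.S3897.result hq2 Q).1 (hstep q hq Q)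
  -- construct N
  have hN : ∀ s : Finset ℕ, s ⊆ π → ∃ N : Subgroup G, N.Normal ∧ (∀ r ∈ s, ¬ r ∣ Nat.card N) ∧
      (∀ r : ℕ, r.Prime → r ∣ N.index → r ∈ s) ∧ ∀ x y : G, x * y * x⁻¹ * y⁻¹ ∈ N := by
    intro s
    induction s using Finset.induction_on with
    | empty =>
      intro _
      refine ⟨⊤, inferInstance, by simp, ?_, fun _ _ => Subgroup.mem_top _⟩
      intro r hr hd
      rw [Subgroup.index_top] at hd
      exact absurd (Nat.dvd_one.1 hd) hr.one_lt.ne'
    | insert q s hq ih =>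
      intro hs
      have hqπ : q ∈ π := hs (Finset.mem_insert_self _ _)
      obtain ⟨N, hNn, hN1, hN2, hN3⟩ := ih (fun r hr => hs (Finset.mem_insert_of_mem hr))
      haveI : Fact q.Prime := ⟨hπ q hqπ⟩
      obtain ⟨Q0⟩ : Nonempty (Sylow q G) := inferInstance
      obtain ⟨⟨Q, M, hMn, hMc⟩, _⟩ := hres q hqπ Q0
      have hQab := (hres q hqπ Q).2
      haveI := hNn
      haveI := hMn
      refine ⟨N ⊓ M, inferInstance, ?_, ?_, ?_⟩
      · intro r hr hd
        rcases Finset.mem_insert.1 hr with rfl | hr'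
        · have h1 : Nat.card ↥(N ⊓ M) ∣ Nat.card M := Subgroup.card_dvd_of_le inf_le_right
          have h2 : Nat.card M = (Q : Subgroup G).index := hMc.index_eq_card.symm ▸ rfl
          have h3 := hd.trans h1
          rw [h2] at h3
          exact Q.not_dvd_index h3
        · exact hN1 r hr' (hd.trans (Subgroup.card_dvd_of_le inf_le_left))
      · intro r hr hd
        have h1 : (N ⊓ M).relIndex M * M.index = (N ⊓ M).index :=
          Subgroup.relIndex_mul_index inf_le_right
        rw [Subgroup.inf_relIndex_right] at h1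
        rw [← h1] at hd
        rcases (Nat.Prime.dvd_mul hr).1 hd with h2 | h2
        · exact Finset.mem_insert_of_mem (hN2 r hr (h2.trans (Lib.FGS2.relIndex_normal_dvd_index M N)))
        · rw [hMc.symm.index_eq_card] at h2
          have h3 := Sylow.card_eq_multiplicity Q
          rw [h3] at h2
          have h4 := (Nat.prime_dvd_prime_iff_eq hr (hπ q hqπ)).1 (hr.dvd_of_dvd_pow h2)
          exact h4 ▸ Finset.mem_insert_self _ _
      · intro x y
        refine Subgroup.mem_inf.2 ⟨hN3 x y, ?_⟩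
        obtain ⟨⟨m, u⟩, hx⟩ := hMc.2 x
        obtain ⟨⟨m', v⟩, hy⟩ := hMc.2 y
        change (m : G) * u = x at hx
        change (m' : G) * v = y at hy
        have huv : (u : G) * v = v * u := congrArg Subtype.val (hQab.is_comm.comm u v)
        rw [← QuotientGroup.eq_one_iff]
        have hfm : ((m : G) : G ⧸ M) = 1 := (QuotientGroup.eq_one_iff _).2 m.2
        have hfm' : ((m' : G) : G ⧸ M) = 1 := (QuotientGroup.eq_one_iff _).2 m'.2
        have hfx : (x : G ⧸ M) = (u : G) := by
          rw [← hx, QuotientGroup.mk_mul, hfm, one_mul]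
        have hfy : (y : G ⧸ M) = (v : G) := by
          rw [← hy, QuotientGroup.mk_mul, hfm', one_mul]
        have h1 : ((u : G) : G ⧸ M) * (v : G) = (v : G) * (u : G) := by
          rw [← QuotientGroup.mk_mul, ← QuotientGroup.mk_mul, huv]
        rw [QuotientGroup.mk_mul, QuotientGroup.mk_mul, QuotientGroup.mk_mul, QuotientGroup.mk_inv,
          QuotientGroup.mk_inv, hfx, hfy, h1]
        group
  obtain ⟨N, hNn, h1, h2', h3⟩ := hN π subset_rfl
  haveI := hNn
  have hcop : (Nat.card N).Coprime N.index := by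
    apply Nat.coprime_of_dvd
    intro k hk hd1 hd2
    exact h1 k (h2' k hk hd2) hd1
  obtain ⟨H, hH⟩ := Subgroup.exists_right_complement'_of_coprime hcop
  refine ⟨⟨N, hNn, fun r _ hd hr => h1 r hr hd, fun r hr hd => h2' r hr hd⟩, H, ⟨?_, ?_⟩, ?_⟩
  · intro r hr hd
    rw [← hH.symm.index_eq_card] at hd
    exact h2' r hr hd
  · intro r hr hrπ hd
    rw [hH.index_eq_card] at hd
    exact h1 r hrπ hd
  · refine ⟨⟨fun a b => Subtype.ext ?_⟩⟩
    have h4 : (a : G) * b * (a : G)⁻¹ * (b : G)⁻¹ ∈ H :=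
      H.mul_mem (H.mul_mem (H.mul_mem a.2 b.2) (H.inv_mem a.2)) (H.inv_mem b.2)
    have h5 := Subgroup.disjoint_def.1 hH.disjoint (h3 a b) h4
    have h6 : (a : G) * b = (b : G) * a := by
      have : (a : G) * b * (a : G)⁻¹ = b := mul_inv_eq_one.1 h5
      exact mul_inv_eq_iff_eq_mul.1 this
    simpa using h6

end Cfsg.Agent.S3899
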