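import Cfsg.Statements.S3903
import Cfsg.Agent.Lib.Herstein
import Cfsg.Agent.Lib.H1Cop
import Cfsg.Agent.Lib.FGSBasic
-- import your own Cfsg.Agent.* helpers here

set_option autoImplicit false
open Cfsg

namespace Cfsg.Agent.S3903

open Subgroup in
theorem mem_of_pow_coprime {G : Type*} [Group G] (N : Subgroup G) (z : G) {a b : ℕ} (hab : a.Coprime b)
    (ha : z ^ a ∈ N) (hb : z ^ b ∈ N) : z ∈ N := by
  have h : z = (z ^ a) ^ (Nat.gcdA a b) * (z ^ b) ^ (Nat.gcdB a b) := by
    rw [← zpow_natCast, ← zpow_natCast, ← zpow_mul, ← zpow_mul, ← zpow_add, ← Nat.gcd_eq_gcd_ab,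
      hab.gcd_eq_one]
    simp
  rw [h]
  exact N.mul_mem (N.zpow_mem ha _) (N.zpow_mem hb _)

open Subgroup in
theorem cen_isPGroup {G : Type*} [Group G] [Finite G] (N : Subgroup G) [N.Normal]
    (hpp : ∀ w : G, w ∉ N → IsPrimePow (orderOf w)) {z : G} (hz : z ∉ N) {r b : ℕ} (hr : r.Prime)
    (hb : orderOf z = r ^ b) : IsPGroup r (centralizer ({z} : Set G)) := by
  haveI : Fact r.Prime := ⟨hr⟩
  rw [IsPGroup.iff_orderOf]
  intro y
  obtain ⟨a, c, ha, hc, hac, ⟨k, hk⟩, hcop⟩ := Lib.FGSBasic.exists_p_decomp r (y : G)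
  by_cases hc1 : orderOf c = 1
  · have hc2 : c = 1 := orderOf_eq_one_iff.1 hc1
    subst hc2
    rw [mul_one] at hac
    rw [← Subgroup.orderOf_coe, ← hac]
    exact ⟨k, hk⟩
  exfalso
  obtain ⟨q, hq, hqd⟩ := Nat.exists_prime_and_dvd hc1
  have hqr : q ≠ r := by
    rintro rfl
    have := Nat.dvd_gcd hqd (dvd_refl q)
    rw [hcop] at this
    exact hq.one_lt.ne' (Nat.dvd_one.1 this)
  let w := c ^ (orderOf c / q)
  have hwo : orderOf w = q := orderOf_pow_orderOf_div (orderOf_pos c).ne' hqd
  have hcom : Commute z w := by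
    obtain ⟨i, hi⟩ := Subgroup.mem_zpowers_iff.1 hc
    have hy := Subgroup.mem_centralizer_singleton_iff.1 y.2
    have h1 : Commute z (y : G) := hy.symm
    have h2 : Commute z c := by
      rw [← hi]
      exact h1.zpow_right i
    exact h2.pow_right _
  have hcop2 : (orderOf z).Coprime (orderOf w) := by
    rw [hb, hwo]
    exact Nat.Coprime.pow_left _ ((Nat.coprime_primes hr hq).2 hqr.symm)
  have hord : orderOf (z * w) = r ^ b * q := by
    rw [hcom.orderOf_mul_eq_mul_orderOf_of_coprime hcop2, hb, hwo]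
  have hb0 : b ≠ 0 := by
    rintro rfl
    have : z = 1 := orderOf_eq_one_iff.1 (by simpa using hb)
    exact hz (this ▸ N.one_mem)
  have hnot : ¬ IsPrimePow (orderOf (z * w)) := by
    rw [hord]
    rintro ⟨s, m, hs, _, hsm⟩
    have hs' := hs.nat_prime
    have h1 : r ∣ s ^ m := by
      rw [hsm]
      exact Dvd.dvd.mul_right (dvd_pow_self r hb0) q
    have h2 : q ∣ s ^ m := by
      rw [hsm]
      exact dvd_mul_left q _
    have h3 := (Nat.prime_dvd_prime_iff_eq hr hs').1 (hr.dvd_of_dvd_pow h1)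
    have h4 := (Nat.prime_dvd_prime_iff_eq hq hs').1 (hq.dvd_of_dvd_pow h2)
    exact hqr (h4.trans h3.symm)
  have hzw : z * w ∈ N := by
    by_contra hc'
    exact hnot (hpp _ hc')
  have h1 : (z * w) ^ q ∈ N := N.pow_mem hzw q
  rw [hcom.mul_pow, ← hwo, pow_orderOf_eq_one, mul_one, hwo] at h1
  apply hz
  apply mem_of_pow_coprime N z ((Nat.coprime_primes hq hr).2 hqr |>.pow_right b) h1
  rw [← hb, pow_orderOf_eq_one]
  exact N.one_mem

theorem comm_of_center_index {X : Type*} [Group X] [Finite X]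
    (h : Nat.card X ≤ 2 * Nat.card (Subgroup.center X)) (a b : X) : a * b = b * a := by
  have h1 : Nat.card (Subgroup.center X) * (Subgroup.center X).index = Nat.card X :=
    Subgroup.card_mul_index _
  have hpos : 0 < Nat.card (Subgroup.center X) := Nat.card_pos
  have h2 : (Subgroup.center X).index ≤ 2 := by
    rw [← h1, mul_comm] at h
    exact Nat.le_of_mul_le_mul_right h hpos
  have h3 : (Subgroup.center X).index ≠ 0 := Subgroup.index_ne_zero_of_finite
  have h4 : (Subgroup.center X).index = 1 ∨ (Subgroup.center X).index = 2 := by omega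
  rcases h4 with h4 | h4
  · have h5 := Subgroup.index_eq_one.1 h4
    have : b ∈ Subgroup.center X := by rw [h5]; trivial
    exact (Subgroup.mem_center_iff.1 this a)
  · haveI : Fact (Nat.Prime 2) := ⟨Nat.prime_two⟩
    haveI : IsCyclic (X ⧸ Subgroup.center X) := isCyclic_of_prime_card (p := 2) (by
      rw [← Subgroup.index_eq_card]
      exact h4)
    exact commutative_of_cyclic_center_quotient (QuotientGroup.mk' (Subgroup.center X))
      (by simp) a b

/-- Let N be a proper normal subgroup of the finite group G such that every element x of G outside N has prime power order and has centralizer C_G(x) a maximal subgroup of G. Then N is solvable. -/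
theorem result {G : Type*} [Group G] [Finite G] (N : Subgroup G) [N.Normal] (hN : N ≠ ⊤)
    (h : ∀ x : G, x ∉ N → IsPrimePow (orderOf x) ∧ IsCoatom (Subgroup.centralizer ({x} : Set G))) : Group.IsSolvable ↥N := by
  classical
  haveI := Fintype.ofFinite G
  have hpp : ∀ w : G, w ∉ N → IsPrimePow (orderOf w) := fun w hw => (h w hw).1
  have hsolvP : ∀ (p : ℕ) [Fact p.Prime] (A : Subgroup G), IsPGroup p A → Group.IsSolvable A := by
    intro p _ A hA
    haveI := hA.isNilpotent
    exact IsNilpotent.to_isSolvable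
  obtain ⟨x, hx⟩ : ∃ x, x ∉ N := by
    by_contra hc
    push_neg at hc
    exact hN (eq_top_iff.2 (fun y _ => hc y))
  obtain ⟨p, a, hp, ha, hpa⟩ := (h x hx).1
  have hp' : p.Prime := hp.nat_prime
  haveI : Fact p.Prime := ⟨hp'⟩
  have hA : IsPGroup p (Subgroup.centralizer ({x} : Set G)) := cen_isPGroup N hpp hx hp' hpa.symm
  by_cases hNC : N ≤ Subgroup.centralizer ({x} : Set G)
  · exact hsolvP p N (hA.to_le hNC)
  have hsup : N ⊔ Subgroup.centralizer ({x} : Set G) = ⊤ :=
    (h x hx).2.2 _ (lt_of_le_of_ne le_sup_right (fun h' => hNC (h' ▸ le_sup_left)))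
  have hidx : ∃ c, N.index = p ^ c := by
    have h1 : N.relIndex (N ⊔ Subgroup.centralizer ({x} : Set G)) = N.relIndex (Subgroup.centralizer ({x} : Set G)) :=
      Subgroup.relIndex_sup_left _ _
    rw [hsup, Subgroup.relIndex_top_right] at h1
    have h2 : N.relIndex (Subgroup.centralizer ({x} : Set G)) ∣ Nat.card (Subgroup.centralizer ({x} : Set G)) :=
      Subgroup.relIndex_dvd_card _ _
    obtain ⟨n, hn⟩ := hA.exists_card_eq
    rw [hn, ← h1] at h2
    obtain ⟨c, _, hc⟩ := (Nat.dvd_prime_pow hp').1 h2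
    exact ⟨c, hc⟩
  obtain ⟨c, hc⟩ := hidx
  have hprime : ∀ z, z ∉ N → ∃ b, orderOf z = p ^ b := by
    intro z hz
    obtain ⟨r, b, hr, hb, hrb⟩ := (h z hz).1
    have hr' := hr.nat_prime
    by_cases hrp : r = p
    · exact ⟨b, by rw [← hrp, hrb]⟩
    exfalso
    apply hz
    have h1 : z ^ (r ^ b) ∈ N := by
      rw [hrb, pow_orderOf_eq_one]
      exact N.one_mem
    have h2 : z ^ (p ^ c) ∈ N := by
      rw [← hc]
      exact Subgroup.pow_index_mem N z
    exact mem_of_pow_coprime N z (Nat.Coprime.pow _ _ ((Nat.coprime_primes hr' hp').2 hrp)) h1 h2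
  have hall : ∀ z, z ∉ N → IsPGroup p (Subgroup.centralizer ({z} : Set G)) := by
    intro z hz
    obtain ⟨b, hb⟩ := hprime z hz
    exact cen_isPGroup N hpp hz hp' hb
  by_cases hG : IsPGroup p G
  · exact hsolvP p N (hG.to_subgroup N)
  have hsyl : ∀ z, z ∉ N → ∃ Q : Sylow p G, (Q : Subgroup G) = Subgroup.centralizer ({z} : Set G) := by
    intro z hz
    obtain ⟨Q, hQ⟩ := (hall z hz).exists_le_sylow
    refine ⟨Q, ?_⟩
    by_contra hne
    have hQt : (Q : Subgroup G) = ⊤ := (h z hz).2.2 _ (lt_of_le_of_ne hQ (Ne.symm hne))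
    apply hG
    intro g
    obtain ⟨k, hk⟩ := Q.isPGroup' ⟨g, by rw [hQt]; trivial⟩
    exact ⟨k, by simpa using congrArg Subtype.val hk⟩
  obtain ⟨P, hP⟩ := hsyl x hx
  have hPcoatom : IsCoatom (P : Subgroup G) := hP ▸ (h x hx).2
  -- counting
  let Z : Subgroup G := (Subgroup.center ↥(P : Subgroup G)).map (P : Subgroup G).subtype
  have hZcard : Nat.card Z = Nat.card (Subgroup.center ↥(P : Subgroup G)) :=
    Subgroup.card_map_of_injective (Subgroup.subtype_injective _)
  let F : (G ⧸ (P : Subgroup G)) × Z → G := fun q => q.1.out * (q.2 : G) * q.1.out⁻¹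
  haveI : Fintype (G ⧸ (P : Subgroup G)) := Fintype.ofFinite _
  haveI : Fintype Z := Fintype.ofFinite _
  let S : Finset G := Finset.univ.filter (fun z => z ∉ N)
  have hSsub : S ⊆ Finset.univ.image F := by
    intro z hz
    have hzN : z ∉ N := (Finset.mem_filter.1 hz).2
    obtain ⟨Q, hQ⟩ := hsyl z hzN
    obtain ⟨g, hg⟩ := MulAction.exists_smul_eq G P Q
    rw [Finset.mem_image]
    -- g⁻¹ z g ∈ Z
    have h1 : ∀ y, y ∈ (P : Subgroup G) ↔ g * y * g⁻¹ ∈ (Q : Subgroup G) := by
      intro y
      rw [← hg, Lib.FGSBasic.mem_smul_sylow_iff]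
      simp [mul_assoc]
    have hzQ : z ∈ (Q : Subgroup G) := by
      rw [hQ, Subgroup.mem_centralizer_singleton_iff]
    have hzP : g⁻¹ * z * g ∈ (P : Subgroup G) := by
      rw [h1]
      simpa [mul_assoc] using hzQ
    have hzZ : ∀ y : ↥(P : Subgroup G), (y : G) * (g⁻¹ * z * g) = (g⁻¹ * z * g) * y := by
      intro y
      have h2 : g * y * g⁻¹ ∈ (Q : Subgroup G) := (h1 y).1 y.2
      rw [hQ, Subgroup.mem_centralizer_singleton_iff] at h2
      have h3 : g * y * g⁻¹ * z = z * (g * y * g⁻¹) := h2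
      calc (y : G) * (g⁻¹ * z * g) = g⁻¹ * (g * y * g⁻¹ * z) * g := by group
        _ = g⁻¹ * (z * (g * y * g⁻¹)) * g := by rw [h3]
        _ = _ := by group
    have hmemZ : g⁻¹ * z * g ∈ Z := by
      refine ⟨⟨_, hzP⟩, ?_, rfl⟩
      rw [SetLike.mem_coe, Subgroup.mem_center_iff]
      intro y
      exact Subtype.ext (hzZ y)
    let t : G ⧸ (P : Subgroup G) := (g : G ⧸ (P : Subgroup G))
    obtain ⟨u, hu⟩ : ∃ u : ↥(P : Subgroup G), t.out = g * u := by
      have := QuotientGroup.mk_out_eq_mul (P : Subgroup G) g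
      obtain ⟨u, hu⟩ := this
      exact ⟨u, hu⟩
    refine ⟨(t, ⟨_, hmemZ⟩), Finset.mem_univ _, ?_⟩
    change t.out * (g⁻¹ * z * g) * t.out⁻¹ = z
    rw [hu]
    have h4 := hzZ u
    calc g * u * (g⁻¹ * z * g) * (g * u)⁻¹ = g * ((u : G) * (g⁻¹ * z * g)) * (u : G)⁻¹ * g⁻¹ := by group
      _ = g * ((g⁻¹ * z * g) * u) * (u : G)⁻¹ * g⁻¹ := by rw [h4]
      _ = z := by group
  have hScard : S.card ≤ (P : Subgroup G).index * Nat.card Z := by
    calc S.card ≤ (Finset.univ.image F).card := Finset.card_le_card hSsub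
      _ ≤ (Finset.univ : Finset ((G ⧸ (P : Subgroup G)) × Z)).card := Finset.card_image_le
      _ = (P : Subgroup G).index * Nat.card Z := by
        rw [Finset.card_univ, Fintype.card_prod, Nat.card_eq_fintype_card (α := Z), Subgroup.index,
          Nat.card_eq_fintype_card]
  have hNS : Nat.card N + S.card = Fintype.card G := by
    have h1 := Finset.card_filter_add_card_filter_not (s := (Finset.univ : Finset G)) (fun z => z ∈ N)
    rw [Finset.card_univ] at h1
    rw [← h1, Nat.card_eq_fintype_card, Fintype.card_subtype]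
  have hNidx : 2 * Nat.card N ≤ Nat.card G := by
    have h1 := Subgroup.card_mul_index N
    have h2 : 2 ≤ N.index := by
      have h3 : N.index ≠ 0 := Subgroup.index_ne_zero_of_finite
      have h4 : N.index ≠ 1 := fun h5 => hN (Subgroup.index_eq_one.1 h5)
      omega
    rw [← h1, mul_comm 2]
    exact Nat.mul_le_mul_left _ h2
  have hPZ : Nat.card ↥(P : Subgroup G) ≤ 2 * Nat.card (Subgroup.center ↥(P : Subgroup G)) := by
    have h1 := Subgroup.card_mul_index (P : Subgroup G)
    have hipos : 0 < (P : Subgroup G).index := Nat.pos_of_ne_zero Subgroup.index_ne_zero_of_finite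
    rw [← hZcard]
    have h2 : (P : Subgroup G).index * Nat.card ↥(P : Subgroup G) ≤ (P : Subgroup G).index * (2 * Nat.card Z) := by
      rw [mul_comm, h1]
      rw [← Nat.card_eq_fintype_card] at hNS
      have h3 : (P : Subgroup G).index * (2 * Nat.card Z) = 2 * ((P : Subgroup G).index * Nat.card Z) := by ring
      rw [h3]
      omega
    exact Nat.le_of_mul_le_mul_left h2 hipos
  have hPab : ∀ u v : ↥(P : Subgroup G), u * v = v * u := comm_of_center_index hPZ
  -- normalizer
  have hPnorm : Subgroup.normalizer ((P : Subgroup G) : Set G) ≤ Subgroup.centralizer ((P : Subgroup G) : Set G) := by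
    have hle : (P : Subgroup G) ≤ Subgroup.normalizer ((P : Subgroup G) : Set G) := Subgroup.le_normalizer
    by_cases hPN : Subgroup.normalizer ((P : Subgroup G) : Set G) = (P : Subgroup G)
    · rw [hPN]
      intro u hu
      rw [Subgroup.mem_centralizer_iff]
      intro v hv
      exact congrArg Subtype.val (hPab ⟨v, hv⟩ ⟨u, hu⟩)
    · exfalso
      have htop : Subgroup.normalizer ((P : Subgroup G) : Set G) = ⊤ :=
        hPcoatom.2 _ (lt_of_le_of_ne hle (Ne.symm hPN))
      have hnormal : (P : Subgroup G).Normal := Subgroup.normalizer_eq_top_iff.1 htop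
      have hcover : ∀ z, z ∉ N → z ∈ (P : Subgroup G) := by
        intro z hz
        obtain ⟨Q, hQ⟩ := hsyl z hz
        have hQP : Q = P := by
          haveI := P.unique_of_normal hnormal
          exact Subsingleton.elim Q P
        rw [← hQP, hQ, Subgroup.mem_centralizer_singleton_iff]
      obtain ⟨b, hb⟩ : ∃ b, b ∉ (P : Subgroup G) := by
        by_contra hc
        push_neg at hc
        exact hPcoatom.1 (eq_top_iff.2 (fun y _ => hc y))
      have hbN : b ∈ N := by
        by_contra hc
        exact hb (hcover b hc)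
      have hxP := hcover x hx
      have h1 : x * b ∉ N := fun h2 => hx (by simpa using N.mul_mem h2 (N.inv_mem hbN))
      have h2 := hcover _ h1
      exact hb (by simpa using (P : Subgroup G).mul_mem ((P : Subgroup G).inv_mem hxP) h2)
  let M := (MonoidHom.transferSylow P hPnorm).ker
  have hMc : M.IsComplement' (P : Subgroup G) := MonoidHom.ker_transferSylow_isComplement' P hPnorm
  haveI hMn : M.Normal := MonoidHom.normal_ker _
  have hPsolv : Group.IsSolvable ↥(P : Subgroup G) := hsolvP p _ P.isPGroup'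
  have hMcard : Nat.card M * Nat.card ↥(P : Subgroup G) = Nat.card G := hMc.card_mul
  have hMcop : (Nat.card ↥(P : Subgroup G)).Coprime (Nat.card M) := by
    rw [← hMc.index_eq_card]
    exact P.card_coprime_index
  have hMsolv : Group.IsSolvable M := by
    by_cases hM1 : Nat.card M = 1
    · exfalso
      apply hPcoatom.1
      apply Subgroup.eq_top_of_card_eq
      rw [hM1, one_mul] at hMcard
      exact hMcard
    obtain ⟨r, hr, hrd⟩ := Nat.exists_prime_and_dvd hM1
    haveI : Fact r.Prime := ⟨hr⟩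
    have hPM : (P : Subgroup G) ≤ Subgroup.normalizer (M : Set G) := by
      rw [Subgroup.normalizer_eq_top_iff.2 hMn]
      exact le_top
    obtain ⟨R, ⟨hRM, hRp, hRi⟩, hRn⟩ := Lib.H1Cop.exists_invariant_sylow hPM hMcop (Or.inl hPsolv) r
    have hle : (P : Subgroup G) ≤ R ⊔ (P : Subgroup G) := le_sup_right
    by_cases heq : R ⊔ (P : Subgroup G) = (P : Subgroup G)
    · exfalso
      have h1 : R ≤ (P : Subgroup G) := heq ▸ le_sup_left
      have h2 : R = ⊥ := by
        rw [eq_bot_iff]
        intro y hy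
        have := Subgroup.disjoint_def.1 hMc.disjoint (hRM hy) (h1 hy)
        exact this
      rw [h2, Subgroup.relIndex_bot_left] at hRi
      exact hRi hrd
    have htop : R ⊔ (P : Subgroup G) = ⊤ := hPcoatom.2 _ (lt_of_le_of_ne hle (Ne.symm heq))
    have hcop2 : (Nat.card ↥(P : Subgroup G)).Coprime (Nat.card R) :=
      Nat.Coprime.coprime_dvd_right (Subgroup.card_dvd_of_le hRM) hMcop
    have h3 := Lib.H1Cop.card_sup_of_coprime hRn hcop2
    rw [htop, Subgroup.card_top, ← hMcard] at h3
    have h4 : Nat.card M = Nat.card R := Nat.eq_of_mul_eq_mul_right Nat.card_pos h3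
    have h5 : R = M := Subgroup.eq_of_le_of_card_ge hRM (le_of_eq h4)
    rw [← h5]
    exact hsolvP r R hRp
  have hQ : Group.IsSolvable (G ⧸ M) := by
    let f : ↥(P : Subgroup G) →* G ⧸ M := (QuotientGroup.mk' M).comp (P : Subgroup G).subtype
    have hf : Function.Surjective f := by
      intro q
      obtain ⟨g, rfl⟩ := QuotientGroup.mk_surjective q
      obtain ⟨⟨m, s⟩, hms⟩ := hMc.2 g
      change (m : G) * s = g at hms
      refine ⟨s, ?_⟩
      change ((s : G) : G ⧸ M) = (g : G ⧸ M)
      rw [← hms, QuotientGroup.mk_mul, (QuotientGroup.eq_one_iff (m : G)).2 m.2, one_mul]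
    exact Group.isSolvable_of_surjective hf
  have hGs : Group.IsSolvable G := Lib.Herstein.solvable_of_ext M hMsolv hQ
  exact inferInstance

end Cfsg.Agent.S3903
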