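import Cfsg.Statements.S3908
import Cfsg.Agent.Lib.H1Quat
import Cfsg.Agent.Lib.FGSBasic
-- import your own Cfsg.Agent.* helpers here

set_option autoImplicit false
open Cfsg

namespace Cfsg.Agent.S3908

open Subgroup

theorem dichotomy {G : Type*} [Group G] [Finite G]
    (hB : ∀ A B : Subgroup G, IsMulCommutative ↥A → IsMulCommutative ↥B → Nat.card ↥A = Nat.card ↥B →
      ∃ g : G, B = A.map (MulAut.conj g).toMonoidHom)
    (p : ℕ) [hp : Fact p.Prime] (P : Sylow p G) :
    (∀ H K : Subgroup ↥(P : Subgroup G), Nat.card H = p → Nat.card K = p → H = K) ∨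
      ∀ x ∈ (P : Subgroup G), x ^ p = 1 := by
  classical
  by_contra hcon
  push Not at hcon
  obtain ⟨⟨H, K, hH, hK, hne⟩, x, hx, hxp⟩ := hcon
  have hPp : IsPGroup p ↥(P : Subgroup G) := P.2
  have hpp : p.Prime := hp.out
  -- `P` nontrivial
  haveI hPnt : Nontrivial ↥(P : Subgroup G) := by
    by_contra hnt
    rw [not_nontrivial_iff_subsingleton] at hnt
    haveI : Subsingleton H := inferInstance
    have := Nat.card_of_subsingleton (1 : H)
    rw [hH] at this
    exact hpp.one_lt.ne' this
  haveI hcnt := hPp.center_nontrivial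
  -- central element of order p
  have hcp : p ∣ Nat.card (center ↥(P : Subgroup G)) := by
    obtain ⟨n, hn⟩ := IsPGroup.iff_card.mp (hPp.to_subgroup (center ↥(P : Subgroup G)))
    have h1 : 1 < Nat.card (center ↥(P : Subgroup G)) := Finite.one_lt_card_iff_nontrivial.mpr hcnt
    rw [hn] at h1 ⊢
    rcases Nat.eq_zero_or_pos n with rfl | h
    · simp at h1
    · exact dvd_pow_self p h.ne'
  obtain ⟨zc, hzc⟩ := exists_prime_orderOf_dvd_card' p hcp
  set z : ↥(P : Subgroup G) := (zc : ↥(P : Subgroup G)) with hz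
  have hzo : orderOf z = p := by rw [hz, Subgroup.orderOf_coe]; exact hzc
  have hzcen : ∀ v : ↥(P : Subgroup G), v * z = z * v := fun v => (Subgroup.mem_center_iff.mp zc.2 v)
  -- element of order p outside zpowers z
  obtain ⟨y, hyo, hyz⟩ : ∃ y : ↥(P : Subgroup G), orderOf y = p ∧ y ∉ zpowers z := by
    have hzcard : Nat.card (zpowers z) = p := by rw [Nat.card_zpowers, hzo]
    have aux : ∀ T : Subgroup ↥(P : Subgroup G), Nat.card T = p → T ≠ zpowers z →
        ∃ y : ↥(P : Subgroup G), orderOf y = p ∧ y ∉ zpowers z := by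
      intro T hT hTne
      obtain ⟨y, hy⟩ := exists_prime_orderOf_dvd_card' (G := T) p (by rw [hT])
      refine ⟨y, by rw [Subgroup.orderOf_coe]; exact hy, ?_⟩
      intro hmem
      apply hTne
      have hyc : Nat.card (zpowers (y : ↥(P : Subgroup G))) = p := by
        rw [Nat.card_zpowers, Subgroup.orderOf_coe]; exact hy
      have h1 : zpowers (y : ↥(P : Subgroup G)) = T :=
        Subgroup.eq_of_le_of_card_ge (by simp) (by rw [hT, hyc])
      have h2 : zpowers (y : ↥(P : Subgroup G)) = zpowers z :=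
        Subgroup.eq_of_le_of_card_ge (by rwa [Subgroup.zpowers_le]) (by rw [hzcard, hyc])
      rw [← h1, h2]
    by_cases hHz : H = zpowers z
    · have hKz : K ≠ zpowers z := fun h => hne (hHz.trans h.symm)
      exact aux K hK hKz
    · exact aux H hH hHz
  -- the subgroup W
  set yG : G := (y : G) with hyG
  set zG : G := (z : G) with hzG
  have hyzc : yG * zG = zG * yG := by
    have := hzcen y
    exact congrArg Subtype.val this
  have hyp : yG ^ p = 1 := by
    have : y ^ p = 1 := by have h0 := pow_orderOf_eq_one y; rwa [hyo] at h0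
    exact congrArg Subtype.val this
  have hzp : zG ^ p = 1 := by
    have : z ^ p = 1 := by have h0 := pow_orderOf_eq_one z; rwa [hzo] at h0
    exact congrArg Subtype.val this
  set W : Subgroup G := closure {yG, zG} with hW
  have hcomm : ∀ a ∈ ({yG, zG} : Set G), ∀ b ∈ ({yG, zG} : Set G), a * b = b * a := by
    rintro a (rfl | rfl) b (rfl | rfl)
    · rfl
    · exact hyzc
    · exact hyzc.symm
    · rfl
  letI hWc : CommGroup W := Subgroup.closureCommGroupOfComm hcomm
  have hWcomm : ∀ a ∈ W, ∀ b ∈ W, a * b = b * a := by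
    intro a ha b hb
    have := mul_comm (⟨a, ha⟩ : W) (⟨b, hb⟩ : W)
    exact congrArg Subtype.val this
  have hWexp : ∀ e ∈ W, e ^ p = 1 := by
    intro e he
    induction he using Subgroup.closure_induction with
    | mem a ha =>
      rcases ha with rfl | rfl
      · exact hyp
      · exact hzp
    | one => simp
    | mul a b ha hb h1 h2 =>
      have hc : Commute a b := hWcomm a ha b hb
      rw [hc.mul_pow, h1, h2, one_mul]
    | inv a ha h1 => rw [inv_pow, h1, inv_one]
  have hWP : W ≤ (P : Subgroup G) := by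
    rw [hW, Subgroup.closure_le]
    rintro a (rfl | rfl)
    · exact y.2
    · exact z.2
  have hWp : IsPGroup p W := hPp.to_le hWP
  obtain ⟨n, hn⟩ := IsPGroup.iff_card.mp hWp
  have hzW : zpowers zG ≤ W := by
    rw [Subgroup.zpowers_le]; exact Subgroup.subset_closure (by simp)
  have hyW : yG ∈ W := Subgroup.subset_closure (by simp)
  have hyzG : yG ∉ zpowers zG := by
    rintro ⟨k, hk⟩
    apply hyz
    refine ⟨k, ?_⟩
    apply Subtype.ext
    simpa using hk
  have hzGo : orderOf zG = p := by rw [hzG, Subgroup.orderOf_coe]; exact hzo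
  have hlt : p < Nat.card W := by
    have h1 : Nat.card (zpowers zG) = p := by rw [Nat.card_zpowers, hzGo]
    rw [← h1]
    refine lt_of_le_of_ne (Subgroup.card_le_of_le hzW) ?_
    intro h
    have h2 : zpowers zG = W := Subgroup.eq_of_le_of_card_ge hzW h.ge
    exact hyzG (h2 ▸ hyW)
  have hn2 : 2 ≤ n := by
    rw [hn] at hlt
    have : p ^ 1 < p ^ n := by simpa using hlt
    have := (Nat.pow_lt_pow_iff_right hpp.one_lt).mp this
    omega
  obtain ⟨E0, hE0⟩ := Sylow.exists_subgroup_card_pow_prime (G := W) p (n := 2)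
    (by rw [hn]; exact pow_dvd_pow p hn2)
  set E : Subgroup G := E0.map W.subtype with hE
  have hEW : E ≤ W := by rintro _ ⟨w, -, rfl⟩; exact w.2
  have hEcard : Nat.card E = p ^ 2 := by
    rw [hE, Subgroup.card_map_of_injective W.subtype_injective]; exact hE0
  have hEcomm : IsMulCommutative ↥E :=
    ⟨⟨fun a b => Subtype.ext (hWcomm a (hEW a.2) b (hEW b.2))⟩⟩
  -- the element of order p^2
  obtain ⟨m, hm⟩ := IsPGroup.iff_orderOf.mp hPp ⟨x, hx⟩
  have hm' : orderOf x = p ^ m := by rw [← hm, Subgroup.orderOf_mk]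
  have hm2 : 2 ≤ m := by
    by_contra hlt2
    push Not at hlt2
    apply hxp
    have : orderOf x ∣ p := by
      rw [hm']
      calc p ^ m ∣ p ^ 1 := pow_dvd_pow p (by omega)
        _ = p := pow_one p
    exact orderOf_dvd_iff_pow_eq_one.mp this
  have hdvd : p ^ 2 ∣ orderOf x := by rw [hm']; exact pow_dvd_pow p hm2
  set x' := x ^ (orderOf x / p ^ 2) with hx'
  have hx'o : orderOf x' = p ^ 2 := orderOf_pow_orderOf_div (orderOf_pos x).ne' hdvd
  have hzcomm : IsMulCommutative ↥(zpowers x') := by
    infer_instance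
  obtain ⟨g, hg⟩ := hB (zpowers x') E hzcomm hEcomm (by rw [Nat.card_zpowers, hx'o, hEcard])
  have hmem : g * x' * g⁻¹ ∈ E := by
    rw [hg]
    exact ⟨x', mem_zpowers x', rfl⟩
  have h1 := hWexp _ (hEW hmem)
  have h2 : (g * x' * g⁻¹) ^ p = g * x' ^ p * g⁻¹ := by
    simp [conj_pow]
  rw [h2] at h1
  have h3 : x' ^ p = 1 := by
    have : x' ^ p = g⁻¹ * (g * x' ^ p * g⁻¹) * g := by group
    rw [this, h1]; group
  have h4 : p ^ 2 ∣ p := by
    rw [← hx'o]; exact orderOf_dvd_of_pow_eq_one h3
  have h5 := Nat.le_of_dvd hpp.pos h4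
  nlinarith [hpp.two_le]

/-- Let G be a finite group in which any two abelian subgroups of the same order are conjugate. Then a Sylow 2-subgroup of G is cyclic, elementary abelian or generalized quaternion, and for an odd prime p a Sylow p-subgroup of G is cyclic or has exponent dividing p. -/
theorem result {G : Type*} [Group G] [Finite G] (hB : ∀ A B : Subgroup G, IsMulCommutative ↥A → IsMulCommutative ↥B → Nat.card ↥A = Nat.card ↥B → ∃ g : G, B = A.map (MulAut.conj g).toMonoidHom) :
    (∀ P : Sylow 2 G, IsCyclic ↥(P : Subgroup G) ∨ Cfsg.IsElementaryAbelian 2 (P : Subgroup G) ∨ ∃ k : ℕ, Nonempty (↥(P : Subgroup G) ≃* QuaternionGroup (2 ^ k))) ∧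
    ∀ (p : ℕ) [Fact p.Prime], p ≠ 2 → ∀ P : Sylow p G, IsCyclic ↥(P : Subgroup G) ∨ ∀ x ∈ (P : Subgroup G), x ^ p = 1 := by
  classical
  constructor
  · intro P
    haveI : Fact (Nat.Prime 2) := ⟨Nat.prime_two⟩
    rcases dichotomy hB 2 P with h | h
    · rcases Lib.H1Quat.cyclic_or_quaternion 2 P.2 h with hc | ⟨-, k, hk⟩
      · exact Or.inl hc
      · exact Or.inr (Or.inr ⟨k, hk⟩)
    · refine Or.inr (Or.inl ⟨⟨⟨fun a b => ?_⟩⟩, h⟩)
      apply Subtype.ext
      have hsq : ∀ u : ↥(P : Subgroup G), u * u = 1 := by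
        intro u
        have := h u u.2
        apply Subtype.ext
        simpa [pow_two] using this
      have h1 := hsq (a * b)
      have ha := hsq a
      have hb := hsq b
      have : a * b = b * a := by
        calc a * b = a * b * (b * a) * (b * a)⁻¹ := by group
          _ = a * (b * b) * a * (b * a)⁻¹ := by group
          _ = (b * a)⁻¹ := by rw [hb, mul_one, ha, one_mul]
          _ = b * a := by
            have h2 := hsq (b * a)
            exact inv_eq_of_mul_eq_one_left h2
      exact congrArg Subtype.val this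
  · intro p hp hp2 P
    rcases dichotomy hB p P with h | h
    · rcases Lib.H1Quat.cyclic_or_quaternion p P.2 h with hc | ⟨h2, -⟩
      · exact Or.inl hc
      · exact absurd h2 hp2
    · exact Or.inr h

end Cfsg.Agent.S3908
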