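import Cfsg.Statements.S3909
import Cfsg.Agent.Lib.FGSBasic
-- import your own Cfsg.Agent.* helpers here

set_option autoImplicit false
open Cfsg

namespace Cfsg.Agent.S3909

theorem conj_mem_of_normal {G : Type*} [Group G] (M : Subgroup G) [hM : M.Normal] (A : Subgroup G) (hA : A ≤ M) (g : G) :
    A.map (MulAut.conj g).toMonoidHom ≤ M := by
  rintro _ ⟨x, hx, rfl⟩
  exact hM.conj_mem x (hA hx) g

/-- Let G be a finite group in which any two abelian subgroups of the same order are conjugate. Let M be a normal subgroup of G. If M contains an element of the same order as a ∈ G, then a ∈ M; and if M is elementary abelian of order p^t with p prime and t ≥ 2, then M is the unique Sylow p-subgroup of G. -/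
theorem result {G : Type*} [Group G] [Finite G] (hB : ∀ A B : Subgroup G, IsMulCommutative ↥A → IsMulCommutative ↥B → Nat.card ↥A = Nat.card ↥B → ∃ g : G, B = A.map (MulAut.conj g).toMonoidHom) (M : Subgroup G) [M.Normal] :
    (∀ a : G, (∃ m ∈ M, orderOf m = orderOf a) → a ∈ M) ∧
    ∀ (p t : ℕ) [Fact p.Prime], 2 ≤ t → Nat.card ↥M = p ^ t → Cfsg.IsElementaryAbelian p M → ∀ P : Sylow p G, (P : Subgroup G) = M := by
  classical
  have hzp : ∀ x : G, IsMulCommutative ↥(Subgroup.zpowers x) := fun x => by
    refine ⟨⟨fun a b => Subtype.ext ?_⟩⟩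
    obtain ⟨i, hi⟩ := Subgroup.mem_zpowers_iff.1 a.2
    obtain ⟨j, hj⟩ := Subgroup.mem_zpowers_iff.1 b.2
    change (a : G) * b = b * a
    rw [← hi, ← hj, ← zpow_add, ← zpow_add, add_comm]
  have h1 : ∀ a : G, (∃ m ∈ M, orderOf m = orderOf a) → a ∈ M := by
    rintro a ⟨m, hm, hma⟩
    obtain ⟨g, hg⟩ := hB (Subgroup.zpowers m) (Subgroup.zpowers a) (hzp m) (hzp a)
      (by rw [Nat.card_zpowers, Nat.card_zpowers, hma])
    have : a ∈ Subgroup.zpowers a := Subgroup.mem_zpowers a
    rw [hg] at this
    exact conj_mem_of_normal M _ (by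
      intro y hy
      obtain ⟨i, rfl⟩ := Subgroup.mem_zpowers_iff.1 hy
      exact M.zpow_mem hm i) g this
  refine ⟨h1, ?_⟩
  intro p t _ ht hcard hel P
  have hp : p.Prime := Fact.out
  have hMp : IsPGroup p M := IsPGroup.of_card hcard
  have hMP : M ≤ (P : Subgroup G) := by
    have h2 : IsPGroup p ↥(M ⊔ (P : Subgroup G)) := hMp.to_sup_of_normal_left' P.isPGroup' (by
      rw [Subgroup.normalizer_eq_top_iff.2 inferInstance]
      exact le_top)
    have h3 := P.is_maximal' h2 le_sup_right
    exact h3 ▸ le_sup_left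
  have hpd : p ∣ Nat.card M := by
    rw [hcard]
    exact dvd_pow_self p (by omega)
  obtain ⟨m₀, hm₀⟩ := exists_prime_orderOf_dvd_card' p hpd
  have hm₀' : orderOf (m₀ : G) = p := by rw [Subgroup.orderOf_coe]; exact hm₀
  have hd2 : p ^ 2 ∣ Nat.card M := by
    rw [hcard]
    exact pow_dvd_pow p ht
  obtain ⟨A', hA'⟩ := Sylow.exists_subgroup_card_pow_prime p hd2
  let A : Subgroup G := A'.map M.subtype
  have hAc : Nat.card A = p ^ 2 := by
    rw [← hA']
    exact Subgroup.card_map_of_injective (Subgroup.subtype_injective _)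
  have hAM : A ≤ M := Subgroup.map_subtype_le _
  have hAab : IsMulCommutative A := by
    refine ⟨⟨fun a b => ?_⟩⟩
    have := congrArg Subtype.val (hel.1.is_comm.comm ⟨a, hAM a.2⟩ ⟨b, hAM b.2⟩)
    exact Subtype.ext this
  have hall : ∀ k : ℕ, ∀ x : G, x ^ (p ^ k) = 1 → x ∈ M := by
    intro k
    induction k with
    | zero =>
      intro x hx
      simp at hx
      rw [hx]
      exact M.one_mem
    | succ k ih =>
      intro x hx
      have hy : x ^ p ∈ M := ih (x ^ p) (by rw [← pow_mul, ← pow_succ']; exact hx)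
      have hy2 := hel.2 _ hy
      by_cases hxp : x ^ p = 1
      · by_cases hx1 : x = 1
        · rw [hx1]
          exact M.one_mem
        · exact h1 x ⟨m₀, m₀.2, by rw [hm₀', orderOf_eq_prime hxp hx1]⟩
      · exfalso
        have hord : orderOf x = p ^ 2 := by
          have := orderOf_eq_prime_pow (p := p) (n := 1) (x := x) (by simpa using hxp)
            (by have h9 := hy2; rw [← pow_mul] at h9; rw [show p ^ (1 + 1) = p * p by ring]; exact h9)
          simpa using this
        obtain ⟨g, hg⟩ := hB A (Subgroup.zpowers x) hAab (hzp x)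
          (by rw [hAc, Nat.card_zpowers, hord])
        have hxm : x ∈ Subgroup.zpowers x := Subgroup.mem_zpowers x
        rw [hg] at hxm
        obtain ⟨a, ha, rfl⟩ := hxm
        apply hxp
        have h4 := hel.2 a (hAM ha)
        simp only [MulEquiv.coe_toMonoidHom, MulAut.conj_apply] at *
        rw [conj_pow, h4]
        simp
  apply le_antisymm _ hMP
  intro x hx
  obtain ⟨k, hk⟩ := P.isPGroup' ⟨x, hx⟩
  exact hall k x (by simpa using congrArg Subtype.val hk)

end Cfsg.Agent.S3909
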