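import Cfsg.Statements.S3910
import Cfsg.Agent.Lib.H1Frat
import Cfsg.Agent.Lib.PGrp2
import Cfsg.Agent.Lib.FGSBasic
-- import your own Cfsg.Agent.* helpers here

set_option autoImplicit false
open Cfsg

namespace Cfsg.Agent.S3910

theorem exists_normal_card.{u} (p : ℕ) [Fact p.Prime] (k : ℕ) :
    ∀ (G : Type u) [Group G] [Finite G] [Group.IsNilpotent G], p ^ k ∣ Nat.card G →
      ∃ N : Subgroup G, N.Normal ∧ Nat.card N = p ^ k := by
  induction k with
  | zero =>
    intro G _ _ _ _
    exact ⟨⊥, inferInstance, by simp⟩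
  | succ k ih =>
    intro G _ _ _ hd
    have hp : p.Prime := Fact.out
    have hpd : p ∣ Nat.card G := dvd_trans (dvd_pow_self p (Nat.succ_ne_zero k)) hd
    obtain ⟨P⟩ : Nonempty (Sylow p G) := inferInstance
    haveI hPn : (P : Subgroup G).Normal := inferInstance
    have hPne : (P : Subgroup G) ≠ ⊥ := by
      intro h
      have h1 : p ∣ (P : Subgroup G).index := by
        rw [h, Subgroup.index_bot]
        exact hpd
      exact P.not_dvd_index h1
    have h1 := Lib.H1Frat.normal_inf_center_ne_bot (P : Subgroup G) hPne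
    obtain ⟨x, hx, hx1⟩ := (Subgroup.bot_or_exists_ne_one _).resolve_left h1
    obtain ⟨hxP, hxZ⟩ := Subgroup.mem_inf.1 hx
    obtain ⟨m, hm⟩ := Lib.FGSBasic.orderOf_of_mem_sylow P hxP
    have hm0 : m ≠ 0 := by
      rintro rfl
      exact hx1 (orderOf_eq_one_iff.1 (by simpa using hm))
    obtain ⟨m', rfl⟩ := Nat.exists_eq_succ_of_ne_zero hm0
    let z := x ^ (p ^ m')
    have hzo : orderOf z = p := by
      have h2 : orderOf x / p = p ^ m' := by
        rw [hm, Nat.succ_eq_add_one, pow_succ]
        exact Nat.mul_div_cancel _ hp.pos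
      have h3 := orderOf_pow_orderOf_div (x := x) (n := p) (orderOf_pos x).ne'
        (by rw [hm, Nat.succ_eq_add_one, pow_succ]; exact dvd_mul_left _ _)
      rw [h2] at h3
      exact h3
    have hzZ : z ∈ Subgroup.center G := Subgroup.pow_mem _ hxZ _
    haveI hZn : (Subgroup.zpowers z).Normal := Lib.PGrp.zpowers_normal_of_mem_center hzZ
    have hZc : Nat.card (Subgroup.zpowers z) = p := by rw [Nat.card_zpowers, hzo]
    have h4 : Nat.card (Subgroup.zpowers z) * Nat.card (G ⧸ Subgroup.zpowers z) = Nat.card G := by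
      rw [← Subgroup.index_eq_card]
      exact Subgroup.card_mul_index _
    have h5 : p ^ k ∣ Nat.card (G ⧸ Subgroup.zpowers z) := by
      rw [← h4, hZc, pow_succ, mul_comm] at hd
      exact Nat.dvd_of_mul_dvd_mul_left hp.pos hd
    obtain ⟨N, hN, hNc⟩ := ih (G ⧸ Subgroup.zpowers z) h5
    refine ⟨N.comap (QuotientGroup.mk' (Subgroup.zpowers z)), hN.comap _, ?_⟩
    have h6 := Subgroup.index_comap_of_surjective N (QuotientGroup.mk'_surjective (Subgroup.zpowers z))
    have h7 := Subgroup.card_mul_index (N.comap (QuotientGroup.mk' (Subgroup.zpowers z)))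
    have h8 := Subgroup.card_mul_index N
    rw [h6] at h7
    rw [← h4, ← h8, hZc, hNc] at h7
    have hipos : 0 < N.index := Nat.pos_of_ne_zero Subgroup.index_ne_zero_of_finite
    have h9 : Nat.card ↥(N.comap (QuotientGroup.mk' (Subgroup.zpowers z))) * N.index = p ^ (k + 1) * N.index := by
      rw [h7, pow_succ]
      ring
    exact Nat.eq_of_mul_eq_mul_right hipos h9

theorem key {G : Type*} [Group G] [Finite G] (hB : ∀ A B : Subgroup G, IsMulCommutative ↥A → IsMulCommutative ↥B → Nat.card ↥A = Nat.card ↥B → ∃ g : G, B = A.map (MulAut.conj g).toMonoidHom) [Group.IsNilpotent G]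
    (p : ℕ) [Fact p.Prime] (k : ℕ) : p ^ k ∣ Nat.card G →
    (∀ U V : Subgroup G, Nat.card U = p ^ k → Nat.card V = p ^ k → U = V) ∧
      ∀ U : Subgroup G, Nat.card U = p ^ k → IsCyclic U := by
  have hp : p.Prime := Fact.out
  induction k with
  | zero =>
    intro _
    refine ⟨fun U V hU hV => ?_, fun U hU => ?_⟩
    · rw [pow_zero] at hU hV
      rw [Subgroup.card_eq_one.1 hU, Subgroup.card_eq_one.1 hV]
    · rw [pow_zero] at hU
      rw [Subgroup.card_eq_one.1 hU]
      infer_instance
  | succ k ih =>
    intro hd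
    obtain ⟨huniq, -⟩ := ih (dvd_trans (pow_dvd_pow p (Nat.le_succ k)) hd)
    have hcyc : ∀ U : Subgroup G, Nat.card U = p ^ (k + 1) → IsCyclic U := by
      intro U hU
      have hUd : p ^ k ∣ Nat.card U := by
        rw [hU]
        exact pow_dvd_pow p (Nat.le_succ k)
      obtain ⟨D', hD'⟩ := Sylow.exists_subgroup_card_pow_prime p hUd
      let D : Subgroup G := D'.map U.subtype
      have hDc : Nat.card D = p ^ k := by
        rw [← hD']
        exact Subgroup.card_map_of_injective (Subgroup.subtype_injective _)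
      have hDU : D ≤ U := Subgroup.map_subtype_le _
      obtain ⟨x, hxU, hxD⟩ : ∃ x ∈ U, x ∉ D := by
        by_contra hc
        push_neg at hc
        have h1 : U ≤ D := hc
        have h2 := Subgroup.card_le_of_le h1
        rw [hU, hDc] at h2
        have := Nat.pow_le_pow_iff_right hp.one_lt |>.1 h2
        omega
      have hUp : IsPGroup p U := IsPGroup.of_card hU
      obtain ⟨j, hj⟩ := (IsPGroup.iff_orderOf.1 hUp) ⟨x, hxU⟩
      by_cases hjk : j ≤ k
      · exfalso
        obtain ⟨K, hK, hle⟩ := Sylow.exists_subgroup_card_pow_prime_le p hUd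
          (Subgroup.zpowers (⟨x, hxU⟩ : U)) (by rw [Nat.card_zpowers, hj]) hjk
        have h3 : K.map U.subtype = D := by
          apply huniq
          · rw [← hK]
            exact Subgroup.card_map_of_injective (Subgroup.subtype_injective _)
          · exact hDc
        apply hxD
        rw [← h3]
        exact ⟨⟨x, hxU⟩, hle (Subgroup.mem_zpowers _), rfl⟩
      · have hle : orderOf (⟨x, hxU⟩ : U) ∣ p ^ (k + 1) := by
          rw [← hU]
          exact orderOf_dvd_natCard _
        rw [hj] at hle
        have hj' : j ≤ k + 1 := (Nat.pow_dvd_pow_iff_le_right hp.one_lt).1 hle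
        have hje : j = k + 1 := by omega
        apply isCyclic_of_orderOf_eq_card (⟨x, hxU⟩ : U)
        rw [hj, hje, hU]
    refine ⟨fun U V hU hV => ?_, hcyc⟩
    obtain ⟨N, hN, hNc⟩ := exists_normal_card p (k + 1) G hd
    have hab : ∀ U : Subgroup G, Nat.card U = p ^ (k + 1) → IsMulCommutative U := by
      intro U hU
      haveI := hcyc U hU
      refine ⟨⟨fun a b => ?_⟩⟩
      exact IsCyclic.exists_generator.elim (fun g hg => by
        obtain ⟨i, hi⟩ := Subgroup.mem_zpowers_iff.1 (hg a)
        obtain ⟨j, hj⟩ := Subgroup.mem_zpowers_iff.1 (hg b)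
        rw [← hi, ← hj, ← zpow_add, ← zpow_add, add_comm])
    have heq : ∀ U : Subgroup G, Nat.card U = p ^ (k + 1) → U = N := by
      intro U hU
      obtain ⟨g, hg⟩ := hB N U (hab N hNc) (hab U hU) (by rw [hNc, hU])
      rw [hg]
      have : g ∈ Subgroup.normalizer (N : Set G) := by
        rw [Subgroup.normalizer_eq_top_iff.2 hN]
        trivial
      exact Subgroup.mem_normalizer_iff_map_conj_eq.1 this
    rw [heq U hU, heq V hV]

/-- A finite nilpotent group in which any two abelian subgroups of the same order are conjugate is cyclic. -/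
theorem result {G : Type*} [Group G] [Finite G] (hB : ∀ A B : Subgroup G, IsMulCommutative ↥A → IsMulCommutative ↥B → Nat.card ↥A = Nat.card ↥B → ∃ g : G, B = A.map (MulAut.conj g).toMonoidHom) (hnil : Group.IsNilpotent G) : IsCyclic G := by
  haveI := hnil
  haveI : IsZGroup G := by
    refine ⟨fun p hp P => ?_⟩
    haveI : Fact p.Prime := ⟨hp⟩
    have h1 := Sylow.card_eq_multiplicity P
    have h2 : p ^ (Nat.card G).factorization p ∣ Nat.card G := by
      rw [← h1]
      exact Subgroup.card_subgroup_dvd_card _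
    exact (key hB p _ h2).2 _ h1
  infer_instance

end Cfsg.Agent.S3910
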