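import Cfsg.Statements.S3917
import Mathlib
import Cfsg.Agent.Lib.FGSBasic
-- import your own Cfsg.Agent.* helpers here

set_option autoImplicit false
open Cfsg

namespace Cfsg.Agent.S3917

/-- Say that a group has self-centralizing non-cyclic subgroups when every non-cyclic subgroup H satisfies C_G(H) ≤ H. A finite abelian group with self-centralizing non-cyclic subgroups is cyclic or elementary abelian of order p² for a prime p. -/
theorem result {G : Type*} [CommGroup G] [Finite G] (hX : (∀ H : Subgroup G, ¬ IsCyclic ↥H → Subgroup.centralizer (H : Set G) ≤ H)) :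
    IsCyclic G ∨ ∃ p : ℕ, p.Prime ∧ Nat.card G = p ^ 2 ∧ Monoid.exponent G = p := by
  classical
  by_cases hc : IsCyclic G
  · exact Or.inl hc
  right
  have hX' : ∀ H : Subgroup G, ¬ IsCyclic H → H = ⊤ := by
    intro H hH
    rw [eq_top_iff]
    intro g _
    apply hX H hH
    rw [Subgroup.mem_centralizer_iff]
    intro h _
    exact mul_comm _ _
  have hexp0 : Monoid.exponent G ≠ 0 := Monoid.exponent_ne_zero_of_finite
  obtain ⟨x, hx⟩ := Monoid.exists_orderOf_eq_exponent (Monoid.exponent_ne_zero.mp hexp0)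
  set e := orderOf x with he
  have hxtop : Subgroup.zpowers x ≠ ⊤ := by
    intro h
    apply hc
    exact ⟨⟨x, fun y => by
      have : y ∈ Subgroup.zpowers x := by rw [h]; trivial
      exact this⟩⟩
  -- element outside of ⟨x⟩ with p-th power inside
  haveI : Nontrivial (G ⧸ Subgroup.zpowers x) := QuotientGroup.nontrivial_iff.mpr hxtop
  have hQ1 : Nat.card (G ⧸ Subgroup.zpowers x) ≠ 1 := Finite.one_lt_card.ne'
  set p := (Nat.card (G ⧸ Subgroup.zpowers x)).minFac with hp
  have hpp : p.Prime := Nat.minFac_prime hQ1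
  haveI : Fact p.Prime := ⟨hpp⟩
  obtain ⟨q, hq⟩ := exists_prime_orderOf_dvd_card' (G := G ⧸ Subgroup.zpowers x) p (Nat.minFac_dvd _)
  obtain ⟨y, rfl⟩ := QuotientGroup.mk_surjective q
  have hyx : y ∉ Subgroup.zpowers x := by
    intro h
    have : (y : G ⧸ Subgroup.zpowers x) = 1 := (QuotientGroup.eq_one_iff y).mpr h
    rw [this, orderOf_one] at hq
    exact hpp.one_lt.ne hq
  have hyp : y ^ p ∈ Subgroup.zpowers x := by
    rw [← QuotientGroup.eq_one_iff, QuotientGroup.mk_pow, ← hq]
    exact pow_orderOf_eq_one _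
  obtain ⟨k, hk⟩ := Subgroup.mem_zpowers_iff.mp hyp
  -- p ∣ e
  have hpe : p ∣ e := by
    by_contra hne
    have hd : orderOf y ∣ e := by rw [hx]; exact Monoid.order_dvd_exponent y
    have hcop : (orderOf y).Coprime p := by
      apply Nat.Coprime.symm
      rw [Nat.Prime.coprime_iff_not_dvd hpp]
      exact fun h => hne (dvd_trans h hd)
    apply hyx
    obtain ⟨a, b, hab⟩ := Cfsg.Agent.Lib.FGSBasic.exists_zpow_bezout y hcop
    simp only [pow_orderOf_eq_one, one_zpow, one_mul] at hab
    rw [← hab]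
    exact Subgroup.zpow_mem _ hyp _
  obtain ⟨e', he'⟩ := hpe
  have he0 : e ≠ 0 := (orderOf_pos x).ne'
  have he'0 : e' ≠ 0 := by
    rintro rfl
    exact he0 (by rw [he', mul_zero])
  -- p ∣ k
  have hpk : (p : ℤ) ∣ k := by
    have h1 : y ^ e = 1 := by rw [hx]; exact Monoid.pow_exponent_eq_one y
    have h2 : x ^ (k * (e' : ℤ)) = 1 := by
      rw [zpow_mul, hk, zpow_natCast, ← pow_mul, ← he', h1]
    have h3 := orderOf_dvd_iff_zpow_eq_one.mpr h2
    rw [← he, he'] at h3
    push_cast at h3
    exact Int.dvd_of_mul_dvd_mul_right (by exact_mod_cast he'0) h3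
  obtain ⟨m, rfl⟩ := hpk
  set z := y * x ^ (-m) with hz
  have hzp : z ^ p = 1 := by
    rw [hz, mul_pow, ← hk, ← zpow_natCast (x ^ (-m)), ← zpow_mul, ← zpow_add]
    have : (p : ℤ) * m + -m * (p : ℤ) = 0 := by ring
    rw [this, zpow_zero]
  have hzx : z ∉ Subgroup.zpowers x := by
    intro h
    apply hyx
    have h1 := mul_mem h (Subgroup.zpow_mem_zpowers x m)
    rw [hz] at h1
    simpa using h1
  have hz1 : z ≠ 1 := by
    intro h; rw [h] at hzx; exact hzx (one_mem _)
  have hzo : orderOf z = p := orderOf_eq_prime hzp hz1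
  set w := x ^ e' with hw
  have hwo : orderOf w = p := by
    rw [hw, orderOf_pow, ← he, he', Nat.gcd_mul_left_left, Nat.mul_div_cancel _ (Nat.pos_of_ne_zero he'0)]
  have hwp : w ^ p = 1 := by
    rw [← hwo]; exact pow_orderOf_eq_one w
  let K := Subgroup.zpowers w
  let L := Subgroup.zpowers z
  have hKcard : Nat.card K = p := by rw [Nat.card_zpowers, hwo]
  have hLcard : Nat.card L = p := by rw [Nat.card_zpowers, hzo]
  have hKx : K ≤ Subgroup.zpowers x := by
    rw [Subgroup.zpowers_le]
    exact pow_mem (Subgroup.mem_zpowers x) _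
  have hzK : z ∉ K := fun h => hzx (hKx h)
  have hKne : K ≠ K ⊔ L := by
    intro h
    apply hzK
    rw [h]
    exact Subgroup.mem_sup_right (Subgroup.mem_zpowers z)
  have hle : K ⊔ L ≤ (powMonoidHom p : G →* G).ker := by
    apply sup_le
    · rw [Subgroup.zpowers_le, MonoidHom.mem_ker]; exact hwp
    · rw [Subgroup.zpowers_le, MonoidHom.mem_ker]; exact hzp
  have hnc : ¬ IsCyclic ↥(K ⊔ L) := by
    intro hcyc
    haveI := Fintype.ofFinite ↥(K ⊔ L)
    have h1 := IsCyclic.card_pow_eq_one_le (α := ↥(K ⊔ L)) (n := p) hpp.pos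
    have h2 : (Finset.univ.filter (fun a : ↥(K ⊔ L) => a ^ p = 1)) = Finset.univ := by
      ext a
      simp only [Finset.mem_filter, Finset.mem_univ, true_and, iff_true]
      apply Subtype.ext
      exact MonoidHom.mem_ker.mp (hle a.2)
    rw [h2, Finset.card_univ, ← Nat.card_eq_fintype_card] at h1
    have h3 : Nat.card K ≤ Nat.card ↥(K ⊔ L) := Subgroup.card_le_of_le le_sup_left
    have h4 : Nat.card ↥(K ⊔ L) = Nat.card K := by rw [hKcard] at h3 ⊢; omega
    exact hKne (Subgroup.eq_of_le_of_card_ge le_sup_left h4.le)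
  have htop := hX' _ hnc
  have hall : ∀ g : G, g ^ p = 1 := by
    intro g
    have : g ∈ K ⊔ L := by rw [htop]; trivial
    exact MonoidHom.mem_ker.mp (hle this)
  have hexp : e = p := by
    apply Nat.dvd_antisymm
    · rw [hx]; exact Monoid.exponent_dvd_of_forall_pow_eq_one hall
    · exact ⟨e', he'⟩
  refine ⟨p, hpp, ?_, ?_⟩
  · have h1 : K.relIndex L ∣ p := by rw [← hLcard]; exact Subgroup.relIndex_dvd_card K L
    have h2 : K.relIndex (K ⊔ L) = K.relIndex L := Subgroup.relIndex_sup_left L K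
    rw [htop, Subgroup.relIndex_top_right] at h2
    have h3 : K.index ≠ 1 := by
      intro h
      have : K = ⊤ := Subgroup.index_eq_one.mp h
      apply hzK
      rw [this]; trivial
    have h4 : K.index = p := by
      rw [← h2] at h1
      rcases (Nat.dvd_prime hpp).mp h1 with h5 | h5
      · exact absurd h5 h3
      · exact h5
    rw [← K.card_mul_index, hKcard, h4, pow_two]
  · rw [← hx]; exact hexp

end Cfsg.Agent.S3917
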