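import Cfsg.Statements.S3918
import Mathlib
import Cfsg.Agent.Lib.PGrp8
import Cfsg.Agent.Lib.PGrp6
import Cfsg.Agent.Lib.FGSBasic
-- import your own Cfsg.Agent.* helpers here

set_option autoImplicit false
open Cfsg

namespace Cfsg.Agent.S3918

/-- Say that a group has self-centralizing non-cyclic subgroups when every non-cyclic subgroup H satisfies C_G(H) ≤ H. For an odd prime p, a finite non-abelian p-group has self-centralizing non-cyclic subgroups if and only if it has order p³. -/
theorem result {G : Type*} [Group G] [Finite G] {p : ℕ} [Fact p.Prime] (hp : p ≠ 2) (hG : IsPGroup p G) (hna : ¬ IsMulCommutative G) :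
    (∀ H : Subgroup G, ¬ IsCyclic ↥H → Subgroup.centralizer (H : Set G) ≤ H) ↔ Nat.card G = p ^ 3 := by
  classical
  have hpp : p.Prime := Fact.out
  have hnc : ¬ IsCyclic G := by
    intro h
    apply hna
    exact ⟨⟨(IsCyclic.commGroup (α := G)).mul_comm⟩⟩
  obtain ⟨m, hm⟩ := IsPGroup.iff_card.mp hG
  have hm3 : 3 ≤ m := by
    by_contra h
    have hm2 : m ≤ 2 := by omega
    apply hna
    interval_cases m
    · have h3 : Subsingleton G := (Nat.card_eq_one_iff_unique.mp (by simpa using hm)).1
      exact ⟨⟨fun a b => Subsingleton.elim _ _⟩⟩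
    · haveI : Fact (Nat.card G).Prime := ⟨by simpa [hm] using hpp⟩
      exact hnc.elim (isCyclic_of_prime_card rfl)
    · exact IsPGroup.isMulCommutative_of_card_eq_prime_sq hm
  constructor
  · intro h
    obtain ⟨A, hAn, hAe, hAc⟩ := Lib.PGrp.exists_elem_sq_of_noncyclic hp hG hnc
    have hAnc : ¬ IsCyclic A := by
      intro hc
      have h1 := hAe.2
      obtain ⟨g, hg⟩ := hc
      have h2 : orderOf g ∣ p := orderOf_dvd_of_pow_eq_one (by
        apply Subtype.ext
        exact hAe.2 g g.2)
      have h3 : orderOf g = Nat.card A := orderOf_eq_card_of_forall_mem_zpowers hg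
      rw [h3, hAc] at h2
      have h4 := Nat.le_of_dvd hpp.pos h2
      have h5 : p < p ^ 2 := by nlinarith [hpp.two_le]
      omega
    have hC := h A hAnc
    have hidx := Lib.PGrp.index_centralizer_le hG A hAe.1 2 hAc
    have hidx' : (Subgroup.centralizer (A : Set G)).index ≤ p := by simpa using hidx
    have h1 := Subgroup.card_mul_index (Subgroup.centralizer (A : Set G))
    have h2 : Nat.card (Subgroup.centralizer (A : Set G)) ≤ p ^ 2 := by
      rw [← hAc]; exact Subgroup.card_le_of_le hC
    have h3 : p ^ m ≤ p ^ 3 := by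
      rw [← hm, ← h1]
      calc _ ≤ p ^ 2 * p := Nat.mul_le_mul h2 hidx'
        _ = p ^ 3 := by ring
    have h4 := (Nat.pow_le_pow_iff_right hpp.one_lt).mp h3
    have h5 : m = 3 := by omega
    rw [hm, h5]
  · intro h3 H hH
    -- order of the centre
    have hm3' : m = 3 := by
      rw [hm] at h3
      exact Nat.pow_right_injective hpp.two_le h3
    have hHc : Nat.card H ∣ p ^ 3 := by
      rw [← h3]; exact Subgroup.card_subgroup_dvd_card H
    obtain ⟨k, hk, hHk⟩ := (Nat.dvd_prime_pow hpp).mp hHc
    have hk2 : 2 ≤ k := by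
      by_contra hk2
      apply hH
      have hk1 : k = 0 ∨ k = 1 := by omega
      rcases hk1 with rfl | rfl
      · have h4 : Subsingleton H := (Nat.card_eq_one_iff_unique.mp (by simpa using hHk)).1
        exact ⟨⟨1, fun x => ⟨0, Subsingleton.elim _ _⟩⟩⟩
      · haveI : Fact (Nat.card H).Prime := ⟨by simpa [hHk] using hpp⟩
        exact isCyclic_of_prime_card rfl
    have hk3 : k = 2 ∨ k = 3 := by omega
    rcases hk3 with rfl | rfl
    · -- a subgroup of index `p`
      have hHa : IsMulCommutative H := IsPGroup.isMulCommutative_of_card_eq_prime_sq hHk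
      have hidx : H.index = p := by
        have h5 := Subgroup.card_mul_index H
        rw [hHk, h3] at h5
        apply Nat.eq_of_mul_eq_mul_left (pow_pos hpp.pos 2)
        rw [h5]; ring
      have hco : IsCoatom H := Lib.FGSBasic.isCoatom_of_index_prime H (hidx ▸ hpp)
      intro c hc
      by_contra hcH
      apply hna
      let S : Set G := (H : Set G) ∪ {c}
      have hS : ∀ x ∈ S, ∀ y ∈ S, x * y = y * x := by
        rintro x (hx | hx) y (hy | hy)
        · exact congrArg Subtype.val (hHa.is_comm.comm (⟨x, hx⟩ : H) ⟨y, hy⟩)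
        · rw [Set.mem_singleton_iff.mp hy]
          exact Subgroup.mem_centralizer_iff.mp hc x hx
        · rw [Set.mem_singleton_iff.mp hx]
          exact (Subgroup.mem_centralizer_iff.mp hc y hy).symm
        · rw [Set.mem_singleton_iff.mp hx, Set.mem_singleton_iff.mp hy]
      have hcl : Subgroup.closure S = ⊤ := by
        apply hco.2
        refine lt_of_le_of_ne ?_ ?_
        · intro x hx
          exact Subgroup.subset_closure (Or.inl hx)
        · intro h6
          apply hcH
          rw [h6]
          exact Subgroup.subset_closure (Or.inr rfl)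
      refine ⟨⟨fun a b => ?_⟩⟩
      have hmem : ∀ g : G, g ∈ Subgroup.closure S := fun g => by rw [hcl]; exact Subgroup.mem_top g
      have h4 := (Subgroup.closureCommGroupOfComm hS).mul_comm ⟨a, hmem a⟩ ⟨b, hmem b⟩
      exact congrArg Subtype.val h4
    · have hHt : H = ⊤ := by
        apply Subgroup.eq_top_of_card_eq
        rw [hHk, h3]
      rw [hHt]
      exact le_top

end Cfsg.Agent.S3918
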