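import Cfsg.Statements.S3919
import Cfsg.Agent.Lib.H1TwoClass2
import Cfsg.Agent.Lib.PMaxClass4

set_option autoImplicit false
open Cfsg

namespace Cfsg.Agent.S3919

section aux

open Subgroup Cfsg.Agent.Lib.H1Quat Cfsg.Agent.Lib.H1TwoClass

variable {G : Type*} [Group G] [Finite G]

theorem neg_self_cases {n : ℕ} [NeZero n] {i : ZMod (2 * n)} (h : -i = i) : i = 0 ∨ i = (n : ZMod (2 * n)) := by
  haveI : NeZero (2 * n) := ⟨by simpa using NeZero.ne n⟩
  have hn : 0 < n := Nat.pos_of_ne_zero (NeZero.ne n)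
  have hi : ((i.val : ℕ) : ZMod (2 * n)) = i := ZMod.natCast_zmod_val i
  have h1 : ((2 * i.val : ℕ) : ZMod (2 * n)) = 0 := by
    push_cast
    rw [hi]
    have : i + i = 0 := by
      nth_rw 1 [← h]
      ring
    exact (two_mul i).trans this
  rw [ZMod.natCast_eq_zero_iff] at h1
  have h2 : n ∣ i.val := Nat.dvd_of_mul_dvd_mul_left (by norm_num) h1
  obtain ⟨c, hc⟩ := h2
  have hlt : i.val < 2 * n := ZMod.val_lt i
  have hc2 : c < 2 := by
    by_contra hge
    have : n * 2 ≤ n * c := Nat.mul_le_mul_left _ (by omega)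
    omega
  interval_cases c
  · left
    rw [← hi, hc]
    simp
  · right
    rw [← hi, hc]
    simp

theorem quat_cent {n : ℕ} [NeZero n] (g : QuaternionGroup n) (h : g * QuaternionGroup.xa 0 = QuaternionGroup.xa 0 * g) :
    g = QuaternionGroup.a 0 ∨ g = QuaternionGroup.a (n : ZMod (2 * n)) ∨ g = QuaternionGroup.xa 0 ∨
      g = QuaternionGroup.xa (n : ZMod (2 * n)) := by
  rcases g with i | j
  · rw [QuaternionGroup.a_mul_xa, QuaternionGroup.xa_mul_a] at h
    have h1 : -i = i := by
      have h2 := QuaternionGroup.xa.inj h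
      simpa using h2
    rcases neg_self_cases h1 with rfl | rfl
    · exact Or.inl rfl
    · exact Or.inr (Or.inl rfl)
  · rw [QuaternionGroup.xa_mul_xa, QuaternionGroup.xa_mul_xa] at h
    have h1 : -j = j := by
      have h2 := QuaternionGroup.a.inj h
      have h3 : (n : ZMod (2 * n)) + 0 - j = (n : ZMod (2 * n)) + j - 0 := h2
      have h4 : -j = j := by
        have : (n : ZMod (2 * n)) + -j = (n : ZMod (2 * n)) + j := by
          simpa [sub_eq_add_neg] using h3
        exact add_left_cancel this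
      exact h4
    rcases neg_self_cases h1 with rfl | rfl
    · exact Or.inr (Or.inr (Or.inl rfl))
    · exact Or.inr (Or.inr (Or.inr rfl))

theorem class_of_quat {n m : ℕ} (hG : Nat.card G = 2 ^ n) (f : G ≃* QuaternionGroup (2 ^ m)) :
    Group.nilpotencyClass G = n - 1 := by
  haveI hp2 : Fact (Nat.Prime 2) := ⟨Nat.prime_two⟩
  haveI : NeZero (2 ^ m) := ⟨by positivity⟩
  set y := f.symm (QuaternionGroup.xa 0) with hy
  have hyo : orderOf y = 4 := by
    rw [hy, MulEquiv.orderOf_eq, QuaternionGroup.orderOf_xa]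
  refine Cfsg.Agent.Lib.PMaxClass.nilpotencyClass_of_self_centralizing (p := 2) n G hG (zpowers y) ?_ ?_
  · rw [Nat.card_zpowers, hyo]
    norm_num
  · apply le_antisymm
    · intro g hg
      have h1 : y * g = g * y := mem_centralizer_iff.mp hg y (mem_zpowers y)
      have h2 : f g * QuaternionGroup.xa 0 = QuaternionGroup.xa 0 * f g := by
        have h3 := congrArg f h1
        rw [map_mul, map_mul, hy, MulEquiv.apply_symm_apply] at h3
        exact h3.symm
      have hsq : f (y ^ 2) = QuaternionGroup.a ((2 ^ m : ℕ) : ZMod (2 * 2 ^ m)) := by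
        rw [map_pow, hy, MulEquiv.apply_symm_apply, QuaternionGroup.xa_sq]
      have hcu : f (y ^ 3) = QuaternionGroup.xa ((2 ^ m : ℕ) : ZMod (2 * 2 ^ m)) := by
        rw [pow_succ', map_mul, hsq, hy, MulEquiv.apply_symm_apply, QuaternionGroup.xa_mul_a, zero_add]
      rcases quat_cent _ h2 with h3 | h3 | h3 | h3
      · have : g = 1 := by
          apply f.injective
          rw [h3, map_one]
          rfl
        rw [this]
        exact one_mem _
      · have : g = y ^ 2 := by
          apply f.injective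
          rw [h3, hsq]
        rw [this]
        exact npow_mem_zpowers _ _
      · have : g = y := by
          apply f.injective
          rw [h3, hy, MulEquiv.apply_symm_apply]
        rw [this]
        exact mem_zpowers y
      · have : g = y ^ 3 := by
          apply f.injective
          rw [h3, hcu]
        rw [this]
        exact npow_mem_zpowers _ _
    · intro g hg
      apply mem_centralizer_iff.mpr
      intro k hk
      obtain ⟨i, rfl⟩ := exists_pow_of_mem_zpowers hg
      obtain ⟨j, rfl⟩ := exists_pow_of_mem_zpowers hk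
      exact ((Commute.refl y).pow_pow j i).eq

theorem class_of_V4 {n : ℕ} (hG : Nat.card G = 2 ^ n)
    (hself : ∀ H : Subgroup G, ¬ IsCyclic H → centralizer (H : Set G) ≤ H) {z a : G}
    (hz2 : z * z = 1) (hz1 : z ≠ 1) (hzc : ∀ g, g * z = z * g) (ha2 : a * a = 1) (ha1 : a ≠ 1) (haz : a ≠ z) :
    Group.nilpotencyClass G = n - 1 := by
  haveI hp2 : Fact (Nat.Prime 2) := ⟨Nat.prime_two⟩
  have hzo : orderOf z = 2 := orderOf_eq_prime (by rw [sq]; exact hz2) hz1
  have hao : orderOf a = 2 := orderOf_eq_prime (by rw [sq]; exact ha2) ha1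
  have hZn : (zpowers z).Normal := by
    constructor
    intro y hy g
    obtain ⟨k, rfl⟩ := exists_pow_of_mem_zpowers hy
    have h1 : g * z ^ k = z ^ k * g := ((show Commute g z from hzc g).pow_right k).eq
    rw [h1, mul_inv_cancel_right]
    exact npow_mem_zpowers _ _
  haveI := hZn
  set A : Subgroup G := zpowers a ⊔ zpowers z with hA
  have hAmem : ∀ w ∈ A, ∃ i j : ℕ, w = a ^ i * z ^ j := by
    intro w hw
    obtain ⟨y, hy, v, hv, rfl⟩ := Subgroup.mem_sup_of_normal_right.mp hw
    obtain ⟨i, rfl⟩ := exists_pow_of_mem_zpowers hy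
    obtain ⟨j, rfl⟩ := exists_pow_of_mem_zpowers hv
    exact ⟨i, j, rfl⟩
  have hzk : ∀ (e : ℕ) (g : G), g * z ^ e = z ^ e * g := by
    intro e g
    exact (((show Commute g z from hzc g).pow_right e)).eq
  have hAexp : ∀ w ∈ A, w * w = 1 := by
    intro w hw
    obtain ⟨i, j, rfl⟩ := hAmem w hw
    have h1 : Commute (a ^ i) (z ^ j) := hzk j _
    rw [← sq, h1.mul_pow, ← pow_mul, ← pow_mul, mul_comm i, mul_comm j, pow_mul, pow_mul z, sq, sq, ha2, hz2,
      one_pow, one_pow, one_mul]
  have hAcomm : ∀ v ∈ A, ∀ w ∈ A, v * w = w * v := by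
    intro v hv w hw
    have h1 := hAexp _ (mul_mem hv hw)
    have h2 := hAexp _ hv
    have h3 := hAexp _ hw
    calc v * w = v * (v * w * (v * w)) * w := by rw [h1]; group
      _ = (v * v) * (w * v) * (w * w) := by group
      _ = w * v := by rw [h2, h3]; group
  have hAcard : Nat.card A = 4 := by
    have hZA : zpowers z ≤ A := le_sup_right
    have h1 := Cfsg.Agent.Lib.H1Small.relIndex_mul_card hZA
    have hinf : zpowers z ⊓ zpowers a = ⊥ := by
      rw [eq_bot_iff]
      intro w hw
      obtain ⟨hw1, hw2⟩ := hw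
      obtain ⟨i, rfl⟩ := exists_pow_of_mem_zpowers hw1
      obtain ⟨j, hj⟩ := exists_pow_of_mem_zpowers hw2
      rw [Subgroup.mem_bot]
      by_contra hne
      have hzi : z ^ i = z := by
        rcases Nat.even_or_odd' i with ⟨l, rfl | rfl⟩
        · exfalso
          apply hne
          rw [pow_mul, sq, hz2, one_pow]
        · rw [pow_succ, pow_mul, sq, hz2, one_pow, one_mul]
      have haj : a ^ j = a := by
        rcases Nat.even_or_odd' j with ⟨l, rfl | rfl⟩
        · exfalso
          apply hne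
          rw [hzi] at hj ⊢
          rw [← hj, pow_mul, sq, ha2, one_pow]
        · rw [pow_succ, pow_mul, sq, ha2, one_pow, one_mul]
      apply haz
      rw [← haj, hj, hzi]
    have h2 : (zpowers z).relIndex A = 2 := by
      rw [hA, Subgroup.relIndex_sup_right, ← Subgroup.inf_relIndex_right, hinf,
        Subgroup.relIndex_bot_left, Nat.card_zpowers, hao]
    rw [← h1, h2, Nat.card_zpowers, hzo]
  have hAnc : ¬ IsCyclic A := by
    intro hc
    obtain ⟨c, hc⟩ := IsCyclic.exists_generator (α := A)
    have h1 : orderOf c = 4 := by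
      rw [← hAcard]
      exact orderOf_eq_card_of_forall_mem_zpowers hc
    have h2 : c ^ 2 = 1 := by
      rw [sq]
      exact Subtype.ext (hAexp c c.2)
    have h3 := orderOf_dvd_of_pow_eq_one h2
    rw [h1] at h3
    omega
  refine Cfsg.Agent.Lib.PMaxClass.nilpotencyClass_of_self_centralizing (p := 2) n G hG A (by rw [hAcard]; norm_num) ?_
  apply le_antisymm (hself A hAnc)
  intro g hg
  apply mem_centralizer_iff.mpr
  intro k hk
  exact hAcomm k hk g hg

theorem dir_one {n : ℕ} (hG : Nat.card G = 2 ^ n) (hna : ¬ IsMulCommutative G)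
    (hself : ∀ H : Subgroup G, ¬ IsCyclic H → centralizer (H : Set G) ≤ H) :
    Group.nilpotencyClass G = n - 1 := by
  classical
  haveI hp2 : Fact (Nat.Prime 2) := ⟨Nat.prime_two⟩
  have hP : IsPGroup 2 G := IsPGroup.of_card hG
  have hnt : (⊥ : Subgroup G) < ⊤ := by
    rw [bot_lt_iff_ne_bot]
    intro h
    apply hna
    refine ⟨⟨fun a b => ?_⟩⟩
    have ha : a ∈ (⊤ : Subgroup G) := trivial
    have hb : b ∈ (⊤ : Subgroup G) := trivial
    rw [h, Subgroup.mem_bot] at ha hb
    rw [ha, hb]
  obtain ⟨V₁, -, -, -, hV₁c, hV₁z, z, hzV, hz1, hz2, -⟩ :=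
    Cfsg.Agent.Lib.PGrp.exists_normal_between hP ⊥ ⊤ hnt
  have hz1' : z ≠ 1 := by simpa using hz1
  have hz2' : z * z = 1 := by
    rw [← sq]
    simpa using hz2
  have hzc : ∀ g, g * z = z * g := by
    intro g
    have h1 := hV₁z z hzV g
    rw [Subgroup.mem_bot, commutatorElement_eq_one_iff_mul_comm] at h1
    exact h1.symm
  by_cases h : ∃ a : G, a * a = 1 ∧ a ≠ 1 ∧ a ≠ z
  · obtain ⟨a, ha2, ha1, haz⟩ := h
    exact class_of_V4 hG hself hz2' hz1' hzc ha2 ha1 haz
  · push_neg at h
    have hzo : orderOf z = 2 := orderOf_eq_prime (by rw [sq]; exact hz2') hz1'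
    have huniq : ∀ H : Subgroup G, Nat.card H = 2 → H = zpowers z := by
      intro H hH
      haveI : Nontrivial H := by
        rw [← Finite.one_lt_card_iff_nontrivial, hH]
        norm_num
      obtain ⟨⟨w, hw⟩, hw1⟩ := exists_ne (1 : H)
      have hw1' : w ≠ 1 := fun h => hw1 (Subtype.ext h)
      have hww : w * w = 1 := by
        rw [← sq]
        have h2 := pow_card_eq_one' (x := (⟨w, hw⟩ : H))
        rw [hH] at h2
        exact congrArg Subtype.val h2
      have hwz : w = z := h w hww hw1'
      symm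
      apply Subgroup.eq_of_le_of_card_ge
      · rw [zpowers_le, ← hwz]
        exact hw
      · rw [hH, Nat.card_zpowers, hzo]
    rcases cyclic_or_quaternion 2 hP (fun H K h1 h2 => (huniq H h1).trans (huniq K h2).symm) with hc | ⟨-, m, ⟨f⟩⟩
    · exact absurd (IsCyclic.commutative (α := G)) hna
    · exact class_of_quat hG f

theorem dir_two {n : ℕ} (hG : Nat.card G = 2 ^ n) (hna : ¬ IsMulCommutative G) (hn3 : 3 ≤ n)
    (hc : Group.nilpotencyClass G = n - 1) (H : Subgroup G) (hH : ¬ IsCyclic H) :
    centralizer (H : Set G) ≤ H := by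
  classical
  haveI hp2 : Fact (Nat.Prime 2) := ⟨Nat.prime_two⟩
  have hP : IsPGroup 2 G := IsPGroup.of_card hG
  obtain ⟨C, hCc, hCi⟩ := Cfsg.Agent.Lib.PMaxClass.exists_cyclic_index_two n G hn3 hG hc
  have hZ : Nat.card (Subgroup.center G) = 2 := Cfsg.Agent.Lib.PMaxClass.card_center_of_maxClass n hn3 hG hc
  obtain ⟨⟨x, hxC⟩, hx⟩ := IsCyclic.exists_generator (α := C)
  have hCz : C = Subgroup.zpowers x := by
    apply le_antisymm
    · intro y hy
      obtain ⟨k, hk⟩ := Subgroup.mem_zpowers_iff.mp (hx ⟨y, hy⟩)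
      have h1 := congrArg Subtype.val hk
      simp only [Subgroup.coe_zpow] at h1
      exact Subgroup.mem_zpowers_iff.mpr ⟨k, h1⟩
    · rw [Subgroup.zpowers_le]
      exact hxC
  obtain ⟨m, rfl⟩ : ∃ m, n = m + 1 := ⟨n - 1, by omega⟩
  have hxo : orderOf x = 2 ^ m := by
    have h1 := C.index_mul_card
    rw [hCi, hG, hCz, Nat.card_zpowers] at h1
    have h2 : 2 ^ (m + 1) = 2 * 2 ^ m := by ring
    rw [h2] at h1
    exact Nat.eq_of_mul_eq_mul_left (by norm_num) h1
  subst hCz
  have hm1 : 1 ≤ m := by omega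
  have hCab : ∀ u ∈ zpowers x, ∀ v ∈ zpowers x, u * v = v * u := by
    intro u hu v hv
    obtain ⟨i, rfl⟩ := exists_pow_of_mem_zpowers hu
    obtain ⟨j, rfl⟩ := exists_pow_of_mem_zpowers hv
    exact ((Commute.refl x).pow_pow i j).eq
  have hall : ∀ y, y ∉ zpowers x → ∀ g, g ∈ zpowers x ∨ y⁻¹ * g ∈ zpowers x := by
    intro y hy g
    by_cases hg : g ∈ zpowers x
    · exact Or.inl hg
    · right
      rw [Subgroup.mul_mem_iff_of_index_two hCi]
      have hyinv : y⁻¹ ∉ zpowers x := fun h => hy (by simpa using inv_mem h)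
      simp [hg, hyinv]
  have hF1 : ∀ u ∈ zpowers x, ∀ y, y ∉ zpowers x → u * y = y * u → u ∈ Subgroup.center G := by
    intro u hu y hy huy
    rw [Subgroup.mem_center_iff]
    intro g
    rcases hall y hy g with hg | hg
    · exact hCab g hg u hu
    · have h5 : g = y * (y⁻¹ * g) := by group
      rw [h5, mul_assoc, hCab _ hg u hu, ← mul_assoc, ← huy, mul_assoc]
  have hZC : Subgroup.center G ≤ zpowers x := by
    intro w hw
    by_contra hwC
    apply hna
    have hwc := Subgroup.mem_center_iff.mp hw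
    refine ⟨⟨fun a b => ?_⟩⟩
    rcases hall w hwC a with ha | ha <;> rcases hall w hwC b with hb | hb
    · exact hCab a ha b hb
    · have h5 : b = w * (w⁻¹ * b) := by group
      set b' := w⁻¹ * b
      rw [h5]
      calc a * (w * b') = (a * w) * b' := by group
        _ = (w * a) * b' := by rw [hwc a]
        _ = w * (a * b') := by group
        _ = w * (b' * a) := by rw [hCab a ha b' hb]
        _ = _ := by group
    · have h5 : a = w * (w⁻¹ * a) := by group
      set a' := w⁻¹ * a
      rw [h5]
      calc w * a' * b = w * (a' * b) := by group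
        _ = w * (b * a') := by rw [hCab a' ha b hb]
        _ = (w * b) * a' := by group
        _ = (b * w) * a' := by rw [hwc b]
        _ = _ := by group
    · have h5 : a = w * (w⁻¹ * a) := by group
      have h6 : b = w * (w⁻¹ * b) := by group
      set a' := w⁻¹ * a
      set b' := w⁻¹ * b
      rw [h5, h6]
      calc w * a' * (w * b') = w * (a' * w) * b' := by group
        _ = w * (w * a') * b' := by rw [hwc a']
        _ = w * w * (a' * b') := by group
        _ = w * w * (b' * a') := by rw [hCab a' ha b' hb]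
        _ = w * (w * b') * a' := by group
        _ = w * (b' * w) * a' := by rw [hwc b']
        _ = _ := by group
  -- the central involution
  haveI : Nontrivial (Subgroup.center G) := by
    rw [← Finite.one_lt_card_iff_nontrivial, hZ]
    norm_num
  obtain ⟨⟨z, hzZ⟩, hz1⟩ := exists_ne (1 : Subgroup.center G)
  have hz1' : z ≠ 1 := fun h => hz1 (Subtype.ext h)
  have hzz : z * z = 1 := by
    rw [← sq]
    have h2 := pow_card_eq_one' (x := (⟨z, hzZ⟩ : Subgroup.center G))
    rw [hZ] at h2
    exact congrArg Subtype.val h2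
  have hZmem : ∀ w ∈ Subgroup.center G, w = 1 ∨ w = z := by
    intro w hw
    have hzo : orderOf z = 2 := orderOf_eq_prime (by rw [sq]; exact hzz) hz1'
    have h1 : zpowers z = Subgroup.center G := by
      apply Subgroup.eq_of_le_of_card_ge
      · rw [zpowers_le]
        exact hzZ
      · rw [hZ, Nat.card_zpowers, hzo]
    rw [← h1] at hw
    obtain ⟨k, rfl⟩ := exists_pow_of_mem_zpowers hw
    rcases Nat.even_or_odd' k with ⟨l, rfl | rfl⟩
    · left
      rw [pow_mul, sq, hzz, one_pow]
    · right
      rw [pow_succ, pow_mul, sq, hzz, one_pow, one_mul]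
  have hinv : ∀ y ∈ zpowers x, y * y = 1 → y = 1 ∨ y = x ^ (2 ^ (m - 1)) := fun y hy h => inv_cases hm1 hxo hy h
  have hzx : z = x ^ (2 ^ (m - 1)) := (hinv _ (hZC hzZ) hzz).resolve_left hz1'
  -- elements of H
  obtain ⟨y, hyH, hyC⟩ : ∃ y ∈ H, y ∉ zpowers x := by
    by_contra hno
    push_neg at hno
    exact hH (Subgroup.isCyclic_of_le (H := H) (H' := zpowers x) hno)
  have hHC : ∃ w ∈ H, w ∈ zpowers x ∧ w ≠ 1 := by
    by_contra hno
    push_neg at hno
    apply hH
    refine Subgroup.isCyclic_of_le (H := H) (H' := zpowers y) ?_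
    intro h hh
    by_cases hhC : h ∈ zpowers x
    · rw [hno h hh hhC]
      exact one_mem _
    · have h1 : y⁻¹ * h ∈ zpowers x := (hall y hyC h).resolve_left hhC
      have h2 := hno _ (mul_mem (inv_mem hyH) hh) h1
      have h3 : h = y := by
        have : h = y * (y⁻¹ * h) := by group
        rw [this, h2, mul_one]
      rw [h3]
      exact mem_zpowers y
  obtain ⟨w, hwH, hwC, hw1⟩ := hHC
  have hzH : z ∈ H := by
    obtain ⟨s, hs⟩ := (IsPGroup.iff_orderOf.mp hP) w
    have hs0 : s ≠ 0 := by
      rintro rfl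
      rw [pow_zero, orderOf_eq_one_iff] at hs
      exact hw1 hs
    obtain ⟨e, rfl⟩ : ∃ e, s = e + 1 := ⟨s - 1, by omega⟩
    have h1 : w ^ (2 ^ e) ≠ 1 := by
      intro h
      have h2 := orderOf_dvd_of_pow_eq_one h
      rw [hs] at h2
      have h3 := Nat.le_of_dvd (by positivity) h2
      have h4 : 2 ^ e < 2 ^ (e + 1) := Nat.pow_lt_pow_right (by norm_num) (by omega)
      omega
    have h2 : w ^ (2 ^ e) * w ^ (2 ^ e) = 1 := by
      rw [← pow_add, ← two_mul, ← pow_succ', ← hs, pow_orderOf_eq_one]
    have h3 : w ^ (2 ^ e) = z := by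
      rw [hzx]
      exact (hinv _ (pow_mem hwC _) h2).resolve_left h1
    rw [← h3]
    exact pow_mem hwH _
  intro g hg
  have hgy : y * g = g * y := mem_centralizer_iff.mp hg y hyH
  by_cases hgC : g ∈ zpowers x
  · rcases hZmem g (hF1 g hgC y hyC hgy.symm) with rfl | rfl
    · exact one_mem _
    · exact hzH
  · have h1 : g * y⁻¹ ∈ zpowers x := by
      rw [Subgroup.mul_mem_iff_of_index_two hCi]
      have hyinv : y⁻¹ ∉ zpowers x := fun h => hyC (by simpa using inv_mem h)
      simp [hgC, hyinv]
    have h2 : g * y⁻¹ * y = y * (g * y⁻¹) := by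
      rw [← mul_assoc, hgy]
      group
    rcases hZmem _ (hF1 _ h1 y hyC h2) with h3 | h3
    · have : g = y := by rwa [mul_inv_eq_one] at h3
      rw [this]
      exact hyH
    · have : g = z * y := by rwa [mul_inv_eq_iff_eq_mul] at h3
      rw [this]
      exact mul_mem hzH hyH

end aux
/-- Say that a group has self-centralizing non-cyclic subgroups when every non-cyclic subgroup H satisfies C_G(H) ≤ H. A finite non-abelian 2-group G of order 2^n has self-centralizing non-cyclic subgroups if and only if G has nilpotency class n − 1 (that is, G is dihedral, semidihedral or generalized quaternion). -/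
theorem result {G : Type*} [Group G] [Finite G] (hna : ¬ IsMulCommutative G) (n : ℕ) (hG : Nat.card G = 2 ^ n) :
    (∀ H : Subgroup G, ¬ IsCyclic ↥H → Subgroup.centralizer (H : Set G) ≤ H) ↔ (⊤ : Subgroup G).lowerCentralSeries (n - 2) ≠ ⊥ := by

  have hn3 : 3 ≤ n := by
    by_contra hlt
    apply hna
    have hn : n = 0 ∨ n = 1 ∨ n = 2 := by omega
    rcases hn with rfl | rfl | rfl
    · rw [pow_zero, Nat.card_eq_one_iff_unique] at hG
      haveI := hG.1
      exact ⟨⟨fun a b => Subsingleton.elim _ _⟩⟩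
    · haveI : Fact (Nat.Prime 2) := ⟨Nat.prime_two⟩
      haveI := isCyclic_of_prime_card (p := 2) (α := G) (by rw [hG, pow_one])
      exact IsCyclic.commutative
    · exact ⟨⟨IsPGroup.commutative_of_card_eq_prime_sq (p := 2) hG⟩⟩
  have hP : IsPGroup 2 G := IsPGroup.of_card hG
  haveI hp2 : Fact (Nat.Prime 2) := ⟨Nat.prime_two⟩
  haveI hnil : Group.IsNilpotent G := hP.isNilpotent
  constructor
  · intro hself
    have hc := dir_one hG hna hself
    intro h
    have h1 := Subgroup.lowerCentralSeries_eq_bot_iff_nilpotencyClass_le.mp h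
    rw [hc] at h1
    omega
  · intro h H hH
    have hc : Group.nilpotencyClass G = n - 1 := by
      have h1 : Group.nilpotencyClass G ≤ n - 1 := by
        obtain ⟨e, rfl⟩ : ∃ e, n = e + 2 := ⟨n - 2, by omega⟩
        exact Cfsg.Agent.Lib.PMaxClass.class_le (p := 2) e G hG
      have h2 : ¬ Group.nilpotencyClass G ≤ n - 2 := by
        intro h3
        exact h (Subgroup.lowerCentralSeries_eq_bot_iff_nilpotencyClass_le.mpr h3)
      omega
    exact dir_two hG hna hn3 hc H hH

end Cfsg.Agent.S3919
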