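import Cfsg.Statements.S3920
import Mathlib
import Cfsg.Agent.Lib.DihSub
-- import your own Cfsg.Agent.* helpers here

set_option autoImplicit false
open Cfsg

namespace Cfsg.Agent.S3920

open DihedralGroup

/-- Say that a group has self-centralizing non-cyclic subgroups when every non-cyclic subgroup H satisfies C_G(H) ≤ H. For n ≥ 3, the dihedral group of order 2n has self-centralizing non-cyclic subgroups if and only if n is odd or a power of 2. -/
theorem result (n : ℕ) (hn : 3 ≤ n) : (∀ H : Subgroup (DihedralGroup n), ¬ IsCyclic ↥H → Subgroup.centralizer (H : Set (DihedralGroup n)) ≤ H) ↔ (Odd n ∨ ∃ k : ℕ, n = 2 ^ k) := by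
  classical
  have hcen : ∀ (H : Subgroup (DihedralGroup n)) (c : ZMod n), sr c ∈ H → ∀ z ∈ Subgroup.centralizer (H : Set (DihedralGroup n)),
      (∃ e, z = r e ∧ 2 * e = 0) ∨ (∃ b, z = sr b ∧ 2 * (c - b) = 0) := by
    intro H c hc z hz
    have h1 : sr c * z = z * sr c := Subgroup.mem_centralizer_iff.mp hz _ hc
    rcases z with e | b
    · left
      refine ⟨e, rfl, ?_⟩
      rw [sr_mul_r, r_mul_sr, sr.injEq] at h1
      linear_combination h1
    · right
      refine ⟨b, rfl, ?_⟩
      rw [sr_mul_sr, sr_mul_sr, r.injEq] at h1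
      linear_combination -h1
  constructor
  · intro h
    by_contra hcon
    push Not at hcon
    obtain ⟨hodd, hpow⟩ := hcon
    obtain ⟨a, m, hm, hn'⟩ := Nat.exists_eq_two_pow_mul_odd (by omega : n ≠ 0)
    have ha : a ≠ 0 := by
      rintro rfl
      apply hodd
      rw [hn', pow_zero, one_mul]
      exact hm
    have hm3 : 3 ≤ m := by
      by_contra h3
      have hm1 : m = 1 := by
        obtain ⟨l, hl⟩ := hm
        omega
      exact hpow a (by rw [hn', hm1, mul_one])
    have hd : 2 ^ a ∣ n := ⟨m, hn'⟩
    have hnc : ¬ n ∣ 2 * 2 ^ a := by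
      rw [hn']
      intro hdv
      rw [show 2 * 2 ^ a = 2 ^ a * 2 by ring] at hdv
      have h5 := Nat.le_of_dvd (by norm_num) (Nat.dvd_of_mul_dvd_mul_left (by positivity) hdv)
      omega
    have hnotcyc : ¬ IsCyclic (Lib.DihSub.Hd (2 ^ a) hd) := by
      intro hc
      exact Lib.DihSub.Hd_not_comm _ hd hnc ⟨⟨(IsCyclic.commGroup (α := Lib.DihSub.Hd (2 ^ a) hd)).mul_comm⟩⟩
    have hC := h _ hnotcyc
    -- the central involution
    set w : ℕ := 2 ^ (a - 1) * m with hw
    have hw2 : 2 * w = n := by
      rw [hw, hn']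
      obtain ⟨a', rfl⟩ : ∃ a', a = a' + 1 := ⟨a - 1, by omega⟩
      simp only [Nat.add_sub_cancel]
      ring
    have h2w : (2 : ZMod n) * (w : ZMod n) = 0 := by
      have h6 : ((2 * w : ℕ) : ZMod n) = 0 := by rw [hw2]; exact ZMod.natCast_self n
      push_cast at h6
      exact h6
    have hcent : (r (w : ZMod n) : DihedralGroup n) ∈ Subgroup.centralizer ((Lib.DihSub.Hd (2 ^ a) hd : Subgroup (DihedralGroup n)) : Set (DihedralGroup n)) := by
      rw [Subgroup.mem_centralizer_iff]
      rintro (b | b) -
      · rw [r_mul_r, r_mul_r, add_comm]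
      · rw [sr_mul_r, r_mul_sr, sr.injEq]
        linear_combination h2w
    have hmem := hC hcent
    rw [Lib.DihSub.mem_Hd_r, map_natCast, ZMod.natCast_eq_zero_iff] at hmem
    obtain ⟨t, ht⟩ := hmem
    obtain ⟨a', rfl⟩ : ∃ a', a = a' + 1 := ⟨a - 1, by omega⟩
    rw [hw] at ht
    simp only [Nat.add_sub_cancel] at ht
    have h7 : m = 2 * t := by
      have : 2 ^ a' * m = 2 ^ a' * (2 * t) := by rw [ht]; ring
      exact Nat.eq_of_mul_eq_mul_left (by positivity) this
    obtain ⟨l, hl⟩ := hm
    omega
  · rintro (hodd | ⟨k, rfl⟩) H hH z hz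
    · obtain ⟨c, hc⟩ := Lib.DihSub.exists_sr_of_not_cyclic H hH
      obtain ⟨m, hm⟩ := hodd
      have h2 : ((m + 1 : ℕ) : ZMod n) * 2 = 1 := by
        have h3 : ((2 * m + 1 : ℕ) : ZMod n) = 0 := by
          rw [← hm]; exact ZMod.natCast_self n
        push_cast at h3 ⊢
        linear_combination h3
      have hzero : ∀ e : ZMod n, 2 * e = 0 → e = 0 := by
        intro e he
        have : e = ((m + 1 : ℕ) : ZMod n) * (2 * e) := by rw [← mul_assoc, h2, one_mul]
        rw [this, he, mul_zero]
      rcases hcen H c hc z hz with ⟨e, rfl, he⟩ | ⟨b, rfl, hb⟩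
      · rw [hzero e he]
        exact H.one_mem
      · have h5 := hzero _ hb
        have h6 : b = c := by linear_combination -h5
        rw [h6]
        exact hc
    · -- `n = 2 ^ k`
      have hk1 : 1 ≤ k := by
        rcases k with _ | k
        · simp at hn
        · omega
      haveI : NeZero (2 ^ k) := ⟨by positivity⟩
      obtain ⟨c, hc⟩ := Lib.DihSub.exists_sr_of_not_cyclic H hH
      have hzz : ((2 ^ k : ℕ) : ZMod (2 ^ k)) = 0 := ZMod.natCast_self _
      set q : ZMod (2 ^ k) := ((2 ^ (k - 1) : ℕ) : ZMod (2 ^ k)) with hq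
      obtain ⟨t, ht0, htH⟩ : ∃ t : ZMod (2 ^ k), t ≠ 0 ∧ r t ∈ H := by
        by_contra hcon
        push Not at hcon
        apply hH
        refine ⟨⟨⟨sr c, hc⟩, fun x => ?_⟩⟩
        obtain ⟨x, hx⟩ := x
        rcases x with t | b
        · have ht : t = 0 := by
            by_contra hne
            exact hcon t hne hx
          subst ht
          exact ⟨0, rfl⟩
        · have h1 := H.mul_mem hx hc
          rw [sr_mul_sr] at h1
          have h2 : c - b = 0 := by
            by_contra hne
            exact hcon _ hne h1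
          have h3 : b = c := by linear_combination -h2
          subst h3
          refine ⟨1, ?_⟩
          apply Subtype.ext
          simp
      have hqH : r q ∈ H := by
        set T := t.val with hT
        have hTt : (T : ZMod (2 ^ k)) = t := ZMod.natCast_zmod_val t
        have hT0 : T ≠ 0 := by
          intro h0
          apply ht0
          rw [← hTt, h0, Nat.cast_zero]
        have hTlt : T < 2 ^ k := ZMod.val_lt t
        obtain ⟨u, w, hw, hTw⟩ := Nat.exists_eq_two_pow_mul_odd hT0
        have huk : u < k := by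
          have h1 : 2 ^ u ≤ T := by
            rw [hTw]
            exact Nat.le_mul_of_pos_right _ hw.pos
          exact (Nat.pow_lt_pow_iff_right (by norm_num : 1 < 2)).mp (lt_of_le_of_lt h1 hTlt)
        have h2 := H.pow_mem htH (2 ^ (k - 1 - u))
        rw [Lib.DihSub.r_pow'] at h2
        have h3 : ((2 ^ (k - 1 - u) : ℕ) : ZMod (2 ^ k)) * t = q := by
          rw [← hTt, hTw, ← Nat.cast_mul, hq]
          obtain ⟨l, hl⟩ := hw
          have h4 : 2 ^ (k - 1 - u) * (2 ^ u * w) = 2 ^ k * l + 2 ^ (k - 1) := by
            have h5 : 2 ^ (k - 1 - u) * 2 ^ u = 2 ^ (k - 1) := by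
              rw [← pow_add]; congr 1; omega
            have h6 : 2 ^ k = 2 ^ (k - 1) * 2 := by
              rw [← pow_succ]; congr 1; omega
            rw [← mul_assoc, h5, hl, h6]
            ring
          rw [h4, Nat.cast_add, Nat.cast_mul, hzz, zero_mul, zero_add]
        rwa [h3] at h2
      have htwo : ∀ e : ZMod (2 ^ k), 2 * e = 0 → e = 0 ∨ e = q := by
        intro e he
        set E := e.val with hE
        have hEe : (E : ZMod (2 ^ k)) = e := ZMod.natCast_zmod_val e
        have hElt : E < 2 ^ k := ZMod.val_lt e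
        have h1 : ((2 * E : ℕ) : ZMod (2 ^ k)) = 0 := by
          push_cast
          rw [hEe, he]
        rw [ZMod.natCast_eq_zero_iff] at h1
        have h6 : 2 ^ k = 2 * 2 ^ (k - 1) := by
          rw [← pow_succ']; congr 1; omega
        rw [h6] at h1
        have h2 : 2 ^ (k - 1) ∣ E := Nat.dvd_of_mul_dvd_mul_left (by norm_num) h1
        obtain ⟨s, hs⟩ := h2
        have hs2 : s < 2 := by
          by_contra h7
          have h8 : 2 * 2 ^ (k - 1) ≤ s * 2 ^ (k - 1) := Nat.mul_le_mul_right _ (by omega)
          rw [hs, mul_comm (2 ^ (k - 1)) s] at hElt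
          omega
        interval_cases s
        · left
          rw [← hEe, hs, mul_zero, Nat.cast_zero]
        · right
          rw [← hEe, hs, mul_one]
      rcases hcen H c hc z hz with ⟨e, rfl, he⟩ | ⟨b, rfl, hb⟩
      · rcases htwo e he with rfl | rfl
        · exact H.one_mem
        · exact hqH
      · rcases htwo _ hb with h5 | h5
        · have h6 : b = c := by linear_combination -h5
          rw [h6]
          exact hc
        · have h6 : b = c + -q := by linear_combination -h5
          rw [h6, ← sr_mul_r]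
          rw [← inv_r]
          exact H.mul_mem hc (H.inv_mem hqH)

end Cfsg.Agent.S3920
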