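import Cfsg.Statements.S3937
import Cfsg.Agent.Lib.H1Zip
import Cfsg.Agent.Lib.FGSBasic
import Cfsg.Agent.Lib.H1Conj
import Cfsg.Agent.Lib.H1Core
-- import your own Cfsg.Agent.* helpers here

set_option autoImplicit false
open Cfsg

namespace Cfsg.Agent.S3937

open Subgroup
open scoped Pointwise commutatorElement

/-- Iterated commutator. -/
def eng {G : Type*} [Group G] (g x : G) (n : ℕ) : G :=
  (List.replicate n g).foldl (fun a b => a * b * a⁻¹ * b⁻¹) x

theorem eng_zero {G : Type*} [Group G] (g x : G) : eng g x 0 = x := rfl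

theorem eng_succ {G : Type*} [Group G] (g x : G) (n : ℕ) :
    eng g x (n + 1) = eng g x n * g * (eng g x n)⁻¹ * g⁻¹ := by
  simp [eng, List.replicate_succ', List.foldl_append]

theorem eng_map {G H : Type*} [Group G] [Group H] (φ : G →* H) (g x : G) (n : ℕ) :
    φ (eng g x n) = eng (φ g) (φ x) n := by
  induction n with
  | zero => rfl
  | succ n ih =>
    rw [eng_succ, eng_succ, ← ih]
    simp only [map_mul, map_inv]

theorem zpowers_conj {G : Type*} [Group G] (u g : G) :
    MulAut.conj u • zpowers g = zpowers (u * g * u⁻¹) := by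
  ext y
  rw [Cfsg.Agent.Lib.FGSBasic.mem_conj_smul_iff, mem_zpowers_iff, mem_zpowers_iff]
  constructor
  · rintro ⟨k, hk⟩
    refine ⟨k, ?_⟩
    have h1 := map_zpow (MulAut.conj u).toMonoidHom g k
    have h2 : (MulAut.conj u).toMonoidHom g = u * g * u⁻¹ := rfl
    have h3 : (MulAut.conj u).toMonoidHom (g ^ k) = u * g ^ k * u⁻¹ := rfl
    rw [h2, h3] at h1
    rw [← h1, hk]; group
  · rintro ⟨k, hk⟩
    refine ⟨k, ?_⟩
    have h1 := map_zpow (MulAut.conj u).toMonoidHom g k
    have h2 : (MulAut.conj u).toMonoidHom g = u * g * u⁻¹ := rfl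
    have h3 : (MulAut.conj u).toMonoidHom (g ^ k) = u * g ^ k * u⁻¹ := rfl
    rw [h2, h3, hk] at h1
    rw [← h1]; group

universe u

theorem engel_sn_aux (n : ℕ) : ∀ (G : Type u) [Group G] [Finite G], Nat.card G = n → ∀ g : G,
    (∀ x : G, ∃ k : ℕ, eng g x k = 1) → (zpowers g).IsSubnormal := by
  classical
  induction n using Nat.strong_induction_on with
  | _ n ih =>
    intro G _ _ hn g hE
    set A := zpowers g with hA
    by_contra hAs
    have hEconj : ∀ u : G, ∀ x : G, ∃ k : ℕ, eng (u * g * u⁻¹) x k = 1 := by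
      intro u x
      obtain ⟨k, hk⟩ := hE (u⁻¹ * x * u)
      refine ⟨k, ?_⟩
      have h1 := eng_map (MulAut.conj u).toMonoidHom g (u⁻¹ * x * u) k
      have h2 : (MulAut.conj u).toMonoidHom g = u * g * u⁻¹ := rfl
      have h3 : (MulAut.conj u).toMonoidHom (u⁻¹ * x * u) = x := by
        show u * (u⁻¹ * x * u) * u⁻¹ = x
        group
      rw [h2, h3, hk, map_one] at h1
      exact h1.symm
    have hsnH : ∀ H : Subgroup G, H ≠ ⊤ → ∀ y ∈ H, (∀ x : G, ∃ k : ℕ, eng y x k = 1) →
        ((zpowers y).subgroupOf H).IsSubnormal := by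
      intro H hH y hy hEy
      have hlt : Nat.card H < n := by
        rw [← hn]
        exact lt_of_le_of_ne (Subgroup.card_le_card_group H)
          (fun h => hH ((Subgroup.card_eq_iff_eq_top H).mp h))
      have h1 := ih _ hlt H rfl ⟨y, hy⟩ (by
        intro v
        obtain ⟨k, hk⟩ := hEy v
        refine ⟨k, Subtype.ext ?_⟩
        have h2 := eng_map H.subtype ⟨y, hy⟩ v k
        simp only [coe_subtype] at h2
        rw [h2, hk]
        rfl)
      have h3 : (zpowers y).subgroupOf H = zpowers (⟨y, hy⟩ : H) := by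
        ext v
        rw [mem_subgroupOf, mem_zpowers_iff, mem_zpowers_iff]
        constructor
        · rintro ⟨k, hk⟩
          exact ⟨k, Subtype.ext (by push_cast; exact hk)⟩
        · rintro ⟨k, hk⟩
          exact ⟨k, by rw [← hk]; push_cast; rfl⟩
      rw [h3]
      exact h1
    have hsnA : ∀ V : Subgroup G, A ≤ V → V ≠ ⊤ → (A.subgroupOf V).IsSubnormal := by
      intro V hV hV2
      exact hsnH V hV2 g (hV (mem_zpowers g)) hE
    have hAne : A ≠ ⊤ := by
      intro h
      apply hAs
      rw [h]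
      exact IsSubnormal.top
    let U : Set (Subgroup G) := {V | A ≤ V ∧ V ≠ ⊤}
    let S : Subgroup G → Set (Subgroup G) := fun V =>
      {B | (∃ u : G, B = MulAut.conj u • A) ∧ B ≤ V ∧ (B.subgroupOf V).IsSubnormal}
    obtain ⟨M, ⟨hAM, hMne⟩, hMmax⟩ := Cfsg.Agent.Lib.H1Zip.zipper A U ⟨A, le_rfl, hAne⟩ S (fun _ _ => Iff.rfl)
      (by
        intro V hV
        refine ⟨⟨1, by simp⟩, hV.1, hsnA V hV.1 hV.2⟩)
      (by
        intro V hV W _ B hB hBV
        obtain ⟨⟨u, rfl⟩, -, -⟩ := hB
        refine ⟨⟨u, rfl⟩, hBV, ?_⟩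
        rw [hA, zpowers_conj] at hBV ⊢
        exact hsnH V hV.2 _ (hBV (mem_zpowers _)) (hEconj u))
      (by
        intro V hV W hW
        set T : Subgroup G := sSup (S V ∩ S W) with hT
        have hAS : A ∈ S V ∩ S W :=
          ⟨⟨⟨1, by simp⟩, hV.1, hsnA V hV.1 hV.2⟩, ⟨⟨1, by simp⟩, hW.1, hsnA W hW.1 hW.2⟩⟩
        have hAT : A ≤ T := le_sSup hAS
        have hTV : T ≤ V := sSup_le (fun B hB => hB.1.2.1)
        have hTne : T ≠ ⊤ := by
          intro h
          rw [h] at hTV
          exact hV.2 (top_le_iff.mp hTV)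
        refine ⟨normalizer (T : Set G), ⟨hAT.trans le_normalizer, ?_⟩, le_rfl⟩
        intro hnt
        apply hAs
        have hTn : T.Normal := normalizer_eq_top_iff.mp hnt
        exact IsSubnormal.trans hAT (hsnA T hAT hTne) hTn.isSubnormal)
    have hMnot : ¬ M.Normal := by
      intro hMn
      apply hAs
      exact IsSubnormal.trans hAM (hsnA M hAM hMne) hMn.isSubnormal
    have hNM : normalizer (M : Set G) ≤ M := by
      apply hMmax
      refine ⟨hAM.trans le_normalizer, ?_⟩
      intro h
      exact hMnot (normalizer_eq_top_iff.mp h)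
    obtain ⟨v, hv⟩ : ∃ v, v ∉ M := by
      by_contra hall
      push Not at hall
      exact hMne (eq_top_iff.mpr fun x _ => hall x)
    obtain ⟨k, hk⟩ := hE v
    have hex : ∃ i, eng g v i ∈ M := ⟨k, by rw [hk]; exact M.one_mem⟩
    have hfind := Nat.find_spec hex
    have hmin := fun m => Nat.find_min hex (m := m)
    cases hi : Nat.find hex with
    | zero =>
      rw [hi] at hfind
      exact hv hfind
    | succ j =>
      rw [hi] at hfind
      have hj : eng g v j ∉ M := hmin j (by omega)
      set w := eng g v j with hw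
      rw [eng_succ, ← hw] at hfind
      have hgM : g ∈ M := hAM (mem_zpowers g)
      have hconj : w * g * w⁻¹ ∈ M := by
        have := M.mul_mem hfind hgM
        simpa using this
      have hVA : A ≤ MulAut.conj w⁻¹ • M := by
        rw [hA, zpowers_le, Cfsg.Agent.Lib.FGSBasic.mem_conj_smul_iff]
        simpa using hconj
      have hcard : Nat.card (MulAut.conj w⁻¹ • M : Subgroup G) = Nat.card M :=
        Cfsg.Agent.Lib.H1Conj.card_conj_smul w⁻¹ M
      have hVne : MulAut.conj w⁻¹ • M ≠ ⊤ := by
        intro h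
        rw [h, Subgroup.card_top] at hcard
        exact hMne ((Subgroup.card_eq_iff_eq_top M).mp hcard.symm)
      have hle := hMmax _ ⟨hVA, hVne⟩
      have heq : MulAut.conj w⁻¹ • M = M := Subgroup.eq_of_le_of_card_ge hle hcard.ge
      have hN : w⁻¹ ∈ normalizer (M : Set G) :=
        Cfsg.Agent.Lib.H1Conj.mem_normalizer_of_conj_smul_eq heq
      exact hj (by simpa using M.inv_mem (hNM hN))

/-- Baer's characterization of the Fitting subgroup: in a finite group G, an element g lies in the Fitting subgroup if and only if g is a left Engel element, that is, for every x there is n with [x, g, g, …, g] = 1 (n entries g, [a, b] = aba⁻¹b⁻¹). -/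
theorem result {G : Type*} [Group G] [Finite G] (g : G) :
    g ∈ Cfsg.fittingSubgroup G ↔ ∀ x : G, ∃ n : ℕ, (List.replicate n g).foldl (fun a b => a * b * a⁻¹ * b⁻¹) x = 1 := by
  classical
  constructor
  · intro hg x
    haveI := Cfsg.Agent.Lib.H1Core.fittingSubgroup_isNilpotent (G := G)
    set F := Cfsg.fittingSubgroup G with hF
    haveI hFn : F.Normal := Cfsg.Agent.Lib.H1Core.fittingSubgroup_normal G
    have h1 : eng g x 1 ∈ F := by
      rw [eng_succ, eng_zero]
      exact F.mul_mem (hFn.conj_mem g hg x) (F.inv_mem hg)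
    have hkey : ∀ i : ℕ, ∃ h : eng g x (i + 1) ∈ F,
        (⟨eng g x (i + 1), h⟩ : F) ∈ (⊤ : Subgroup F).lowerCentralSeries i := by
      intro i
      induction i with
      | zero => exact ⟨h1, by simp⟩
      | succ i ih =>
        obtain ⟨h2, h3⟩ := ih
        have h4 : eng g x (i + 1 + 1) ∈ F := by
          rw [eng_succ]
          exact F.mul_mem (hFn.conj_mem g hg _) (F.inv_mem hg)
        refine ⟨h4, ?_⟩
        rw [Subgroup.mem_lowerCentralSeries_succ_iff]
        apply Subgroup.subset_closure
        refine ⟨_, h3, ⟨g, hg⟩, mem_top _, ?_⟩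
        apply Subtype.ext
        rw [commutatorElement_def]
        push_cast
        rw [eng_succ (n := i + 1)]
    obtain ⟨c, hc⟩ := _root_.nilpotent_iff_lowerCentralSeries.mp (inferInstance : Group.IsNilpotent F)
    obtain ⟨h2, h3⟩ := hkey c
    rw [hc] at h3
    refine ⟨c + 1, ?_⟩
    have := congrArg Subtype.val (mem_bot.mp h3)
    exact this
  · intro hE
    have hsn := engel_sn_aux _ G rfl g hE
    have hnil : Group.IsNilpotent (zpowers g) := by
      letI : CommGroup (zpowers g) := IsCyclic.commGroup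
      infer_instance
    have := Cfsg.Agent.Lib.Comp.nilp_subnormal_le_fitting hsn hnil
    exact this (mem_zpowers g)

end Cfsg.Agent.S3937
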