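import Cfsg.Statements.S3941
import Mathlib
import Cfsg.Agent.Lib.FGSBasic
-- import your own Cfsg.Agent.* helpers here

set_option autoImplicit false
open Cfsg

namespace Cfsg.Agent.S3941

open Equiv
theorem swap_id1 {α : Type*} [DecidableEq α] (a b e f : α) (hab : a ≠ b) (hae : a ≠ e) (haf : a ≠ f)
    (hbe : b ≠ e) (hbf : b ≠ f) (hef : e ≠ f) :
    swap b e * swap e f * (swap b e * swap a b) = swap f a * swap f b := by
  ext x
  simp only [Perm.mul_apply, swap_apply_def]
  by_cases h1 : x = a <;> by_cases h2 : x = b <;> by_cases h3 : x = e <;> by_cases h4 : x = f <;> simp_all [eq_comm]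

theorem swap_id2 {α : Type*} [DecidableEq α] (a b e f : α) (hab : a ≠ b) (hae : a ≠ e) (haf : a ≠ f)
    (hbe : b ≠ e) (hbf : b ≠ f) (hef : e ≠ f) :
    swap b e * swap e f * (swap b f * swap a b) = swap a b * swap e f := by
  ext x
  simp only [Perm.mul_apply, swap_apply_def]
  by_cases h1 : x = a <;> by_cases h2 : x = b <;> by_cases h3 : x = e <;> by_cases h4 : x = f <;> simp_all [eq_comm]

theorem core (n p q : ℕ) [hpf : Fact p.Prime] (hp : p ≠ 2) (hq : q.Coprime p) (ℓ : Fin n) (c τ ρ : Equiv.Perm (Fin n))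
    (hcp : c ^ p = 1) (hc1 : c ≠ 1) (hcℓ : c ℓ = ℓ) (hτ : Equiv.Perm.sign τ = 1) (hτℓ : τ ℓ = ℓ)
    (hρ : Equiv.Perm.sign ρ = 1) (hρℓ : ρ ℓ ≠ ℓ)
    (hwq : (c * τ * c⁻¹ * τ⁻¹) ^ q = 1) (hw1 : c * τ * c⁻¹ * τ⁻¹ ≠ 1)
    (h : ∀ H : Subgroup ↥(alternatingGroup (Fin n)), H ≠ ⊤ → p ∣ Nat.card ↥H → Cfsg.IsPClosed p ↥H) : False := by
  classical
  have hpodd : Odd p := hpf.out.odd_of_ne_two hp
  have hcs : Perm.sign c = 1 := by
    have h1 : (Perm.sign c) ^ p = 1 := by rw [← map_pow, hcp, map_one]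
    rcases Int.units_eq_one_or (Perm.sign c) with h2 | h2
    · exact h2
    · rw [h2, hpodd.neg_one_pow] at h1
      exact absurd h1 (by decide)
  set H : Subgroup (alternatingGroup (Fin n)) := (MulAction.stabilizer (Equiv.Perm (Fin n)) ℓ).subgroupOf _ with hH
  have hmem : ∀ g : alternatingGroup (Fin n), g ∈ H ↔ (g : Perm (Fin n)) ℓ = ℓ := by
    intro g
    rw [hH, Subgroup.mem_subgroupOf, MulAction.mem_stabilizer_iff]
    rfl
  have hHne : H ≠ ⊤ := by
    intro htop
    have h1 : (⟨ρ, hρ⟩ : alternatingGroup (Fin n)) ∈ H := by rw [htop]; trivial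
    exact hρℓ ((hmem _).mp h1)
  set c' : alternatingGroup (Fin n) := ⟨c, hcs⟩ with hc'
  set τ' : alternatingGroup (Fin n) := ⟨τ, hτ⟩ with hτ'
  have hc'H : c' ∈ H := (hmem _).mpr hcℓ
  have hτ'H : τ' ∈ H := (hmem _).mpr hτℓ
  set c2 : H := ⟨c', hc'H⟩ with hc2
  set τ2 : H := ⟨τ', hτ'H⟩ with hτ2
  have hcoe : ∀ x : H, (((x : alternatingGroup (Fin n))) : Perm (Fin n)) = 1 → x = 1 := by
    intro x hx
    apply Subtype.ext
    apply Subtype.ext
    exact hx
  have hc2p : c2 ^ p = 1 := by
    apply hcoe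
    simpa [hc2, hc'] using hcp
  have hc2ne : c2 ≠ 1 := by
    intro h1
    apply hc1
    have := congrArg (fun x : H => ((x : alternatingGroup (Fin n)) : Perm (Fin n))) h1
    simpa [hc2, hc'] using this
  have hc2o : orderOf c2 = p := orderOf_eq_prime hc2p hc2ne
  have hpH : p ∣ Nat.card H := by
    rw [← hc2o]; exact orderOf_dvd_natCard _
  obtain ⟨P⟩ : Nonempty (Sylow p H) := inferInstance
  have hPn : (P : Subgroup H).Normal := h H hHne hpH P
  have hcP : c2 ∈ (P : Subgroup H) := Lib.FGSBasic.mem_sylow_of_normal P hPn ⟨1, by rw [pow_one]; exact hc2o⟩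
  have hcP2 : τ2 * c2⁻¹ * τ2⁻¹ ∈ (P : Subgroup H) := hPn.conj_mem _ (Subgroup.inv_mem _ hcP) _
  have hwP : c2 * τ2 * c2⁻¹ * τ2⁻¹ ∈ (P : Subgroup H) := by
    have h2 := Subgroup.mul_mem _ hcP hcP2
    convert h2 using 1
    group
  obtain ⟨k, hk⟩ := P.isPGroup' ⟨_, hwP⟩
  have hk' : (c2 * τ2 * c2⁻¹ * τ2⁻¹) ^ (p ^ k) = 1 := congrArg Subtype.val hk
  have hwq' : (c2 * τ2 * c2⁻¹ * τ2⁻¹) ^ q = 1 := by
    apply hcoe
    simpa [hc2, hc', hτ2, hτ'] using hwq
  have hgcd := Nat.dvd_gcd (orderOf_dvd_of_pow_eq_one hk') (orderOf_dvd_of_pow_eq_one hwq')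
  have hcop : Nat.gcd (p ^ k) q = 1 := (Nat.Coprime.pow_left k hq.symm)
  rw [hcop, Nat.dvd_one, orderOf_eq_one_iff] at hgcd
  apply hw1
  have := congrArg (fun x : H => ((x : alternatingGroup (Fin n)) : Perm (Fin n))) hgcd
  simpa [hc2, hc', hτ2, hτ'] using this
theorem conj_two {α : Type*} [DecidableEq α] (c : Perm α) (x y z : α) :
    c * (swap x y * swap y z) * c⁻¹ = swap (c x) (c y) * swap (c y) (c z) := by
  rw [swap_apply_apply, swap_apply_apply]; group

theorem inv_two {α : Type*} [DecidableEq α] (x y z : α) :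
    (swap x y * swap y z)⁻¹ = swap y z * swap x y := by
  rw [mul_inv_rev, swap_inv, swap_inv]

/-- Let n ≥ 5 and p an odd prime with p ≤ n, and suppose that every proper subgroup of the alternating group of degree n whose order is divisible by p has a normal Sylow p-subgroup. Then n = p. -/
theorem result (n p : ℕ) (hn : 5 ≤ n) [Fact p.Prime] (hp : p ≠ 2) (hpn : p ≤ n)
    (h : ∀ H : Subgroup ↥(alternatingGroup (Fin n)), H ≠ ⊤ → p ∣ Nat.card ↥H → Cfsg.IsPClosed p ↥H) : n = p := by
  classical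
  by_contra hne
  have hlt : p < n := lt_of_le_of_ne hpn (fun h => hne h.symm)
  have hp1 := (Fact.out : p.Prime).two_le
  have hp3 : 3 ≤ p := by omega
  have hn3 : 3 < n := by omega
  set ℓ : Fin n := ⟨n - 1, by omega⟩ with hℓ
  set a : Fin n := ⟨0, by omega⟩ with ha
  set b : Fin n := ⟨1, by omega⟩ with hb
  set e : Fin n := ⟨2, by omega⟩ with he
  set f : Fin n := ⟨3, by omega⟩ with hf
  have hab : a ≠ b := by simp [ha, hb, Fin.ext_iff]
  have hae : a ≠ e := by simp [ha, he, Fin.ext_iff]
  have haf : a ≠ f := by simp [ha, hf, Fin.ext_iff]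
  have hbe : b ≠ e := by simp [hb, he, Fin.ext_iff]
  have hbf : b ≠ f := by simp [hb, hf, Fin.ext_iff]
  have hef : e ≠ f := by simp [he, hf, Fin.ext_iff]
  have hla : ℓ ≠ a := by simp [hℓ, ha, Fin.ext_iff]; omega
  have hlb : ℓ ≠ b := by simp [hℓ, hb, Fin.ext_iff]; omega
  have hle : ℓ ≠ e := by simp [hℓ, he, Fin.ext_iff]; omega
  have hlf : ℓ ≠ f := by simp [hℓ, hf, Fin.ext_iff]; omega
  set ρ : Perm (Fin n) := swap ℓ a * swap a b with hρ
  have hρs : Perm.sign ρ = 1 := by
    rw [hρ, map_mul, Perm.sign_swap hla, Perm.sign_swap hab]; rfl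
  have hρℓ : ρ ℓ ≠ ℓ := by
    simp only [hρ, Perm.mul_apply]
    rw [swap_apply_of_ne_of_ne hla hlb, swap_apply_left]
    exact hla.symm
  rcases eq_or_ne p 3 with rfl | hp3'
  · -- p = 3
    set c : Perm (Fin n) := swap b a * swap b e with hc
    set τ : Perm (Fin n) := swap a b * swap b f with hτ
    have hc3 : Perm.IsThreeCycle c := Perm.isThreeCycle_swap_mul_swap_same hab.symm hbe hae
    have hca : c a = b := by
      simp only [hc, Perm.mul_apply]
      rw [swap_apply_of_ne_of_ne hab hae, swap_apply_right]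
    have hcb : c b = e := by
      simp only [hc, Perm.mul_apply]
      rw [swap_apply_left, swap_apply_of_ne_of_ne hbe.symm hae.symm]
    have hcf : c f = f := by
      simp only [hc, Perm.mul_apply]
      rw [swap_apply_of_ne_of_ne hbf.symm hef.symm, swap_apply_of_ne_of_ne hbf.symm haf.symm]
    have hcl : c ℓ = ℓ := by
      simp only [hc, Perm.mul_apply]
      rw [swap_apply_of_ne_of_ne hlb hle, swap_apply_of_ne_of_ne hlb hla]
    have hτl : τ ℓ = ℓ := by
      simp only [hτ, Perm.mul_apply]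
      rw [swap_apply_of_ne_of_ne hlb hlf, swap_apply_of_ne_of_ne hla hlb]
    have hτs : Perm.sign τ = 1 := by
      rw [hτ, map_mul, Perm.sign_swap hab, Perm.sign_swap hbf]; rfl
    have hw : c * τ * c⁻¹ * τ⁻¹ = swap a b * swap e f := by
      rw [hτ, conj_two, inv_two, hca, hcb, hcf]
      exact swap_id2 a b e f hab hae haf hbe hbf hef
    have hcp : c ^ 3 = 1 := by
      rw [← hc3.orderOf, pow_orderOf_eq_one]
    have hc1 : c ≠ 1 := by
      intro h1
      have := hc3.orderOf
      rw [h1, orderOf_one] at this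
      omega
    refine core n 3 2 hp (by decide) ℓ c τ ρ hcp hc1 hcl hτs hτl hρs hρℓ ?_ ?_ h
    · rw [hw, pow_two]
      have h2 : swap a b * swap e f = swap e f * swap a b :=
        (Equiv.Perm.disjoint_iff_eq_or_eq.mpr (by
          intro x
          by_cases h1 : x = a
          · right; rw [h1]; exact swap_apply_of_ne_of_ne hae haf
          · by_cases h3 : x = b
            · right; rw [h3]; exact swap_apply_of_ne_of_ne hbe hbf
            · left; exact swap_apply_of_ne_of_ne h1 h3)).commute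
      calc swap a b * swap e f * (swap a b * swap e f) = swap a b * (swap e f * swap a b) * swap e f := by group
        _ = swap a b * (swap a b * swap e f) * swap e f := by rw [← h2]
        _ = (swap a b * swap a b) * (swap e f * swap e f) := by group
        _ = 1 := by rw [swap_mul_self, swap_mul_self, one_mul]
    · rw [hw]
      intro h1
      have h2 := congrArg (fun g : Perm (Fin n) => g a) h1
      simp only [Perm.mul_apply, Perm.one_apply] at h2
      rw [swap_apply_of_ne_of_ne hae haf, swap_apply_left] at h2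
      exact hab h2.symm
  · -- p ≥ 5
    have hp5 : 5 ≤ p := by
      by_contra hlt5
      have h4 : p = 4 := by omega
      subst h4
      exact absurd (Fact.out : Nat.Prime 4) (by decide)
    obtain ⟨k, rfl⟩ : ∃ k, p = k + 2 := ⟨p - 2, by omega⟩
    set ι : Fin (k + 2) ↪ Fin n := Fin.castLEEmb hlt.le with hι
    set c : Perm (Fin n) := (finRotate (k + 2)).viaEmbedding ι with hc
    set τ : Perm (Fin n) := swap a b * swap b e with hτ
    have hca : c a = b := by
      have : a = ι ⟨0, by omega⟩ := rfl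
      rw [this, hc, Perm.viaEmbedding_apply]
      rw [finRotate_of_lt (by omega)]
      rfl
    have hcb : c b = e := by
      have : b = ι ⟨1, by omega⟩ := rfl
      rw [this, hc, Perm.viaEmbedding_apply]
      rw [finRotate_of_lt (by omega)]
      rfl
    have hce : c e = f := by
      have : e = ι ⟨2, by omega⟩ := rfl
      rw [this, hc, Perm.viaEmbedding_apply]
      rw [finRotate_of_lt (by omega)]
      rfl
    have hcl : c ℓ = ℓ := by
      rw [hc]
      apply Perm.viaEmbedding_apply_of_notMem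
      rintro ⟨x, hx⟩
      have h1 := congrArg Fin.val hx
      have h2 : (ι x : ℕ) = x := rfl
      rw [h2] at h1
      have h3 := x.2
      simp only [hℓ] at h1
      omega
    have hτl : τ ℓ = ℓ := by
      simp only [hτ, Perm.mul_apply]
      rw [swap_apply_of_ne_of_ne hlb hle, swap_apply_of_ne_of_ne hla hlb]
    have hτs : Perm.sign τ = 1 := by
      rw [hτ, map_mul, Perm.sign_swap hab, Perm.sign_swap hbe]; rfl
    have hw : c * τ * c⁻¹ * τ⁻¹ = swap f a * swap f b := by
      rw [hτ, conj_two, inv_two, hca, hcb, hce]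
      exact swap_id1 a b e f hab hae haf hbe hbf hef
    have hw3 : Perm.IsThreeCycle (swap f a * swap f b) :=
      Perm.isThreeCycle_swap_mul_swap_same haf.symm hbf.symm hab
    have hcp : c ^ (k + 2) = 1 := by
      have h1 : orderOf (finRotate (k + 2)) = k + 2 := by
        rw [(isCycle_finRotate (n := k)).orderOf, support_finRotate]
        simp
      have h2 : (finRotate (k + 2)) ^ (k + 2) = 1 := by
        have := pow_orderOf_eq_one (finRotate (k + 2))
        rwa [h1] at this
      have h3 := congrArg (Perm.viaEmbeddingHom ι) h2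
      rw [map_pow, map_one] at h3
      exact h3
    have hc1 : c ≠ 1 := by
      intro h1
      rw [h1] at hca
      exact hab hca
    refine core n (k + 2) 3 hp (?_) ℓ c τ ρ hcp hc1 hcl hτs hτl hρs hρℓ ?_ ?_ h
    · have hpr : Nat.Prime (k + 2) := Fact.out
      refine (Nat.Prime.coprime_iff_not_dvd (by norm_num)).mpr ?_
      intro hd
      have := (Nat.prime_dvd_prime_iff_eq (by norm_num) hpr).mp hd
      omega
    · rw [hw, ← hw3.orderOf, pow_orderOf_eq_one]
    · rw [hw]
      intro h1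
      have := hw3.orderOf
      rw [h1, orderOf_one] at this
      omega

end Cfsg.Agent.S3941
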