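import Cfsg.Statements.S3946
import Cfsg.Agent.Lib.Kegel
-- import your own Cfsg.Agent.* helpers here

set_option autoImplicit false
open Cfsg

namespace Cfsg.Agent.S3946

open Subgroup

/-- The semidirect product with the cyclic group generated by `α`. -/
abbrev SD {G : Type*} [Group G] (α : MulAut G) : Type _ := G ⋊[(zpowers α).subtype] (zpowers α)

theorem pow_formula {G : Type*} [Group G] (α : MulAut G) (n : G) (a : zpowers α) (k : ℕ) :
    ((⟨n, a⟩ : SD α) ^ k) = ⟨((List.range k).map (fun i : ℕ => (((a : MulAut G)) ^ i) n)).prod, a ^ k⟩ := by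
  induction k with
  | zero =>
    rw [pow_zero, pow_zero]
    simp only [List.range_zero, List.map_nil, List.prod_nil]
    rfl
  | succ k ih =>
    rw [pow_succ, ih, List.range_succ, List.map_append, List.prod_append]
    simp only [List.map_cons, List.map_nil, List.prod_cons, List.prod_nil, mul_one]
    apply SemidirectProduct.ext
    · show _ * (((a ^ k : zpowers α) : MulAut G) n) = _
      rw [Subgroup.coe_pow]
    · show a ^ k * a = a ^ (k + 1)
      rw [pow_succ]

/-- Call an automorphism α of order n of a group G splitting when x · α(x) · α²(x) ⋯ α^(n−1)(x) = 1 for every x ∈ G. A finite group admitting a splitting automorphism of prime order is nilpotent (this contains the case of a fixed-point-free automorphism of prime order). -/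
theorem result {G : Type*} [Group G] [Finite G] (α : MulAut G) (hp : (orderOf α).Prime)
    (hsplit : ∀ x : G, (((List.range (orderOf α)).map (fun i : ℕ => (α ^ i) x)).prod = 1)) : Group.IsNilpotent G := by
  classical
  set p := orderOf α with hpdef
  haveI : Fact p.Prime := ⟨hp⟩
  haveI : Finite (zpowers α) := by
    haveI : Finite (MulAut G) := inferInstance
    infer_instance
  set αz : zpowers α := ⟨α, mem_zpowers α⟩ with hαz
  have hαp : αz ^ p = 1 := by
    apply Subtype.ext
    simp [αz, hpdef, pow_orderOf_eq_one]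
  -- elements of the coset of `α`
  have hcos : ∀ n : G, (⟨n, αz⟩ : SD α) ^ p = 1 := by
    intro n
    rw [pow_formula, hαp]
    have := hsplit n
    apply SemidirectProduct.ext
    · exact this
    · rfl
  -- the other cosets
  have hother : ∀ (i : ℕ), (i.Coprime p) → ∀ m : G, (⟨m, αz ^ i⟩ : SD α) ^ p = 1 := by
    intro i hi m
    obtain ⟨i', hi'⟩ : ∃ i' : ℕ, i * i' ≡ 1 [MOD p] := Nat.exists_mul_mod_eq_one_of_coprime hi (hp.one_lt) |>.imp
      fun j hj => by
        unfold Nat.ModEq
        rw [hj.2, Nat.mod_eq_of_lt hp.one_lt]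
    have hback : ∀ n : G, ((⟨n, αz⟩ : SD α) ^ i) ^ i' = ⟨n, αz⟩ := by
      intro n
      rw [← pow_mul]
      have h := pow_eq_pow_iff_modEq (x := (⟨n, αz⟩ : SD α)) (m := i * i') (n := 1)
      have hord : orderOf (⟨n, αz⟩ : SD α) ∣ p := orderOf_dvd_of_pow_eq_one (hcos n)
      have h5 := h.mpr (hi'.symm.of_dvd hord)
      rw [pow_one] at h5
      exact h5.symm
    let f : G → G := fun n => ((⟨n, αz⟩ : SD α) ^ i).left
    have hfr : ∀ n : G, ((⟨n, αz⟩ : SD α) ^ i).right = αz ^ i := by
      intro n
      rw [pow_formula]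
    have hfinj : Function.Injective f := by
      intro a b hab
      have h1 : (⟨a, αz⟩ : SD α) ^ i = (⟨b, αz⟩ : SD α) ^ i :=
        SemidirectProduct.ext hab ((hfr a).trans (hfr b).symm)
      have h2 := hback a
      rw [h1, hback b] at h2
      have h3 := congrArg SemidirectProduct.left h2
      exact h3.symm
    obtain ⟨n, hn⟩ := (Finite.injective_iff_surjective.mp hfinj) m
    have h4 : (⟨n, αz⟩ : SD α) ^ i = ⟨m, αz ^ i⟩ := SemidirectProduct.ext hn (hfr n)
    rw [← h4, ← pow_mul, mul_comm, pow_mul, hcos, one_pow]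
  let N : Subgroup (SD α) := (SemidirectProduct.inl : G →* SD α).range
  have hN : N = (SemidirectProduct.rightHom : SD α →* zpowers α).ker := SemidirectProduct.range_inl_eq_ker_rightHom
  have hmemN : ∀ x : SD α, x ∈ N ↔ x.right = 1 := by
    intro x
    rw [hN, MonoidHom.mem_ker, SemidirectProduct.rightHom_eq_right]
  have hαne : αz ≠ 1 := by
    intro h
    have h1 : α = 1 := congrArg Subtype.val h
    rw [hpdef, h1, orderOf_one] at hp
    exact Nat.not_prime_one hp
  have hSP : Lib.Kegel.SP N p := by
    refine ⟨?_, ?_, ?_⟩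
    · rw [hN]; infer_instance
    · intro h
      have : (⟨1, αz⟩ : SD α) ∈ N := by rw [h]; trivial
      exact hαne ((hmemN _).mp this)
    · intro x hx
      rw [hmemN] at hx
      obtain ⟨m, a⟩ := x
      -- `a` is a power of `αz` with coprime exponent
      obtain ⟨i, hi⟩ : ∃ i : ℕ, a = αz ^ i := by
        have h1 : (a : MulAut G) ∈ zpowers α := a.2
        obtain ⟨i, hi⟩ := (mem_powers_iff_mem_zpowers.mpr h1)
        refine ⟨i, Subtype.ext ?_⟩
        simpa [αz] using hi.symm
      subst hi
      apply hother i ?_ m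
      rw [Nat.coprime_comm, hp.coprime_iff_not_dvd]
      intro hd
      apply hx
      obtain ⟨k, rfl⟩ := hd
      show αz ^ (p * k) = 1
      rw [pow_mul, hαp, one_pow]
  haveI : Finite (SD α) := Finite.of_equiv (G × zpowers α) SemidirectProduct.equivProd.symm
  have hnil := (Lib.Kegel.main hSP).1
  have hinj : Function.Injective (SemidirectProduct.inl : G →* SD α) := SemidirectProduct.inl_injective
  exact Group.nilpotent_of_surjective (MonoidHom.ofInjective hinj).symm.toMonoidHom
    (MonoidHom.ofInjective hinj).symm.surjective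

end Cfsg.Agent.S3946
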