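import Cfsg.Statements.S3949
-- import your own Cfsg.Agent.* helpers here

set_option autoImplicit false
open Cfsg

namespace Cfsg.Agent.S3949

/-- Let G be a finite group and α an automorphism of G of order 2 such that the elements g·α(g)⁻¹ generate G. Let j be a positive integer such that 2^j divides the order of no element inverted by α. Then the set of values of the j-th iterate of the map c ↦ c·α(c)⁻¹ is exactly the set of elements of odd order inverted by α. -/
theorem result {G : Type*} [Group G] [Finite G] (α : MulAut G) (hα : orderOf α = 2) (hG : Subgroup.closure (Set.range (fun c : G => c * (α c)⁻¹)) = ⊤)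
    (j : ℕ) (hj : ∀ g : G, α g = g⁻¹ → ¬ 2 ^ j ∣ orderOf g) :
    Set.range ((fun c : G => c * (α c)⁻¹)^[j]) = {g : G | Odd (orderOf g) ∧ α g = g⁻¹} := by
  classical
  set f : G → G := fun c => c * (α c)⁻¹ with hf
  have hα2 : ∀ x, α (α x) = x := by
    intro x
    have : α ^ 2 = 1 := by rw [← hα]; exact pow_orderOf_eq_one α
    have h := congrArg (fun β : MulAut G => β x) this
    simpa [pow_two] using h
  have hfI : ∀ c, α (f c) = (f c)⁻¹ := by
    intro c; simp [hf, hα2]
  have hit : ∀ n (x : G), α x = x⁻¹ → f^[n] x = x^(2^n) := by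
    intro n
    induction n with
    | zero => intro x _; simp
    | succ n ih =>
      intro x hx
      rw [Function.iterate_succ_apply]
      have hfx : f x = x^2 := by simp [hf, hx, pow_two]
      rw [hfx, ih (x^2) (by simp [hx]), ← pow_mul, pow_succ' 2 n]
  have hj0 : j ≠ 0 := by
    rintro rfl
    exact hj 1 (by simp) (by simp)
  obtain ⟨k, rfl⟩ := Nat.exists_eq_succ_of_ne_zero hj0
  ext y
  constructor
  · rintro ⟨c, rfl⟩
    simp only [Nat.succ_eq_add_one, Function.iterate_succ_apply]
    rw [hit k (f c) (hfI c)]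
    set x := f c with hx
    constructor
    · have hne : orderOf x ≠ 0 := (orderOf_pos x).ne'
      obtain ⟨a, m, hm, ham⟩ := Nat.exists_eq_two_pow_mul_odd hne
      have hak : a ≤ k := by
        by_contra hlt
        push Not at hlt
        apply hj x (hfI c)
        rw [ham]
        exact Dvd.dvd.mul_right (pow_dvd_pow 2 hlt) m
      have h1 : (x ^ 2 ^ k) ^ m = 1 := by
        rw [← pow_mul]
        obtain ⟨b, rfl⟩ := Nat.exists_eq_add_of_le hak
        have : 2 ^ (a + b) * m = orderOf x * 2 ^ b := by rw [ham]; ring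
        rw [this, pow_mul, pow_orderOf_eq_one, one_pow]
      exact Odd.of_dvd_nat hm (orderOf_dvd_of_pow_eq_one h1)
    · rw [map_pow, hfI c, inv_pow]
  · rintro ⟨hodd, hinv⟩
    have hcop : Nat.Coprime (2^(k+1)) (orderOf y) :=
      Nat.Coprime.pow_left _ (Nat.coprime_two_left.mpr hodd)
    have hb := Nat.gcd_eq_gcd_ab (2^(k+1)) (orderOf y)
    rw [hcop.gcd_eq_one] at hb
    set A := Nat.gcdA (2^(k+1)) (orderOf y)
    set B := Nat.gcdB (2^(k+1)) (orderOf y)
    set h := y ^ A with hh
    have hI : α h = h⁻¹ := by simp [hh, hinv]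
    have hpow : h ^ (2^(k+1)) = y := by
      have h1 : y ^ (((2^(k+1) : ℕ) : ℤ) * A + (orderOf y : ℤ) * B) = y := by
        rw [← hb]; simp
      rw [zpow_add, zpow_mul (y) (orderOf y : ℤ) B, zpow_natCast y (orderOf y), pow_orderOf_eq_one,
        one_zpow, mul_one, mul_comm, zpow_mul, zpow_natCast] at h1
      exact h1
    refine ⟨h, ?_⟩
    show f^[k+1] h = y
    rw [hit (k+1) h hI, hpow]

end Cfsg.Agent.S3949
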