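import Cfsg.Statements.S3968
import Mathlib
import Cfsg.Agent.Lib.CharBrauer4
import Cfsg.Agent.S4023
-- import your own Cfsg.Agent.* helpers here

set_option autoImplicit false
open Cfsg

namespace Cfsg.Agent.S3968

open Module
open scoped ComplexConjugate
open Cfsg.Agent.Lib.CharBasic Cfsg.Agent.Lib.CharOrth Cfsg.Agent.Lib.CharAlg
  Cfsg.Agent.Lib.CharLin Cfsg.Agent.Lib.CharGal Cfsg.Agent.Lib.CharBrauer4

theorem key_linear {Q : Type*} [Group Q] [Fintype Q] {θ : Q → ℂ} (hθ : IsCharacter Q θ) {p : ℕ}
    (hp : p.Prime) (z : Q) (hzc : ∀ g : Q, g * z = z * g) (hzo : orderOf z = p)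
    (hθz : ∀ t ∈ Subgroup.zpowers z, t ≠ 1 → θ t = 0) (hθ1 : θ 1 = p) :
    ∀ ψ, IsIrrCharacter Q ψ → classInner θ ψ ≠ 0 → ψ 1 = 1 := by
  classical
  intro ψ hψ hne
  set T : Subgroup Q := Subgroup.zpowers z with hT
  have hTcard : Nat.card T = p := by rw [hT, Nat.card_zpowers, hzo]
  haveI : Fintype T := Fintype.ofFinite T
  have hpC : (p : ℂ) ≠ 0 := by exact_mod_cast hp.ne_zero
  have hTcent : ∀ t ∈ T, t ∈ Subgroup.center Q := by
    intro t ht
    have : T ≤ Subgroup.center Q := (Subgroup.zpowers_le).mpr (Subgroup.mem_center_iff.mpr hzc)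
    exact this ht
  obtain ⟨d, hd⟩ : ∃ d : ℕ, ψ 1 = d := by
    obtain ⟨n, ρ, _, rfl⟩ := hψ
    exact ⟨finrank ℂ (Fin n → ℂ), by rw [Representation.char_one]⟩
  have hdpos : d ≠ 0 := by
    rintro rfl
    obtain ⟨n, ρ, hρ, rfl⟩ := hψ
    have hnt := ((isIrreducible_iff ρ).mp hρ).1
    rw [Representation.char_one] at hd
    have : 0 < finrank ℂ (Fin n → ℂ) := finrank_pos
    have h2 : ((finrank ℂ (Fin n → ℂ) : ℕ) : ℂ) = 0 := by simpa using hd
    have h3 : finrank ℂ (Fin n → ℂ) = 0 := by exact_mod_cast h2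
    omega
  -- the value of the restricted pairing
  have h1 : classInner (fun t : T => θ t) (fun t : T => ψ t) = d := by
    unfold classInner
    rw [hTcard, Finset.sum_eq_single (1 : T)]
    · simp only [Subgroup.coe_one]
      rw [hθ1, hd]
      simp only [map_natCast]
      field_simp
    · intro t _ ht
      have : (t : Q) ≠ 1 := fun h => ht (Subtype.ext h)
      have h0 := hθz t t.2 this
      simp only [h0, zero_mul]
    · intro h; exact absurd (Finset.mem_univ _) h
  -- expansion
  have hcl := classFunction_of_isCharacter hθ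
  have hexp := classFun_eq_sum θ hcl
  have hres : (fun t : T => θ t) = ∑ μ : IrrCharacter Q, classInner θ (μ : Q → ℂ) • (fun t : T => (μ : Q → ℂ) t) := by
    funext t
    have := congrFun hexp (t : Q)
    simpa [Finset.sum_apply, Pi.smul_apply] using this
  have hnat : ∀ μ : IrrCharacter Q, ∃ m : ℕ, classInner θ (μ : Q → ℂ) = m :=
    fun μ => IsCharacter.classInner_irr_nat hθ μ.2
  choose m hm using hnat
  have hψchar := IsCharacter.res (IsIrrCharacter.isCharacter hψ) T
  have hnat2 : ∀ μ : IrrCharacter Q, ∃ k : ℕ, classInner (fun t : T => (μ : Q → ℂ) t) (fun t : T => ψ t) = k :=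
    fun μ => IsCharacter.classInner_nat (IsCharacter.res (IsIrrCharacter.isCharacter μ.2) T) hψchar
  choose k hk using hnat2
  have h2 : (d : ℂ) = ∑ μ : IrrCharacter Q, (m μ : ℂ) * k μ := by
    rw [← h1, hres, classInner_sum_left]
    refine Finset.sum_congr rfl fun μ _ => ?_
    rw [classInner_smul_left, hm, hk]
  have h3 : d = ∑ μ : IrrCharacter Q, m μ * k μ := by exact_mod_cast h2
  set ψ' : IrrCharacter Q := ⟨ψ, hψ⟩ with hψ'
  have h4 : m ψ' * k ψ' ≤ d := by
    rw [h3]
    exact Finset.single_le_sum (f := fun μ => m μ * k μ) (fun _ _ => Nat.zero_le _) (Finset.mem_univ ψ')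
  have hmψ : m ψ' ≠ 0 := by
    intro h0
    apply hne
    have := hm ψ'
    rw [h0] at this
    simpa using this
  -- the value of `k ψ`
  have h5 : k ψ' = d ^ 2 := by
    have h6 := hk ψ'
    have h7 : classInner (fun t : T => (ψ' : Q → ℂ) t) (fun t : T => ψ t) = (d : ℂ) ^ 2 := by
      unfold classInner
      have h8 : ∀ t : T, ψ (t : Q) * conj (ψ (t : Q)) = (d : ℂ) ^ 2 := by
        intro t
        obtain ⟨ω, hω, hω2⟩ := central_scalar (hTcent t t.2) hψ
        have h9 := hω2 1
        rw [one_mul, hd] at h9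
        have hωn : ‖ω‖ = 1 := norm_root_of_unity Nat.card_pos.ne' hω
        rw [h9, map_mul, map_natCast]
        have h10 : ω * conj ω = 1 := by
          rw [Complex.mul_conj, Complex.normSq_eq_norm_sq, hωn]; simp
        calc ω * (d : ℂ) * (conj ω * (d : ℂ)) = (ω * conj ω) * (d : ℂ) ^ 2 := by ring
          _ = _ := by rw [h10, one_mul]
      simp only [hψ']
      rw [Finset.sum_congr rfl (fun t _ => h8 t), Finset.sum_const, Finset.card_univ, ← Nat.card_eq_fintype_card,
        hTcard, nsmul_eq_mul]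
      field_simp
    rw [h7] at h6
    exact_mod_cast h6.symm
  rw [h5] at h4
  have hd1 : d = 1 := by
    have h6 : 1 ≤ m ψ' := Nat.one_le_iff_ne_zero.mpr hmψ
    have h7 : 1 ≤ d := Nat.one_le_iff_ne_zero.mpr hdpos
    nlinarith
  rw [hd, hd1]; simp

/-- Let `p` be a prime and `G` a finite group with a faithful irreducible complex character of degree `p` (so `G` is an irreducible linear group in `p` variables). If `p ^ 2` divides the order of `G`, then the centre of `G` is nontrivial. -/
theorem result {G : Type*} [Group G] [Finite G] (p : ℕ) (hp : p.Prime) (χ : Cfsg.IrrCharacter G) (hdeg : χ.1 1 = p) (hfaith : ∀ g : G, χ.1 g = χ.1 1 → g = 1) (hdiv : p ^ 2 ∣ Nat.card G) : Subgroup.center G ≠ ⊥ := by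
  classical
  intro hcen
  haveI hpf : Fact p.Prime := ⟨hp⟩
  haveI : Fintype G := Fintype.ofFinite G
  obtain ⟨χf, hχirr⟩ := χ
  simp only at hdeg hfaith
  obtain ⟨n, ρ, hρ, hχ⟩ := id hχirr
  have hfin : finrank ℂ (Fin n → ℂ) = p := by
    have h1 : ρ.character 1 = (finrank ℂ (Fin n → ℂ) : ℂ) := by rw [Representation.char_one]
    rw [hχ, hdeg] at h1
    exact_mod_cast h1.symm
  have hfix : ∀ x : G, ¬ p ∣ (Subgroup.centralizer ({x} : Set G)).index → x ≠ 1 → χf x = 0 := by
    intro x hx hx1
    have hcop : Nat.Coprime (finrank ℂ (Fin n → ℂ)) (Subgroup.centralizer ({x} : Set G)).index := by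
      rw [hfin]
      exact (Nat.Prime.coprime_iff_not_dvd hp).mpr hx
    rcases char_zero_or_norm_of_coprime ρ hρ x hcop with h | h
    · rw [← hχ]; exact h
    · exfalso
      obtain ⟨ω, hω⟩ := (norm_character_eq_iff ρ x).mp h
      apply hx1
      have hxc : x ∈ Subgroup.center G := by
        rw [Subgroup.mem_center_iff]
        intro g
        have h1 : ρ (x * g) = ρ (g * x) := by
          rw [map_mul, map_mul, hω]
          ext v i
          simp
        have h2 : ρ (x * g * (g * x)⁻¹) = 1 := by
          rw [map_mul, h1, ← map_mul, mul_inv_cancel, map_one]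
        have h3 : χf (x * g * (g * x)⁻¹) = χf 1 := by
          rw [← hχ, Representation.character, Representation.character, h2, ρ.map_one]
        have h4 := hfaith _ h3
        have h5 : x * g = g * x := by
          calc x * g = x * g * (g * x)⁻¹ * (g * x) := by group
            _ = g * x := by rw [h4, one_mul]
        exact h5.symm
      rw [hcen, Subgroup.mem_bot] at hxc
      exact hxc
  obtain ⟨P⟩ : Nonempty (Sylow p G) := inferInstance
  have hPdvd : p ^ 2 ∣ Nat.card P := P.pow_dvd_card_of_pow_dvd_card hdiv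
  have hPle : p ^ 2 ≤ Nat.card P := Nat.le_of_dvd Nat.card_pos hPdvd
  have hPp : IsPGroup p (P : Subgroup G) := P.isPGroup'
  have hp2 : p < p ^ 2 := by
    have := hp.one_lt
    nlinarith
  haveI hPnt : Nontrivial (P : Subgroup G) := by
    rw [← Finite.one_lt_card_iff_nontrivial]
    have := hp.one_lt
    have h3 : Nat.card (P : Subgroup G) = Nat.card P := rfl
    omega
  obtain ⟨z, hzo, hzc⟩ := S4023.exists_central hPp
  haveI : Fintype (P : Subgroup G) := Fintype.ofFinite _
  have hind : ∀ x : (P : Subgroup G), (∀ g : (P : Subgroup G), g * x = x * g) → x ≠ 1 → χf x = 0 := by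
    intro x hxc hx1
    apply hfix
    · have hle : (P : Subgroup G) ≤ Subgroup.centralizer ({(x : G)} : Set G) := by
        intro g hg
        rw [Subgroup.mem_centralizer_singleton_iff]
        exact congrArg Subtype.val (hxc ⟨g, hg⟩)
      intro hd
      exact P.not_dvd_index (hd.trans (Subgroup.index_dvd_of_le hle))
    · intro h
      exact hx1 (Subtype.ext h)
  set θ : ↥(P : Subgroup G) → ℂ := fun g => χf g with hθdef
  have hθc : IsCharacter (P : Subgroup G) θ := IsCharacter.res (IsIrrCharacter.isCharacter hχirr) (P : Subgroup G)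
  have hθ1 : θ 1 = p := hdeg
  have hlin := key_linear hθc hp z hzc hzo (by
    intro t ht ht1
    apply hind t ?_ ht1
    intro g
    have hT : Subgroup.zpowers z ≤ Subgroup.center (P : Subgroup G) :=
      (Subgroup.zpowers_le).mpr (Subgroup.mem_center_iff.mpr hzc)
    exact Subgroup.mem_center_iff.mp (hT ht) g) hθ1
  have hcomm : ∀ a b : (P : Subgroup G), a * b = b * a := by
    intro a b
    set c := a * b * a⁻¹ * b⁻¹ with hc
    have hexp := classFun_eq_sum θ (classFunction_of_isCharacter hθc)
    have h1 : θ c = θ 1 := by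
      rw [hexp]
      simp only [Finset.sum_apply, Pi.smul_apply, smul_eq_mul]
      refine Finset.sum_congr rfl fun μ _ => ?_
      by_cases h0 : classInner θ (μ : ↥(P : Subgroup G) → ℂ) = 0
      · rw [h0, zero_mul, zero_mul]
      · congr 1
        have hμ1 := hlin _ μ.2 h0
        obtain ⟨lam, hlam⟩ := exists_hom_of_linear (IsIrrCharacter.isCharacter μ.2) hμ1
        rw [hlam]
        simp only [hc, map_mul, map_inv, map_one]
        have : lam a * lam b * (lam a)⁻¹ * (lam b)⁻¹ = 1 := by
          rw [mul_comm (lam a) (lam b)]; group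
        rw [this]
    have h2 : χf (c : G) = χf 1 := h1
    have h3 := hfaith _ h2
    have h4 : c = 1 := Subtype.ext h3
    calc a * b = c * (b * a) := by rw [hc]; group
      _ = b * a := by rw [h4, one_mul]
  have hzero : ∀ x : (P : Subgroup G), x ≠ 1 → θ x = 0 :=
    fun x hx => hind x (fun g => hcomm g x) hx
  obtain ⟨k, hk⟩ := IsCharacter.classInner_nat hθc (isCharacter_one (G := (P : Subgroup G)))
  have hsum : ∑ x : (P : Subgroup G), θ x * conj (1 : ℂ) = p := by
    rw [Finset.sum_eq_single (1 : (P : Subgroup G))]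
    · rw [hθ1]; simp
    · intro t _ ht
      rw [hzero t ht, zero_mul]
    · intro h; exact absurd (Finset.mem_univ _) h
  unfold classInner at hk
  rw [hsum] at hk
  have hcpos : (Nat.card (P : Subgroup G) : ℂ) ≠ 0 := by exact_mod_cast Nat.card_pos.ne'
  have h6 : (p : ℂ) = (Nat.card (P : Subgroup G) : ℂ) * k := by
    field_simp at hk
    rw [hk]
  have h7 : p = Nat.card (P : Subgroup G) * k := by exact_mod_cast h6
  have h8 : Nat.card (P : Subgroup G) ∣ p := ⟨k, h7⟩
  have h9 := Nat.le_of_dvd hp.pos h8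
  have h10 : Nat.card (P : Subgroup G) = Nat.card P := rfl
  omega

end Cfsg.Agent.S3968
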