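import Cfsg.Statements.S3983
import Cfsg.Agent.Lib.FGS3
import Cfsg.Agent.Lib.Herstein
-- import your own Cfsg.Agent.* helpers here

set_option autoImplicit false
open scoped Pointwise
open Cfsg

namespace Cfsg.Agent.S3983

/-- Let P be a Sylow p-subgroup of the finite group G that meets each conjugate g P g⁻¹ with g outside N_G(P) trivially, and let U be a subgroup of G of order divisible by p. Then a Sylow p-subgroup Q of U has the same property inside U: Q meets each conjugate u Q u⁻¹ with u ∈ U outside N_U(Q) trivially. -/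
theorem result {G : Type*} [Group G] [Finite G] (p : ℕ) [Fact p.Prime] (P : Sylow p G) (hTI : ∀ g : G, g ∉ Subgroup.normalizer ((P : Subgroup G) : Set G) → (P : Subgroup G) ⊓ (MulAut.conj g • (P : Subgroup G)) = ⊥) (U : Subgroup G) (hU : p ∣ Nat.card ↥U) (Q : Sylow p ↥U) : ∀ u : ↥U, u ∉ Subgroup.normalizer ((Q : Subgroup ↥U) : Set ↥U) → (Q : Subgroup ↥U) ⊓ (MulAut.conj u • (Q : Subgroup ↥U)) = ⊥ := by
  classical
  intro u hu
  by_contra hne
  obtain ⟨y, hy, hy1⟩ := (Subgroup.bot_or_exists_ne_one _).resolve_left hne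
  obtain ⟨hyQ, hyu⟩ := Subgroup.mem_inf.1 hy
  rw [Lib.FGSBasic.mem_conj_smul_iff] at hyu
  have hQ'p : IsPGroup p ((Q : Subgroup ↥U).map U.subtype) := Q.isPGroup'.map _
  obtain ⟨T, hT⟩ := hQ'p.exists_le_sylow
  have hx : (y : G) ∈ (T : Subgroup G) := hT ⟨y, hyQ, rfl⟩
  have hh : (u : G)⁻¹ * (y : G) * (u : G) ∈ (T : Subgroup G) := hT ⟨_, hyu, by simp⟩
  have hy1' : (y : G) ≠ 1 := fun h => hy1 (Subtype.ext h)
  have hN := Lib.FGS3.ti_of_sylow P hTI T hx hy1' hh
  apply hu
  apply Lib.Herstein.mem_normalizer_of_conj_le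
  intro z hz
  have hTU : IsPGroup p ((T : Subgroup G).subgroupOf U) := T.isPGroup'.comap_subtype
  have hQT : (Q : Subgroup ↥U) ≤ (T : Subgroup G).subgroupOf U := by
    intro w hw
    exact hT ⟨w, hw, rfl⟩
  have heq := Q.is_maximal' hTU hQT
  rw [← heq]
  have h1 : (z : G) ∈ (T : Subgroup G) := hT ⟨z, hz, rfl⟩
  exact (Subgroup.mem_normalizer_iff.1 hN (z : G)).1 h1

end Cfsg.Agent.S3983
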