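import Cfsg.Statements.S3984
import Cfsg.Agent.Lib.FGS3
import Cfsg.Agent.Lib.Herstein
-- import your own Cfsg.Agent.* helpers here

set_option autoImplicit false
open scoped Pointwise
open Cfsg

namespace Cfsg.Agent.S3984

theorem cyc_solv {G : Type*} [Group G] (x : G) : Group.IsSolvable (Subgroup.zpowers x) := by
  apply Group.isSolvable_of_comm
  intro a b
  apply Subtype.ext
  obtain ⟨i, hi⟩ := Subgroup.mem_zpowers_iff.1 a.2
  obtain ⟨j, hj⟩ := Subgroup.mem_zpowers_iff.1 b.2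
  change (a : G) * b = b * a
  rw [← hi, ← hj, ← zpow_add, ← zpow_add, add_comm]

/-- Let P be a Sylow p-subgroup of the finite group G that meets each conjugate g P g⁻¹ with g outside N_G(P) trivially, and let N be a normal subgroup of G of order prime to p. Then every Sylow p-subgroup Q of G ⧸ N meets each conjugate x Q x⁻¹ with x outside its normalizer trivially. -/
theorem result {G : Type*} [Group G] [Finite G] (p : ℕ) [Fact p.Prime] (P : Sylow p G) (hTI : ∀ g : G, g ∉ Subgroup.normalizer ((P : Subgroup G) : Set G) → (P : Subgroup G) ⊓ (MulAut.conj g • (P : Subgroup G)) = ⊥) (N : Subgroup G) [N.Normal] (hN : (Nat.card ↥N).Coprime p) (Q : Sylow p (G ⧸ N)) : ∀ x : G ⧸ N, x ∉ Subgroup.normalizer ((Q : Subgroup (G ⧸ N)) : Set (G ⧸ N)) → (Q : Subgroup (G ⧸ N)) ⊓ (MulAut.conj x • (Q : Subgroup (G ⧸ N))) = ⊥ := by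
  classical
  have hp : p.Prime := Fact.out
  obtain ⟨T, rfl⟩ := Sylow.mapSurjective_surjective (QuotientGroup.mk'_surjective N) p Q
  intro q hq
  by_contra hne
  obtain ⟨y, hy, hy1⟩ := (Subgroup.bot_or_exists_ne_one _).resolve_left hne
  obtain ⟨hyQ, hyu⟩ := Subgroup.mem_inf.1 hy
  rw [Lib.FGSBasic.mem_conj_smul_iff] at hyu
  obtain ⟨g, rfl⟩ := QuotientGroup.mk_surjective q
  obtain ⟨a, haT, hay⟩ := hyQ
  obtain ⟨t₂, ht₂, hty⟩ := hyu
  let b := g * t₂ * g⁻¹
  have hab : (a : G ⧸ N) = (b : G ⧸ N) := by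
    have h1 : (a : G ⧸ N) = y := hay
    have h2 : (t₂ : G ⧸ N) = (g : G ⧸ N)⁻¹ * y * (g : G ⧸ N) := hty
    rw [h1]
    change y = ((g * t₂ * g⁻¹ : G) : G ⧸ N)
    rw [QuotientGroup.mk_mul, QuotientGroup.mk_mul, QuotientGroup.mk_inv, h2]
    group
  have ha1 : a ≠ 1 := by
    rintro rfl
    apply hy1
    rw [← hay]
    simp
  -- orders
  have hap : ∃ k, orderOf a = p ^ k := Lib.FGSBasic.orderOf_of_mem_sylow T haT
  have hbp : ∃ k, orderOf b = p ^ k := by
    obtain ⟨k, hk⟩ := Lib.FGSBasic.orderOf_of_mem_sylow T ht₂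
    exact ⟨k, by rw [← hk]; exact Lib.FGSBasic.orderOf_conj g t₂⟩
  obtain ⟨ka, hka⟩ := hap
  obtain ⟨kb, hkb⟩ := hbp
  have hinj : ∀ z : G, (∃ k, z ^ (p ^ k) = 1) → (z : G ⧸ N) = 1 → z = 1 := by
    rintro z ⟨k, hk⟩ hz
    have h1 : z ∈ N := (QuotientGroup.eq_one_iff z).1 hz
    have h2 : orderOf z ∣ p ^ k := orderOf_dvd_of_pow_eq_one hk
    have h3 : orderOf z ∣ Nat.card N := by
      rw [← Subgroup.orderOf_mk z h1]
      exact orderOf_dvd_natCard _
    have h4 : (p ^ k).Coprime (Nat.card N) := Nat.Coprime.pow_left _ hN.symm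
    exact orderOf_eq_one_iff.1 (Nat.eq_one_of_dvd_coprimes h4 h2 h3)
  have hordeq : orderOf a = orderOf b := by
    have h1 : orderOf (a : G ⧸ N) = orderOf a := by
      apply le_antisymm (Nat.le_of_dvd (orderOf_pos a) (orderOf_map_dvd (QuotientGroup.mk' N) a))
      apply Nat.le_of_dvd (orderOf_pos _)
      apply orderOf_dvd_of_pow_eq_one
      apply hinj
      · refine ⟨ka, ?_⟩
        rw [← pow_mul, mul_comm, pow_mul, ← hka, pow_orderOf_eq_one, one_pow]
      · rw [QuotientGroup.mk_pow]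
        exact pow_orderOf_eq_one _
    have h2 : orderOf (b : G ⧸ N) = orderOf b := by
      apply le_antisymm (Nat.le_of_dvd (orderOf_pos b) (orderOf_map_dvd (QuotientGroup.mk' N) b))
      apply Nat.le_of_dvd (orderOf_pos _)
      apply orderOf_dvd_of_pow_eq_one
      apply hinj
      · refine ⟨kb, ?_⟩
        rw [← pow_mul, mul_comm, pow_mul, ← hkb, pow_orderOf_eq_one, one_pow]
      · rw [QuotientGroup.mk_pow]
        exact pow_orderOf_eq_one _
    rw [← h1, ← h2, hab]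
  have hc : (Nat.card N).Coprime (Nat.card (Subgroup.zpowers a)) := by
    rw [Nat.card_zpowers, hka]
    exact Nat.Coprime.pow_right _ hN
  have hbL : Subgroup.zpowers b ≤ N ⊔ Subgroup.zpowers a := by
    intro w hw
    obtain ⟨i, rfl⟩ := Subgroup.mem_zpowers_iff.1 hw
    apply Subgroup.zpow_mem
    have e : b = a * (a⁻¹ * b) := by group
    rw [e, sup_comm]
    exact Subgroup.mul_mem_sup (Subgroup.mem_zpowers a) (QuotientGroup.eq.1 hab)
  obtain ⟨n, hn, hne2⟩ := Lib.FGS3.sz_conj_in_sup N (Subgroup.zpowers a) (Subgroup.zpowers b) hc (Or.inr (cyc_solv a)) hbL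
    (by rw [Nat.card_zpowers, Nat.card_zpowers, hordeq])
  have hnb : n * a * n⁻¹ ∈ Subgroup.zpowers b := by
    rw [← hne2, Lib.FGSBasic.mem_conj_smul_iff]
    have e : n⁻¹ * (n * a * n⁻¹) * n = a := by group
    rw [e]
    exact Subgroup.mem_zpowers a
  obtain ⟨i, hi⟩ := Subgroup.mem_zpowers_iff.1 hnb
  have hnbe : n * a * n⁻¹ = b := by
    have h3 : (((b ^ i) * b⁻¹ : G) : G ⧸ N) = 1 := by
      rw [hi, QuotientGroup.mk_mul, QuotientGroup.mk_mul, QuotientGroup.mk_mul, QuotientGroup.mk_inv, QuotientGroup.mk_inv,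
        (QuotientGroup.eq_one_iff n).2 hn, ← hab]
      simp
    have h4 : (b ^ i) * b⁻¹ = 1 := by
      apply hinj _ _ h3
      refine ⟨kb, ?_⟩
      have hcomm : Commute (b ^ i) b⁻¹ := (Commute.refl b).zpow_left i |>.inv_right
      rw [hcomm.mul_pow, ← hkb, ← zpow_natCast, zpow_comm, zpow_natCast, pow_orderOf_eq_one, one_zpow, one_mul,
        inv_pow, pow_orderOf_eq_one, inv_one]
    rw [← hi]
    exact mul_inv_eq_one.1 h4
  -- TI
  have hh : (n⁻¹ * g)⁻¹ * a * (n⁻¹ * g) ∈ (T : Subgroup G) := by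
    have e : (n⁻¹ * g)⁻¹ * a * (n⁻¹ * g) = g⁻¹ * (n * a * n⁻¹) * g := by group
    rw [e, hnbe]
    have e2 : g⁻¹ * b * g = t₂ := by
      change g⁻¹ * (g * t₂ * g⁻¹) * g = t₂
      group
    rw [e2]
    exact ht₂
  have hnT := Lib.FGS3.ti_of_sylow P hTI T haT ha1 hh
  apply hq
  apply Lib.Herstein.mem_normalizer_of_conj_le
  rintro _ ⟨z, hz, rfl⟩
  have h5 := (Subgroup.mem_normalizer_iff.1 hnT z).1 hz
  refine ⟨_, h5, ?_⟩
  simp only [QuotientGroup.mk'_apply, QuotientGroup.mk_mul, QuotientGroup.mk_inv, (QuotientGroup.eq_one_iff n).2 hn]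
  group

end Cfsg.Agent.S3984
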