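import Cfsg.Statements.S4002
import Mathlib
import Cfsg.Agent.Lib.PrimeGraph
-- import your own Cfsg.Agent.* helpers here

set_option autoImplicit false
open Cfsg

namespace Cfsg.Agent.S4002

theorem primes_aux (n : ℕ) (hn : 7 ≤ n) : ∃ p q r : ℕ, p.Prime ∧ q.Prime ∧ r.Prime ∧ p ≠ q ∧ p ≠ r ∧ q ≠ r ∧
    p ≤ n ∧ q ≤ n ∧ r ≤ n ∧ n < p * q ∧ n < p * r ∧ n < q * r := by
  by_cases h1 : n ≤ 9
  · exact ⟨2, 5, 7, by norm_num, by norm_num, by norm_num, by norm_num, by norm_num, by norm_num, by omega, by omega, by omega, by omega, by omega, by omega⟩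
  by_cases h2 : n ≤ 14
  · exact ⟨3, 5, 7, by norm_num, by norm_num, by norm_num, by norm_num, by norm_num, by norm_num, by omega, by omega, by omega, by omega, by omega, by omega⟩
  by_cases h3 : n ≤ 34
  · exact ⟨5, 7, 11, by norm_num, by norm_num, by norm_num, by norm_num, by norm_num, by norm_num, by omega, by omega, by omega, by omega, by omega, by omega⟩
  obtain ⟨r, hr, hr1, hr2⟩ := Nat.exists_prime_lt_and_le_two_mul (n / 2) (by omega)
  obtain ⟨q, hq, hq1, hq2⟩ := Nat.exists_prime_lt_and_le_two_mul (n / 4) (by omega)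
  obtain ⟨p, hp, hp1, hp2⟩ := Nat.exists_prime_lt_and_le_two_mul (n / 8) (by omega)
  have hp5 : 5 ≤ p := by omega
  have hqn : n < 4 * q := by omega
  have hrq : q < r := by omega
  have hqp : p < q := by omega
  refine ⟨p, q, r, hp, hq, hr, by omega, by omega, by omega, by omega, by omega, by omega, ?_, ?_, ?_⟩
  · nlinarith
  · nlinarith
  · nlinarith

/-- If the set of element orders of a finite group G is {1, 2, …, n} with n ≥ 7, then G is not solvable. -/
theorem result {G : Type*} [Group G] [Finite G] (n : ℕ) (hn : 7 ≤ n) (h : Set.range (orderOf : G → ℕ) = {k : ℕ | 1 ≤ k ∧ k ≤ n}) : ¬ Group.IsSolvable G := by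
  intro hs
  obtain ⟨p, q, r, hp, hq, hr, hpq, hpr, hqr, hpn, hqn, hrn, h1, h2, h3⟩ := primes_aux n hn
  have hmem : ∀ t : ℕ, t.Prime → t ≤ n → t ∣ Nat.card G := by
    intro t ht htn
    have : t ∈ Set.range (orderOf : G → ℕ) := by
      rw [h]; exact ⟨ht.one_lt.le, htn⟩
    obtain ⟨g, hg⟩ := this
    rw [← hg]; exact orderOf_dvd_natCard g
  have hle : ∀ g : G, orderOf g ≤ n := by
    intro g
    have : orderOf g ∈ {k : ℕ | 1 ≤ k ∧ k ≤ n} := by
      rw [← h]; exact ⟨g, rfl⟩
    exact this.2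
  rcases Lib.PrimeGraph.three_primes hp hq hr hpq hpr hqr (hmem p hp hpn) (hmem q hq hqn) (hmem r hr hrn) with
    ⟨g, hg⟩ | ⟨g, hg⟩ | ⟨g, hg⟩
  · have := hle g; omega
  · have := hle g; omega
  · have := hle g; omega

end Cfsg.Agent.S4002
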