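import Cfsg.Statements.S4013
import Mathlib
import Cfsg.Agent.Lib.FGSBasic
-- import your own Cfsg.Agent.* helpers here

set_option autoImplicit false
open Cfsg

namespace Cfsg.Agent.S4013

/-- Let G be a finite p-group (p prime) and N < M normal subgroups of G such that for some g ∈ M ∖ N the conjugacy class of g is exactly M ∖ N. Then p = 2 and N has index 2 in M. -/
theorem result {G : Type*} [Group G] [Finite G] (p : ℕ) [Fact p.Prime] (hG : IsPGroup p G) (N M : Subgroup G) [N.Normal] [M.Normal] (hNM : N < M) (g : G) (hgM : g ∈ M) (hgN : g ∉ N) (hcl : {h : G | IsConj g h} = (M : Set G) \ (N : Set G)) : p = 2 ∧ N.relIndex M = 2 := by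
  classical
  have hp : p.Prime := Fact.out
  have hcard : Nat.card {y : G // IsConj g y} = (M : Set G).ncard - (N : Set G).ncard := by
    rw [← Set.ncard_diff (fun x hx => hNM.le hx) (Set.toFinite _), ← hcl]
    exact Nat.card_coe_set_eq _
  rw [Cfsg.Agent.Lib.FGSBasic.card_conj_eq_index, ← Nat.card_coe_set_eq, ← Nat.card_coe_set_eq] at hcard
  obtain ⟨n, hn⟩ := IsPGroup.iff_card.mp hG
  have hidx : (Subgroup.centralizer ({g} : Set G)).index ∣ p ^ n := hn ▸ Subgroup.index_dvd_card _
  obtain ⟨a, -, ha⟩ := (Nat.dvd_prime_pow hp).mp hidx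
  have hMc : Nat.card M ∣ p ^ n := hn ▸ Subgroup.card_subgroup_dvd_card M
  have hr : Nat.card N * N.relIndex M = Nat.card M := by
    have := Subgroup.relIndex_mul_relIndex ⊥ N M bot_le hNM.le
    rwa [Subgroup.relIndex_bot_left, Subgroup.relIndex_bot_left] at this
  have hr1 : N.relIndex M ≠ 1 := by
    intro h
    exact hNM.not_ge (Subgroup.relIndex_eq_one.mp h)
  have hrd : N.relIndex M ∣ p ^ n := dvd_trans ⟨_, by rw [mul_comm]; exact hr.symm⟩ hMc
  obtain ⟨s, -, hs⟩ := (Nat.dvd_prime_pow hp).mp hrd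
  have hs0 : s ≠ 0 := by
    rintro rfl
    exact hr1 (by simpa using hs)
  set r := N.relIndex M with hrdef
  have hpr : p ∣ r := by rw [hs]; exact dvd_pow_self p hs0
  have hr2 : 2 ≤ r := by
    have : 0 < r := by rw [hs]; exact pow_pos hp.pos _
    omega
  have hcop : Nat.Coprime p (r - 1) := by
    rw [Nat.Prime.coprime_iff_not_dvd hp]
    intro h
    have h3 : p ∣ r - (r - 1) := Nat.dvd_sub hpr h
    have h4 : r - (r - 1) = 1 := by omega
    rw [h4] at h3
    exact hp.one_lt.ne' (Nat.dvd_one.mp h3)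
  have hd : r - 1 ∣ p ^ a := by
    have hcard' : (Subgroup.centralizer ({g} : Set G)).index = Nat.card M - Nat.card N := hcard
    rw [← ha, hcard', ← hr]
    have : Nat.card N * r - Nat.card N = Nat.card N * (r - 1) := by
      rw [Nat.mul_sub, mul_one]
    rw [this]
    exact dvd_mul_left _ _
  have h1 : r - 1 = 1 := Nat.Coprime.eq_one_of_dvd (Nat.Coprime.pow_left a hcop).symm hd
  have h2 : r = 2 := by omega
  refine ⟨?_, h2⟩
  have : p ∣ 2 := by rw [← h2]; exact hpr
  exact (Nat.prime_dvd_prime_iff_eq hp Nat.prime_two).mp this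

end Cfsg.Agent.S4013
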