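import Cfsg.Statements.S4014
import Mathlib
-- import your own Cfsg.Agent.* helpers here

set_option autoImplicit false
open Cfsg

namespace Cfsg.Agent.S4014

open Subgroup MulAction
open scoped commutatorElement

section upper
variable {p : ℕ} [Fact p.Prime]

theorem exists_index_p {Q : Type} [Group Q] [Finite Q] (hQ : IsPGroup p Q) (S : Subgroup Q) (hS : S ≠ ⊤) :
    ∃ M : Subgroup Q, S ≤ M ∧ M.index = p := by
  obtain ⟨t, ht⟩ := IsPGroup.iff_card.mp hQ
  obtain ⟨s, hs⟩ := IsPGroup.iff_card.mp (hQ.to_subgroup S)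
  have hp : p.Prime := Fact.out
  have hlt : s < t := by
    by_contra hcon
    push Not at hcon
    apply hS
    apply Subgroup.eq_top_of_card_eq
    apply le_antisymm (Subgroup.card_le_card_group S)
    rw [ht, hs]
    exact Nat.pow_le_pow_right hp.pos hcon
  obtain ⟨K, hK, hSK⟩ := Sylow.exists_subgroup_card_pow_prime_le p (n := s) (m := t - 1) (by rw [ht]; exact pow_dvd_pow p (by omega)) S hs (by omega)
  refine ⟨K, hSK, ?_⟩
  have h1 := K.card_mul_index
  rw [hK, ht] at h1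
  have h2 : p ^ t = p ^ (t - 1) * p := by rw [← pow_succ]; congr 1; omega
  rw [h2] at h1
  exact Nat.eq_of_mul_eq_mul_left (pow_pos hp.pos _) h1

theorem upper (k : ℕ) : ∀ {Q : Type} [Group Q] [Finite Q], IsPGroup p Q → ∀ {Ω : Type} [MulAction Q Ω] (O : Set Ω),
    (∀ q : Q, ∀ x ∈ O, q • x ∈ O) → (∀ x ∈ O, Nat.card (orbit Q x) ≤ p ^ k) →
    ∀ g ∈ derivedSeries Q k, ∀ x ∈ O, g • x = x := by
  have hp : p.Prime := Fact.out
  induction k with
  | zero =>
    intro Q _ _ hQ Ω _ O hO hc g _ x hx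
    have h1 := hc x hx
    rw [pow_zero] at h1
    haveI : Finite (orbit Q x) := (Set.finite_range (fun q : Q => q • x)).to_subtype
    have h2 : Subsingleton (orbit Q x) := by
      rw [← Finite.card_le_one_iff_subsingleton (α := orbit Q x)]; exact h1
    have h3 := h2.elim ⟨g • x, mem_orbit x g⟩ ⟨x, mem_orbit_self x⟩
    exact congrArg Subtype.val h3
  | succ k ih =>
    intro Q _ _ hQ Ω _ O hO hc g hg x₀ hx₀
    by_cases hS : stabilizer Q x₀ = ⊤
    · have : g ∈ stabilizer Q x₀ := by rw [hS]; trivial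
      exact this
    obtain ⟨M, hSM, hMi⟩ := exists_index_p hQ (stabilizer Q x₀) hS
    haveI hMn : M.Normal := by
      apply Subgroup.normal_of_index_eq_minFac_card
      rw [hMi]
      obtain ⟨t, ht⟩ := IsPGroup.iff_card.mp hQ
      have ht0 : t ≠ 0 := by
        rintro rfl
        rw [pow_zero] at ht
        have := M.card_mul_index
        rw [ht, hMi] at this
        have h2 := Nat.eq_one_of_mul_eq_one_left this
        have := hp.two_le
        omega
      rw [ht, Nat.Prime.pow_minFac hp ht0]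
    have hcomm : commutator Q ≤ M := by
      rw [← Subgroup.Normal.quotient_commutative_iff_commutator_le]
      haveI : Fact (Nat.card (Q ⧸ M)).Prime := ⟨by rw [← Subgroup.index_eq_card, hMi]; exact hp⟩
      haveI : IsCyclic (Q ⧸ M) := isCyclic_of_prime_card rfl
      exact IsCyclic.commutative
    have hder : ∀ j, derivedSeries Q (j + 1) ≤ (derivedSeries M j).map M.subtype := by
      intro j
      induction j with
      | zero =>
        intro x hx
        exact ⟨⟨x, hcomm hx⟩, by simp, rfl⟩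
      | succ j ihj =>
        show ⁅derivedSeries Q (j + 1), derivedSeries Q (j + 1)⁆ ≤ (⁅derivedSeries M j, derivedSeries M j⁆ : Subgroup M).map M.subtype
        rw [Subgroup.map_commutator]
        exact Subgroup.commutator_mono ihj ihj
    obtain ⟨g', hg', rfl⟩ := hder k hg
    have hM : IsPGroup p M := hQ.to_subgroup M
    have hinv : ∀ m : M, ∀ y ∈ orbit Q x₀, m • y ∈ orbit Q x₀ := by
      intro m y hy
      obtain ⟨q, rfl⟩ := hy
      exact ⟨(m : Q) * q, by simp [mul_smul, Subgroup.smul_def]⟩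
    have hcard : ∀ y ∈ orbit Q x₀, Nat.card (orbit M y) ≤ p ^ k := by
      intro y hy
      have hyO : y ∈ O := by
        obtain ⟨q, rfl⟩ := hy
        exact hO q _ hx₀
      have h1 := hc y hyO
      have hle : stabilizer Q y ≤ M := by
        intro s hs
        obtain ⟨q, rfl⟩ := hy
        have h2 : q⁻¹ * s * q ∈ stabilizer Q x₀ := by
          rw [mem_stabilizer_iff] at hs ⊢
          have hs' : s • q • x₀ = q • x₀ := hs
          calc (q⁻¹ * s * q) • x₀ = q⁻¹ • (s • q • x₀) := by simp [mul_smul]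
            _ = x₀ := by rw [hs']; simp
        have h3 := hSM h2
        have h4 := hMn.conj_mem _ h3 q
        have h5 : q * (q⁻¹ * s * q) * q⁻¹ = s := by group
        rwa [h5] at h4
      have h2 : Nat.card (orbit Q y) = (stabilizer Q y).index := by
        rw [Subgroup.index_eq_card]
        exact Nat.card_congr (orbitEquivQuotientStabilizer Q y)
      have h3 : Nat.card (orbit M y) = (stabilizer M y).index := by
        rw [Subgroup.index_eq_card]
        exact Nat.card_congr (orbitEquivQuotientStabilizer M y)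
      have h4 : stabilizer M y = (stabilizer Q y).subgroupOf M := by
        ext m
        rw [Subgroup.mem_subgroupOf, mem_stabilizer_iff, mem_stabilizer_iff]
        rfl
      have h5 : (stabilizer Q y).relIndex M * M.index = (stabilizer Q y).index := Subgroup.relIndex_mul_index hle
      have h6 : Nat.card (orbit M y) * p = Nat.card (orbit Q y) := by
        rw [h3, h4, h2, ← h5, hMi]; rfl
      rw [← h6, pow_succ] at h1
      exact Nat.le_of_mul_le_mul_right h1 hp.pos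
    exact ih hM (orbit Q x₀) hinv hcard g' hg' x₀ (mem_orbit_self x₀)

end upper

section wreath
variable {p : ℕ} {Ω : Type}

def wr (c : ZMod p) (f : ZMod p → Equiv.Perm Ω) : Equiv.Perm (ZMod p × Ω) where
  toFun x := (x.1 + c, f x.1 x.2)
  invFun x := (x.1 - c, (f (x.1 - c))⁻¹ x.2)
  left_inv x := by simp
  right_inv x := by simp

theorem wr_apply (c : ZMod p) (f : ZMod p → Equiv.Perm Ω) (x : ZMod p × Ω) : wr c f x = (x.1 + c, f x.1 x.2) := rfl

theorem wr_mul (c d : ZMod p) (f g : ZMod p → Equiv.Perm Ω) :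
    wr c f * wr d g = wr (d + c) (fun i => f (i + d) * g i) := by
  ext x
  · simp [wr_apply, add_assoc]
  · simp [wr_apply, Equiv.Perm.mul_apply]

theorem wr_congr {c d : ZMod p} {f g : ZMod p → Equiv.Perm Ω} (h : c = d) (hf : ∀ i, f i = g i) : wr c f = wr d g := by
  subst h
  rw [funext hf]

theorem wr_one : wr (0 : ZMod p) (fun _ => (1 : Equiv.Perm Ω)) = 1 := by
  ext x <;> simp [wr_apply]

theorem wr_inv (c : ZMod p) (f : ZMod p → Equiv.Perm Ω) : (wr c f)⁻¹ = wr (-c) (fun i => (f (i - c))⁻¹) := by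
  apply inv_eq_of_mul_eq_one_left
  rw [wr_mul, ← wr_one (p := p) (Ω := Ω)]
  apply wr_congr
  · simp
  · intro i; simp

def WW (H : Subgroup (Equiv.Perm Ω)) : Subgroup (Equiv.Perm (ZMod p × Ω)) where
  carrier := {σ | ∃ c f, (∀ i, f i ∈ H) ∧ σ = wr c f}
  mul_mem' := by
    rintro _ _ ⟨c, f, hf, rfl⟩ ⟨d, g, hg, rfl⟩
    exact ⟨_, _, fun i => H.mul_mem (hf _) (hg _), wr_mul c d f g⟩
  one_mem' := ⟨0, fun _ => 1, fun _ => H.one_mem, wr_one.symm⟩
  inv_mem' := by
    rintro _ ⟨c, f, hf, rfl⟩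
    exact ⟨_, _, fun i => H.inv_mem (hf _), wr_inv c f⟩

theorem wr0_mul (f g : ZMod p → Equiv.Perm Ω) : wr (0 : ZMod p) f * wr 0 g = wr 0 (fun i => f i * g i) := by
  rw [wr_mul]
  apply wr_congr <;> simp

theorem wr0_inv (f : ZMod p → Equiv.Perm Ω) : (wr (0 : ZMod p) f)⁻¹ = wr 0 (fun i => (f i)⁻¹) := by
  rw [wr_inv]
  apply wr_congr <;> simp

theorem wr0_pow (f : ZMod p → Equiv.Perm Ω) (m : ℕ) : (wr (0 : ZMod p) f) ^ m = wr 0 (fun i => (f i) ^ m) := by
  induction m with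
  | zero => simp [wr_one]
  | succ m ih =>
    rw [pow_succ, ih, wr0_mul]
    apply wr_congr rfl
    intro i; rw [pow_succ]

theorem wr_pow (H : Subgroup (Equiv.Perm Ω)) (c : ZMod p) (f : ZMod p → Equiv.Perm Ω) (hf : ∀ i, f i ∈ H) (m : ℕ) :
    ∃ g, (∀ i, g i ∈ H) ∧ (wr c f) ^ m = wr ((m : ZMod p) * c) g := by
  induction m with
  | zero => exact ⟨fun _ => 1, fun _ => H.one_mem, by simp [wr_one]⟩
  | succ m ih =>
    obtain ⟨g, hg, h⟩ := ih
    refine ⟨fun i => g (i + c) * f i, fun i => H.mul_mem (hg _) (hf _), ?_⟩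
    rw [pow_succ, h, wr_mul]
    apply wr_congr _ (fun _ => rfl)
    push_cast; ring

theorem WW_isPGroup [Fact p.Prime] (H : Subgroup (Equiv.Perm Ω)) [Finite H] (hH : IsPGroup p H) : IsPGroup p (WW (p := p) H) := by
  obtain ⟨e, he⟩ := IsPGroup.iff_card.mp hH
  have hpow : ∀ h ∈ H, h ^ p ^ e = 1 := by
    intro h hh
    have := pow_card_eq_one' (x := (⟨h, hh⟩ : H))
    rw [he] at this
    have h2 := congrArg Subtype.val this
    simpa using h2
  rintro ⟨_, c, f, hf, rfl⟩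
  refine ⟨e + 1, Subtype.ext ?_⟩
  obtain ⟨g, hg, h⟩ := wr_pow H c f hf p
  have h0 : ((p : ℕ) : ZMod p) * c = 0 := by simp
  rw [h0] at h
  show (wr c f) ^ p ^ (e + 1) = 1
  rw [pow_succ', pow_mul, h, wr0_pow, ← wr_one (p := p) (Ω := Ω)]
  exact wr_congr rfl (fun i => hpow _ (hg i))

theorem lift [Fact p.Prime] (H : Subgroup (Equiv.Perm Ω)) (j : ℕ) : ∀ h : H, h ∈ derivedSeries H j →
    ∃ σ : WW (p := p) H, σ ∈ derivedSeries (WW (p := p) H) (j + 1) ∧ ∃ f : ZMod p → Equiv.Perm Ω, (∀ i, f i ∈ H) ∧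
      (σ : Equiv.Perm (ZMod p × Ω)) = wr 0 f ∧ f 0 = h := by
  classical
  have hp : p.Prime := Fact.out
  haveI : Fact (1 < p) := ⟨hp.one_lt⟩
  induction j with
  | zero =>
    intro h _
    let δ : ZMod p → Equiv.Perm Ω := fun i => if i = 0 then (h : Equiv.Perm Ω) else 1
    have hδ : ∀ i, δ i ∈ H := by
      intro i
      by_cases hi : i = 0
      · simp [δ, hi]
      · simp [δ, hi, H.one_mem]
    let a : WW (p := p) H := ⟨wr 0 δ, 0, δ, hδ, rfl⟩
    let τ : WW (p := p) H := ⟨wr 1 (fun _ => 1), 1, _, fun _ => H.one_mem, rfl⟩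
    refine ⟨⁅a, τ⁆, ?_, fun i => δ i * (δ (i - 1))⁻¹, fun i => H.mul_mem (hδ _) (H.inv_mem (hδ _)), ?_, ?_⟩
    · exact Subgroup.commutator_mem_commutator (mem_top _) (mem_top _)
    · show ⁅(wr 0 δ : Equiv.Perm (ZMod p × Ω)), wr 1 (fun _ => 1)⁆ = _
      rw [commutatorElement_def, mul_inv_eq_iff_eq_mul, mul_inv_eq_iff_eq_mul]
      rw [wr_mul, wr_mul, wr_mul]
      apply wr_congr
      · simp
      · intro i
        simp
    · have h1 : ((0 : ZMod p) - 1) ≠ 0 := by
        rw [zero_sub, neg_ne_zero]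
        exact one_ne_zero
      simp [δ, h1]
  | succ j ih =>
    intro h hh
    have hh : h ∈ ⁅derivedSeries H j, derivedSeries H j⁆ := hh
    rw [Subgroup.commutator_def] at hh
    -- closure induction on the subgroup of `H`
    have key : ∀ x (hx : x ∈ Subgroup.closure {g : H | ∃ g₁ ∈ derivedSeries H j, ∃ g₂ ∈ derivedSeries H j, ⁅g₁, g₂⁆ = g}),
        ∃ σ : WW (p := p) H, σ ∈ derivedSeries (WW (p := p) H) (j + 1 + 1) ∧ ∃ f : ZMod p → Equiv.Perm Ω, (∀ i, f i ∈ H) ∧
      (σ : Equiv.Perm (ZMod p × Ω)) = wr 0 f ∧ f 0 = x := by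
      intro x hx
      induction hx using Subgroup.closure_induction with
      | mem x hx =>
        obtain ⟨g₁, hg₁, g₂, hg₂, rfl⟩ := hx
        obtain ⟨σ₁, hσ₁, f₁, hf₁, he₁, h0₁⟩ := ih g₁ hg₁
        obtain ⟨σ₂, hσ₂, f₂, hf₂, he₂, h0₂⟩ := ih g₂ hg₂
        refine ⟨⁅σ₁, σ₂⁆, ?_, fun i => ⁅f₁ i, f₂ i⁆, ?_, ?_, ?_⟩
        · exact Subgroup.commutator_mem_commutator hσ₁ hσ₂
        · intro i
          show ⁅f₁ i, f₂ i⁆ ∈ H
          rw [commutatorElement_def]
          exact H.mul_mem (H.mul_mem (H.mul_mem (hf₁ i) (hf₂ i)) (H.inv_mem (hf₁ i))) (H.inv_mem (hf₂ i))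
        · show ⁅(σ₁ : Equiv.Perm (ZMod p × Ω)), (σ₂ : Equiv.Perm (ZMod p × Ω))⁆ = _
          rw [he₁, he₂, commutatorElement_def, wr0_inv, wr0_inv, wr0_mul, wr0_mul, wr0_mul]
          exact wr_congr rfl (fun i => by rw [commutatorElement_def])
        · show ⁅f₁ 0, f₂ 0⁆ = ((⁅g₁, g₂⁆ : H) : Equiv.Perm Ω)
          rw [h0₁, h0₂]; rfl
      | one => exact ⟨1, one_mem _, fun _ => 1, fun _ => H.one_mem, by simp [wr_one], rfl⟩
      | mul x y _ _ hx hy =>
        obtain ⟨σ₁, hσ₁, f₁, hf₁, he₁, h0₁⟩ := hx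
        obtain ⟨σ₂, hσ₂, f₂, hf₂, he₂, h0₂⟩ := hy
        refine ⟨σ₁ * σ₂, mul_mem hσ₁ hσ₂, fun i => f₁ i * f₂ i, fun i => H.mul_mem (hf₁ i) (hf₂ i), ?_, ?_⟩
        · rw [Subgroup.coe_mul, he₁, he₂, wr0_mul]
        · show f₁ 0 * f₂ 0 = _
          rw [h0₁, h0₂]; rfl
      | inv x _ hx =>
        obtain ⟨σ₁, hσ₁, f₁, hf₁, he₁, h0₁⟩ := hx
        refine ⟨σ₁⁻¹, inv_mem hσ₁, fun i => (f₁ i)⁻¹, fun i => H.inv_mem (hf₁ i), ?_, ?_⟩
        · rw [Subgroup.coe_inv, he₁, wr0_inv]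
        · show (f₁ 0)⁻¹ = _
          rw [h0₁]; rfl
    exact key h hh

theorem step_ne [Fact p.Prime] (H : Subgroup (Equiv.Perm Ω)) (d : ℕ) (hd : derivedSeries H d ≠ ⊥) :
    derivedSeries (WW (p := p) H) (d + 1) ≠ ⊥ := by
  obtain ⟨⟨h, hh⟩, hne⟩ := Subgroup.ne_bot_iff_exists_ne_one.mp hd
  obtain ⟨σ, hσ, f, hf, he, h0⟩ := lift (p := p) H d h hh
  intro hbot
  rw [hbot, Subgroup.mem_bot] at hσ
  apply hne
  apply Subtype.ext
  apply Subtype.ext
  show (h : Equiv.Perm Ω) = 1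
  rw [← h0]
  ext x
  have h1 : (σ : Equiv.Perm (ZMod p × Ω)) = 1 := by rw [hσ]; rfl
  rw [he] at h1
  have h2 := congrArg (fun τ : Equiv.Perm (ZMod p × Ω) => (τ ((0 : ZMod p), x)).2) h1
  simpa [wr_apply] using h2

theorem tower [Fact p.Prime] (k : ℕ) : ∃ (Ω : Type) (_ : Finite Ω), Nat.card Ω = p ^ (k + 1) ∧
    ∃ W : Subgroup (Equiv.Perm Ω), IsPGroup p W ∧ derivedSeries W k ≠ ⊥ := by
  have hp : p.Prime := Fact.out
  haveI : NeZero p := ⟨hp.ne_zero⟩
  haveI : Fact (1 < p) := ⟨hp.one_lt⟩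
  induction k with
  | zero =>
    refine ⟨ZMod p × PUnit, inferInstance, by simp, WW (p := p) (⊥ : Subgroup (Equiv.Perm PUnit)), WW_isPGroup _ IsPGroup.of_bot, ?_⟩
    rw [derivedSeries_zero]
    intro h
    have h1 : (⟨wr 1 (fun _ => 1), 1, _, fun _ => Subgroup.one_mem _, rfl⟩ : WW (p := p) (⊥ : Subgroup (Equiv.Perm PUnit))) ∈ (⊤ : Subgroup (WW (p := p) (⊥ : Subgroup (Equiv.Perm PUnit)))) := trivial
    rw [h, Subgroup.mem_bot] at h1
    have h2 := congrArg (fun σ : WW (p := p) (⊥ : Subgroup (Equiv.Perm PUnit)) => ((σ : Equiv.Perm (ZMod p × PUnit)) ((0 : ZMod p), PUnit.unit)).1) h1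
    simp [wr_apply] at h2
  | succ k ih =>
    obtain ⟨Ω, hΩ, hc, W, hW, hd⟩ := ih
    refine ⟨ZMod p × Ω, inferInstance, ?_, WW (p := p) W, WW_isPGroup _ hW, step_ne W k hd⟩
    rw [Nat.card_prod, Nat.card_zmod, hc, pow_succ' p (k + 1)]

end wreath

/-- Let p be a prime, n ≥ 1, and P a Sylow p-subgroup of the symmetric group on n letters. Then the derived length of P is exactly k = ⌊log_p n⌋ (the largest k with p^k ≤ n): the k-th derived subgroup of P is trivial and, when k ≥ 1, the (k−1)-st is not. -/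
theorem result (p : ℕ) [Fact p.Prime] (n : ℕ) (hn : 1 ≤ n) (P : Sylow p (Equiv.Perm (Fin n))) : derivedSeries ↥(P : Subgroup (Equiv.Perm (Fin n))) (Nat.log p n) = ⊥ ∧ (1 ≤ Nat.log p n → derivedSeries ↥(P : Subgroup (Equiv.Perm (Fin n))) (Nat.log p n - 1) ≠ ⊥) := by
  have hp : p.Prime := Fact.out
  constructor
  · rw [Subgroup.eq_bot_iff_forall]
    intro g hg
    apply Subtype.ext
    ext x
    have hP : IsPGroup p (P : Subgroup (Equiv.Perm (Fin n))) := P.isPGroup'
    have h1 := upper (Nat.log p n) hP (Ω := Fin n) Set.univ (fun _ _ _ => trivial) (by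
      intro y _
      obtain ⟨a, ha⟩ := hP.card_orbit y
      rw [ha]
      apply Nat.pow_le_pow_right hp.pos
      apply Nat.le_log_of_pow_le hp.one_lt
      rw [← ha]
      calc Nat.card (orbit (P : Subgroup (Equiv.Perm (Fin n))) y) ≤ Nat.card (Fin n) := Finite.card_subtype_le _
        _ = n := by simp) g hg x trivial
    exact congrArg Fin.val (show (g : Equiv.Perm (Fin n)) x = x from h1)
  · intro hk
    obtain ⟨Ω, hΩ, hc, W, hW, hd⟩ := tower (p := p) (Nat.log p n - 1)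
    have hc' : Nat.card Ω = p ^ Nat.log p n := by rw [hc]; congr 1; omega
    have hle : Nat.card Ω ≤ n := by
      rw [hc']; exact Nat.pow_log_le_self p (by omega)
    haveI := Fintype.ofFinite Ω
    obtain ⟨ι⟩ : Nonempty (Ω ↪ Fin n) := Function.Embedding.nonempty_of_card_le (by
      rw [Fintype.card_fin, ← Nat.card_eq_fintype_card]; exact hle)
    let φ : W →* Equiv.Perm (Fin n) := (Equiv.Perm.viaEmbeddingHom ι).comp W.subtype
    have hφ : Function.Injective φ := (Equiv.Perm.viaEmbeddingHom_injective ι).comp Subtype.val_injective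
    have hR : IsPGroup p φ.range := hW.of_surjective φ.rangeRestrict φ.rangeRestrict_surjective
    obtain ⟨Q, hQ⟩ := hR.exists_le_sylow
    obtain ⟨g, hg⟩ := MulAction.exists_smul_eq (Equiv.Perm (Fin n)) Q P
    have hmem : ∀ w : W, (MulAut.conj g).toMonoidHom (φ w) ∈ (P : Subgroup (Equiv.Perm (Fin n))) := by
      intro w
      rw [← hg, Sylow.coe_subgroup_smul]
      have h1 : φ w ∈ (Q : Subgroup (Equiv.Perm (Fin n))) := hQ ⟨w, rfl⟩
      exact (Subgroup.smul_mem_pointwise_smul_iff (a := MulAut.conj g)).mpr h1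
    let ψ : W →* (P : Subgroup (Equiv.Perm (Fin n))) := ((MulAut.conj g).toMonoidHom.comp φ).codRestrict _ hmem
    have hψ : Function.Injective ψ := by
      intro a b hab
      apply hφ
      have h2 := congrArg Subtype.val hab
      exact (MulAut.conj g).injective h2
    obtain ⟨⟨h, hh⟩, hne⟩ := Subgroup.ne_bot_iff_exists_ne_one.mp hd
    intro hbot
    have h3 := map_derivedSeries_le_derivedSeries ψ (Nat.log p n - 1) (Subgroup.mem_map_of_mem ψ hh)
    rw [hbot, Subgroup.mem_bot] at h3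
    apply hne
    apply Subtype.ext
    exact hψ (h3.trans (map_one ψ).symm)

end Cfsg.Agent.S4014
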