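import Cfsg.Statements.S4024
import Mathlib
import Cfsg.Agent.S4023
import Cfsg.Agent.Lib.H1Core
import Cfsg.Agent.Lib.Comp2
import Cfsg.Agent.Lib.PSolv
import Cfsg.Agent.Lib.PJ4
-- import your own Cfsg.Agent.* helpers here

set_option autoImplicit false
open Cfsg

namespace Cfsg.Agent.S4024

open Subgroup

theorem char_pp {X : Type*} [Group X] [Finite X] (p : ℕ) : (pPrimePCore p X).Characteristic := by
  haveI hK : (pPrimeCore p X).Normal := Lib.H1Core.pPrimeCore_normal p X
  haveI hKc : (pPrimeCore p X).Characteristic := Lib.Comp2.pPrimeCore_char p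
  haveI hTc : (pCore p (X ⧸ pPrimeCore p X)).Characteristic := Lib.Comp2.pCore_char p
  rw [Subgroup.characteristic_iff_comap_eq]
  intro φ
  have hK1 : (pPrimeCore p X).map φ.toMonoidHom = pPrimeCore p X := by
    exact Subgroup.characteristic_iff_map_eq.mp hKc φ
  let φb : (X ⧸ pPrimeCore p X) ≃* (X ⧸ pPrimeCore p X) :=
    QuotientGroup.congr (pPrimeCore p X) (pPrimeCore p X) φ hK1
  have hT := Subgroup.characteristic_iff_comap_eq.mp hTc φb
  ext x
  have hx : (QuotientGroup.mk' (pPrimeCore p X)) (φ x) = φb ((QuotientGroup.mk' (pPrimeCore p X)) x) := rfl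
  show (QuotientGroup.mk' (pPrimeCore p X)) (φ x) ∈ pCore p (X ⧸ pPrimeCore p X) ↔
    (QuotientGroup.mk' (pPrimeCore p X)) x ∈ pCore p (X ⧸ pPrimeCore p X)
  rw [hx]
  conv_rhs => rw [← hT]
  rfl

/-- The structural lemma: a normal `p`-solvable subgroup with order divisible by `p`
yields a normal `p'`-subgroup `K` and a nontrivial normal `p`-subgroup of `G/K`. -/
theorem exists_K {G : Type*} [Group G] [Finite G] {p : ℕ} [hp : Fact p.Prime]
    (H : Subgroup G) [H.Normal] (hsolv : Cfsg.IsPSolvable p H) (hdiv : p ∣ Nat.card H) :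
    ∃ (K : Subgroup G) (_ : K.Normal) (V : Subgroup (G ⧸ K)), V.Normal ∧ IsPGroup p V ∧ V ≠ ⊥ ∧
      Nat.Coprime (Nat.card K) p := by
  classical
  haveI hK₀ : (pPrimeCore p H).Normal := Lib.H1Core.pPrimeCore_normal p H
  haveI hK₀c : (pPrimeCore p H).Characteristic := Lib.Comp2.pPrimeCore_char p
  haveI hU₀c : (pPrimePCore p H).Characteristic := char_pp p
  set K₀ := pPrimeCore p H with hK₀def
  set K : Subgroup G := K₀.map H.subtype with hK
  haveI hKn : K.Normal := Lib.H1Core.normal_map_of_characteristic H K₀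
  have hcopK₀ : Nat.Coprime (Nat.card K₀) p := Lib.H1Core.pPrimeCore_coprime (G := H) p
  have hKcard : Nat.card K = Nat.card K₀ :=
    (Nat.card_congr (Subgroup.equivMapOfInjective K₀ H.subtype H.subtype_injective).toEquiv).symm
  set U : Subgroup G := (pPrimePCore p H).map H.subtype with hU
  haveI hUn : U.Normal := Lib.H1Core.normal_map_of_characteristic H (pPrimePCore p H)
  set V : Subgroup (G ⧸ K) := U.map (QuotientGroup.mk' K) with hV
  haveI hVn : V.Normal := Subgroup.Normal.map hUn _ (QuotientGroup.mk'_surjective K)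
  -- nontriviality of the core
  have hTne : pCore p (H ⧸ K₀) ≠ ⊥ := by
    intro hT
    have hO : pPrimeCore p (H ⧸ K₀) = ⊥ := Lib.PJ.pPrimeCore_quot
    have hsQ : Cfsg.IsPSolvable p (H ⧸ K₀) :=
      Lib.PSolv.isPSolvable_of_surjective (f := QuotientGroup.mk' K₀) (QuotientGroup.mk'_surjective K₀) hsolv
    have hs2 := Lib.PSolv.isPSolvable_subgroup hsQ (centralizer (pCore p (H ⧸ K₀) : Set (H ⧸ K₀)))
    have hle := Lib.PSolv.centralizer_le_of_isPSolvable hO hs2
    rw [hT] at hle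
    have hall : ∀ x : H ⧸ K₀, x = 1 := by
      intro x
      have : x ∈ centralizer (((⊥ : Subgroup (H ⧸ K₀)) : Set (H ⧸ K₀))) := by
        rw [Subgroup.mem_centralizer_iff]
        intro y hy
        have hy1 : y = 1 := by simpa using hy
        rw [hy1]; simp
      simpa using hle this
    have htop : K₀ = ⊤ := by
      rw [eq_top_iff]
      intro x _
      exact (QuotientGroup.eq_one_iff x).mp (hall _)
    rw [htop] at hcopK₀
    rw [Subgroup.card_top] at hcopK₀
    have := Nat.Coprime.eq_one_of_dvd hcopK₀.symm hdiv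
    exact hp.1.ne_one this
  obtain ⟨t, ht, ht1⟩ : ∃ t ∈ pCore p (H ⧸ K₀), t ≠ 1 := by
    by_contra h
    push_neg at h
    exact hTne ((Subgroup.eq_bot_iff_forall _).mpr h)
  obtain ⟨h, rfl⟩ := QuotientGroup.mk_surjective t
  have hne1 : ∀ h : H, (QuotientGroup.mk' K) (h : G) = 1 → (h : H ⧸ K₀) = 1 := by
    intro h hh
    have hmem : (h : G) ∈ K := (QuotientGroup.eq_one_iff _).mp hh
    obtain ⟨k, hk, hkh⟩ := hmem
    have : k = h := Subtype.ext hkh
    rw [← this]
    exact (QuotientGroup.eq_one_iff k).mpr hk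
  refine ⟨K, hKn, V, hVn, ?_, ?_, by rw [hKcard]; exact hcopK₀⟩
  · intro v
    obtain ⟨v, hv⟩ := v
    obtain ⟨u, ⟨h', hh', rfl⟩, rfl⟩ := hv
    have hp0 := Lib.H1Core.pCore_isPGroup (G := H ⧸ K₀) p
    obtain ⟨k, hk⟩ := hp0 ⟨(QuotientGroup.mk' K₀) h', hh'⟩
    refine ⟨k, Subtype.ext ?_⟩
    have h1 : ((h' : H ⧸ K₀)) ^ p ^ k = 1 := congrArg Subtype.val hk
    rw [← QuotientGroup.mk_pow, QuotientGroup.eq_one_iff] at h1
    have h2 : ((h' : G)) ^ p ^ k ∈ K := ⟨h' ^ p ^ k, h1, by simp⟩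
    have h3 : (QuotientGroup.mk' K) ((h' : G) ^ p ^ k) = 1 := (QuotientGroup.eq_one_iff _).mpr h2
    simpa using h3
  · intro hV0
    have hm : (QuotientGroup.mk' K) (h : G) ∈ V := ⟨(h : G), ⟨h, ht, rfl⟩, rfl⟩
    rw [hV0] at hm
    exact ht1 (hne1 h ((Subgroup.mem_bot).mp hm))

theorem comm_mod {G : Type*} [Group G] [Finite G] {p : ℕ} [hp : Fact p.Prime]
    (hC : ∀ H K : Subgroup G, IsPGroup p H → IsPGroup p K → Nat.card H = Nat.card K →
      ∃ g : G, K = H.map (MulAut.conj g).toMonoidHom)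
    (K : Subgroup G) [K.Normal] (hcop : Nat.Coprime (Nat.card K) p)
    (V : Subgroup (G ⧸ K)) [V.Normal] (hVp : IsPGroup p V) (hVne : V ≠ ⊥) :
    ∀ x y : G, x ^ p = 1 → y ^ p = 1 → x * y * x⁻¹ * y⁻¹ ∈ K := by
  classical
  haveI hnt : Nontrivial V := (Subgroup.nontrivial_iff_ne_bot V).mpr hVne
  obtain ⟨z₀, hz₀, hz₀c⟩ := S4023.exists_central hVp
  set D : Subgroup (G ⧸ K) := V ⊓ Subgroup.centralizer (V : Set (G ⧸ K)) with hD
  haveI hDn : D.Normal := by
    rw [hD]; infer_instance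
  set D' : Subgroup G := D.comap (QuotientGroup.mk' K) with hD'
  haveI hD'n : D'.Normal := Subgroup.Normal.comap hDn _
  have hz₀D : (z₀ : G ⧸ K) ∈ D := by
    refine ⟨z₀.2, ?_⟩
    show (z₀ : G ⧸ K) ∈ Subgroup.centralizer (V : Set (G ⧸ K))
    rw [Subgroup.mem_centralizer_iff]
    intro v hv
    exact congrArg Subtype.val (hz₀c ⟨v, hv⟩)
  obtain ⟨z₁, hz₁⟩ := QuotientGroup.mk_surjective (z₀ : G ⧸ K)
  obtain ⟨a, m, hm, hn⟩ := Nat.exists_eq_pow_mul_and_not_dvd (n := orderOf z₁)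
    (orderOf_pos z₁).ne' p hp.1.ne_one
  set z : G := z₁ ^ m with hz
  have hzmk : (z : G ⧸ K) = (z₀ : G ⧸ K) ^ m := by rw [hz, QuotientGroup.mk_pow, hz₁]
  have hzD : z ∈ D' := by
    show (z : G ⧸ K) ∈ D
    rw [hzmk]; exact D.pow_mem hz₀D m
  have hz0o : orderOf (z₀ : G ⧸ K) = p := by rw [Subgroup.orderOf_coe]; exact hz₀
  have hzpa : z ^ (p ^ a) = 1 := by
    rw [hz, ← pow_mul, mul_comm, ← hn, pow_orderOf_eq_one]
  have hzpK : z ^ p ∈ K := by
    rw [← QuotientGroup.eq_one_iff, QuotientGroup.mk_pow, hzmk, ← pow_mul, mul_comm, pow_mul,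
      ← hz0o, pow_orderOf_eq_one, one_pow]
  have hzp : z ^ p = 1 := by
    have h1 : orderOf (z ^ p) ∣ p ^ a := by
      apply orderOf_dvd_of_pow_eq_one
      rw [← pow_mul, mul_comm, pow_mul, hzpa, one_pow]
    have h2 : orderOf (z ^ p) ∣ Nat.card K := by
      have := Subgroup.orderOf_dvd_natCard K hzpK
      exact this
    have h3 : Nat.Coprime (orderOf (z ^ p)) (p ^ a) :=
      Nat.Coprime.coprime_dvd_left h2 (Nat.Coprime.pow_right a hcop)
    exact orderOf_eq_one_iff.mp (Nat.Coprime.eq_one_of_dvd h3 h1)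
  have hz1 : z ≠ 1 := by
    intro h
    have h1 : (z₀ : G ⧸ K) ^ m = 1 := by rw [← hzmk, h]; rfl
    have := orderOf_dvd_of_pow_eq_one h1
    rw [hz0o] at this
    exact hm this
  have hzo : orderOf z = p := orderOf_eq_prime hzp hz1
  have hmem : ∀ x : G, x ^ p = 1 → x ∈ D' := by
    intro x hx
    by_cases hx1 : x = 1
    · rw [hx1]; exact D'.one_mem
    have hxo : orderOf x = p := orderOf_eq_prime hx hx1
    have hc1 : Nat.card (zpowers z) = p ^ 1 := by rw [Nat.card_zpowers, hzo, pow_one]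
    have hc2 : Nat.card (zpowers x) = p ^ 1 := by rw [Nat.card_zpowers, hxo, pow_one]
    obtain ⟨g, hg⟩ := hC (zpowers z) (zpowers x) (IsPGroup.of_card hc1) (IsPGroup.of_card hc2)
      (hc1.trans hc2.symm)
    have hxm : x ∈ (zpowers z).map (MulAut.conj g).toMonoidHom := hg ▸ mem_zpowers x
    obtain ⟨t, ht, htx⟩ := hxm
    have ht' : t ∈ D' := (zpowers_le.mpr hzD) ht
    have := hD'n.conj_mem t ht' g
    rw [← htx]
    exact this
  intro x y hx hy
  have hxD := hmem x hx
  have hyD := hmem y hy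
  have hxc : (x : G ⧸ K) ∈ Subgroup.centralizer (V : Set (G ⧸ K)) := hxD.2
  have hyV : (y : G ⧸ K) ∈ V := hyD.1
  have h1 : (y : G ⧸ K) * (x : G ⧸ K) = (x : G ⧸ K) * (y : G ⧸ K) :=
    Subgroup.mem_centralizer_iff.mp hxc _ hyV
  rw [← QuotientGroup.eq_one_iff]
  simp only [QuotientGroup.mk_mul, QuotientGroup.mk_inv]
  rw [← h1]
  group

/-- Let p be an odd prime and G a finite group in which any two p-subgroups of the same order are conjugate, with Sylow p-subgroup P. If H is a normal p-solvable subgroup of G whose order is divisible by p, then P is abelian, and either P ≤ H or P is cyclic. -/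
theorem result {G : Type*} [Group G] [Finite G]
    {p : ℕ} [Fact p.Prime] (hp : p ≠ 2) (hC : ∀ H K : Subgroup G, IsPGroup p H → IsPGroup p K → Nat.card H = Nat.card K →
      ∃ g : G, K = H.map (MulAut.conj g).toMonoidHom) (P : Sylow p G)
    (H : Subgroup G) [H.Normal] (hsolv : Cfsg.IsPSolvable p H) (hdiv : p ∣ Nat.card H) :
    IsMulCommutative P ∧ ((P : Subgroup G) ≤ H ∨ IsCyclic P) := by
  obtain ⟨K, hKn, V, hVn, hVp, hVne, hcop⟩ := exists_K H hsolv hdiv
  have hcomm := comm_mod hC K hcop V hVp hVne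
  rcases S4023.result hC P with h | h | ⟨h2, _⟩ | ⟨_, hna, hc, hexp⟩
  · refine ⟨⟨⟨fun a b => (IsCyclic.commGroup (α := P)).mul_comm a b⟩⟩, Or.inr h⟩
  · refine ⟨h.1, Or.inl ?_⟩
    intro a ha
    by_cases ha1 : a = 1
    · rw [ha1]; exact H.one_mem
    have hao : orderOf a = p := orderOf_eq_prime (h.2 a ha) ha1
    obtain ⟨t, ht⟩ := exists_prime_orderOf_dvd_card' (G := H) p hdiv
    have hto : orderOf (t : G) = p := by rw [Subgroup.orderOf_coe]; exact ht
    have hc1 : Nat.card (zpowers (t : G)) = p ^ 1 := by rw [Nat.card_zpowers, hto, pow_one]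
    have hc2 : Nat.card (zpowers a) = p ^ 1 := by rw [Nat.card_zpowers, hao, pow_one]
    obtain ⟨g, hg⟩ := hC (zpowers (t : G)) (zpowers a) (IsPGroup.of_card hc1) (IsPGroup.of_card hc2)
      (hc1.trans hc2.symm)
    have hxm : a ∈ (zpowers (t : G)).map (MulAut.conj g).toMonoidHom := hg ▸ mem_zpowers a
    obtain ⟨w, hw, hwa⟩ := hxm
    have hwH : w ∈ H := (zpowers_le.mpr t.2) hw
    rw [← hwa]
    exact (inferInstance : H.Normal).conj_mem w hwH g
  · exact absurd h2 hp
  · exfalso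
    apply hna
    have hall : ∀ a : (P : Subgroup G), a ^ p = 1 := by
      intro a
      have := Monoid.pow_exponent_eq_one a
      rwa [hexp] at this
    refine ⟨⟨fun a b => ?_⟩⟩
    have h1 : (a : G) ^ p = 1 := congrArg Subtype.val (hall a)
    have h2 : (b : G) ^ p = 1 := congrArg Subtype.val (hall b)
    have h3 := hcomm _ _ h1 h2
    set c : (P : Subgroup G) := a * b * a⁻¹ * b⁻¹ with hc
    have h4 : (c : G) ∈ K := by simpa [hc] using h3
    have h5 : c = 1 := by
      have h6 : orderOf (c : G) ∣ Nat.card K := Subgroup.orderOf_dvd_natCard K h4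
      have h7 : orderOf (c : G) ∣ p := orderOf_dvd_of_pow_eq_one (by
        have := congrArg Subtype.val (hall c)
        simpa using this)
      have h8 : Nat.Coprime (orderOf (c : G)) p := Nat.Coprime.coprime_dvd_left h6 hcop
      have h9 := Nat.Coprime.eq_one_of_dvd h8 h7
      apply Subtype.ext
      exact orderOf_eq_one_iff.mp h9
    calc a * b = (a * b * a⁻¹ * b⁻¹) * (b * a) := by group
      _ = b * a := by rw [← hc, h5, one_mul]

end Cfsg.Agent.S4024
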