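import Cfsg.Statements.S4028
import Cfsg.Agent.Lib.FGSBasic
import Cfsg.Agent.Lib.Herstein
-- import your own Cfsg.Agent.* helpers here

set_option autoImplicit false
open Cfsg

namespace Cfsg.Agent.S4028

theorem comm_of_odd {G : Type*} [Group G] [Finite G] (x t : G) {k : ℕ} (hx : orderOf x = 2 ^ k)
    (ht : Odd (orderOf t)) (hn : t ∈ Subgroup.normalizer ((Subgroup.zpowers x : Subgroup G) : Set G)) :
    t * x = x * t := by
  let H : Subgroup G := Subgroup.zpowers x
  let φ : MulAut H := H.normalizerMonoidHom ⟨t, hn⟩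
  have h1 : orderOf φ ∣ orderOf t := by
    have h := orderOf_map_dvd H.normalizerMonoidHom (⟨t, hn⟩ : Subgroup.normalizer (H : Set G))
    rwa [Subgroup.orderOf_mk] at h
  have h2 : orderOf φ ∣ Nat.totient (Nat.card H) := by
    rw [← IsCyclic.card_mulAut]
    exact orderOf_dvd_natCard φ
  have hcH : Nat.card H = 2 ^ k := by
    rw [Nat.card_zpowers, hx]
  rw [hcH] at h2
  have h3 : ∃ j, Nat.totient (2 ^ k) = 2 ^ j := by
    rcases Nat.eq_zero_or_pos k with rfl | hk
    · exact ⟨0, by simp⟩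
    · exact ⟨k - 1, by rw [Nat.totient_prime_pow Nat.prime_two hk]; simp⟩
  obtain ⟨j, hj⟩ := h3
  rw [hj] at h2
  have h4 : orderOf φ = 1 := by
    obtain ⟨i, _, hi⟩ := (Nat.dvd_prime_pow Nat.prime_two).1 h2
    rw [hi] at h1 ⊢
    by_cases hi0 : i = 0
    · simp [hi0]
    · exfalso
      have h5 : 2 ∣ orderOf t := (dvd_pow_self 2 hi0).trans h1
      exact (Nat.not_even_iff_odd.2 ht) (even_iff_two_dvd.2 h5)
  have h5 : φ = 1 := orderOf_eq_one_iff.1 h4
  have h6 : φ ⟨x, Subgroup.mem_zpowers x⟩ = ⟨x, Subgroup.mem_zpowers x⟩ := by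
    rw [h5]
    rfl
  have h7 : t * x * t⁻¹ = x := congrArg Subtype.val h6
  exact mul_inv_eq_iff_eq_mul.1 h7

theorem mem_norm_of_conj {G : Type*} [Group G] [Finite G] (x g y : G) (h : g * x * g⁻¹ ∈ Subgroup.zpowers y) (hxy : Subgroup.zpowers y ≤ Subgroup.zpowers x) (hcard : Nat.card (Subgroup.zpowers x) = Nat.card (Subgroup.zpowers y)) :
    g ∈ Subgroup.normalizer ((Subgroup.zpowers x : Subgroup G) : Set G) := by
  have hxe : Subgroup.zpowers y = Subgroup.zpowers x := Subgroup.eq_of_le_of_card_ge hxy (le_of_eq hcard)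
  apply Lib.Herstein.mem_normalizer_of_conj_le
  intro w hw
  obtain ⟨i, rfl⟩ := Subgroup.mem_zpowers_iff.1 hw
  rw [← hxe] 
  have : g * x ^ i * g⁻¹ = (g * x * g⁻¹) ^ i := by
    rw [conj_zpow]
  rw [this]
  exact Subgroup.zpow_mem _ h i

/-- Let G be a finite group with Sylow 2-subgroup P. Then N_G(⟨x⟩) = C_G(x) holds for every 2-element x of G if and only if N_P(⟨y⟩) = C_P(y) holds for every y ∈ P (computed inside P). -/
theorem result {G : Type*} [Group G] [Finite G] (P : Sylow 2 G) :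
    (∀ x : G, (∀ r : ℕ, r.Prime → r ∣ orderOf x → r = 2) →
      Subgroup.normalizer ((Subgroup.zpowers x : Subgroup G) : Set G) ≤ Subgroup.centralizer {x}) ↔
    (∀ y : ↥(P : Subgroup G), Subgroup.normalizer ((Subgroup.zpowers y : Subgroup ↥(P : Subgroup G)) : Set ↥(P : Subgroup G)) ≤
        Subgroup.centralizer {y}) := by
  classical
  haveI : Fact (Nat.Prime 2) := ⟨Nat.prime_two⟩
  constructor
  · intro h y g hg
    have hy : ∃ k, orderOf (y : G) = 2 ^ k := Lib.FGSBasic.orderOf_of_mem_sylow P y.2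
    obtain ⟨k, hk⟩ := hy
    have hprime : ∀ r : ℕ, r.Prime → r ∣ orderOf (y : G) → r = 2 := by
      intro r hr hd
      rw [hk] at hd
      exact (Nat.prime_dvd_prime_iff_eq hr Nat.prime_two).1 (hr.dvd_of_dvd_pow hd)
    have hgG : (g : G) ∈ Subgroup.normalizer ((Subgroup.zpowers (y : G) : Subgroup G) : Set G) := by
      apply Lib.Herstein.mem_normalizer_of_conj_le
      intro w hw
      obtain ⟨i, rfl⟩ := Subgroup.mem_zpowers_iff.1 hw
      have h1 := (Subgroup.mem_normalizer_iff.1 hg y).1 (Subgroup.mem_zpowers y)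
      obtain ⟨j, hj⟩ := Subgroup.mem_zpowers_iff.1 h1
      have h2 : (g : G) * (y : G) * (g : G)⁻¹ = (y : G) ^ j := by
        have := congrArg Subtype.val hj
        simp only [Subgroup.coe_zpow, Subgroup.coe_mul, Subgroup.coe_inv] at this
        exact this.symm
      have h3 : (g : G) * (y : G) ^ i * (g : G)⁻¹ = ((g : G) * (y : G) * (g : G)⁻¹) ^ i := by
        rw [conj_zpow]
      rw [h3, h2, ← zpow_mul]
      exact Subgroup.zpow_mem_zpowers _ _
    have h4 := Subgroup.mem_centralizer_singleton_iff.1 (h (y : G) hprime hgG)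
    rw [Subgroup.mem_centralizer_singleton_iff]
    exact Subtype.ext h4
  · intro h x hx g hg
    by_cases hx1 : x = 1
    · subst hx1
      rw [Subgroup.mem_centralizer_singleton_iff]
      simp
    have hxo : orderOf x ≠ 1 := fun h => hx1 (orderOf_eq_one_iff.1 h)
    obtain ⟨k, hk⟩ : ∃ k, orderOf x = 2 ^ k :=
      ⟨_, Nat.eq_prime_pow_of_unique_prime_dvd (orderOf_pos x).ne' (fun {d} hd hdx => hx d hd hdx)⟩
    obtain ⟨a, b, ha, hb, hab, ⟨m, hm⟩, hcop⟩ := Lib.FGSBasic.exists_p_decomp 2 g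
    have hpowmem : ∀ z ∈ Subgroup.zpowers g, z ∈ Subgroup.normalizer ((Subgroup.zpowers x : Subgroup G) : Set G) := by
      intro z hz
      obtain ⟨i, rfl⟩ := Subgroup.mem_zpowers_iff.1 hz
      exact Subgroup.zpow_mem _ hg i
    have hb1 : b * x = x * b := by
      apply comm_of_odd x b hk _ (hpowmem b hb)
      rw [← Nat.not_even_iff_odd]
      intro he
      have := Nat.dvd_gcd (even_iff_two_dvd.1 he) (dvd_refl 2)
      rw [hcop] at this
      omega
    have ha1 : a * x = x * a := by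
      -- `⟨x⟩⟨a⟩` is a 2-group
      have hap : IsPGroup 2 (Subgroup.zpowers a) := IsPGroup.of_card (n := m) (by rw [Nat.card_zpowers, hm])
      have hxp : IsPGroup 2 (Subgroup.zpowers x) := IsPGroup.of_card (n := k) (by rw [Nat.card_zpowers, hk])
      have hle : Subgroup.zpowers a ≤ Subgroup.normalizer ((Subgroup.zpowers x : Subgroup G) : Set G) := by
        intro z hz
        obtain ⟨i, rfl⟩ := Subgroup.mem_zpowers_iff.1 hz
        exact Subgroup.zpow_mem _ (hpowmem a ha) i
      have hS : IsPGroup 2 ↥(Subgroup.zpowers x ⊔ Subgroup.zpowers a) := hxp.to_sup_of_normal_left' hap hle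
      obtain ⟨Q, hQ⟩ := hS.exists_le_sylow
      obtain ⟨u, hu⟩ := MulAction.exists_smul_eq G Q P
      have hmem : ∀ z ∈ (Q : Subgroup G), u * z * u⁻¹ ∈ (P : Subgroup G) := by
        intro z hz
        rw [← hu, Lib.FGSBasic.mem_smul_sylow_iff]
        simpa [mul_assoc] using hz
      have hxQ : x ∈ (Q : Subgroup G) := hQ (Subgroup.mem_sup_left (Subgroup.mem_zpowers x))
      have haQ : a ∈ (Q : Subgroup G) := hQ (Subgroup.mem_sup_right (Subgroup.mem_zpowers a))
      let y : ↥(P : Subgroup G) := ⟨u * x * u⁻¹, hmem x hxQ⟩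
      let w : ↥(P : Subgroup G) := ⟨u * a * u⁻¹, hmem a haQ⟩
      have hw : w ∈ Subgroup.normalizer ((Subgroup.zpowers y : Subgroup ↥(P : Subgroup G)) : Set ↥(P : Subgroup G)) := by
        apply Lib.Herstein.mem_normalizer_of_conj_le
        intro z hz
        obtain ⟨i, rfl⟩ := Subgroup.mem_zpowers_iff.1 hz
        have h1 := (Subgroup.mem_normalizer_iff.1 (hpowmem a ha) x).1 (Subgroup.mem_zpowers x)
        obtain ⟨j, hj⟩ := Subgroup.mem_zpowers_iff.1 h1
        have h2 : w * y * w⁻¹ = y ^ j := by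
          apply Subtype.ext
          simp only [Subgroup.coe_mul, Subgroup.coe_inv, Subgroup.coe_zpow, w, y]
          rw [conj_zpow, hj]
          group
        have h3 : w * y ^ i * w⁻¹ = (w * y * w⁻¹) ^ i := by
          rw [conj_zpow]
        rw [h3, h2, ← zpow_mul]
        exact Subgroup.zpow_mem_zpowers _ _
      have h5 := Subgroup.mem_centralizer_singleton_iff.1 (h y hw)
      have h6 : u * a * u⁻¹ * (u * x * u⁻¹) = u * x * u⁻¹ * (u * a * u⁻¹) := congrArg Subtype.val h5
      apply mul_left_cancel (a := u)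
      apply mul_right_cancel (b := u⁻¹)
      calc u * (a * x) * u⁻¹ = u * a * u⁻¹ * (u * x * u⁻¹) := by group
        _ = u * x * u⁻¹ * (u * a * u⁻¹) := h6
        _ = u * (x * a) * u⁻¹ := by group
    rw [Subgroup.mem_centralizer_singleton_iff, ← hab]
    calc a * b * x = a * (b * x) := by group
      _ = a * (x * b) := by rw [hb1]
      _ = (a * x) * b := by group
      _ = (x * a) * b := by rw [ha1]
      _ = x * (a * b) := by group

end Cfsg.Agent.S4028
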