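import Cfsg.Statements.S4029
import Mathlib
import Cfsg.Agent.Lib.PGrp2
import Cfsg.Agent.Lib.FGSBasic
-- import your own Cfsg.Agent.* helpers here

set_option autoImplicit false
open Cfsg

namespace Cfsg.Agent.S4029

open Finset in
theorem real_sq {P : Type*} [Group P] [Finite P]
    (hirr : ∀ y : P, Subgroup.normalizer ((Subgroup.zpowers y : Subgroup P) : Set P) ≤ Subgroup.centralizer {y})
    {g x : P} (h : x * g * x = g) : x * x = 1 := by
  have hc : g * x = x⁻¹ * g := by
    calc g * x = x⁻¹ * (x * g * x) := by group
      _ = _ := by rw [h]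
  have hc1 : g * x * g⁻¹ = x⁻¹ := by rw [hc]; group
  have hc2 : g⁻¹ * x * g = x⁻¹ := by
    have : x = g⁻¹ * x⁻¹ * g := by
      calc x = g⁻¹ * (g * x * g⁻¹) * g := by group
        _ = _ := by rw [hc1]
    calc g⁻¹ * x * g = (g⁻¹ * x⁻¹ * g)⁻¹ := by group
      _ = x⁻¹ := by rw [← this]
  have hn : g ∈ Subgroup.normalizer ((Subgroup.zpowers x : Subgroup P) : Set P) := by
    rw [Subgroup.mem_normalizer_iff]
    intro w
    simp only [SetLike.mem_coe, Subgroup.mem_zpowers_iff]
    constructor
    · rintro ⟨k, rfl⟩
      refine ⟨-k, ?_⟩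
      have : g * x ^ k * g⁻¹ = (g * x * g⁻¹) ^ k := by rw [conj_zpow]
      rw [this, hc1, zpow_neg, inv_zpow]
    · rintro ⟨k, hk⟩
      refine ⟨-k, ?_⟩
      have h1 : w = g⁻¹ * (g * w * g⁻¹) * g := by group
      have h2 : g⁻¹ * x ^ k * g = (g⁻¹ * x * g) ^ k := by
        have := conj_zpow (a := g⁻¹) (i := k) (b := x)
        simpa using this.symm
      rw [h1, ← hk, h2, hc2, zpow_neg, inv_zpow]
  have hz := hirr x hn
  have hz' : g * x = x * g := Subgroup.mem_centralizer_singleton_iff.mp hz
  have : x⁻¹ * g = x * g := by rw [← hc, hz']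
  have hxx : x⁻¹ = x := mul_right_cancel this
  calc x * x = x⁻¹ * x := by rw [hxx]
    _ = 1 := by group

open Finset in
theorem main1 {P : Type*} [Group P] [Finite P] (hP : IsPGroup 2 P)
    (hirr : ∀ y : P, Subgroup.normalizer ((Subgroup.zpowers y : Subgroup P) : Set P) ≤ Subgroup.centralizer {y}) :
    Nat.card (P ⧸ frattini P) ≤ Nat.card {c : ConjClasses P // ∃ y : P, ConjClasses.mk y = c ∧ orderOf y = 2} + 1 := by
  classical
  haveI := Fintype.ofFinite P
  let Φ : Finset P := univ.filter (· ∈ frattini P)
  let ρ : P → ℕ := fun w => (univ.filter (fun s : P => s * s = w)).card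
  have hsq : ∀ s : P, s * s ∈ Φ := by
    intro s
    simp only [Φ, mem_filter, mem_univ, true_and]
    have := Cfsg.Agent.Lib.PGrp.pow_mem_frattini hP s
    rwa [sq] at this
  have h3 : ∑ w ∈ Φ, ρ w = Fintype.card P := by
    rw [← Finset.card_univ]
    exact (Finset.card_eq_sum_card_fiberwise (fun s _ => hsq s)).symm
  have h4 : Fintype.card P ^ 2 ≤ Φ.card * ∑ w ∈ Φ, ρ w ^ 2 := by
    rw [← h3]; exact sq_sum_le_card_mul_sum_sq
  -- count pairs
  have h1 : ∀ g : P, (univ.filter (fun x : P => x * g * x = g)).card = ρ (g * g) := by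
    intro g
    refine Finset.card_bij (fun x _ => x * g) ?_ ?_ ?_
    · intro x hx
      simp only [mem_filter, mem_univ, true_and] at hx ⊢
      calc x * g * (x * g) = (x * g * x) * g := by group
        _ = g * g := by rw [hx]
    · intro a _ b _ hab; exact mul_right_cancel hab
    · intro s hs
      simp only [mem_filter, mem_univ, true_and] at hs
      refine ⟨s * g⁻¹, ?_, by group⟩
      simp only [mem_filter, mem_univ, true_and]
      have : s * g⁻¹ * g * (s * g⁻¹) = (s * s) * g⁻¹ := by group
      rw [this, hs]; group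
  have h2 : ∑ g : P, ρ (g * g) = ∑ w ∈ Φ, ρ w ^ 2 := by
    rw [← Finset.sum_fiberwise_of_maps_to (s := univ) (t := Φ) (g := fun g : P => g * g)
      (fun s _ => hsq s)]
    refine Finset.sum_congr rfl fun w _ => ?_
    have : ∀ g ∈ univ.filter (fun s : P => s * s = w), ρ (g * g) = ρ w := by
      intro g hg
      simp only [mem_filter, mem_univ, true_and] at hg
      rw [hg]
    rw [Finset.sum_congr rfl this, Finset.sum_const, smul_eq_mul, sq]
  have h5 : ∑ g : P, (univ.filter (fun x : P => x * g * x = g)).card
      = ∑ x : P, (univ.filter (fun g : P => x * g * x = g)).card := by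
    simp only [Finset.card_filter]
    exact Finset.sum_comm
  let X : Finset P := univ.filter (fun x => x * x = 1)
  have h6 : ∑ x : P, (univ.filter (fun g : P => x * g * x = g)).card
      = ∑ x ∈ X, Nat.card (Subgroup.centralizer ({x} : Set P)) := by
    rw [Finset.sum_filter]
    refine Finset.sum_congr rfl fun x _ => ?_
    split_ifs with hx
    · symm
      apply Nat.subtype_card
      intro g
      simp only [mem_filter, mem_univ, true_and]
      rw [Subgroup.mem_centralizer_singleton_iff]
      have hxi : x⁻¹ = x := by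
        calc x⁻¹ = x⁻¹ * (x * x) := by rw [hx, mul_one]
          _ = x := by group
      constructor
      · intro h
        calc g * x = (x * g * x) * x := by rw [h]
          _ = x * g * (x * x) := by group
          _ = x * g := by rw [hx, mul_one]
      · intro h
        calc x * g * x = x * (g * x) := by group
          _ = x * (x * g) := by rw [h]
          _ = (x * x) * g := by group
          _ = g := by rw [hx, one_mul]
    · rw [Finset.card_eq_zero, Finset.filter_eq_empty_iff]
      intro g _ h
      exact hx (real_sq hirr h)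
  have hC : ∀ x : P, Nat.card (Subgroup.centralizer ({x} : Set P)) * Nat.card {z : P // IsConj x z} = Fintype.card P := by
    intro x
    rw [Cfsg.Agent.Lib.FGSBasic.card_conj_eq_index, Subgroup.card_mul_index, Nat.card_eq_fintype_card]
  let Y : Finset (ConjClasses P) := X.image ConjClasses.mk
  have h7 : ∑ x ∈ X, Nat.card (Subgroup.centralizer ({x} : Set P)) = Y.card * Fintype.card P := by
    rw [← Finset.sum_fiberwise_of_maps_to (s := X) (t := Y) (g := ConjClasses.mk) (fun x hx => Finset.mem_image_of_mem _ hx)]
    rw [← smul_eq_mul, ← Finset.sum_const]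
    refine Finset.sum_congr rfl fun c hc => ?_
    obtain ⟨y, hy, rfl⟩ := Finset.mem_image.mp hc
    have hy1 : y * y = 1 := by simpa [X] using hy
    have hfib : ∀ x, x ∈ X.filter (fun x => ConjClasses.mk x = ConjClasses.mk y) ↔ IsConj y x := by
      intro x
      simp only [mem_filter, X, mem_univ, true_and]
      rw [ConjClasses.mk_eq_mk_iff_isConj]
      constructor
      · exact fun h => h.2.symm
      · intro h
        refine ⟨?_, h.symm⟩
        obtain ⟨c, hc⟩ := isConj_iff.mp h
        rw [← hc]
        calc c * y * c⁻¹ * (c * y * c⁻¹) = c * (y * y) * c⁻¹ := by group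
          _ = 1 := by rw [hy1]; group
    have hn : (X.filter (fun x => ConjClasses.mk x = ConjClasses.mk y)).card = Nat.card {z : P // IsConj y z} :=
      (Nat.subtype_card _ hfib).symm
    have hpos : 0 < Nat.card {z : P // IsConj y z} := by
      haveI : Nonempty {z : P // IsConj y z} := ⟨⟨y, IsConj.refl y⟩⟩
      exact Nat.card_pos
    have heq : ∀ x ∈ X.filter (fun x => ConjClasses.mk x = ConjClasses.mk y),
        Nat.card (Subgroup.centralizer ({x} : Set P)) = Nat.card (Subgroup.centralizer ({y} : Set P)) := by
      intro x hx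
      have hxy : IsConj y x := (hfib x).mp hx
      have e : Nat.card {z : P // IsConj x z} = Nat.card {z : P // IsConj y z} := by
        apply Nat.card_congr
        apply Equiv.subtypeEquivRight
        intro z
        exact ⟨fun h => hxy.trans h, fun h => hxy.symm.trans h⟩
      have h1 := hC x
      have h2 := hC y
      rw [e] at h1
      exact Nat.eq_of_mul_eq_mul_right hpos (h1.trans h2.symm)
    rw [Finset.sum_congr rfl heq, Finset.sum_const, smul_eq_mul, hn, mul_comm, hC]
  have hT : Fintype.card P ^ 2 ≤ Φ.card * (Y.card * Fintype.card P) := by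
    calc _ ≤ _ := h4
      _ = _ := by rw [← h2, ← Finset.sum_congr rfl (fun g _ => h1 g), h5, h6, h7]
  have hpos : 0 < Fintype.card P := Fintype.card_pos
  have h8 : Fintype.card P ≤ Φ.card * Y.card := by
    have : Fintype.card P * Fintype.card P ≤ (Φ.card * Y.card) * Fintype.card P := by nlinarith
    exact Nat.le_of_mul_le_mul_right this hpos
  have hΦ : Φ.card = Nat.card (frattini P) := (Nat.subtype_card _ (by simp [Φ])).symm
  have h9 : Fintype.card P = Nat.card (P ⧸ frattini P) * Nat.card (frattini P) := by
    rw [← Nat.card_eq_fintype_card]; exact Subgroup.card_eq_card_quotient_mul_card_subgroup _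
  have h10 : Nat.card (P ⧸ frattini P) ≤ Y.card := by
    rw [h9, hΦ, mul_comm (Nat.card (frattini P))] at h8
    exact Nat.le_of_mul_le_mul_right h8 Nat.card_pos
  haveI : Finite (ConjClasses P) := Finite.of_surjective ConjClasses.mk ConjClasses.mk_surjective
  haveI := Fintype.ofFinite (ConjClasses P)
  have h11 : Y ⊆ insert (ConjClasses.mk (1 : P)) (univ.filter (fun c : ConjClasses P => ∃ y : P, ConjClasses.mk y = c ∧ orderOf y = 2)) := by
    intro c hc
    obtain ⟨x, hx, rfl⟩ := Finset.mem_image.mp hc
    have hx1 : x * x = 1 := by simpa [X] using hx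
    by_cases hx2 : x = 1
    · rw [hx2]; exact Finset.mem_insert_self _ _
    · refine Finset.mem_insert_of_mem ?_
      simp only [mem_filter, mem_univ, true_and]
      exact ⟨x, rfl, orderOf_eq_prime (by rw [sq, hx1]) hx2⟩
  have h12 : (univ.filter (fun c : ConjClasses P => ∃ y : P, ConjClasses.mk y = c ∧ orderOf y = 2)).card
      = Nat.card {c : ConjClasses P // ∃ y : P, ConjClasses.mk y = c ∧ orderOf y = 2} :=
    (Nat.subtype_card _ (by simp)).symm
  calc Nat.card (P ⧸ frattini P) ≤ Y.card := h10
    _ ≤ _ := Finset.card_le_card h11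
    _ ≤ _ := Finset.card_insert_le _ _
    _ = _ := by rw [h12]

theorem main2 {P : Type*} [Group P] [Finite P] :
    Nat.card {c : ConjClasses P // ∃ y : P, ConjClasses.mk y = c ∧ orderOf y = 2} + 1
      ≤ Nat.card (Subgroup.closure {y : P | orderOf y = 2}) := by
  classical
  haveI : Finite (ConjClasses P) := Finite.of_surjective ConjClasses.mk ConjClasses.mk_surjective
  let f : Option {c : ConjClasses P // ∃ y : P, ConjClasses.mk y = c ∧ orderOf y = 2} →
      Subgroup.closure {y : P | orderOf y = 2} := fun o => match o with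
    | none => 1
    | some c => ⟨c.2.choose, Subgroup.subset_closure c.2.choose_spec.2⟩
  have hf : Function.Injective f := by
    have key : ∀ c : {c : ConjClasses P // ∃ y : P, ConjClasses.mk y = c ∧ orderOf y = 2}, f (some c) ≠ 1 := by
      intro c h
      have h1 : c.2.choose = 1 := congrArg Subtype.val h
      have h2 := c.2.choose_spec.2
      rw [h1, orderOf_one] at h2
      omega
    rintro (_ | a) (_ | b) hab
    · rfl
    · exact absurd hab.symm (key b)
    · exact absurd hab (key a)
    · have h1 : a.2.choose = b.2.choose := congrArg Subtype.val hab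
      have h2 := a.2.choose_spec.1
      have h3 := b.2.choose_spec.1
      rw [h1, h3] at h2
      exact congrArg some (Subtype.ext h2.symm)
  have := Nat.card_le_card_of_injective f hf
  rwa [Finite.card_option] at this

/-- Let P be a finite 2-group in which N_P(⟨y⟩) = C_P(y) for every y ∈ P. If s is the number of conjugacy classes of involutions of P, then #(P/Φ(P)) ≤ s + 1; in particular the subgroup generated by the involutions of P has order at least #(P/Φ(P)). -/
theorem result {P : Type*} [Group P] [Finite P] (hP : IsPGroup 2 P)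
    (hirr : ∀ y : P, Subgroup.normalizer ((Subgroup.zpowers y : Subgroup P) : Set P) ≤ Subgroup.centralizer {y}) :
    Nat.card (P ⧸ frattini P) ≤ Nat.card {c : ConjClasses P // ∃ y : P, ConjClasses.mk y = c ∧ orderOf y = 2} + 1 ∧
    Nat.card (P ⧸ frattini P) ≤ Nat.card (Subgroup.closure {y : P | orderOf y = 2}) := by
  exact ⟨main1 hP hirr, (main1 hP hirr).trans main2⟩

end Cfsg.Agent.S4029
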