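import Cfsg.Statements.S4032
import Cfsg.Agent.Lib.FGS3
-- import your own Cfsg.Agent.* helpers here

set_option autoImplicit false
open Cfsg

namespace Cfsg.Agent.S4032

theorem cyc_solv {G : Type*} [Group G] (x : G) : Group.IsSolvable (Subgroup.zpowers x) := by
  apply Group.isSolvable_of_comm
  intro a b
  apply Subtype.ext
  obtain ⟨i, hi⟩ := Subgroup.mem_zpowers_iff.1 a.2
  obtain ⟨j, hj⟩ := Subgroup.mem_zpowers_iff.1 b.2
  change (a : G) * b = b * a
  rw [← hi, ← hj, ← zpow_add, ← zpow_add, add_comm]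

open scoped Pointwise in
theorem key {G : Type*} [Group G] [Finite G] (π : Set ℕ)
    (hirr : ∀ x : G, (∀ r : ℕ, r.Prime → r ∣ orderOf x → r ∈ π) →
      Subgroup.normalizer ((Subgroup.zpowers x : Subgroup G) : Set G) ≤ Subgroup.centralizer {x})
    (N : Subgroup G) [N.Normal] (hN : ∀ r : ℕ, r.Prime → r ∣ Nat.card N → r ∉ π)
    (x g : G) (hx : ∀ r : ℕ, r.Prime → r ∣ orderOf x → r ∈ π)
    (hg : (g : G ⧸ N) ∈ Subgroup.normalizer ((Subgroup.zpowers ((x : G ⧸ N)) : Subgroup (G ⧸ N)) : Set (G ⧸ N))) :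
    (g : G ⧸ N) * (x : G ⧸ N) = (x : G ⧸ N) * (g : G ⧸ N) := by
  have hc : (Nat.card N).Coprime (Nat.card (Subgroup.zpowers x)) := by
    rw [Nat.card_zpowers]
    apply Nat.coprime_of_dvd
    intro k hk h1 h2
    exact hN k hk h1 (hx k hk h2)
  let K : Subgroup G := (Subgroup.zpowers x).map (MulAut.conj g).toMonoidHom
  have hKc : Nat.card K = Nat.card (Subgroup.zpowers x) :=
    Subgroup.card_map_of_injective (MulAut.conj g).injective
  have hKL : K ≤ N ⊔ Subgroup.zpowers x := by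
    rintro _ ⟨w, hw, rfl⟩
    obtain ⟨i, rfl⟩ := Subgroup.mem_zpowers_iff.1 hw
    have h1 := (Subgroup.mem_normalizer_iff.1 hg (x : G ⧸ N)).1 (Subgroup.mem_zpowers _)
    obtain ⟨j, hj⟩ := Subgroup.mem_zpowers_iff.1 h1
    have h2 : (x ^ j)⁻¹ * (g * x * g⁻¹) ∈ N := by
      rw [← QuotientGroup.eq, QuotientGroup.mk_zpow, hj]
      rfl
    have h3 : g * x * g⁻¹ ∈ N ⊔ Subgroup.zpowers x := by
      have e : g * x * g⁻¹ = (x ^ j) * ((x ^ j)⁻¹ * (g * x * g⁻¹)) := by group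
      rw [e, sup_comm]
      exact Subgroup.mul_mem_sup (Subgroup.zpow_mem_zpowers x j) h2
    change g * x ^ i * g⁻¹ ∈ _
    have e : g * x ^ i * g⁻¹ = (g * x * g⁻¹) ^ i := by rw [conj_zpow]
    rw [e]
    exact Subgroup.zpow_mem _ h3 i
  obtain ⟨n, hn, hne⟩ := Lib.FGS3.sz_conj_in_sup N (Subgroup.zpowers x) K hc (Or.inr (cyc_solv x)) hKL hKc
  have h4 : n⁻¹ * g ∈ Subgroup.normalizer ((Subgroup.zpowers x : Subgroup G) : Set G) := by
    apply Lib.H1Conj.mem_normalizer_of_conj_smul_eq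
    have h5 : K = MulAut.conj g • Subgroup.zpowers x := rfl
    rw [h5] at hne
    rw [map_mul, mul_smul, ← hne, ← mul_smul, ← map_mul]
    simp
  have h6 := Subgroup.mem_centralizer_singleton_iff.1 (hirr x hx h4)
  have h7 : ((n⁻¹ * g : G) : G ⧸ N) = (g : G ⧸ N) := by
    rw [QuotientGroup.mk_mul, QuotientGroup.mk_inv, (QuotientGroup.eq_one_iff n).2 hn]
    simp
  rw [← h7, ← QuotientGroup.mk_mul, ← QuotientGroup.mk_mul, h6]

/-- Let π be a set of primes and G a finite group in which N_G(⟨x⟩) = C_G(x) for every π-element x. If N is a normal subgroup of G whose order is divisible by no prime of π, then G/N has the same property: N_{G/N}(⟨y⟩) = C_{G/N}(y) for every π-element y of G/N. -/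
theorem result {G : Type*} [Group G] [Finite G] (π : Set ℕ)
    (hirr : ∀ x : G, (∀ r : ℕ, r.Prime → r ∣ orderOf x → r ∈ π) →
      Subgroup.normalizer ((Subgroup.zpowers x : Subgroup G) : Set G) ≤ Subgroup.centralizer {x})
    (N : Subgroup G) [N.Normal] (hN : ∀ r : ℕ, r.Prime → r ∣ Nat.card N → r ∉ π) :
    ∀ y : G ⧸ N, (∀ r : ℕ, r.Prime → r ∣ orderOf y → r ∈ π) →
      Subgroup.normalizer ((Subgroup.zpowers y : Subgroup (G ⧸ N)) : Set (G ⧸ N)) ≤ Subgroup.centralizer {y} := by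
  intro y hy q hq
  obtain ⟨x, rfl, hx⟩ := Lib.FGS3.exists_lift_pi N π y hy
  obtain ⟨g, rfl⟩ := QuotientGroup.mk_surjective q
  rw [Subgroup.mem_centralizer_singleton_iff]
  exact key π hirr N hN x g hx hq

end Cfsg.Agent.S4032
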