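import Cfsg.Statements.S4034
import Cfsg.Agent.Lib.FGS2
import Cfsg.Agent.Lib.H1Hall
import Cfsg.Agent.Lib.H1Fit
-- import your own Cfsg.Agent.* helpers here

set_option autoImplicit false
open Cfsg

namespace Cfsg.Agent.S4034

universe u
theorem card_class {G : Type*} [Group G] [Finite G] (x : G) :
    (ConjClasses.mk x).carrier.ncard = (Subgroup.centralizer ({x} : Set G)).index := by
  rw [← Lib.FGSBasic.card_conj_eq_index, ← Nat.card_coe_set_eq]
  apply Nat.card_congr
  refine Equiv.subtypeEquivRight (fun y => ?_)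
  rw [ConjClasses.mem_carrier_iff_mk_eq, ConjClasses.mk_eq_mk_iff_isConj]
  exact ⟨fun h => h.symm, fun h => h.symm⟩

/-- A normal subgroup of order prime to `p` lies in every subgroup of `p`-power index. -/
theorem normal_le {G : Type*} [Group G] [Finite G] {p : ℕ} [hp : Fact p.Prime]
    (N H : Subgroup G) [N.Normal] (hN : ¬ p ∣ Nat.card N) (k : ℕ) (hk : H.index = p ^ k) : N ≤ H := by
  have h1 : H.relIndex N ∣ H.index := Lib.FGS2.relIndex_normal_dvd_index N H
  have h2 : H.relIndex N ∣ Nat.card N := by
    rw [Subgroup.relIndex]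
    exact Subgroup.index_dvd_card _
  have h3 : Nat.Coprime (Nat.card N) (p ^ k) :=
    Nat.Coprime.pow_right k (Nat.coprime_comm.1 ((Nat.Prime.coprime_iff_not_dvd hp.out).2 hN))
  have h4 : H.relIndex N = 1 := Nat.Coprime.eq_one_of_dvd (Nat.Coprime.coprime_dvd_left h2 h3) (hk ▸ h1)
  exact Subgroup.relIndex_eq_one.1 h4

theorem p_not_dvd_fitting {G : Type*} [Group G] [Finite G] {p : ℕ} [hp : Fact p.Prime]
    (hO : Cfsg.pCore p G = ⊥) : ¬ p ∣ Nat.card (Cfsg.fittingSubgroup G) := by
  intro hd
  haveI : (Cfsg.fittingSubgroup G).Normal := Cfsg.Agent.Lib.H1Core.fittingSubgroup_normal G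
  obtain ⟨P⟩ : Nonempty (Sylow p (Cfsg.fittingSubgroup G)) := inferInstance
  have hnorm := Cfsg.Agent.Lib.H1Core.sylow_map_normal_of_nilpotent (Cfsg.fittingSubgroup G)
    Cfsg.Agent.Lib.H1Core.fittingSubgroup_isNilpotent P
  have hpg : IsPGroup p ((P : Subgroup (Cfsg.fittingSubgroup G)).map (Cfsg.fittingSubgroup G).subtype) :=
    P.isPGroup'.map _
  have hle := Cfsg.Agent.Lib.H1Core.le_pCore hnorm hpg
  rw [hO, le_bot_iff] at hle
  have hPbot : (P : Subgroup (Cfsg.fittingSubgroup G)) = ⊥ := by
    rwa [Subgroup.map_eq_bot_iff_of_injective _ (Subgroup.subtype_injective _)] at hle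
  have hc := P.dvd_card_of_dvd_card hd
  rw [hPbot, Subgroup.card_bot] at hc
  exact hp.out.one_lt.ne' (Nat.dvd_one.1 hc)

theorem main_aux {p : ℕ} [hp : Fact p.Prime] : ∀ (n : ℕ) (G : Type u) [Group G] [Finite G], Nat.card G = n →
    (∀ x : G, (orderOf x).Coprime p → ∃ k : ℕ, (Subgroup.centralizer ({x} : Set G)).index = p ^ k) →
    ∀ H : Subgroup G, ¬ p ∣ Nat.card H → (∃ k : ℕ, H.index = p ^ k) → IsMulCommutative H := by
  intro n
  induction n using Nat.strong_induction_on with
  | _ n ih =>
    intro G _ _ hn h H hH ⟨k, hk⟩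
    haveI hsol : Group.IsSolvable G := Lib.FGS2.solvable_of_p_regular_classes G h
    by_cases hO : Cfsg.pCore p G = ⊥
    · -- `F(G)` is a `p'`-group
      have hF := p_not_dvd_fitting hO
      haveI hFn : (Cfsg.fittingSubgroup G).Normal := Cfsg.Agent.Lib.H1Core.fittingSubgroup_normal G
      -- every element of `H` centralizes `F`
      have hkey : ∀ y ∈ H, ∀ f ∈ Cfsg.fittingSubgroup G, y * f = f * y := by
        intro y hy f hf
        have hycop : (orderOf y).Coprime p := by
          have h1 : orderOf y ∣ Nat.card H := by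
            have := orderOf_dvd_natCard (⟨y, hy⟩ : H)
            simpa using this
          exact Nat.Coprime.coprime_dvd_left h1 (Nat.coprime_comm.1 ((Nat.Prime.coprime_iff_not_dvd hp.out).2 hH))
        obtain ⟨j, hj⟩ := h y hycop
        set C := Subgroup.centralizer ({y} : Set G) with hC
        have hcard1 : Nat.card C * p ^ j = Nat.card G := by rw [← hj]; exact C.card_mul_index
        have hcard2 : Nat.card H * p ^ k = Nat.card G := by rw [← hk]; exact H.card_mul_index
        have hcopH : Nat.Coprime (Nat.card H) (p ^ j) :=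
          Nat.Coprime.pow_right j (Nat.coprime_comm.1 ((Nat.Prime.coprime_iff_not_dvd hp.out).2 hH))
        have hdvd : Nat.card H ∣ Nat.card C := by
          apply hcopH.dvd_of_dvd_mul_right
          rw [hcard1, ← hcard2]
          exact dvd_mul_right _ _
        obtain ⟨t, ht⟩ := hdvd
        have ht2 : t * p ^ j = p ^ k := by
          have hpos : 0 < Nat.card H := Nat.card_pos
          have : Nat.card H * (t * p ^ j) = Nat.card H * p ^ k := by
            rw [hcard2, ← hcard1, ht, mul_assoc]
          exact Nat.eq_of_mul_eq_mul_left hpos this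
        obtain ⟨i, _, hi⟩ := (Nat.dvd_prime_pow hp.out).1 (⟨p ^ j, ht2.symm⟩ : t ∣ p ^ k)
        haveI : Group.IsSolvable C := inferInstance
        obtain ⟨L', hL'⟩ := Cfsg.Agent.Lib.H1Hall.hall_exists (G := C) (Nat.card H) t ht
          (by rw [hi]; exact Nat.Coprime.pow_right i (Nat.coprime_comm.1 ((Nat.Prime.coprime_iff_not_dvd hp.out).2 hH)))
        set L := L'.map C.subtype with hL
        have hLcard : Nat.card L = Nat.card H := by
          rw [hL, Subgroup.card_map_of_injective (Subgroup.subtype_injective _), hL']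
        have hLindex : L.index = p ^ k := by
          have h1 : Nat.card L * L.index = Nat.card G := L.card_mul_index
          have hpos : 0 < Nat.card H := Nat.card_pos
          apply Nat.eq_of_mul_eq_mul_left hpos
          rw [← hLcard, h1, hLcard, hcard2]
        have hFL : Cfsg.fittingSubgroup G ≤ L := normal_le _ L hF k hLindex
        obtain ⟨c, -, hc⟩ := hFL hf
        have hcc : (c : G) * y = y * c := Subgroup.mem_centralizer_singleton_iff.1 c.2
        rw [← hc]
        exact hcc.symm
      have hFle : H ≤ Cfsg.fittingSubgroup G := by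
        intro y hy
        apply Cfsg.Agent.Lib.H1Fit.centralizer_fitting_le
        rw [Subgroup.mem_centralizer_iff]
        intro f hf
        exact (hkey y hy f hf).symm
      refine ⟨⟨fun a b => ?_⟩⟩
      apply Subtype.ext
      exact hkey a.1 a.2 b.1 (hFle b.2)
    · -- pass to the quotient by `O_p(G)`
      set O := Cfsg.pCore p G with hOd
      haveI hOn : O.Normal := Cfsg.Agent.Lib.H1Core.pCore_normal p G
      have hOp : IsPGroup p O := Cfsg.Agent.Lib.H1Core.pCore_isPGroup p
      have hOcard : 1 < Nat.card O := by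
        have h1 : Nat.card O ≠ 1 := fun h => hO (Subgroup.card_eq_one.1 h)
        have h2 : 0 < Nat.card O := Nat.card_pos
        omega
      have hlt : Nat.card (G ⧸ O) < n := by
        have h1 : Nat.card O * O.index = Nat.card G := O.card_mul_index
        rw [← Subgroup.index_eq_card, ← hn, ← h1]
        have : 0 < O.index := Nat.pos_of_ne_zero Subgroup.index_ne_zero_of_finite
        nlinarith
      have hq : ∀ x : G ⧸ O, (orderOf x).Coprime p →
          ∃ k : ℕ, (Subgroup.centralizer ({x} : Set (G ⧸ O))).index = p ^ k := by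
        intro y hy
        obtain ⟨x, rfl, hx⟩ := Lib.FGS2.exists_lift_coprime O y hy
        obtain ⟨k, hk⟩ := h x hx
        have hle : (Subgroup.centralizer ({x} : Set G)).map (QuotientGroup.mk' O) ≤
            Subgroup.centralizer ({(x : G ⧸ O)} : Set (G ⧸ O)) := by
          rintro _ ⟨c, hc, rfl⟩
          rw [SetLike.mem_coe, Subgroup.mem_centralizer_singleton_iff] at hc
          rw [Subgroup.mem_centralizer_singleton_iff]
          show ((c : G) : G ⧸ O) * x = x * c
          rw [← QuotientGroup.mk_mul, hc, QuotientGroup.mk_mul]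
        have h1 := Subgroup.index_dvd_of_le hle
        have h2 := Subgroup.index_map_dvd (Subgroup.centralizer ({x} : Set G)) (QuotientGroup.mk'_surjective O)
        obtain ⟨j, _, hj⟩ := (Nat.dvd_prime_pow hp.out).1 (hk ▸ h1.trans h2)
        exact ⟨j, hj⟩
      have hdisj : H ⊓ O = ⊥ := by
        rw [eq_bot_iff]
        intro x hx
        have hx1 := hx.1
        have hx2 := hx.2
        obtain ⟨j, hj⟩ := IsPGroup.iff_orderOf.1 hOp ⟨x, hx2⟩
        have h1 : orderOf x = p ^ j := by simpa using hj
        have h2 : orderOf x ∣ Nat.card H := by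
          have := orderOf_dvd_natCard (⟨x, hx1⟩ : H)
          simpa using this
        have h3 : Nat.Coprime (orderOf x) (Nat.card H) := by
          rw [h1]
          exact Nat.Coprime.pow_left j ((Nat.Prime.coprime_iff_not_dvd hp.out).2 hH)
        have h4 : orderOf x = 1 := Nat.Coprime.eq_one_of_dvd h3 h2
        exact Subgroup.mem_bot.2 (orderOf_eq_one_iff.1 h4)
      have hinj : Function.Injective ((QuotientGroup.mk' O).comp H.subtype) := by
        rw [injective_iff_map_eq_one]
        rintro ⟨x, hx⟩ hx1
        have : x ∈ O := by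
          simpa [QuotientGroup.eq_one_iff] using hx1
        have h5 : x ∈ H ⊓ O := ⟨hx, this⟩
        rw [hdisj] at h5
        exact Subtype.ext (Subgroup.mem_bot.1 h5)
      have hcardmap : Nat.card (H.map (QuotientGroup.mk' O)) = Nat.card H := by
        have hr : H.map (QuotientGroup.mk' O) = ((QuotientGroup.mk' O).comp H.subtype).range := by
          rw [MonoidHom.range_comp, Subgroup.range_subtype]
        rw [hr]
        exact Nat.card_congr (MonoidHom.ofInjective hinj).toEquiv.symm
      have hindex : ∃ k : ℕ, (H.map (QuotientGroup.mk' O)).index = p ^ k := by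
        have h5 := Subgroup.index_map_dvd H (QuotientGroup.mk'_surjective O)
        obtain ⟨j, _, hj⟩ := (Nat.dvd_prime_pow hp.out).1 (hk ▸ h5)
        exact ⟨j, hj⟩
      have hab := ih _ hlt (G ⧸ O) rfl hq (H.map (QuotientGroup.mk' O)) (by rw [hcardmap]; exact hH) hindex
      refine ⟨⟨fun a b => ?_⟩⟩
      apply hinj
      have h6 : ∀ c : H, ((QuotientGroup.mk' O).comp H.subtype) c ∈ H.map (QuotientGroup.mk' O) :=
        fun c => ⟨c.1, c.2, rfl⟩
      have := Lib.FGSBasic.mul_comm_of_mem (H.map (QuotientGroup.mk' O)) (h6 a) (h6 b)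
      rw [map_mul, map_mul]
      exact this

/-- Let G be a finite group and p a prime. Every conjugacy class of p-regular elements of G (elements of order prime to p) has p-power size if and only if G has an abelian p-complement, i.e. an abelian subgroup of order prime to p and p-power index. -/
theorem result {G : Type*} [Group G] [Finite G] {p : ℕ} (hp : p.Prime) :
    (∀ x : G, (orderOf x).Coprime p → ∃ k : ℕ, (ConjClasses.mk x).carrier.ncard = p ^ k) ↔
    (∃ H : Subgroup G, IsMulCommutative H ∧ ¬ p ∣ Nat.card H ∧ ∃ k : ℕ, H.index = p ^ k) := by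
  haveI : Fact p.Prime := ⟨hp⟩
  constructor
  · intro h
    have h' : ∀ x : G, (orderOf x).Coprime p → ∃ k : ℕ, (Subgroup.centralizer ({x} : Set G)).index = p ^ k := by
      intro x hx
      obtain ⟨k, hk⟩ := h x hx
      exact ⟨k, by rw [← card_class, hk]⟩
    haveI : Group.IsSolvable G := Lib.FGS2.solvable_of_p_regular_classes G h'
    have hcop : Nat.Coprime (ordCompl[p] (Nat.card G)) (p ^ (Nat.card G).factorization p) :=
      Nat.Coprime.pow_right _ (Nat.coprime_comm.1 ((Nat.Prime.coprime_iff_not_dvd hp).2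
        (Nat.not_dvd_ordCompl hp Nat.card_pos.ne')))
    obtain ⟨H, hH⟩ := Cfsg.Agent.Lib.H1Hall.hall_exists (G := G) (ordCompl[p] (Nat.card G))
      (p ^ (Nat.card G).factorization p)
      (by rw [mul_comm]; exact (Nat.ordProj_mul_ordCompl_eq_self _ p).symm) hcop
    have hHp : ¬ p ∣ Nat.card H := by
      rw [hH]; exact Nat.not_dvd_ordCompl hp Nat.card_pos.ne'
    have hHi : H.index = p ^ (Nat.card G).factorization p := by
      have h1 : Nat.card H * H.index = Nat.card G := H.card_mul_index
      have h2 := Nat.ordProj_mul_ordCompl_eq_self (Nat.card G) p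
      have hpos : 0 < Nat.card H := Nat.card_pos
      apply Nat.eq_of_mul_eq_mul_left hpos
      rw [h1, hH, mul_comm, h2]
    exact ⟨H, main_aux _ G rfl h' H hHp ⟨_, hHi⟩, hHp, _, hHi⟩
  · rintro ⟨H, hab, hH, k, hk⟩ x hx
    haveI : Group.IsSolvable G := Lib.FGS2.solvable_of_abelian_index_primePow hp G H hab k hk
    have hcard : Nat.card G = Nat.card H * p ^ k := by rw [← hk]; exact H.card_mul_index.symm
    have hcopH : Nat.Coprime (Nat.card H) (p ^ k) :=
      Nat.Coprime.pow_right k (Nat.coprime_comm.1 ((Nat.Prime.coprime_iff_not_dvd hp).2 hH))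
    obtain ⟨H', hH'card, hxH'⟩ := Cfsg.Agent.Lib.H1Hall.hall_contains (G := G) (Nat.card H) (p ^ k) hcard hcopH
      (Subgroup.zpowers x) (by rw [Nat.card_zpowers]; exact Nat.Coprime.pow_right k hx)
    obtain ⟨g, hg⟩ := Cfsg.Agent.Lib.H1Hall.hall_conj (G := G) (Nat.card H) (p ^ k) hcard hcopH H H' rfl hH'card
    have hxmem : x ∈ H' := hxH' (Subgroup.mem_zpowers x)
    have hle : H' ≤ Subgroup.centralizer ({x} : Set G) := by
      intro z hz
      rw [Subgroup.mem_centralizer_singleton_iff]
      rw [← hg] at hz hxmem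
      rw [Lib.FGSBasic.mem_conj_smul_iff] at hz hxmem
      haveI := hab
      have h1 := Lib.FGSBasic.mul_comm_of_mem H hz hxmem
      have h2 : x = g * (g⁻¹ * x * g) * g⁻¹ := by group
      have h3 : z = g * (g⁻¹ * z * g) * g⁻¹ := by group
      rw [h2, h3]
      calc _ = g * ((g⁻¹ * z * g) * (g⁻¹ * x * g)) * g⁻¹ := by group
        _ = g * ((g⁻¹ * x * g) * (g⁻¹ * z * g)) * g⁻¹ := by rw [h1]
        _ = _ := by group
    have hH'i : H'.index = p ^ k := by
      have h1 : Nat.card H' * H'.index = Nat.card G := H'.card_mul_index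
      have hpos : 0 < Nat.card H := Nat.card_pos
      apply Nat.eq_of_mul_eq_mul_left hpos
      rw [← hH'card, h1, hH'card, hcard]
    have hd : (Subgroup.centralizer ({x} : Set G)).index ∣ p ^ k := hH'i ▸ Subgroup.index_dvd_of_le hle
    obtain ⟨j, _, hj⟩ := (Nat.dvd_prime_pow hp).1 hd
    exact ⟨j, by rw [card_class, hj]⟩

end Cfsg.Agent.S4034
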