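import Cfsg.Statements.S4035
import Cfsg.Agent.Lib.FrobCount
-- import your own Cfsg.Agent.* helpers here

set_option autoImplicit false
open Cfsg

namespace Cfsg.Agent.S4035

/-- Let G be a finite group and p a prime such that p divides the size of no conjugacy class of p-regular elements (elements of order prime to p). Then G is the internal direct product of a Sylow p-subgroup P and a normal subgroup H of order prime to p: P is normal, P ⊓ H = 1 and PH = G. -/
theorem result {G : Type*} [Group G] [Finite G] {p : ℕ} [Fact p.Prime]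
    (h : ∀ x : G, (orderOf x).Coprime p → ¬ p ∣ (ConjClasses.mk x).carrier.ncard) (P : Sylow p G) :
    (P : Subgroup G).Normal ∧ ∃ H : Subgroup G, H.Normal ∧ ¬ p ∣ Nat.card H ∧
      (P : Subgroup G) ⊓ H = ⊥ ∧ (P : Subgroup G) ⊔ H = ⊤ := by
  classical
  haveI := Fintype.ofFinite G
  have hp : p.Prime := Fact.out
  let Q : Subgroup G := (P : Subgroup G)
  let q := Nat.card Q
  let m := Q.index
  have hqm : q * m = Nat.card G := Subgroup.card_mul_index Q
  have hc : q.Coprime m := P.card_coprime_index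
  have hq0 : q ≠ 0 := Nat.card_pos.ne'
  have hm0 : m ≠ 0 := Subgroup.index_ne_zero_of_finite
  have hqp : ∃ e, q = p ^ e := by
    obtain ⟨e, he⟩ := IsPGroup.iff_card.1 P.isPGroup'
    exact ⟨e, he⟩
  obtain ⟨e, he⟩ := hqp
  have hcpm : m.Coprime p := by
    rw [Nat.coprime_comm, Nat.Prime.coprime_iff_not_dvd hp]
    exact P.not_dvd_index
  let U := {u : G // u ^ m = 1 ∧ True}
  haveI : Fintype U := Fintype.ofFinite _
  have hcount := Lib.FrobCount.card_jordan hc (fun _ : G => True) (G := G)
  have hle1 : Nat.card {g : G // ∃ u y : G, u ^ m = 1 ∧ True ∧ y ^ q = 1 ∧ u * y = y * u ∧ g = u * y} ≤ Nat.card G :=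
    Nat.card_le_card_of_injective Subtype.val Subtype.val_injective
  have hFge : ∀ u : U, q ≤ Lib.FrobCount.F q u.1 := by
    intro u
    have h0 : (orderOf u.1).Coprime p :=
      Nat.Coprime.coprime_dvd_left (orderOf_dvd_of_pow_eq_one u.2.1) hcpm
    have h1 := h u.1 h0
    have h2 : (ConjClasses.mk u.1).carrier.ncard = (Subgroup.centralizer {u.1}).index := by
      rw [← Lib.FGSBasic.card_conj_eq_index, ← Nat.card_coe_set_eq]
      apply Nat.card_congr
      apply Equiv.subtypeEquivRight
      intro y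
      rw [ConjClasses.mem_carrier_iff_mk_eq, ConjClasses.mk_eq_mk_iff_isConj]
      exact ⟨fun h => h.symm, fun h => h.symm⟩
    rw [h2] at h1
    have h3 := Lib.FrobCount.dvd_index_mul_F hq0 u.1 (dvd_refl q) (Dvd.intro _ hqm)
    have h4 : q.Coprime (Subgroup.centralizer {u.1}).index := by
      rw [he]
      exact Nat.Coprime.pow_left _ ((Nat.Prime.coprime_iff_not_dvd hp).2 h1)
    exact Nat.le_of_dvd (Lib.FrobCount.F_pos _ _) (h4.dvd_of_dvd_mul_left h3)
  have hUcard : m ≤ Nat.card U := by
    have h0 : m ∣ Nat.card {g : G // g ^ m = 1} :=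
      Lib.FrobCount.dvd_card_pow_eq_one (Dvd.intro_left _ hqm)
    have h1 : Nat.card {g : G // g ^ m = 1} = Nat.card U :=
      Nat.card_congr (Equiv.subtypeEquivRight (fun x => by simp))
    rw [← h1]
    haveI : Nonempty {g : G // g ^ m = 1} := ⟨⟨1, one_pow _⟩⟩
    exact Nat.le_of_dvd Nat.card_pos h0
  have hsum1 : ∑ _u : U, q ≤ ∑ u : U, Lib.FrobCount.F q u.1 :=
    Finset.sum_le_sum (fun u _ => hFge u)
  rw [← hcount] at hsum1
  have hsum2 : Nat.card U * q ≤ Nat.card G := by
    refine le_trans ?_ hle1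
    simpa [Nat.card_eq_fintype_card] using hsum1
  have hUeq : Nat.card U = m := by
    apply le_antisymm _ hUcard
    rw [← hqm, mul_comm] at hsum2
    exact Nat.le_of_mul_le_mul_left hsum2 (Nat.pos_of_ne_zero hq0)
  have hF1 : Lib.FrobCount.F q (1 : G) = q := by
    apply le_antisymm _ (hFge ⟨1, one_pow _, trivial⟩)
    by_contra hlt
    push Not at hlt
    have h1 : ∑ _u : U, q < ∑ u : U, Lib.FrobCount.F q u.1 := by
      apply Finset.sum_lt_sum (fun u _ => hFge u)
      exact ⟨⟨1, one_pow _, trivial⟩, Finset.mem_univ _, hlt⟩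
    rw [← hcount] at h1
    have h2 : Nat.card U * q < Nat.card G := by
      refine lt_of_lt_of_le ?_ hle1
      simpa [Nat.card_eq_fintype_card] using h1
    rw [hUeq, mul_comm, hqm] at h2
    exact lt_irrefl _ h2
  have hW : ∀ y : G, y ^ q = 1 → y ∈ Q := by
    have hsub : (Q : Set G) ⊆ {y : G | y ^ q = 1} := by
      intro y hy
      have : (⟨y, hy⟩ : Q) ^ q = 1 := pow_card_eq_one'
      exact congrArg Subtype.val this
    have hcard : {y : G | y ^ q = 1}.ncard ≤ (Q : Set G).ncard := by
      rw [← Nat.card_coe_set_eq, ← Nat.card_coe_set_eq]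
      have h1 : Nat.card {y : G | y ^ q = 1} = Lib.FrobCount.F q (1 : G) :=
        Nat.card_congr (Equiv.subtypeEquivRight (fun x => by simp))
      rw [h1, hF1]; rfl
    have heq := Set.eq_of_subset_of_ncard_le hsub hcard
    intro y hy
    have : y ∈ ({y : G | y ^ q = 1}) := hy
    rw [← heq] at this
    exact this
  have hQn : Q.Normal := ⟨by
    intro y hy g
    apply hW
    rw [conj_pow]
    have : (⟨y, hy⟩ : Q) ^ q = 1 := pow_card_eq_one'
    have h2 : y ^ q = 1 := congrArg Subtype.val this
    rw [h2]; simp⟩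
  refine ⟨hQn, ?_⟩
  obtain ⟨H, hH⟩ := Subgroup.exists_right_complement'_of_coprime (N := Q) hc
  have hHcard : Nat.card H = m := by
    have h1 := hH.card_mul
    have h2 := hqm
    exact Nat.eq_of_mul_eq_mul_left (Nat.pos_of_ne_zero hq0) (h1.trans h2.symm)
  have hHsub : ∀ y : G, y ^ m = 1 → y ∈ H := by
    have hsub : (H : Set G) ⊆ {y : G | y ^ m = 1} := by
      intro y hy
      have : (⟨y, hy⟩ : H) ^ Nat.card H = 1 := pow_card_eq_one'
      rw [hHcard] at this
      exact congrArg Subtype.val this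
    have hcard : {y : G | y ^ m = 1}.ncard ≤ (H : Set G).ncard := by
      rw [← Nat.card_coe_set_eq, ← Nat.card_coe_set_eq]
      have h1 : Nat.card {y : G | y ^ m = 1} = Nat.card U :=
        Nat.card_congr (Equiv.subtypeEquivRight (fun x => by simp))
      rw [h1, hUeq]
      exact hHcard.ge
    have heq := Set.eq_of_subset_of_ncard_le hsub hcard
    intro y hy
    have : y ∈ ({y : G | y ^ m = 1}) := hy
    rw [← heq] at this
    exact this
  refine ⟨H, ⟨?_⟩, ?_, hH.disjoint.eq_bot, hH.sup_eq_top⟩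
  · intro y hy g
    apply hHsub
    rw [conj_pow]
    have : (⟨y, hy⟩ : H) ^ Nat.card H = 1 := pow_card_eq_one'
    rw [hHcard] at this
    have h2 : y ^ m = 1 := congrArg Subtype.val this
    rw [h2]; simp
  · rw [hHcard]
    exact P.not_dvd_index

end Cfsg.Agent.S4035
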