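import Cfsg.Statements.S4036
import Mathlib
-- import your own Cfsg.Agent.* helpers here

set_option autoImplicit false
open Cfsg

namespace Cfsg.Agent.S4036

theorem exists_fixed {P : Type*} [Group P] [Finite P] {p : ℕ} [hp : Fact p.Prime]
    (hP : IsPGroup p P) (α : MulAut P) (n : ℕ) (hα : α ^ (p ^ n) = 1)
    (W : Subgroup P) (hW : ∀ w ∈ W, α w ∈ W) (hW1 : W ≠ ⊥) : ∃ w ∈ W, w ≠ 1 ∧ α w = w := by
  classical
  haveI := Fintype.ofFinite W
  let f : Function.End W := fun w => ⟨α w, hW _ w.2⟩
  have hf : ∀ (k : ℕ) (w : W), ((f ^ k) w : P) = (α ^ k) w := by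
    intro k
    induction k with
    | zero => intro w; rfl
    | succ k ih =>
      intro w
      rw [pow_succ, pow_succ]
      show ((f ^ k) (f w) : P) = (α ^ k) (α w)
      rw [ih]
  have hf1 : f ^ p ^ n = 1 := by
    funext w
    apply Subtype.ext
    rw [hf, hα]
    rfl
  have hcard := Equiv.Perm.card_fixedPoints_modEq hf1
  have hWp : IsPGroup p W := hP.to_subgroup W
  haveI : Nontrivial W := (Subgroup.nontrivial_iff_ne_bot W).mpr hW1
  have hd : p ∣ Fintype.card W := by
    rw [← Nat.card_eq_fintype_card]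
    exact hWp.nontrivial_iff_card.mp inferInstance |>.elim (fun k hk => by rw [hk.2]; exact dvd_pow_self p hk.1.ne')
  have hd2 : p ∣ Fintype.card (Function.fixedPoints f) := by
    exact (Nat.modEq_zero_iff_dvd.mp (hcard.symm.trans (Nat.modEq_zero_iff_dvd.mpr hd)))
  have hone : (1 : W) ∈ Function.fixedPoints f := by
    show f 1 = 1
    apply Subtype.ext
    show α 1 = 1
    simp
  have hpos : 0 < Fintype.card (Function.fixedPoints f) := Fintype.card_pos_iff.mpr ⟨⟨1, hone⟩⟩
  have hgt : 1 < Fintype.card (Function.fixedPoints f) :=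
    lt_of_lt_of_le (Fact.out : p.Prime).one_lt (Nat.le_of_dvd hpos hd2)
  obtain ⟨⟨w, hw⟩, hne⟩ := Fintype.exists_ne_of_one_lt_card hgt ⟨1, hone⟩
  refine ⟨w, w.2, ?_, ?_⟩
  · intro h
    apply hne
    apply Subtype.ext
    apply Subtype.ext
    exact h
  · exact congrArg Subtype.val hw

/-- Let P be a finite abelian p-group and K a group of automorphisms of P (a subgroup of Aut P) whose order is divisible by p. If all non-identity elements of K have the same fixed-point subgroup on P, then K has no non-trivial normal subgroup of order prime to p. -/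
theorem result {P : Type*} [CommGroup P] [Finite P] {p : ℕ}
    [Fact p.Prime] (hP : IsPGroup p P) (K : Subgroup (MulAut P)) (hK : p ∣ Nat.card K)
    (hfix : ∀ x y : MulAut P, x ∈ K → y ∈ K → x ≠ 1 → y ≠ 1 → ∀ v : P, x v = v ↔ y v = v) :
    ∀ N : Subgroup ↥K, N.Normal → ¬ p ∣ Nat.card N → N = ⊥ := by
  classical
  intro N hNn hNp
  by_contra hN1
  haveI := Fintype.ofFinite N
  haveI := Fact.out (p := p.Prime) |> fun _ => (inferInstance : Fact p.Prime)
  obtain ⟨a, ha⟩ := exists_prime_orderOf_dvd_card' (G := K) p hK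
  have ha0 : ((a : K) : MulAut P) ≠ 1 := by
    intro h
    have h1 : a = 1 := Subtype.ext h
    rw [h1, orderOf_one] at ha
    exact (Fact.out : p.Prime).one_lt.ne ha
  have ha1 : ((a : K) : MulAut P) ^ (p ^ 1) = 1 := by
    rw [pow_one, ← Subgroup.orderOf_coe] at *
    rw [← ha]
    exact pow_orderOf_eq_one _
  haveI : Nontrivial N := (Subgroup.nontrivial_iff_ne_bot N).mpr hN1
  obtain ⟨y, hy⟩ := exists_ne (1 : N)
  have hy0 : (((y : K) : MulAut P)) ≠ 1 := by
    intro h
    apply hy
    apply Subtype.ext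
    apply Subtype.ext
    exact h
  let τ : P →* P :=
    { toFun := fun v => ∏ n : N, (((n : K) : MulAut P)) v
      map_one' := by simp
      map_mul' := by
        intro u v
        simp only [map_mul, Finset.prod_mul_distrib] }
  have hτ : ∀ v, τ v = ∏ n : N, (((n : K) : MulAut P)) v := fun v => rfl
  -- image of τ is fixed by N
  have hfixed : ∀ (z : N) (v : P), (((z : K) : MulAut P)) (τ v) = τ v := by
    intro z v
    rw [hτ, map_prod]
    rw [← Equiv.prod_comp (Equiv.mulLeft z) (fun n : N => (((n : K) : MulAut P)) v)]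
    apply Finset.prod_congr rfl
    intro n _
    simp [MulAut.mul_apply]
  -- τ commutes with K
  have hcomm : ∀ (k : K) (v : P), τ (((k : K) : MulAut P) v) = ((k : K) : MulAut P) (τ v) := by
    intro k v
    rw [hτ, hτ, map_prod]
    rw [← Equiv.prod_comp (MulAut.conjNormal k : N ≃* N).toEquiv (fun n : N => (((n : K) : MulAut P)) (((k : K) : MulAut P) v))]
    apply Finset.prod_congr rfl
    intro n _
    simp only [MulEquiv.toEquiv_eq_coe, EquivLike.coe_coe, MulAut.conjNormal_apply]
    simp [MulAut.mul_apply]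
  -- τ is injective
  have hW : τ.ker = ⊥ := by
    by_contra hne
    obtain ⟨w, hwW, hw1, hwa⟩ := exists_fixed hP (a : MulAut P) 1 ha1 τ.ker (by
      intro w hw
      rw [MonoidHom.mem_ker] at hw ⊢
      have := hcomm a w
      rw [this, hw, map_one]) hne
    apply hw1
    have hall : ∀ n : N, (((n : K) : MulAut P)) w = w := by
      intro n
      by_cases hn : n = 1
      · rw [hn]; rfl
      · have hn0 : (((n : K) : MulAut P)) ≠ 1 := by
          intro h
          apply hn
          apply Subtype.ext
          apply Subtype.ext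
          exact h
        exact (hfix (a : MulAut P) (n : K) a.2 (n : K).2 ha0 hn0 w).mp hwa
    have h2 : τ w = w ^ Fintype.card N := by
      rw [hτ]
      simp [hall]
    rw [MonoidHom.mem_ker, h2] at hwW
    obtain ⟨k, hk⟩ := (IsPGroup.iff_orderOf.mp hP) w
    have h3 := orderOf_dvd_of_pow_eq_one hwW
    rw [hk, ← Nat.card_eq_fintype_card] at h3
    have h4 : Nat.Coprime (p ^ k) (Nat.card N) := by
      apply Nat.Coprime.pow_left
      exact ((Fact.out : p.Prime).coprime_iff_not_dvd).mpr hNp
    have h5 : p ^ k = 1 := Nat.Coprime.eq_one_of_dvd h4 h3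
    rw [h5] at hk
    exact orderOf_eq_one_iff.mp hk
  have hinj : Function.Injective τ := (MonoidHom.ker_eq_bot_iff τ).mp hW
  have hsurj : Function.Surjective τ := Finite.surjective_of_injective hinj
  apply ha0
  ext v
  obtain ⟨u, rfl⟩ := hsurj v
  exact (hfix (y : K) (a : K) (y : K).2 a.2 hy0 ha0 (τ u)).mp (hfixed y u)

end Cfsg.Agent.S4036
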