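import Cfsg.Statements.S4040
import Mathlib
import Cfsg.Agent.Lib.PMin5
import Cfsg.Agent.Lib.PZJ7
import Cfsg.Agent.Lib.PNilp
import Cfsg.Agent.Lib.H1FH
import Cfsg.Agent.Lib.H1Cop
import Cfsg.Agent.Lib.H1Super
-- import your own Cfsg.Agent.* helpers here

set_option autoImplicit false
open Cfsg

namespace Cfsg.Agent.S4040

open Cfsg Cfsg.Agent.Lib

universe u

theorem npc_of_nilpotent {T : Type*} [Group T] [Finite T] (p : ℕ) [Fact p.Prime] (hT : Group.IsNilpotent T) :
    HasNormalPComplement p T := by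
  obtain ⟨P⟩ : Nonempty (Sylow p T) := inferInstance
  apply PNilp.hasNormalPComplement_of_automizer P
  intro Q hQ g _ hg
  rw [Subgroup.mem_centralizer_iff]
  intro h hh
  have hnil : Group.IsNilpotent (⊤ : Subgroup T) := inferInstance
  have hc : (orderOf h).Coprime (orderOf g) := by
    obtain ⟨k, hk⟩ := (IsPGroup.iff_orderOf.mp P.isPGroup') ⟨h, hQ hh⟩
    have hk' : orderOf h = p ^ k := by rw [← hk]; simp [Subgroup.orderOf_mk]
    rw [hk']
    exact Nat.Coprime.pow_left _ hg.symm
  exact (H1FH.commute_coprime hnil (Subgroup.mem_top h) (Subgroup.mem_top g) hc).eq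

theorem main_thm : ∀ (N : ℕ) (G : Type u) [Group G] [Finite G], Nat.card G = N → ∀ (M : Subgroup G),
    IsCoatom M → Group.IsNilpotent M → Odd (Nat.card M) → Group.IsSolvable G := by
  intro N
  induction N using Nat.strong_induction_on with
  | _ N ih =>
  intro G _ _ hN M hmax hnil hodd
  classical
  haveI := hnil
  haveI hMs : Group.IsSolvable M := inferInstance
  -- reduction: no nontrivial normal subgroup inside M
  by_cases hcore : ∃ R : Subgroup G, R.Normal ∧ R ≤ M ∧ R ≠ ⊥
  · obtain ⟨R, hRn, hRM, hRne⟩ := hcore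
    haveI := hRn
    have hlt : Nat.card (G ⧸ R) < N := by
      have hsplit := Subgroup.card_eq_card_quotient_mul_card_subgroup R
      have hR1 : 1 < Nat.card R := by
        have h1 : Nat.card R ≠ 1 := fun h => hRne (Subgroup.card_eq_one.mp h)
        have h2 : 0 < Nat.card R := Nat.card_pos
        omega
      rw [← hN, hsplit]
      exact lt_mul_of_one_lt_right Nat.card_pos hR1
    have hM' : IsCoatom (M.map (QuotientGroup.mk' R)) := H1Super.isCoatom_map_mk hRM hmax
    have hsurj : Function.Surjective ((QuotientGroup.mk' R).subgroupMap M) := MonoidHom.subgroupMap_surjective _ _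
    have hnil' : Group.IsNilpotent (M.map (QuotientGroup.mk' R)) := nilpotent_of_surjective _ hsurj
    have hodd' : Odd (Nat.card (M.map (QuotientGroup.mk' R))) :=
      hodd.of_dvd_nat (Subgroup.card_map_dvd _ _)
    have hq := ih _ hlt (G ⧸ R) rfl _ hM' hnil' hodd'
    have hRs : Group.IsSolvable R := solvable_of_solvable_injective (Subgroup.inclusion_injective hRM)
    exact solvable_of_ker_le_range R.subtype (QuotientGroup.mk' R) (by simp)
  push Not at hcore
  have hMtop : M ≠ ⊤ := hmax.1
  -- local analysis for each prime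
  have hex : ∀ p ∈ (Nat.card M).primeFactors, ∃ K : Subgroup G, K.Normal ∧ (Nat.card K).Coprime p ∧
      K.index = p ^ (Nat.card M).factorization p := by
    intro p hpπ
    have hp : p.Prime := Nat.prime_of_mem_primeFactors hpπ
    have hpd : p ∣ Nat.card M := Nat.dvd_of_mem_primeFactors hpπ
    haveI : Fact p.Prime := ⟨hp⟩
    have hp2 : p ≠ 2 := by
      rintro rfl
      exact (Nat.not_even_iff_odd.mpr hodd) (even_iff_two_dvd.mpr hpd)
    obtain ⟨S⟩ : Nonempty (Sylow p M) := inferInstance
    have hSn : (S : Subgroup M).Normal :=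
      Sylow.normal_of_normalizerCondition (normalizerCondition_of_isNilpotent) S
    set Q : Subgroup G := (S : Subgroup M).map M.subtype with hQ
    have hQp : IsPGroup p Q := S.isPGroup'.map _
    have hQcard : Nat.card Q = p ^ (Nat.card M).factorization p := by
      rw [← Sylow.card_eq_multiplicity S]
      exact Nat.card_congr (Subgroup.equivMapOfInjective _ _ M.subtype_injective).symm.toEquiv
    have hQne : Q ≠ ⊥ := by
      intro h
      rw [h, Subgroup.card_bot] at hQcard
      have hv : 0 < (Nat.card M).factorization p := hp.factorization_pos_of_dvd Nat.card_pos.ne' hpd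
      have : 1 < p ^ (Nat.card M).factorization p := Nat.one_lt_pow hv.ne' hp.one_lt
      omega
    have hQM : Q ≤ M := Subgroup.map_subtype_le _
    have hMQ : M ≤ Subgroup.normalizer (Q : Set G) := by
      intro x hx
      rw [Subgroup.mem_normalizer_iff]
      intro y
      constructor
      · rintro ⟨s, hs, rfl⟩
        exact ⟨⟨x, hx⟩ * s * ⟨x, hx⟩⁻¹, hSn.conj_mem s hs _, rfl⟩
      · intro hy
        obtain ⟨s, hs, hs2⟩ := hy
        refine ⟨⟨x, hx⟩⁻¹ * s * (⟨x, hx⟩⁻¹)⁻¹, hSn.conj_mem s hs _, ?_⟩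
        have : y = x⁻¹ * (s : G) * x := by rw [show (M.subtype s : G) = (s : G) from rfl] at hs2; rw [hs2]; group
        rw [this]
        simp
    have hnorm_of : ∀ X : Subgroup G, X ≠ ⊥ → X ≤ M → M ≤ Subgroup.normalizer (X : Set G) →
        Subgroup.normalizer (X : Set G) = M := by
      intro X hX hXM hMX
      rcases hmax.le_iff.mp hMX with h | h
      · exfalso
        exact hX (hcore X (Subgroup.normalizer_eq_top_iff.mp h) hXM)
      · exact h
    have hQnorm := hnorm_of Q hQne hQM hMQ
    obtain ⟨P, hP⟩ := hQp.exists_le_sylow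
    have hPQ : (P : Subgroup G) = Q := by
      by_contra hne
      have hlt : Q < P := lt_of_le_of_ne hP (Ne.symm hne)
      obtain ⟨x, hxP, hxQ, hxN⟩ := PZJ.exists_normalizing_elt P.isPGroup' hlt
      rw [hQnorm] at hxN
      apply hxQ
      have hxp : IsPGroup p (Subgroup.zpowers (⟨x, hxN⟩ : M)) := by
        obtain ⟨k, hk⟩ := (IsPGroup.iff_orderOf.mp P.isPGroup') ⟨x, hxP⟩
        have hk' : orderOf x = p ^ k := by rw [← hk]; simp [Subgroup.orderOf_mk]
        have hk2 : orderOf (⟨x, hxN⟩ : M) = p ^ k := by rw [← hk']; simp [Subgroup.orderOf_mk]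
        apply IsPGroup.of_card (n := k)
        rw [Nat.card_zpowers, hk2]
      obtain ⟨S₂, hS₂⟩ := hxp.exists_le_sylow
      haveI := Sylow.unique_of_normal S hSn
      have hSS : S₂ = S := Subsingleton.elim _ _
      rw [hSS] at hS₂
      have hmem : (⟨x, hxN⟩ : M) ∈ (S : Subgroup M) := hS₂ (Subgroup.mem_zpowers _)
      exact ⟨_, hmem, rfl⟩
    set Z := centerThompsonAOf (P : Subgroup G) with hZ
    have hZne : Z ≠ ⊥ := by
      rw [hZ, hPQ]
      exact PZJ.centerThompsonAOf_ne_bot hQp hQne
    have hZQ : Z ≤ M := by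
      rw [hZ, hPQ]
      exact (PZJ.centerThompsonAOf_le Q).trans hQM
    have hMZ : M ≤ Subgroup.normalizer (Z : Set G) := by
      rw [hZ, hPQ]
      exact hMQ.trans (PZJ.normalizer_le_normalizer_center Q)
    have hZnorm := hnorm_of Z hZne hZQ hMZ
    have hNc : HasNormalPComplement p ↥(Subgroup.normalizer (centerThompsonAOf (P : Subgroup G) : Set G)) := by
      rw [← hZ, hZnorm]
      exact npc_of_nilpotent p hnil
    obtain ⟨P', K, hKn, hKc⟩ := PZJ.glauberman_thompson_A hp2 P hNc
    refine ⟨K, hKn, PNilp.coprime_card_of_isComplement P' K hKc, ?_⟩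
    have h1 := hKc.card_mul
    have h2 := Subgroup.card_mul_index K
    have h3 : K.index = Nat.card P' := by
      rw [← h1] at h2
      exact Nat.eq_of_mul_eq_mul_left Nat.card_pos h2
    have h4 : Nat.card P' = Nat.card P := by
      rw [Sylow.card_eq_multiplicity, Sylow.card_eq_multiplicity]
    rw [h3, h4]
    show Nat.card (P : Subgroup G) = _
    rw [hPQ, hQcard]
  choose! K hKn hKc hKi using hex
  set π := (Nat.card M).primeFactors with hπ
  let f : π → Subgroup G := fun p => K p
  set K₀ : Subgroup G := ⨅ i, f i with hK₀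
  haveI hK₀n : K₀.Normal := by
    refine ⟨fun x hx g => ?_⟩
    rw [Subgroup.mem_iInf] at hx ⊢
    intro i
    exact (hKn i.1 i.2).conj_mem x (hx i) g
  have hindex : K₀.index ≤ Nat.card M := by
    refine (Subgroup.index_iInf_le f).trans (le_of_eq ?_)
    have h1 : ∀ i : π, (f i).index = i.1 ^ (Nat.card M).factorization i.1 := fun i => hKi i.1 i.2
    simp_rw [h1]
    rw [Finset.prod_coe_sort π (fun p => p ^ (Nat.card M).factorization p)]
    conv_rhs => rw [← Nat.factorization_prod_pow_eq_self (n := Nat.card M) Nat.card_pos.ne']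
    rfl
  have hcop : (Nat.card M).Coprime (Nat.card K₀) := by
    apply Nat.coprime_of_dvd
    intro p hp hp1 hp2
    have hpπ : p ∈ π := Nat.mem_primeFactors.mpr ⟨hp, hp1, Nat.card_pos.ne'⟩
    have hle : K₀ ≤ K p := iInf_le f ⟨p, hpπ⟩
    have hd := Subgroup.card_dvd_of_le hle
    have := hKc p hpπ
    exact (Nat.Prime.coprime_iff_not_dvd hp).mp this.symm (hp2.trans hd)
  have hMK : M ≤ Subgroup.normalizer (K₀ : Set G) := by
    rw [Subgroup.normalizer_eq_top_iff.mpr hK₀n]; exact le_top
  have hK₀ne : K₀ ≠ ⊥ := by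
    intro h
    rw [h, Subgroup.index_bot] at hindex
    apply hMtop
    apply Subgroup.eq_top_of_card_eq
    exact le_antisymm (Subgroup.card_le_card_group M) hindex
  have hK1 : Nat.card K₀ ≠ 1 := fun h => hK₀ne (Subgroup.card_eq_one.mp h)
  obtain ⟨r, hr, hrd⟩ := Nat.exists_prime_and_dvd hK1
  haveI : Fact r.Prime := ⟨hr⟩
  obtain ⟨R, ⟨hRK, hRp, hRi⟩, hMR⟩ := H1Cop.exists_invariant_sylow hMK hcop (Or.inl hMs) r
  have hRne : R ≠ ⊥ := by
    rintro rfl
    rw [Subgroup.relIndex_bot_left] at hRi
    exact hRi hrd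
  have hcopR : (Nat.card M).Coprime (Nat.card R) := Nat.Coprime.coprime_dvd_right (Subgroup.card_dvd_of_le hRK) hcop
  have hinf : M ⊓ K₀ = ⊥ := Subgroup.inf_eq_bot_of_coprime hcop
  have hRM : ¬ R ≤ M := by
    intro h
    apply hRne
    rw [eq_bot_iff, ← hinf]
    exact le_inf h hRK
  have hsup : R ⊔ M = ⊤ := by
    have hle : M ≤ R ⊔ M := le_sup_right
    rcases hmax.le_iff.mp hle with h | h
    · exact h
    · exfalso
      apply hRM
      rw [← h]
      exact le_sup_left
  have hc1 := H1Cop.card_sup_of_coprime hMR hcopR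
  rw [hsup, Subgroup.card_top] at hc1
  have hc2 := H1Cop.card_sup_of_coprime hMK hcop
  have hc3 : Nat.card (K₀ ⊔ M : Subgroup G) ≤ Nat.card G := Subgroup.card_le_card_group _
  rw [hc2, hc1] at hc3
  have hc4 : Nat.card K₀ ≤ Nat.card R := Nat.le_of_mul_le_mul_right hc3 Nat.card_pos
  have hRK₀ : R = K₀ := Subgroup.eq_of_le_of_card_ge hRK hc4
  have hK₀p : IsPGroup r K₀ := by rw [← hRK₀]; exact hRp
  haveI : Group.IsNilpotent K₀ := hK₀p.isNilpotent
  have hK₀s : Group.IsSolvable K₀ := inferInstance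
  have hsup2 : K₀ ⊔ M = ⊤ := by rw [← hRK₀]; exact hsup
  have hqs : Group.IsSolvable (G ⧸ K₀) := by
    apply solvable_of_surjective (f := (QuotientGroup.mk' K₀).comp M.subtype)
    intro y
    obtain ⟨g, rfl⟩ := QuotientGroup.mk'_surjective K₀ y
    have hg : g ∈ K₀ ⊔ M := by rw [hsup2]; exact Subgroup.mem_top g
    rw [← SetLike.mem_coe, Subgroup.normal_mul, Set.mem_mul] at hg
    obtain ⟨k, hk, m, hm, rfl⟩ := hg
    refine ⟨⟨m, hm⟩, ?_⟩
    simp only [MonoidHom.comp_apply, Subgroup.coe_subtype, map_mul]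
    rw [show QuotientGroup.mk' K₀ k = 1 from (QuotientGroup.eq_one_iff k).mpr hk, one_mul]
  exact solvable_of_ker_le_range K₀.subtype (QuotientGroup.mk' K₀) (by simp)

/-- A finite group possessing a maximal subgroup that is nilpotent of odd order is solvable. -/
theorem result {G : Type*} [Group G] [Finite G]
    (M : Subgroup G) (hmax : IsCoatom M) (hnil : Group.IsNilpotent M) (hodd : Odd (Nat.card M)) :
    Group.IsSolvable G := by
  exact main_thm _ G rfl M hmax hnil hodd

end Cfsg.Agent.S4040
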