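import Cfsg.Statements.S4051
import Mathlib
import Cfsg.Agent.Lib.H1Cop
import Cfsg.Agent.Lib.H1Conj
-- import your own Cfsg.Agent.* helpers here

set_option autoImplicit false
open Cfsg

namespace Cfsg.Agent.S4051

open scoped Pointwise

section
variable {G : Type*} [Group G]

def PE {X : Type*} [Group X] (π : Set ℕ) (x : X) : Prop := ∀ p : ℕ, p.Prime → p ∣ orderOf x → p ∈ π
def PN {X : Type*} [Group X] (π : Set ℕ) (x : X) : Prop := ∀ p : ℕ, p.Prime → p ∣ orderOf x → p ∉ π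

theorem split (π : Set ℕ) (n : ℕ) (hn : n ≠ 0) :
    ∃ a b, n = a * b ∧ (∀ p : ℕ, p.Prime → p ∣ a → p ∈ π) ∧ (∀ p : ℕ, p.Prime → p ∣ b → p ∉ π) := by
  induction n using Nat.recOnMul with
  | zero => exact absurd rfl hn
  | one => exact ⟨1, 1, rfl, fun p hp h => absurd (Nat.dvd_one.1 h) hp.one_lt.ne', fun p hp h => absurd (Nat.dvd_one.1 h) hp.one_lt.ne'⟩
  | prime p hp =>
    by_cases h : p ∈ π
    · refine ⟨p, 1, (mul_one p).symm, fun q hq hd => ?_, fun q hq hd => absurd (Nat.dvd_one.1 hd) hq.one_lt.ne'⟩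
      rwa [(Nat.prime_dvd_prime_iff_eq hq hp).1 hd]
    · refine ⟨1, p, (one_mul p).symm, fun q hq hd => absurd (Nat.dvd_one.1 hd) hq.one_lt.ne', fun q hq hd => ?_⟩
      rwa [(Nat.prime_dvd_prime_iff_eq hq hp).1 hd]
  | mul a b ha hb =>
    obtain ⟨a₁, b₁, h1, h2, h3⟩ := ha (left_ne_zero_of_mul hn)
    obtain ⟨a₂, b₂, h4, h5, h6⟩ := hb (right_ne_zero_of_mul hn)
    refine ⟨a₁ * a₂, b₁ * b₂, by rw [h1, h4]; ring, fun p hp hd => ?_, fun p hp hd => ?_⟩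
    · rcases (Nat.Prime.dvd_mul hp).1 hd with h | h
      · exact h2 p hp h
      · exact h5 p hp h
    · rcases (Nat.Prime.dvd_mul hp).1 hd with h | h
      · exact h3 p hp h
      · exact h6 p hp h

theorem cop_of {π : Set ℕ} {a b : ℕ} (ha : ∀ p : ℕ, p.Prime → p ∣ a → p ∈ π) (hb : ∀ p : ℕ, p.Prime → p ∣ b → p ∉ π) :
    Nat.Coprime a b := by
  by_contra h
  obtain ⟨p, hp, h1, h2⟩ := Nat.Prime.not_coprime_iff_dvd.1 h
  exact hb p hp h2 (ha p hp h1)

theorem PE.of_dvd {X : Type*} [Group X] {π : Set ℕ} {x : X} {n : ℕ} (h : ∀ p : ℕ, p.Prime → p ∣ n → p ∈ π)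
    (hd : orderOf x ∣ n) : PE π x := fun p hp hpd => h p hp (hpd.trans hd)

theorem PE.pow {X : Type*} [Group X] {π : Set ℕ} {x : X} (h : PE π x) (k : ℕ) : PE π (x ^ k) :=
  fun p hp hd => h p hp (hd.trans (orderOf_pow_dvd k))

theorem PE.map {X Y : Type*} [Group X] [Group Y] {π : Set ℕ} {x : X} (h : PE π x) (f : X →* Y) : PE π (f x) :=
  fun p hp hd => h p hp (hd.trans (orderOf_map_dvd f x))

theorem PN.map {X Y : Type*} [Group X] [Group Y] {π : Set ℕ} {x : X} (h : PN π x) (f : X →* Y) : PN π (f x) :=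
  fun p hp hd => h p hp (hd.trans (orderOf_map_dvd f x))

theorem PN.pow {X : Type*} [Group X] {π : Set ℕ} {x : X} (h : PN π x) (k : ℕ) : PN π (x ^ k) :=
  fun p hp hd => h p hp (hd.trans (orderOf_pow_dvd k))

theorem eq_one_of {X : Type*} [Group X] [Finite X] {π : Set ℕ} {x : X} (h1 : PE π x) (h2 : PN π x) : x = 1 := by
  by_contra hne
  obtain ⟨q, hq, hqd⟩ := Nat.exists_prime_and_dvd (mt orderOf_eq_one_iff.1 hne)
  exact h2 q hq hqd (h1 q hq hqd)

theorem PE.conj {X : Type*} [Group X] {π : Set ℕ} {x : X} (h : PE π x) (g : X) : PE π (g * x * g⁻¹) := by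
  intro p hp hd
  have : orderOf (g * x * g⁻¹) = orderOf x := by
    have := (MulAut.conj g).orderOf_eq x
    rwa [MulAut.conj_apply] at this
  rw [this] at hd
  exact h p hp hd

theorem pi_part {X Y : Type*} [Group X] [Finite X] [Group Y] (π : Set ℕ) (φ : X →* Y) (x : X) (hx : PE π (φ x)) :
    ∃ c : ℕ, PE π (x ^ c) ∧ φ (x ^ c) = φ x := by
  obtain ⟨a, b, hab, ha, hb⟩ := split π (orderOf x) (orderOf_pos x).ne'
  have hcop : Nat.Coprime a b := cop_of ha hb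
  obtain ⟨c, hc1, hc2⟩ := Nat.chineseRemainder hcop 1 0
  have hbc : b ∣ c := (Nat.modEq_zero_iff_dvd).1 hc2
  refine ⟨c, ?_, ?_⟩
  · apply PE.of_dvd ha
    apply orderOf_dvd_of_pow_eq_one
    rw [← pow_mul]
    apply orderOf_dvd_iff_pow_eq_one.1
    rw [hab, mul_comm c a]
    exact mul_dvd_mul_left a hbc
  · rw [map_pow]
    have hd : orderOf (φ x) ∣ a * b := hab ▸ orderOf_map_dvd φ x
    have hd2 : orderOf (φ x) ∣ a := by
      have hc' : Nat.Coprime (orderOf (φ x)) b := cop_of hx hb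
      exact hc'.dvd_of_dvd_mul_right hd
    have h1 : c ≡ 1 [MOD orderOf (φ x)] := hc1.of_dvd hd2
    have h2 := pow_eq_pow_iff_modEq.2 h1
    rw [pow_one] at h2
    exact h2

theorem closed_of_quot [Finite G] (π : Set ℕ) (L₀ : Subgroup G) [L₀.Normal] (hL₀ : ∀ x ∈ L₀, PE π x)
    (hQ : ∃ T : Subgroup (G ⧸ L₀), ∀ x, x ∈ T ↔ PE π x) : ∃ T : Subgroup G, ∀ x, x ∈ T ↔ PE π x := by
  obtain ⟨T, hT⟩ := hQ
  refine ⟨T.comap (QuotientGroup.mk' L₀), fun x => ?_⟩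
  rw [Subgroup.mem_comap, hT]
  constructor
  · intro h p hp hd
    set m := orderOf (QuotientGroup.mk' L₀ x) with hm
    have h1 : x ^ m ∈ L₀ := by
      have : (QuotientGroup.mk' L₀ (x ^ m)) = 1 := by
        rw [map_pow, hm, pow_orderOf_eq_one]
      exact (QuotientGroup.eq_one_iff _).1 this
    have h2 : orderOf x ∣ m * orderOf (x ^ m) := by
      apply orderOf_dvd_of_pow_eq_one
      rw [pow_mul, pow_orderOf_eq_one]
    rcases (Nat.Prime.dvd_mul hp).1 (hd.trans h2) with h3 | h3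
    · exact h p hp h3
    · exact hL₀ _ h1 p hp h3
  · intro h
    exact h.map _

theorem closed_of_central {Γ Ω : Type*} [Group Γ] [Finite Γ] [Group Ω] [Finite Ω] (π : Set ℕ) (φ : Γ →* Ω)
    (hφ : Function.Surjective φ) (hK : ∀ k ∈ φ.ker, PN π k)
    (hQ : ∃ L : Subgroup Ω, ∀ x, x ∈ L ↔ PE π x)
    (hcomm : ∀ y : Γ, PE π y → ∀ k ∈ φ.ker, y * k = k * y) : ∃ T : Subgroup Γ, ∀ x, x ∈ T ↔ PE π x := by
  classical
  obtain ⟨L, hL⟩ := hQ
  let Q : Subgroup Γ := L.comap φ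
  have hKQ : φ.ker ≤ Q := fun k hk => by
    show φ k ∈ L
    rw [(MonoidHom.mem_ker).1 hk]; exact L.one_mem
  let K₂ : Subgroup Q := φ.ker.subgroupOf Q
  have hidx : K₂.index = Nat.card L := by
    show φ.ker.relIndex Q = _
    have h1 : φ.ker = (⊥ : Subgroup Ω).comap φ := (MonoidHom.comap_bot φ).symm
    rw [h1, Subgroup.relIndex_comap, Subgroup.map_comap_eq_self_of_surjective hφ, Subgroup.relIndex_bot_left]
  have hcardK : Nat.card K₂ = Nat.card φ.ker := Nat.card_congr (Subgroup.subgroupOfEquivOfLe hKQ).toEquiv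
  have hKprimes : ∀ p : ℕ, p.Prime → p ∣ Nat.card K₂ → p ∉ π := by
    intro p hp hd
    rw [hcardK] at hd
    haveI := Fact.mk hp
    obtain ⟨k, hk⟩ := exists_prime_orderOf_dvd_card' (G := φ.ker) p hd
    have := hK k k.2 p hp
    rw [Subgroup.orderOf_coe, hk] at this
    exact this dvd_rfl
  have hLprimes : ∀ p : ℕ, p.Prime → p ∣ Nat.card L → p ∈ π := by
    intro p hp hd
    haveI := Fact.mk hp
    obtain ⟨k, hk⟩ := exists_prime_orderOf_dvd_card' (G := L) p hd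
    have := (hL k).1 k.2 p hp
    rw [Subgroup.orderOf_coe, hk] at this
    exact this dvd_rfl
  have hcop : Nat.Coprime (Nat.card K₂) K₂.index := by
    rw [hidx]
    exact (cop_of hLprimes hKprimes).symm
  haveI : K₂.Normal := inferInstance
  obtain ⟨H, hH⟩ := Subgroup.exists_right_complement'_of_coprime hcop
  have hHcard : Nat.card H = Nat.card L := by
    rw [← hidx]
    exact hH.symm.index_eq_card.symm
  have hHPE : ∀ h : H, PE π ((h : Q) : Γ) := by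
    intro h p hp hd
    apply hLprimes p hp
    rw [← hHcard]
    have h1 : orderOf ((h : Q) : Γ) = orderOf h := by
      rw [Subgroup.orderOf_coe, Subgroup.orderOf_coe]
    rw [h1] at hd
    exact hd.trans (orderOf_dvd_natCard h)
  refine ⟨H.map Q.subtype, fun x => ⟨?_, fun hx => ?_⟩⟩
  · rintro ⟨h, hh, rfl⟩
    exact hHPE ⟨h, hh⟩
  · have hxQ : x ∈ Q := (hL _).2 (hx.map φ)
    obtain ⟨⟨k, h⟩, hkh⟩ := hH.2 (⟨x, hxQ⟩ : Q)
    have hkh' : ((k : Q) : Γ) * ((h : Q) : Γ) = x := congrArg Subtype.val hkh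
    have hkker : ((k : Q) : Γ) ∈ φ.ker := k.2
    have hPEh := hHPE h
    have hc := hcomm _ hPEh _ hkker
    have hkN := hK _ hkker
    -- the power
    set m := orderOf ((h : Q) : Γ) with hm
    have hpow : x ^ m = ((k : Q) : Γ) ^ m := by
      rw [← hkh', ((show Commute ((k : Q) : Γ) ((h : Q) : Γ) from hc.symm)).mul_pow, hm, pow_orderOf_eq_one, mul_one]
    have h1 : ((k : Q) : Γ) ^ m = 1 := eq_one_of (hpow ▸ hx.pow m) (hkN.pow m)
    have h2 : orderOf ((k : Q) : Γ) ∣ m := orderOf_dvd_of_pow_eq_one h1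
    have h3 : ((k : Q) : Γ) = 1 := eq_one_of (PE.of_dvd hPEh h2) hkN
    rw [h3, one_mul] at hkh'
    exact ⟨(h : Q), h.2, hkh'⟩


theorem claimA [Finite G] (π : Set ℕ)
    (hh : ∀ H : Subgroup G, (∀ p : ℕ, p.Prime → p ∣ Nat.card H → p ∉ π) → ∀ y, PE π y →
      y ∈ Subgroup.normalizer (H : Set G) → y ∈ Subgroup.centralizer (H : Set G))
    (K L₀ : Subgroup G) [hKn : K.Normal] [hL₀n : L₀.Normal] (hLK : L₀ ≤ K)
    (hKbar : ∀ k ∈ K, PN π (QuotientGroup.mk' L₀ k)) (ŷ : G) (hy : PE π (QuotientGroup.mk' L₀ ŷ)) :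
    K.map (QuotientGroup.mk' L₀) ≤ Subgroup.centralizer {QuotientGroup.mk' L₀ ŷ} := by
  classical
  set mk := QuotientGroup.mk' L₀ with hmk
  have hmks : Function.Surjective mk := QuotientGroup.mk'_surjective L₀
  set y := mk ŷ with hydef
  set K₁ := K.map mk with hK₁
  have hK₁n : K₁.Normal := Subgroup.Normal.map hKn mk hmks
  have hK₁primes : ∀ p : ℕ, p.Prime → p ∣ Nat.card K₁ → p ∉ π := by
    intro p hp hd
    haveI := Fact.mk hp
    obtain ⟨k, hk⟩ := exists_prime_orderOf_dvd_card' (G := K₁) p hd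
    obtain ⟨k₀, hk₀, hk₀e⟩ := k.2
    have h1 := hKbar k₀ hk₀ p hp
    rw [show mk k₀ = (k : G ⧸ L₀) from hk₀e, Subgroup.orderOf_coe, hk] at h1
    exact h1 dvd_rfl
  rw [← Subgroup.relIndex_eq_one]
  by_contra hne
  obtain ⟨q, hq, hqd⟩ := Nat.exists_prime_and_dvd hne
  haveI := Fact.mk hq
  have hqK : q ∣ Nat.card K₁ := hqd.trans (Subgroup.relIndex_dvd_card _ _)
  have hqπ : q ∉ π := hK₁primes q hq hqK
  let A₁ := Subgroup.zpowers y
  have hAK : A₁ ≤ Subgroup.normalizer (K₁ : Set (G ⧸ L₀)) := by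
    rw [Subgroup.normalizer_eq_top_iff.2 hK₁n]; exact le_top
  have hcop : (Nat.card A₁).Coprime (Nat.card K₁) := by
    rw [Nat.card_zpowers]
    exact cop_of hy hK₁primes
  have hsol : Group.IsSolvable A₁ ∨ Group.IsSolvable K₁ := by
    left
    apply isSolvable_of_comm
    rintro ⟨a, ha⟩ ⟨b, hb⟩
    obtain ⟨i, rfl⟩ := Subgroup.mem_zpowers_iff.1 ha
    obtain ⟨j, rfl⟩ := Subgroup.mem_zpowers_iff.1 hb
    apply Subtype.ext
    exact (Commute.refl y).zpow_zpow i j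
  obtain ⟨R, hR, hAR⟩ := Lib.H1Cop.exists_invariant_sylow hAK hcop hsol q
  have hyR : y ∈ Subgroup.normalizer (R : Set (G ⧸ L₀)) := hAR (Subgroup.mem_zpowers y)
  set Ŝ := R.comap mk with hŜ
  have hL₀S : L₀ ≤ Ŝ := by
    intro x hx
    show mk x ∈ R
    rw [show mk x = 1 from (QuotientGroup.eq_one_iff x).2 hx]
    exact R.one_mem
  obtain ⟨S₁, hS₁⟩ := Lib.H1Cop.exists_isSylowIn q Ŝ
  have hSM : Ŝ ≤ L₀ ⊔ S₁ := by
    rw [← Subgroup.relIndex_eq_one]
    have h1 : (L₀ ⊔ S₁).relIndex Ŝ ∣ S₁.relIndex Ŝ := Subgroup.relIndex_dvd_of_le_left _ le_sup_right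
    have h2 : (L₀ ⊔ S₁).relIndex Ŝ ∣ L₀.relIndex Ŝ := Subgroup.relIndex_dvd_of_le_left _ le_sup_left
    have h3 : L₀.relIndex Ŝ = Nat.card R := by
      have h5 : (mk.ker).relIndex Ŝ = Nat.card R := by
        rw [← MonoidHom.comap_bot, Subgroup.relIndex_comap, Subgroup.map_comap_eq_self_of_surjective hmks,
          Subgroup.relIndex_bot_left]
      have h4 : mk.ker = L₀ := QuotientGroup.ker_mk' L₀
      rwa [h4] at h5
    obtain ⟨t, ht⟩ := IsPGroup.iff_card.1 hR.2.1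
    rw [h3, ht] at h2
    obtain ⟨j, -, hj⟩ := (Nat.dvd_prime_pow hq).1 h2
    cases j with
    | zero => simpa using hj
    | succ j =>
      exfalso
      apply hS₁.2.2
      rw [hj] at h1
      exact (dvd_pow_self q (Nat.succ_ne_zero j)).trans h1
  have hdec : ∀ x ∈ Ŝ, ∃ ℓ ∈ L₀, ∃ s ∈ S₁, x = ℓ * s := by
    intro x hx
    have h1 : x ∈ ((L₀ ⊔ S₁ : Subgroup G) : Set G) := hSM hx
    rw [Subgroup.normal_mul] at h1
    obtain ⟨ℓ, hℓ, s, hs, rfl⟩ := Set.mem_mul.1 h1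
    exact ⟨ℓ, hℓ, s, hs, rfl⟩
  have hyŜ : ŷ ∈ Subgroup.normalizer (Ŝ : Set G) := by
    rw [Subgroup.mem_normalizer_iff]
    intro x
    show mk x ∈ R ↔ mk (ŷ * x * ŷ⁻¹) ∈ R
    rw [map_mul, map_mul, map_inv]
    exact Subgroup.mem_normalizer_iff.1 hyR (mk x)
  have hS₁' := Lib.H1Cop.IsSylowIn.conj_smul hyŜ hS₁
  obtain ⟨x, hxŜ, hx⟩ := Lib.H1Cop.IsSylowIn.exists_conj hS₁ hS₁'
  obtain ⟨ℓ, hℓ, s, hs, rfl⟩ := hdec x hxŜ
  have hcs : MulAut.conj s • S₁ = S₁ := Subgroup.conj_smul_eq_self_of_mem hs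
  have hcℓ : MulAut.conj ℓ • S₁ = MulAut.conj ŷ • S₁ := by
    rw [map_mul, mul_smul, hcs] at hx
    exact hx
  have hy₁ : MulAut.conj (ℓ⁻¹ * ŷ) • S₁ = S₁ := by
    rw [map_mul, mul_smul, ← hcℓ, ← mul_smul, ← map_mul, inv_mul_cancel, map_one, one_smul]
  have hy₁N : ℓ⁻¹ * ŷ ∈ Subgroup.normalizer (S₁ : Set G) := Lib.H1Conj.mem_normalizer_of_conj_smul_eq hy₁
  have hmky₁ : mk (ℓ⁻¹ * ŷ) = y := by
    rw [map_mul, map_inv, show mk ℓ = 1 from (QuotientGroup.eq_one_iff ℓ).2 hℓ, inv_one, one_mul]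
  obtain ⟨c, hc1, hc2⟩ := pi_part π mk (ℓ⁻¹ * ŷ) (by rw [hmky₁]; exact hy)
  have hy₂N := Subgroup.pow_mem _ hy₁N c
  have hS₁primes : ∀ p : ℕ, p.Prime → p ∣ Nat.card S₁ → p ∉ π := by
    intro p hp hd
    obtain ⟨t, ht⟩ := IsPGroup.iff_card.1 hS₁.2.1
    rw [ht] at hd
    rw [(Nat.prime_dvd_prime_iff_eq hp hq).1 (hp.dvd_of_dvd_pow hd)]
    exact hqπ
  have hy₂C := hh S₁ hS₁primes _ hc1 hy₂N
  have hRC : R ≤ Subgroup.centralizer {y} := by
    intro r hr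
    obtain ⟨x₀, rfl⟩ := hmks r
    obtain ⟨ℓ', hℓ', s', hs', rfl⟩ := hdec x₀ hr
    rw [Subgroup.mem_centralizer_singleton_iff]
    have h1 : mk ℓ' = 1 := (QuotientGroup.eq_one_iff ℓ').2 hℓ'
    rw [map_mul, h1, one_mul, ← hmky₁, ← hc2, ← map_mul, ← map_mul]
    congr 1
    exact Subgroup.mem_centralizer_iff.1 hy₂C s' hs'
  exact hR.2.2 (hqd.trans (Subgroup.relIndex_dvd_of_le_left K₁ hRC))

theorem core [Finite G] (π : Set ℕ)
    (hh : ∀ H : Subgroup G, (∀ p : ℕ, p.Prime → p ∣ Nat.card H → p ∉ π) → ∀ y, PE π y →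
      y ∈ Subgroup.normalizer (H : Set G) → y ∈ Subgroup.centralizer (H : Set G))
    (K : Subgroup G) [hKn : K.Normal]
    (hK : ∃ L : Subgroup G, ∀ x, x ∈ L ↔ x ∈ K ∧ PE π x)
    (hQ : ∃ L : Subgroup (G ⧸ K), ∀ x, x ∈ L ↔ PE π x) : ∃ T : Subgroup G, ∀ x, x ∈ T ↔ PE π x := by
  classical
  obtain ⟨L₀, hL₀⟩ := hK
  haveI hL₀n : L₀.Normal :=
    ⟨fun x hx g => (hL₀ _).2 ⟨hKn.conj_mem x ((hL₀ x).1 hx).1 g, ((hL₀ x).1 hx).2.conj g⟩⟩
  have hLK : L₀ ≤ K := fun x hx => ((hL₀ x).1 hx).1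
  have hKbar : ∀ k ∈ K, PN π (QuotientGroup.mk' L₀ k) := by
    intro k hk
    obtain ⟨a, b, hab, ha, hb⟩ := split π (orderOf k) (orderOf_pos k).ne'
    have h1 : PE π (k ^ b) := by
      apply PE.of_dvd ha
      apply orderOf_dvd_of_pow_eq_one
      rw [← pow_mul, mul_comm, ← hab, pow_orderOf_eq_one]
    have h2 : k ^ b ∈ L₀ := (hL₀ _).2 ⟨K.pow_mem hk b, h1⟩
    have h3 : (QuotientGroup.mk' L₀ k) ^ b = 1 := by
      rw [← map_pow]
      exact (QuotientGroup.eq_one_iff _).2 h2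
    exact fun p hp hd => hb p hp (hd.trans (orderOf_dvd_of_pow_eq_one h3))
  apply closed_of_quot π L₀ (fun x hx => ((hL₀ x).1 hx).2)
  let φ : G ⧸ L₀ →* G ⧸ K := QuotientGroup.map L₀ K (MonoidHom.id G) (fun x hx => hLK hx)
  have hφ : Function.Surjective φ := by
    intro z
    obtain ⟨x, rfl⟩ := QuotientGroup.mk'_surjective K z
    exact ⟨QuotientGroup.mk' L₀ x, rfl⟩
  have hker : ∀ z, z ∈ φ.ker → z ∈ K.map (QuotientGroup.mk' L₀) := by
    intro z hz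
    obtain ⟨x, rfl⟩ := QuotientGroup.mk'_surjective L₀ z
    have h1 : (QuotientGroup.mk' K x) = 1 := hz
    exact ⟨x, (QuotientGroup.eq_one_iff x).1 h1, rfl⟩
  refine closed_of_central π φ hφ (fun k hk => ?_) hQ (fun y hy k hk => ?_)
  · obtain ⟨k₀, hk₀, rfl⟩ := hker k hk
    exact hKbar k₀ hk₀
  · obtain ⟨ŷ, rfl⟩ := QuotientGroup.mk'_surjective L₀ y
    have := claimA π hh K L₀ hLK hKbar ŷ hy (hker k hk)
    exact (Subgroup.mem_centralizer_singleton_iff.1 this).symm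

theorem hh_of [Finite G] (π : Set ℕ)
    (hhom : ∀ H : Subgroup G, H ≠ ⊥ → (∀ p : ℕ, p.Prime → p ∣ Nat.card ↥H → p ∉ π) →
        ∀ p : ℕ, p.Prime → p ∣ (Subgroup.centralizer (H : Set G)).relIndex (Subgroup.normalizer (H : Set G)) → p ∉ π)
    (H : Subgroup G) (hH : ∀ p : ℕ, p.Prime → p ∣ Nat.card H → p ∉ π) (y : G) (hy : PE π y)
    (hyN : y ∈ Subgroup.normalizer (H : Set G)) : y ∈ Subgroup.centralizer (H : Set G) := by
  by_cases hb : H = ⊥
  · rw [hb, Subgroup.mem_centralizer_iff]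
    intro h hh
    have : h = 1 := by simpa using hh
    rw [this, one_mul, mul_one]
  · set N := Subgroup.normalizer (H : Set G) with hN
    set C := Subgroup.centralizer (H : Set G) with hC
    haveI hnorm : (C.subgroupOf N).Normal := by
      refine ⟨fun x hx g => ?_⟩
      rw [Subgroup.mem_subgroupOf] at hx ⊢
      rw [Subgroup.mem_centralizer_iff]
      intro h hh
      have hx' := Subgroup.mem_centralizer_iff.1 hx
      have h1 : (g : G)⁻¹ * h * (g : G) ∈ H := by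
        have := (Subgroup.mem_normalizer_iff.1 (N.inv_mem g.2) h).1 hh
        simpa using this
      have h2 := hx' _ h1
      show h * ((g : G) * (x : G) * (g : G)⁻¹) = ((g : G) * (x : G) * (g : G)⁻¹) * h
      calc h * ((g : G) * (x : G) * (g : G)⁻¹) = (g : G) * (((g : G)⁻¹ * h * (g : G)) * (x : G)) * (g : G)⁻¹ := by group
        _ = (g : G) * ((x : G) * ((g : G)⁻¹ * h * (g : G))) * (g : G)⁻¹ := by rw [h2]
        _ = ((g : G) * (x : G) * (g : G)⁻¹) * h := by group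
    have h1 := Subgroup.pow_index_mem (C.subgroupOf N) (⟨y, hyN⟩ : N)
    have h2 : y ^ (C.subgroupOf N).index ∈ C := Subgroup.mem_subgroupOf.1 h1
    have h3 : Nat.Coprime (C.relIndex N) (orderOf y) := (cop_of hy (hhom H hb hH)).symm
    obtain ⟨m, hm⟩ := exists_pow_eq_self_of_coprime h3
    rw [← hm]
    exact C.pow_mem h2 m
end

/-- Let π be a set of primes and G a finite group such that N_G(H)/C_G(H) is a π'-group for every nontrivial π'-subgroup H of G. If K is a normal subgroup of G such that the π-elements of K form a subgroup and the π-elements of G/K form a subgroup, then the π-elements of G form a subgroup. -/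
theorem result {G : Type*} [Group G] [Finite G] (π : Set ℕ)
    (hπ : ∀ p ∈ π, p.Prime) (hhom : (∀ H : Subgroup G, H ≠ ⊥ → (∀ p : ℕ, p.Prime → p ∣ Nat.card ↥H → p ∉ π) →
        ∀ p : ℕ, p.Prime → p ∣ (Subgroup.centralizer (H : Set G)).relIndex (Subgroup.normalizer (H : Set G)) → p ∉ π))
    (K : Subgroup G) [K.Normal]
    (hK : ∃ L : Subgroup ↥K, ∀ x : ↥K, x ∈ L ↔ ∀ p : ℕ, p.Prime → p ∣ orderOf x → p ∈ π)
    (hQ : ∃ L : Subgroup (G ⧸ K), ∀ x : G ⧸ K, x ∈ L ↔ ∀ p : ℕ, p.Prime → p ∣ orderOf x → p ∈ π) :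
    (∃ K : Subgroup G, ∀ x : G, x ∈ K ↔ ∀ p : ℕ, p.Prime → p ∣ orderOf x → p ∈ π) := by
  classical
  have hh := hh_of π hhom
  obtain ⟨L, hL⟩ := hK
  refine core π hh K ⟨L.map K.subtype, fun x => ⟨?_, fun hx => ?_⟩⟩ hQ
  · rintro ⟨l, hl, rfl⟩
    refine ⟨l.2, fun p hp hd => (hL l).1 hl p hp ?_⟩
    rw [Subgroup.subtype_apply, Subgroup.orderOf_coe] at hd
    exact hd
  · refine ⟨⟨x, hx.1⟩, (hL _).2 fun p hp hd => hx.2 p hp ?_, rfl⟩
    rw [Subgroup.orderOf_mk] at hd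
    exact hd

end Cfsg.Agent.S4051
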