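import Cfsg.Statements.S4050
import Mathlib
import Cfsg.Agent.S4051
-- import your own Cfsg.Agent.* helpers here

set_option autoImplicit false
open Cfsg

namespace Cfsg.Agent.S4050

open scoped Pointwise
open Cfsg.Agent.S4051 (PE PN core hh_of eq_one_of)

section
variable {G : Type*} [Group G] [Finite G]

theorem hh_sub (π : Set ℕ)
    (hh : ∀ H : Subgroup G, (∀ p : ℕ, p.Prime → p ∣ Nat.card H → p ∉ π) → ∀ y, PE π y →
      y ∈ Subgroup.normalizer (H : Set G) → y ∈ Subgroup.centralizer (H : Set G))
    (A : Subgroup G) (H' : Subgroup A) (hH' : ∀ p : ℕ, p.Prime → p ∣ Nat.card H' → p ∉ π) (y : A) (hy : PE π y)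
    (hyN : y ∈ Subgroup.normalizer (H' : Set A)) : y ∈ Subgroup.centralizer (H' : Set A) := by
  have hcard : Nat.card (H'.map A.subtype) = Nat.card H' :=
    Nat.card_congr (Subgroup.equivMapOfInjective H' A.subtype A.subtype_injective).toEquiv.symm
  have hyG : PE π (y : G) := by
    intro p hp hd
    rw [Subgroup.orderOf_coe] at hd
    exact hy p hp hd
  have hyNG : (y : G) ∈ Subgroup.normalizer ((H'.map A.subtype : Subgroup G) : Set G) := by
    rw [Subgroup.mem_normalizer_iff]
    intro h
    constructor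
    · rintro ⟨h', hh', rfl⟩
      exact ⟨y * h' * y⁻¹, (Subgroup.mem_normalizer_iff.1 hyN h').1 hh', rfl⟩
    · rintro ⟨z, hz, hze⟩
      have h1 : y⁻¹ * z * y ∈ H' := by
        have := (Subgroup.mem_normalizer_iff.1 (Subgroup.inv_mem _ hyN) z).1 hz
        simpa using this
      refine ⟨y⁻¹ * z * y, h1, ?_⟩
      have h2 : (z : G) = (y : G) * h * (y : G)⁻¹ := hze
      show ((y : G))⁻¹ * (z : G) * (y : G) = h
      rw [h2]; group
  have h1 := hh _ (fun p hp hd => hH' p hp (hcard ▸ hd)) _ hyG hyNG
  rw [Subgroup.mem_centralizer_iff] at h1 ⊢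
  intro h' hh'
  apply Subtype.ext
  exact h1 h' ⟨h', hh', rfl⟩

theorem closed_of_series (π : Set ℕ) (n : ℕ) (H : Fin (n + 1) → Subgroup G) (h0 : H 0 = ⊥) (hl : H (Fin.last n) = ⊤)
    (hmono : Monotone H) (hnorm : ∀ i, (H i).Normal)
    (hfac : ∀ i : Fin n, (∀ q : ℕ, q.Prime → q ∣ (H i.castSucc).relIndex (H i.succ) → q ∈ π) ∨
        (∀ q : ℕ, q.Prime → q ∣ (H i.castSucc).relIndex (H i.succ) → q ∉ π))
    (hh : ∀ H : Subgroup G, (∀ p : ℕ, p.Prime → p ∣ Nat.card H → p ∉ π) → ∀ y, PE π y →
      y ∈ Subgroup.normalizer (H : Set G) → y ∈ Subgroup.centralizer (H : Set G)) :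
    ∃ T : Subgroup G, ∀ x, x ∈ T ↔ PE π x := by
  have key : ∀ i : Fin (n + 1), ∃ T : Subgroup G, ∀ x, x ∈ T ↔ x ∈ H i ∧ PE π x := by
    intro i
    induction i using Fin.induction with
    | zero =>
      refine ⟨⊥, fun x => ?_⟩
      rw [h0]
      constructor
      · intro hx
        refine ⟨hx, ?_⟩
        rw [Subgroup.mem_bot] at hx
        rw [hx]
        intro p hp hd
        rw [orderOf_one] at hd
        exact absurd (Nat.dvd_one.1 hd) hp.one_lt.ne'
      · exact fun hx => hx.1
    | succ i ih =>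
      obtain ⟨T, hT⟩ := ih
      haveI := hnorm i.castSucc
      set A := H i.succ with hA
      set B := H i.castSucc with hB
      have hBA : B ≤ A := hmono (Fin.castSucc_le_succ i)
      let K' : Subgroup A := B.subgroupOf A
      haveI : K'.Normal := inferInstance
      have hcore := core π (hh_sub π hh A) K' ⟨T.subgroupOf A, fun x => ?_⟩ ?_
      · obtain ⟨T', hT'⟩ := hcore
        refine ⟨T'.map A.subtype, fun x => ⟨?_, ?_⟩⟩
        · rintro ⟨y, hy, rfl⟩
          refine ⟨y.2, fun p hp hd => (hT' y).1 hy p hp ?_⟩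
          rw [Subgroup.subtype_apply, Subgroup.orderOf_coe] at hd
          exact hd
        · rintro ⟨hx, hxp⟩
          refine ⟨⟨x, hx⟩, (hT' _).2 fun p hp hd => hxp p hp ?_, rfl⟩
          rw [Subgroup.orderOf_mk] at hd
          exact hd
      · rw [Subgroup.mem_subgroupOf, hT, Subgroup.mem_subgroupOf]
        refine and_congr_right fun _ => ⟨fun h p hp hd => h p hp ?_, fun h p hp hd => h p hp ?_⟩
        · rw [Subgroup.orderOf_coe]
          exact hd
        · rw [Subgroup.orderOf_coe] at hd
          exact hd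
      · have hidx : Nat.card (A ⧸ K') = B.relIndex A := rfl
        rcases hfac i with hc | hc
        · refine ⟨⊤, fun x => ⟨fun _ => ?_, fun _ => trivial⟩⟩
          intro p hp hd
          apply hc p hp
          rw [← hB, ← hA, ← hidx]
          exact hd.trans (orderOf_dvd_natCard x)
        · refine ⟨⊥, fun x => ⟨fun hx => ?_, fun hx => ?_⟩⟩
          · rw [Subgroup.mem_bot] at hx
            rw [hx]
            intro p hp hd
            rw [orderOf_one] at hd
            exact absurd (Nat.dvd_one.1 hd) hp.one_lt.ne'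
          · rw [Subgroup.mem_bot]
            refine eq_one_of hx fun p hp hd => hc p hp ?_
            rw [← hB, ← hA, ← hidx]
            exact hd.trans (orderOf_dvd_natCard x)
  obtain ⟨T, hT⟩ := key (Fin.last n)
  refine ⟨T, fun x => ?_⟩
  rw [hT, hl]
  exact ⟨fun h => h.2, fun h => ⟨trivial, h⟩⟩
end

/-- Let π be a set of primes and G a finite group. The π-elements of G (elements whose order is divisible only by primes of π) form a subgroup if and only if G is π-separable (it has a chain of normal subgroups from 1 to G with each successive index divisible only by primes in π or only by primes outside π) and N_G(H)/C_G(H) is a π'-group for every nontrivial π'-subgroup H of G. -/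
theorem result {G : Type*} [Group G] [Finite G] (π : Set ℕ)
    (hπ : ∀ p ∈ π, p.Prime) :
    (∃ K : Subgroup G, ∀ x : G, x ∈ K ↔ ∀ p : ℕ, p.Prime → p ∣ orderOf x → p ∈ π) ↔
    ((∃ (n : ℕ) (H : Fin (n + 1) → Subgroup G), H 0 = ⊥ ∧ H (Fin.last n) = ⊤ ∧ Monotone H ∧ (∀ i, (H i).Normal) ∧
      ∀ i : Fin n, (∀ q : ℕ, q.Prime → q ∣ (H i.castSucc).relIndex (H i.succ) → q ∈ π) ∨
        (∀ q : ℕ, q.Prime → q ∣ (H i.castSucc).relIndex (H i.succ) → q ∉ π)) ∧
     (∀ H : Subgroup G, H ≠ ⊥ → (∀ p : ℕ, p.Prime → p ∣ Nat.card ↥H → p ∉ π) →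
        ∀ p : ℕ, p.Prime → p ∣ (Subgroup.centralizer (H : Set G)).relIndex (Subgroup.normalizer (H : Set G)) → p ∉ π)) := by
  classical
  constructor
  · rintro ⟨T, hT⟩
    have hTe : ∀ x, x ∈ T ↔ PE π x := hT
    haveI hTn : T.Normal := ⟨fun x hx g => (hTe _).2 (((hTe x).1 hx).conj g)⟩
    have hTp : ∀ p : ℕ, p.Prime → p ∣ Nat.card T → p ∈ π := by
      intro p hp hd
      haveI := Fact.mk hp
      obtain ⟨k, hk⟩ := exists_prime_orderOf_dvd_card' (G := T) p hd
      have := (hTe k).1 k.2 p hp
      rw [Subgroup.orderOf_coe, hk] at this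
      exact this dvd_rfl
    have hTi : ∀ q : ℕ, q.Prime → q ∣ T.index → q ∉ π := by
      intro q hq hd hqπ
      haveI := Fact.mk hq
      obtain ⟨P⟩ : Nonempty (Sylow q G) := inferInstance
      have hPT : (P : Subgroup G) ≤ T := by
        intro x hx
        refine (hTe x).2 fun r hr hrd => ?_
        obtain ⟨k, hk⟩ := (IsPGroup.iff_orderOf.1 P.isPGroup') ⟨x, hx⟩
        rw [Subgroup.orderOf_mk] at hk
        rw [hk] at hrd
        rw [(Nat.prime_dvd_prime_iff_eq hr hq).1 (hr.dvd_of_dvd_pow hrd)]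
        exact hqπ
      exact P.not_dvd_index (hd.trans (Subgroup.index_dvd_of_le hPT))
    refine ⟨⟨2, ![⊥, T, ⊤], rfl, rfl, ?_, ?_, ?_⟩, ?_⟩
    · rw [Fin.monotone_iff_le_succ]
      intro i
      fin_cases i
      · exact bot_le
      · exact le_top
    · intro i
      fin_cases i
      · exact (inferInstance : (⊥ : Subgroup G).Normal)
      · exact hTn
      · exact (inferInstance : (⊤ : Subgroup G).Normal)
    · intro i
      fin_cases i
      · left
        intro q hq hd
        have h1 : (⊥ : Subgroup G).relIndex T = Nat.card T := Subgroup.relIndex_bot_left _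
        exact hTp q hq (h1 ▸ hd)
      · right
        intro q hq hd
        have h1 : T.relIndex ⊤ = T.index := Subgroup.relIndex_top_right _
        exact hTi q hq (h1 ▸ hd)
    · intro H hb hH p hp hd hpπ
      haveI := Fact.mk hp
      set N := Subgroup.normalizer (H : Set G) with hN
      set C := Subgroup.centralizer (H : Set G) with hC
      obtain ⟨P⟩ : Nonempty (Sylow p N) := inferInstance
      have hex : ∃ y ∈ (P : Subgroup N), y ∉ C.subgroupOf N := by
        by_contra hcon
        push Not at hcon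
        exact P.not_dvd_index (hd.trans (Subgroup.index_dvd_of_le hcon))
      obtain ⟨y, hyP, hyC⟩ := hex
      apply hyC
      rw [Subgroup.mem_subgroupOf, Subgroup.mem_centralizer_iff]
      intro h hh
      have hyPE : PE π (y : G) := by
        intro r hr hrd
        obtain ⟨k, hk⟩ := (IsPGroup.iff_orderOf.1 P.isPGroup') ⟨y, hyP⟩
        have hk2 : orderOf (y : G) = p ^ k := by rw [← hk, Subgroup.orderOf_mk, Subgroup.orderOf_coe]
        rw [hk2] at hrd
        rw [(Nat.prime_dvd_prime_iff_eq hr hp).1 (hr.dvd_of_dvd_pow hrd)]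
        exact hpπ
      have hyT : (y : G) ∈ T := (hTe _).2 hyPE
      have h1 : (y : G) * h * (y : G)⁻¹ * h⁻¹ ∈ H :=
        H.mul_mem ((Subgroup.mem_normalizer_iff.1 y.2 h).1 hh) (H.inv_mem hh)
      have h2 : (y : G) * h * (y : G)⁻¹ * h⁻¹ ∈ T := by
        have h3 : (y : G) * h * (y : G)⁻¹ * h⁻¹ = (y : G) * (h * (y : G)⁻¹ * h⁻¹) := by group
        rw [h3]
        exact T.mul_mem hyT (hTn.conj_mem _ (T.inv_mem hyT) h)
      have h4 : PN π ((y : G) * h * (y : G)⁻¹ * h⁻¹) := by
        intro r hr hrd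
        apply hH r hr
        have := orderOf_dvd_natCard (⟨_, h1⟩ : H)
        rw [Subgroup.orderOf_mk] at this
        exact hrd.trans this
      have h5 := eq_one_of ((hTe _).1 h2) h4
      have h6 : (y : G) * h = h * (y : G) := by
        have := mul_inv_eq_one.1 h5
        have h7 := mul_inv_eq_iff_eq_mul.1 this
        exact h7
      exact h6.symm
  · rintro ⟨⟨n, H, h0, hl, hmono, hnorm, hfac⟩, hhom⟩
    exact closed_of_series π n H h0 hl hmono hnorm hfac (hh_of π hhom)

end Cfsg.Agent.S4050
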