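import Cfsg.Statements.S4058
import Cfsg.Agent.Lib.CharFS
import Cfsg.Agent.Lib.H1Frat
-- import your own Cfsg.Agent.* helpers here

set_option autoImplicit false
open Cfsg

namespace Cfsg.Agent.S4058

universe u
open Cfsg.Agent.Lib.CharLin Cfsg.Agent.Lib.CharOrth Cfsg.Agent.Lib.CharAlg Cfsg.Agent.Lib.CharBasic Cfsg.Agent.Lib.CharInt Cfsg.Agent.Lib.CharGal Cfsg.Agent.Lib.CharFS

section
variable {G : Type u} [Group G] [Fintype G]

/-- The linear character attached to a homomorphism to `ℤˣ`. -/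
noncomputable def toC (l : G →* ℤˣ) : G →* ℂˣ :=
  (Units.map (Int.castRingHom ℂ).toMonoidHom).comp l

theorem toC_val (l : G →* ℤˣ) (g : G) : ((toC l g : ℂˣ) : ℂ) = (((l g : ℤˣ) : ℤ) : ℂ) := rfl

theorem val_mul_self (l : G →* ℤˣ) (g : G) : (((l g : ℤˣ) : ℤ) : ℂ) * (((l g : ℤˣ) : ℤ) : ℂ) = 1 := by
  rcases Int.units_eq_one_or (l g) with h | h <;> rw [h] <;> simp

theorem val_norm (l : G →* ℤˣ) (g : G) : ‖(((l g : ℤˣ) : ℤ) : ℂ)‖ = 1 := by
  rcases Int.units_eq_one_or (l g) with h | h <;> rw [h] <;> simp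

theorem irr_mul (l : G →* ℤˣ) {χ : G → ℂ} (hχ : IsIrrCharacter G χ) :
    IsIrrCharacter G (fun g => (((l g : ℤˣ) : ℤ) : ℂ) * χ g) := by
  rw [isIrrCharacter_iff]
  constructor
  · exact IsCharacter.mul (IsIrrCharacter.isCharacter (isIrrCharacter_of_hom (toC l))) (IsIrrCharacter.isCharacter hχ)
  · have h := classInner_irr_self hχ
    rw [classInner_self_eq] at h ⊢
    have h5 : ∀ g, ‖(((l g : ℤˣ) : ℤ) : ℂ) * χ g‖ = ‖χ g‖ := by
      intro g
      rw [norm_mul, val_norm, one_mul]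
    simp only [h5]
    exact h

/-- `A = Hom(G, ±1)` acts on the irreducible characters by multiplication. -/
noncomputable instance actIrr : MulAction (G →* ℤˣ) (IrrCharacter G) where
  smul l χ := ⟨fun g => (((l g : ℤˣ) : ℤ) : ℂ) * χ.1 g, irr_mul l χ.2⟩
  one_smul χ := by
    apply Subtype.ext
    funext g
    show (((1 : G →* ℤˣ) g : ℤˣ) : ℤ) * χ.1 g = χ.1 g
    simp
  mul_smul a b χ := by
    apply Subtype.ext
    funext g
    show (((((a * b : G →* ℤˣ) g : ℤˣ) : ℤ)) : ℂ) * χ.1 g = ((a g : ℤˣ) : ℤ) * (((b g : ℤˣ) : ℤ) * χ.1 g)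
    simp only [MonoidHom.mul_apply, Units.val_mul, Int.cast_mul]
    ring

theorem smul_apply (l : G →* ℤˣ) (χ : IrrCharacter G) (g : G) :
    (l • χ).1 g = (((l g : ℤˣ) : ℤ) : ℂ) * χ.1 g := rfl

/-- The common kernel of a subgroup of `A`. -/
def commonKer (T : Subgroup (G →* ℤˣ)) : Subgroup G := ⨅ l ∈ T, l.ker

theorem mem_commonKer {T : Subgroup (G →* ℤˣ)} {g : G} : g ∈ commonKer T ↔ ∀ l ∈ T, l g = 1 := by
  simp [commonKer, Subgroup.mem_iInf, MonoidHom.mem_ker]

theorem sum_hom (l : G →* ℤˣ) (hl : l ≠ 1) : ∑ g : G, ((l g : ℤˣ) : ℤ) = 0 := by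
  obtain ⟨g₀, hg₀⟩ : ∃ g₀, l g₀ ≠ 1 := by
    by_contra hcon
    push Not at hcon
    exact hl (MonoidHom.ext hcon)
  have hm : l g₀ = -1 := by
    rcases Int.units_eq_one_or (l g₀) with h | h
    · exact absurd h hg₀
    · exact h
  have h1 : ∑ g : G, ((l g : ℤˣ) : ℤ) = ∑ g : G, ((l (g₀ * g) : ℤˣ) : ℤ) :=
    (Equiv.sum_comp (Equiv.mulLeft g₀) (fun g => ((l g : ℤˣ) : ℤ))).symm
  have h2 : ∑ g : G, ((l (g₀ * g) : ℤˣ) : ℤ) = - ∑ g : G, ((l g : ℤˣ) : ℤ) := by
    rw [← Finset.sum_neg_distrib]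
    apply Finset.sum_congr rfl
    intro g _
    rw [map_mul, hm]
    simp
  omega

/-- Orthogonality: `|T| · |⋂ ker| = |G|`. -/
theorem card_mul_commonKer [Finite (G →* ℤˣ)] (T : Subgroup (G →* ℤˣ)) :
    Nat.card T * Nat.card (commonKer T) = Nat.card G := by
  classical
  haveI := Fintype.ofFinite (G →* ℤˣ)
  haveI := Fintype.ofFinite T
  have hsum : ∑ g : G, ∑ l : T, (((l : G →* ℤˣ) g : ℤˣ) : ℤ) = (Nat.card G : ℤ) := by
    rw [Finset.sum_comm]
    rw [Finset.sum_eq_single (⟨1, T.one_mem⟩ : T)]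
    · simp [Nat.card_eq_fintype_card]
    · intro l _ hl
      exact sum_hom l.1 (fun h => hl (Subtype.ext h))
    · intro h
      exact absurd (Finset.mem_univ _) h
  have hin : ∀ g : G, ∑ l : T, (((l : G →* ℤˣ) g : ℤˣ) : ℤ) = if g ∈ commonKer T then (Nat.card T : ℤ) else 0 := by
    intro g
    by_cases hg : g ∈ commonKer T
    · rw [if_pos hg]
      have : ∀ l : T, (((l : G →* ℤˣ) g : ℤˣ) : ℤ) = 1 := by
        intro l
        rw [mem_commonKer.1 hg l.1 l.2]
        rfl
      simp [this, Nat.card_eq_fintype_card]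
    · rw [if_neg hg]
      rw [mem_commonKer] at hg
      push Not at hg
      obtain ⟨l₀, hl₀, hne⟩ := hg
      have hm : l₀ g = -1 := by
        rcases Int.units_eq_one_or (l₀ g) with h | h
        · exact absurd h hne
        · exact h
      have h1 : ∑ l : T, (((l : G →* ℤˣ) g : ℤˣ) : ℤ) =
          ∑ l : T, ((((((⟨l₀, hl₀⟩ : T) * l : T) : G →* ℤˣ) g : ℤˣ)) : ℤ) :=
        (Equiv.sum_comp (Equiv.mulLeft (⟨l₀, hl₀⟩ : T)) (fun l : T => (((l : G →* ℤˣ) g : ℤˣ) : ℤ))).symm
      have h2 : ∑ l : T, ((((((⟨l₀, hl₀⟩ : T) * l : T) : G →* ℤˣ) g : ℤˣ)) : ℤ) =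
          - ∑ l : T, (((l : G →* ℤˣ) g : ℤˣ) : ℤ) := by
        rw [← Finset.sum_neg_distrib]
        apply Finset.sum_congr rfl
        intro l _
        simp [MonoidHom.mul_apply, hm]
      omega
  have h3 : ∑ g : G, (if g ∈ commonKer T then (Nat.card T : ℤ) else 0) = (Nat.card T : ℤ) * Nat.card (commonKer T) := by
    rw [Finset.sum_ite, Finset.sum_const_zero, add_zero, Finset.sum_const, nsmul_eq_mul, mul_comm]
    rw [Nat.card_eq_fintype_card (α := commonKer T), Fintype.card_subtype]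
  have h4 : (Nat.card G : ℤ) = (Nat.card T : ℤ) * Nat.card (commonKer T) := by
    rw [← hsum, ← h3]
    exact Finset.sum_congr rfl (fun g _ => hin g)
  exact_mod_cast h4.symm

end

theorem dvd_sum_of_orbits {A X : Type*} [Group A] [Fintype A] [Fintype X] [MulAction A X]
    (f : X → ℤ) (hf : ∀ (a : A) (x : X), f (a • x) = f x) (m : ℤ)
    (hm : ∀ x : X, m ∣ (Nat.card (MulAction.orbit A x) : ℤ) * f x) : m ∣ ∑ x, f x := by
  classical
  let q : X → MulAction.orbitRel.Quotient A X := Quotient.mk''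
  rw [← Finset.sum_fiberwise Finset.univ q f]
  apply Finset.dvd_sum
  intro ω _
  induction ω using Quotient.inductionOn' with
  | h x =>
    have h1 : ∀ y ∈ Finset.univ.filter (fun y => q y = q x), f y = f x := by
      intro y hy
      have hy' : q y = q x := (Finset.mem_filter.1 hy).2
      have hrel : y ∈ MulAction.orbit A x := Quotient.eq''.1 hy'
      obtain ⟨a, rfl⟩ := hrel
      exact hf a x
    have : q x = Quotient.mk'' x := rfl
    rw [Finset.sum_congr rfl h1, Finset.sum_const, nsmul_eq_mul]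
    have hcard : (Finset.univ.filter (fun y => q y = q x)).card = Nat.card (MulAction.orbit A x) := by
      rw [Nat.card_eq_fintype_card, Fintype.card_subtype]
      congr 1
      ext y
      simp only [Finset.mem_filter, Finset.mem_univ, true_and]
      exact Quotient.eq''
    rw [hcard]
    exact hm x

/-- Let G be a finite 2-group with #(G/Φ(G)) ≥ 2^(2k+1). Then the number of elements x of G with x² = 1 is divisible by 2^(k+1). -/
theorem result {G : Type*} [Group G] [Finite G] (hG : IsPGroup 2 G) (k : ℕ)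
    (hgen : 2 ^ (2 * k + 1) ≤ Nat.card (G ⧸ frattini G)) :
    2 ^ (k + 1) ∣ Nat.card {x : G // x ^ 2 = 1} := by
  classical
  haveI := Fintype.ofFinite G
  haveI : Fact (Nat.Prime 2) := ⟨Nat.prime_two⟩
  haveI : Finite (G →* ℤˣ) := Finite.of_injective (fun l : G →* ℤˣ => (l : G → ℤˣ)) DFunLike.coe_injective
  haveI := Fintype.ofFinite (G →* ℤˣ)
  obtain ⟨m, hm⟩ := IsPGroup.iff_card.1 hG
  have hA2 : IsPGroup 2 (G →* ℤˣ) := by
    intro l
    refine ⟨1, ?_⟩
    ext g
    simp [pow_one, sq, MonoidHom.mul_apply]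
  obtain ⟨D, hD⟩ := IsPGroup.iff_card.1 hA2
  -- the common kernel of all of `A` lies in the Frattini subgroup
  have hK : commonKer (⊤ : Subgroup (G →* ℤˣ)) ≤ frattini G := by
    intro x hx
    rw [Cfsg.Agent.Lib.H1Frat.mem_frattini]
    intro M hM
    haveI : Group.IsNilpotent G := hG.isNilpotent
    obtain ⟨-, hprime, -⟩ := Cfsg.Agent.Lib.H1Frat.coatom_index_prime_of_nilpotent hM
    have hdvd : M.index ∣ 2 ^ m := hm ▸ Subgroup.index_dvd_card M
    have h2 : M.index = 2 := (Nat.prime_dvd_prime_iff_eq hprime Nat.prime_two).1 (hprime.dvd_of_dvd_pow hdvd)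
    let l : G →* ℤˣ :=
      { toFun := fun g => if g ∈ M then 1 else -1
        map_one' := by simp
        map_mul' := by
          intro a b
          by_cases ha : a ∈ M <;> by_cases hb : b ∈ M <;>
            simp [ha, hb, Subgroup.mul_mem_iff_of_index_two h2] }
    have hl := (mem_commonKer.1 hx) l (Subgroup.mem_top l)
    by_contra hxM
    have : l x = -1 := by
      show (if x ∈ M then (1 : ℤˣ) else -1) = -1
      rw [if_neg hxM]
    rw [this] at hl
    exact absurd hl (by decide)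
  have hDk : 2 * k + 1 ≤ D := by
    have h1 := card_mul_commonKer (⊤ : Subgroup (G →* ℤˣ))
    rw [Subgroup.card_top, hD] at h1
    have h3 := (frattini G).card_mul_index
    rw [Subgroup.index_eq_card] at h3
    have h4 : Nat.card (commonKer (⊤ : Subgroup (G →* ℤˣ))) ≤ Nat.card (frattini G) :=
      Subgroup.card_le_of_le hK
    have h5 : Nat.card (G ⧸ frattini G) ≤ 2 ^ D := by
      by_contra hlt
      push Not at hlt
      have hpos : 0 < Nat.card (frattini G) := Nat.card_pos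
      have : 2 ^ D * Nat.card (commonKer (⊤ : Subgroup (G →* ℤˣ))) < Nat.card (frattini G) * Nat.card (G ⧸ frattini G) := by
        nlinarith
      omega
    exact (Nat.pow_le_pow_iff_right (by norm_num)).1 (hgen.trans h5)
  -- integrality of indicators and degrees
  have hvE : ∀ χ : IrrCharacter G, ∃ v : ℤ, (Nat.card G : ℂ)⁻¹ * ∑ s : G, χ.1 (s * s) = v := by
    intro χ
    obtain ⟨n, ρ, hρ, hχ⟩ := χ.2
    have h := (frobenius_schur_aux ρ hρ).1
    rw [hχ] at h
    rcases h with h | h | h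
    · exact ⟨0, by simpa using h⟩
    · exact ⟨1, by simpa using h⟩
    · exact ⟨-1, by simpa using h⟩
  have hdE : ∀ χ : IrrCharacter G, ∃ c : ℕ, χ.1 1 = ((2 ^ c : ℕ) : ℂ) := by
    intro χ
    obtain ⟨n, ρ, hρ, hχ⟩ := χ.2
    have h1 := finrank_dvd_card ρ hρ
    rw [hm] at h1
    obtain ⟨c, _, hc⟩ := (Nat.dvd_prime_pow Nat.prime_two).1 h1
    refine ⟨c, ?_⟩
    rw [← hχ, Representation.char_one, hc]
  choose v hv using hvE
  choose c hc using hdE
  -- the sum formula
  have hN : ((Nat.card {x : G // x ^ 2 = 1} : ℕ) : ℂ) = ∑ χ : IrrCharacter G, (v χ : ℂ) * ((2 ^ c χ : ℕ) : ℂ) := by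
    have h1 : ∑ χ : IrrCharacter G, (v χ : ℂ) * ((2 ^ c χ : ℕ) : ℂ) =
        (Nat.card G : ℂ)⁻¹ * ∑ s : G, ∑ χ : IrrCharacter G, χ.1 1 * χ.1 (s * s) := by
      rw [Finset.sum_comm, Finset.mul_sum]
      apply Finset.sum_congr rfl
      intro χ _
      rw [← hv χ, ← hc χ, ← Finset.mul_sum]
      ring
    have h2 : ∀ s : G, ∑ χ : IrrCharacter G, χ.1 1 * χ.1 (s * s) = if s ^ 2 = 1 then (Nat.card G : ℂ) else 0 := by
      intro s
      have := sum_degree_mul (G := G) (s * s)
      rw [sq]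
      convert this
    rw [h1]
    simp only [h2]
    rw [Finset.sum_ite, Finset.sum_const_zero, add_zero, Finset.sum_const, nsmul_eq_mul]
    have hG0 : (Nat.card G : ℂ) ≠ 0 := by exact_mod_cast Nat.card_pos.ne'
    rw [mul_comm (((Finset.univ.filter fun s : G => s ^ 2 = 1).card : ℂ)), ← mul_assoc, inv_mul_cancel₀ hG0, one_mul]
    rw [Nat.card_eq_fintype_card, Fintype.card_subtype]
  -- invariance
  have hvinv : ∀ (l : G →* ℤˣ) (χ : IrrCharacter G), v (l • χ) = v χ := by
    intro l χ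
    have h1 := hv (l • χ)
    have h2 := hv χ
    have h3 : ∀ s : G, (l • χ).1 (s * s) = χ.1 (s * s) := by
      intro s
      rw [smul_apply, map_mul, Units.val_mul, Int.cast_mul, val_mul_self, one_mul]
    simp only [h3] at h1
    rw [h2] at h1
    exact_mod_cast h1.symm
  have hcinv : ∀ (l : G →* ℤˣ) (χ : IrrCharacter G), c (l • χ) = c χ := by
    intro l χ
    have h1 := hc (l • χ)
    have h2 := hc χ
    rw [smul_apply, map_one, Units.val_one, Int.cast_one, one_mul, h2] at h1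
    have h3 : 2 ^ c χ = 2 ^ c (l • χ) := by exact_mod_cast h1
    exact (Nat.pow_right_injective (le_refl 2) h3).symm
  -- the divisibility
  have hdvd : ((2 ^ (k + 1) : ℕ) : ℤ) ∣ ∑ χ : IrrCharacter G, v χ * ((2 ^ c χ : ℕ) : ℤ) := by
    apply dvd_sum_of_orbits (A := G →* ℤˣ)
    · intro l χ
      rw [hvinv, hcinv]
    · intro χ
      set T : Subgroup (G →* ℤˣ) := MulAction.stabilizer (G →* ℤˣ) χ with hT
      obtain ⟨t, ht⟩ : ∃ t, Nat.card T = 2 ^ t := by
        obtain ⟨t, _, ht⟩ := (Nat.dvd_prime_pow Nat.prime_two).1 (hD ▸ Subgroup.card_subgroup_dvd_card T)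
        exact ⟨t, ht⟩
      have horb : Nat.card (MulAction.orbit (G →* ℤˣ) χ) * Nat.card T = 2 ^ D := by
        rw [← hD]
        rw [Nat.card_eq_fintype_card, Nat.card_eq_fintype_card, Nat.card_eq_fintype_card]
        exact MulAction.card_orbit_mul_card_stabilizer_eq_card_group _ χ
      obtain ⟨a, ha⟩ : ∃ a, Nat.card (MulAction.orbit (G →* ℤˣ) χ) = 2 ^ a := by
        obtain ⟨a, _, ha⟩ := (Nat.dvd_prime_pow Nat.prime_two).1 (Dvd.intro _ horb)
        exact ⟨a, ha⟩
      have hat : a + t = D := by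
        rw [ha, ht, ← pow_add] at horb
        exact Nat.pow_right_injective (le_refl 2) horb
      have htD : t ≤ D := by omega
      -- vanishing off the common kernel
      have hvan : ∀ g : G, g ∉ commonKer T → χ.1 g = 0 := by
        intro g hg
        rw [mem_commonKer] at hg
        push Not at hg
        obtain ⟨l, hl, hne⟩ := hg
        have hm1 : l g = -1 := by
          rcases Int.units_eq_one_or (l g) with h | h
          · exact absurd h hne
          · exact h
        have hs : l • χ = χ := hl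
        have h1 : (l • χ).1 g = χ.1 g := by rw [hs]
        rw [smul_apply, hm1] at h1
        have h2 : (2 : ℂ) * χ.1 g = 0 := by
          have : (((-1 : ℤˣ) : ℤ) : ℂ) = -1 := by simp
          rw [this] at h1
          linear_combination -h1
        simpa using h2
      have hbound : (Nat.card G : ℝ) ≤ Nat.card (commonKer T) * (2 ^ c χ : ℝ) ^ 2 := by
        rw [← sum_norm_sq_irr χ.2]
        have h1 : ∀ g : G, ‖χ.1 g‖ ^ 2 ≤ if g ∈ commonKer T then (2 ^ c χ : ℝ) ^ 2 else 0 := by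
          intro g
          by_cases hg : g ∈ commonKer T
          · rw [if_pos hg]
            have h2 := IsCharacter.norm_le (IsIrrCharacter.isCharacter χ.2) g
            rw [hc χ] at h2
            have h3 : ‖((2 ^ c χ : ℕ) : ℂ)‖ = (2 ^ c χ : ℝ) := by simp
            rw [h3] at h2
            exact pow_le_pow_left₀ (norm_nonneg _) h2 2
          · rw [if_neg hg, hvan g hg]
            simp
        refine (Finset.sum_le_sum (fun g _ => h1 g)).trans ?_
        rw [Finset.sum_ite, Finset.sum_const_zero, add_zero, Finset.sum_const, nsmul_eq_mul]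
        rw [Nat.card_eq_fintype_card (α := commonKer T), Fintype.card_subtype]
      have htc : t ≤ 2 * c χ := by
        have h1 := card_mul_commonKer T
        have hKpos : 0 < Nat.card (commonKer T) := Nat.card_pos
        have h2 : Nat.card G ≤ Nat.card (commonKer T) * (2 ^ c χ) ^ 2 := by exact_mod_cast hbound
        rw [← h1, ht, mul_comm] at h2
        have h3 : 2 ^ t ≤ (2 ^ c χ) ^ 2 := Nat.le_of_mul_le_mul_left h2 hKpos
        rw [← pow_mul] at h3
        have h4 : 2 ^ t ≤ 2 ^ (2 * c χ) := by rw [mul_comm]; exact h3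
        exact (Nat.pow_le_pow_iff_right (by norm_num)).1 h4
      have hac : k + 1 ≤ a + c χ := by omega
      have h5 : (2 ^ (k + 1) : ℕ) ∣ 2 ^ a * 2 ^ c χ := by
        rw [← pow_add]
        exact pow_dvd_pow 2 hac
      rw [ha]
      have h6 : ((2 ^ a : ℕ) : ℤ) * (v χ * ((2 ^ c χ : ℕ) : ℤ)) = v χ * (((2 ^ a * 2 ^ c χ : ℕ)) : ℤ) := by
        push_cast
        ring
      rw [h6]
      exact Dvd.dvd.mul_left (Int.natCast_dvd_natCast.2 h5) _
  have hfinal : ((Nat.card {x : G // x ^ 2 = 1} : ℕ) : ℤ) = ∑ χ : IrrCharacter G, v χ * ((2 ^ c χ : ℕ) : ℤ) := by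
    have : (((Nat.card {x : G // x ^ 2 = 1} : ℕ) : ℤ) : ℂ) = ((∑ χ : IrrCharacter G, v χ * ((2 ^ c χ : ℕ) : ℤ) : ℤ) : ℂ) := by
      rw [Int.cast_natCast, hN]
      push_cast
      rfl
    exact_mod_cast this
  rw [← hfinal] at hdvd
  exact Int.natCast_dvd_natCast.1 hdvd

end Cfsg.Agent.S4058
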