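import Cfsg.Statements.S4065
import Mathlib
-- import your own Cfsg.Agent.* helpers here

set_option autoImplicit false
open Cfsg

namespace Cfsg.Agent.S4065

theorem exists_lam {F : Type*} [Field F] (a b c d p q r s : F) (hne : ¬ (q = 0 ∧ r = 0 ∧ p = s))
    (e1 : a * p + b * r = p * a + q * c) (e2 : a * q + b * s = p * b + q * d)
    (e3 : c * p + d * r = r * a + s * c) : ∃ l, b = l * q ∧ c = l * r ∧ a = d + l * (p - s) := by
  by_cases hq : q = 0
  · by_cases hr : r = 0
    · have hps : p - s ≠ 0 := fun h => hne ⟨hq, hr, sub_eq_zero.mp h⟩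
      refine ⟨(a - d) / (p - s), ?_, ?_, ?_⟩
      · subst hq hr
        have : b * (p - s) = 0 := by linear_combination -e2
        have := (mul_eq_zero.mp this).resolve_right hps
        simpa using this
      · subst hq hr
        have : c * (p - s) = 0 := by linear_combination e3
        have := (mul_eq_zero.mp this).resolve_right hps
        simpa using this
      · field_simp
        ring
    · refine ⟨c / r, ?_, ?_, ?_⟩
      · field_simp
        subst hq
        linear_combination e1
      · field_simp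
      · field_simp
        linear_combination -e3
  · refine ⟨b / q, ?_, ?_, ?_⟩
    · field_simp
    · field_simp
      linear_combination -e1
    · field_simp
      linear_combination e2
theorem comm_trans {F : Type*} [Field F] (A B C : Matrix (Fin 2) (Fin 2) F)
    (hB : ¬ (B 0 1 = 0 ∧ B 1 0 = 0 ∧ B 0 0 = B 1 1)) (hAB : A * B = B * A) (hCB : C * B = B * C) :
    A * C = C * A := by
  have e1 := congrFun (congrFun hAB 0) 0
  have e2 := congrFun (congrFun hAB 0) 1
  have e3 := congrFun (congrFun hAB 1) 0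
  have f1 := congrFun (congrFun hCB 0) 0
  have f2 := congrFun (congrFun hCB 0) 1
  have f3 := congrFun (congrFun hCB 1) 0
  simp only [Matrix.mul_apply, Fin.sum_univ_two] at e1 e2 e3 f1 f2 f3
  obtain ⟨l, hl1, hl2, hl3⟩ := exists_lam _ _ _ _ _ _ _ _ hB e1 e2 e3
  obtain ⟨m, hm1, hm2, hm3⟩ := exists_lam _ _ _ _ _ _ _ _ hB f1 f2 f3
  ext i j
  fin_cases i <;> fin_cases j <;>
    simp only [Matrix.mul_apply, Fin.sum_univ_two, Fin.zero_eta, Fin.mk_one, Fin.isValue] <;>
    simp only [hl1, hl2, hl3, hm1, hm2, hm3] <;> ring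

/-- Commutativity is transitive on the non-identity elements of `SL₂(F)`, char 2. -/
theorem sl_trans {F : Type*} [Field F] [CharP F 2] (A B C : Matrix.SpecialLinearGroup (Fin 2) F)
    (hB : B ≠ 1) (hAB : A * B = B * A) (hCB : C * B = B * C) : A * C = C * A := by
  apply Subtype.ext
  have hB' : ¬ ((B : Matrix (Fin 2) (Fin 2) F) 0 1 = 0 ∧ (B : Matrix (Fin 2) (Fin 2) F) 1 0 = 0 ∧
      (B : Matrix (Fin 2) (Fin 2) F) 0 0 = (B : Matrix (Fin 2) (Fin 2) F) 1 1) := by
    rintro ⟨h1, h2, h3⟩
    apply hB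
    have hdet := B.property
    rw [Matrix.det_fin_two, h1, h2, ← h3] at hdet
    have h4 : ((B : Matrix (Fin 2) (Fin 2) F) 0 0 - 1) ^ 2 = 0 := by
      have h2' : (2 : F) = 0 := CharTwo.two_eq_zero
      linear_combination hdet + (1 - (B : Matrix (Fin 2) (Fin 2) F) 0 0) * h2'
    have h5 : (B : Matrix (Fin 2) (Fin 2) F) 0 0 = 1 := sub_eq_zero.mp (pow_eq_zero_iff (two_ne_zero) |>.mp h4)
    apply Subtype.ext
    ext i j
    fin_cases i <;> fin_cases j <;> simp [h1, h2, h5, ← h3]
  exact comm_trans _ _ _ hB' (congrArg Subtype.val hAB) (congrArg Subtype.val hCB)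

theorem center_eq {F : Type*} [Field F] [CharP F 2] :
    Subgroup.center (Matrix.SpecialLinearGroup (Fin 2) F) = ⊥ := by
  rw [eq_bot_iff]
  intro A hA
  rw [Subgroup.mem_bot]
  by_contra hne
  obtain ⟨r, hr, hr'⟩ := Matrix.SpecialLinearGroup.mem_center_iff.mp hA
  have h4 : (r - 1) ^ 2 = 0 := by
    have h2' : (2 : F) = 0 := CharTwo.two_eq_zero
    simp only [Fintype.card_fin] at hr
    linear_combination hr + (1 - r) * h2'
  have h5 : r = 1 := sub_eq_zero.mp (pow_eq_zero_iff (two_ne_zero) |>.mp h4)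
  apply hne
  apply Subtype.ext
  rw [← hr', h5]
  simp

/-- Transitivity of commuting in a group. -/
theorem psl_trans {F : Type*} [Field F] [CharP F 2]
    (a b c : Matrix.ProjectiveSpecialLinearGroup (Fin 2) F) (hb : b ≠ 1) (hab : a * b = b * a)
    (hcb : c * b = b * c) : a * c = c * a := by
  obtain ⟨A, rfl⟩ := QuotientGroup.mk_surjective a
  obtain ⟨B, rfl⟩ := QuotientGroup.mk_surjective b
  obtain ⟨C, rfl⟩ := QuotientGroup.mk_surjective c
  have hinj : ∀ X Y : Matrix.SpecialLinearGroup (Fin 2) F,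
      (QuotientGroup.mk X : Matrix.ProjectiveSpecialLinearGroup (Fin 2) F) = QuotientGroup.mk Y → X = Y := by
    intro X Y h
    rw [QuotientGroup.eq, center_eq, Subgroup.mem_bot] at h
    exact (inv_mul_eq_one.mp h)
  have hB : B ≠ 1 := by
    rintro rfl
    exact hb rfl
  have := sl_trans A B C hB (hinj _ _ hab) (hinj _ _ hcb)
  show (QuotientGroup.mk (A * C) : Matrix.ProjectiveSpecialLinearGroup (Fin 2) F) = QuotientGroup.mk (C * A)
  rw [this]

theorem ti_of_trans {P : Type*} [Group P]
    (htr : ∀ a b c : P, b ≠ 1 → a * b = b * a → c * b = b * c → a * c = c * a) (x : P) :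
    Cfsg.IsTISubset (Subgroup.centralizer ({x} : Set P) : Set P) := by
  intro g hg y hy hgy
  by_contra hy1
  apply hg
  have hmem : ∀ w, w ∈ (Subgroup.centralizer ({x} : Set P) : Set P) ↔ w * x = x * w := by
    intro w
    simp only [SetLike.mem_coe]
    rw [Subgroup.mem_centralizer_singleton_iff]
  rw [hmem] at hy hgy
  have hx : x ≠ 1 := by
    rintro rfl
    apply hg
    rw [Subgroup.mem_normalizer_iff_conj_image_eq] 
    have : (Subgroup.centralizer ({1} : Set P) : Set P) = Set.univ := by
      ext w; simp [hmem]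
    rw [this]
    simp
  have hz1 : g * y * g⁻¹ ≠ 1 := by
    intro h
    apply hy1
    have : g * y = g := by simpa [mul_inv_eq_one] using h
    simpa using this
  rw [Subgroup.mem_set_normalizer_iff]
  intro w
  rw [hmem, hmem]
  constructor
  · intro hw
    have h1 : w * y = y * w := htr _ _ _ hx hw hy
    have h2 : (g * w * g⁻¹) * (g * y * g⁻¹) = (g * y * g⁻¹) * (g * w * g⁻¹) := by
      calc (g * w * g⁻¹) * (g * y * g⁻¹) = g * (w * y) * g⁻¹ := by group
        _ = g * (y * w) * g⁻¹ := by rw [h1]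
        _ = _ := by group
    exact htr _ _ _ hz1 h2 hgy.symm |>.trans rfl
  · intro hw
    have h2 : (g * w * g⁻¹) * (g * y * g⁻¹) = (g * y * g⁻¹) * (g * w * g⁻¹) :=
      htr _ _ _ hx hw hgy
    have h1 : w * y = y * w := by
      have h3 : g * (w * y) * g⁻¹ = g * (y * w) * g⁻¹ := by
        calc g * (w * y) * g⁻¹ = (g * w * g⁻¹) * (g * y * g⁻¹) := by group
          _ = (g * y * g⁻¹) * (g * w * g⁻¹) := h2
          _ = _ := by group
      simpa using h3
    exact htr _ _ _ hy1 h1 hy.symm

/-- Let F be a finite field with 2ⁿ elements, n ≥ 2. In PSL₂(F) the centralizer of every element meets each of its conjugates by elements outside its normalizer trivially. -/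
theorem result (n : ℕ) (hn : 2 ≤ n)
    (x : Matrix.ProjectiveSpecialLinearGroup (Fin 2) (GaloisField 2 n)) :
    Cfsg.IsTISubset (Subgroup.centralizer ({x} : Set (Matrix.ProjectiveSpecialLinearGroup (Fin 2) (GaloisField 2 n))) :
      Set (Matrix.ProjectiveSpecialLinearGroup (Fin 2) (GaloisField 2 n))) := by
  haveI : CharP (GaloisField 2 n) 2 := inferInstance
  exact ti_of_trans psl_trans x

end Cfsg.Agent.S4065
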