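import Cfsg.Statements.S4066
import Mathlib
import Cfsg.Agent.Lib.FGSBasic
-- import your own Cfsg.Agent.* helpers here

set_option autoImplicit false
open Cfsg

namespace Cfsg.Agent.S4066

universe u

theorem ti_subgroup {G : Type u} [Group G] (hTI : ∀ x : G, Cfsg.IsTISubset (Subgroup.centralizer ({x} : Set G) : Set G))
    (T : Subgroup G) (t : T) : Cfsg.IsTISubset (Subgroup.centralizer ({t} : Set T) : Set T) := by
  intro u hu v hv huv
  have hmem : ∀ w : T, w ∈ Subgroup.centralizer ({t} : Set T) ↔ (w : G) ∈ Subgroup.centralizer ({(t : G)} : Set G) := by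
    intro w
    rw [Subgroup.mem_centralizer_singleton_iff, Subgroup.mem_centralizer_singleton_iff]
    constructor
    · intro h; exact congrArg Subtype.val h
    · intro h; exact Subtype.ext h
  have hG : (u : G) ∉ Subgroup.normalizer ((Subgroup.centralizer ({(t : G)} : Set G) : Subgroup G) : Set G) := by
    intro hN
    apply hu
    rw [Subgroup.mem_normalizer_iff]
    intro w
    have h1 := (Subgroup.mem_normalizer_iff.mp hN) (w : G)
    exact (hmem w).trans (h1.trans (hmem (u * w * u⁻¹)).symm)
  have h2 := hTI (t : G) (u : G) hG (v : G) ((hmem v).mp hv) ((hmem _).mp huv)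
  exact Subtype.ext h2

/-- A normal closure of a single `p`-element whose conjugates commute lies in every Sylow. -/
theorem mem_sylow_of_conj_comm {G : Type u} [Group G] [Finite G] (p : ℕ) [Fact p.Prime] (Q : Sylow p G) (t : G)
    (k : ℕ) (ht : t ^ p ^ k = 1) (hcomm : ∀ a g : G, IsConj t a → a * (g * a * g⁻¹) = (g * a * g⁻¹) * a) :
    t ∈ (Q : Subgroup G) := by
  let S : Set G := {a | IsConj t a}
  let N : Subgroup G := Subgroup.closure S
  have hNn : N.Normal := by
    apply Cfsg.Agent.Lib.FGSBasic.normal_closure_of_conj_inv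
    intro g s hs
    exact IsConj.trans hs (isConj_iff.mpr ⟨g, rfl⟩)
  have hS2 : ∀ a ∈ S, ∀ b ∈ S, a * b = b * a := by
    intro a ha b hb
    have hab : IsConj a b := (IsConj.symm ha).trans hb
    obtain ⟨g, rfl⟩ := isConj_iff.mp hab
    exact hcomm a g ha
  have hN1 : N ≤ Subgroup.centralizer S := by
    rw [Subgroup.closure_le]
    intro a ha
    rw [SetLike.mem_coe, Subgroup.mem_centralizer_iff]
    intro b hb
    exact hS2 b hb a ha
  have hN2 : ∀ u ∈ N, ∀ v ∈ N, u * v = v * u := by
    intro u hu v hv
    have hle : N ≤ Subgroup.centralizer ({u} : Set G) := by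
      rw [Subgroup.closure_le]
      intro s hs
      rw [SetLike.mem_coe, Subgroup.mem_centralizer_singleton_iff]
      exact (Subgroup.mem_centralizer_iff.mp (hN1 hu) s hs)
    have := hle hv
    rw [Subgroup.mem_centralizer_singleton_iff] at this
    exact this.symm
  have hpow : ∀ x (hx : x ∈ N), ∃ l : ℕ, x ^ p ^ l = 1 := by
    intro x hx
    induction hx using Subgroup.closure_induction with
    | mem a ha =>
      obtain ⟨g, rfl⟩ := isConj_iff.mp (show IsConj t a from ha)
      refine ⟨k, ?_⟩
      rw [conj_pow, ht]; simp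
    | one => exact ⟨0, by simp⟩
    | mul a b ha hb iha ihb =>
      obtain ⟨l1, h1⟩ := iha
      obtain ⟨l2, h2⟩ := ihb
      refine ⟨l1 + l2, ?_⟩
      have hc : Commute a b := hN2 a ha b hb
      rw [hc.mul_pow, pow_add, pow_mul, h1, one_pow, mul_comm (p ^ l1), pow_mul, h2, one_pow, one_mul]
    | inv a ha iha =>
      obtain ⟨l, h⟩ := iha
      exact ⟨l, by rw [inv_pow, h, inv_one]⟩
  have hNp : IsPGroup p N := by
    intro x
    obtain ⟨l, hl⟩ := hpow x x.2
    exact ⟨l, Subtype.ext hl⟩
  have hle := hNp.le_sylow_of_normal Q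
  exact hle (Subgroup.subset_closure (IsConj.refl t))

theorem aux (n : ℕ) : ∀ (G : Type u) [Group G] [Finite G], Nat.card G = n →
    (∀ x : G, Cfsg.IsTISubset (Subgroup.centralizer ({x} : Set G) : Set G)) →
    ∀ (p : ℕ) [Fact p.Prime] (P Q : Sylow p G), P ≠ Q → (P : Subgroup G) ⊓ (Q : Subgroup G) = ⊥ := by
  induction n using Nat.strong_induction_on with
  | _ n ih =>
    intro G _ _ hn hTI p _ P Q hPQ
    by_contra hne
    have hex : ∃ y ∈ (P : Subgroup G) ⊓ (Q : Subgroup G), y ≠ 1 := by
      by_contra h
      push_neg at h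
      exact hne ((Subgroup.eq_bot_iff_forall _).mpr h)
    obtain ⟨y, hy, hy1⟩ := hex
    obtain ⟨hyP, hyQ⟩ := Subgroup.mem_inf.mp hy
    haveI : Nontrivial (P : Subgroup G) := ⟨⟨⟨y, hyP⟩, 1, fun h => hy1 (congrArg Subtype.val h)⟩⟩
    haveI := P.isPGroup'.center_nontrivial
    obtain ⟨z, hz⟩ := exists_ne (1 : Subgroup.center (P : Subgroup G))
    set z0 : G := ((z : (P : Subgroup G)) : G) with hz0
    have hz01 : z0 ≠ 1 := by
      intro h
      apply hz
      apply Subtype.ext
      apply Subtype.ext
      exact h
    let T : Subgroup G := Subgroup.centralizer ({z0} : Set G)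
    have hPT : (P : Subgroup G) ≤ T := by
      intro s hs
      show s ∈ Subgroup.centralizer ({z0} : Set G)
      rw [Subgroup.mem_centralizer_singleton_iff]
      have := Subgroup.mem_center_iff.mp z.2 ⟨s, hs⟩
      exact (congrArg Subtype.val this)
    obtain ⟨g, hg⟩ := MulAction.exists_smul_eq G P Q
    have hmemQ : ∀ q, q ∈ (Q : Subgroup G) ↔ g⁻¹ * q * g ∈ (P : Subgroup G) := by
      intro q
      rw [← hg]
      exact Cfsg.Agent.Lib.FGSBasic.mem_smul_sylow_iff P g q
    have hgN : g ∈ Subgroup.normalizer (T : Set G) := by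
      by_contra hgN
      have h1 := hTI z0 g hgN (g⁻¹ * y * g) (hPT ((hmemQ y).mp hyQ)) (by
        have : g * (g⁻¹ * y * g) * g⁻¹ = y := by group
        rw [this]
        exact hPT hyP)
      apply hy1
      have : y = g * (g⁻¹ * y * g) * g⁻¹ := by group
      rw [this, h1]; group
    have hQT : (Q : Subgroup G) ≤ T := by
      intro q hq
      have h1 := hPT ((hmemQ q).mp hq)
      have h2 := (Subgroup.mem_normalizer_iff.mp hgN (g⁻¹ * q * g)).mp h1
      have : g * (g⁻¹ * q * g) * g⁻¹ = q := by group
      rwa [this] at h2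
    by_cases hT : T = ⊤
    · -- `z0` is central
      have hzc : ∀ g : G, g * z0 = z0 * g := by
        intro g
        have : g ∈ T := by rw [hT]; trivial
        exact (Subgroup.mem_centralizer_singleton_iff.mp this)
      have hnormal : ∀ t g : G, g ∈ Subgroup.normalizer ((Subgroup.centralizer ({t} : Set G) : Subgroup G) : Set G) := by
        intro t g
        by_contra h
        have h1 : z0 ∈ Subgroup.centralizer ({t} : Set G) := by
          rw [Subgroup.mem_centralizer_singleton_iff]
          exact (hzc t).symm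
        have h2 : g * z0 * g⁻¹ = z0 := by rw [hzc g]; group
        exact hz01 (hTI t g h z0 h1 (by rw [h2]; exact h1))
      have hcomm : ∀ a g : G, a * (g * a * g⁻¹) = (g * a * g⁻¹) * a := by
        intro a g
        have h1 : a ∈ Subgroup.centralizer ({a} : Set G) := by
          rw [Subgroup.mem_centralizer_singleton_iff]
        have h2 := (Subgroup.mem_normalizer_iff.mp (hnormal a g) a).mp h1
        have h3 := Subgroup.mem_centralizer_singleton_iff.mp h2
        exact h3.symm
      have hPQle : (P : Subgroup G) ≤ (Q : Subgroup G) := by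
        intro t ht
        obtain ⟨k, hk⟩ := Cfsg.Agent.Lib.FGSBasic.orderOf_of_mem_sylow P ht
        have ht1 : t ^ p ^ k = 1 := by rw [← hk]; exact pow_orderOf_eq_one t
        exact mem_sylow_of_conj_comm p Q t k ht1 (fun a g _ => hcomm a g)
      exact hPQ (Sylow.ext (P.3 Q.2 hPQle).symm)
    · have hcard : Nat.card T < n := by
        rw [← hn]
        apply lt_of_le_of_ne (Subgroup.card_le_card_group T)
        intro h
        exact hT (Subgroup.eq_top_of_card_eq T h)
      have hTI' := ti_subgroup hTI T
      have hne' : P.subtype hPT ≠ Q.subtype hQT := by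
        intro h
        apply hPQ
        apply Sylow.ext
        have h' := congrArg (fun R : Sylow p T => (R : Subgroup T)) h
        simp only [Sylow.coe_subtype] at h'
        apply le_antisymm
        · intro a ha
          have h1 : (⟨a, hPT ha⟩ : T) ∈ (P : Subgroup G).subgroupOf T := by
            rw [Subgroup.mem_subgroupOf]; exact ha
          rw [h', Subgroup.mem_subgroupOf] at h1
          exact h1
        · intro a ha
          have h1 : (⟨a, hQT ha⟩ : T) ∈ (Q : Subgroup G).subgroupOf T := by
            rw [Subgroup.mem_subgroupOf]; exact ha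
          rw [← h', Subgroup.mem_subgroupOf] at h1
          exact h1
      have h1 := ih _ hcard T rfl hTI' p (P.subtype hPT) (Q.subtype hQT) hne'
      have h2 : (⟨y, hPT hyP⟩ : T) ∈ ((P.subtype hPT : Sylow p T) : Subgroup T) ⊓ ((Q.subtype hQT : Sylow p T) : Subgroup T) := by
        rw [Sylow.coe_subtype, Sylow.coe_subtype]
        exact ⟨hyP, hyQ⟩
      rw [h1] at h2
      exact hy1 (congrArg Subtype.val (Subgroup.mem_bot.mp h2))

/-- Let G be a finite group in which the centralizer of every element meets each of its conjugates by elements outside its normalizer trivially. Then any two distinct Sylow p-subgroups of G, for any prime p, intersect trivially. -/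
theorem result {G : Type*} [Group G] [Finite G] (hTI : ∀ x : G, Cfsg.IsTISubset (Subgroup.centralizer ({x} : Set G) : Set G))
    {p : ℕ} [Fact p.Prime] (P Q : Sylow p G) (hPQ : P ≠ Q) : (P : Subgroup G) ⊓ (Q : Subgroup G) = ⊥ := by
  exact aux _ G rfl hTI p P Q hPQ

end Cfsg.Agent.S4066
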