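import Cfsg.Statements.S4072
import Mathlib
import Cfsg.Agent.Lib.PNilp
import Cfsg.Agent.Lib.H9Two
-- import your own Cfsg.Agent.* helpers here

set_option autoImplicit false
open Cfsg

namespace Cfsg.Agent.S4072

open Subgroup

section
variable {G : Type*} [Group G] [Finite G]

theorem solvable_of_abelian_normal (K : Subgroup G) [K.Normal] (hK : ∀ a ∈ K, ∀ b ∈ K, a * b = b * a)
    (hQ : Group.IsSolvable (G ⧸ K)) : Group.IsSolvable G := by
  haveI : Group.IsSolvable K := Group.isSolvable_of_comm (fun a b => Subtype.ext (hK _ a.2 _ b.2))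
  haveI := hQ
  refine solvable_of_ker_le_range K.subtype (QuotientGroup.mk' K) ?_
  rw [QuotientGroup.ker_mk', Subgroup.range_subtype]

/-- A non-abelian subgroup is self-normalizing, so a proper normal subgroup is abelian. -/
theorem normal_abelian (hS : ∀ H : Subgroup G, ¬ IsMulCommutative H → normalizer (H : Set G) = H)
    (K : Subgroup G) (hn : K.Normal) (hK : K ≠ ⊤) : ∀ a ∈ K, ∀ b ∈ K, a * b = b * a := by
  by_contra hcon
  push_neg at hcon
  obtain ⟨a, ha, b, hb, hab⟩ := hcon
  have h1 : ¬ IsMulCommutative K := by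
    intro h
    apply hab
    have := h.is_comm.comm ⟨a, ha⟩ ⟨b, hb⟩
    simpa using congrArg Subtype.val this
  have h2 := hS K h1
  rw [Subgroup.normalizer_eq_top_iff.mpr hn] at h2
  exact hK h2.symm

/-- The contradiction in the central case. -/
theorem central_case (hS : ∀ H : Subgroup G, ¬ IsMulCommutative H → normalizer (H : Set G) = H)
    {r : ℕ} [hr : Fact r.Prime] {z : G} (hzo : orderOf z = r) (hzc : ∀ g, g * z = z * g)
    (Q : Subgroup G) (hQ : IsPGroup r Q) (y : G) (hyN : y ∈ normalizer (Q : Set G))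
    (hyc : (orderOf y).Coprime r) (hyC : y ∉ centralizer (Q : Set G)) : False := by
  classical
  have hrp := hr.out
  have hy1 : y ≠ 1 := by
    rintro rfl
    exact hyC (one_mem _)
  have hQel : ∀ q ∈ Q, ∃ k, q ^ r ^ k = 1 := by
    intro q hq
    obtain ⟨k, hk⟩ := hQ ⟨q, hq⟩
    exact ⟨k, by simpa using congrArg Subtype.val hk⟩
  have hcopel : ∀ {e : G} {k : ℕ}, e ^ r ^ k = 1 → e ^ orderOf y = 1 → e = 1 := by
    intro e k h1 h2
    have h3 := orderOf_dvd_of_pow_eq_one h1
    have h4 := orderOf_dvd_of_pow_eq_one h2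
    have h5 : Nat.Coprime (orderOf y) (r ^ k) := Nat.Coprime.pow_right _ hyc
    have h6 := Nat.Coprime.eq_one_of_dvd (h5.coprime_dvd_left h4) h3
    exact orderOf_eq_one_iff.mp h6
  have hconjQ : ∀ q ∈ Q, y * q * y⁻¹ ∈ Q := fun q hq => (Subgroup.mem_normalizer_iff.mp hyN q).mp hq
  have hconjQ' : ∀ q ∈ Q, y⁻¹ * q * y ∈ Q := by
    intro q hq
    have h := (Subgroup.mem_normalizer_iff.mp hyN (y⁻¹ * q * y)).mpr (by
      have : y * (y⁻¹ * q * y) * y⁻¹ = q := by group
      rw [this]; exact hq)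
    exact h
  -- the commutators
  let S : Set G := {c | ∃ x ∈ Q, c = y * x * y⁻¹ * x⁻¹}
  let E : Subgroup G := closure S
  have hEQ : E ≤ Q := by
    rw [closure_le]
    rintro _ ⟨x, hx, rfl⟩
    exact mul_mem (hconjQ x hx) (inv_mem hx)
  have hEy : ∀ u ∈ E, y * u * y⁻¹ ∈ E := by
    intro u hu
    induction hu using closure_induction with
    | mem u hu =>
      obtain ⟨x, hx, rfl⟩ := hu
      apply Subgroup.subset_closure
      refine ⟨y * x * y⁻¹, hconjQ x hx, ?_⟩
      group
    | one => simp [one_mem]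
    | mul a b _ _ ha hb =>
      have : y * (a * b) * y⁻¹ = (y * a * y⁻¹) * (y * b * y⁻¹) := by group
      rw [this]; exact mul_mem ha hb
    | inv a _ ha =>
      have : y * a⁻¹ * y⁻¹ = (y * a * y⁻¹)⁻¹ := by group
      rw [this]; exact inv_mem ha
  have hEy' : ∀ u ∈ E, y⁻¹ * u * y ∈ E := by
    intro u hu
    induction hu using closure_induction with
    | mem u hu =>
      obtain ⟨x, hx, rfl⟩ := hu
      apply Subgroup.subset_closure
      refine ⟨y⁻¹ * x * y, hconjQ' x hx, ?_⟩
      group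
    | one => simp [one_mem]
    | mul a b _ _ ha hb =>
      have : y⁻¹ * (a * b) * y = (y⁻¹ * a * y) * (y⁻¹ * b * y) := by group
      rw [this]; exact mul_mem ha hb
    | inv a _ ha =>
      have : y⁻¹ * a⁻¹ * y = (y⁻¹ * a * y)⁻¹ := by group
      rw [this]; exact inv_mem ha
  have hyNE : y ∈ normalizer (E : Set G) := by
    rw [Subgroup.mem_normalizer_iff]
    intro u
    constructor
    · exact hEy u
    · intro hu
      have := hEy' _ hu
      have e : y⁻¹ * (y * u * y⁻¹) * y = u := by group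
      rwa [e] at this
  -- `E` is abelian
  have hEab : ∀ a ∈ E, ∀ b ∈ E, a * b = b * a := by
    by_contra hcon
    push_neg at hcon
    obtain ⟨a, ha, b, hb, hab⟩ := hcon
    have h1 : ¬ IsMulCommutative E := by
      intro h
      apply hab
      have := h.is_comm.comm ⟨a, ha⟩ ⟨b, hb⟩
      simpa using congrArg Subtype.val this
    have h2 := hS E h1
    have h3 : y ∈ E := by rw [← h2]; exact hyNE
    obtain ⟨k, hk⟩ := hQel y (hEQ h3)
    exact hy1 (hcopel hk (pow_orderOf_eq_one y))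
  -- the commutator map on `E`
  let φ : E →* E := MonoidHom.mk' (fun v => ⟨(v : G)⁻¹ * (y * v * y⁻¹), mul_mem (inv_mem v.2) (hEy v v.2)⟩) (by
    intro u v
    apply Subtype.ext
    show ((u * v : E) : G)⁻¹ * (y * ((u * v : E) : G) * y⁻¹) =
      ((u : G)⁻¹ * (y * u * y⁻¹)) * ((v : G)⁻¹ * (y * v * y⁻¹))
    have h1 := hEab _ (hEy u u.2) _ (inv_mem v.2)
    calc ((u * v : E) : G)⁻¹ * (y * ((u * v : E) : G) * y⁻¹)
        = (v : G)⁻¹ * (u : G)⁻¹ * ((y * u * y⁻¹) * (y * v * y⁻¹)) := by
          simp only [Subgroup.coe_mul]; group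
      _ = (u : G)⁻¹ * (v : G)⁻¹ * ((y * u * y⁻¹) * (y * v * y⁻¹)) := by
          rw [hEab _ (inv_mem v.2) _ (inv_mem u.2)]
      _ = (u : G)⁻¹ * ((v : G)⁻¹ * (y * u * y⁻¹)) * (y * v * y⁻¹) := by group
      _ = (u : G)⁻¹ * ((y * u * y⁻¹) * (v : G)⁻¹) * (y * v * y⁻¹) := by rw [h1]
      _ = _ := by group)
  have hφapp : ∀ v : E, ((φ v : E) : G) = (v : G)⁻¹ * (y * v * y⁻¹) := fun v => rfl
  let E₀ : Subgroup G := (φ.range).map E.subtype
  have hE₀E : E₀ ≤ E := by
    rintro _ ⟨w, -, rfl⟩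
    exact w.2
  have hE₀y : y ∈ normalizer (E₀ : Set G) := by
    rw [Subgroup.mem_normalizer_iff]
    intro u
    constructor
    · rintro ⟨_, ⟨v, rfl⟩, rfl⟩
      refine ⟨φ ⟨y * v * y⁻¹, hEy v v.2⟩, ⟨_, rfl⟩, ?_⟩
      simp only [Subgroup.subtype_apply, hφapp]
      group
    · rintro ⟨_, ⟨v, rfl⟩, hv⟩
      simp only [Subgroup.subtype_apply, hφapp] at hv
      have hv' : u = y⁻¹ * ((v : G)⁻¹ * (y * v * y⁻¹)) * y := by
        rw [hv]; group
      refine ⟨φ ⟨y⁻¹ * v * y, hEy' v v.2⟩, ⟨_, rfl⟩, ?_⟩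
      simp only [Subgroup.subtype_apply, hφapp]
      rw [hv']; group
  -- fixed points in `E₀`
  have hfix : ∀ e ∈ E₀, y * e * y⁻¹ = e → e = 1 := by
    rintro _ ⟨_, ⟨v, rfl⟩, rfl⟩ hfe
    simp only [Subgroup.subtype_apply, hφapp] at hfe ⊢
    set e := (v : G)⁻¹ * (y * v * y⁻¹) with he
    have h1 : ∀ i : ℕ, y ^ i * v * (y ^ i)⁻¹ = v * e ^ i := by
      intro i
      induction i with
      | zero => simp
      | succ i ih =>
        have h2 : y ^ (i + 1) * v * (y ^ (i + 1))⁻¹ = y * (y ^ i * v * (y ^ i)⁻¹) * y⁻¹ := by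
          rw [pow_succ']; group
        rw [h2, ih]
        have h3 : y * (v * e ^ i) * y⁻¹ = (y * v * y⁻¹) * (y * e ^ i * y⁻¹) := by group
        rw [h3, ← conj_pow, hfe]
        have h4 : y * v * y⁻¹ = v * e := by rw [he]; group
        rw [h4, pow_succ', mul_assoc]
    have h2 := h1 (orderOf y)
    rw [pow_orderOf_eq_one] at h2
    have h3 : e ^ orderOf y = 1 := by
      have : (v : G) * e ^ orderOf y = v := by rw [← h2]; group
      simpa using this
    obtain ⟨k, hk⟩ := hQel e (hEQ (mul_mem (inv_mem v.2) (hEy v v.2)))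
    exact hcopel hk h3
  -- `E₀` is nontrivial
  have hE₀ne : ∃ e ∈ E₀, e ≠ 1 := by
    by_contra hcon
    push_neg at hcon
    apply hyC
    rw [Subgroup.mem_centralizer_iff]
    intro x hx
    have hcE : y * x * y⁻¹ * x⁻¹ ∈ E := Subgroup.subset_closure ⟨x, hx, rfl⟩
    have hcfix : y * (y * x * y⁻¹ * x⁻¹) * y⁻¹ = y * x * y⁻¹ * x⁻¹ := by
      have h1 := hcon _ ⟨φ ⟨_, hcE⟩, ⟨_, rfl⟩, rfl⟩
      simp only [Subgroup.subtype_apply, hφapp] at h1
      rw [inv_mul_eq_one] at h1
      exact h1.symm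
    obtain ⟨k, hk⟩ := hQel _ (hEQ hcE)
    have h2 := Lib.H9Two.fixed_of_quot hyc rfl hcfix hk
    rw [mul_inv_eq_iff_eq_mul] at h2
    exact h2.symm
  obtain ⟨e₀, he₀, he₀1⟩ := hE₀ne
  -- the non-abelian subgroup avoiding `z`
  set T := zpowers y ⊔ E₀ with hT
  have hTna : ¬ IsMulCommutative T := by
    intro h
    have hyT : y ∈ T := (le_sup_left : zpowers y ≤ T) (mem_zpowers y)
    have heT : e₀ ∈ T := (le_sup_right : E₀ ≤ T) he₀
    have := h.is_comm.comm ⟨y, hyT⟩ ⟨e₀, heT⟩
    have h2 : y * e₀ = e₀ * y := by simpa using congrArg Subtype.val this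
    apply he₀1
    apply hfix e₀ he₀
    rw [h2]; group
  have hzT : z ∈ T := by
    rw [← hS T hTna, Subgroup.mem_normalizer_iff]
    intro u
    have : z * u * z⁻¹ = u := by rw [← hzc u]; group
    rw [this]
  have hle : zpowers y ≤ normalizer (E₀ : Set G) := (Subgroup.zpowers_le).mpr hE₀y
  have hzT' : z ∈ ((zpowers y ⊔ E₀ : Subgroup G) : Set G) := hzT
  rw [Subgroup.coe_mul_of_left_le_normalizer_right _ _ hle, Set.mem_mul] at hzT'
  obtain ⟨w, hw, e, he, hwe⟩ := hzT'
  have heE₀ : e ∈ E₀ := he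
  obtain ⟨k, hk⟩ := hQel e (hEQ (hE₀E heE₀))
  have hzr : z ^ r = 1 := by rw [← hzo]; exact pow_orderOf_eq_one z
  have hw1 : w = 1 := by
    have h1 : w = z * e⁻¹ := by rw [← hwe]; group
    have hce : Commute z e⁻¹ := (hzc e⁻¹).symm
    have h2 : w ^ r ^ (k + 1) = 1 := by
      rw [h1, hce.mul_pow, inv_pow]
      have h3 : z ^ r ^ (k + 1) = 1 := by
        rw [pow_succ', pow_mul, hzr, one_pow]
      have h4 : e ^ r ^ (k + 1) = 1 := by
        rw [pow_succ, pow_mul, hk, one_pow]
      rw [h3, h4]; simp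
    have h5 : w ^ orderOf y = 1 := by
      obtain ⟨t, rfl⟩ := mem_zpowers_iff.mp hw
      rw [← zpow_natCast, ← zpow_mul, mul_comm, zpow_mul, zpow_natCast, pow_orderOf_eq_one, one_zpow]
    exact hcopel h2 h5
  have hze : z = e := by rw [← hwe, hw1, one_mul]
  have hz1 : z = 1 := by
    apply hfix z (hze ▸ heE₀)
    rw [hzc y]; group
  rw [hz1, orderOf_one] at hzo
  exact hrp.one_lt.ne hzo


/-- the faithful case -/
theorem faithful_case (hS : ∀ H : Subgroup G, ¬ IsMulCommutative H → normalizer (H : Set G) = H)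
    (M : Subgroup G) [hMn : M.Normal] (hMtop : M ≠ ⊤)
    (hMab : ∀ a ∈ M, ∀ b ∈ M, a * b = b * a)
    (hMmax : ∀ K : Subgroup G, K.Normal → M ≤ K → K = M ∨ K = ⊤)
    (hC : ∀ x, x ∉ M → ∃ m ∈ M, m * x ≠ x * m) : Group.IsSolvable G := by
  classical
  let π := QuotientGroup.mk' M
  have hπ : Function.Surjective π := QuotientGroup.mk'_surjective M
  have hker : ∀ x, π x = 1 ↔ x ∈ M := by
    intro x
    rw [QuotientGroup.mk'_apply, QuotientGroup.eq_one_iff]
  -- cyclic subgroups of the quotient are self-normalizing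
  have hself : ∀ xb : G ⧸ M, xb ≠ 1 → ∀ yb ∈ normalizer ((zpowers xb : Subgroup (G ⧸ M)) : Set (G ⧸ M)),
      yb ∈ zpowers xb := by
    intro xb hxb yb hyb
    obtain ⟨x, rfl⟩ := hπ xb
    obtain ⟨y, rfl⟩ := hπ yb
    let T : Subgroup G := (zpowers (π x)).comap π
    have hxT : x ∈ T := by
      show π x ∈ zpowers (π x)
      exact mem_zpowers _
    have hMT : M ≤ T := by
      intro m hm
      show π m ∈ zpowers (π x)
      rw [(hker m).mpr hm]; exact one_mem _
    have hxM : x ∉ M := fun h => hxb ((hker x).mpr h)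
    have hTna : ¬ IsMulCommutative T := by
      intro h
      obtain ⟨m, hm, hmx⟩ := hC x hxM
      apply hmx
      have := h.is_comm.comm ⟨m, hMT hm⟩ ⟨x, hxT⟩
      simpa using congrArg Subtype.val this
    have h1 := hS T hTna
    have hyT : y ∈ normalizer (T : Set G) := by
      rw [Subgroup.mem_normalizer_iff]
      intro u
      have h2 := Subgroup.mem_normalizer_iff.mp hyb (π u)
      show π u ∈ zpowers (π x) ↔ π (y * u * y⁻¹) ∈ zpowers (π x)
      rw [map_mul, map_mul, map_inv]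
      exact h2
    rw [h1] at hyT
    exact hyT
  by_contra hns
  have hns' : ¬ Group.IsSolvable (G ⧸ M) := fun h => hns (solvable_of_abelian_normal M hMab h)
  haveI : Nontrivial (G ⧸ M) := by
    by_contra h
    rw [not_nontrivial_iff_subsingleton] at h
    exact hns' inferInstance
  obtain ⟨p, hp, hpd⟩ := Nat.exists_prime_and_dvd (Finite.one_lt_card (α := G ⧸ M)).ne'
  haveI : Fact p.Prime := ⟨hp⟩
  obtain ⟨P⟩ : Nonempty (Sylow p (G ⧸ M)) := inferInstance
  have hPnt : Nontrivial (P : Subgroup (G ⧸ M)) := by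
    haveI := hp
    have h1 : p ∣ Nat.card P := by
      rw [Sylow.card_eq_multiplicity]
      have h2 : (Nat.card (G ⧸ M)).factorization p ≠ 0 :=
        (Nat.Prime.factorization_pos_of_dvd hp Nat.card_pos.ne' hpd).ne'
      exact dvd_pow_self p h2
    exact Finite.one_lt_card_iff_nontrivial.mp
      (lt_of_lt_of_le hp.one_lt (Nat.le_of_dvd Nat.card_pos h1))
  obtain ⟨a, ha⟩ := exists_ne (1 : (P : Subgroup (G ⧸ M)))
  have ha' : (a : G ⧸ M) ≠ 1 := fun h => ha (Subtype.ext h)
  -- `P` is generated by `a`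
  have hPeq : ((zpowers (a : G ⧸ M)) : Subgroup (G ⧸ M)) = P := by
    have hle : zpowers (a : G ⧸ M) ≤ P := (Subgroup.zpowers_le).mpr a.2
    by_contra hne
    have hlt : (zpowers (a : G ⧸ M)).subgroupOf (P : Subgroup (G ⧸ M)) < ⊤ := by
      rw [lt_top_iff_ne_top]
      intro h
      rw [Subgroup.subgroupOf_eq_top] at h
      exact hne (le_antisymm hle h)
    haveI : Group.IsNilpotent (P : Subgroup (G ⧸ M)) := P.isPGroup'.isNilpotent
    have h2 := normalizerCondition_of_isNilpotent (G := (P : Subgroup (G ⧸ M))) _ hlt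
    obtain ⟨b, hb, hbn⟩ := SetLike.exists_of_lt h2
    apply hbn
    rw [Subgroup.mem_subgroupOf]
    apply hself _ ha'
    rw [Subgroup.mem_normalizer_iff]
    intro u
    have h3 := Subgroup.mem_normalizer_iff.mp hb
    constructor
    · intro hu
      have hup : u ∈ (P : Subgroup (G ⧸ M)) := hle hu
      have := (h3 ⟨u, hup⟩).mp (Subgroup.mem_subgroupOf.mpr hu)
      simpa [Subgroup.mem_subgroupOf] using this
    · intro hu
      have hup : u ∈ (P : Subgroup (G ⧸ M)) := by
        have h4 := hle hu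
        have h5 := mul_mem (mul_mem (inv_mem b.2) h4) b.2
        simpa [mul_assoc] using h5
      have := (h3 ⟨u, hup⟩).mpr (Subgroup.mem_subgroupOf.mpr (by simpa using hu))
      simpa [Subgroup.mem_subgroupOf] using this
  -- Burnside
  have hPab : ∀ u ∈ (P : Subgroup (G ⧸ M)), ∀ v ∈ (P : Subgroup (G ⧸ M)), u * v = v * u := by
    rw [← hPeq]
    intro u hu v hv
    obtain ⟨i, rfl⟩ := mem_zpowers_iff.mp hu
    obtain ⟨j, rfl⟩ := mem_zpowers_iff.mp hv
    exact (Commute.refl (a : G ⧸ M)).zpow_zpow i j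
  have hNorm : normalizer ((P : Subgroup (G ⧸ M)) : Set (G ⧸ M)) = P := by
    apply le_antisymm
    · intro yb hyb
      rw [← hPeq] at hyb ⊢
      exact hself _ ha' yb hyb
    · exact Subgroup.le_normalizer
  have hBurn : normalizer ((P : Subgroup (G ⧸ M)) : Set (G ⧸ M)) ≤ centralizer ((P : Subgroup (G ⧸ M)) : Set (G ⧸ M)) := by
    rw [hNorm]
    intro u hu
    rw [Subgroup.mem_centralizer_iff]
    intro v hv
    exact hPab v hv u hu
  have hcompl := MonoidHom.ker_transferSylow_isComplement' P hBurn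
  set Kb := (MonoidHom.transferSylow P hBurn).ker with hKb
  haveI hKbn : Kb.Normal := MonoidHom.normal_ker _
  have hcases := hMmax (Kb.comap π) (Subgroup.Normal.comap hKbn π) (by
    intro m hm
    show π m ∈ Kb
    rw [(hker m).mpr hm]; exact one_mem _)
  rcases hcases with h | h
  · -- `Kb` is trivial so the quotient is cyclic
    have hKbbot : Kb = ⊥ := by
      rw [eq_bot_iff]
      intro k hk
      obtain ⟨g, rfl⟩ := hπ k
      have : g ∈ Kb.comap π := hk
      rw [h] at this
      rw [Subgroup.mem_bot]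
      exact (hker g).mpr this
    have hPtop : (P : Subgroup (G ⧸ M)) = ⊤ := by
      have := hcompl.sup_eq_top
      rwa [hKbbot, bot_sup_eq] at this
    apply hns'
    refine Group.isSolvable_of_comm (fun u v => ?_)
    exact hPab u (hPtop ▸ mem_top u) v (hPtop ▸ mem_top v)
  · -- `Kb` is everything so `P` is trivial
    have hKbtop : Kb = ⊤ := by
      rw [eq_top_iff]
      intro k _
      obtain ⟨g, rfl⟩ := hπ k
      have : g ∈ Kb.comap π := by rw [h]; exact mem_top g
      exact this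
    have hdisj := hcompl.disjoint
    rw [hKbtop] at hdisj
    have : (P : Subgroup (G ⧸ M)) = ⊥ := by
      simpa using hdisj
    apply ha'
    have h3 : (a : G ⧸ M) ∈ (⊥ : Subgroup (G ⧸ M)) := by
      rw [← this]; exact a.2
    exact Subgroup.mem_bot.mp h3

end

/-- A finite group in which every non-abelian subgroup is self-normalizing is solvable or simple. -/
theorem result {G : Type*} [Group G] [Finite G] (hS : ∀ H : Subgroup G, ¬ IsMulCommutative H → Subgroup.normalizer (H : Set G) = H) :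
    Group.IsSolvable G ∨ IsSimpleGroup G := by
  classical
  by_cases hsol : Group.IsSolvable G
  · exact Or.inl hsol
  right
  haveI : Nontrivial G := by
    by_contra h
    rw [not_nontrivial_iff_subsingleton] at h
    exact hsol inferInstance
  refine { eq_bot_or_eq_top_of_normal := ?_ }
  intro N hN
  by_contra hcon
  push_neg at hcon
  obtain ⟨hNb, hNt⟩ := hcon
  -- a maximal normal subgroup above `N`
  let F : Set (Subgroup G) := {K | K.Normal ∧ K ≠ ⊤}
  obtain ⟨M, hNM, hM⟩ := (Set.toFinite F).exists_le_maximal (a := N) ⟨hN, hNt⟩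
  obtain ⟨hMn, hMt⟩ := hM.prop
  haveI := hMn
  have hMab := normal_abelian hS M hMn hMt
  have hMmax : ∀ K : Subgroup G, K.Normal → M ≤ K → K = M ∨ K = ⊤ := by
    intro K hK hMK
    by_cases hKt : K = ⊤
    · exact Or.inr hKt
    · left
      exact le_antisymm (hM.le_of_ge ⟨hK, hKt⟩ hMK) hMK
  have hMb : M ≠ ⊥ := by
    intro h
    rw [h] at hNM
    exact hNb (le_bot_iff.mp hNM)
  by_cases hcase : ∀ x, x ∉ M → ∃ m ∈ M, m * x ≠ x * m
  · exact hsol (faithful_case hS M hMt hMab hMmax hcase)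
  push_neg at hcase
  obtain ⟨x, hxM, hx⟩ := hcase
  have hCM : M ≤ centralizer (M : Set G) := by
    intro a ha
    rw [Subgroup.mem_centralizer_iff]
    intro b hb
    exact hMab b hb a ha
  haveI hCn : (centralizer (M : Set G)).Normal := inferInstance
  have hCtop : centralizer (M : Set G) = ⊤ := by
    rcases hMmax _ hCn hCM with h | h
    · exfalso
      apply hxM
      rw [← h, Subgroup.mem_centralizer_iff]
      intro m hm
      exact hx m hm
    · exact h
  have hMc : ∀ m ∈ M, ∀ g, g * m = m * g := by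
    intro m hm g
    have : g ∈ centralizer (M : Set G) := by rw [hCtop]; exact mem_top g
    exact ((Subgroup.mem_centralizer_iff.mp this) m hm).symm
  haveI : Nontrivial M := by
    obtain ⟨m, hm, hm1⟩ := (Subgroup.bot_or_exists_ne_one M).resolve_left hMb
    exact ⟨⟨⟨m, hm⟩, 1, fun h => hm1 (by simpa using congrArg Subtype.val h)⟩⟩
  obtain ⟨r, hr, hrd⟩ := Nat.exists_prime_and_dvd (Finite.one_lt_card (α := M)).ne'
  haveI : Fact r.Prime := ⟨hr⟩
  obtain ⟨z', hz'⟩ := exists_prime_orderOf_dvd_card' (G := M) r hrd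
  have hzo : orderOf (z' : G) = r := by rw [Subgroup.orderOf_coe, hz']
  have hzc : ∀ g, g * (z' : G) = (z' : G) * g := hMc _ z'.2
  obtain ⟨P⟩ : Nonempty (Sylow r G) := inferInstance
  have hrG : r ∣ Nat.card G := by
    rw [← hzo]; exact orderOf_dvd_natCard _
  have hcomp : ¬ Cfsg.HasNormalPComplement r G := by
    rintro ⟨P', K, hKn, hKc⟩
    have hKt : K ≠ ⊤ := by
      rintro rfl
      have hdisj := hKc.disjoint
      have hbot : (P' : Subgroup G) = ⊥ := by simpa using hdisj
      exact P'.ne_bot_of_dvd_card hrG hbot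
    have hKab := normal_abelian hS K hKn hKt
    haveI := hKn
    have hp := Lib.PNilp.isPGroup_quotient_of_isComplement P' K hKc
    haveI : Group.IsNilpotent (G ⧸ K) := hp.isNilpotent
    exact hsol (solvable_of_abelian_normal K hKab inferInstance)
  have hno := mt (Lib.PNilp.hasNormalPComplement_of_automizer P) hcomp
  push_neg at hno
  obtain ⟨Q, hQ, g, hgN, hcop, hgC⟩ := hno
  exact central_case hS hzo hzc Q (P.isPGroup'.to_le hQ) g hgN hcop hgC

end Cfsg.Agent.S4072
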