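import Cfsg.Statements.S4071
import Mathlib
import Cfsg.Agent.Lib.FGSBasic
import Cfsg.Agent.S4072
-- import your own Cfsg.Agent.* helpers here

set_option autoImplicit false
open Cfsg

namespace Cfsg.Agent.S4071

open Subgroup
open scoped commutatorElement

section
variable {G : Type*} [Group G] [Finite G]

/-- forward direction -/
theorem forward [hsol : Group.IsSolvable G] (hnn : ¬ Group.IsNilpotent G)
    (hS : ∀ H : Subgroup G, ¬ IsMulCommutative H → normalizer (H : Set G) = H) :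
    ∃ (x : G) (A : Subgroup G) (p : ℕ), p.Prime ∧ A.Normal ∧ IsMulCommutative A ∧ (∃ k : ℕ, orderOf x = p ^ k) ∧
      ¬ p ∣ Nat.card A ∧ (Subgroup.zpowers x).IsComplement' A ∧ x ^ p ∈ Subgroup.center G ∧
      ∀ a : G, a ∈ A → a ≠ 1 → x * a * x⁻¹ ≠ a := by
  classical
  haveI : Nontrivial G := by
    by_contra h
    rw [not_nontrivial_iff_subsingleton] at h
    exact hnn inferInstance
  let F : Set (Subgroup G) := {K | K.Normal ∧ K ≠ ⊤}
  have hbotF : (⊥ : Subgroup G) ∈ F := ⟨inferInstance, bot_ne_top⟩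
  obtain ⟨M, -, hM⟩ := (Set.toFinite F).exists_le_maximal hbotF
  obtain ⟨hMn, hMt⟩ := hM.prop
  haveI := hMn
  have hMab := S4072.normal_abelian hS M hMn hMt
  have hMmax : ∀ K : Subgroup G, K.Normal → M ≤ K → K = M ∨ K = ⊤ := by
    intro K hK hMK
    by_cases hKt : K = ⊤
    · exact Or.inr hKt
    · left
      exact le_antisymm (hM.le_of_ge ⟨hK, hKt⟩ hMK) hMK
  let π := QuotientGroup.mk' M
  have hπ : Function.Surjective π := QuotientGroup.mk'_surjective M
  have hker : ∀ y, π y = 1 ↔ y ∈ M := by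
    intro y
    rw [QuotientGroup.mk'_apply, QuotientGroup.eq_one_iff]
  haveI hQnt : Nontrivial (G ⧸ M) := by
    rw [QuotientGroup.nontrivial_iff]
    exact hMt
  haveI : Group.IsSolvable (G ⧸ M) := inferInstance
  -- the quotient is abelian
  have hQab : commutator (G ⧸ M) = ⊥ := by
    have h1 := IsSolvable.commutator_lt_top_of_nontrivial (G ⧸ M)
    have h2 : (commutator (G ⧸ M)).comap π ≠ ⊤ := by
      intro h
      apply h1.ne
      rw [eq_top_iff]
      intro y _
      obtain ⟨g, rfl⟩ := hπ y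
      have : g ∈ (commutator (G ⧸ M)).comap π := by rw [h]; exact mem_top g
      exact this
    have h3 : M ≤ (commutator (G ⧸ M)).comap π := by
      intro m hm
      show π m ∈ commutator (G ⧸ M)
      rw [(hker m).mpr hm]; exact one_mem _
    rcases hMmax _ (Subgroup.Normal.comap inferInstance π) h3 with h | h
    · rw [eq_bot_iff]
      intro y hy
      obtain ⟨g, rfl⟩ := hπ y
      have : g ∈ (commutator (G ⧸ M)).comap π := hy
      rw [h] at this
      rw [Subgroup.mem_bot]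
      exact (hker g).mpr this
    · exact absurd h h2
  have hQcomm : ∀ u v : G ⧸ M, u * v = v * u := by
    intro u v
    have : ⁅u, v⁆ ∈ commutator (G ⧸ M) := by
      rw [_root_.commutator_def]
      exact Subgroup.commutator_mem_commutator (mem_top _) (mem_top _)
    rw [hQab, Subgroup.mem_bot, commutatorElement_eq_one_iff_mul_comm] at this
    exact this
  obtain ⟨p, hp, hpd⟩ := Nat.exists_prime_and_dvd (Finite.one_lt_card (α := G ⧸ M)).ne'
  haveI : Fact p.Prime := ⟨hp⟩
  obtain ⟨xb, hxb⟩ := exists_prime_orderOf_dvd_card' (G := G ⧸ M) p hpd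
  have hzt : zpowers xb = ⊤ := by
    have hnormal : (zpowers xb).Normal := by
      constructor
      intro n hn g
      rw [hQcomm g n]
      simpa using hn
    have h3 : M ≤ (zpowers xb).comap π := by
      intro m hm
      show π m ∈ zpowers xb
      rw [(hker m).mpr hm]; exact one_mem _
    rcases hMmax _ (Subgroup.Normal.comap hnormal π) h3 with h | h
    · exfalso
      obtain ⟨g, rfl⟩ := hπ xb
      have : g ∈ (zpowers (π g)).comap π := mem_zpowers (π g)
      rw [h] at this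
      rw [(hker g).mpr this, orderOf_one] at hxb
      exact hp.one_lt.ne hxb
    · rw [eq_top_iff]
      intro y _
      obtain ⟨g, rfl⟩ := hπ y
      have : g ∈ (zpowers xb).comap π := by rw [h]; exact mem_top g
      exact this
  have hQcard : Nat.card (G ⧸ M) = p := by
    have := Subgroup.card_top (G := G ⧸ M)
    rw [← hzt, Nat.card_zpowers, hxb] at this
    exact this.symm
  -- the element `x`
  obtain ⟨u, rfl⟩ := hπ xb
  obtain ⟨x, b, hxz, hbz, hxbu, ⟨k, hk⟩, hbc⟩ := Lib.FGSBasic.exists_p_decomp p u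
  have hπb : π b = 1 := by
    have h1 : orderOf (π b) ∣ orderOf b := orderOf_map_dvd π b
    have h2 : orderOf (π b) ∣ p := by rw [← hQcard]; exact orderOf_dvd_natCard _
    have h3 := Nat.Coprime.eq_one_of_dvd (hbc.coprime_dvd_left h1) h2
    exact orderOf_eq_one_iff.mp h3
  have hπx : π x = π u := by rw [← hxbu, map_mul, hπb, mul_one]
  have hxM : x ∉ M := by
    intro h
    have h2 := (hker x).mpr h
    rw [hπx] at h2
    rw [h2, orderOf_one] at hxb
    exact hp.one_lt.ne hxb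
  have hform : ∀ g : G, ∃ i : ℕ, ∃ m ∈ M, g = x ^ i * m := by
    intro g
    have h1 : π g ∈ zpowers (π x) := by rw [hπx, hzt]; exact mem_top _
    obtain ⟨i, hi⟩ : ∃ i : ℕ, (π x) ^ i = π g :=
      (Submonoid.mem_powers_iff _ _).mp (mem_powers_iff_mem_zpowers.mpr h1)
    refine ⟨i, (x ^ i)⁻¹ * g, ?_, by group⟩
    rw [← hker, map_mul, map_inv, map_pow, hi]; simp
  -- the odd part
  let A : Subgroup G :=
    { carrier := {a | a ∈ M ∧ (orderOf a).Coprime p}
      mul_mem' := by
        rintro a c ⟨ha, ha'⟩ ⟨hc, hc'⟩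
        refine ⟨mul_mem ha hc, ?_⟩
        have h1 : Commute a c := hMab a ha c hc
        have h2 := h1.orderOf_mul_dvd_mul_orderOf
        exact Nat.Coprime.coprime_dvd_left h2 (Nat.Coprime.mul_left ha' hc')
      one_mem' := ⟨one_mem _, by simp⟩
      inv_mem' := by
        rintro a ⟨ha, ha'⟩
        exact ⟨inv_mem ha, by rwa [orderOf_inv]⟩ }
  have hAM : A ≤ M := fun a ha => ha.1
  have hAc : ∀ a ∈ A, (orderOf a).Coprime p := fun a ha => ha.2
  have hAn : A.Normal := by
    constructor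
    rintro a ⟨ha, ha'⟩ g
    refine ⟨hMn.conj_mem a ha g, ?_⟩
    rw [Lib.FGSBasic.orderOf_conj]; exact ha'
  haveI := hAn
  have hAp : ¬ p ∣ Nat.card A := by
    intro h
    obtain ⟨a, ha⟩ := exists_prime_orderOf_dvd_card' (G := A) p h
    have h1 := hAc a a.2
    rw [← Subgroup.orderOf_coe] at ha
    rw [ha] at h1
    exact hp.one_lt.ne' (Nat.coprime_self p |>.mp h1)
  have hAab : ∀ a ∈ A, ∀ c ∈ A, a * c = c * a := fun a ha c hc => hMab a (hAM ha) c (hAM hc)
  have hxo : ∀ {e : G}, e ∈ A → ∀ l, e ^ p ^ l = 1 → e = 1 := by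
    intro e he l hl
    have h1 := orderOf_dvd_of_pow_eq_one hl
    have h2 : Nat.Coprime (orderOf e) (p ^ l) := Nat.Coprime.pow_right _ (hAc e he)
    have h3 := Nat.Coprime.eq_one_of_dvd h2 h1
    exact orderOf_eq_one_iff.mp h3
  -- elements have a `p`-power in `A`
  have hpow : ∀ g : G, ∃ l, g ^ p ^ l ∈ A := by
    intro g
    have h1 : g ^ p ∈ M := by
      rw [← hker, map_pow, ← hQcard]
      exact pow_card_eq_one'
    obtain ⟨s, a, hs, ha, hsa, ⟨l, hl⟩, hac⟩ := Lib.FGSBasic.exists_p_decomp p (g ^ p)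
    have hzle : zpowers (g ^ p) ≤ M := (Subgroup.zpowers_le).mpr h1
    have hsM := hzle hs
    have haM := hzle ha
    refine ⟨l + 1, ?_⟩
    have hcomm : Commute s a := hMab s hsM a haM
    have h2 : g ^ p ^ (l + 1) = (g ^ p) ^ p ^ l := by
      rw [← pow_mul, pow_succ']
    rw [h2, ← hsa, hcomm.mul_pow]
    have h3 : s ^ p ^ l = 1 := by rw [← hl]; exact pow_orderOf_eq_one s
    rw [h3, one_mul]
    exact ⟨pow_mem haM _, by
      have h4 : orderOf (a ^ p ^ l) ∣ orderOf a := orderOf_pow_dvd _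
      exact Nat.Coprime.coprime_dvd_left h4 hac⟩
  -- `x` does not centralize `A`
  have hnoncent : ∃ a ∈ A, x * a * x⁻¹ ≠ a := by
    by_contra hcon
    push_neg at hcon
    apply hnn
    have hAc' : A ≤ center G := by
      intro a ha
      rw [Subgroup.mem_center_iff]
      intro g
      obtain ⟨i, m, hm, rfl⟩ := hform g
      have h1 : Commute x a := by
        have := hcon a ha
        rw [mul_inv_eq_iff_eq_mul] at this
        exact this
      have h2 : Commute m a := hMab m hm a (hAM ha)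
      exact (h1.pow_left i).mul_left h2
    have hq : IsPGroup p (G ⧸ center G) := by
      intro y
      obtain ⟨g, rfl⟩ := QuotientGroup.mk'_surjective (center G) y
      obtain ⟨l, hl⟩ := hpow g
      refine ⟨l, ?_⟩
      rw [← map_pow, QuotientGroup.mk'_apply, QuotientGroup.eq_one_iff]
      exact hAc' hl
    haveI := hq.isNilpotent
    exact of_quotient_center_nilpotent this
  -- the commutator map
  have hfixlem : ∀ a ∈ A, x * (a⁻¹ * (x * a * x⁻¹)) * x⁻¹ = a⁻¹ * (x * a * x⁻¹) → a⁻¹ * (x * a * x⁻¹) = 1 := by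
    intro a ha hfe
    set e := a⁻¹ * (x * a * x⁻¹) with he
    have h1 : ∀ i : ℕ, x ^ i * a * (x ^ i)⁻¹ = a * e ^ i := by
      intro i
      induction i with
      | zero => simp
      | succ i ih =>
        have h2 : x ^ (i + 1) * a * (x ^ (i + 1))⁻¹ = x * (x ^ i * a * (x ^ i)⁻¹) * x⁻¹ := by
          rw [pow_succ']; group
        rw [h2, ih]
        have h3 : x * (a * e ^ i) * x⁻¹ = (x * a * x⁻¹) * (x * e ^ i * x⁻¹) := by group
        rw [h3, ← conj_pow, hfe]
        have h4 : x * a * x⁻¹ = a * e := by rw [he]; group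
        rw [h4, pow_succ', mul_assoc]
    have h2 := h1 (p ^ k)
    rw [← hk, pow_orderOf_eq_one] at h2
    have h3 : e ^ orderOf x = 1 := by
      have : a * e ^ orderOf x = a := by rw [← h2]; group
      simpa using this
    rw [hk] at h3
    refine hxo (mul_mem (inv_mem ha) (hAn.conj_mem a ha x)) k h3
  have hx1 : ∀ {i : ℕ}, x ^ i ∈ A → x ^ i = 1 := by
    intro i hi
    have h1 : (x ^ i) ^ p ^ k = 1 := by
      rw [← pow_mul, mul_comm, pow_mul, ← hk, pow_orderOf_eq_one, one_pow]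
    exact hxo hi k h1
  -- `x` acts fixed point freely
  have hcentA : ∀ a ∈ A, x * a * x⁻¹ = a → a ∈ center G := by
    intro a ha hfa
    rw [Subgroup.mem_center_iff]
    intro g
    obtain ⟨i, m, hm, rfl⟩ := hform g
    have h1 : Commute x a := by
      rw [mul_inv_eq_iff_eq_mul] at hfa
      exact hfa
    have h2 : Commute m a := hMab m hm a (hAM ha)
    exact (h1.pow_left i).mul_left h2
  let E : Subgroup G :=
    { carrier := {e | ∃ a ∈ A, e = a⁻¹ * (x * a * x⁻¹)}
      mul_mem' := by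
        rintro _ _ ⟨a, ha, rfl⟩ ⟨c, hc, rfl⟩
        refine ⟨a * c, mul_mem ha hc, ?_⟩
        have h1 : (x * c * x⁻¹) * a = a * (x * c * x⁻¹) := hAab _ (hAn.conj_mem c hc x) a ha
        have h2 : c⁻¹ * a = a * c⁻¹ := hAab _ (inv_mem hc) a ha
        have h3 : (x * a * x⁻¹) * c⁻¹ = c⁻¹ * (x * a * x⁻¹) := hAab _ (hAn.conj_mem a ha x) _ (inv_mem hc)
        calc a⁻¹ * (x * a * x⁻¹) * (c⁻¹ * (x * c * x⁻¹))
            = a⁻¹ * ((x * a * x⁻¹) * c⁻¹) * (x * c * x⁻¹) := by group
          _ = a⁻¹ * (c⁻¹ * (x * a * x⁻¹)) * (x * c * x⁻¹) := by rw [h3]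
          _ = (a⁻¹ * c⁻¹) * ((x * a * x⁻¹) * (x * c * x⁻¹)) := by group
          _ = (c⁻¹ * a⁻¹) * ((x * a * x⁻¹) * (x * c * x⁻¹)) := by
              rw [hAab _ (inv_mem ha) _ (inv_mem hc)]
          _ = _ := by group
      one_mem' := ⟨1, one_mem _, by simp⟩
      inv_mem' := by
        rintro _ ⟨a, ha, rfl⟩
        refine ⟨a⁻¹, inv_mem ha, ?_⟩
        have h1 := hAab _ (hAn.conj_mem a ha x) _ (inv_mem ha)
        calc (a⁻¹ * (x * a * x⁻¹))⁻¹ = (x * a * x⁻¹)⁻¹ * a := by group
          _ = a * (x * a * x⁻¹)⁻¹ := hAab _ (inv_mem (hAn.conj_mem a ha x)) _ ha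
          _ = _ := by group }
  have hEA : E ≤ A := by
    rintro _ ⟨a, ha, rfl⟩
    exact mul_mem (inv_mem ha) (hAn.conj_mem a ha x)
  have hfixE : ∀ e ∈ E, x * e * x⁻¹ = e → e = 1 := by
    rintro _ ⟨a, ha, rfl⟩ hfe
    exact hfixlem a ha hfe
  have hExN : x ∈ normalizer (E : Set G) := by
    rw [Subgroup.mem_normalizer_iff]
    intro e
    constructor
    · rintro ⟨a, ha, rfl⟩
      refine ⟨x * a * x⁻¹, hAn.conj_mem a ha x, ?_⟩
      group
    · rintro ⟨a, ha, he⟩
      refine ⟨x⁻¹ * a * x, ?_, ?_⟩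
      · have := hAn.conj_mem a ha x⁻¹
        simpa using this
      · have h1 : e = x⁻¹ * (a⁻¹ * (x * a * x⁻¹)) * x := by rw [← he]; group
        rw [h1]; group
  obtain ⟨a₀, ha₀, hane⟩ := hnoncent
  have he₀E : a₀⁻¹ * (x * a₀ * x⁻¹) ∈ E := ⟨a₀, ha₀, rfl⟩
  have he₀1 : a₀⁻¹ * (x * a₀ * x⁻¹) ≠ 1 := by
    intro h
    apply hane
    rw [inv_mul_eq_one] at h
    exact h.symm
  have hzleN : zpowers x ≤ normalizer (E : Set G) := (Subgroup.zpowers_le).mpr hExN
  set T₂ := zpowers x ⊔ E with hT₂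
  have hT₂na : ¬ IsMulCommutative T₂ := by
    intro h
    have hxT : x ∈ T₂ := (le_sup_left : zpowers x ≤ T₂) (mem_zpowers x)
    have heT : a₀⁻¹ * (x * a₀ * x⁻¹) ∈ T₂ := (le_sup_right : E ≤ T₂) he₀E
    have := h.is_comm.comm ⟨x, hxT⟩ ⟨_, heT⟩
    have h2 : x * (a₀⁻¹ * (x * a₀ * x⁻¹)) = (a₀⁻¹ * (x * a₀ * x⁻¹)) * x := by
      simpa using congrArg Subtype.val this
    apply he₀1
    apply hfixE _ he₀E
    rw [h2]; group
  have hzx : ∀ {w : G}, w ∈ zpowers x → w ∈ A → w = 1 := by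
    intro w hw hwA
    obtain ⟨i, rfl⟩ : ∃ i : ℕ, x ^ i = w :=
      (Submonoid.mem_powers_iff _ _).mp (mem_powers_iff_mem_zpowers.mpr hw)
    exact hx1 hwA
  have hfpf : ∀ a : G, a ∈ A → a ≠ 1 → x * a * x⁻¹ ≠ a := by
    intro a ha ha1 hfa
    have hac := hcentA a ha hfa
    have haT : a ∈ T₂ := by
      rw [← hS T₂ hT₂na, Subgroup.mem_normalizer_iff]
      intro u
      have : a * u * a⁻¹ = u := by
        rw [← (Subgroup.mem_center_iff.mp hac u)]; group
      rw [this]
    have haT' : a ∈ ((zpowers x ⊔ E : Subgroup G) : Set G) := haT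
    rw [Subgroup.coe_mul_of_left_le_normalizer_right _ _ hzleN, Set.mem_mul] at haT'
    obtain ⟨w, hw, e, he, hwe⟩ := haT'
    have heE : e ∈ E := he
    have hwA : w ∈ A := by
      have : w = a * e⁻¹ := by rw [← hwe]; group
      rw [this]
      exact mul_mem ha (inv_mem (hEA heE))
    have hw1 := hzx hw hwA
    have hae : a = e := by rw [← hwe, hw1, one_mul]
    exact ha1 (hfixE a (hae ▸ heE) hfa)
  -- `⟨x⟩` is a Sylow subgroup
  have hxp : IsPGroup p (zpowers x) := by
    rw [IsPGroup.iff_card, Nat.card_zpowers]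
    exact ⟨k, hk⟩
  obtain ⟨P₀, hP₀⟩ := hxp.exists_le_sylow
  set T := zpowers x ⊔ A with hT
  have hTna : ¬ IsMulCommutative T := by
    intro h
    have hxT : x ∈ T := (le_sup_left : zpowers x ≤ T) (mem_zpowers x)
    have heT : a₀ ∈ T := (le_sup_right : A ≤ T) ha₀
    have := h.is_comm.comm ⟨x, hxT⟩ ⟨_, heT⟩
    have h2 : x * a₀ = a₀ * x := by simpa using congrArg Subtype.val this
    apply hane
    rw [h2]; group
  have hTself := hS T hTna
  have hP₀eq : zpowers x = P₀ := by
    by_contra hne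
    haveI : Group.IsNilpotent (P₀ : Subgroup G) := P₀.isPGroup'.isNilpotent
    have hlt : (zpowers x).subgroupOf (P₀ : Subgroup G) < ⊤ := by
      rw [lt_top_iff_ne_top]
      intro h
      rw [Subgroup.subgroupOf_eq_top] at h
      exact hne (le_antisymm hP₀ h)
    have h2 := normalizerCondition_of_isNilpotent (G := (P₀ : Subgroup G)) _ hlt
    obtain ⟨v, hv, hvn⟩ := SetLike.exists_of_lt h2
    apply hvn
    rw [Subgroup.mem_subgroupOf]
    have h3 := Subgroup.mem_normalizer_iff.mp hv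
    have hvN : (v : G) ∈ normalizer ((zpowers x : Subgroup G) : Set G) := by
      rw [Subgroup.mem_normalizer_iff]
      intro u
      constructor
      · intro hu
        have hup : u ∈ (P₀ : Subgroup G) := hP₀ hu
        have := (h3 ⟨u, hup⟩).mp (Subgroup.mem_subgroupOf.mpr hu)
        simpa [Subgroup.mem_subgroupOf] using this
      · intro hu
        have hup : u ∈ (P₀ : Subgroup G) := by
          have h4 := hP₀ hu
          have h5 := mul_mem (mul_mem (inv_mem v.2) h4) v.2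
          simpa [mul_assoc] using h5
        have := (h3 ⟨u, hup⟩).mpr (Subgroup.mem_subgroupOf.mpr (by simpa using hu))
        simpa [Subgroup.mem_subgroupOf] using this
    have hvT : (v : G) ∈ T := by
      rw [← hTself, Subgroup.mem_normalizer_iff]
      intro u
      have hN := Subgroup.mem_normalizer_iff.mp hvN
      constructor
      · intro hu
        have hu' : u ∈ ((zpowers x ⊔ A : Subgroup G) : Set G) := hu
        rw [Subgroup.mul_normal, Set.mem_mul] at hu'
        obtain ⟨w, hw, a, ha, rfl⟩ := hu'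
        have e : (v : G) * (w * a) * (v : G)⁻¹ = ((v : G) * w * (v : G)⁻¹) * ((v : G) * a * (v : G)⁻¹) := by group
        rw [e]
        exact mul_mem ((le_sup_left : zpowers x ≤ T) ((hN w).mp hw))
          ((le_sup_right : A ≤ T) (hAn.conj_mem a ha v))
      · intro hu
        have hu' : (v : G) * u * (v : G)⁻¹ ∈ ((zpowers x ⊔ A : Subgroup G) : Set G) := hu
        rw [Subgroup.mul_normal, Set.mem_mul] at hu'
        obtain ⟨w, hw, a, ha, hwa⟩ := hu'
        have e : u = ((v : G)⁻¹ * w * (v : G)) * ((v : G)⁻¹ * a * (v : G)) := by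
          have : u = (v : G)⁻¹ * ((v : G) * u * (v : G)⁻¹) * (v : G) := by group
          rw [this, ← hwa]; group
        rw [e]
        refine mul_mem ((le_sup_left : zpowers x ≤ T) ?_) ((le_sup_right : A ≤ T) ?_)
        · rw [hN]
          have : (v : G) * ((v : G)⁻¹ * w * (v : G)) * (v : G)⁻¹ = w := by group
          rw [this]; exact hw
        · have := hAn.conj_mem a ha (v : G)⁻¹
          simpa using this
    have hvT' : (v : G) ∈ ((zpowers x ⊔ A : Subgroup G) : Set G) := hvT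
    rw [Subgroup.mul_normal, Set.mem_mul] at hvT'
    obtain ⟨w, hw, a, ha, hwa⟩ := hvT'
    have haA : a ∈ A := ha
    have haP : a ∈ (P₀ : Subgroup G) := by
      have : a = w⁻¹ * v := by rw [← hwa]; group
      rw [this]
      exact mul_mem (inv_mem (hP₀ hw)) v.2
    obtain ⟨l, hl⟩ := (P₀.isPGroup') ⟨a, haP⟩
    have hl' : a ^ p ^ l = 1 := by simpa using congrArg Subtype.val hl
    have ha1 := hxo haA l hl'
    rw [← hwa, ha1, mul_one]
    exact hw
  -- `T = G`
  have hTtop : T = ⊤ := by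
    have hqA : IsPGroup p (G ⧸ A) := by
      intro y
      obtain ⟨g, rfl⟩ := QuotientGroup.mk'_surjective A y
      obtain ⟨l, hl⟩ := hpow g
      refine ⟨l, ?_⟩
      rw [← map_pow, QuotientGroup.mk'_apply, QuotientGroup.eq_one_iff]
      exact hl
    obtain ⟨l, hl⟩ := IsPGroup.iff_card.mp hqA
    have h1 : T.index ∣ A.index := Subgroup.index_dvd_of_le (le_sup_right : A ≤ T)
    have h2 : T.index ∣ (P₀ : Subgroup G).index := Subgroup.index_dvd_of_le (by
      rw [← hP₀eq]; exact le_sup_left)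
    have h3 : A.index = p ^ l := hl
    rw [h3] at h1
    obtain ⟨j, -, hj⟩ := (Nat.dvd_prime_pow hp).mp h1
    have hj0 : j = 0 := by
      by_contra hj0
      apply P₀.not_dvd_index
      exact (dvd_pow_self p hj0).trans (hj ▸ h2)
    rw [hj0, pow_zero] at hj
    exact Subgroup.index_eq_one.mp hj
  refine ⟨x, A, p, hp, hAn, ⟨⟨fun u v => Subtype.ext (hAab _ u.2 _ v.2)⟩⟩, ⟨k, hk⟩, hAp, ?_, ?_, hfpf⟩
  · apply Subgroup.isComplement'_of_disjoint_and_mul_eq_univ
    · rw [Subgroup.disjoint_def]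
      intro w h1 h2
      exact hzx h1 h2
    · rw [← Subgroup.mul_normal, ← hT, hTtop]
      rfl
  · have hxpM : x ^ p ∈ M := by
      rw [← hker, map_pow, ← hQcard]
      exact pow_card_eq_one'
    rw [Subgroup.mem_center_iff]
    intro g
    have hg : g ∈ ((zpowers x ⊔ A : Subgroup G) : Set G) := by
      rw [← hT, hTtop]; trivial
    rw [Subgroup.mul_normal, Set.mem_mul] at hg
    obtain ⟨w, hw, a, ha, rfl⟩ := hg
    obtain ⟨i, rfl⟩ := mem_zpowers_iff.mp hw
    have h1 : Commute (x ^ i) (x ^ p) := (Commute.refl x).zpow_left i |>.pow_right p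
    have h2 : Commute a (x ^ p) := hMab a (hAM ha) _ hxpM
    exact h1.mul_left h2

/-- backward direction -/
theorem backward (x : G) (A : Subgroup G) (p : ℕ) (hp : p.Prime) (hAn : A.Normal)
    (hAab : IsMulCommutative A) (hk : ∃ k : ℕ, orderOf x = p ^ k)
    (hc : (Subgroup.zpowers x).IsComplement' A) (hxc : x ^ p ∈ Subgroup.center G)
    (hfpf : ∀ a : G, a ∈ A → a ≠ 1 → x * a * x⁻¹ ≠ a)
    (H : Subgroup G) (hH : ¬ IsMulCommutative H) : normalizer (H : Set G) = H := by
  classical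
  haveI := hAn
  obtain ⟨k, hk⟩ := hk
  have hAc : ∀ a ∈ A, ∀ c ∈ A, a * c = c * a := by
    intro a ha c hc
    have := hAab.is_comm.comm ⟨a, ha⟩ ⟨c, hc⟩
    simpa using congrArg Subtype.val this
  have hform : ∀ g : G, ∃ i : ℕ, ∃ a ∈ A, g = x ^ i * a := by
    intro g
    have hg : g ∈ ((zpowers x ⊔ A : Subgroup G) : Set G) := by
      rw [hc.sup_eq_top]; trivial
    rw [Subgroup.mul_normal, Set.mem_mul] at hg
    obtain ⟨w, hw, a, ha, rfl⟩ := hg
    obtain ⟨i, rfl⟩ : ∃ i : ℕ, x ^ i = w :=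
      (Submonoid.mem_powers_iff _ _).mp (mem_powers_iff_mem_zpowers.mpr hw)
    exact ⟨i, a, ha, rfl⟩
  have hxpc : ∀ g, g * x ^ p = x ^ p * g := fun g => Subgroup.mem_center_iff.mp hxc g
  -- an element of `H` not of the form `x^(pt) a`
  obtain ⟨y, hyH, hy⟩ : ∃ y ∈ H, ¬ ∃ t : ℕ, ∃ a ∈ A, y = x ^ (p * t) * a := by
    by_contra hcon
    push_neg at hcon
    apply hH
    refine ⟨⟨fun u v => Subtype.ext ?_⟩⟩
    obtain ⟨t, a, ha, hta⟩ := hcon u u.2
    obtain ⟨s, c, hc', hsc⟩ := hcon v v.2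
    show (u : G) * v = v * u
    rw [hta, hsc]
    have h1 : Commute (x ^ (p * t)) (x ^ (p * s)) := Commute.pow_pow_self x _ _
    have h2 : ∀ (g : G) (l : ℕ), Commute g (x ^ (p * l)) := by
      intro g l
      rw [pow_mul]
      exact (show Commute g (x ^ p) from hxpc g).pow_right l
    have h3 : Commute a c := hAc a ha c hc'
    exact ((h1.mul_right (h2 c t).symm).mul_left ((h2 a s).mul_right h3))
  obtain ⟨i, a₀, ha₀, hya⟩ := hform y
  have hpi : ¬ p ∣ i := by
    rintro ⟨t, rfl⟩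
    exact hy ⟨t, a₀, ha₀, hya⟩
  -- `x` is a power of `x^i`
  have hxpow : ∃ j : ℕ, (x ^ i) ^ j = x := by
    by_cases hk0 : k = 0
    · subst hk0
      have : x = 1 := orderOf_eq_one_iff.mp (by simpa using hk)
      exact ⟨1, by simp [this]⟩
    · have hcop : Nat.Coprime i (p ^ k) :=
        Nat.Coprime.pow_right _ (((Nat.Prime.coprime_iff_not_dvd hp).mpr hpi).symm)
      obtain ⟨j, hj⟩ := Nat.exists_mul_mod_eq_one_of_coprime hcop (Nat.one_lt_pow hk0 hp.one_lt)
      refine ⟨j, ?_⟩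
      rw [← pow_mul, pow_eq_pow_mod _ (show x ^ p ^ k = 1 by rw [← hk]; exact pow_orderOf_eq_one x), hj.2, pow_one]
  obtain ⟨j, hj⟩ := hxpow
  have hconjy : ∀ b ∈ A, y * b * y⁻¹ = x ^ i * b * (x ^ i)⁻¹ := by
    intro b hb
    rw [hya]
    have : x ^ i * a₀ * b * (x ^ i * a₀)⁻¹ = x ^ i * (a₀ * b * a₀⁻¹) * (x ^ i)⁻¹ := by group
    rw [this, hAc a₀ ha₀ b hb]
    group
  have hfpfy : ∀ b ∈ A, y * b * y⁻¹ = b → b = 1 := by
    intro b hb hfb
    by_contra hb1
    apply hfpf b hb hb1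
    rw [hconjy b hb, mul_inv_eq_iff_eq_mul] at hfb
    have h1 : Commute (x ^ i) b := hfb
    have h2 : Commute x b := by rw [← hj]; exact h1.pow_left j
    rw [h2.eq]; group
  -- every element is `y^t a`
  have hform2 : ∀ g : G, ∃ t : ℕ, ∃ a ∈ A, g = y ^ t * a := by
    intro g
    obtain ⟨l, a, ha, rfl⟩ := hform g
    let π := QuotientGroup.mk' A
    have h1 : π (x ^ i) = π y := by
      rw [hya, map_mul]
      have : π a₀ = 1 := by
        rw [QuotientGroup.mk'_apply, QuotientGroup.eq_one_iff]; exact ha₀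
      rw [this, mul_one]
    have h2 : π x = (π y) ^ j := by
      rw [← hj, map_pow, h1]
    refine ⟨j * l, (y ^ (j * l))⁻¹ * (x ^ l * a), ?_, by group⟩
    have h3 : π ((y ^ (j * l))⁻¹ * (x ^ l * a)) = 1 := by
      have h4 : π a = 1 := by
        rw [QuotientGroup.mk'_apply, QuotientGroup.eq_one_iff]; exact ha
      rw [map_mul, map_mul, map_inv, map_pow, map_pow, h2, h4, mul_one, pow_mul]
      simp
    rwa [QuotientGroup.mk'_apply, QuotientGroup.eq_one_iff] at h3
  apply le_antisymm _ Subgroup.le_normalizer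
  intro g hg
  obtain ⟨t, a, ha, rfl⟩ := hform2 g
  have hytH : y ^ t ∈ H := pow_mem hyH t
  have haN : a ∈ normalizer (H : Set G) := by
    have h1 : y ^ t ∈ normalizer (H : Set G) := Subgroup.le_normalizer hytH
    have := mul_mem (inv_mem h1) hg
    simpa using this
  refine mul_mem hytH ?_
  -- the map `ψ`
  set ψ : G → G := fun u => u⁻¹ * (y * u * y⁻¹) with hψ
  have hψinj : ∀ u ∈ A, ∀ v ∈ A, ψ u = ψ v → u = v := by
    intro u hu v hv h
    have hw : y * (v * u⁻¹) * y⁻¹ = v * u⁻¹ := by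
      have h1 : u⁻¹ * (y * u * y⁻¹) = v⁻¹ * (y * v * y⁻¹) := h
      have h2 : y * u * y⁻¹ ∈ A := hAn.conj_mem u hu y
      have h3 : y * v * y⁻¹ ∈ A := hAn.conj_mem v hv y
      have e1 : y * (v * u⁻¹) * y⁻¹ = (y * v * y⁻¹) * (y * u * y⁻¹)⁻¹ := by group
      rw [e1]
      have e2 : y * v * y⁻¹ = v * (u⁻¹ * (y * u * y⁻¹)) := by
        rw [h1]; group
      rw [e2]
      group
    have := hfpfy _ (mul_mem hv (inv_mem hu)) hw
    rw [mul_inv_eq_one] at this
    exact this.symm
  have hψH : ∀ u ∈ H ⊓ A, ψ u ∈ H ⊓ A := by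
    intro u hu
    obtain ⟨hu1, hu2⟩ := Subgroup.mem_inf.mp hu
    refine Subgroup.mem_inf.mpr ⟨mul_mem (inv_mem hu1) (mul_mem (mul_mem hyH hu1) (inv_mem hyH)), ?_⟩
    exact mul_mem (inv_mem hu2) (hAn.conj_mem u hu2 y)
  let f : (H ⊓ A : Subgroup G) → (H ⊓ A : Subgroup G) := fun u => ⟨ψ u, hψH u u.2⟩
  have hfinj : Function.Injective f := by
    intro u v h
    apply Subtype.ext
    exact hψinj _ (Subgroup.mem_inf.mp u.2).2 _ (Subgroup.mem_inf.mp v.2).2 (congrArg Subtype.val h)
  have hfsurj := Finite.injective_iff_surjective.mp hfinj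
  have hψa : ψ a ∈ H ⊓ A := by
    refine Subgroup.mem_inf.mpr ⟨?_, mul_mem (inv_mem ha) (hAn.conj_mem a ha y)⟩
    -- `a⁻¹ y a` is in `H`
    have h1 : a⁻¹ * y * a ∈ H := by
      have := (Subgroup.mem_normalizer_iff.mp (inv_mem haN) y).mp hyH
      simpa using this
    have h2 : ψ a = (a⁻¹ * y * a) * y⁻¹ := by
      simp only [hψ]; group
    rw [h2]
    exact mul_mem h1 (inv_mem hyH)
  obtain ⟨c, hc'⟩ := hfsurj ⟨ψ a, hψa⟩
  have hc2 : ψ (c : G) = ψ a := congrArg Subtype.val hc'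
  have := hψinj _ (Subgroup.mem_inf.mp c.2).2 _ ha hc2
  rw [← this]
  exact (Subgroup.mem_inf.mp c.2).1

end

/-- Let G be a finite solvable non-nilpotent group. Every non-abelian subgroup of G is self-normalizing if and only if G is a semidirect product ⟨x⟩ ⋉ A in which ⟨x⟩ is a p-group for some prime p, A is a normal abelian subgroup of order prime to p, x^p is central in G, and x acts fixed-point-freely on A (no non-identity element of A commutes with x). -/
theorem result {G : Type*} [Group G] [Finite G]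
    [Group.IsSolvable G] (hnn : ¬ Group.IsNilpotent G) :
    (∀ H : Subgroup G, ¬ IsMulCommutative H → Subgroup.normalizer (H : Set G) = H) ↔
    ∃ (x : G) (A : Subgroup G) (p : ℕ), p.Prime ∧ A.Normal ∧ IsMulCommutative A ∧ (∃ k : ℕ, orderOf x = p ^ k) ∧
      ¬ p ∣ Nat.card A ∧ (Subgroup.zpowers x).IsComplement' A ∧ x ^ p ∈ Subgroup.center G ∧
      ∀ a : G, a ∈ A → a ≠ 1 → x * a * x⁻¹ ≠ a := by
  constructor
  · exact forward hnn
  · rintro ⟨x, A, p, hp, hAn, hAab, hk, -, hc, hxc, hfpf⟩ H hH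
    exact backward x A p hp hAn hAab hk hc hxc hfpf H hH

end Cfsg.Agent.S4071
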