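import Cfsg.Statements.S4074
import Mathlib
import Cfsg.Agent.Lib.DihSub
-- import your own Cfsg.Agent.* helpers here

set_option autoImplicit false
open Cfsg

namespace Cfsg.Agent.S4074

open DihedralGroup

/-- For n > 2, every non-abelian subgroup of the dihedral group of order 2n is self-normalizing if and only if n = 4 or n is odd. -/
theorem result (n : ℕ) (hn : 2 < n) :
    (∀ H : Subgroup (DihedralGroup n), ¬ IsMulCommutative H → Subgroup.normalizer (H : Set (DihedralGroup n)) = H) ↔
    (n = 4 ∨ Odd n) := by
  classical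
  constructor
  · intro h
    by_contra hcon
    push Not at hcon
    obtain ⟨h4, hodd⟩ := hcon
    have heven : 2 ∣ n := by
      rw [← even_iff_two_dvd]
      exact Nat.not_odd_iff_even.mp hodd
    have hnc : ¬ n ∣ 2 * 2 := by
      intro hd
      have h5 := Nat.le_of_dvd (by norm_num) hd
      obtain ⟨m, rfl⟩ := heven
      have hm : m = 2 := by omega
      exact h4 (by omega)
    have hnorm := h _ (Lib.DihSub.Hd_not_comm 2 heven hnc)
    have hr1 : (r (1 : ZMod n) : DihedralGroup n) ∈ Subgroup.normalizer ((Lib.DihSub.Hd 2 heven : Subgroup (DihedralGroup n)) : Set (DihedralGroup n)) := by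
      rw [Subgroup.mem_normalizer_iff]
      have hmain : ∀ (x : DihedralGroup n), x ∈ Lib.DihSub.Hd 2 heven → r (1 : ZMod n) * x * (r (1 : ZMod n))⁻¹ ∈ Lib.DihSub.Hd 2 heven := by
        rintro (a | a) ha
        · rw [inv_r, r_mul_r, r_mul_r]
          rw [Lib.DihSub.mem_Hd_r] at ha ⊢
          have : (1 : ZMod n) + a + -1 = a := by ring
          rwa [this]
        · rw [inv_r, r_mul_sr, sr_mul_r]
          rw [Lib.DihSub.mem_Hd_sr] at ha ⊢
          have h2 : ZMod.castHom heven (ZMod 2) (2 : ZMod n) = 0 := by
            have : (2 : ZMod n) = ((2 : ℕ) : ZMod n) := by norm_cast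
            rw [this, map_natCast]
            exact ZMod.natCast_self 2
          have h3 : a - 1 + -1 = a - 2 := by ring
          rw [h3, map_sub, ha, h2, sub_zero]
      intro x
      refine ⟨hmain x, fun hx => ?_⟩
      -- the opposite inclusion, with `r (-1)`
      have hinv : ∀ (y : DihedralGroup n), y ∈ Lib.DihSub.Hd 2 heven → (r (1 : ZMod n))⁻¹ * y * r (1 : ZMod n) ∈ Lib.DihSub.Hd 2 heven := by
        rintro (a | a) ha
        · rw [inv_r, r_mul_r, r_mul_r]
          rw [Lib.DihSub.mem_Hd_r] at ha ⊢
          have : -(1 : ZMod n) + a + 1 = a := by ring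
          rwa [this]
        · rw [inv_r, r_mul_sr, sr_mul_r]
          rw [Lib.DihSub.mem_Hd_sr] at ha ⊢
          have h2 : ZMod.castHom heven (ZMod 2) (2 : ZMod n) = 0 := by
            have : (2 : ZMod n) = ((2 : ℕ) : ZMod n) := by norm_cast
            rw [this, map_natCast]
            exact ZMod.natCast_self 2
          have h3 : a - -1 + 1 = a + 2 := by ring
          rw [h3, map_add, ha, h2, add_zero]
      have h5 := hinv _ hx
      have h6 : (r (1 : ZMod n))⁻¹ * (r (1 : ZMod n) * x * (r (1 : ZMod n))⁻¹) * r (1 : ZMod n) = x := by group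
      rwa [h6] at h5
    rw [hnorm] at hr1
    have h7 : ZMod.castHom heven (ZMod 2) (1 : ZMod n) = 0 := hr1
    rw [map_one] at h7
    exact one_ne_zero h7
  · rintro (rfl | hodd) H hna
    · -- `n = 4`: a non-abelian subgroup is everything
      have hcard : Nat.card (DihedralGroup 4) = 2 ^ 3 := by rw [nat_card]; norm_num
      have hHd : Nat.card H ∣ 2 ^ 3 := by rw [← hcard]; exact Subgroup.card_subgroup_dvd_card H
      obtain ⟨k, hk, hHk⟩ := (Nat.dvd_prime_pow Nat.prime_two).mp hHd
      have hk3 : k = 3 := by
        by_contra hne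
        apply hna
        have hk' : k = 0 ∨ k = 1 ∨ k = 2 := by omega
        rcases hk' with rfl | rfl | rfl
        · have h4 : Subsingleton H := (Nat.card_eq_one_iff_unique.mp (by simpa using hHk)).1
          exact ⟨⟨fun a b => Subsingleton.elim _ _⟩⟩
        · haveI : Fact (Nat.card H).Prime := ⟨by rw [hHk, pow_one]; exact Nat.prime_two⟩
          haveI : IsCyclic H := isCyclic_of_prime_card rfl
          exact ⟨⟨(IsCyclic.commGroup (α := H)).mul_comm⟩⟩
        · haveI : Fact (Nat.Prime 2) := ⟨Nat.prime_two⟩
          exact IsPGroup.isMulCommutative_of_card_eq_prime_sq hHk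
      subst hk3
      have hHt : H = ⊤ := by
        apply Subgroup.eq_top_of_card_eq
        rw [hHk, hcard]
      subst hHt
      exact Subgroup.normalizer_eq_top_iff.mpr inferInstance
    · apply le_antisymm _ Subgroup.le_normalizer
      obtain ⟨c, hc⟩ := Lib.DihSub.exists_sr_of_not_comm H hna
      intro x hx
      exact Lib.DihSub.mem_of_norm_odd hodd H c hc x hx

end Cfsg.Agent.S4074
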