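import Cfsg.Statements.S4080
import Mathlib
-- import your own Cfsg.Agent.* helpers here

set_option autoImplicit false
open Cfsg

namespace Cfsg.Agent.S4080

theorem two_by_two {F : Type*} [Field F] (N : Matrix (Fin 2) (Fin 2) F) (q : ℕ) (hq : 0 < q) (hN : N ^ q = 0) :
    N ^ 2 = 0 := by
  have hd : N.det = 0 := by
    have h1 : (N ^ q).det = 0 := by rw [hN]; simp
    rw [Matrix.det_pow] at h1
    exact pow_eq_zero_iff hq.ne' |>.mp h1
  have hCH : N ^ 2 = N.trace • N := by
    rw [Matrix.det_fin_two] at hd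
    ext i j
    fin_cases i <;> fin_cases j <;>
      simp [sq, Matrix.mul_apply, Fin.sum_univ_two, Matrix.trace_fin_two] <;>
      first | (ring; done) | linear_combination (-1 : F) * hd | linear_combination hd
  have hpow : ∀ j : ℕ, N ^ (j + 1) = N.trace ^ j • N := by
    intro j
    induction j with
    | zero => simp
    | succ j ih =>
      rw [pow_succ, ih, smul_mul_assoc, ← sq, hCH, smul_smul, pow_succ]
  obtain ⟨r, rfl⟩ : ∃ r, q = r + 1 := ⟨q - 1, by omega⟩
  rw [hpow] at hN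
  rcases smul_eq_zero.mp hN with h | h
  · have ht : N.trace = 0 := by
      by_contra hne
      exact (pow_ne_zero r hne) h
    rw [hCH, ht, zero_smul]
  · rw [h]; simp

theorem key {p : ℕ} [Fact p.Prime] (hp : 3 < p) (M : Matrix (Fin 2) (Fin 2) (ZMod (p ^ 2))) (hM : M ^ p = 1) :
    (M - 1) * ((p : ℕ) : Matrix (Fin 2) (Fin 2) (ZMod (p ^ 2))) = 0 := by
  classical
  have hpp : p.Prime := Fact.out
  set N := M - 1 with hN
  have hMN : M = N + 1 := by rw [hN]; abel
  have hdvd : p ∣ p ^ 2 := dvd_pow_self p two_ne_zero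
  let c : ZMod (p ^ 2) →+* ZMod p := ZMod.castHom hdvd (ZMod p)
  let φ : Matrix (Fin 2) (Fin 2) (ZMod (p ^ 2)) →+* Matrix (Fin 2) (Fin 2) (ZMod p) := c.mapMatrix
  have hNbar : (φ N) ^ p = 0 := by
    have h1 : (φ N + 1) ^ p = 1 := by
      rw [← map_one φ, ← map_add, ← map_pow, ← hMN, hM]
    rw [add_pow_char_of_commute p (Commute.one_right (φ N)), one_pow] at h1
    exact add_eq_right.mp h1
  have hN2 : (φ N) ^ 2 = 0 := two_by_two _ p hpp.pos hNbar
  have hdiv : ∀ e : ZMod (p ^ 2), c e = 0 → ∃ t : ZMod (p ^ 2), e = (p : ZMod (p ^ 2)) * t := by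
    intro e he
    haveI : NeZero (p ^ 2) := ⟨pow_ne_zero _ hpp.ne_zero⟩
    have h1 : ((e.val : ℕ) : ZMod (p ^ 2)) = e := ZMod.natCast_zmod_val e
    rw [← h1, map_natCast, ZMod.natCast_eq_zero_iff] at he
    obtain ⟨t, ht⟩ := he
    refine ⟨(t : ZMod (p ^ 2)), ?_⟩
    rw [← h1, ht]
    push_cast
    rfl
  obtain ⟨K, hK⟩ : ∃ K : Matrix (Fin 2) (Fin 2) (ZMod (p ^ 2)), N ^ 2 = (p : ZMod (p ^ 2)) • K := by
    have h2 : ∀ i j, c ((N ^ 2) i j) = 0 := by
      intro i j
      have h3 := congrFun (congrFun hN2 i) j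
      rw [← map_pow] at h3
      exact h3
    choose t ht using fun i j => hdiv _ (h2 i j)
    exact ⟨Matrix.of t, by
      ext i j
      rw [Matrix.smul_apply, ht i j]
      rfl⟩
  have hpp2 : (p : ZMod (p ^ 2)) * (p : ZMod (p ^ 2)) = 0 := by
    rw [← Nat.cast_mul, ← sq]
    exact ZMod.natCast_self _
  have hN4 : N ^ 4 = 0 := by
    rw [show (4 : ℕ) = 2 + 2 from rfl, pow_add, hK, smul_mul_smul_comm, hpp2, zero_smul]
  have hterm : ∀ m ∈ Finset.range (p + 1), m ∉ Finset.range 2 →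
      N ^ m * 1 ^ (p - m) * ((p.choose m : ℕ) : Matrix (Fin 2) (Fin 2) (ZMod (p ^ 2))) = 0 := by
    intro m hm hm2
    simp only [Finset.mem_range, not_lt] at hm hm2
    rw [one_pow, mul_one]
    by_cases hmp : m = p
    · have hm4 : N ^ m = 0 := by
        have h4 : m = 4 + (m - 4) := by omega
        calc N ^ m = N ^ (4 + (m - 4)) := congrArg (N ^ ·) h4
          _ = 0 := by rw [pow_add, hN4, zero_mul]
      rw [hm4, zero_mul]
    · have hd : p ∣ p.choose m := hpp.dvd_choose_self (by omega) (by omega)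
      obtain ⟨r, hr⟩ := hd
      rw [show N ^ m = N ^ 2 * N ^ (m - 2) by rw [← pow_add]; congr 1; omega, hK, hr, ← nsmul_eq_mul',
        smul_mul_assoc, ← Nat.cast_smul_eq_nsmul (ZMod (p ^ 2)), smul_smul]
      have h3 : (((p * r : ℕ) : ZMod (p ^ 2)) * (p : ZMod (p ^ 2))) = 0 := by
        push_cast
        rw [mul_comm (p : ZMod (p ^ 2)) (r : ZMod (p ^ 2)), mul_assoc, hpp2, mul_zero]
      rw [h3, zero_smul]
  have hexp := (Commute.one_right N).add_pow p
  rw [← Finset.sum_subset (Finset.range_subset_range.mpr (by omega : 2 ≤ p + 1)) hterm,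
    Finset.sum_range_succ, Finset.sum_range_one] at hexp
  rw [← hMN, hM] at hexp
  simp only [pow_zero, one_pow, mul_one, one_mul, Nat.choose_zero_right, Nat.cast_one, pow_one,
    Nat.choose_one_right] at hexp
  exact (add_eq_left.mp hexp.symm)

theorem small {p : ℕ} [Fact p.Prime] (u : ZMod (p ^ 2)) (hu : (p : ZMod (p ^ 2)) * u = 0) :
    ∃ t : ZMod (p ^ 2), u = (p : ZMod (p ^ 2)) * t := by
  have hpp : p.Prime := Fact.out
  haveI : NeZero (p ^ 2) := ⟨pow_ne_zero _ hpp.ne_zero⟩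
  have h1 : ((u.val : ℕ) : ZMod (p ^ 2)) = u := ZMod.natCast_zmod_val u
  rw [← h1, ← Nat.cast_mul, ZMod.natCast_eq_zero_iff] at hu
  have hu2 : p * p ∣ p * u.val := by rw [← sq]; exact hu
  have h2 : p ∣ u.val := Nat.dvd_of_mul_dvd_mul_left hpp.pos hu2
  obtain ⟨t, ht⟩ := h2
  refine ⟨(t : ZMod (p ^ 2)), ?_⟩
  rw [← h1, ht]
  push_cast
  rfl

/-- Let p > 3 be a prime and L the direct product of two cyclic groups of order p². Every automorphism of L of order p fixes every element of order p of L. -/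
theorem result {p : ℕ} [Fact p.Prime] (hp : 3 < p)
    (a : MulAut (Multiplicative (ZMod (p ^ 2) × ZMod (p ^ 2)))) (ha : orderOf a = p)
    (x : Multiplicative (ZMod (p ^ 2) × ZMod (p ^ 2))) (hx : orderOf x = p) : a x = x := by
  classical
  have hpp : p.Prime := Fact.out
  haveI : NeZero (p ^ 2) := ⟨pow_ne_zero _ hpp.ne_zero⟩
  let F : ZMod (p ^ 2) × ZMod (p ^ 2) → ZMod (p ^ 2) × ZMod (p ^ 2) :=
    fun v => Multiplicative.toAdd (a (Multiplicative.ofAdd v))
  have hFadd : ∀ v w, F (v + w) = F v + F w := by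
    intro v w
    show Multiplicative.toAdd (a (Multiplicative.ofAdd (v + w))) = _
    rw [ofAdd_add, map_mul, toAdd_mul]
  have hFzero : F 0 = 0 := by
    show Multiplicative.toAdd (a (Multiplicative.ofAdd 0)) = 0
    rw [ofAdd_zero, map_one, toAdd_one]
  have hFn : ∀ (n : ℕ) v, F (n • v) = n • F v := by
    intro n v
    induction n with
    | zero => simp [hFzero]
    | succ n ih => rw [succ_nsmul, hFadd, ih, succ_nsmul]
  let M : Matrix (Fin 2) (Fin 2) (ZMod (p ^ 2)) :=
    !![(F (1, 0)).1, (F (0, 1)).1; (F (1, 0)).2, (F (0, 1)).2]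
  have hF : ∀ u w : ZMod (p ^ 2), F (u, w) = (M 0 0 * u + M 0 1 * w, M 1 0 * u + M 1 1 * w) := by
    intro u w
    have h1 : (u, w) = u.val • ((1 : ZMod (p ^ 2)), (0 : ZMod (p ^ 2))) + w.val • ((0 : ZMod (p ^ 2)), (1 : ZMod (p ^ 2))) := by
      ext
      · simp [ZMod.natCast_zmod_val]
      · simp [ZMod.natCast_zmod_val]
    rw [h1, hFadd, hFn, hFn]
    ext
    · simp [M, ZMod.natCast_zmod_val, mul_comm]
    · simp [M, ZMod.natCast_zmod_val, mul_comm]
  have hFM : ∀ v, ![(F v).1, (F v).2] = M.mulVec ![v.1, v.2] := by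
    rintro ⟨u, w⟩
    rw [hF]
    ext i
    fin_cases i
    · simp [Matrix.mulVec, dotProduct, Fin.sum_univ_two]
    · simp [Matrix.mulVec, dotProduct, Fin.sum_univ_two]
  have hpow : ∀ (j : ℕ) (v : ZMod (p ^ 2) × ZMod (p ^ 2)),
      ![(Multiplicative.toAdd ((a ^ j) (Multiplicative.ofAdd v))).1, (Multiplicative.toAdd ((a ^ j) (Multiplicative.ofAdd v))).2]
        = (M ^ j).mulVec ![v.1, v.2] := by
    intro j v
    induction j with
    | zero =>
      simp only [pow_zero, MulAut.one_apply, toAdd_ofAdd, Matrix.one_mulVec]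
    | succ j ih =>
      rw [pow_succ' a j, MulAut.mul_apply, pow_succ' M j, ← Matrix.mulVec_mulVec, ← ih]
      exact hFM _
  have hap : a ^ p = 1 := by
    have h0 := pow_orderOf_eq_one a
    rwa [ha] at h0
  have hMp : M ^ p = 1 := by
    have h0 := hpow p ((1 : ZMod (p ^ 2)), (0 : ZMod (p ^ 2)))
    have h1 := hpow p ((0 : ZMod (p ^ 2)), (1 : ZMod (p ^ 2)))
    rw [hap] at h0 h1
    simp only [MulAut.one_apply, toAdd_ofAdd] at h0 h1
    ext i j
    fin_cases j
    · have h2 := congrFun h0 i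
      fin_cases i <;> simp [Matrix.mulVec, dotProduct, Fin.sum_univ_two] at h2 ⊢ <;> first | exact h2.symm | exact h2
    · have h2 := congrFun h1 i
      fin_cases i <;> simp [Matrix.mulVec, dotProduct, Fin.sum_univ_two] at h2 ⊢ <;> first | exact h2.symm | exact h2
  have hkey := key hp M hMp
  have hkey' : ∀ i j, (p : ZMod (p ^ 2)) * (M - 1) i j = 0 := by
    intro i j
    rw [← nsmul_eq_mul'] at hkey
    have h2 := congrFun (congrFun hkey i) j
    simp only [Matrix.smul_apply, Matrix.zero_apply, nsmul_eq_mul] at h2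
    exact h2
  have h00 : M 0 0 * (p : ZMod (p ^ 2)) = p := by
    have := hkey' 0 0
    simp only [Matrix.sub_apply, Matrix.one_apply_eq] at this
    linear_combination this
  have h11 : M 1 1 * (p : ZMod (p ^ 2)) = p := by
    have := hkey' 1 1
    simp only [Matrix.sub_apply, Matrix.one_apply_eq] at this
    linear_combination this
  have h01 : M 0 1 * (p : ZMod (p ^ 2)) = 0 := by
    have := hkey' 0 1
    simp only [Matrix.sub_apply, Matrix.one_apply_ne (by decide : (0 : Fin 2) ≠ 1), sub_zero] at this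
    linear_combination this
  have h10 : M 1 0 * (p : ZMod (p ^ 2)) = 0 := by
    have := hkey' 1 0
    simp only [Matrix.sub_apply, Matrix.one_apply_ne (by decide : (1 : Fin 2) ≠ 0), sub_zero] at this
    linear_combination this
  -- the element
  obtain ⟨u, w, rfl⟩ : ∃ u w, x = Multiplicative.ofAdd ((u, w) : ZMod (p ^ 2) × ZMod (p ^ 2)) :=
    ⟨(Multiplicative.toAdd x).1, (Multiplicative.toAdd x).2, rfl⟩
  have hv : p • ((u, w) : ZMod (p ^ 2) × ZMod (p ^ 2)) = 0 := by
    have h1 := pow_orderOf_eq_one (Multiplicative.ofAdd ((u, w) : ZMod (p ^ 2) × ZMod (p ^ 2)))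
    rw [hx, ← ofAdd_nsmul] at h1
    exact Multiplicative.ofAdd.injective h1
  have hu : (p : ZMod (p ^ 2)) * u = 0 := by
    have h1 := congrArg Prod.fst hv
    simpa [nsmul_eq_mul] using h1
  have hw : (p : ZMod (p ^ 2)) * w = 0 := by
    have h1 := congrArg Prod.snd hv
    simpa [nsmul_eq_mul] using h1
  obtain ⟨s, rfl⟩ := small u hu
  obtain ⟨t, rfl⟩ := small w hw
  show Multiplicative.ofAdd (F _) = _
  rw [hF]
  congr 2
  · linear_combination s * h00 + t * h01
  · linear_combination s * h10 + t * h11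

end Cfsg.Agent.S4080
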