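import Cfsg.Statements.S4084
import Mathlib
-- import your own Cfsg.Agent.* helpers here

set_option autoImplicit false
open Cfsg

namespace Cfsg.Agent.S4084

theorem one_dir {G H : Type*} [Group G] [Finite G] [Group H] [Finite H] (e : G ≃ H)
    (he : ∀ x y : G, Commute x y ↔ Commute (e x) (e y))
    {p q : ℕ} (hp : p.Prime) (hq : q.Prime) (hpq : p ≠ q) (g : G) (hg : orderOf g = p * q) :
    ∃ h : H, orderOf h = p * q := by
  classical
  haveI : Fact p.Prime := ⟨hp⟩
  haveI : Fact q.Prime := ⟨hq⟩
  let A : Subgroup G := Subgroup.centralizer (Subgroup.centralizer ({g} : Set G) : Set G)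
  let B : Subgroup H := Subgroup.centralizer (Subgroup.centralizer ({e g} : Set H) : Set H)
  have hcard : Nat.card A = Nat.card B := by
    refine Nat.card_congr (e.subtypeEquiv ?_)
    intro z
    constructor
    · intro hz
      rw [Subgroup.mem_centralizer_iff]
      intro v hv
      obtain ⟨u, rfl⟩ := e.surjective v
      have h1 : Commute (e u) (e g) := Subgroup.mem_centralizer_singleton_iff.mp hv
      have h2 : u ∈ Subgroup.centralizer ({g} : Set G) :=
        Subgroup.mem_centralizer_singleton_iff.mpr ((he u g).mpr h1)
      have h3 : Commute u z := (Subgroup.mem_centralizer_iff.mp hz) u h2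
      exact (he u z).mp h3
    · intro hz
      rw [Subgroup.mem_centralizer_iff]
      intro u hu
      have h1 : Commute u g := Subgroup.mem_centralizer_singleton_iff.mp hu
      have h2 : e u ∈ Subgroup.centralizer ({e g} : Set H) :=
        Subgroup.mem_centralizer_singleton_iff.mpr ((he u g).mp h1)
      have h3 : Commute (e u) (e z) := (Subgroup.mem_centralizer_iff.mp hz) (e u) h2
      exact (he u z).mpr h3
  have hgA : g ∈ A := by
    rw [Subgroup.mem_centralizer_iff]
    intro u hu
    exact Subgroup.mem_centralizer_singleton_iff.mp hu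
  have hdvd : p * q ∣ Nat.card B := by
    rw [← hcard, ← hg]
    have := Subgroup.orderOf_dvd_natCard A hgA
    exact this
  obtain ⟨a, ha⟩ := exists_prime_orderOf_dvd_card' (G := B) p (dvd_trans (dvd_mul_right _ _) hdvd)
  obtain ⟨b, hb⟩ := exists_prime_orderOf_dvd_card' (G := B) q (dvd_trans (dvd_mul_left _ _) hdvd)
  have hacomm : (a : H) ∈ Subgroup.centralizer ({e g} : Set H) := by
    rw [Subgroup.mem_centralizer_singleton_iff]
    have h1 : e g ∈ Subgroup.centralizer ({e g} : Set H) :=
      Subgroup.mem_centralizer_singleton_iff.mpr rfl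
    exact ((Subgroup.mem_centralizer_iff.mp a.2) (e g) h1).symm
  have hc : Commute (a : H) (b : H) := (Subgroup.mem_centralizer_iff.mp b.2) a hacomm
  refine ⟨(a : H) * b, ?_⟩
  have hao : orderOf (a : H) = p := by rw [Subgroup.orderOf_coe]; exact ha
  have hbo : orderOf (b : H) = q := by rw [Subgroup.orderOf_coe]; exact hb
  rw [hc.orderOf_mul_eq_mul_orderOf_of_coprime (by rw [hao, hbo]; exact (Nat.coprime_primes hp hq).mpr hpq), hao, hbo]

/-- Let G and H be finite groups whose commuting graphs are isomorphic: there is a bijection e : G → H with x, y commuting exactly when e(x), e(y) commute. Then G and H have the same prime graph: for distinct primes p, q, G has an element of order pq if and only if H does (and #G = #H, so the prime divisors agree). -/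
theorem result {G H : Type*} [Group G] [Finite G] [Group H] [Finite H] (e : G ≃ H)
    (he : ∀ x y : G, Commute x y ↔ Commute (e x) (e y))
    {p q : ℕ} (hp : p.Prime) (hq : q.Prime) (hpq : p ≠ q) :
    (∃ g : G, orderOf g = p * q) ↔ (∃ h : H, orderOf h = p * q) := by
  constructor
  · rintro ⟨g, hg⟩
    exact one_dir e he hp hq hpq g hg
  · rintro ⟨h, hh⟩
    refine one_dir e.symm ?_ hp hq hpq h hh
    intro x y
    have := he (e.symm x) (e.symm y)
    simp only [Equiv.apply_symm_apply] at this
    exact this.symm

end Cfsg.Agent.S4084
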