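import Cfsg.Statements.S4086
import Mathlib
-- import your own Cfsg.Agent.* helpers here

set_option autoImplicit false
open Cfsg

namespace Cfsg.Agent.S4086

theorem mem_zpowers_of_orderOf_dvd {C : Type*} [Group C] [Finite C] [IsCyclic C] (x y : C)
    (h : orderOf x ∣ orderOf y) : x ∈ Subgroup.zpowers y := by
  classical
  haveI := Fintype.ofFinite C
  set d := orderOf y with hd
  have hd0 : 0 < d := orderOf_pos y
  let S : Finset C := Finset.univ.filter (fun u => u ^ d = 1)
  have hS : S.card ≤ d := IsCyclic.card_pow_eq_one_le hd0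
  let T : Finset C := (Subgroup.zpowers y : Set C).toFinset
  have hT : T.card = d := by
    rw [Set.toFinset_card, ← Nat.card_eq_fintype_card]
    exact Nat.card_zpowers y
  have hTS : T ⊆ S := by
    intro u hu
    rw [Set.mem_toFinset] at hu
    obtain ⟨k, rfl⟩ := Subgroup.mem_zpowers_iff.mp hu
    simp only [S, Finset.mem_filter, Finset.mem_univ, true_and]
    rw [← zpow_natCast, ← zpow_mul, mul_comm, zpow_mul, zpow_natCast, hd, pow_orderOf_eq_one, one_zpow]
  have heq : T = S := Finset.eq_of_subset_of_card_le hTS (by rw [hT]; exact hS)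
  have hx : x ∈ S := by
    simp only [S, Finset.mem_filter, Finset.mem_univ, true_and]
    exact orderOf_dvd_iff_pow_eq_one.mp h
  rw [← heq, Set.mem_toFinset] at hx
  exact hx

/-- For a finite group G the following are equivalent: every non-identity element has prime-power order; whenever two elements generate a cyclic subgroup, one of them is a power of the other (the enhanced power graph of G coincides with its power graph). -/
theorem result {G : Type*} [Group G] [Finite G] :
    (∀ g : G, g ≠ 1 → IsPrimePow (orderOf g)) ↔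
    (∀ x y : G, IsCyclic ↥(Subgroup.closure ({x, y} : Set G)) → (x ∈ Subgroup.zpowers y ∨ y ∈ Subgroup.zpowers x)) := by
  classical
  constructor
  · intro h x y hcyc
    let C := Subgroup.closure ({x, y} : Set G)
    have hxC : x ∈ C := Subgroup.subset_closure (by simp)
    have hyC : y ∈ C := Subgroup.subset_closure (by simp)
    have key : ∀ a b : C, orderOf a ∣ orderOf b → a ∈ Subgroup.zpowers b := mem_zpowers_of_orderOf_dvd
    have htrans : ∀ a b : C, a ∈ Subgroup.zpowers b → (a : G) ∈ Subgroup.zpowers (b : G) := by
      intro a b hab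
      obtain ⟨k, rfl⟩ := Subgroup.mem_zpowers_iff.mp hab
      exact Subgroup.mem_zpowers_iff.mpr ⟨k, by simp⟩
    obtain ⟨z, hz⟩ := IsCyclic.exists_generator (α := C)
    have hzc : orderOf z = Nat.card C := orderOf_eq_card_of_forall_mem_zpowers hz
    by_cases hz1 : (z : G) = 1
    · left
      have : z = 1 := Subtype.ext hz1
      have h1 := hz ⟨x, hxC⟩
      rw [this, Subgroup.zpowers_one_eq_bot, Subgroup.mem_bot] at h1
      have : x = 1 := congrArg Subtype.val h1
      rw [this]; exact one_mem _
    · have hpp := h (z : G) hz1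
      rw [Subgroup.orderOf_coe, hzc] at hpp
      obtain ⟨p, k, hp, hk, hpk⟩ := (isPrimePow_nat_iff _).mp hpp
      have hxo : orderOf (⟨x, hxC⟩ : C) ∣ p ^ k := by rw [hpk]; exact orderOf_dvd_natCard _
      have hyo : orderOf (⟨y, hyC⟩ : C) ∣ p ^ k := by rw [hpk]; exact orderOf_dvd_natCard _
      obtain ⟨i, -, hi⟩ := (Nat.dvd_prime_pow hp).mp hxo
      obtain ⟨j, -, hj⟩ := (Nat.dvd_prime_pow hp).mp hyo
      rcases le_total i j with hij | hij
      · left
        exact htrans ⟨x, hxC⟩ ⟨y, hyC⟩ (key _ _ (by rw [hi, hj]; exact pow_dvd_pow p hij))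
      · right
        exact htrans ⟨y, hyC⟩ ⟨x, hxC⟩ (key _ _ (by rw [hi, hj]; exact pow_dvd_pow p hij))
  · intro h g hg
    by_contra hnp
    set n := orderOf g with hn
    have hn1 : n ≠ 1 := by
      intro h1; exact hg (orderOf_eq_one_iff.mp h1)
    have hn0 : n ≠ 0 := (orderOf_pos g).ne'
    set p := n.minFac with hp
    have hpp : p.Prime := Nat.minFac_prime hn1
    set a := p ^ n.factorization p with ha
    set b := n / a with hb
    have hab : a * b = n := Nat.ordProj_mul_ordCompl_eq_self n p
    have hcop : a.Coprime b := by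
      apply Nat.Coprime.pow_left
      exact Nat.coprime_ordCompl hpp hn0
    have ha1 : a ≠ 1 := by
      intro h1
      have hf : n.factorization p = 0 := by
        by_contra h0
        have : 1 < a := Nat.one_lt_pow h0 hpp.one_lt
        omega
      have := Nat.factorization_eq_zero_iff n p
      rw [this] at hf
      rcases hf with h2 | h2 | h2
      · exact h2 hpp
      · exact h2 (Nat.minFac_dvd n)
      · exact hn0 h2
    have hb1 : b ≠ 1 := by
      intro h1
      apply hnp
      rw [← hab, h1, mul_one, ha]
      refine (isPrimePow_nat_iff _).mpr ⟨p, n.factorization p, hpp, ?_, rfl⟩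
      apply Nat.pos_of_ne_zero
      intro h0
      rw [ha, h0, pow_zero] at ha1
      exact ha1 rfl
    have hdva : a ∣ n := ⟨b, hab.symm⟩
    have hdvb : b ∣ n := ⟨a, by rw [mul_comm]; exact hab.symm⟩
    have hox : orderOf (g ^ a) = b := by
      rw [orderOf_pow, ← hn, Nat.gcd_eq_right hdva]
    have hoy : orderOf (g ^ b) = a := by
      rw [orderOf_pow, ← hn, Nat.gcd_eq_right hdvb, ← hab]
      exact Nat.mul_div_cancel _ (Nat.pos_of_ne_zero (by rintro h0; rw [h0, mul_zero] at hab; exact hn0 hab.symm))
    have hle : Subgroup.closure ({g ^ a, g ^ b} : Set G) ≤ Subgroup.zpowers g := by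
      rw [Subgroup.closure_le]
      rintro u (rfl | rfl)
      · exact pow_mem (Subgroup.mem_zpowers g) _
      · exact pow_mem (Subgroup.mem_zpowers g) _
    have hcyc : IsCyclic (Subgroup.closure ({g ^ a, g ^ b} : Set G)) :=
      isCyclic_of_injective (Subgroup.inclusion hle) (Subgroup.inclusion_injective hle)
    rcases h _ _ hcyc with h1 | h1
    · have := orderOf_dvd_of_mem_zpowers h1
      rw [hox, hoy] at this
      exact hb1 (Nat.Coprime.eq_one_of_dvd hcop.symm this)
    · have := orderOf_dvd_of_mem_zpowers h1
      rw [hox, hoy] at this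
      exact ha1 (Nat.Coprime.eq_one_of_dvd hcop this)

end Cfsg.Agent.S4086
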