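import Cfsg.Statements.S4093
import Mathlib
import Cfsg.Agent.Lib.FGS3
import Cfsg.Agent.Lib.H1Core
import Cfsg.Agent.Lib.FGSBasic
-- import your own Cfsg.Agent.* helpers here

set_option autoImplicit false
open scoped BigOperators
open Cfsg

namespace Cfsg.Agent.S4093

open scoped Pointwise

/-- Let G be a finite group with a normal subgroup N complementing a Sylow p-subgroup P (a normal p-complement). Then the number of elements of G of p-power order equals the sum over x ∈ P of the index of C_N(x) in N. -/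
theorem result {G : Type*} [Group G] [Finite G] (p : ℕ) [Fact p.Prime]
    (P : Sylow p G) (N : Subgroup G) [N.Normal] (hNP : N.IsComplement' (P : Subgroup G)) :
    Nat.card {g : G // ∃ k : ℕ, orderOf g = p ^ k} =
      ∑ᶠ x : (P : Subgroup G), Nat.card N / Nat.card ↥(N ⊓ Subgroup.centralizer ({(x : G)} : Set G)) := by
  classical
  have hpp : p.Prime := Fact.out
  have hNcard : Nat.card N * Nat.card (P : Subgroup G) = Nat.card G := hNP.card_mul
  have hNidx : Nat.card N = (P : Subgroup G).index := by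
    apply Nat.eq_of_mul_eq_mul_right (Nat.card_pos (α := (P : Subgroup G)))
    rw [hNcard, mul_comm, Subgroup.card_mul_index]
  have hcopN : (Nat.card N).Coprime p := by
    rw [hNidx, Nat.coprime_comm, Nat.Prime.coprime_iff_not_dvd hpp]
    exact P.not_dvd_index
  have hNp : ∀ w ∈ N, (∃ k : ℕ, orderOf w = p ^ k) → w = 1 := by
    rintro w hw ⟨k, hk⟩
    have h1 : orderOf w ∣ Nat.card N := Subgroup.orderOf_dvd_natCard N hw
    rw [hk] at h1
    have h2 : (p ^ k).Coprime p := Nat.Coprime.coprime_dvd_left h1 hcopN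
    have h3 : k = 0 := by
      by_contra hk0
      have h5 := Nat.eq_one_of_dvd_coprimes h2 (dvd_pow_self p hk0) (dvd_refl p)
      exact hpp.one_lt.ne' h5
    subst h3
    rw [pow_zero, orderOf_eq_one_iff] at hk
    exact hk
  let e : N × (P : Subgroup G) ≃ G := Equiv.ofBijective _ hNP
  have he : ∀ q : N × (P : Subgroup G), e q = (q.1 : G) * (q.2 : G) := fun _ => rfl
  let π : G → (P : Subgroup G) := fun g => (e.symm g).2
  have hπ0 : ∀ g : G, ((e.symm g).1 : G) * (π g : G) = g := by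
    intro g
    have := e.apply_symm_apply g
    rwa [he] at this
  have hπ1 : ∀ g : G, g * (π g : G)⁻¹ ∈ N := by
    intro g
    have h1 : g * (π g : G)⁻¹ = ((e.symm g).1 : G) := by
      nth_rewrite 1 [← hπ0 g]
      group
    rw [h1]
    exact (e.symm g).1.2
  have hπ2 : ∀ (n : N) (x : (P : Subgroup G)), π ((n : G) * x) = x := by
    intro n x
    have h1 : (n : G) * x = e (n, x) := rfl
    show (e.symm _).2 = x
    rw [h1, e.symm_apply_apply]
  have hord : ∀ u : G, (∃ k : ℕ, orderOf u = p ^ k) → orderOf (u : G ⧸ N) = orderOf u := by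
    rintro u ⟨k, hk⟩
    apply Nat.dvd_antisymm
    · exact orderOf_map_dvd (QuotientGroup.mk' N) u
    · apply orderOf_dvd_of_pow_eq_one
      have h1 : ((u ^ orderOf (u : G ⧸ N) : G) : G ⧸ N) = 1 := by
        rw [QuotientGroup.mk_pow]
        exact pow_orderOf_eq_one _
      rw [QuotientGroup.eq_one_iff] at h1
      apply hNp _ h1
      have h2 : orderOf (u ^ orderOf (u : G ⧸ N)) ∣ p ^ k := by
        rw [← hk]
        exact orderOf_pow_dvd _
      obtain ⟨j, -, hj⟩ := (Nat.dvd_prime_pow hpp).mp h2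
      exact ⟨j, hj⟩
  have hPord : ∀ x : (P : Subgroup G), ∃ k : ℕ, orderOf (x : G) = p ^ k := by
    intro x
    obtain ⟨n, hn⟩ := (IsPGroup.iff_orderOf.mp P.isPGroup') x
    exact ⟨n, by rw [← hn, Subgroup.orderOf_coe]⟩
  have key : ∀ g : G, (∃ k : ℕ, orderOf g = p ^ k) → ∃ n ∈ N, g = n * (π g : G) * n⁻¹ := by
    intro g hg
    set x : (P : Subgroup G) := π g with hx
    have hgx := hπ1 g
    rw [← hx] at hgx
    have hmk : (g : G ⧸ N) = ((x : G) : G ⧸ N) := by
      rw [QuotientGroup.eq]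
      have h1 : (g)⁻¹ * (x : G) = g⁻¹ * (g * (x : G)⁻¹)⁻¹ * g := by group
      rw [h1]
      have := ‹N.Normal›.conj_mem _ (N.inv_mem hgx) g⁻¹
      simpa using this
    have hcardH : Nat.card (Subgroup.zpowers (x : G)) = Nat.card (Subgroup.zpowers g) := by
      rw [Nat.card_zpowers, Nat.card_zpowers, ← hord _ (hPord x), ← hord _ hg, hmk]
    obtain ⟨j, hj⟩ := hPord x
    have hHp : IsPGroup p (Subgroup.zpowers (x : G)) := by
      rw [IsPGroup.iff_card, Nat.card_zpowers]
      exact ⟨j, hj⟩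
    have hc : (Nat.card N).Coprime (Nat.card (Subgroup.zpowers (x : G))) := by
      rw [Nat.card_zpowers, hj]
      exact Nat.Coprime.pow_right _ hcopN
    have hKL : Subgroup.zpowers g ≤ N ⊔ Subgroup.zpowers (x : G) := by
      rw [Subgroup.zpowers_le]
      have h1 : g = (g * (x : G)⁻¹) * x := by group
      rw [h1]
      exact Subgroup.mul_mem _ ((le_sup_left : N ≤ _) hgx) ((le_sup_right : Subgroup.zpowers (x : G) ≤ _) (Subgroup.mem_zpowers _))
    haveI := hHp.isNilpotent
    obtain ⟨n, hn, hconj⟩ := Lib.FGS3.sz_conj_in_sup N (Subgroup.zpowers (x : G)) (Subgroup.zpowers g) hc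
      (Or.inr inferInstance) hKL hcardH.symm
    refine ⟨n, hn, ?_⟩
    have h1 : g ∈ MulAut.conj n • Subgroup.zpowers (x : G) := by
      rw [hconj]; exact Subgroup.mem_zpowers g
    have h2 : n⁻¹ * g * n ∈ Subgroup.zpowers (x : G) := Lib.H1Core.mem_conj_smul.mp h1
    have h3 : n⁻¹ * g * n * (x : G)⁻¹ ∈ N := by
      rw [← QuotientGroup.eq_one_iff, QuotientGroup.mk_mul, QuotientGroup.mk_mul, QuotientGroup.mk_mul,
        QuotientGroup.mk_inv, QuotientGroup.mk_inv, hmk, (QuotientGroup.eq_one_iff n).mpr hn]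
      group
    have h4 : n⁻¹ * g * n * (x : G)⁻¹ = 1 := by
      apply hNp _ h3
      have h5 : orderOf (n⁻¹ * g * n * (x : G)⁻¹) ∣ p ^ j := by
        rw [← hj]
        exact orderOf_dvd_of_mem_zpowers (Subgroup.mul_mem _ h2 (Subgroup.inv_mem _ (Subgroup.mem_zpowers _)))
      obtain ⟨i, -, hi⟩ := (Nat.dvd_prime_pow hpp).mp h5
      exact ⟨i, hi⟩
    rw [mul_inv_eq_one] at h4
    rw [← h4]
    group
  haveI := Fintype.ofFinite (P : Subgroup G)
  rw [finsum_eq_sum_of_fintype]
  let f : {g : G // ∃ k : ℕ, orderOf g = p ^ k} → (P : Subgroup G) := fun g => π g.1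
  have hsum : Nat.card {g : G // ∃ k : ℕ, orderOf g = p ^ k} = ∑ x : (P : Subgroup G), Nat.card {g // f g = x} := by
    rw [← Nat.card_congr (Equiv.sigmaFiberEquiv f), Nat.card_sigma]
  rw [hsum]
  apply Finset.sum_congr rfl
  intro x _
  set K := (N ⊓ Subgroup.centralizer ({(x : G)} : Set G)).subgroupOf N with hK
  have hKc : Nat.card K = Nat.card ↥(N ⊓ Subgroup.centralizer ({(x : G)} : Set G)) :=
    Nat.card_congr (Subgroup.subgroupOfEquivOfLe inf_le_left).toEquiv
  have hidx : K.index = Nat.card N / Nat.card ↥(N ⊓ Subgroup.centralizer ({(x : G)} : Set G)) := by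
    rw [← hKc, ← Subgroup.card_mul_index K]
    rw [Nat.mul_div_cancel_left _ Nat.card_pos]
  rw [← hidx]
  have hconjmem : ∀ n : N, ∃ k : ℕ, orderOf ((n : G) * x * (n : G)⁻¹) = p ^ k := by
    intro n
    obtain ⟨k, hk⟩ := hPord x
    exact ⟨k, by rw [Lib.FGSBasic.orderOf_conj, hk]⟩
  have hfx : ∀ n : N, π ((n : G) * x * (n : G)⁻¹) = x := by
    intro n
    have hm : (n : G) * ((x : G) * (n : G)⁻¹ * (x : G)⁻¹) ∈ N :=
      N.mul_mem n.2 (‹N.Normal›.conj_mem _ (N.inv_mem n.2) x)
    have h1 : (n : G) * x * (n : G)⁻¹ = ((⟨_, hm⟩ : N) : G) * x := by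
      show (n : G) * x * (n : G)⁻¹ = (n : G) * ((x : G) * (n : G)⁻¹ * (x : G)⁻¹) * x
      group
    rw [h1]
    exact hπ2 _ x
  let φ : (N ⧸ K) → {g // f g = x} := Quotient.lift
    (fun n : N => ⟨⟨(n : G) * x * (n : G)⁻¹, hconjmem n⟩, hfx n⟩) (by
      intro a b hab
      have h1 := QuotientGroup.leftRel_apply.mp hab
      have h2 : ((a⁻¹ * b : N) : G) ∈ N ⊓ Subgroup.centralizer ({(x : G)} : Set G) :=
        Subgroup.mem_subgroupOf.mp h1
      have h3 : ((a : G)⁻¹ * b) * x = x * ((a : G)⁻¹ * b) :=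
        Subgroup.mem_centralizer_singleton_iff.mp h2.2
      apply Subtype.ext
      apply Subtype.ext
      show (a : G) * x * (a : G)⁻¹ = (b : G) * x * (b : G)⁻¹
      have h4 : (b : G) * x = a * (((a : G)⁻¹ * b) * x) := by group
      rw [h4, h3]
      group)
  have hφinj : Function.Injective φ := by
    intro u v
    obtain ⟨a, rfl⟩ := QuotientGroup.mk_surjective u
    obtain ⟨b, rfl⟩ := QuotientGroup.mk_surjective v
    intro huv
    have h1 : (a : G) * x * (a : G)⁻¹ = (b : G) * x * (b : G)⁻¹ :=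
      congrArg (fun w : {g // f g = x} => (w.1.1 : G)) huv
    rw [QuotientGroup.eq, hK, Subgroup.mem_subgroupOf]
    refine ⟨(a⁻¹ * b).2, ?_⟩
    apply Subgroup.mem_centralizer_singleton_iff.mpr
    show ((a : G)⁻¹ * b) * x = x * ((a : G)⁻¹ * b)
    have h2 : (b : G) * x = (a : G) * x * (a : G)⁻¹ * b := by
      rw [h1]; group
    calc ((a : G)⁻¹ * b) * x = (a : G)⁻¹ * ((b : G) * x) := by group
      _ = (a : G)⁻¹ * ((a : G) * x * (a : G)⁻¹ * b) := by rw [h2]
      _ = x * ((a : G)⁻¹ * b) := by group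
  have hφsurj : Function.Surjective φ := by
    rintro ⟨⟨g, hg⟩, hgx⟩
    obtain ⟨n, hn, hgn⟩ := key g hg
    refine ⟨((⟨n, hn⟩ : N) : N ⧸ K), ?_⟩
    apply Subtype.ext
    apply Subtype.ext
    show n * x * n⁻¹ = g
    have h1 : π g = x := hgx
    rw [h1] at hgn
    exact hgn.symm
  exact (Nat.card_eq_of_bijective φ ⟨hφinj, hφsurj⟩).symm

end Cfsg.Agent.S4093
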