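import Cfsg.Statements.S4106
import Cfsg.Agent.Lib.FrobCount
-- import your own Cfsg.Agent.* helpers here

set_option autoImplicit false
open Cfsg

namespace Cfsg.Agent.S4106

/-- Let G be a finite group, π a set of primes and m the π-part of the order of G. Then the number of conjugacy classes of G consisting of π-elements (elements whose order is divisible only by primes in π) is at most m. -/
theorem result {G : Type*} [Group G] [Finite G]
    (π : Set ℕ) (hπ : ∀ q ∈ π, q.Prime)
    (m : ℕ) (hm : m ∣ Nat.card G) (hmπ : ∀ q : ℕ, q.Prime → q ∣ m → q ∈ π)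
    (hm' : ∀ q ∈ π, ¬ q ∣ Nat.card G / m) :
    Nat.card {C : ConjClasses G // ∀ q : ℕ, q.Prime → (∃ g : G, ConjClasses.mk g = C ∧ q ∣ orderOf g) → q ∈ π} ≤ m := by
  classical
  haveI := Fintype.ofFinite G
  obtain ⟨m', hmm'⟩ := hm
  have hG0 : Nat.card G ≠ 0 := Nat.card_pos.ne'
  have hm0 : m ≠ 0 := fun h => hG0 (by rw [hmm', h, zero_mul])
  have hm'0 : m' ≠ 0 := fun h => hG0 (by rw [hmm', h, mul_zero])
  have hdiv : Nat.card G / m = m' := by
    rw [hmm']; exact Nat.mul_div_cancel_left _ (Nat.pos_of_ne_zero hm0)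
  rw [hdiv] at hm'
  have hc : m'.Coprime m := by
    apply Nat.coprime_of_dvd
    intro q hq h1 h2
    exact hm' q (hmπ q hq h2) h1
  let CC := {C : ConjClasses G // ∀ q : ℕ, q.Prime → (∃ g : G, ConjClasses.mk g = C ∧ q ∣ orderOf g) → q ∈ π}
  haveI : Fintype CC := Fintype.ofFinite _
  have hx : ∀ (C : CC) (x : G), ConjClasses.mk x = C.1 → x ^ m = 1 := by
    intro C x hxC
    have h1 : orderOf x ∣ m * m' := by rw [← hmm']; exact orderOf_dvd_natCard x
    have h2 : (orderOf x).Coprime m' := by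
      apply Nat.coprime_of_dvd
      intro q hq h3 h4
      exact hm' q (C.2 q hq ⟨x, hxC, h3⟩) h4
    exact orderOf_dvd_iff_pow_eq_one.1 (h2.dvd_of_dvd_mul_right h1)
  let D := Σ C : CC, Σ x : {x : G // ConjClasses.mk x = C.1}, {y : G // y ^ m' = 1 ∧ x.1 * y = y * x.1}
  let Φ : D → G := fun d => d.2.1.1 * d.2.2.1
  have hΦ : Function.Injective Φ := by
    rintro ⟨⟨C, hC⟩, ⟨x, hxC⟩, ⟨y, hy⟩⟩ ⟨⟨C', hC'⟩, ⟨x', hxC'⟩, ⟨y', hy'⟩⟩ h
    have h0 : x * y = x' * y' := h
    obtain ⟨rfl, rfl⟩ := Lib.FrobCount.jordan_unique hc (hx ⟨C, hC⟩ x hxC) hy.1 hy.2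
      (hx ⟨C', hC'⟩ x' hxC') hy'.1 hy'.2 h0
    have : C = C' := hxC.symm.trans hxC'
    subst this
    rfl
  have hle : Nat.card D ≤ Nat.card G := Nat.card_le_card_of_injective Φ hΦ
  haveI : ∀ C : CC, Fintype {x : G // ConjClasses.mk x = C.1} := fun C => Fintype.ofFinite _
  have hD : Nat.card D = ∑ C : CC, ∑ x : {x : G // ConjClasses.mk x = C.1}, Lib.FrobCount.F m' x.1 := by
    rw [Nat.card_sigma]
    apply Finset.sum_congr rfl
    intro C _
    rw [Nat.card_sigma]
    rfl
  have hinner : ∀ C : CC, m' ≤ ∑ x : {x : G // ConjClasses.mk x = C.1}, Lib.FrobCount.F m' x.1 := by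
    intro C
    obtain ⟨x₀, hx₀⟩ := ConjClasses.mk_surjective C.1
    let s := Fintype.card {x : G // ConjClasses.mk x = C.1}
    have hs : 0 < s := by
      haveI : Nonempty {x : G // ConjClasses.mk x = C.1} := ⟨⟨x₀, hx₀⟩⟩
      exact Fintype.card_pos
    have hidx : ∀ x : {x : G // ConjClasses.mk x = C.1}, (Subgroup.centralizer {x.1}).index = s := by
      intro x
      rw [← Lib.FGSBasic.card_conj_eq_index, Nat.card_eq_fintype_card]
      apply Fintype.card_congr
      apply Equiv.subtypeEquivRight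
      intro y
      constructor
      · intro h
        exact (ConjClasses.mk_eq_mk_iff_isConj.2 h).symm.trans x.2
      · intro h
        exact ConjClasses.mk_eq_mk_iff_isConj.1 (x.2.trans h.symm)
    have hlow : ∀ x : {x : G // ConjClasses.mk x = C.1}, m' ≤ s * Lib.FrobCount.F m' x.1 := by
      intro x
      have h1 := Lib.FrobCount.dvd_index_mul_F hm'0 x.1 (dvd_refl m') (Dvd.intro_left m hmm'.symm)
      rw [hidx] at h1
      exact Nat.le_of_dvd (Nat.mul_pos hs (Lib.FrobCount.F_pos _ _)) h1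
    have h2 : ∑ _x : {x : G // ConjClasses.mk x = C.1}, m' ≤
        ∑ x : {x : G // ConjClasses.mk x = C.1}, s * Lib.FrobCount.F m' x.1 :=
      Finset.sum_le_sum (fun x _ => hlow x)
    rw [← Finset.mul_sum] at h2
    simp only [Finset.sum_const, Finset.card_univ, smul_eq_mul] at h2
    exact Nat.le_of_mul_le_mul_left h2 hs
  have h3 : ∑ _C : CC, m' ≤ Nat.card G := by
    refine le_trans ?_ hle
    rw [hD]
    exact Finset.sum_le_sum (fun C _ => hinner C)
  simp only [Finset.sum_const, Finset.card_univ, smul_eq_mul] at h3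
  rw [hmm'] at h3
  rw [Nat.card_eq_fintype_card]
  exact Nat.le_of_mul_le_mul_right h3 (Nat.pos_of_ne_zero hm'0)

end Cfsg.Agent.S4106
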