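import Cfsg.Statements.S4108
import Mathlib
import Cfsg.Agent.Lib.FrobFpf
-- import your own Cfsg.Agent.* helpers here

set_option autoImplicit false
open Cfsg

namespace Cfsg.Agent.S4108

/-- Let G be a finite group, p a prime and N a proper non-trivial normal p-subgroup such that for every x outside N all elements of the coset xN have the same order as x. Then every non-trivial subgroup H of G of order prime to p acts fixed-point-freely on N: NH is a Frobenius group with complement H and kernel N. -/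
theorem result {G : Type*} [Group G] [Finite G] (N : Subgroup G) [N.Normal] (hN1 : N ≠ ⊥) (hN2 : N ≠ ⊤)
    (heq : ∀ x : G, x ∉ N → ∀ n ∈ N, orderOf (x * n) = orderOf x)
    (p : ℕ) [Fact p.Prime] (hNp : IsPGroup p N) :
    ∀ H : Subgroup G, H ≠ ⊥ → (Nat.card H).Coprime p →
      Cfsg.IsFrobeniusComplement (H.subgroupOf (N ⊔ H)) ∧ Cfsg.frobeniusKernel (H.subgroupOf (N ⊔ H)) = (N.subgroupOf (N ⊔ H) : Set ↥(N ⊔ H)) := by
  intro H hH hcop
  have hpp : p.Prime := Fact.out
  have hinf : N ⊓ H = ⊥ := by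
    rw [eq_bot_iff]
    rintro x ⟨hxN, hxH⟩
    have h1 : orderOf x ∣ Nat.card H := Subgroup.orderOf_dvd_natCard H hxH
    obtain ⟨k, hk⟩ := (IsPGroup.iff_orderOf.mp hNp) ⟨x, hxN⟩
    have hk' : orderOf x = p ^ k := by
      rw [← hk, Subgroup.orderOf_mk]
    rw [hk'] at h1
    have h2 : (p ^ k).Coprime p := Nat.Coprime.coprime_dvd_left h1 hcop
    have h3 : k = 0 := by
      by_contra hk0
      have h4 : p ∣ p ^ k := dvd_pow_self p hk0
      have h5 := Nat.eq_one_of_dvd_coprimes h2 h4 (dvd_refl p)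
      exact hpp.one_lt.ne' h5
    subst h3
    rw [pow_zero, orderOf_eq_one_iff] at hk'
    exact Subgroup.mem_bot.mpr hk'
  refine Lib.FrobFpf.frob_of_fpf N H hinf hN1 hH ?_
  intro h hh n hn hc
  by_contra hcon
  push Not at hcon
  obtain ⟨h1, n1⟩ := hcon
  have hhN : h ∉ N := by
    intro hmem
    have : h ∈ N ⊓ H := ⟨hmem, hh⟩
    rw [hinf] at this
    exact h1 (Subgroup.mem_bot.mp this)
  have ho := heq h hhN n hn
  obtain ⟨k, hk⟩ := (IsPGroup.iff_orderOf.mp hNp) ⟨n, hn⟩
  have hk' : orderOf n = p ^ k := by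
    rw [← hk, Subgroup.orderOf_mk]
  have hcopo : (orderOf h).Coprime (orderOf n) := by
    rw [hk']
    apply Nat.Coprime.pow_right
    exact Nat.Coprime.coprime_dvd_left (Subgroup.orderOf_dvd_natCard H hh) hcop
  have hcomm : Commute h n := hc
  rw [hcomm.orderOf_mul_eq_mul_orderOf_of_coprime hcopo] at ho
  have hpos : 0 < orderOf h := orderOf_pos h
  have h2 : orderOf n = 1 := by
    apply Nat.eq_of_mul_eq_mul_left hpos
    rw [ho, mul_one]
  exact n1 (orderOf_eq_one_iff.mp h2)

end Cfsg.Agent.S4108
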