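import Cfsg.Statements.S4112
import Mathlib
import Cfsg.Agent.Lib.FGSBasic
import Cfsg.Agent.Lib.H1Frat
import Cfsg.Agent.Lib.LPIrr
-- import your own Cfsg.Agent.* helpers here

set_option autoImplicit false
open Cfsg

namespace Cfsg.Agent.S4112

theorem mem_of_coprime_pow {G : Type*} [Group G] [Finite G] (N : Subgroup G) [N.Normal] (a : G) (n : ℕ)
    (hn : a ^ n ∈ N) (hc : Nat.Coprime N.index n) : a ∈ N := by
  have h6 : ((a : G ⧸ N)) ^ N.index = 1 := pow_card_eq_one'
  have h7 : ((a : G ⧸ N)) ^ n = 1 := by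
    rw [← QuotientGroup.mk_pow, QuotientGroup.eq_one_iff]; exact hn
  have h8 := Nat.dvd_gcd (orderOf_dvd_of_pow_eq_one h6) (orderOf_dvd_of_pow_eq_one h7)
  rw [Nat.Coprime.gcd_eq_one hc, Nat.dvd_one, orderOf_eq_one_iff, QuotientGroup.eq_one_iff] at h8
  exact h8

/-- Let G be a finite group and M ≤ N non-trivial proper normal subgroups such that for every g outside N the conjugacy class of g is a union of cosets of M (equivalently gm is conjugate to g for every m ∈ M). Then (1) and (2) below are equivalent, and they imply (3): (1) every g outside N acts fixed-point-freely on M, that is C_G(x) ≤ N for every x ∈ M, x ≠ 1; (2) the index of N in G is coprime to the order of M; (3) there is a subgroup H of G with HN = G and H ∩ M = 1. -/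
theorem result {G : Type*} [Group G] [Finite G] (N M : Subgroup G) [N.Normal] [M.Normal] (hMN : M ≤ N) (hM1 : M ≠ ⊥) (hN2 : N ≠ ⊤)
    (hcam : ∀ g : G, g ∉ N → ∀ m ∈ M, ∃ x : G, x * g * x⁻¹ = g * m) :
    ((∀ x ∈ M, x ≠ 1 → Subgroup.centralizer ({x} : Set G) ≤ N) ↔ N.index.Coprime (Nat.card M)) ∧
    ((∀ x ∈ M, x ≠ 1 → Subgroup.centralizer ({x} : Set G) ≤ N) → ∃ H : Subgroup G, H ⊔ N = ⊤ ∧ H ⊓ M = ⊥) := by
  classical
  have hbig : (∀ x ∈ M, x ≠ 1 → Subgroup.centralizer ({x} : Set G) ≤ N) ↔ N.index.Coprime (Nat.card M) := by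
    constructor
    · intro h1
      by_contra hnc
      obtain ⟨r, hr, hrI, hrM⟩ := Nat.Prime.not_coprime_iff_dvd.mp hnc
      haveI : Fact r.Prime := ⟨hr⟩
      obtain ⟨S⟩ : Nonempty (Sylow r G) := inferInstance
      have hSN : ¬ (S : Subgroup G) ≤ N := by
        intro hle
        apply S.not_dvd_index
        rw [← Subgroup.relIndex_mul_index hle]
        exact Dvd.dvd.mul_left hrI _
      obtain ⟨g, hgS, hgN⟩ := SetLike.not_le_iff_exists.mp hSN
      -- M ∩ S ≠ 1
      have hMS : M.subgroupOf (S : Subgroup G) ≠ ⊥ := by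
        intro hbot
        obtain ⟨x, hx⟩ := exists_prime_orderOf_dvd_card' r hrM
        have hxp : IsPGroup r (Subgroup.zpowers ((x : M) : G)) := by
          rw [IsPGroup.iff_card, Nat.card_zpowers]
          refine ⟨1, ?_⟩
          rw [pow_one, ← hx]
          exact Subgroup.orderOf_coe x
        obtain ⟨S1, hS1⟩ := hxp.exists_le_sylow
        obtain ⟨u, hu⟩ := MulAction.exists_smul_eq G S1 S
        have hxS1 : ((x : M) : G) ∈ (S1 : Subgroup G) := hS1 (Subgroup.mem_zpowers _)
        have hconj : u * (x : G) * u⁻¹ ∈ (S : Subgroup G) := by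
          rw [← hu, Sylow.coe_subgroup_smul]
          exact Subgroup.mem_pointwise_smul_iff_inv_smul_mem.mpr (by
            simp only [MulAut.smul_def, map_inv, MulAut.conj_inv_apply]
            convert hxS1 using 1
            group)
        have hconjM : u * (x : G) * u⁻¹ ∈ M := ‹M.Normal›.conj_mem _ x.2 _
        have hm : (⟨u * (x : G) * u⁻¹, hconj⟩ : (S : Subgroup G)) ∈ M.subgroupOf (S : Subgroup G) := by
          rw [Subgroup.mem_subgroupOf]; exact hconjM
        rw [hbot, Subgroup.mem_bot] at hm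
        have h2 : u * (x : G) * u⁻¹ = 1 := congrArg Subtype.val hm
        have h3 : (x : G) = 1 := by
          have : (x : G) = u⁻¹ * (u * (x : G) * u⁻¹) * u := by group
          rw [this, h2]; group
        have h4 : x = 1 := Subtype.ext h3
        rw [h4, orderOf_one] at hx
        exact hr.one_lt.ne hx
      haveI hnorm : (M.subgroupOf (S : Subgroup G)).Normal := inferInstance
      haveI hnil : Group.IsNilpotent (S : Subgroup G) := S.isPGroup'.isNilpotent
      have hcen := Lib.H1Frat.normal_inf_center_ne_bot (M.subgroupOf (S : Subgroup G)) hMS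
      obtain ⟨⟨⟨y, hyS⟩, hyIn⟩, hy1⟩ := Subgroup.ne_bot_iff_exists_ne_one.mp hcen
      have hyM : y ∈ M := Subgroup.mem_subgroupOf.mp hyIn.1
      have hyC : (⟨y, hyS⟩ : (S : Subgroup G)) ∈ Subgroup.center (S : Subgroup G) := hyIn.2
      have hy1' : y ≠ 1 := by
        intro h
        apply hy1
        apply Subtype.ext
        exact Subtype.ext h
      apply hgN
      apply h1 y hyM hy1'
      rw [Subgroup.mem_centralizer_singleton_iff]
      have h5 := (Subgroup.mem_center_iff.mp hyC) ⟨g, hgS⟩
      have h6 := congrArg Subtype.val h5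
      exact h6
    · intro hc x hxM hx1 g hgC
      by_contra hgN
      -- prime order power
      obtain ⟨r, hr, hrx⟩ := Nat.exists_prime_and_dvd (orderOf_eq_one_iff.not.mpr hx1)
      haveI : Fact r.Prime := ⟨hr⟩
      set x' := x ^ (orderOf x / r) with hx'
      have hx'o : orderOf x' = r := orderOf_pow_orderOf_div (orderOf_pos x).ne' hrx
      have hx'M : x' ∈ M := M.pow_mem hxM _
      have hgx : g * x = x * g := (Subgroup.mem_centralizer_singleton_iff.mp hgC)
      have hgx' : g * x' = x' * g := by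
        have : Commute g x := hgx
        exact (this.pow_right _)
      have hrM : r ∣ Nat.card M := by
        have h5 : orderOf (⟨x', hx'M⟩ : M) = r := by
          rw [Subgroup.orderOf_mk]; exact hx'o
        rw [← h5]
        exact orderOf_dvd_natCard _
      have hrI : ¬ r ∣ N.index := fun hd =>
        hr.one_lt.ne' (Nat.eq_one_of_dvd_coprimes hc hd hrM)
      obtain ⟨a, b, ha, hb, hab, ⟨k, hak⟩, hbc⟩ := Lib.FGSBasic.exists_p_decomp r g
      -- a ∈ N
      have haN : a ∈ N := by
        apply mem_of_coprime_pow N a (r ^ k)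
        · rw [← hak, pow_orderOf_eq_one]; exact N.one_mem
        · exact Nat.Coprime.pow_right _ ((Nat.Prime.coprime_iff_not_dvd hr).mpr hrI).symm
      have hbN : b ∉ N := by
        intro hb'
        apply hgN
        rw [← hab]
        exact N.mul_mem haN hb'
      -- b commutes with x'
      have hbx' : Commute b x' := by
        obtain ⟨n, rfl⟩ := Subgroup.mem_zpowers_iff.mp hb
        exact (Commute.zpow_left (hgx') n)
      obtain ⟨y, hy⟩ := hcam b hbN x' hx'M
      have h10 : orderOf (y * b * y⁻¹) = orderOf b := by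
        rw [← MulAut.conj_apply, MulEquiv.orderOf_eq]
      rw [hy] at h10
      have hcop : (orderOf b).Coprime (orderOf x') := by
        rw [hx'o]; exact hbc
      have h11 := hbx'.orderOf_mul_eq_mul_orderOf_of_coprime hcop
      rw [h11, hx'o] at h10
      have h12 : 0 < orderOf b := orderOf_pos b
      have h13 : r = 1 := by
        apply Nat.eq_of_mul_eq_mul_left h12
        rw [h10, mul_one]
      exact hr.one_lt.ne' h13
  refine ⟨hbig, fun h1 => ?_⟩
  have hc := hbig.mp h1
  obtain ⟨H, hH⟩ := (Set.toFinite {H : Subgroup G | H ⊔ N = ⊤}).exists_minimal ⟨⊤, by simp⟩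
  have hHtop : H ⊔ N = ⊤ := hH.1
  have hmin : ∀ K : Subgroup G, K ⊔ N = ⊤ → K ≤ H → H ≤ K := fun K hK hKH => hH.2 hK hKH
  refine ⟨H, hHtop, ?_⟩
  by_contra hne
  -- prime dividing |H ⊓ M|
  have hcardne : Nat.card (H ⊓ M : Subgroup G) ≠ 1 := by
    intro h
    exact hne (Subgroup.card_eq_one.mp h)
  obtain ⟨r, hr, hrd⟩ := Nat.exists_prime_and_dvd hcardne
  haveI : Fact r.Prime := ⟨hr⟩
  have hrM : r ∣ Nat.card M := hrd.trans (Subgroup.card_dvd_of_le inf_le_right)
  have hrH : r ∣ Nat.card H := hrd.trans (Subgroup.card_dvd_of_le inf_le_left)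
  have hrI : ¬ r ∣ N.index := fun hd =>
    hr.one_lt.ne' (Nat.eq_one_of_dvd_coprimes hc hd hrM)
  -- index of N' in H
  set N' : Subgroup H := N.subgroupOf H with hN'
  haveI hN'n : N'.Normal := inferInstance
  have hidx : N'.index = N.index := by
    have h2 : N.relIndex H = N.index := by
      rw [← Subgroup.relIndex_sup_right, hHtop, Subgroup.relIndex_top_right]
    exact h2
  have hmin' : ∀ K' : Subgroup H, N' ⊔ K' = ⊤ → K' = ⊤ := by
    intro K' hK'
    have hle : K'.map H.subtype ≤ H := by
      rintro _ ⟨y, _, rfl⟩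
      exact y.2
    have h3 : K'.map H.subtype ⊔ N = ⊤ := by
      rw [eq_top_iff, ← hHtop]
      apply sup_le _ le_sup_right
      intro h hh
      have h4 : (⟨h, hh⟩ : H) ∈ N' ⊔ K' := by rw [hK']; trivial
      have h5 : h ∈ (N' ⊔ K').map H.subtype := ⟨⟨h, hh⟩, h4, rfl⟩
      rw [Subgroup.map_sup] at h5
      have h6 : N'.map H.subtype ≤ N := by
        rintro _ ⟨y, hy, rfl⟩
        exact Subgroup.mem_subgroupOf.mp hy
      have h7 := (sup_le_sup_right h6 (K'.map H.subtype)) h5
      rwa [sup_comm] at h7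
    have h8 := hmin _ h3 hle
    rw [eq_top_iff]
    intro y _
    obtain ⟨z, hz, hzy⟩ := h8 y.2
    have : z = y := Subtype.ext hzy
    exact this ▸ hz
  obtain ⟨T⟩ : Nonempty (Sylow r H) := inferInstance
  have hTN : (T : Subgroup H) ≤ N' := by
    intro t ht
    obtain ⟨k, hk⟩ := (T.isPGroup' ⟨t, ht⟩)
    apply mem_of_coprime_pow N' t (r ^ k)
    · have h9 : t ^ (r ^ k) = 1 := congrArg Subtype.val hk
      rw [h9]; exact N'.one_mem
    · rw [hidx]
      exact Nat.Coprime.pow_right _ ((Nat.Prime.coprime_iff_not_dvd hr).mpr hrI).symm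
  have hF := Lib.LPIrr.normalizer_sylow_inf_sup T N'
  rw [inf_eq_left.mpr hTN] at hF
  have hnormtop := hmin' _ hF
  haveI hTn : (T : Subgroup H).Normal := Subgroup.normalizer_eq_top_iff.mp hnormtop
  obtain ⟨K, hK⟩ := Subgroup.exists_right_complement'_of_coprime (N := (T : Subgroup H)) T.card_coprime_index
  have hKtop : K = ⊤ := by
    apply hmin'
    rw [eq_top_iff, ← hK.sup_eq_top]
    exact sup_le_sup_right hTN K
  have hTbot : (T : Subgroup H) = ⊥ := by
    have h10 := hK.disjoint
    rw [hKtop] at h10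
    exact disjoint_top.mp h10
  exact T.ne_bot_of_dvd_card hrH hTbot

end Cfsg.Agent.S4112
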