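import Cfsg.Statements.S4116
import Cfsg.Agent.Lib.H1FrobThm
import Cfsg.Agent.Lib.FGSBasic
import Cfsg.Agent.Lib.CentralSylow
import Cfsg.Agent.Lib.H1Cop
import Cfsg.Agent.Lib.Comp2
-- import your own Cfsg.Agent.* helpers here

set_option autoImplicit false
open Cfsg

namespace Cfsg.Agent.S4116

open scoped Pointwise

variable {G : Type*} [Group G] [Finite G]

/-- V: π-subgroups of the normalizer lie in H -/
lemma hV (H : Subgroup G) (hHall : (Nat.card H).Coprime H.index) (T : Subgroup G)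
    (hT : ∀ q : ℕ, q.Prime → q ∣ Nat.card T → q ∣ Nat.card H)
    (hTN : T ≤ Subgroup.normalizer (H : Set G)) : T ≤ H := by
  have h1 := Lib.H1Cop.card_sup_mul_inf_of_normalizes hTN
  have hle : H ≤ T ⊔ H := le_sup_right
  have h2 : H.relIndex (T ⊔ H) ∣ H.index := Subgroup.relIndex_dvd_index_of_le hle
  have h3 : Nat.card H * H.relIndex (T ⊔ H) = Nat.card (T ⊔ H : Subgroup G) := by
    rw [Subgroup.relIndex]
    have h0 := Subgroup.card_mul_index (H.subgroupOf (T ⊔ H))
    rw [← h0, Lib.Comp2.card_subgroupOf_of_le hle]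
  have h4 : H.relIndex (T ⊔ H) = 1 := by
    by_contra hne
    obtain ⟨q, hq, hqd⟩ := Nat.exists_prime_and_dvd hne
    have hqI : q ∣ Nat.card (T ⊔ H : Subgroup G) := by
      rw [← h3]; exact hqd.mul_left _
    have hqH : q ∣ Nat.card H := by
      have : q ∣ Nat.card T * Nat.card H := by
        rw [← h1]; exact hqI.mul_right _
      rcases (Nat.Prime.dvd_mul hq).mp this with h | h
      · exact hT q hq h
      · exact h
    have := Nat.dvd_gcd hqH (hqd.trans h2)
    rw [hHall] at this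
    exact hq.one_lt.ne' (Nat.dvd_one.mp this)
  have h5 : T ⊔ H ≤ H := Subgroup.relIndex_eq_one.mp h4
  exact le_sup_left.trans h5

lemma hU (H : Subgroup G) (hTI : Cfsg.IsTISubset (H : Set G)) (x g₁ g₂ : G) (hx : x ≠ 1)
    (h1 : g₁⁻¹ * x * g₁ ∈ H) (h2 : g₂⁻¹ * x * g₂ ∈ H) : g₂⁻¹ * g₁ ∈ Subgroup.normalizer (H : Set G) := by
  by_contra hn
  have h3 := hTI _ hn (g₁⁻¹ * x * g₁) h1 (by
    have : g₂⁻¹ * g₁ * (g₁⁻¹ * x * g₁) * (g₂⁻¹ * g₁)⁻¹ = g₂⁻¹ * x * g₂ := by group
    show g₂⁻¹ * g₁ * (g₁⁻¹ * x * g₁) * (g₂⁻¹ * g₁)⁻¹ ∈ H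
    rw [this]
    exact h2)
  apply hx
  have : x = g₁ * (g₁⁻¹ * x * g₁) * g₁⁻¹ := by group
  rw [this, h3]
  group

lemma hconj (H : Subgroup G) (hHall : (Nat.card H).Coprime H.index) (T : Subgroup G)
    (hT : ∀ q : ℕ, q.Prime → q ∣ Nat.card T → q ∣ Nat.card H) (g : G)
    (hTN : ∀ x ∈ T, g⁻¹ * x * g ∈ Subgroup.normalizer (H : Set G)) : ∀ x ∈ T, g⁻¹ * x * g ∈ H := by
  let T' : Subgroup G := T.map (MulAut.conj g⁻¹).toMonoidHom
  have hcard : Nat.card T' = Nat.card T :=
    Subgroup.card_map_of_injective (MulAut.conj g⁻¹).injective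
  have hT' : T' ≤ Subgroup.normalizer (H : Set G) := by
    rintro _ ⟨x, hx, rfl⟩
    have := hTN x hx
    simpa [MulAut.conj_apply] using this
  have h := hV H hHall T' (by rw [hcard]; exact hT) hT'
  intro x hx
  have : g⁻¹ * x * g ∈ T' := ⟨x, hx, by simp [MulAut.conj_apply]⟩
  exact h this

lemma step2 (H : Subgroup G) (hHall : (Nat.card H).Coprime H.index) (hTI : Cfsg.IsTISubset (H : Set G))
    (K : Subgroup G) (hK : ∀ q : ℕ, q.Prime → q ∣ Nat.card K → q ∣ Nat.card H)
    (L : Subgroup G) (hLK : ∀ k ∈ K, ∀ x ∈ L, k * x * k⁻¹ ∈ L) (hL1 : L ≠ ⊥) (g : G)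
    (hg : ∀ x ∈ L, g⁻¹ * x * g ∈ H) : ∀ x ∈ K, g⁻¹ * x * g ∈ H := by
  obtain ⟨z, hz, hz1⟩ := L.bot_or_exists_ne_one.resolve_left hL1
  apply hconj H hHall K hK
  intro k hk
  have h1 := hg _ (hLK k⁻¹ (K.inv_mem hk) z hz)
  have h2 := hU H hTI z (k * g) g hz1 (by
    have : (k * g)⁻¹ * z * (k * g) = g⁻¹ * (k⁻¹ * z * k⁻¹⁻¹) * g := by group
    rw [this]; exact h1) (hg z hz)
  have : g⁻¹ * (k * g) = g⁻¹ * k * g := by group
  rwa [this] at h2

lemma pgroup_case (H : Subgroup G) (hHall : (Nat.card H).Coprime H.index)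
    (K : Subgroup G) (q : ℕ) (hq : q.Prime) (hqH : q ∣ Nat.card H) (hKq : IsPGroup q K) :
    ∃ g : G, ∀ x ∈ K, g⁻¹ * x * g ∈ H := by
  haveI : Fact q.Prime := ⟨hq⟩
  have hqi : ¬ q ∣ H.index := by
    intro h
    have := Nat.dvd_gcd hqH h
    rw [hHall] at this
    exact hq.one_lt.ne' (Nat.dvd_one.mp this)
  obtain ⟨R, _, hR⟩ := Lib.CentralSylow.exists_sylow_le q H hqi ⊥ IsPGroup.of_bot bot_le
  obtain ⟨P, hP⟩ := hKq.exists_le_sylow
  obtain ⟨g, hg⟩ := MulAction.exists_smul_eq G R P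
  refine ⟨g, ?_⟩
  intro x hx
  have h1 : x ∈ (P : Subgroup G) := hP hx
  rw [← hg] at h1
  have h2 := (Lib.FGSBasic.mem_smul_sylow_iff R g x).mp h1
  exact hR h2

lemma main (H : Subgroup G) (hHall : (Nat.card H).Coprime H.index) (hTI : Cfsg.IsTISubset (H : Set G)) :
    ∀ (n : ℕ) (K : Subgroup G), Nat.card K = n → (∀ q : ℕ, q.Prime → q ∣ Nat.card K → q ∣ Nat.card H) →
      ∃ g : G, ∀ x ∈ K, g⁻¹ * x * g ∈ H := by
  classical
  intro n
  induction n using Nat.strong_induction_on with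
  | _ n ih =>
  intro K hKn hK
  have hsub : ∀ L : Subgroup G, L ≤ K → L ≠ K → ∃ g : G, ∀ x ∈ L, g⁻¹ * x * g ∈ H := by
    intro L hLK hne
    apply ih (Nat.card L) _ L rfl
    · intro q hq hqL
      exact hK q hq (hqL.trans (Subgroup.card_dvd_of_le hLK))
    · rw [← hKn]
      by_contra hlt
      apply hne
      exact Subgroup.eq_of_le_of_card_ge hLK (not_lt.mp hlt)
  by_cases hbot : K = ⊥
  · refine ⟨1, ?_⟩
    intro x hx
    rw [hbot, Subgroup.mem_bot] at hx
    simp [hx]
  have hcard1 : Nat.card K ≠ 1 := by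
    intro h
    exact hbot (Subgroup.eq_bot_of_card_eq K h)
  set q := (Nat.card K).minFac with hqdef
  have hq : q.Prime := Nat.minFac_prime hcard1
  haveI : Fact q.Prime := ⟨hq⟩
  obtain ⟨x, hx⟩ := exists_prime_orderOf_dvd_card' q (Nat.minFac_dvd _)
  by_cases hz : Subgroup.zpowers x = ⊤
  · -- K has prime order
    have hcK : Nat.card K = q := by
      rw [← hx, ← Nat.card_zpowers, hz, Subgroup.card_top]
    exact pgroup_case H hHall K q hq (hK q hq (hcK ▸ dvd_rfl)) (IsPGroup.of_card (n := 1) (by rw [hcK, pow_one]))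
  have hxne : x ≠ 1 := by
    intro h
    rw [h, orderOf_one] at hx
    exact hq.one_lt.ne hx
  obtain ⟨M₀, hM₀, hxM⟩ := (eq_top_or_exists_le_coatom (Subgroup.zpowers x)).resolve_left hz
  have hxM₀ : x ∈ M₀ := hxM (Subgroup.mem_zpowers x)
  let M : Subgroup G := M₀.map K.subtype
  have hMK : M ≤ K := by
    rintro _ ⟨y, _, rfl⟩
    exact y.2
  have hMne : M ≠ K := by
    intro h
    apply hM₀.1
    rw [eq_top_iff]
    intro y _
    have : (y : G) ∈ M := by rw [h]; exact y.2
    obtain ⟨z, hz, hzy⟩ := this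
    have : z = y := Subtype.ext hzy
    rwa [← this]
  obtain ⟨g, hg⟩ := hsub M hMK hMne
  by_cases hall : ∀ y ∈ K, g⁻¹ * y * g ∈ H
  · exact ⟨g, hall⟩
  have hgM : ∀ y : K, y ∈ M₀ → g⁻¹ * (y : G) * g ∈ H := fun y hy => hg _ ⟨y, hy, rfl⟩
  have hFrob : Cfsg.IsFrobeniusComplement M₀ := by
    refine ⟨?_, hM₀.1, ?_⟩
    · intro h
      rw [h, Subgroup.mem_bot] at hxM₀
      exact hxne hxM₀
    · intro k hk
      rw [eq_bot_iff]
      intro z hz
      obtain ⟨hz1, hz2⟩ := Subgroup.mem_inf.mp hz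
      rw [Lib.FGSBasic.mem_conj_smul_iff] at hz2
      rw [Subgroup.mem_bot]
      by_contra hz3
      apply hall
      have hz4 : (z : G) ≠ 1 := fun h => hz3 (Subtype.ext h)
      have h1 := hgM z hz1
      have h2 := hgM _ hz2
      have h3 := hU H hTI z (k * g) g hz4 (by
        have : (k * g)⁻¹ * (z : G) * (k * g) = g⁻¹ * ((k⁻¹ * z * k : K) : G) * g := by
          simp only [Subgroup.coe_mul, Subgroup.coe_inv]
          group
        rw [this]
        exact h2) h1
      -- subgroup of K of elements normalizing H^g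
      let S : Subgroup K :=
        ((Subgroup.normalizer (H : Set G)).map (MulAut.conj g).toMonoidHom).subgroupOf K
      have hM₀S : M₀ ≤ S := by
        intro y hy
        refine ⟨g⁻¹ * y * g, Subgroup.le_normalizer (hgM y hy), ?_⟩
        simp [MulAut.conj_apply]
        group
      have hkS : k ∈ S := by
        refine ⟨g⁻¹ * k * g, ?_, ?_⟩
        · have : g⁻¹ * (k * g) = g⁻¹ * k * g := by group
          rw [← this]
          exact h3
        · simp [MulAut.conj_apply]
          group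
      have hStop : S = ⊤ := by
        by_contra hne
        have hlt : M₀ < S := lt_of_le_of_ne hM₀S (fun h => hk (h ▸ hkS))
        exact hne (hM₀.2 S hlt)
      apply hconj H hHall K hK
      intro y hy
      have : (⟨y, hy⟩ : K) ∈ S := by rw [hStop]; trivial
      obtain ⟨w, hw, hwy⟩ := this
      simp only [MulEquiv.coe_toMonoidHom, MulAut.conj_apply, Subgroup.subgroupOf] at hwy
      have : g⁻¹ * y * g = w := by
        have h' : g * w * g⁻¹ = y := hwy
        rw [← h']
        group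
      rw [this]
      exact hw
  letI : Fintype K := Fintype.ofFinite _
  obtain ⟨F, _, hFn, hFc⟩ := Lib.H1FrobThm.frobenius_theorem hFrob
  have hFcard := hFc.card_mul
  have hM₀card : Nat.card M₀ ≠ 1 := by
    intro h
    apply hFrob.1
    exact Subgroup.eq_bot_of_card_eq _ h
  have hFbot : F ≠ ⊥ := by
    intro h
    rw [h, Subgroup.card_bot, one_mul] at hFcard
    exact hM₀.1 (Subgroup.eq_top_of_card_eq _ hFcard)
  have hFtop : Nat.card F < Nat.card K := by
    have h2 : 2 ≤ Nat.card M₀ := by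
      have := Nat.card_pos (α := M₀)
      omega
    rw [← hFcard]
    have := Nat.card_pos (α := F)
    nlinarith
  let L : Subgroup G := F.map K.subtype
  have hcardL : Nat.card L = Nat.card F :=
    Subgroup.card_map_of_injective K.subtype_injective
  have hLK : L ≤ K := by
    rintro _ ⟨y, _, rfl⟩
    exact y.2
  have hLne : L ≠ K := by
    intro h
    rw [h] at hcardL
    omega
  obtain ⟨g', hg'⟩ := hsub L hLK hLne
  refine ⟨g', step2 H hHall hTI K hK L ?_ ?_ g' hg'⟩
  · rintro k hk _ ⟨y, hy, rfl⟩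
    refine ⟨⟨k, hk⟩ * y * ⟨k, hk⟩⁻¹, hFn.conj_mem y hy _, ?_⟩
    simp
  · intro h
    rw [h, Subgroup.card_bot] at hcardL
    apply hFbot
    exact Subgroup.eq_bot_of_card_eq _ hcardL.symm

/-- Let G be a finite group with a subgroup H whose order is coprime to its index (a Hall subgroup) and which meets each of its conjugates by elements outside N_G(H) trivially. Then every subgroup of G whose order is divisible only by primes dividing the order of H lies in a conjugate of H. -/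
theorem result {G : Type*} [Group G] [Finite G] (H : Subgroup G)
    (hHall : (Nat.card H).Coprime H.index) (hTI : Cfsg.IsTISubset (H : Set G))
    (K : Subgroup G) (hK : ∀ q : ℕ, q.Prime → q ∣ Nat.card K → q ∣ Nat.card H) :
    ∃ g : G, K ≤ H.map (MulAut.conj g).toMonoidHom := by
  obtain ⟨g, hg⟩ := main H hHall hTI _ K rfl hK
  refine ⟨g, ?_⟩
  intro x hx
  refine ⟨g⁻¹ * x * g, hg x hx, ?_⟩
  simp [MulAut.conj_apply]
  group

end Cfsg.Agent.S4116
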