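import Cfsg.Statements.S4117
import Mathlib
import Cfsg.Agent.Lib.H1FC
-- import your own Cfsg.Agent.* helpers here

set_option autoImplicit false
open Cfsg

namespace Cfsg.Agent.S4117

open Subgroup

section

variable (A G : Type*) [Group G] [Group A] [MulDistribMulAction A G]

def KK : Subgroup G := closure {y : G | ∃ (a : A) (g : G), y = g⁻¹ * a • g}

variable {A G}

theorem KK_smul (a : A) {x : G} (hx : x ∈ KK A G) : a • x ∈ KK A G := by
  induction hx using closure_induction with
  | mem y hy =>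
    obtain ⟨b, g, rfl⟩ := hy
    apply Subgroup.subset_closure
    refine ⟨a * b * a⁻¹, a • g, ?_⟩
    have e : (a * b * a⁻¹) • (a • g) = a • (b • g) := by
      rw [← mul_smul, inv_mul_cancel_right, mul_smul]
    rw [smul_mul', smul_inv', e]
  | one => simp
  | mul x y _ _ hx hy =>
    rw [smul_mul']
    exact mul_mem hx hy
  | inv x _ hx =>
    rw [smul_inv']
    exact inv_mem hx

theorem KK_normal : (KK A G).Normal := by
  constructor
  intro x hx h
  induction hx using closure_induction with
  | mem y hy =>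
    obtain ⟨a, g, rfl⟩ := hy
    have e : h * (g⁻¹ * a • g) * h⁻¹ =
        ((g * h⁻¹)⁻¹ * a • (g * h⁻¹)) * (h⁻¹⁻¹ * a • h⁻¹)⁻¹ := by
      simp only [smul_mul', smul_inv']
      group
    rw [e]
    exact mul_mem (Subgroup.subset_closure ⟨a, _, rfl⟩) (inv_mem (Subgroup.subset_closure ⟨a, _, rfl⟩))
  | one => simp
  | mul x y _ _ hx hy =>
    have e : h * (x * y) * h⁻¹ = (h * x * h⁻¹) * (h * y * h⁻¹) := by group
    rw [e]
    exact mul_mem hx hy
  | inv x _ hx =>
    have e : h * x⁻¹ * h⁻¹ = (h * x * h⁻¹)⁻¹ := by group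
    rw [e]
    exact inv_mem hx

theorem KK_cent (hc : IsCyclic (commutator G)) (y : G) (hy : y ∈ KK A G) (d : G) (hd : d ∈ commutator G) :
    y * d = d * y := by
  obtain ⟨d₀, hd₀⟩ := hc
  have hgen : ∀ z ∈ commutator G, ∃ k : ℤ, d₀.1 ^ k = z := by
    intro z hz
    obtain ⟨k, hk⟩ := hd₀ ⟨z, hz⟩
    refine ⟨k, ?_⟩
    have := congrArg Subtype.val hk
    simpa using this
  have hmemsmul : ∀ (a : A), ∀ z ∈ commutator G, a • z ∈ commutator G := by
    intro a z hz
    have h1 := (inferInstance : (commutator G).Characteristic).fixed (MulDistribMulAction.toMulEquiv G a)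
    have h2 : z ∈ (commutator G).comap (MulDistribMulAction.toMulEquiv G a).toMonoidHom := by
      rw [h1]
      exact hz
    exact h2
  have hd₀mem : d₀.1 ∈ commutator G := d₀.2
  have key : ∀ (a : A) (g : G), (g⁻¹ * a • g) * d₀.1 = d₀.1 * (g⁻¹ * a • g) := by
    intro a g
    obtain ⟨e, he⟩ := hgen _ (Subgroup.Normal.conj_mem inferInstance _ hd₀mem g)
    obtain ⟨f, hf⟩ := hgen _ (hmemsmul a _ hd₀mem)
    obtain ⟨f', hf'⟩ := hgen _ (hmemsmul a⁻¹ _ hd₀mem)
    have h1 : d₀.1 ^ (f * f') = d₀.1 := by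
      have h2 : a • (a⁻¹ • d₀.1) = d₀.1 := smul_inv_smul a d₀.1
      rw [← hf', smul_zpow', ← hf, ← zpow_mul] at h2
      exact h2
    have h3 : (a • g) * d₀.1 * (a • g)⁻¹ = g * d₀.1 * g⁻¹ := by
      calc (a • g) * d₀.1 * (a • g)⁻¹ = a • (g * (a⁻¹ • d₀.1) * g⁻¹) := by
            rw [smul_mul', smul_mul', smul_inv', smul_inv_smul]
        _ = a • ((g * d₀.1 * g⁻¹) ^ f') := by
            rw [← hf', conj_zpow]
        _ = (a • (g * d₀.1 * g⁻¹)) ^ f' := by
            rw [smul_zpow']
        _ = (a • d₀.1 ^ e) ^ f' := by rw [he]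
        _ = ((d₀.1 ^ f) ^ e) ^ f' := by rw [smul_zpow', hf]
        _ = (d₀.1 ^ (f * f')) ^ e := by
            rw [← zpow_mul, ← zpow_mul, ← zpow_mul]
            congr 1
            ring
        _ = g * d₀.1 * g⁻¹ := by rw [h1, he]
    have h4 : (a • g) * d₀.1 = g * d₀.1 * g⁻¹ * (a • g) := by
      rw [← h3]
      group
    calc (g⁻¹ * a • g) * d₀.1 = g⁻¹ * ((a • g) * d₀.1) := by group
      _ = g⁻¹ * (g * d₀.1 * g⁻¹ * (a • g)) := by rw [h4]
      _ = d₀.1 * (g⁻¹ * a • g) := by group
  have key2 : y * d₀.1 = d₀.1 * y := by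
    induction hy using closure_induction with
    | mem z hz =>
      obtain ⟨a, g, rfl⟩ := hz
      exact key a g
    | one => simp
    | mul x z _ _ hx hz =>
      calc x * z * d₀.1 = x * (z * d₀.1) := by group
        _ = x * (d₀.1 * z) := by rw [hz]
        _ = (x * d₀.1) * z := by group
        _ = d₀.1 * x * z := by rw [hx]
        _ = d₀.1 * (x * z) := by group
    | inv x _ hx =>
      have h5 : x⁻¹ * (x * d₀.1) * x⁻¹ = x⁻¹ * (d₀.1 * x) * x⁻¹ := by rw [hx]
      simpa [mul_assoc] using h5.symm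
  obtain ⟨k, rfl⟩ := hgen d hd
  exact (Commute.zpow_right (show Commute y d₀.1 from key2) k)

theorem KK_comm [Finite G] [IsZGroup G] (x y : KK A G) : x * y = y * x := by
  let f : KK A G →* Abelianization G := (Abelianization.of : G →* Abelianization G).comp (KK A G).subtype
  have hf : f.ker ≤ center (KK A G) := by
    intro k hk
    have h1 : Abelianization.of (k : G) = 1 := hk
    have h2 : (k : G) ∈ commutator G := by
      rw [← Abelianization.ker_of]
      exact h1
    rw [mem_center_iff]
    intro z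
    apply Subtype.ext
    exact KK_cent (IsZGroup.isCyclic_commutator G) z.1 z.2 k.1 h2
  exact commutative_of_cyclic_center_quotient f hf x y


theorem main_struct [Finite G] [Finite A] (hcomm : ∀ x y : KK A G, x * y = y * x)
    (hcop : (Nat.card A).Coprime (Nat.card G)) :
    (∀ g : G, ∃ t ∈ KK A G, ∀ a : A, a • (g * t) = g * t) ∧
      (∀ x ∈ KK A G, (∀ a : A, a • x = x) → x = 1) := by
  classical
  letI : Fintype A := Fintype.ofFinite A
  letI inst : CommGroup (KK A G) := { (inferInstance : Group (KK A G)) with mul_comm := hcomm }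
  let σ : A → (KK A G →* KK A G) := fun a => MonoidHom.mk' (fun k => ⟨a • k.1, KK_smul a k.2⟩) (by
    intro x y
    apply Subtype.ext
    exact smul_mul' a x.1 y.1)
  have hσ : ∀ a k, ((σ a k : KK A G) : G) = a • (k : G) := fun a k => rfl
  have hm : (Nat.card (KK A G)).Coprime (Nat.card A) :=
    (Nat.Coprime.coprime_dvd_right (Subgroup.card_subgroup_dvd_card _) hcop).symm
  have hcard : Fintype.card A = Nat.card A := (Nat.card_eq_fintype_card).symm
  have hpowinj : Function.Injective (fun x : KK A G => x ^ Nat.card A) := (powCoprime hm).injective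
  have hfix : ∀ g : G, ∃ t ∈ KK A G, ∀ a : A, a • (g * t) = g * t := by
    intro g
    let kk : A → KK A G := fun b => ⟨g⁻¹ * b • g, Subgroup.subset_closure ⟨b, g, rfl⟩⟩
    have hcoc : ∀ a b, kk (a * b) = kk a * σ a (kk b) := by
      intro a b
      apply Subtype.ext
      change g⁻¹ * (a * b) • g = g⁻¹ * a • g * a • (g⁻¹ * b • g)
      rw [smul_mul', smul_inv', mul_smul]
      group
    set s : KK A G := ∏ b, kk b with hs
    have h1 : ∀ a, kk a ^ Nat.card A * σ a s = s := by
      intro a
      have h2 : s = ∏ b, kk (a * b) := (Equiv.prod_comp (Equiv.mulLeft a) kk).symm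
      have h3 : ∏ b, kk (a * b) = kk a ^ Nat.card A * σ a s := by
        simp_rw [hcoc]
        rw [Finset.prod_mul_distrib, Finset.prod_const, Finset.card_univ, hcard, hs, map_prod]
      exact (h2.trans h3).symm
    obtain ⟨t, ht⟩ : ∃ t : KK A G, t ^ Nat.card A = s :=
      ⟨(powCoprime hm).symm s, (powCoprime hm).apply_symm_apply s⟩
    refine ⟨t, t.2, fun a => ?_⟩
    have h4 : kk a = t * (σ a t)⁻¹ := by
      apply hpowinj
      change kk a ^ Nat.card A = (t * (σ a t)⁻¹) ^ Nat.card A
      rw [mul_pow, inv_pow, ← map_pow (σ a), ht]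
      rw [eq_mul_inv_iff_mul_eq]
      exact h1 a
    have h5 : kk a * σ a t = t := by
      rw [h4]
      group
    have h6 : (g⁻¹ * a • g) * (a • (t : G)) = t := congrArg Subtype.val h5
    rw [smul_mul']
    calc a • g * a • (t : G) = g * ((g⁻¹ * a • g) * (a • (t : G))) := by group
      _ = g * t := by rw [h6]
  refine ⟨hfix, ?_⟩
  let N : KK A G →* KK A G := MonoidHom.mk' (fun k => ∏ b, σ b k) (by
    intro x y
    simp only [map_mul, Finset.prod_mul_distrib])
  have hN : ∀ k, N k = ∏ b, σ b k := fun k => rfl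
  have hNσ : ∀ a k, N (σ a k) = N k := by
    intro a k
    rw [hN, hN]
    calc ∏ b, σ b (σ a k) = ∏ b, σ (b * a) k := by
          apply Finset.prod_congr rfl
          intro b _
          apply Subtype.ext
          change b • a • (k : G) = (b * a) • (k : G)
          rw [mul_smul]
      _ = ∏ b, σ b k := Equiv.prod_comp (Equiv.mulRight a) (fun b => σ b k)
  have hN1 : ∀ y : G, ∀ hy : y ∈ KK A G, N ⟨y, hy⟩ = 1 := by
    intro y hy
    induction hy using closure_induction with
    | mem z hz =>
      obtain ⟨a, g, rfl⟩ := hz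
      obtain ⟨t, ht, hfixed⟩ := hfix g
      have hc := hfixed a
      have e : (⟨g⁻¹ * a • g, Subgroup.subset_closure ⟨a, g, rfl⟩⟩ : KK A G) = (⟨t, ht⟩ : KK A G) * (σ a ⟨t, ht⟩)⁻¹ := by
        apply Subtype.ext
        change g⁻¹ * a • g = t * (a • t)⁻¹
        rw [smul_mul'] at hc
        have h7 : a • g = g * t * (a • t)⁻¹ := by
          rw [eq_mul_inv_iff_mul_eq]
          exact hc
        rw [h7]
        group
      rw [e, map_mul, map_inv, hNσ]
      simp
    | one => exact map_one N
    | mul x z hx hz hx' hz' =>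
      have := map_mul N ⟨x, hx⟩ ⟨z, hz⟩
      rw [hx', hz', mul_one] at this
      exact this
    | inv x hx hx' =>
      have := map_inv N ⟨x, hx⟩
      rw [hx', inv_one] at this
      exact this
  intro x hx hfx
  have h8 : N ⟨x, hx⟩ = ⟨x, hx⟩ ^ Nat.card A := by
    rw [hN, ← hcard, ← Finset.card_univ, ← Finset.prod_const]
    apply Finset.prod_congr rfl
    intro b _
    apply Subtype.ext
    exact hfx b
  have h9 : (⟨x, hx⟩ : KK A G) ^ Nat.card A = 1 ^ Nat.card A := by
    rw [← h8, hN1, one_pow]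
  have h10 := hpowinj h9
  exact congrArg Subtype.val h10

end

/-- Let A be a finite group acting on the finite group G by automorphisms with the orders of A and G coprime, and suppose every Sylow subgroup of G is cyclic. Then the fixed-point subgroup C_G(A) is a Hall subgroup of G (its order is coprime to its index), the subgroup [G, A] generated by the elements g⁻¹·a(g) is cyclic and normal with [G, A] ∩ C_G(A) = 1 and [G, A]·C_G(A) = G. -/
theorem result {G A : Type*} [Group G] [Finite G] [Group A] [Finite A]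
    [MulDistribMulAction A G] (hcop : (Nat.card A).Coprime (Nat.card G))
    (hcyc : ∀ (p : ℕ) [Fact p.Prime] (P : Sylow p G), IsCyclic (P : Subgroup G)) :
    (Nat.card (MulAction.fixedPoints A G : Set G)).Coprime (Nat.card G / Nat.card (MulAction.fixedPoints A G : Set G)) ∧
    IsCyclic (Subgroup.closure {y : G | ∃ (a : A) (g : G), y = g⁻¹ * a • g}) ∧
    (Subgroup.closure {y : G | ∃ (a : A) (g : G), y = g⁻¹ * a • g}).Normal ∧
    (Subgroup.closure {y : G | ∃ (a : A) (g : G), y = g⁻¹ * a • g} : Set G) ∩ MulAction.fixedPoints A G = {1} ∧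
    Subgroup.closure {y : G | ∃ (a : A) (g : G), y = g⁻¹ * a • g} ⊔ Subgroup.closure (MulAction.fixedPoints A G) = ⊤ := by
  haveI hZ : IsZGroup G := ⟨fun p hp P => by haveI := Fact.mk hp; exact hcyc p P⟩
  obtain ⟨hfix, huniq⟩ := main_struct (A := A) (G := G) KK_comm hcop
  haveI hKn : (KK A G).Normal := KK_normal
  have hKcyc : IsCyclic (KK A G) := by
    letI inst : CommGroup (KK A G) := { (inferInstance : Group (KK A G)) with mul_comm := KK_comm }
    haveI : Group.IsNilpotent (KK A G) := inferInstance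
    infer_instance
  let C : Subgroup G := FixedPoints.subgroup A G
  have hC : ∀ x, x ∈ C ↔ ∀ a : A, a • x = x := fun x => FixedPoints.mem_subgroup A G x
  have hCcoe : (MulAction.fixedPoints A G : Set G) = (C : Set G) := rfl
  have hsup : KK A G ⊔ C = ⊤ := by
    rw [eq_top_iff]
    intro g _
    obtain ⟨t, ht, hft⟩ := hfix g
    have h1 : g * t ∈ C := (hC _).2 hft
    have e : g = (g * t) * t⁻¹ := by group
    rw [e]
    exact mul_mem ((le_sup_right : C ≤ _) h1) ((le_sup_left : KK A G ≤ _) (inv_mem ht))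
  have hinf : KK A G ⊓ C = ⊥ := by
    rw [eq_bot_iff]
    rintro x ⟨h1, h2⟩
    rw [mem_bot]
    exact huniq x h1 ((hC x).1 h2)
  have hcard : Nat.card G = Nat.card (KK A G) * Nat.card C := by
    have h1 := Lib.H1Cop.card_sup_mul_inf_of_normalizes (A := C) (K := KK A G)
      (by rw [normalizer_eq_top (KK A G)]; exact le_top)
    rw [sup_comm, hsup, inf_comm, hinf, Subgroup.card_bot, mul_one] at h1
    rw [mul_comm, ← h1]
    exact (Nat.card_congr Subgroup.topEquiv.toEquiv).symm
  have hCpos : 0 < Nat.card C := Nat.card_pos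
  have hcopKC : (Nat.card C).Coprime (Nat.card (KK A G)) := by
    rw [Nat.coprime_iff_gcd_eq_one] 
    by_contra hne
    obtain ⟨p, hp, hd⟩ := Nat.exists_prime_and_dvd hne
    haveI : Fact p.Prime := ⟨hp⟩
    have hp1 : p ∣ Nat.card C := hd.trans (Nat.gcd_dvd_left _ _)
    have hp2 : p ∣ Nat.card (KK A G) := hd.trans (Nat.gcd_dvd_right _ _)
    obtain ⟨y, hy⟩ := exists_prime_orderOf_dvd_card' (G := C) p hp1
    obtain ⟨x, hx⟩ := exists_prime_orderOf_dvd_card' (G := KK A G) p hp2
    have hxo : orderOf (x : G) = p := by rw [Subgroup.orderOf_coe]; exact hx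
    have hyo : orderOf (y : G) = p := by rw [Subgroup.orderOf_coe]; exact hy
    have hxp : (x : G) ^ p = 1 := by rw [← hxo]; exact pow_orderOf_eq_one _
    have hyp : (y : G) ^ p = 1 := by rw [← hyo]; exact pow_orderOf_eq_one _
    have hHn : (zpowers (x : G)).Normal := by
      constructor
      intro z hz g
      obtain ⟨k, rfl⟩ := hz
      have h1 : g * x * g⁻¹ ∈ zpowers (x : G) := by
        refine Lib.H1FC.mem_zpowers_of_cyclic hKcyc hp x.2 (hKn.conj_mem _ x.2 g) hxo ?_
        rw [conj_pow, hxp]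
        group
      have h2 : g * (x : G) ^ k * g⁻¹ = (g * x * g⁻¹) ^ k := by rw [conj_zpow]
      rw [show (fun i : ℤ => (x : G) ^ i) k = (x : G) ^ k from rfl, h2]
      exact zpow_mem h1 k
    have hp3 : IsPGroup p (zpowers (x : G)) := IsPGroup.of_card (n := 1) (by rw [Nat.card_zpowers, hxo, pow_one])
    have hp4 : IsPGroup p (zpowers (y : G)) := IsPGroup.of_card (n := 1) (by rw [Nat.card_zpowers, hyo, pow_one])
    have hp5 : IsPGroup p (zpowers (x : G) ⊔ zpowers (y : G) : Subgroup G) := hp3.to_sup_of_normal_left hp4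
    obtain ⟨Q, hQ⟩ := hp5.exists_le_sylow
    have hxQ : (x : G) ∈ (Q : Subgroup G) := hQ ((le_sup_left : zpowers (x : G) ≤ _) (mem_zpowers _))
    have hyQ : (y : G) ∈ (Q : Subgroup G) := hQ ((le_sup_right : zpowers (y : G) ≤ _) (mem_zpowers _))
    have h3 : (y : G) ∈ zpowers (x : G) := Lib.H1FC.mem_zpowers_of_cyclic (hcyc p Q) hp hxQ hyQ hxo hyp
    have h4 : (y : G) ∈ KK A G := (zpowers_le.2 x.2) h3
    have h5 : (y : G) = 1 := huniq _ h4 ((hC _).1 y.2)
    rw [h5, orderOf_one] at hyo
    exact hp.one_lt.ne hyo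
  refine ⟨?_, hKcyc, hKn, ?_, ?_⟩
  · have h1 : Nat.card (MulAction.fixedPoints A G : Set G) = Nat.card C := rfl
    rw [h1, hcard, Nat.mul_div_cancel _ hCpos]
    exact hcopKC
  · ext x
    constructor
    · rintro ⟨h1, h2⟩
      exact huniq x h1 h2
    · intro h
      rw [Set.mem_singleton_iff] at h
      subst h
      exact ⟨one_mem (KK A G), fun a => smul_one a⟩
  · have h1 : closure (MulAction.fixedPoints A G) = C := by
      rw [hCcoe]
      exact closure_eq C
    rw [h1]
    exact hsup

end Cfsg.Agent.S4117
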