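import Cfsg.Statements.S4126
import Cfsg.Agent.Lib.CritAut
-- import your own Cfsg.Agent.* helpers here

set_option autoImplicit false
open Cfsg

namespace Cfsg.Agent.S4126

open Subgroup

/-- Let G be a finite group and p a prime. Suppose every element of order p, and when p = 2 also every element of order 4, has a conjugacy class of p-power size. Then G has a normal p-complement. -/
theorem result {G : Type*} [Group G] [Finite G] (p : ℕ) [Fact p.Prime]
    (h : ∀ x : G, (orderOf x = p ∨ (p = 2 ∧ orderOf x = 4)) → ∃ a : ℕ, (Subgroup.centralizer ({x} : Set G)).index = p ^ a) :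
    Cfsg.HasNormalPComplement p G := by
  classical
  obtain ⟨P⟩ : Nonempty (Sylow p G) := inferInstance
  apply Cfsg.Agent.Lib.PNilp.hasNormalPComplement_of_automizer P
  intro Q hQ g hg hcop
  by_contra hgC
  obtain ⟨R, hRQ, hgR, hgRC, hcl, hexp, -⟩ :=
    Lib.CritAut.crit_exists g hcop Q (P.2.to_le hQ) hg hgC
  have hidx : ∀ x ∈ R, ∃ a : ℕ, (centralizer ({x} : Set G)).index = p ^ a := by
    intro x hx
    by_cases hx1 : x = 1
    · subst hx1
      refine ⟨0, ?_⟩
      have : centralizer ({1} : Set G) = ⊤ := by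
        rw [eq_top_iff]
        intro v _
        rw [mem_centralizer_singleton_iff]
        simp
      rw [this, Subgroup.index_top, pow_zero]
    rcases hexp x hx with h1 | ⟨h2, h1⟩
    · exact h x (Or.inl (orderOf_eq_prime h1 hx1))
    · subst h2
      have h3 : orderOf x ∣ 2 ^ 2 := orderOf_dvd_of_pow_eq_one (by norm_num [h1])
      obtain ⟨k, hk, hk2⟩ := (Nat.dvd_prime_pow Nat.prime_two).mp h3
      interval_cases k
      · exact absurd (orderOf_eq_one_iff.mp (by simpa using hk2)) hx1
      · exact h x (Or.inl (by simpa using hk2))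
      · exact h x (Or.inr ⟨rfl, by simpa using hk2⟩)
  have hconj : ∀ x ∈ R, ∃ w ∈ (P : Subgroup G), g * x * g⁻¹ = w * x * w⁻¹ := by
    intro x hx
    obtain ⟨a, ha⟩ := hidx x hx
    obtain ⟨w, hw, c, hc, e⟩ := Lib.CritAut.exists_mul_of_index_prime_pow P _ ha g
    refine ⟨w, hw, ?_⟩
    have hc' := mem_centralizer_singleton_iff.mp hc
    rw [e]
    calc w * c * x * (w * c)⁻¹ = w * (c * x) * c⁻¹ * w⁻¹ := by group
      _ = w * (x * c) * c⁻¹ * w⁻¹ := by rw [hc']
      _ = w * x * w⁻¹ := by group
  have hbot : R = ⊥ := by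
    apply Lib.CritAut.eq_bot_of_gen (p := p) (P : Subgroup G) P.2 R (hRQ.trans hQ)
    refine hcl.trans (closure_mono ?_)
    rintro _ ⟨u, hu, rfl⟩
    obtain ⟨w, hw, e⟩ := hconj u hu
    exact ⟨u, hu, w, hw, by rw [e]⟩
  apply hgRC
  rw [hbot, mem_centralizer_iff]
  intro v hv
  have hv' : v = 1 := mem_bot.mp hv
  rw [hv']; simp

end Cfsg.Agent.S4126
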