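import Cfsg.Statements.S4134
import Mathlib
import Cfsg.Agent.Lib.ItoTwo
import Cfsg.Agent.Lib.ItoRank
import Cfsg.Agent.Lib.FGSBasic
-- import your own Cfsg.Agent.* helpers here

set_option autoImplicit false
open Cfsg

namespace Cfsg.Agent.S4134

open Subgroup

/-- Let G be a finite group whose conjugacy classes have exactly two sizes, 1 and n > 1. Then n is a power of a prime p and G is the direct product of a p-group and an abelian group of order prime to p: its Sylow p-subgroup P is normal with an abelian normal complement centralizing it; moreover P has an abelian normal subgroup A with P/A of exponent dividing p. -/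
theorem result {G : Type*} [Group G] [Finite G] (n : ℕ) (hn : 1 < n)
    (h : ∀ x : G, (Subgroup.centralizer ({x} : Set G)).index = 1 ∨ (Subgroup.centralizer ({x} : Set G)).index = n) (hex : ∃ x : G, (Subgroup.centralizer ({x} : Set G)).index = n) :
    ∃ (p : ℕ) (_ : Fact p.Prime) (a : ℕ), n = p ^ a ∧ ∀ P : Sylow p G, (P : Subgroup G).Normal ∧
      (∃ N : Subgroup G, N.Normal ∧ N.IsComplement' (P : Subgroup G) ∧ IsMulCommutative N ∧
        ∀ x ∈ N, ∀ y ∈ (P : Subgroup G), x * y = y * x) ∧
      ∃ A : Subgroup (P : Subgroup G), A.Normal ∧ IsMulCommutative A ∧ ∀ y : (P : Subgroup G), y ^ p ∈ A := by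
  classical
  obtain ⟨x₀, hx₀⟩ := hex
  have hx₀Z : x₀ ∉ center G := by
    intro hc
    have h1 : centralizer ({x₀} : Set G) = ⊤ := by
      rw [eq_top_iff]
      intro g _
      rw [Subgroup.mem_centralizer_singleton_iff]
      exact (Subgroup.mem_center_iff.mp hc g)
    rw [h1, Subgroup.index_top] at hx₀
    omega
  obtain ⟨u₀, -, hu₀Z, p, a₀, hp, hu₀o⟩ := Lib.ItoTwo.exists_part hx₀Z
  haveI hpf : Fact p.Prime := ⟨hp⟩
  have hother : ∀ y : G, ∀ s k : ℕ, s.Prime → s ≠ p → orderOf y = s ^ k → y ∈ center G := by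
    intro y s k hs hsp hk
    by_contra hy
    exact Lib.ItoTwo.two_primes_false hn h hp hs (Ne.symm hsp) hu₀Z hy hu₀o hk
  have hpartZ : ∀ y : G, (orderOf y).Coprime p → y ∈ center G := by
    intro y hy
    have h1 := Lib.FGSBasic.mem_closure_of_coprime y hy
    refine (Subgroup.closure_le _).mpr ?_ h1
    rintro w ⟨q, b, hq, hqp, hb⟩
    exact hother w q b hq hqp hb
  have hQ : IsPGroup p (G ⧸ center G) := by
    intro yb
    obtain ⟨y, rfl⟩ := QuotientGroup.mk_surjective yb
    obtain ⟨a, b, -, -, hab, ⟨k, hk⟩, hb⟩ := Lib.FGSBasic.exists_p_decomp p y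
    refine ⟨k, ?_⟩
    rw [← hab, QuotientGroup.mk_mul, (QuotientGroup.eq_one_iff b).mpr (hpartZ b hb), mul_one, ← QuotientGroup.mk_pow, ← hk,
      pow_orderOf_eq_one]
    rfl
  have hZle : ∀ x : G, center G ≤ centralizer ({x} : Set G) := by
    intro x u hu
    rw [Subgroup.mem_centralizer_singleton_iff]
    exact (Subgroup.mem_center_iff.mp hu x).symm
  obtain ⟨a, ha⟩ : ∃ a, n = p ^ a := by
    obtain ⟨m, hm⟩ := IsPGroup.iff_card.mp hQ
    have h1 : (centralizer ({x₀} : Set G)).index ∣ (center G).index := Subgroup.index_dvd_of_le (hZle x₀)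
    rw [hx₀, Subgroup.index_eq_card, hm] at h1
    obtain ⟨j, -, hj⟩ := (Nat.dvd_prime_pow hp).mp h1
    exact ⟨j, hj⟩
  refine ⟨p, hpf, a, ha, ?_⟩
  intro P
  haveI hnil : Group.IsNilpotent (G ⧸ center G) := hQ.isNilpotent
  haveI hnil2 : Group.IsNilpotent G := of_quotient_center_nilpotent hnil
  have hPn : (P : Subgroup G).Normal := Sylow.normal_of_normalizerCondition normalizerCondition_of_isNilpotent P
  haveI := hPn
  have hcop : (Nat.card (P : Subgroup G)).Coprime (P : Subgroup G).index := P.card_coprime_index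
  obtain ⟨N, hN⟩ := Subgroup.exists_right_complement'_of_coprime hcop
  have hNZ : ∀ y ∈ N, y ∈ center G := by
    intro y hy
    apply hpartZ
    have h1 : orderOf y ∣ Nat.card N := Subgroup.orderOf_dvd_natCard N hy
    have h2 : (Nat.card N).Coprime p := by
      rw [← hN.symm.index_eq_card]
      exact ((Nat.Prime.coprime_iff_not_dvd hp).mpr P.not_dvd_index).symm
    exact Nat.Coprime.coprime_dvd_left h1 h2
  have ha0 : 1 ≤ a := by
    by_contra h0
    have : a = 0 := by omega
    rw [this, pow_zero] at ha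
    omega
  have hfact : ∀ g : G, ∃ a' ∈ (P : Subgroup G), ∃ b ∈ N, g = a' * b := by
    intro g
    have h1 : g ∈ (P : Subgroup G) ⊔ N := by rw [hN.sup_eq_top]; trivial
    rw [← SetLike.mem_coe, Subgroup.normal_mul, Set.mem_mul] at h1
    obtain ⟨a', ha', b, hb, hab⟩ := h1
    exact ⟨a', ha', b, hb, hab.symm⟩
  refine ⟨hPn, ⟨N, ⟨fun u hu g => ?_⟩, hN.symm, ⟨⟨fun a' b => ?_⟩⟩, fun x hx y _ => ?_⟩, center ↥(P : Subgroup G), inferInstance, inferInstance, fun y => ?_⟩
  · have h1 : g * u * g⁻¹ = u := by
      rw [Subgroup.mem_center_iff.mp (hNZ u hu) g]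
      group
    rw [h1]
    exact hu
  · exact Subtype.ext (Subgroup.mem_center_iff.mp (hNZ _ b.2) a')
  · exact (Subgroup.mem_center_iff.mp (hNZ x hx) y).symm
  · refine Lib.ItoRank.main_rank P.isPGroup' a ha0 (fun u => ?_) y
    have hidx : (centralizer ({u} : Set ↥(P : Subgroup G))).index = (centralizer ({(u : G)} : Set G)).index := by
      have h1 : centralizer ({u} : Set ↥(P : Subgroup G)) = (centralizer ({(u : G)} : Set G)).subgroupOf (P : Subgroup G) := by
        ext v
        rw [Subgroup.mem_subgroupOf, Subgroup.mem_centralizer_singleton_iff, Subgroup.mem_centralizer_singleton_iff]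
        constructor
        · intro hv
          exact congrArg Subtype.val hv
        · intro hv
          exact Subtype.ext hv
      rw [h1]
      refine Lib.FGSBasic.relIndex_eq_index_of_factorization (P : Subgroup G) _ (fun g => ?_)
      obtain ⟨a', ha', b, hb, rfl⟩ := hfact g
      exact ⟨a', ha', b, hZle _ (hNZ b hb), rfl⟩
    rw [hidx, ← ha]
    exact h u

end Cfsg.Agent.S4134
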