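import Cfsg.Statements.S4142
-- import your own Cfsg.Agent.* helpers here

set_option autoImplicit false
open Cfsg

namespace Cfsg.Agent.S4142

/-- Let G be a finite group and N a normal subgroup. Then the conjugacy class of every element g outside N is a union of cosets of N (gn is conjugate to g for all n ∈ N) if and only if for every g outside N the centralizer of g in G has the same order as the centralizer of gN in G/N. -/
theorem result {G : Type*} [Group G] [Finite G] (N : Subgroup G) [N.Normal] :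
    (∀ g : G, g ∉ N → ∀ n ∈ N, ∃ x : G, x * g * x⁻¹ = g * n) ↔
      ∀ g : G, g ∉ N → Nat.card (Subgroup.centralizer ({g} : Set G)) =
        Nat.card (Subgroup.centralizer ({(QuotientGroup.mk g : G ⧸ N)} : Set (G ⧸ N))) := by
  classical
  suffices key : ∀ g : G, g ∉ N →
      ((∀ n ∈ N, ∃ x : G, x * g * x⁻¹ = g * n) ↔ Nat.card (Subgroup.centralizer ({g} : Set G)) =
        Nat.card (Subgroup.centralizer ({(QuotientGroup.mk g : G ⧸ N)} : Set (G ⧸ N)))) by
    exact ⟨fun h g hg => (key g hg).mp (h g hg), fun h g hg => (key g hg).mpr (h g hg)⟩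
  intro g _
  set Cbar := Subgroup.centralizer ({(QuotientGroup.mk g : G ⧸ N)} : Set (G ⧸ N)) with hCbar
  set Ct : Subgroup G := Cbar.comap (QuotientGroup.mk' N) with hCt
  set C := Subgroup.centralizer ({g} : Set G) with hC
  have hCCt : C ≤ Ct := by
    intro x hx
    rw [hCt, Subgroup.mem_comap, hCbar, Subgroup.mem_centralizer_singleton_iff]
    have : x * g = g * x := Subgroup.mem_centralizer_singleton_iff.mp hx
    simp only [QuotientGroup.mk'_apply]
    rw [← QuotientGroup.mk_mul, ← QuotientGroup.mk_mul, this]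
  have hCtmem : ∀ x : G, x ∈ Ct ↔ g⁻¹ * (x * g * x⁻¹) ∈ N := by
    intro x
    rw [hCt, Subgroup.mem_comap, hCbar, Subgroup.mem_centralizer_singleton_iff]
    simp only [QuotientGroup.mk'_apply]
    rw [← QuotientGroup.eq_one_iff, QuotientGroup.mk_mul, QuotientGroup.mk_mul, QuotientGroup.mk_mul,
      QuotientGroup.mk_inv, QuotientGroup.mk_inv, inv_mul_eq_one, eq_mul_inv_iff_mul_eq]
    exact eq_comm
  let f : Ct → N := fun x => ⟨g⁻¹ * (x.1 * g * x.1⁻¹), (hCtmem x.1).mp x.2⟩
  have hf : ∀ x y : Ct, f x = f y ↔ x⁻¹ * y ∈ C.subgroupOf Ct := by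
    intro x y
    rw [Subgroup.mem_subgroupOf, Subtype.ext_iff]
    show g⁻¹ * (x.1 * g * x.1⁻¹) = g⁻¹ * (y.1 * g * y.1⁻¹) ↔ ((x⁻¹ * y : Ct) : G) ∈ C
    rw [hC, Subgroup.mem_centralizer_singleton_iff, mul_right_inj]
    show _ ↔ x.1⁻¹ * y.1 * g = g * (x.1⁻¹ * y.1)
    constructor
    · intro h
      have h1 : y.1 * g = x.1 * g * x.1⁻¹ * y.1 := by rw [h]; group
      calc x.1⁻¹ * y.1 * g = x.1⁻¹ * (y.1 * g) := by group
        _ = x.1⁻¹ * (x.1 * g * x.1⁻¹ * y.1) := by rw [h1]
        _ = g * (x.1⁻¹ * y.1) := by group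
    · intro h
      have h1 : y.1 * g = x.1 * (x.1⁻¹ * y.1 * g) := by group
      have h2 : y.1 * g * y.1⁻¹ = x.1 * g * x.1⁻¹ := by
        rw [h1, h]; group
      exact h2.symm
  let F : (Ct ⧸ C.subgroupOf Ct) → N := Quotient.lift f (by
    intro a b hab
    exact (hf a b).mpr (QuotientGroup.leftRel_apply.mp hab))
  have hFinj : Function.Injective F := by
    intro a b
    obtain ⟨x, rfl⟩ := QuotientGroup.mk_surjective a
    obtain ⟨y, rfl⟩ := QuotientGroup.mk_surjective b
    intro h
    have h1 : f x = f y := h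
    rw [QuotientGroup.eq]
    exact (hf x y).mp h1
  have hcardK : Nat.card (C.subgroupOf Ct) = Nat.card C :=
    Nat.card_congr (Subgroup.subgroupOfEquivOfLe hCCt).toEquiv
  have h1 : Nat.card C * (C.subgroupOf Ct).index = Nat.card Ct := by
    rw [← hcardK]; exact Subgroup.card_mul_index _
  have h2 : Nat.card Ct = Nat.card Cbar * Nat.card N := by
    have h3 := Subgroup.card_mul_index Ct
    have h4 := Subgroup.card_mul_index Cbar
    have h5 := Subgroup.card_mul_index N
    have h6 : Ct.index = Cbar.index := Subgroup.index_comap_of_surjective _ (QuotientGroup.mk'_surjective N)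
    have h7 : N.index = Nat.card (G ⧸ N) := rfl
    have hpos : 0 < Ct.index := Nat.pos_of_ne_zero Subgroup.index_ne_zero_of_finite
    apply Nat.eq_of_mul_eq_mul_right hpos
    rw [h3, ← h5, h7, ← h4, ← h6]
    ring
  have hNpos : 0 < Nat.card N := Nat.card_pos
  constructor
  · intro h
    have hs : Function.Surjective F := by
      intro n
      obtain ⟨x, hx⟩ := h n.1 n.2
      have hxC : x ∈ Ct := by
        rw [hCtmem, hx]
        simpa using n.2
      refine ⟨((⟨x, hxC⟩ : Ct) : Ct ⧸ C.subgroupOf Ct), ?_⟩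
      apply Subtype.ext
      show g⁻¹ * (x * g * x⁻¹) = n.1
      rw [hx]; group
    have h3 : (C.subgroupOf Ct).index = Nat.card N :=
      Nat.card_eq_of_bijective F ⟨hFinj, hs⟩
    rw [h3, h2] at h1
    exact Nat.eq_of_mul_eq_mul_right hNpos h1
  · intro h n hn
    have h3 : (C.subgroupOf Ct).index = Nat.card N := by
      have hCpos : 0 < Nat.card C := Nat.card_pos
      apply Nat.eq_of_mul_eq_mul_left hCpos
      rw [h1, h2, h]
    have hb : Function.Bijective F := (Nat.bijective_iff_injective_and_card F).mpr ⟨hFinj, h3⟩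
    obtain ⟨a, ha⟩ := hb.2 ⟨n, hn⟩
    obtain ⟨x, rfl⟩ := QuotientGroup.mk_surjective a
    refine ⟨x.1, ?_⟩
    have h4 : g⁻¹ * (x.1 * g * x.1⁻¹) = n := congrArg Subtype.val ha
    rw [← h4]; group

end Cfsg.Agent.S4142
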