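import Cfsg.Statements.S4143
import Mathlib
import Cfsg.Agent.Lib.H1Hall
import Cfsg.Agent.Lib.H1Quat
-- import your own Cfsg.Agent.* helpers here

set_option autoImplicit false
open Cfsg

namespace Cfsg.Agent.S4143

universe u

theorem aux_comm {X : Type*} [Group X] {x y a c : X} (h1 : y * a = c * a * y) (h2 : x * a = c * a * x) :
    (y⁻¹ * x) * a = a * (y⁻¹ * x) := by
  have h3 : a * y⁻¹ = y⁻¹ * (c * a) := by
    have : y⁻¹ * (y * a) * y⁻¹ = y⁻¹ * (c * a * y) * y⁻¹ := by rw [h1]
    simpa [mul_assoc] using this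
  calc (y⁻¹ * x) * a = y⁻¹ * (x * a) := by rw [mul_assoc]
    _ = y⁻¹ * (c * a) * x := by rw [h2]; simp only [mul_assoc]
    _ = a * y⁻¹ * x := by rw [h3]
    _ = a * (y⁻¹ * x) := by rw [mul_assoc]

theorem conj_lemma {X : Type*} [Group X] (u v ζ x : X) (i j : ℕ) (hζ : ∀ g : X, g * ζ = ζ * g)
    (huv : u * v * u⁻¹ * v⁻¹ = ζ) (hxu : x * u * x⁻¹ * u⁻¹ = ζ ^ i) (hxv : x * v * x⁻¹ * v⁻¹ = ζ ^ j) :
    ((v⁻¹ ^ i * u ^ j)⁻¹ * x) * u = u * ((v⁻¹ ^ i * u ^ j)⁻¹ * x) ∧
    ((v⁻¹ ^ i * u ^ j)⁻¹ * x) * v = v * ((v⁻¹ ^ i * u ^ j)⁻¹ * x) := by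
  have hζp : ∀ (k : ℕ) (g : X), g * ζ ^ k = ζ ^ k * g := by
    intro k g
    induction k with
    | zero => simp
    | succ k ih =>
      rw [pow_succ, ← mul_assoc, ih, mul_assoc, hζ, mul_assoc]
  have h1 : u * v = ζ * v * u := by
    rw [← huv]; group
  have hw : v⁻¹ * u = ζ * u * v⁻¹ := by
    have h2 : v⁻¹ * (ζ * v * u) * v⁻¹ = ζ * u * v⁻¹ := by
      rw [← mul_assoc v⁻¹ (ζ * v), ← mul_assoc v⁻¹ ζ, hζ v⁻¹]; group
    rw [← h2, ← h1]; group
  have c1 : ∀ k : ℕ, v⁻¹ ^ k * u = ζ ^ k * u * v⁻¹ ^ k := by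
    intro k
    induction k with
    | zero => simp
    | succ k ih =>
      calc v⁻¹ ^ (k+1) * u = v⁻¹ ^ k * (v⁻¹ * u) := by rw [pow_succ, mul_assoc]
        _ = v⁻¹ ^ k * (ζ * u * v⁻¹) := by rw [hw]
        _ = (v⁻¹ ^ k * ζ) * u * v⁻¹ := by simp only [mul_assoc]
        _ = ζ * (v⁻¹ ^ k * u) * v⁻¹ := by rw [hζ]; simp only [mul_assoc]
        _ = ζ * (ζ ^ k * u * v⁻¹ ^ k) * v⁻¹ := by rw [ih]
        _ = ζ ^ (k+1) * u * v⁻¹ ^ (k+1) := by rw [pow_succ' ζ k, pow_succ (v⁻¹) k]; simp only [mul_assoc]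
  have c2 : ∀ k : ℕ, u ^ k * v = ζ ^ k * v * u ^ k := by
    intro k
    induction k with
    | zero => simp
    | succ k ih =>
      calc u ^ (k+1) * v = u ^ k * (u * v) := by rw [pow_succ, mul_assoc]
        _ = u ^ k * (ζ * v * u) := by rw [h1]
        _ = (u ^ k * ζ) * v * u := by simp only [mul_assoc]
        _ = ζ * (u ^ k * v) * u := by rw [hζ]; simp only [mul_assoc]
        _ = ζ * (ζ ^ k * v * u ^ k) * u := by rw [ih]
        _ = ζ ^ (k+1) * v * u ^ (k+1) := by rw [pow_succ' ζ k, pow_succ u k]; simp only [mul_assoc]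
  have hxu' : x * u = ζ ^ i * u * x := by
    rw [← hxu]; group
  have hxv' : x * v = ζ ^ j * v * x := by
    rw [← hxv]; group
  constructor
  · apply aux_comm _ hxu'
    calc v⁻¹ ^ i * u ^ j * u = v⁻¹ ^ i * u * u ^ j := by rw [mul_assoc, ← pow_succ, pow_succ', mul_assoc]
      _ = ζ ^ i * u * v⁻¹ ^ i * u ^ j := by rw [c1]
      _ = ζ ^ i * u * (v⁻¹ ^ i * u ^ j) := by simp only [mul_assoc]
  · apply aux_comm _ hxv'
    have hcv : v⁻¹ ^ i * v = v * v⁻¹ ^ i := by
      have : Commute v⁻¹ v := by simp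
      exact (this.pow_left i).eq
    calc v⁻¹ ^ i * u ^ j * v = v⁻¹ ^ i * (u ^ j * v) := by rw [mul_assoc]
      _ = v⁻¹ ^ i * (ζ ^ j * v * u ^ j) := by rw [c2]
      _ = (v⁻¹ ^ i * ζ ^ j) * v * u ^ j := by simp only [mul_assoc]
      _ = ζ ^ j * (v⁻¹ ^ i * v) * u ^ j := by rw [hζp]; simp only [mul_assoc]
      _ = ζ ^ j * v * (v⁻¹ ^ i * u ^ j) := by rw [hcv]; simp only [mul_assoc]

theorem comm_of_small {Y : Type*} [Group Y] [Finite Y] {p : ℕ} [Fact p.Prime] {k : ℕ} (hk : k ≤ 2)
    (hY : Nat.card Y = p ^ k) (a b : Y) : a * b = b * a := by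
  interval_cases k
  · rw [pow_zero] at hY
    have := (Nat.card_eq_one_iff_unique.mp hY).1
    exact Subsingleton.elim _ _
  · rw [pow_one] at hY
    haveI := isCyclic_of_prime_card hY
    obtain ⟨g, hg⟩ := IsCyclic.exists_generator (α := Y)
    obtain ⟨i, rfl⟩ := Subgroup.mem_zpowers_iff.mp (hg a)
    obtain ⟨j, rfl⟩ := Subgroup.mem_zpowers_iff.mp (hg b)
    rw [← zpow_add, ← zpow_add, add_comm]
  · exact IsPGroup.commutative_of_card_eq_prime_sq hY a b

/-- The core computation. -/
theorem key_quot {X : Type*} [Group X] [Finite X] {p : ℕ} [hp : Fact p.Prime] (hXp : IsPGroup p X)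
    (B : Subgroup X) (hB : Nat.card B = p ^ 3) (hBna : ¬ IsMulCommutative B)
    (hC : Subgroup.centralizer (B : Set X) ≤ B) :
    Nat.card (Subgroup.center X) = p ∧ Subgroup.center X ≤ B ∧
      ∀ x : X, (∀ b ∈ B, x * b * x⁻¹ * b⁻¹ ∈ Subgroup.center X) → x ∈ B := by
  classical
  have hZB : Subgroup.center X ≤ B := by
    refine le_trans ?_ hC
    intro z hz
    rw [Subgroup.mem_centralizer_iff]
    intro b _
    exact (Subgroup.mem_center_iff.mp hz b)
  have hbp : IsPGroup p B := IsPGroup.of_card hB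
  haveI hBnt : Nontrivial B := by
    by_contra h
    rw [not_nontrivial_iff_subsingleton] at h
    exact hBna ⟨⟨fun a b => Subsingleton.elim _ _⟩⟩
  have hXnt : Nontrivial X := by
    obtain ⟨a, ha⟩ := exists_ne (1 : B)
    exact ⟨⟨(a : X), 1, fun h => ha (Subtype.ext h)⟩⟩
  obtain ⟨u, v, huv⟩ : ∃ u v : B, u * v ≠ v * u := by
    by_contra hcon
    push Not at hcon
    exact hBna ⟨⟨hcon⟩⟩
  set ZB : Subgroup B := Subgroup.center B with hZBdef
  have hZBcard : Nat.card ZB = p := by
    have hd : Nat.card ZB ∣ p ^ 3 := by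
      rw [← hB]; exact Subgroup.card_subgroup_dvd_card _
    obtain ⟨k, hk3, hk⟩ := (Nat.dvd_prime_pow hp.out).mp hd
    have h0 : k ≠ 0 := by
      rintro rfl
      rw [pow_zero] at hk
      have := hbp.center_nontrivial
      have h1 := (Nat.card_eq_one_iff_unique.mp hk).1
      exact not_subsingleton_iff_nontrivial.mpr this h1
    have h2 : k < 2 := by
      by_contra hk2
      push Not at hk2
      apply huv
      have hq : Nat.card (B ⧸ ZB) * Nat.card ZB = p ^ 3 := by
        rw [← Subgroup.card_eq_card_quotient_mul_card_subgroup, hB]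
      obtain ⟨m, hm3⟩ : ∃ m, 3 = k + m := ⟨3 - k, by omega⟩
      have hq' : Nat.card (B ⧸ ZB) = p ^ m := by
        rw [hk, hm3, pow_add, mul_comm (p ^ k)] at hq
        exact Nat.eq_of_mul_eq_mul_right (pow_pos hp.out.pos k) hq
      have hcyc : IsCyclic (B ⧸ ZB) := by
        have hm : m ≤ 1 := by omega
        interval_cases m
        · rw [pow_zero] at hq'
          have := (Nat.card_eq_one_iff_unique.mp hq').1
          infer_instance
        · rw [pow_one] at hq'
          exact isCyclic_of_prime_card hq'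
      exact commutative_of_cyclic_center_quotient (QuotientGroup.mk' ZB)
        (by rw [QuotientGroup.ker_mk']) u v
    have : k = 1 := by omega
    rw [hk, this, pow_one]
  -- commutators of B are central in B
  have hcomm : ∀ a b : B, a * b * a⁻¹ * b⁻¹ ∈ ZB := by
    intro a b
    have hq : Nat.card (B ⧸ ZB) = p ^ 2 := by
      have hq : Nat.card (B ⧸ ZB) * Nat.card ZB = p ^ 3 := by
        rw [← Subgroup.card_eq_card_quotient_mul_card_subgroup, hB]
      rw [hZBcard, pow_succ] at hq
      exact Nat.eq_of_mul_eq_mul_right hp.out.pos hq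
    have h := IsPGroup.commutative_of_card_eq_prime_sq hq (a : B ⧸ ZB) (b : B ⧸ ZB)
    rw [← QuotientGroup.eq_one_iff]
    simp only [QuotientGroup.mk_mul, QuotientGroup.mk_inv]
    rw [h]
    group
  -- the centre of X coincides with the centre of B
  obtain ⟨t, ht⟩ : ∃ t : Subgroup.center X, t ≠ 1 := by
    have := hXp.center_nontrivial
    exact exists_ne 1
  have htZB : (⟨(t : X), hZB t.2⟩ : B) ∈ ZB := by
    rw [Subgroup.mem_center_iff]
    intro g
    apply Subtype.ext
    exact Subgroup.mem_center_iff.mp t.2 g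
  have hZBeq : ∀ w ∈ ZB, (w : X) ∈ Subgroup.center X := by
    intro w hw
    have ht1 : (⟨(t : X), hZB t.2⟩ : B) ≠ 1 := by
      intro h
      apply ht
      apply Subtype.ext
      have h5 := congrArg Subtype.val h
      exact h5
    have hz : Subgroup.zpowers (⟨(t : X), hZB t.2⟩ : B) = ZB := by
      apply Subgroup.eq_of_le_of_card_ge (Subgroup.zpowers_le.mpr htZB)
      rw [hZBcard]
      rw [Nat.card_zpowers]
      have hd : orderOf (⟨(t : X), hZB t.2⟩ : B) ∣ p := by
        rw [← hZBcard]
        exact Subgroup.orderOf_dvd_natCard _ htZB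
      rcases (Nat.dvd_prime hp.out).mp hd with h | h
      · exact absurd (orderOf_eq_one_iff.mp h) ht1
      · exact h.ge
    rw [← hz] at hw
    obtain ⟨k, rfl⟩ := hw
    show ((⟨(t : X), hZB t.2⟩ : B) ^ k : B).1 ∈ _
    simp only [SubgroupClass.coe_zpow]
    exact zpow_mem t.2 k
  have hZcard : Nat.card (Subgroup.center X) = p := by
    rw [← hZBcard]
    have he : Subgroup.center X = ZB.map B.subtype := by
      ext x
      constructor
      · intro hx
        refine ⟨⟨x, hZB hx⟩, ?_, rfl⟩
        rw [SetLike.mem_coe, hZBdef, Subgroup.mem_center_iff]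
        intro g
        apply Subtype.ext
        exact Subgroup.mem_center_iff.mp hx g
      · rintro ⟨w, hw, rfl⟩
        exact hZBeq w hw
    rw [he]
    exact Nat.card_congr (Subgroup.equivMapOfInjective _ _ B.subtype_injective).symm.toEquiv
  refine ⟨hZcard, hZB, ?_⟩
  intro x hx
  set U : X := (u : X) with hU
  set V : X := (v : X) with hV
  set ζ : X := U * V * U⁻¹ * V⁻¹ with hζdef
  have hζZ : ζ ∈ Subgroup.center X := hZBeq _ (hcomm u v)
  have hζ1 : ζ ≠ 1 := by
    intro h
    apply huv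
    apply Subtype.ext
    have h2 : U * V * U⁻¹ * V⁻¹ * (V * U) = 1 * (V * U) := by rw [← hζdef, h]
    have h3 : U * V = V * U := by simpa [mul_assoc] using h2
    simpa using h3
  have hzp : Subgroup.zpowers ζ = Subgroup.center X := by
    apply Subgroup.eq_of_le_of_card_ge (Subgroup.zpowers_le.mpr hζZ)
    rw [hZcard, Nat.card_zpowers]
    have hd : orderOf ζ ∣ p := by
      rw [← hZcard]
      exact Subgroup.orderOf_dvd_natCard _ hζZ
    rcases (Nat.dvd_prime hp.out).mp hd with h | h
    · exact absurd (orderOf_eq_one_iff.mp h) hζ1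
    · exact h.ge
  obtain ⟨i, hi⟩ := Lib.H1Quat.exists_pow_of_mem_zpowers (x := ζ) (y := x * U * x⁻¹ * U⁻¹) (by rw [hzp]; exact hx U u.2)
  obtain ⟨j, hj⟩ := Lib.H1Quat.exists_pow_of_mem_zpowers (x := ζ) (y := x * V * x⁻¹ * V⁻¹) (by rw [hzp]; exact hx V v.2)
  have hζc : ∀ g : X, g * ζ = ζ * g := fun g => Subgroup.mem_center_iff.mp hζZ g
  obtain ⟨c1, c2⟩ := conj_lemma U V ζ x i j hζc rfl hi.symm hj.symm
  set y : X := V⁻¹ ^ i * U ^ j with hy
  have hyB : y ∈ B := mul_mem (pow_mem (inv_mem v.2) i) (pow_mem u.2 j)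
  -- closure of u, v is B
  set N₀ : Subgroup X := Subgroup.closure {U, V} with hN₀
  have hN₀B : N₀ ≤ B := by
    rw [hN₀, Subgroup.closure_le]
    rintro w (rfl | rfl)
    · exact u.2
    · exact v.2
  have hUN : U ∈ N₀ := Subgroup.subset_closure (by simp)
  have hVN : V ∈ N₀ := Subgroup.subset_closure (by simp)
  have hN₀eq : N₀ = B := by
    have hd : Nat.card N₀ ∣ p ^ 3 := by
      rw [← hB]; exact Subgroup.card_dvd_of_le hN₀B
    obtain ⟨k, hk3, hk⟩ := (Nat.dvd_prime_pow hp.out).mp hd
    by_cases hk2 : k ≤ 2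
    · exfalso
      have := comm_of_small hk2 hk ⟨U, hUN⟩ ⟨V, hVN⟩
      apply huv
      apply Subtype.ext
      simpa using congrArg Subtype.val this
    · apply Subgroup.eq_of_le_of_card_ge hN₀B
      have : k = 3 := by omega
      rw [hB, hk, this]
  set τ : X := y⁻¹ * x with hτ
  have hτc : τ ∈ Subgroup.centralizer (B : Set X) := by
    rw [Subgroup.mem_centralizer_iff]
    intro b hb
    have hb' : b ∈ N₀ := by rw [hN₀eq]; exact hb
    have hle : N₀ ≤ Subgroup.centralizer {τ} := by
      rw [hN₀, Subgroup.closure_le]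
      rintro w (rfl | rfl)
      · rw [SetLike.mem_coe, Subgroup.mem_centralizer_singleton_iff]
        exact c1.symm
      · rw [SetLike.mem_coe, Subgroup.mem_centralizer_singleton_iff]
        exact c2.symm
    have := hle hb'
    rw [Subgroup.mem_centralizer_singleton_iff] at this
    exact this
  have hτB : τ ∈ B := hC hτc
  have : x = y * τ := by rw [hτ]; group
  rw [this]
  exact mul_mem hyB hτB

theorem main_all {p : ℕ} [hp : Fact p.Prime] : ∀ (n : ℕ) (X : Type u) [Group X] [Finite X],
    Nat.card X = p ^ n → ∀ B : Subgroup X, Nat.card B = p ^ 3 → ¬ IsMulCommutative B →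
      Subgroup.centralizer (B : Set X) ≤ B → Group.nilpotencyClass X = n - 1 := by
  intro n
  induction n with
  | zero =>
    intro X _ _ hX B hB _ _
    rw [pow_zero] at hX
    have h1 : Nat.card B ∣ 1 := by rw [← hX]; exact Subgroup.card_subgroup_dvd_card _
    rw [hB] at h1
    have := Nat.eq_one_of_dvd_one h1
    have h2 : 1 < p ^ 3 := Nat.one_lt_pow (by norm_num) hp.out.one_lt
    omega
  | succ n ih =>
    intro X _ _ hX B hB hBna hC
    have hXp : IsPGroup p X := IsPGroup.of_card hX
    obtain ⟨hZ, hZB, hkey⟩ := key_quot hXp B hB hBna hC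
    have h3n : 3 ≤ n + 1 := by
      have hd : p ^ 3 ∣ p ^ (n + 1) := by
        rw [← hB, ← hX]; exact Subgroup.card_subgroup_dvd_card _
      exact (Nat.pow_dvd_pow_iff_le_right hp.out.one_lt).mp hd
    haveI : Group.IsNilpotent X := hXp.isNilpotent
    set Z := Subgroup.center X with hZdef
    set Gb := X ⧸ Z with hGb
    let mk : X →* Gb := QuotientGroup.mk' Z
    have hcardG : Nat.card Gb = p ^ n := by
      have h : Nat.card Gb * Nat.card Z = p ^ (n + 1) := by
        rw [← Subgroup.card_eq_card_quotient_mul_card_subgroup, hX]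
      rw [hZ, pow_succ] at h
      exact Nat.eq_of_mul_eq_mul_right hp.out.pos h
    set A : Subgroup Gb := B.map mk with hA
    have hcomap : A.comap mk = B := by
      rw [hA, Subgroup.comap_map_eq, sup_eq_left, QuotientGroup.ker_mk']
      exact hZB
    have hcardA : Nat.card A = p ^ 2 := by
      have h := Lib.H1Hall.card_comap_mk Z A
      rw [show A.comap (QuotientGroup.mk' Z) = B from hcomap, hB, hZ, pow_succ] at h
      exact (Nat.eq_of_mul_eq_mul_right hp.out.pos h).symm
    have hCA : Subgroup.centralizer (A : Set Gb) ≤ A := by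
      intro xb hxb
      obtain ⟨x, rfl⟩ := QuotientGroup.mk'_surjective Z xb
      have : x ∈ B := by
        apply hkey
        intro b hb
        rw [← QuotientGroup.eq_one_iff]
        have h2 := Subgroup.mem_centralizer_iff.mp hxb (mk b) ⟨b, hb, rfl⟩
        have h4 : ∀ a c : Gb, c * a = a * c → a * c * a⁻¹ * c⁻¹ = 1 := by
          intro a c h
          rw [← h]; group
        have h3 := h4 (mk x) (mk b) h2
        simp only [QuotientGroup.mk_mul, QuotientGroup.mk_inv]
        exact h3
      exact ⟨x, this, rfl⟩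
    -- the class of the quotient
    have hclass : Group.nilpotencyClass Gb = n - 1 := by
      by_cases hn2 : n = 2
      · subst hn2
        have hcomm : ∀ a b : Gb, a * b = b * a := IsPGroup.commutative_of_card_eq_prime_sq hcardG
        have hle : Group.nilpotencyClass Gb ≤ 1 := by
          rw [← upperCentralSeries_eq_top_iff_nilpotencyClass_le, upperCentralSeries_one,
            Subgroup.eq_top_iff']
          intro g
          rw [Subgroup.mem_center_iff]
          intro h
          exact hcomm h g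
        have hne : Group.nilpotencyClass Gb ≠ 0 := by
          intro h0
          haveI : Group.IsNilpotent Gb := (IsPGroup.of_card hcardG).isNilpotent
          rw [nilpotencyClass_zero_iff_subsingleton] at h0
          have : Nat.card Gb = 1 := Nat.card_eq_one_iff_unique.mpr ⟨h0, ⟨1⟩⟩
          rw [hcardG] at this
          have h2 : 1 < p ^ 2 := Nat.one_lt_pow (by norm_num) hp.out.one_lt
          omega
        show Group.nilpotencyClass Gb = 2 - 1
        omega
      · have hn3 : 3 ≤ n := by omega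
        have hdvd : p ^ (2 + 1) ∣ Nat.card Gb := by
          rw [hcardG]; exact pow_dvd_pow p hn3
        obtain ⟨N, hNc, hAN⟩ := Sylow.exists_subgroup_card_pow_succ hdvd hcardA
        refine ih Gb hcardG N hNc ?_ ?_
        · intro hab
          have hle : N ≤ Subgroup.centralizer (A : Set Gb) := by
            intro w hw
            rw [Subgroup.mem_centralizer_iff]
            intro a ha
            have := hab.is_comm.comm ⟨a, hAN ha⟩ ⟨w, hw⟩
            exact congrArg Subtype.val this
          have hle2 : N ≤ A := hle.trans hCA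
          have := Subgroup.card_le_of_le hle2
          rw [hNc, hcardA] at this
          have h4 : p ^ 2 < p ^ (2 + 1) := Nat.pow_lt_pow_right hp.out.one_lt (by norm_num)
          omega
        · exact (Subgroup.centralizer_le (by exact_mod_cast hAN)).trans (hCA.trans hAN)
    have h := nilpotencyClass_quotient_center (G := X)
    show Group.nilpotencyClass X = n + 1 - 1
    have hh : Group.nilpotencyClass X - 1 = n - 1 := by rw [← h]; exact hclass
    omega

/-- Let X be a finite p-group of order p^n containing a non-abelian subgroup B of order p³ with C_X(B) ≤ B. Then X has nilpotency class n − 1 (maximal class). -/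
theorem result {X : Type*} [Group X] [Finite X] {p : ℕ} [Fact p.Prime] (n : ℕ) (hX : Nat.card X = p ^ n)
    (B : Subgroup X) (hB : Nat.card B = p ^ 3) (hBna : ¬ IsMulCommutative B) (hC : Subgroup.centralizer (B : Set X) ≤ B) :
    Group.nilpotencyClass X = n - 1 := by
  exact main_all n X hX B hB hBna hC

end Cfsg.Agent.S4143
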