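import Cfsg.Statements.S4152
import Cfsg.Agent.Lib.FGS3
-- import your own Cfsg.Agent.* helpers here

set_option autoImplicit false
open Cfsg

namespace Cfsg.Agent.S4152

variable {G : Type*} [Group G] [Finite G]

/-- π-element -/
def IsPi (π : Set ℕ) {X : Type*} [Group X] (g : X) : Prop :=
  ∀ q : ℕ, q.Prime → q ∣ orderOf g → q ∈ π

lemma P_mk (π : Set ℕ) {X : Type*} [Group X] (g : X) :
    (∀ q : ℕ, q.Prime → (∃ h : X, ConjClasses.mk h = ConjClasses.mk g ∧ q ∣ orderOf h) → q ∈ π) ↔ IsPi π g := by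
  constructor
  · intro h q hq hd
    exact h q hq ⟨g, rfl, hd⟩
  · intro h q hq ⟨k, hk, hd⟩
    apply h q hq
    rw [ConjClasses.mk_eq_mk_iff_isConj, isConj_iff] at hk
    obtain ⟨c, rfl⟩ := hk
    rwa [Lib.FGSBasic.orderOf_conj]

lemma isPi_conj (π : Set ℕ) {X : Type*} [Group X] (g c : X) (h : IsPi π g) : IsPi π (c * g * c⁻¹) := by
  intro q hq hd
  rw [Lib.FGSBasic.orderOf_conj] at hd
  exact h q hq hd

/-- the set of π-elements in a coset -/
def XX (N : Subgroup G) (π : Set ℕ) (x : G) : Set G := {w | x⁻¹ * w ∈ N ∧ IsPi π w}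

lemma XX_conj (N : Subgroup G) [hN : N.Normal] (π : Set ℕ) (x : G) (n : N) (w : G) (hw : w ∈ XX N π x) :
    (n : G) * w * (n : G)⁻¹ ∈ XX N π x := by
  refine ⟨?_, isPi_conj π w n hw.2⟩
  have h1 : x⁻¹ * ((n : G) * w * (n : G)⁻¹) = (x⁻¹ * n * x) * (x⁻¹ * w) * (n : G)⁻¹ := by group
  rw [h1]
  refine N.mul_mem (N.mul_mem ?_ hw.1) (N.inv_mem n.2)
  have := hN.conj_mem n n.2 x⁻¹
  simpa using this

/-- conjugation action -/
noncomputable def act (N : Subgroup G) [N.Normal] (π : Set ℕ) (x : G) : MulAction N (XX N π x) where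
  smul n w := ⟨(n : G) * w * (n : G)⁻¹, XX_conj N π x n w w.2⟩
  one_smul w := by
    apply Subtype.ext
    show ((1 : N) : G) * w * ((1 : N) : G)⁻¹ = w
    simp
  mul_smul a b w := by
    apply Subtype.ext
    show ((a * b : N) : G) * w * ((a * b : N) : G)⁻¹ = (a : G) * ((b : G) * w * (b : G)⁻¹) * (a : G)⁻¹
    simp only [Subgroup.coe_mul]
    group

lemma burnside {N X : Type*} [Group N] [Finite N] [Finite X] [MulAction N X] :
    Nat.card (MulAction.orbitRel.Quotient N X) * Nat.card N = Nat.card {p : N × X // p.1 • p.2 = p.2} := by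
  have e1 := Nat.card_congr (MulAction.sigmaFixedByEquivOrbitsProdGroup N X)
  have e2 := Nat.card_congr (Equiv.subtypeProdEquivSigmaSubtype (fun (a : N) (b : X) => a • b = b))
  rw [← Nat.card_prod, ← e1, e2]
  rfl

lemma decomp_unique (π : Set ℕ) {u v u' v' : G} (hu : IsPi π u) (hu' : IsPi π u')
    (hv : ∀ q : ℕ, q.Prime → q ∣ orderOf v → q ∉ π) (hv' : ∀ q : ℕ, q.Prime → q ∣ orderOf v' → q ∉ π)
    (hc : Commute u v) (hc' : Commute u' v') (h : u * v = u' * v') : u = u' ∧ v = v' := by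
  obtain ⟨A, B, hAB, hcop, hA, hB⟩ := Lib.FGS3.nat_split π (orderOf u * orderOf v * orderOf u' * orderOf v')
    (by simp [orderOf_pos, (orderOf_pos _).ne'])
  have hdvdA : ∀ w : G, IsPi π w → orderOf w ∣ A * B → orderOf w ∣ A := by
    intro w hw hd
    apply Nat.Coprime.dvd_of_dvd_mul_right _ hd
    apply Nat.coprime_of_dvd
    intro r hr h1 h2
    exact hB r hr h2 (hw r hr h1)
  have hdvdB : ∀ w : G, (∀ q : ℕ, q.Prime → q ∣ orderOf w → q ∉ π) → orderOf w ∣ A * B → orderOf w ∣ B := by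
    intro w hw hd
    apply Nat.Coprime.dvd_of_dvd_mul_left _ hd
    apply Nat.coprime_of_dvd
    intro r hr h1 h2
    exact hw r hr h1 (hA r hr h2)
  have h1 : orderOf u ∣ A := hdvdA u hu (by rw [hAB]; exact ⟨orderOf v * orderOf u' * orderOf v', by ring⟩)
  have h2 : orderOf u' ∣ A := hdvdA u' hu' (by rw [hAB]; exact ⟨orderOf u * orderOf v * orderOf v', by ring⟩)
  have h3 : orderOf v ∣ B := hdvdB v hv (by rw [hAB]; exact ⟨orderOf u * orderOf u' * orderOf v', by ring⟩)
  have h4 : orderOf v' ∣ B := hdvdB v' hv' (by rw [hAB]; exact ⟨orderOf u * orderOf v * orderOf u', by ring⟩)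
  -- Bezout
  have hbez : ((A.gcdA B) * (A : ℤ) + (A.gcdB B) * (B : ℤ)) = 1 := by
    have := Nat.gcd_eq_gcd_ab A B
    rw [hcop] at this
    push_cast at this
    linarith
  have key : ∀ (s t : G), Commute s t → orderOf s ∣ A → orderOf t ∣ B → (s * t) ^ ((A.gcdB B) * (B : ℤ)) = s := by
    intro s t hst hs ht
    rw [hst.mul_zpow]
    have h5 : s ^ A = 1 := orderOf_dvd_iff_pow_eq_one.mp hs
    have h6 : t ^ B = 1 := orderOf_dvd_iff_pow_eq_one.mp ht
    have h7 : t ^ ((A.gcdB B) * (B : ℤ)) = 1 := by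
      rw [mul_comm, zpow_mul, zpow_natCast, h6, one_zpow]
    have h8 : (A.gcdB B) * (B : ℤ) = 1 - (A.gcdA B) * (A : ℤ) := by linarith
    have h9 : s ^ ((A.gcdB B) * (B : ℤ)) = s := by
      rw [h8, sub_eq_add_neg, zpow_add, zpow_one, mul_comm (A.gcdA B : ℤ), ← mul_neg, zpow_mul, zpow_natCast, h5, one_zpow, mul_one]
    rw [h7, h9, mul_one]
  have h5 := key u v hc h1 h3
  have h6 := key u' v' hc' h2 h4
  rw [h] at h5
  have hu_eq : u = u' := h5.symm.trans h6
  refine ⟨hu_eq, ?_⟩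
  rw [hu_eq] at h
  exact mul_left_cancel h

lemma pairs_le (N : Subgroup G) [hN : N.Normal] (π : Set ℕ) (x : G) :
    letI := act N π x
    letI := act N π 1
    Nat.card {p : N × XX N π x // p.1 • p.2 = p.2} ≤ Nat.card {p : N × XX N π 1 // p.1 • p.2 = p.2} := by
  classical
  letI := act N π x
  letI := act N π 1
  choose A B hA hB hAB hApi hBpi using fun g : G => Lib.FGS3.exists_pi_decomp π g
  have hcomm_of : ∀ n w : G, (n : G) * w * n⁻¹ = w → ∀ z ∈ Subgroup.zpowers n, z * w = w * z := by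
    intro n w h z hz
    have h1 : n ∈ Subgroup.centralizer ({w} : Set G) := by
      rw [Subgroup.mem_centralizer_singleton_iff]
      have := congrArg (· * n) h
      simpa using this
    have h2 : z ∈ Subgroup.centralizer ({w} : Set G) := by
      have h3 : Subgroup.zpowers n ≤ Subgroup.centralizer ({w} : Set G) := by
        rw [Subgroup.zpowers_le]
        exact h1
      exact h3 hz
    exact Subgroup.mem_centralizer_singleton_iff.mp h2
  have hcommAB : ∀ n : G, Commute (A n) (B n) := by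
    intro n
    obtain ⟨i, hi⟩ := hA n
    obtain ⟨j, hj⟩ := hB n
    show A n * B n = B n * A n
    rw [← hi, ← hj]
    exact (zpow_mul_comm n i j)
  -- base points
  let c : G → G := fun a => if h : ∃ y : G, x⁻¹ * y ∈ N ∧ y * a = a * y then h.choose else 1
  have hc : ∀ a y : G, x⁻¹ * y ∈ N → y * a = a * y → x⁻¹ * c a ∈ N ∧ c a * a = a * c a := by
    intro a y h1 h2
    have h : ∃ y : G, x⁻¹ * y ∈ N ∧ y * a = a * y := ⟨y, h1, h2⟩
    simp only [c, dif_pos h]
    exact h.choose_spec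
  have hNmem : ∀ n : G, n ∈ N → ∀ z ∈ Subgroup.zpowers n, z ∈ N := by
    intro n hn z hz
    have : Subgroup.zpowers n ≤ N := by
      rw [Subgroup.zpowers_le]
      exact hn
    exact this hz
  -- the map
  have hdata : ∀ p : {p : N × XX N π x // p.1 • p.2 = p.2},
      let n : G := (p.1.1 : G)
      let w : G := (p.1.2 : G)
      n * w * n⁻¹ = w := by
    intro p
    exact congrArg Subtype.val p.2
  have hY : ∀ p : {p : N × XX N π x // p.1 • p.2 = p.2},
      let n : G := (p.1.1 : G)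
      let w : G := (p.1.2 : G)
      x⁻¹ * (w * B n) ∈ N ∧ (w * B n) * A n = A n * (w * B n) := by
    intro p
    intro n w
    have h0 := hdata p
    have hw := p.1.2.2
    constructor
    · have : x⁻¹ * (w * B n) = (x⁻¹ * w) * B n := by group
      rw [this]
      exact N.mul_mem hw.1 (hNmem n p.1.1.2 _ (hB n))
    · have h1 := hcomm_of n w h0 (A n) (hA n)
      have h2 := (hcommAB n).eq
      calc w * B n * A n = w * (B n * A n) := by group
        _ = w * (A n * B n) := by rw [h2]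
        _ = (w * A n) * B n := by group
        _ = (A n * w) * B n := by rw [h1]
        _ = A n * (w * B n) := by group
  let f : {p : N × XX N π x // p.1 • p.2 = p.2} → {p : N × XX N π 1 // p.1 • p.2 = p.2} := fun p =>
    let n : G := (p.1.1 : G)
    let w : G := (p.1.2 : G)
    let a := A n
    let y := w * B n
    have hy := hY p
    have hca := hc a y hy.1 hy.2
    have hzN : (c a)⁻¹ * y ∈ N := by
      have : (c a)⁻¹ * y = (x⁻¹ * c a)⁻¹ * (x⁻¹ * y) := by group
      rw [this]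
      exact N.mul_mem (N.inv_mem hca.1) hy.1
    have haX : a ∈ XX N π 1 := by
      refine ⟨?_, hApi n⟩
      rw [inv_one, one_mul]
      exact hNmem n p.1.1.2 _ (hA n)
    ⟨(⟨(c a)⁻¹ * y, hzN⟩, ⟨a, haX⟩), by
      apply Subtype.ext
      show ((c a)⁻¹ * y) * a * ((c a)⁻¹ * y)⁻¹ = a
      have h1 : y * a = a * y := hy.2
      have h2 : c a * a = a * c a := hca.2
      have h3 : (c a)⁻¹ * a = a * (c a)⁻¹ := by
        have : (c a)⁻¹ * (c a * a) * (c a)⁻¹ = (c a)⁻¹ * (a * c a) * (c a)⁻¹ := by rw [h2]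
        simpa [mul_assoc] using this.symm
      calc ((c a)⁻¹ * y) * a * ((c a)⁻¹ * y)⁻¹ = (c a)⁻¹ * (y * a) * y⁻¹ * c a := by group
        _ = (c a)⁻¹ * (a * y) * y⁻¹ * c a := by rw [h1]
        _ = ((c a)⁻¹ * a) * c a := by group
        _ = a * (c a)⁻¹ * c a := by rw [h3]
        _ = a := by group⟩
  have hinj : Function.Injective f := by
    rintro ⟨⟨n, w⟩, hp⟩ ⟨⟨n', w'⟩, hp'⟩ hff
    have h1 := congrArg (fun q => ((q.1.2 : XX N π 1) : G)) hff
    have h2 := congrArg (fun q => ((q.1.1 : N) : G)) hff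
    simp only [f] at h1 h2
    rw [h1] at h2
    have h3 := mul_left_cancel h2
    have h00 := hdata ⟨⟨n, w⟩, hp⟩
    have h00' := hdata ⟨⟨n', w'⟩, hp'⟩
    simp only at h00 h00'
    have hcw : Commute (w : G) (B (n : G)) :=
      (hcomm_of n w h00 (B n) (hB n)).symm
    have hcw' : Commute (w' : G) (B (n' : G)) :=
      (hcomm_of n' w' h00' (B n') (hB n')).symm
    obtain ⟨h4, h5⟩ := decomp_unique π w.2.2 w'.2.2 (hBpi n) (hBpi n') hcw hcw' h3
    have h6 : (n : G) = n' := by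
      rw [← hAB n, ← hAB n', h1, h5]
    apply Subtype.ext
    apply Prod.ext
    · exact Subtype.ext h6
    · exact Subtype.ext h4
  exact Nat.card_le_card_of_injective f hinj

lemma orbits_one_le (N : Subgroup G) [hN : N.Normal] (π : Set ℕ) :
    letI := act N π 1
    Nat.card (MulAction.orbitRel.Quotient N (XX N π 1)) ≤
      Nat.card {C : ConjClasses N // ∀ q : ℕ, q.Prime → (∃ g : N, ConjClasses.mk g = C ∧ q ∣ orderOf g) → q ∈ π} := by
  classical
  letI := act N π 1
  have hmem : ∀ a : XX N π 1, (a : G) ∈ N := by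
    intro a
    have := a.2.1
    simpa using this
  have hord : ∀ a : XX N π 1, IsPi π (⟨a, hmem a⟩ : N) := by
    intro a q hq hd
    rw [Subgroup.orderOf_mk] at hd
    exact a.2.2 q hq hd
  let f0 : XX N π 1 → {C : ConjClasses N // ∀ q : ℕ, q.Prime → (∃ g : N, ConjClasses.mk g = C ∧ q ∣ orderOf g) → q ∈ π} :=
    fun a => ⟨ConjClasses.mk ⟨a, hmem a⟩, (P_mk π _).mpr (hord a)⟩
  have hf0 : ∀ a b : XX N π 1, MulAction.orbitRel N (XX N π 1) a b → f0 a = f0 b := by
    intro a b ⟨n, hn⟩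
    apply Subtype.ext
    show ConjClasses.mk _ = ConjClasses.mk _
    rw [ConjClasses.mk_eq_mk_iff_isConj, isConj_iff]
    refine ⟨n⁻¹, ?_⟩
    apply Subtype.ext
    have h1 : (n : G) * (b : G) * (n : G)⁻¹ = a := congrArg Subtype.val hn
    show ((n : G))⁻¹ * (a : G) * ((n : G)⁻¹)⁻¹ = b
    rw [← h1]
    group
  let f : MulAction.orbitRel.Quotient N (XX N π 1) → {C : ConjClasses N // ∀ q : ℕ, q.Prime → (∃ g : N, ConjClasses.mk g = C ∧ q ∣ orderOf g) → q ∈ π} :=
    Quotient.lift f0 hf0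
  apply Nat.card_le_card_of_injective f
  intro a b hab
  induction a using Quotient.inductionOn with | _ a =>
  induction b using Quotient.inductionOn with | _ b =>
  apply Quotient.sound
  have h1 : f0 a = f0 b := hab
  have h2 := congrArg Subtype.val h1
  have h3 : ConjClasses.mk (⟨a, hmem a⟩ : N) = ConjClasses.mk (⟨b, hmem b⟩ : N) := h2
  rw [ConjClasses.mk_eq_mk_iff_isConj, isConj_iff] at h3
  obtain ⟨n, hn⟩ := h3
  refine ⟨n⁻¹, ?_⟩
  apply Subtype.ext
  have h4 : (n : G) * (a : G) * (n : G)⁻¹ = b := congrArg Subtype.val hn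
  show ((n⁻¹ : N) : G) * (b : G) * ((n⁻¹ : N) : G)⁻¹ = a
  rw [← h4]
  simp only [Subgroup.coe_inv]
  group

lemma fiber_le (N : Subgroup G) [hN : N.Normal] (π : Set ℕ) (x : G) :
    letI := act N π x
    Nat.card {C : {C : ConjClasses G // ∀ q : ℕ, q.Prime → (∃ g : G, ConjClasses.mk g = C ∧ q ∣ orderOf g) → q ∈ π} //
        ConjClasses.map (QuotientGroup.mk' N) C.1 = ConjClasses.mk (x : G ⧸ N)} ≤
      Nat.card (MulAction.orbitRel.Quotient N (XX N π x)) := by
  classical
  letI := act N π x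
  have hπ : ∀ w : XX N π x, ((w : G) : G ⧸ N) = (x : G ⧸ N) := by
    intro w
    exact (QuotientGroup.eq.mpr w.2.1).symm
  let f0 : XX N π x → {C : {C : ConjClasses G // ∀ q : ℕ, q.Prime → (∃ g : G, ConjClasses.mk g = C ∧ q ∣ orderOf g) → q ∈ π} //
        ConjClasses.map (QuotientGroup.mk' N) C.1 = ConjClasses.mk (x : G ⧸ N)} :=
    fun w => ⟨⟨ConjClasses.mk (w : G), (P_mk π _).mpr w.2.2⟩, by
      show ConjClasses.mk (QuotientGroup.mk' N (w : G)) = _
      rw [QuotientGroup.mk'_apply, hπ]⟩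
  have hf0 : ∀ a b : XX N π x, MulAction.orbitRel N (XX N π x) a b → f0 a = f0 b := by
    intro a b ⟨n, hn⟩
    apply Subtype.ext
    apply Subtype.ext
    show ConjClasses.mk _ = ConjClasses.mk _
    rw [ConjClasses.mk_eq_mk_iff_isConj, isConj_iff]
    refine ⟨(n : G)⁻¹, ?_⟩
    have h1 : (n : G) * (b : G) * (n : G)⁻¹ = a := congrArg Subtype.val hn
    rw [← h1]
    group
  let f : MulAction.orbitRel.Quotient N (XX N π x) → {C : {C : ConjClasses G // ∀ q : ℕ, q.Prime → (∃ g : G, ConjClasses.mk g = C ∧ q ∣ orderOf g) → q ∈ π} //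
        ConjClasses.map (QuotientGroup.mk' N) C.1 = ConjClasses.mk (x : G ⧸ N)} :=
    Quotient.lift f0 hf0
  apply Nat.card_le_card_of_surjective f
  rintro ⟨⟨C, hC⟩, hCm⟩
  induction C using Quotient.inductionOn with | _ g =>
  have hg : IsPi π g := (P_mk π g).mp hC
  have h1 : ConjClasses.mk ((g : G) : G ⧸ N) = ConjClasses.mk (x : G ⧸ N) := hCm
  rw [ConjClasses.mk_eq_mk_iff_isConj, isConj_iff] at h1
  obtain ⟨c, hc⟩ := h1
  obtain ⟨c', rfl⟩ := QuotientGroup.mk_surjective c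
  have hw : c' * g * c'⁻¹ ∈ XX N π x := by
    refine ⟨?_, isPi_conj π g c' hg⟩
    apply QuotientGroup.eq.mp
    rw [← hc]
    rfl
  refine ⟨Quotient.mk _ ⟨_, hw⟩, ?_⟩
  apply Subtype.ext
  apply Subtype.ext
  show ConjClasses.mk (c' * g * c'⁻¹) = ConjClasses.mk g
  rw [ConjClasses.mk_eq_mk_iff_isConj, isConj_iff]
  exact ⟨c'⁻¹, by group⟩

/-- Let G be a finite group, N a normal subgroup and π a set of primes. Then the number of conjugacy classes of π-elements of G (elements whose order is divisible only by primes in π) is at most the number of conjugacy classes of π-elements of N (under conjugation by N) times the number of conjugacy classes of π-elements of G/N. -/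
theorem result {G : Type*} [Group G] [Finite G] (N : Subgroup G) [N.Normal] (π : Set ℕ) :
    Nat.card {C : ConjClasses G // ∀ q : ℕ, q.Prime → (∃ g : G, ConjClasses.mk g = C ∧ q ∣ orderOf g) → q ∈ π} ≤ Nat.card {C : ConjClasses N // ∀ q : ℕ, q.Prime → (∃ g : N, ConjClasses.mk g = C ∧ q ∣ orderOf g) → q ∈ π} * Nat.card {C : ConjClasses (G ⧸ N) // ∀ q : ℕ, q.Prime → (∃ g : (G ⧸ N), ConjClasses.mk g = C ∧ q ∣ orderOf g) → q ∈ π} := by
  classical
  letI a1 := act N π 1
  set K := Nat.card {C : ConjClasses N // ∀ q : ℕ, q.Prime → (∃ g : N, ConjClasses.mk g = C ∧ q ∣ orderOf g) → q ∈ π} with hK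
  have hNpos : 0 < Nat.card N := Nat.card_pos
  have hfib : ∀ x : G, Nat.card {C : {C : ConjClasses G // ∀ q : ℕ, q.Prime → (∃ g : G, ConjClasses.mk g = C ∧ q ∣ orderOf g) → q ∈ π} //
        ConjClasses.map (QuotientGroup.mk' N) C.1 = ConjClasses.mk (x : G ⧸ N)} ≤ K := by
    intro x
    letI a2 := act N π x
    have h1 := fiber_le N π x
    have h2 := pairs_le N π x
    have h3 := orbits_one_le N π
    have h4 := @burnside N (XX N π x) _ _ _ a2
    have h5 := @burnside N (XX N π 1) _ _ _ a1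
    have h6 : Nat.card (MulAction.orbitRel.Quotient N (XX N π x)) ≤ Nat.card (MulAction.orbitRel.Quotient N (XX N π 1)) := by
      apply Nat.le_of_mul_le_mul_right _ hNpos
      rw [h4, h5]
      exact h2
    exact h1.trans (h6.trans h3)
  -- the map to classes of the quotient
  have hmap : ∀ C : {C : ConjClasses G // ∀ q : ℕ, q.Prime → (∃ g : G, ConjClasses.mk g = C ∧ q ∣ orderOf g) → q ∈ π},
      ∀ q : ℕ, q.Prime → (∃ g : (G ⧸ N), ConjClasses.mk g = ConjClasses.map (QuotientGroup.mk' N) C.1 ∧ q ∣ orderOf g) → q ∈ π := by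
    rintro ⟨C, hC⟩
    induction C using Quotient.inductionOn with | _ g =>
    have hg : IsPi π g := (P_mk π g).mp hC
    have : ConjClasses.map (QuotientGroup.mk' N) (ConjClasses.mk g) = ConjClasses.mk ((g : G) : G ⧸ N) := rfl
    show ∀ q : ℕ, q.Prime → (∃ h : (G ⧸ N), ConjClasses.mk h = ConjClasses.map (QuotientGroup.mk' N) (ConjClasses.mk g) ∧ q ∣ orderOf h) → q ∈ π
    rw [this, P_mk]
    intro q hq hd
    exact hg q hq (hd.trans (orderOf_map_dvd (QuotientGroup.mk' N) g))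
  let Φ : {C : ConjClasses G // ∀ q : ℕ, q.Prime → (∃ g : G, ConjClasses.mk g = C ∧ q ∣ orderOf g) → q ∈ π} →
      {C : ConjClasses (G ⧸ N) // ∀ q : ℕ, q.Prime → (∃ g : (G ⧸ N), ConjClasses.mk g = C ∧ q ∣ orderOf g) → q ∈ π} :=
    fun C => ⟨ConjClasses.map (QuotientGroup.mk' N) C.1, hmap C⟩
  have hfib2 : ∀ u : {C : ConjClasses (G ⧸ N) // ∀ q : ℕ, q.Prime → (∃ g : (G ⧸ N), ConjClasses.mk g = C ∧ q ∣ orderOf g) → q ∈ π},
      Nat.card {t // Φ t = u} ≤ K := by
    rintro ⟨D, hD⟩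
    induction D using Quotient.inductionOn with | _ xb =>
    obtain ⟨x, rfl⟩ := QuotientGroup.mk_surjective xb
    refine le_trans (le_of_eq ?_) (hfib x)
    apply Nat.card_congr
    apply Equiv.subtypeEquivRight
    intro t
    constructor
    · intro h
      exact congrArg Subtype.val h
    · intro h
      exact Subtype.ext h
  letI : Fintype {C : ConjClasses (G ⧸ N) // ∀ q : ℕ, q.Prime → (∃ g : (G ⧸ N), ConjClasses.mk g = C ∧ q ∣ orderOf g) → q ∈ π} := Fintype.ofFinite _
  have hsum := Nat.card_congr (Equiv.sigmaFiberEquiv Φ)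
  rw [← hsum, Nat.card_sigma]
  calc ∑ u, Nat.card {t // Φ t = u} ≤ ∑ _u : {C : ConjClasses (G ⧸ N) // ∀ q : ℕ, q.Prime → (∃ g : (G ⧸ N), ConjClasses.mk g = C ∧ q ∣ orderOf g) → q ∈ π}, K :=
        Finset.sum_le_sum (fun u _ => hfib2 u)
    _ = K * Nat.card {C : ConjClasses (G ⧸ N) // ∀ q : ℕ, q.Prime → (∃ g : (G ⧸ N), ConjClasses.mk g = C ∧ q ∣ orderOf g) → q ∈ π} := by
        rw [Finset.sum_const, Finset.card_univ, Nat.card_eq_fintype_card, smul_eq_mul, mul_comm]

end Cfsg.Agent.S4152
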