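import Cfsg.Statements.S4153
import Mathlib
import Cfsg.Agent.Lib.FGS3
import Cfsg.Agent.Lib.ExtraIdx
-- import your own Cfsg.Agent.* helpers here

set_option autoImplicit false
open Cfsg

namespace Cfsg.Agent.S4153

theorem card_map_mul {G : Type*} [Group G] [Finite G] (N : Subgroup G) [N.Normal] (Q : Subgroup G) :
    Nat.card (N ⊓ Q : Subgroup G) * Nat.card (Q.map (QuotientGroup.mk' N)) = Nat.card Q := by
  have h1 := Lib.ExtraIdx.card_inf_mul_relIndex N Q
  have h2 : N.relIndex Q = Nat.card (Q.map (QuotientGroup.mk' N)) := by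
    have h3 := Subgroup.index_ker ((QuotientGroup.mk' N).comp Q.subtype)
    have h4 : ((QuotientGroup.mk' N).comp Q.subtype).ker = N.subgroupOf Q := by
      ext x
      simp [MonoidHom.mem_ker, Subgroup.mem_subgroupOf]
    have h5 : ((QuotientGroup.mk' N).comp Q.subtype).range = Q.map (QuotientGroup.mk' N) := by
      rw [MonoidHom.range_comp, Subgroup.range_subtype]
    rw [h4, h5] at h3
    exact h3
  rw [← h2, h1]

theorem pel_quot {G : Type*} [Group G] [Finite G] (p : ℕ) [Fact p.Prime] (N : Subgroup G) [N.Normal] (g : G)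
    (hg : ∃ k : ℕ, orderOf g = p ^ k) : ∃ k : ℕ, orderOf ((g : G) : G ⧸ N) = p ^ k := by
  obtain ⟨k, hk⟩ := hg
  have h1 : orderOf ((g : G) : G ⧸ N) ∣ p ^ k := by
    rw [← hk]
    exact orderOf_map_dvd (QuotientGroup.mk' N) g
  obtain ⟨j, -, hj⟩ := (Nat.dvd_prime_pow (Fact.out : p.Prime)).mp h1
  exact ⟨j, hj⟩

theorem exists_lift_pel {G : Type*} [Group G] [Finite G] (p : ℕ) [Fact p.Prime] (N : Subgroup G) [N.Normal]
    (y : G ⧸ N) (hy : ∃ k : ℕ, orderOf y = p ^ k) : ∃ g : G, ((g : G) : G ⧸ N) = y ∧ ∃ k : ℕ, orderOf g = p ^ k := by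
  have hpp : p.Prime := Fact.out
  obtain ⟨x, hx, hx2⟩ := Lib.FGS3.exists_lift_pi N {p} y (by
    rintro r hr hd
    obtain ⟨k, hk⟩ := hy
    rw [hk] at hd
    exact (Nat.prime_dvd_prime_iff_eq hr hpp).mp (hr.dvd_of_dvd_pow hd))
  refine ⟨x, hx, ?_⟩
  have hne : orderOf x ≠ 0 := (orderOf_pos x).ne'
  exact ⟨_, Nat.eq_prime_pow_of_unique_prime_dvd hne (fun {d} hd hdx => hx2 d hd hdx)⟩

/-- Let G be a finite group, p a prime, N a normal subgroup, P a Sylow p-subgroup of G and P̄ a Sylow p-subgroup of G/N. Count the elements of p-power order, the identity included. Then (number of such elements of G/N)/#P̄ ≤ (number of such elements of G)/#P, stated as a cross-multiplied inequality, with equality when N is central. -/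
theorem result {G : Type*} [Group G] [Finite G] (p : ℕ) [Fact p.Prime] (N : Subgroup G) [N.Normal]
    (P : Sylow p G) (Pbar : Sylow p (G ⧸ N)) :
    Nat.card {g : (G ⧸ N) // ∃ k : ℕ, orderOf g = p ^ k} * Nat.card (P : Subgroup G) ≤ Nat.card {g : G // ∃ k : ℕ, orderOf g = p ^ k} * Nat.card (Pbar : Subgroup (G ⧸ N)) ∧
    (N ≤ Subgroup.center G → Nat.card {g : (G ⧸ N) // ∃ k : ℕ, orderOf g = p ^ k} * Nat.card (P : Subgroup G) = Nat.card {g : G // ∃ k : ℕ, orderOf g = p ^ k} * Nat.card (Pbar : Subgroup (G ⧸ N))) := by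
  classical
  have hpp : p.Prime := Fact.out
  haveI := Fintype.ofFinite G
  haveI := Fintype.ofFinite (G ⧸ N)
  have hcardP : ∀ Q : Sylow p G, Nat.card (N ⊓ (Q : Subgroup G) : Subgroup G) * Nat.card (Pbar : Subgroup (G ⧸ N)) = Nat.card (P : Subgroup G) := by
    intro Q
    have h1 := card_map_mul N (Q : Subgroup G)
    have h2 : Nat.card ((Q : Subgroup G).map (QuotientGroup.mk' N)) = Nat.card (Pbar : Subgroup (G ⧸ N)) := by
      have h3 := Sylow.card_eq_multiplicity (Q.mapSurjective (QuotientGroup.mk'_surjective N))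
      rw [Sylow.card_eq_multiplicity Pbar, ← h3]
      rfl
    rw [h2] at h1
    rw [h1]
    rw [Sylow.card_eq_multiplicity, Sylow.card_eq_multiplicity]
  have hpelQ : ∀ (Q : Sylow p G) (x : G), x ∈ (Q : Subgroup G) → ∃ k : ℕ, orderOf x = p ^ k := by
    intro E x hx
    obtain ⟨n, hn⟩ := (IsPGroup.iff_orderOf.mp E.isPGroup') ⟨x, hx⟩
    exact ⟨n, by rw [← hn, Subgroup.orderOf_mk]⟩
  set u := Nat.card (N ⊓ (P : Subgroup G) : Subgroup G) with hu
  set a := Nat.card (Pbar : Subgroup (G ⧸ N)) with ha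
  have haa : 0 < a := Nat.card_pos
  have hcardu : ∀ Q : Sylow p G, Nat.card (N ⊓ (Q : Subgroup G) : Subgroup G) = u := by
    intro Q
    apply Nat.eq_of_mul_eq_mul_right haa
    rw [hcardP Q, hcardP P]
  let f : {g : G // ∃ k : ℕ, orderOf g = p ^ k} → {g : (G ⧸ N) // ∃ k : ℕ, orderOf g = p ^ k} :=
    fun g => ⟨((g.1 : G) : G ⧸ N), pel_quot p N g.1 g.2⟩
  have hsum : Nat.card {g : G // ∃ k : ℕ, orderOf g = p ^ k} =
      ∑ y : {g : (G ⧸ N) // ∃ k : ℕ, orderOf g = p ^ k}, Nat.card {g // f g = y} := by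
    rw [← Nat.card_congr (Equiv.sigmaFiberEquiv f), Nat.card_sigma]
  have hlow : ∀ y : {g : (G ⧸ N) // ∃ k : ℕ, orderOf g = p ^ k}, u ≤ Nat.card {g // f g = y} := by
    rintro ⟨y, hy⟩
    obtain ⟨g₀, hg₀, hg₀p⟩ := exists_lift_pel p N y hy
    have hz : IsPGroup p (Subgroup.zpowers g₀) := by
      rw [IsPGroup.iff_card, Nat.card_zpowers]
      exact hg₀p
    obtain ⟨Q, hQ⟩ := hz.exists_le_sylow
    have hg₀Q : g₀ ∈ (Q : Subgroup G) := hQ (Subgroup.mem_zpowers g₀)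
    rw [← hcardu Q]
    refine Nat.card_le_card_of_injective
      (fun n : (N ⊓ (Q : Subgroup G) : Subgroup G) =>
        (⟨⟨g₀ * n, hpelQ Q _ (Subgroup.mul_mem _ hg₀Q n.2.2)⟩, ?_⟩ : {g // f g = ⟨y, hy⟩})) ?_
    · apply Subtype.ext
      show ((g₀ * n : G) : G ⧸ N) = y
      rw [QuotientGroup.mk_mul, hg₀, (QuotientGroup.eq_one_iff (n : G)).mpr n.2.1, mul_one]
    · intro n m hnm
      have h1 : g₀ * (n : G) = g₀ * (m : G) := congrArg (fun w : {g // f g = ⟨y, hy⟩} => (w.1.1 : G)) hnm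
      exact Subtype.ext (mul_left_cancel h1)
  have hPcard : Nat.card (P : Subgroup G) = u * a := (hcardP P).symm
  constructor
  · rw [hPcard, hsum, ← mul_assoc]
    apply Nat.mul_le_mul_right
    have h1 : ∑ y : {g : (G ⧸ N) // ∃ k : ℕ, orderOf g = p ^ k}, u ≤
        ∑ y : {g : (G ⧸ N) // ∃ k : ℕ, orderOf g = p ^ k}, Nat.card {g // f g = y} :=
      Finset.sum_le_sum (fun y _ => hlow y)
    rw [Finset.sum_const, Finset.card_univ, smul_eq_mul, ← Nat.card_eq_fintype_card] at h1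
    exact h1
  · intro hcen
    have hup : ∀ y : {g : (G ⧸ N) // ∃ k : ℕ, orderOf g = p ^ k}, Nat.card {g // f g = y} ≤ u := by
      rintro ⟨y, hy⟩
      obtain ⟨g₀, hg₀, hg₀p⟩ := exists_lift_pel p N y hy
      obtain ⟨a₀, ha₀⟩ := hg₀p
      rw [← hcardu P]
      have hmem : ∀ w : {g // f g = ⟨y, hy⟩}, g₀⁻¹ * w.1.1 ∈ (N ⊓ (P : Subgroup G) : Subgroup G) := by
        rintro ⟨⟨g₁, hg₁⟩, hw⟩
        have hw' : ((g₁ : G) : G ⧸ N) = y := congrArg Subtype.val hw
        have hn : g₀⁻¹ * g₁ ∈ N := by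
          rw [← QuotientGroup.eq, hg₀, hw']
        have hnc := hcen hn
        refine ⟨hn, ?_⟩
        obtain ⟨b₀, hb₀⟩ := hg₁
        have hg₁eq : g₁ = g₀ * (g₀⁻¹ * g₁) := by group
        have hcomm : Commute g₀ g₁ := by
          show g₀ * g₁ = g₁ * g₀
          rw [hg₁eq]
          have h2 : g₀ * (g₀⁻¹ * (g₀ * (g₀⁻¹ * g₁))) = (g₀⁻¹ * (g₀ * (g₀⁻¹ * g₁))) * g₀ := by
            rw [← hg₁eq]
            exact (Subgroup.mem_center_iff.mp hnc g₀)
          calc g₀ * (g₀ * (g₀⁻¹ * g₁)) = g₀ * (g₀ * (g₀⁻¹ * (g₀ * (g₀⁻¹ * g₁)))) := by group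
            _ = g₀ * ((g₀⁻¹ * (g₀ * (g₀⁻¹ * g₁))) * g₀) := by rw [h2]
            _ = g₀ * (g₀⁻¹ * g₁) * g₀ := by group
        have hcomm2 : Commute g₀⁻¹ g₁ := hcomm.inv_left
        have hpow : (g₀⁻¹ * g₁) ^ (p ^ (a₀ + b₀)) = 1 := by
          rw [hcomm2.mul_pow, inv_pow]
          have h1 : g₀ ^ p ^ (a₀ + b₀) = 1 := by
            rw [pow_add, pow_mul, ← ha₀, pow_orderOf_eq_one, one_pow]
          have h2 : g₁ ^ p ^ (a₀ + b₀) = 1 := by
            rw [pow_add, mul_comm, pow_mul, ← hb₀, pow_orderOf_eq_one, one_pow]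
          rw [h1, h2, inv_one, one_mul]
        obtain ⟨j, -, hj⟩ := (Nat.dvd_prime_pow hpp).mp (orderOf_dvd_of_pow_eq_one hpow)
        have hz : IsPGroup p (Subgroup.zpowers (g₀⁻¹ * g₁)) := by
          rw [IsPGroup.iff_card, Nat.card_zpowers]
          exact ⟨j, hj⟩
        haveI hzn : (Subgroup.zpowers (g₀⁻¹ * g₁)).Normal := by
          refine ⟨fun x hx g => ?_⟩
          have h1 : x ∈ Subgroup.center G := (Subgroup.zpowers_le.mpr hnc) hx
          have h2 : g * x = x * g := Subgroup.mem_center_iff.mp h1 g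
          rw [h2]
          simpa using hx
        exact (hz.le_sylow_of_normal P) (Subgroup.mem_zpowers _)
      refine Nat.card_le_card_of_injective (fun w => (⟨g₀⁻¹ * w.1.1, hmem w⟩ : (N ⊓ (P : Subgroup G) : Subgroup G))) ?_
      intro v w hvw
      have h1 : g₀⁻¹ * v.1.1 = g₀⁻¹ * w.1.1 := congrArg Subtype.val hvw
      exact Subtype.ext (Subtype.ext (mul_left_cancel h1))
    have hexact : ∀ y : {g : (G ⧸ N) // ∃ k : ℕ, orderOf g = p ^ k}, Nat.card {g // f g = y} = u :=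
      fun y => le_antisymm (hup y) (hlow y)
    rw [hPcard, hsum]
    simp_rw [hexact]
    rw [Finset.sum_const, Finset.card_univ, smul_eq_mul, ← Nat.card_eq_fintype_card]
    ring

end Cfsg.Agent.S4153
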