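import Cfsg.Statements.S4154
-- import your own Cfsg.Agent.* helpers here

set_option autoImplicit false
open Cfsg

namespace Cfsg.Agent.S4154

/-- Let G be a finite group and α an automorphism of G such that every element of G is the product of an element fixed by α and an element of the form g⁻¹α(g). If N is a normal α-invariant subgroup, then the automorphism ᾱ induced on G/N has the same property, and every coset fixed by ᾱ contains an element fixed by α (so the fixed points of ᾱ are the images of the fixed points of α). -/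
theorem result {G : Type*} [Group G] [Finite G] (α : MulAut G)
    (hccp : ∀ x : G, ∃ c g : G, α c = c ∧ x = c * (g⁻¹ * α g))
    (N : Subgroup G) [N.Normal] (hN : ∀ n ∈ N, α n ∈ N) :
    (∀ x : G, ∃ c g : G, c⁻¹ * α c ∈ N ∧ x⁻¹ * (c * (g⁻¹ * α g)) ∈ N) ∧
    (∀ x : G, x⁻¹ * α x ∈ N → ∃ c : G, α c = c ∧ c⁻¹ * x ∈ N) := by
  classical
  refine ⟨?_, ?_⟩
  · intro x
    obtain ⟨c, g, hc, hx⟩ := hccp x
    refine ⟨c, g, ?_, ?_⟩
    · rw [hc, inv_mul_cancel]; exact N.one_mem
    · rw [← hx, inv_mul_cancel]; exact N.one_mem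
  · -- the subgroup `F` of elements fixed modulo `N`
    let F : Subgroup G :=
      { carrier := {x | x⁻¹ * α x ∈ N}
        one_mem' := by simp [N.one_mem]
        mul_mem' := by
          intro x y hx hy
          have hx' : x⁻¹ * α x ∈ N := hx
          have hy' : y⁻¹ * α y ∈ N := hy
          show (x * y)⁻¹ * α (x * y) ∈ N
          have h1 : (x * y)⁻¹ * α (x * y) = y⁻¹ * (x⁻¹ * α x) * y * (y⁻¹ * α y) := by
            rw [map_mul]; group
          rw [h1]
          refine N.mul_mem ?_ hy'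
          have := ‹N.Normal›.conj_mem _ hx' y⁻¹
          simpa using this
        inv_mem' := by
          intro x hx
          have hx' : x⁻¹ * α x ∈ N := hx
          show x⁻¹⁻¹ * α x⁻¹ ∈ N
          have h1 : x⁻¹⁻¹ * α x⁻¹ = x * (x⁻¹ * α x)⁻¹ * x⁻¹ := by
            rw [map_inv]; group
          rw [h1]
          exact ‹N.Normal›.conj_mem _ (N.inv_mem hx') x }
    have hFmem : ∀ x, x ∈ F ↔ x⁻¹ * α x ∈ N := fun x => Iff.rfl
    let C : Subgroup G :=
      { carrier := {c | α c = c}
        one_mem' := by simp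
        mul_mem' := by
          intro a b ha hb
          have ha' : α a = a := ha
          have hb' : α b = b := hb
          show α (a * b) = a * b
          rw [map_mul, ha', hb']
        inv_mem' := by
          intro a ha
          have ha' : α a = a := ha
          show α a⁻¹ = a⁻¹
          rw [map_inv, ha'] }
    have hKF : C ⊔ N ≤ F := by
      refine sup_le ?_ ?_
      · intro c hc
        have hc' : α c = c := hc
        rw [hFmem, hc', inv_mul_cancel]
        exact N.one_mem
      · intro n hn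
        rw [hFmem]
        exact N.mul_mem (N.inv_mem hn) (hN n hn)
    -- surjection `G ⧸ F → G ⧸ (C ⊔ N)`
    let ψ₀ : G → G ⧸ (C ⊔ N) := fun u => ((α u * u⁻¹ : G) : G ⧸ (C ⊔ N))
    have hψ₀ : ∀ u v : G, (QuotientGroup.leftRel F) u v → ψ₀ u = ψ₀ v := by
      intro u v huv
      rw [QuotientGroup.leftRel_apply] at huv
      show ((α u * u⁻¹ : G) : G ⧸ (C ⊔ N)) = ((α v * v⁻¹ : G) : G ⧸ (C ⊔ N))
      rw [QuotientGroup.eq]
      apply (le_sup_right : N ≤ C ⊔ N)
      -- `v = u f`, `f ∈ F`
      set f := u⁻¹ * v with hf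
      have hv : v = u * f := by rw [hf]; group
      have hf2 : f⁻¹ * α f ∈ N := huv
      have h1 : (α u * u⁻¹)⁻¹ * (α v * v⁻¹) = u * (α u)⁻¹ * α u * α f * f⁻¹ * u⁻¹ := by
        rw [hv, map_mul]; group
      rw [h1]
      have h2 : u * (α u)⁻¹ * α u * α f * f⁻¹ * u⁻¹ = (u * f) * (f⁻¹ * α f) * (u * f)⁻¹ := by group
      rw [h2]
      exact ‹N.Normal›.conj_mem _ hf2 _
    let ψ : G ⧸ F → G ⧸ (C ⊔ N) := Quotient.lift ψ₀ hψ₀
    have hψs : Function.Surjective ψ := by
      intro y
      obtain ⟨x, rfl⟩ := QuotientGroup.mk_surjective y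
      obtain ⟨c, g, hc, hx⟩ := hccp x⁻¹
      refine ⟨((g⁻¹ : G) : G ⧸ F), ?_⟩
      show ((α g⁻¹ * g⁻¹⁻¹ : G) : G ⧸ (C ⊔ N)) = (x : G ⧸ (C ⊔ N))
      rw [QuotientGroup.eq]
      apply (le_sup_left : C ≤ C ⊔ N)
      have h1 : x = (g⁻¹ * α g)⁻¹ * c⁻¹ := by
        have : x = (x⁻¹)⁻¹ := by group
        rw [this, hx]; group
      have h2 : (α g⁻¹ * g⁻¹⁻¹)⁻¹ * x = c⁻¹ := by
        rw [h1, map_inv]; group
      rw [h2]
      exact C.inv_mem hc
    have hidx : (C ⊔ N).index ≤ F.index := Nat.card_le_card_of_surjective ψ hψs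
    have hEq : C ⊔ N = F := by
      apply Subgroup.eq_of_le_of_card_ge hKF
      have h1 := Subgroup.card_mul_index F
      have h2 := Subgroup.card_mul_index (C ⊔ N)
      have hpos : 0 < F.index := Nat.pos_of_ne_zero Subgroup.index_ne_zero_of_finite
      apply Nat.le_of_mul_le_mul_right _ hpos
      rw [h1, ← h2]
      exact Nat.mul_le_mul_left _ hidx
    intro x hx
    have hxF : x ∈ F := hx
    rw [← hEq] at hxF
    obtain ⟨c, hc, n, hn, hcn⟩ := Subgroup.mem_sup_of_normal_right.mp hxF
    refine ⟨c, hc, ?_⟩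
    rw [← hcn]
    have : c⁻¹ * (c * n) = n := by group
    rw [this]
    exact hn

end Cfsg.Agent.S4154
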