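import Cfsg.Statements.S4156
import Mathlib
-- import your own Cfsg.Agent.* helpers here

set_option autoImplicit false
open Cfsg

namespace Cfsg.Agent.S4156

open Equiv Matrix Module
noncomputable def U (n : ℕ) (F : Type*) [Field F] : Submodule F (Fin (n + 1) → F) :=
  Submodule.span F {(1 : Fin (n + 1) → F)}

theorem mem_U {n : ℕ} {F : Type*} [Field F] (v : Fin (n + 1) → F) : v ∈ U n F ↔ ∃ c : F, c • (1 : Fin (n + 1) → F) = v :=
  Submodule.mem_span_singleton

noncomputable def L {n : ℕ} (F : Type*) [Field F] (σ : Perm (Fin (n + 1))) : (Fin (n + 1) → F) →ₗ[F] (Fin (n + 1) → F) :=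
  LinearMap.funLeft F F (⇑σ⁻¹)

theorem L_apply {n : ℕ} {F : Type*} [Field F] (σ : Perm (Fin (n + 1))) (v : Fin (n + 1) → F) (i : Fin (n + 1)) :
    L F σ v i = v (σ⁻¹ i) := rfl

theorem L_U {n : ℕ} {F : Type*} [Field F] (σ : Perm (Fin (n + 1))) : U n F ≤ (U n F).comap (L F σ) := by
  intro v hv
  obtain ⟨c, rfl⟩ := (mem_U v).mp hv
  rw [Submodule.mem_comap, mem_U]
  refine ⟨c, ?_⟩
  ext i
  simp [L_apply]

noncomputable def ρ₀ (n : ℕ) (F : Type*) [Field F] : Perm (Fin (n + 1)) →* Module.End F ((Fin (n + 1) → F) ⧸ U n F) where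
  toFun σ := (U n F).mapQ (U n F) (L F σ) (L_U σ)
  map_one' := by
    apply Submodule.linearMap_qext
    ext v
    simp [L]
  map_mul' := by
    intro σ τ
    apply Submodule.linearMap_qext
    apply LinearMap.ext
    intro v
    change Submodule.Quotient.mk (L F (σ * τ) v) = Submodule.Quotient.mk (L F σ (L F τ v))
    congr 1

theorem finrank_quot (n : ℕ) (F : Type*) [Field F] : finrank F ((Fin (n + 1) → F) ⧸ U n F) = n := by
  have h1 := Submodule.finrank_quotient_add_finrank (U n F)
  have h2 : finrank F (U n F) = 1 := finrank_span_singleton (by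
    intro h
    have := congrFun h 0
    simp at this)
  rw [h2, Module.finrank_fin_fun] at h1
  omega

/-- Let n ≥ 5 and F a finite field. Then the projective special linear group PSL_n(F) contains a subgroup isomorphic to the alternating group of degree n + 1. -/
theorem result (n : ℕ) (hn : 5 ≤ n) (F : Type*) [Field F] [Finite F] :
    ∃ f : alternatingGroup (Fin (n + 1)) →* Matrix.ProjectiveSpecialLinearGroup (Fin n) F, Function.Injective f := by
  classical
  set W := (Fin (n + 1) → F) ⧸ U n F with hW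
  have b : Basis (Fin n) F W := Module.finBasisOfFinrankEq F W (finrank_quot n F)
  let f : alternatingGroup (Fin (n + 1)) →* Matrix (Fin n) (Fin n) F :=
    { toFun := fun σ => LinearMap.toMatrixAlgEquiv b (ρ₀ n F σ)
      map_one' := by simp
      map_mul' := by intro x y; simp }
  have hfa : ∀ σ, f σ = LinearMap.toMatrixAlgEquiv b (ρ₀ n F σ) := fun σ => rfl
  have hcard : 5 ≤ Nat.card (Fin (n + 1)) := by simp; omega
  have hdet : ∀ g, (f g).det = 1 := by
    let d : alternatingGroup (Fin (n + 1)) →* Fˣ := (Matrix.detMonoidHom.comp f).toHomUnits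
    have hle : commutator (alternatingGroup (Fin (n + 1))) ≤ d.ker := by
      rw [_root_.commutator_def, Subgroup.commutator_le]
      intro x _ y _
      rw [MonoidHom.mem_ker, map_commutatorElement, commutatorElement_eq_one_iff_commute]
      exact Commute.all _ _
    rw [commutator_alternatingGroup_eq_top hcard] at hle
    intro g
    have h1 : d g = 1 := hle (Subgroup.mem_top g)
    have h2 := congrArg Units.val h1
    simpa [d] using h2
  let f' : alternatingGroup (Fin (n + 1)) →* Matrix.SpecialLinearGroup (Fin n) F :=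
    MonoidHom.mk' (fun g => ⟨f g, hdet g⟩) (by
      intro a b
      apply Subtype.ext
      exact map_mul f a b)
  let φ : alternatingGroup (Fin (n + 1)) →* Matrix.ProjectiveSpecialLinearGroup (Fin n) F :=
    (QuotientGroup.mk' (Subgroup.center (Matrix.SpecialLinearGroup (Fin n) F))).comp f'
  refine ⟨φ, ?_⟩
  haveI hs : IsSimpleGroup (alternatingGroup (Fin (n + 1))) := alternatingGroup.isSimpleGroup hcard
  rw [← MonoidHom.ker_eq_bot_iff]
  refine (IsSimpleGroup.eq_bot_or_eq_top_of_normal φ.ker inferInstance).resolve_right ?_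
  intro htop
  -- the element
  set a : Fin (n + 1) := ⟨0, by omega⟩ with ha
  set e : Fin (n + 1) := ⟨1, by omega⟩ with he
  set c : Fin (n + 1) := ⟨2, by omega⟩ with hc
  set k : Fin (n + 1) := ⟨3, by omega⟩ with hk
  have hae : a ≠ e := by simp [ha, he, Fin.ext_iff]
  have hac : a ≠ c := by simp [ha, hc, Fin.ext_iff]
  have hak : a ≠ k := by simp [ha, hk, Fin.ext_iff]
  have hec : e ≠ c := by simp [he, hc, Fin.ext_iff]
  have hek : e ≠ k := by simp [he, hk, Fin.ext_iff]
  have hck : c ≠ k := by simp [hc, hk, Fin.ext_iff]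
  set σ : Perm (Fin (n + 1)) := swap a e * swap e c with hσ
  have hσs : Perm.sign σ = 1 := by
    rw [hσ, map_mul, Perm.sign_swap hae, Perm.sign_swap hec]; rfl
  have hσa : σ a = e := by
    simp only [hσ, Perm.mul_apply]
    rw [swap_apply_of_ne_of_ne hae hac, swap_apply_left]
  have hσk : σ k = k := by
    simp only [hσ, Perm.mul_apply]
    rw [swap_apply_of_ne_of_ne hek.symm hck.symm, swap_apply_of_ne_of_ne hak.symm hek.symm]
  have hσi1 : σ⁻¹ e = a := by rw [Perm.inv_eq_iff_eq, hσa]
  have hσi2 : σ⁻¹ k = k := by rw [Perm.inv_eq_iff_eq, hσk]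
  set g : alternatingGroup (Fin (n + 1)) := ⟨σ, hσs⟩ with hg
  have hgk : g ∈ φ.ker := by rw [htop]; trivial
  have hgc : f' g ∈ Subgroup.center (Matrix.SpecialLinearGroup (Fin n) F) := by
    have h1 : (QuotientGroup.mk' _) (f' g) = 1 := hgk
    rwa [QuotientGroup.mk'_apply, QuotientGroup.eq_one_iff] at h1
  obtain ⟨r, -, hr⟩ := Matrix.SpecialLinearGroup.mem_center_iff.mp hgc
  have hr' : Matrix.scalar (Fin n) r = f g := hr
  have hρ : ρ₀ n F g = r • (1 : Module.End F W) := by
    apply (LinearMap.toMatrixAlgEquiv b).injective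
    rw [← hfa, ← hr', map_smul, map_one]
    ext i j
    simp [Matrix.scalar_apply, Matrix.diagonal_apply, Matrix.one_apply]
  set v : Fin (n + 1) → F := Pi.single a 1 with hv
  have h3 : ρ₀ n F g (Submodule.Quotient.mk v) = r • Submodule.Quotient.mk v := by
    rw [hρ]; rfl
  have h4 : Submodule.Quotient.mk (L F σ v) = (Submodule.Quotient.mk (r • v) : W) := by
    rw [Submodule.Quotient.mk_smul]
    exact h3
  rw [Submodule.Quotient.eq, mem_U] at h4
  obtain ⟨t, ht⟩ := h4
  have h5 := congrFun ht k
  have h6 := congrFun ht e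
  simp only [Pi.sub_apply, L_apply, Pi.smul_apply, Pi.one_apply, smul_eq_mul, mul_one, hσi2, hσi1, hv,
    Pi.single_apply] at h5 h6
  rw [if_neg hak.symm] at h5
  rw [if_neg hae.symm] at h6
  simp at h5 h6
  rw [h5] at h6
  exact one_ne_zero h6.symm

end Cfsg.Agent.S4156
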