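import Cfsg.Statements.S4168
import Mathlib
-- import your own Cfsg.Agent.* helpers here

set_option autoImplicit false
open Cfsg

namespace Cfsg.Agent.S4168

/-- Let L be a finite quasisimple group (perfect with L/Z(L) simple). Then every prime dividing the order of the centre Z(L) also divides the order of L/Z(L). -/
theorem result {L : Type*} [Group L] [Finite L] (hL : Cfsg.IsQuasisimple L)
    (p : ℕ) (hp : p.Prime) (hdiv : p ∣ Nat.card (Subgroup.center L)) : p ∣ (Subgroup.center L).index := by
  classical
  obtain ⟨hperf, -⟩ := hL
  haveI : Fact p.Prime := ⟨hp⟩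
  haveI : (Subgroup.center L).FiniteIndex := ⟨Subgroup.index_ne_zero_of_finite⟩
  let f := MonoidHom.transferCenterPow L
  have hker : commutator L ≤ f.ker := by
    rw [commutator_def, Subgroup.commutator_le]
    intro a _ b _
    rw [MonoidHom.mem_ker, map_commutatorElement]
    exact commutatorElement_eq_one_iff_commute.mpr
      (Subtype.ext (Subgroup.mem_center_iff.mp (f b).2 (f a : L)))
  have htop : f.ker = ⊤ := by
    have : commutator L = ⊤ := hperf.commutator_eq_top
    rw [this] at hker
    exact top_le_iff.mp hker
  obtain ⟨z, hz⟩ := exists_prime_orderOf_dvd_card' (G := Subgroup.center L) p hdiv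
  have h1 : ((z : L)) ^ (Subgroup.center L).index = 1 := by
    have h2 : f (z : L) = 1 := by
      have : (z : L) ∈ f.ker := by rw [htop]; trivial
      exact this
    have h3 := MonoidHom.transferCenterPow_apply (G := L) (z : L)
    rw [← h3]
    show ((f (z : L) : Subgroup.center L) : L) = 1
    rw [h2]; rfl
  have h2 : z ^ (Subgroup.center L).index = 1 := Subtype.ext (by simpa using h1)
  rw [← hz]
  exact orderOf_dvd_of_pow_eq_one h2

end Cfsg.Agent.S4168
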