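import Cfsg.Statements.S4177
import Mathlib
-- import your own Cfsg.Agent.* helpers here

set_option autoImplicit false
open Cfsg

namespace Cfsg.Agent.S4177

theorem exists_mul_of_coprime {H : Type*} [Group H] [Finite H] (A B : Subgroup H)
    (hc : A.index.Coprime B.index) (h : H) : ∃ g ∈ B, ∃ s ∈ A, h = g * s := by
  classical
  have h1 : A.relIndex B = A.index := by
    apply le_antisymm
    · have h8 := Subgroup.relIndex_le_of_le_right (H := A) (le_top : B ≤ ⊤)
        (by rw [Subgroup.relIndex_top_right]; exact Subgroup.index_ne_zero_of_finite)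
      rwa [Subgroup.relIndex_top_right] at h8
    · apply Nat.le_of_dvd (Nat.pos_of_ne_zero ?_)
      · have h2 : (A ⊓ B).index = (A ⊓ B).relIndex B * B.index :=
          (Subgroup.relIndex_mul_index inf_le_right).symm
        have h3 : (A ⊓ B).index = (A ⊓ B).relIndex A * A.index :=
          (Subgroup.relIndex_mul_index inf_le_left).symm
        have h4 : A.index ∣ (A ⊓ B).relIndex B * B.index := by
          rw [← h2, h3]; exact dvd_mul_left _ _
        have h5 := hc.dvd_of_dvd_mul_right h4
        rwa [Subgroup.inf_relIndex_right] at h5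
      · exact Subgroup.index_ne_zero_of_finite
  let φ : (B ⧸ A.subgroupOf B) → H ⧸ A := Quotient.lift (fun b : B => ((b : H) : H ⧸ A)) (by
    intro x y hxy
    have h2 := QuotientGroup.leftRel_apply.mp hxy
    rw [QuotientGroup.eq]
    exact Subgroup.mem_subgroupOf.mp h2)
  have hφinj : Function.Injective φ := by
    intro x y
    obtain ⟨u, rfl⟩ := QuotientGroup.mk_surjective x
    obtain ⟨v, rfl⟩ := QuotientGroup.mk_surjective y
    intro hxy
    have h2 : ((u : H) : H ⧸ A) = ((v : H) : H ⧸ A) := hxy
    rw [QuotientGroup.eq] at h2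
    rw [QuotientGroup.eq]
    exact Subgroup.mem_subgroupOf.mpr h2
  have hφb : Function.Bijective φ := (Nat.bijective_iff_injective_and_card φ).mpr ⟨hφinj, h1⟩
  obtain ⟨x, hx⟩ := hφb.2 ((h : H) : H ⧸ A)
  obtain ⟨u, rfl⟩ := QuotientGroup.mk_surjective x
  have h2 : ((u : H) : H ⧸ A) = ((h : H) : H ⧸ A) := hx
  rw [QuotientGroup.eq] at h2
  refine ⟨u, u.2, (u : H)⁻¹ * h, h2, by group⟩

/-- Let k be a field whose characteristic does not divide the order of the finite group H (for instance a field of characteristic zero), and ρ a k-linear representation of H on V. Let a be a vector whose H-orbit spans V. Then the space of H-fixed vectors has dimension at most 1, and every vector b whose H-orbit has size coprime to the size of the orbit of a is fixed by H. -/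
theorem result {k V H : Type*} [Field k] [AddCommGroup V] [Module k V] [Group H] [Finite H]
    (hchar : ¬ ringChar k ∣ Nat.card H) (ρ : Representation k H V) (a : V)
    (hspan : Submodule.span k {u : V | ∃ h : H, ρ h a = u} = ⊤) :
    Module.finrank k ρ.invariants ≤ 1 ∧
    ∀ b : V, (Nat.card {u : V | ∃ h : H, ρ h a = u}).Coprime (Nat.card {u : V | ∃ h : H, ρ h b = u}) → ∀ h : H, ρ h b = b := by
  classical
  haveI := Fintype.ofFinite H
  have hcH : (Nat.card H : k) ≠ 0 := by
    intro h
    exact hchar ((CharP.cast_eq_zero_iff k (ringChar k) (Nat.card H)).mp h)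
  set σ : V := ∑ h : H, ρ h a with hσ
  have hσfix : ∀ x : H, ρ x σ = σ := by
    intro x
    rw [hσ, map_sum]
    simp_rw [← Module.End.mul_apply, ← map_mul]
    exact Fintype.sum_equiv (Equiv.mulLeft x) _ _ (fun _ => rfl)
  have hspan' : ∀ v : V, ∃ c : H → k, ∑ h, c h • ρ h a = v := by
    intro v
    have hv : v ∈ Submodule.span k (Set.range fun h : H => ρ h a) := by
      have : Set.range (fun h : H => ρ h a) = {u : V | ∃ h : H, ρ h a = u} := rfl
      rw [this, hspan]
      exact Submodule.mem_top
    exact (Submodule.mem_span_range_iff_exists_fun k).mp hv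
  have hcard : (Fintype.card H : k) = (Nat.card H : k) := by rw [Nat.card_eq_fintype_card]
  -- a vector fixed by a subgroup-free averaging
  have hinv : ∀ v : V, (∀ x : H, ρ x v = v) → ∃ r : k, r • σ = v := by
    intro v hv
    obtain ⟨c, hc⟩ := hspan' v
    refine ⟨(Nat.card H : k)⁻¹ * ∑ h, c h, ?_⟩
    have h1 : ∑ x : H, ρ x v = (Nat.card H : k) • v := by
      simp_rw [hv]
      rw [Finset.sum_const, Finset.card_univ, ← Nat.cast_smul_eq_nsmul k, hcard]
    have h2 : ∑ x : H, ρ x v = (∑ h, c h) • σ := by
      rw [← hc, Finset.sum_smul]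
      simp_rw [map_sum, map_smul]
      rw [Finset.sum_comm]
      apply Finset.sum_congr rfl
      intro h _
      rw [← Finset.smul_sum]
      congr 1
      simp_rw [← Module.End.mul_apply, ← map_mul]
      exact Fintype.sum_equiv (Equiv.mulRight h) _ _ (fun _ => rfl)
    rw [h1] at h2
    rw [mul_smul, ← h2, smul_smul, inv_mul_cancel₀ hcH, one_smul]
  refine ⟨?_, ?_⟩
  · have hmem : σ ∈ ρ.invariants := fun x => hσfix x
    apply finrank_le_one (⟨σ, hmem⟩ : ρ.invariants)
    intro w
    obtain ⟨r, hr⟩ := hinv w.1 w.2
    exact ⟨r, Subtype.ext hr⟩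
  · intro b hb
    letI act : MulAction H V :=
      { smul := fun h v => ρ h v
        one_smul := fun v => by
          show ρ 1 v = v
          simp
        mul_smul := fun x y v => by
          show ρ (x * y) v = ρ x (ρ y v)
          simp }
    have hidx : ∀ v : V, (MulAction.stabilizer H v).index = Nat.card {u : V | ∃ h : H, ρ h v = u} := by
      intro v
      rw [MulAction.index_stabilizer]
      rfl
    have hcop : (MulAction.stabilizer H a).index.Coprime (MulAction.stabilizer H b).index := by
      rw [hidx, hidx]; exact hb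
    have hBcard : (Nat.card (MulAction.stabilizer H b) : k) ≠ 0 := by
      intro h
      apply hcH
      rw [← Subgroup.card_mul_index (MulAction.stabilizer H b), Nat.cast_mul, h, zero_mul]
    haveI : Fintype (MulAction.stabilizer H b) := Fintype.ofFinite _
    set T : V → V := fun u => ∑ g : MulAction.stabilizer H b, ρ (g : H) u with hT
    have hT1 : ∀ h : H, T (ρ h a) = T a := by
      intro h
      obtain ⟨g₀, hg₀, s, hs, hgs⟩ := exists_mul_of_coprime _ _ hcop h
      have hs' : ρ s a = a := hs
      have h1 : ρ h a = ρ g₀ a := by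
        rw [hgs, map_mul, Module.End.mul_apply, hs']
      rw [h1]
      simp only [hT]
      simp_rw [← Module.End.mul_apply, ← map_mul]
      exact Fintype.sum_equiv (Equiv.mulRight (⟨g₀, hg₀⟩ : MulAction.stabilizer H b)) _ _ (fun _ => rfl)
    have hT2 : (Nat.card H : k) • T a = (Nat.card (MulAction.stabilizer H b) : k) • σ := by
      have h1 : ∑ h : H, T (ρ h a) = (Nat.card H : k) • T a := by
        simp_rw [hT1]
        rw [Finset.sum_const, Finset.card_univ, ← Nat.cast_smul_eq_nsmul k, hcard]
      have h2 : ∑ h : H, T (ρ h a) = (Nat.card (MulAction.stabilizer H b) : k) • σ := by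
        simp only [hT]
        rw [Finset.sum_comm]
        have h3 : ∀ g : MulAction.stabilizer H b, ∑ h : H, ρ (g : H) (ρ h a) = σ := by
          intro g
          rw [← map_sum]
          exact hσfix g
        simp_rw [h3]
        rw [Finset.sum_const, Finset.card_univ, ← Nat.cast_smul_eq_nsmul k, Nat.card_eq_fintype_card]
      rw [← h1, h2]
    obtain ⟨c, hc⟩ := hspan' b
    have hb2 : (Nat.card (MulAction.stabilizer H b) : k) • b = (∑ h, c h) • T a := by
      have h1 : ∑ g : MulAction.stabilizer H b, ρ (g : H) b = (Nat.card (MulAction.stabilizer H b) : k) • b := by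
        have h2 : ∀ g : MulAction.stabilizer H b, ρ (g : H) b = b := fun g => g.2
        simp_rw [h2]
        rw [Finset.sum_const, Finset.card_univ, ← Nat.cast_smul_eq_nsmul k, Nat.card_eq_fintype_card]
      rw [← h1, Finset.sum_smul]
      have h3 : ∀ h : H, c h • T a = c h • T (ρ h a) := fun h => by rw [hT1]
      simp_rw [h3]
      have h4 : ∀ g : MulAction.stabilizer H b, ρ (g : H) b = ∑ h, c h • ρ (g : H) (ρ h a) := by
        intro g
        have h5 : ρ (g : H) b = ρ (g : H) (∑ h, c h • ρ h a) := by rw [hc]
        rw [h5, map_sum]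
        simp_rw [map_smul]
      simp_rw [h4]
      rw [Finset.sum_comm]
      apply Finset.sum_congr rfl
      intro h _
      rw [← Finset.smul_sum]
    have hb3 : b = ((Nat.card H : k)⁻¹ * ∑ h, c h) • σ := by
      have h1 : (Nat.card (MulAction.stabilizer H b) : k) • ((Nat.card H : k) • b) =
          (Nat.card (MulAction.stabilizer H b) : k) • ((∑ h, c h) • σ) := by
        rw [smul_comm, hb2, smul_comm, hT2, smul_comm]
      have h2 : (Nat.card H : k) • b = (∑ h, c h) • σ := smul_right_injective V hBcard h1
      rw [mul_smul, ← h2, smul_smul, inv_mul_cancel₀ hcH, one_smul]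
    intro h
    rw [hb3, map_smul, hσfix]

end Cfsg.Agent.S4177
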