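import Cfsg.Statements.S4176
import Mathlib
import Cfsg.Agent.Lib.PSolv
import Cfsg.Agent.Lib.H1Hall
import Cfsg.Agent.S4177
-- import your own Cfsg.Agent.* helpers here

set_option autoImplicit false
open Cfsg

namespace Cfsg.Agent.S4176

universe u

section

theorem exists_normal_of_psolv {G : Type u} [Group G] [Finite G] {p : ℕ} (h : Cfsg.IsPSolvable p G)
    [Nontrivial G] : ∃ N : Subgroup G, N.Normal ∧ N ≠ ⊥ ∧ (IsPGroup p N ∨ (Nat.card N).Coprime p) := by
  obtain ⟨n, H, h0, hn, hm, hN, hi⟩ := h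
  by_contra hne
  push Not at hne
  have key : ∀ i : Fin (n + 1), H i = ⊥ := by
    intro i
    induction i using Fin.induction with
    | zero => exact h0
    | succ i ih =>
      by_contra hb
      have h1 := hne (H i.succ) (hN _) hb
      have h2 := hi i
      rw [ih, Subgroup.relIndex_bot_left] at h2
      rcases h2 with ⟨m, hm'⟩ | h2
      · exact h1.1 (IsPGroup.of_card hm')
      · exact h1.2 h2
  have h3 := key (Fin.last n)
  rw [hn] at h3
  exact top_ne_bot h3

theorem hall_p (p : ℕ) [hp : Fact p.Prime] : ∀ (n : ℕ) (Γ : Type u) [Group Γ] [Finite Γ], Nat.card Γ = n →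
    Cfsg.IsPSolvable p Γ → ∃ Q : Subgroup Γ, (Nat.card Q).Coprime p ∧ ∃ m : ℕ, Q.index = p ^ m := by
  intro n
  induction n using Nat.strong_induction_on with
  | _ n ih =>
    intro Γ _ _ hn hsol
    by_cases hnt : Nontrivial Γ
    · obtain ⟨N, hN, hNb, hNc⟩ := exists_normal_of_psolv hsol
      have hNcard : 1 < Nat.card N := by
        rw [Subgroup.one_lt_card_iff_ne_bot]; exact hNb
      have hlt : Nat.card (Γ ⧸ N) < n := by
        rw [← hn, ← Subgroup.card_mul_index N]
        have hpos : 0 < N.index := Nat.pos_of_ne_zero Subgroup.index_ne_zero_of_finite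
        show N.index < Nat.card N * N.index
        nlinarith
      obtain ⟨Qb, hQ1, m, hm⟩ := ih _ hlt (Γ ⧸ N) rfl
        (Lib.PSolv.isPSolvable_of_surjective (QuotientGroup.mk' N) (QuotientGroup.mk'_surjective N) hsol)
      let M : Subgroup Γ := Qb.comap (QuotientGroup.mk' N)
      have hMidx : M.index = p ^ m := by
        rw [← hm]
        exact Subgroup.index_comap_of_surjective _ (QuotientGroup.mk'_surjective N)
      have hMcard : Nat.card M = Nat.card Qb * Nat.card N := Lib.H1Hall.card_comap_mk N Qb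
      rcases hNc with hNp | hNc
      · have hNM : N ≤ M := by
          intro x hx
          show QuotientGroup.mk' N x ∈ Qb
          rw [show QuotientGroup.mk' N x = 1 from (QuotientGroup.eq_one_iff x).2 hx]
          exact Qb.one_mem
        let N' : Subgroup M := N.subgroupOf M
        have hN'card : Nat.card N' = Nat.card N := Nat.card_congr (Subgroup.subgroupOfEquivOfLe hNM).toEquiv
        have hN'idx : N'.index = Nat.card Qb := by
          have h1 := Subgroup.card_mul_index N'
          rw [hN'card, hMcard, mul_comm] at h1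
          have hNpos : 0 < Nat.card N := by omega
          exact Nat.eq_of_mul_eq_mul_right hNpos (by rw [← h1, mul_comm])
        obtain ⟨t, ht⟩ := IsPGroup.iff_card.1 hNp
        have hcop : (Nat.card N').Coprime N'.index := by
          rw [hN'card, hN'idx, ht]
          exact (hQ1.pow_right t).symm
        obtain ⟨C, hC⟩ := Subgroup.exists_right_complement'_of_coprime hcop
        refine ⟨C.map M.subtype, ?_, t + m, ?_⟩
        · have h2 : Nat.card (C.map M.subtype) = Nat.card C :=
            Nat.card_congr (Subgroup.equivMapOfInjective C M.subtype M.subtype_injective).toEquiv.symm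
          rw [h2, ← hC.symm.index_eq_card, hN'idx]
          exact hQ1
        · rw [Subgroup.index_map_subtype, hMidx, hC.index_eq_card, hN'card, ht, pow_add]
      · refine ⟨M, ?_, m, hMidx⟩
        rw [hMcard]
        exact Nat.Coprime.mul_left hQ1 hNc
    · rw [not_nontrivial_iff_subsingleton] at hnt
      refine ⟨⊤, ?_, 0, by simp⟩
      rw [Nat.card_eq_one_iff_unique.2 ⟨inferInstance, ⟨⟨1, trivial⟩⟩⟩]
      exact Nat.coprime_one_left p

theorem exists_Y0 {H : Type u} [Group H] [Finite H] (p : ℕ) [hp : Fact p.Prime] (X Y : Subgroup H)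
    (hY : Cfsg.IsPSolvable p Y) (hXY : ¬ p ∣ X.relIndex Y) :
    ∃ Y₀ : Subgroup H, Y₀ ≤ Y ∧ (Nat.card Y₀).Coprime p ∧ ∀ y ∈ Y, ∃ y₀ ∈ Y₀, ∃ x ∈ X, y = y₀ * x := by
  classical
  obtain ⟨Q, hQ, m, hm⟩ := hall_p p _ Y rfl hY
  let X' : Subgroup Y := X.subgroupOf Y
  obtain ⟨T⟩ : Nonempty (Sylow p X') := inferInstance
  let T' : Subgroup Y := (T : Subgroup X').map X'.subtype
  have hT'card : Nat.card T' = Nat.card T :=
    Nat.card_congr (Subgroup.equivMapOfInjective (T : Subgroup X') X'.subtype X'.subtype_injective).toEquiv.symm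
  obtain ⟨s, hs⟩ := IsPGroup.iff_card.1 T.isPGroup'
  have hT'idx : T'.index = (T : Subgroup X').index * X'.index := Subgroup.index_map_subtype _
  have hi : ¬ p ∣ T'.index := by
    rw [hT'idx]
    intro h
    rcases (Nat.Prime.dvd_mul hp.out).1 h with h | h
    · exact T.not_dvd_index h
    · exact hXY h
  have h1 := Subgroup.card_mul_index T'
  have h2 := Subgroup.card_mul_index Q
  rw [hT'card, hs] at h1
  rw [hm] at h2
  have hi' : Nat.Coprime p T'.index := (Nat.Prime.coprime_iff_not_dvd hp.out).2 hi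
  have hsm : s = m := by
    apply le_antisymm
    · have h3 : p ^ s ∣ Nat.card Q * p ^ m := by rw [h2, ← h1]; exact dvd_mul_right _ _
      have h4 := (Nat.Coprime.pow_left s hQ.symm).dvd_of_dvd_mul_left h3
      exact (Nat.pow_dvd_pow_iff_le_right hp.out.one_lt).1 h4
    · have h3 : p ^ m ∣ p ^ s * T'.index := by rw [h1, ← h2]; exact dvd_mul_left _ _
      have h4 := (Nat.Coprime.pow_left m hi').dvd_of_dvd_mul_right h3
      exact (Nat.pow_dvd_pow_iff_le_right hp.out.one_lt).1 h4
  have hcompl : Subgroup.IsComplement' Q T' := by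
    apply Subgroup.isComplement'_of_coprime
    · rw [hT'card, hs, hsm, h2]
    · rw [hT'card, hs]
      exact Nat.Coprime.pow_right s hQ
  refine ⟨Q.map Y.subtype, Subgroup.map_subtype_le Q, ?_, ?_⟩
  · have h5 : Nat.card (Q.map Y.subtype) = Nat.card Q :=
      Nat.card_congr (Subgroup.equivMapOfInjective Q Y.subtype Y.subtype_injective).toEquiv.symm
    rw [h5]; exact hQ
  · intro y hy
    obtain ⟨⟨q, t⟩, hqt⟩ := hcompl.2 (⟨y, hy⟩ : Y)
    have h6 : ((q : Y) : H) * ((t : Y) : H) = y := congrArg Subtype.val hqt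
    refine ⟨q, ⟨q, q.2, rfl⟩, t, ?_, h6.symm⟩
    obtain ⟨t₀, -, ht₀⟩ := t.2
    have : ((t : Y) : H) = ((t₀ : X') : Y) := by rw [← ht₀]; rfl
    rw [this]
    exact Subgroup.mem_subgroupOf.1 t₀.2

theorem key_fixed {k V H : Type*} [Field k] (p : ℕ) [hp : Fact p.Prime] [CharP k p] [AddCommGroup V] [Module k V]
    [Group H] [Finite H] (ρ : Representation k H V) (a : V) (Y₀ : Subgroup H)
    (hc : (Nat.card Y₀).Coprime p) (hY₀ : ∀ h : H, ∃ y ∈ Y₀, ρ h a = ρ y a)
    (hspan : Submodule.span k {u : V | ∃ h : H, ρ h a = u} = ⊤) :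
    ∃ τ : V, (∀ h : H, ρ h τ = τ) ∧ ∀ w : V, (∀ y ∈ Y₀, ρ y w = w) → ∃ r : k, w = r • τ := by
  classical
  haveI := Fintype.ofFinite H
  haveI := Fintype.ofFinite Y₀
  let g : Y₀ → V := fun y => ρ (y : H) a
  set τ : V := ∑ y : Y₀, g y with hτ
  let Ω : Finset V := Finset.univ.image (fun h : H => ρ h a)
  have hΩ : Finset.univ.image g = Ω := by
    ext ω
    simp only [Finset.mem_image, Finset.mem_univ, true_and, Ω, g]
    constructor
    · rintro ⟨y, rfl⟩
      exact ⟨y, rfl⟩
    · rintro ⟨h, rfl⟩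
      obtain ⟨y, hy, hye⟩ := hY₀ h
      exact ⟨⟨y, hy⟩, hye.symm⟩
  set c := (Finset.univ.filter (fun y : Y₀ => g y = a)).card with hc'
  have hfib : ∀ ω ∈ Ω, (Finset.univ.filter (fun y : Y₀ => g y = ω)).card = c := by
    intro ω hω
    rw [← hΩ] at hω
    obtain ⟨y₀, -, rfl⟩ := Finset.mem_image.1 hω
    symm
    refine Finset.card_bij (fun y _ => y₀ * y) ?_ ?_ ?_
    · intro y hy
      simp only [Finset.mem_filter, Finset.mem_univ, true_and, g] at hy ⊢
      rw [Subgroup.coe_mul, map_mul, Module.End.mul_apply, hy]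
    · intro y _ y' _ h
      exact mul_left_cancel h
    · intro y hy
      simp only [Finset.mem_filter, Finset.mem_univ, true_and, g] at hy
      refine ⟨y₀⁻¹ * y, ?_, by group⟩
      simp only [Finset.mem_filter, Finset.mem_univ, true_and, g]
      rw [Subgroup.coe_mul, map_mul, Module.End.mul_apply, hy, Subgroup.coe_inv, ← Module.End.mul_apply, ← map_mul,
        inv_mul_cancel, map_one, Module.End.one_apply]
  have hτΩ : τ = c • ∑ ω ∈ Ω, ω := by
    have h1 := Finset.sum_comp (s := (Finset.univ : Finset Y₀)) (fun v : V => v) g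
    rw [hτ, h1, hΩ, Finset.smul_sum]
    exact Finset.sum_congr rfl fun ω hω => by rw [hfib ω hω]
  have hΩfix : ∀ h : H, ρ h (∑ ω ∈ Ω, ω) = ∑ ω ∈ Ω, ω := by
    intro h
    rw [map_sum]
    refine Finset.sum_nbij' (fun v => ρ h v) (fun v => ρ h⁻¹ v) ?_ ?_ ?_ ?_ ?_
    · intro v hv
      obtain ⟨x, -, rfl⟩ := Finset.mem_image.1 hv
      exact Finset.mem_image.2 ⟨h * x, Finset.mem_univ _, by rw [map_mul, Module.End.mul_apply]⟩
    · intro v hv
      obtain ⟨x, -, rfl⟩ := Finset.mem_image.1 hv
      exact Finset.mem_image.2 ⟨h⁻¹ * x, Finset.mem_univ _, by rw [map_mul, Module.End.mul_apply]⟩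
    · intro v _
      rw [← Module.End.mul_apply, ← map_mul, inv_mul_cancel, map_one, Module.End.one_apply]
    · intro v _
      rw [← Module.End.mul_apply, ← map_mul, mul_inv_cancel, map_one, Module.End.one_apply]
    · intro v _
      rfl
  refine ⟨τ, fun h => ?_, fun w hw => ?_⟩
  · rw [hτΩ, map_nsmul, hΩfix]
  · have hcard0 : (Nat.card Y₀ : k) ≠ 0 := by
      intro h
      have h1 := (CharP.cast_eq_zero_iff k p (Nat.card Y₀)).1 h
      have h2 := Nat.Coprime.eq_one_of_dvd hc.symm h1
      exact hp.out.one_lt.ne' h2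
    have hspan' : ∃ c : Y₀ → k, ∑ y, c y • g y = w := by
      have hv : w ∈ Submodule.span k (Set.range g) := by
        have : Set.range g = {u : V | ∃ h : H, ρ h a = u} := by
          ext u
          constructor
          · rintro ⟨y, rfl⟩
            exact ⟨y, rfl⟩
          · rintro ⟨h, rfl⟩
            obtain ⟨y, hy, hye⟩ := hY₀ h
            exact ⟨⟨y, hy⟩, hye.symm⟩
        rw [this, hspan]
        exact Submodule.mem_top
      exact (Submodule.mem_span_range_iff_exists_fun k).1 hv
    obtain ⟨d, hd⟩ := hspan'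
    have hcard : (Fintype.card Y₀ : k) = (Nat.card Y₀ : k) := by rw [Nat.card_eq_fintype_card]
    have h1 : ∑ x : Y₀, ρ (x : H) w = (Nat.card Y₀ : k) • w := by
      have : ∀ x : Y₀, ρ (x : H) w = w := fun x => hw x x.2
      simp_rw [this]
      rw [Finset.sum_const, Finset.card_univ, ← Nat.cast_smul_eq_nsmul k, hcard]
    have h2 : ∑ x : Y₀, ρ (x : H) w = (∑ y, d y) • τ := by
      rw [← hd, Finset.sum_smul]
      simp_rw [map_sum, map_smul]
      rw [Finset.sum_comm]
      apply Finset.sum_congr rfl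
      intro y _
      rw [← Finset.smul_sum]
      congr 1
      simp only [g]
      simp_rw [← Module.End.mul_apply, ← map_mul]
      exact Fintype.sum_equiv (Equiv.mulRight y) _ _ (fun _ => rfl)
    rw [h1] at h2
    refine ⟨(Nat.card Y₀ : k)⁻¹ * ∑ y, d y, ?_⟩
    rw [mul_smul, ← h2, smul_smul, inv_mul_cancel₀ hcard0, one_smul]
end

/-- Let k be a field of prime characteristic p, H a finite p-soluble group and ρ a k-linear representation of H on V. Let a be a vector that is fixed by some Sylow p-subgroup of H and whose H-orbit spans V. Then the space of H-fixed vectors has dimension at most 1, and every vector b whose H-orbit has size coprime to the size of the orbit of a is fixed by H. -/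
theorem result {k V H : Type*} [Field k] (p : ℕ) [Fact p.Prime] [CharP k p] [AddCommGroup V] [Module k V]
    [Group H] [Finite H] (hsol : Cfsg.IsPSolvable p H) (ρ : Representation k H V) (a : V)
    (hfix : ∃ P : Sylow p H, ∀ x : H, x ∈ (P : Subgroup H) → ρ x a = a)
    (hspan : Submodule.span k {u : V | ∃ h : H, ρ h a = u} = ⊤) :
    Module.finrank k ρ.invariants ≤ 1 ∧
    ∀ b : V, (Nat.card {u : V | ∃ h : H, ρ h a = u}).Coprime (Nat.card {u : V | ∃ h : H, ρ h b = u}) → ∀ h : H, ρ h b = b := by
  classical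
  obtain ⟨P, hP⟩ := hfix
  letI act : MulAction H V :=
    { smul := fun h v => ρ h v
      one_smul := fun v => by
        show ρ 1 v = v
        simp
      mul_smul := fun x y v => by
        show ρ (x * y) v = ρ x (ρ y v)
        simp }
  have hidx : ∀ v : V, (MulAction.stabilizer H v).index = Nat.card {u : V | ∃ h : H, ρ h v = u} := by
    intro v
    rw [MulAction.index_stabilizer]
    rfl
  set X := MulAction.stabilizer H a with hX
  have hPX : (P : Subgroup H) ≤ X := fun x hx => hP x hx
  have hXp : ¬ p ∣ X.index := fun h => P.not_dvd_index (h.trans (Subgroup.index_dvd_of_le hPX))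
  refine ⟨?_, fun b hb => ?_⟩
  · obtain ⟨Y₀, -, hY₀c, hY₀⟩ := exists_Y0 p X ⊤ (Lib.PSolv.isPSolvable_subgroup hsol ⊤)
      (by rw [Subgroup.relIndex_top_right]; exact hXp)
    obtain ⟨τ, hτ1, hτ2⟩ := key_fixed p ρ a Y₀ hY₀c (fun h => by
      obtain ⟨y, hy, x, hx, rfl⟩ := hY₀ h trivial
      refine ⟨y, hy, ?_⟩
      rw [map_mul, Module.End.mul_apply]
      congr 1) hspan
    have hmem : τ ∈ ρ.invariants := fun x => hτ1 x
    apply finrank_le_one (⟨τ, hmem⟩ : ρ.invariants)
    intro w
    obtain ⟨r, hr⟩ := hτ2 w.1 (fun y _ => w.2 y)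
    exact ⟨r, Subtype.ext hr.symm⟩
  · set Y := MulAction.stabilizer H b with hY
    have hcop : X.index.Coprime Y.index := by
      rw [hX, hY, hidx, hidx]; exact hb
    have hrel : X.relIndex Y = X.index := by
      apply le_antisymm
      · have h8 := Subgroup.relIndex_le_of_le_right (H := X) (le_top : Y ≤ ⊤)
          (by rw [Subgroup.relIndex_top_right]; exact Subgroup.index_ne_zero_of_finite)
        rwa [Subgroup.relIndex_top_right] at h8
      · apply Nat.le_of_dvd (Nat.pos_of_ne_zero ?_)
        · have h2 : (X ⊓ Y).index = (X ⊓ Y).relIndex Y * Y.index :=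
            (Subgroup.relIndex_mul_index inf_le_right).symm
          have h3 : (X ⊓ Y).index = (X ⊓ Y).relIndex X * X.index :=
            (Subgroup.relIndex_mul_index inf_le_left).symm
          have h4 : X.index ∣ (X ⊓ Y).relIndex Y * Y.index := by
            rw [← h2, h3]; exact dvd_mul_left _ _
          have h5 := hcop.dvd_of_dvd_mul_right h4
          rwa [Subgroup.inf_relIndex_right] at h5
        · exact Subgroup.index_ne_zero_of_finite
    obtain ⟨Y₀, hY₀Y, hY₀c, hY₀⟩ := exists_Y0 p X Y (Lib.PSolv.isPSolvable_subgroup hsol Y)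
      (by rw [hrel]; exact hXp)
    obtain ⟨τ, hτ1, hτ2⟩ := key_fixed p ρ a Y₀ hY₀c (fun h => by
      obtain ⟨g, hg, s, hs, rfl⟩ := S4177.exists_mul_of_coprime X Y hcop h
      obtain ⟨y, hy, x, hx, rfl⟩ := hY₀ g hg
      refine ⟨y, hy, ?_⟩
      have hs' : ρ s a = a := hs
      have hx' : ρ x a = a := hx
      simp only [map_mul, Module.End.mul_apply, hs', hx']) hspan
    obtain ⟨r, hr⟩ := hτ2 b (fun y hy => hY₀Y hy)
    intro h
    rw [hr, map_smul, hτ1]

end Cfsg.Agent.S4176
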