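import Cfsg.Statements.S4178
import Mathlib
-- import your own Cfsg.Agent.* helpers here

set_option autoImplicit false
open Cfsg

namespace Cfsg.Agent.S4178

theorem index_add_one_le {H X : Type*} [Group H] [Finite X] (R : Subgroup H)
    (act : H → X) (x₀ : X) (hne : ∀ h, act h ≠ x₀)
    (hact : ∀ h₁ h₂, act h₁ = act h₂ → h₂⁻¹ * h₁ ∈ R) : R.index + 1 ≤ Nat.card X := by
  classical
  have hf : Function.Injective (fun o : Option (H ⧸ R) => match o with
      | none => x₀
      | some c => act (Quotient.out c)) := by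
    rintro (_ | a) (_ | b) hab
    · rfl
    · exact absurd hab.symm (hne _)
    · exact absurd hab (hne _)
    · have h1 : act (Quotient.out a) = act (Quotient.out b) := hab
      have h2 := hact _ _ h1
      have h3 : ((Quotient.out b : H) : H ⧸ R) = ((Quotient.out a : H) : H ⧸ R) := QuotientGroup.eq.mpr h2
      rw [QuotientGroup.out_eq', QuotientGroup.out_eq'] at h3
      rw [h3]
  have hfin : Finite (Option (H ⧸ R)) := Finite.of_injective _ hf
  have hfin2 : Finite (H ⧸ R) := Finite.of_injective some (Option.some_injective _)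
  have := Nat.card_le_card_of_injective _ hf
  rwa [Finite.card_option] at this

/-- Let F be a finite field with q elements, V a non-zero finite-dimensional F-space of dimension d, H a group of invertible linear maps of V, and R the subgroup of H generated by the elements of H that fix some non-zero vector (have eigenvalue 1). Then the index of R in H is at most q^d − 1; and if H leaves invariant some proper non-zero subspace, the index is at most q^(d/2) − 1. -/
theorem result {F V : Type*} [Field F] [Fintype F] [AddCommGroup V] [Module F V] [FiniteDimensional F V] [Nontrivial V]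
    (H : Subgroup (V ≃ₗ[F] V)) :
    (Subgroup.closure {h : ↥H | ∃ v : V, v ≠ 0 ∧ (h : V ≃ₗ[F] V) v = v}).index ≤ Fintype.card F ^ Module.finrank F V - 1 ∧
    ((∃ W : Submodule F V, W ≠ ⊥ ∧ W ≠ ⊤ ∧ ∀ h ∈ H, ∀ w ∈ W, h w ∈ W) →
      ((Subgroup.closure {h : ↥H | ∃ v : V, v ≠ 0 ∧ (h : V ≃ₗ[F] V) v = v}).index : ℝ) ≤ Real.sqrt ((Fintype.card F : ℝ) ^ Module.finrank F V) - 1) := by
  classical
  haveI : Finite V := Module.finite_of_finite F
  set R : Subgroup ↥H := Subgroup.closure {h : ↥H | ∃ v : V, v ≠ 0 ∧ (h : V ≃ₗ[F] V) v = v} with hR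
  have hmemR : ∀ (g : ↥H) (v : V), v ≠ 0 → (g : V ≃ₗ[F] V) v = v → g ∈ R :=
    fun g v hv hg => Subgroup.subset_closure ⟨v, hv, hg⟩
  have hmul : ∀ (h₁ h₂ : ↥H) (v : V), ((h₂⁻¹ * h₁ : ↥H) : V ≃ₗ[F] V) v = ((h₂⁻¹ : ↥H) : V ≃ₗ[F] V) ((h₁ : V ≃ₗ[F] V) v) :=
    fun _ _ _ => rfl
  have hinv : ∀ (h : ↥H) (v : V), ((h⁻¹ : ↥H) : V ≃ₗ[F] V) ((h : V ≃ₗ[F] V) v) = v := by
    intro h v
    have h1 : ((h⁻¹ * h : ↥H) : V ≃ₗ[F] V) v = v := by simp
    exact h1
  have hne0 : ∀ (h : ↥H) (v : V), v ≠ 0 → (h : V ≃ₗ[F] V) v ≠ 0 := by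
    intro h v hv hh
    exact hv ((LinearEquiv.map_eq_zero_iff _).mp hh)
  obtain ⟨v₀, hv₀⟩ := exists_ne (0 : V)
  have hVcard : Nat.card V = Fintype.card F ^ Module.finrank F V := by
    rw [Module.natCard_eq_pow_finrank (K := F), Nat.card_eq_fintype_card]
  constructor
  · have h1 : R.index + 1 ≤ Nat.card V := by
      refine index_add_one_le R (fun h => (h : V ≃ₗ[F] V) v₀) 0 (fun h => hne0 h v₀ hv₀) ?_
      intro h₁ h₂ h12
      refine hmemR _ v₀ hv₀ ?_
      rw [hmul]
      have h12' : (h₁ : V ≃ₗ[F] V) v₀ = (h₂ : V ≃ₗ[F] V) v₀ := h12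
      rw [h12', hinv]
    rw [hVcard] at h1
    omega
  · rintro ⟨W, hW0, hWt, hWi⟩
    have hWi' : ∀ (h : ↥H) (w : V), w ∈ W → (h : V ≃ₗ[F] V) w ∈ W := fun h w hw => hWi h h.2 w hw
    obtain ⟨w₀, hw₀, hw₀0⟩ := (Submodule.ne_bot_iff W).mp hW0
    obtain ⟨v₁, hv₁⟩ : ∃ v, v ∉ W := by
      by_contra h
      push_neg at h
      exact hWt ((Submodule.eq_top_iff').mpr h)
    have h1 : R.index + 1 ≤ Nat.card W := by
      refine index_add_one_le R (fun h => (⟨(h : V ≃ₗ[F] V) w₀, hWi' h w₀ hw₀⟩ : W)) 0 ?_ ?_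
      · intro h hh
        exact hne0 h w₀ hw₀0 (congrArg Subtype.val hh)
      · intro h₁ h₂ h12
        refine hmemR _ w₀ hw₀0 ?_
        rw [hmul]
        have h12' : (h₁ : V ≃ₗ[F] V) w₀ = (h₂ : V ≃ₗ[F] V) w₀ := congrArg Subtype.val h12
        rw [h12', hinv]
    haveI : Finite (V ⧸ W) := Finite.of_surjective (Submodule.Quotient.mk : V → V ⧸ W) (Submodule.Quotient.mk_surjective W)
    have h2 : R.index + 1 ≤ Nat.card (V ⧸ W) := by
      refine index_add_one_le R (fun h => Submodule.Quotient.mk ((h : V ≃ₗ[F] V) v₁)) 0 ?_ ?_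
      · intro h hh
        have h3 : (h : V ≃ₗ[F] V) v₁ ∈ W := (Submodule.Quotient.mk_eq_zero W).mp hh
        have h4 := hWi' h⁻¹ _ h3
        rw [hinv] at h4
        exact hv₁ h4
      · intro h₁ h₂ h12
        have h3 : (h₁ : V ≃ₗ[F] V) v₁ - (h₂ : V ≃ₗ[F] V) v₁ ∈ W := (Submodule.Quotient.eq W).mp h12
        set g : ↥H := h₂⁻¹ * h₁ with hg
        have h4 : (g : V ≃ₗ[F] V) v₁ - v₁ ∈ W := by
          have h5 := hWi' h₂⁻¹ _ h3
          rw [map_sub, hinv] at h5
          exact h5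
        by_contra hgR
        have hfree : ∀ u : V, (g : V ≃ₗ[F] V) u = u → u = 0 := by
          intro u hu
          by_contra hu0
          exact hgR (hmemR g u hu0 hu)
        let T : W → W := fun w => ⟨(g : V ≃ₗ[F] V) w - w, W.sub_mem (hWi' g w w.2) w.2⟩
        have hTi : Function.Injective T := by
          intro a b hab
          have h6 : (g : V ≃ₗ[F] V) a - a = (g : V ≃ₗ[F] V) b - b := congrArg Subtype.val hab
          have h7 : (g : V ≃ₗ[F] V) ((a : V) - b) = (a : V) - b := by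
            rw [map_sub]
            have : (g : V ≃ₗ[F] V) a - (g : V ≃ₗ[F] V) b = ((g : V ≃ₗ[F] V) a - a) - ((g : V ≃ₗ[F] V) b - b) + ((a : V) - b) := by abel
            rw [this, h6]; abel
          have h8 := hfree _ h7
          exact Subtype.ext (sub_eq_zero.mp h8)
        have hTs : Function.Surjective T := Finite.injective_iff_surjective.mp hTi
        obtain ⟨w, hw⟩ := hTs ⟨_, h4⟩
        have h6 : (g : V ≃ₗ[F] V) w - w = (g : V ≃ₗ[F] V) v₁ - v₁ := congrArg Subtype.val hw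
        have h7 : (g : V ≃ₗ[F] V) ((w : V) - v₁) = (w : V) - v₁ := by
          rw [map_sub]
          have : (g : V ≃ₗ[F] V) w - (g : V ≃ₗ[F] V) v₁ = ((g : V ≃ₗ[F] V) w - w) - ((g : V ≃ₗ[F] V) v₁ - v₁) + ((w : V) - v₁) := by abel
          rw [this, h6]; abel
        have h8 := hfree _ h7
        have h9 : (w : V) = v₁ := sub_eq_zero.mp h8
        exact hv₁ (h9 ▸ w.2)
    have h3 : Nat.card V = Nat.card (V ⧸ W) * Nat.card W := by
      have := AddSubgroup.card_eq_card_quotient_mul_card_addSubgroup W.toAddSubgroup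
      exact this
    have h4 : (R.index + 1) ^ 2 ≤ Nat.card V := by
      rw [h3, sq]
      exact Nat.mul_le_mul h2 h1
    rw [hVcard] at h4
    have h5 : ((R.index : ℝ) + 1) ^ 2 ≤ (Fintype.card F : ℝ) ^ Module.finrank F V := by
      exact_mod_cast h4
    have h6 : (R.index : ℝ) + 1 ≤ Real.sqrt ((Fintype.card F : ℝ) ^ Module.finrank F V) :=
      Real.le_sqrt_of_sq_le h5
    linarith

end Cfsg.Agent.S4178
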