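import Cfsg.Statements.S4186
import Mathlib
-- import your own Cfsg.Agent.* helpers here

set_option autoImplicit false
open Cfsg

namespace Cfsg.Agent.S4186

theorem exists_step {G : Type*} [Group G] (C : Subgroup G) (k : ℕ) : ∀ t : G, t ^ 2 ^ k ∈ C → t ∉ C →
    ∃ j : ℕ, (t ^ 2 ^ j) ∉ C ∧ (t ^ 2 ^ j) ^ 2 ∈ C := by
  induction k with
  | zero => intro t h1 h2; simp at h1; exact absurd h1 h2
  | succ k ih =>
    intro t h1 h2
    by_cases h3 : t ^ 2 ∈ C
    · exact ⟨0, by simpa using h2, by simpa using h3⟩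
    · have h4 : (t ^ 2) ^ 2 ^ k ∈ C := by
        rw [← pow_mul, ← pow_succ']; exact h1
      obtain ⟨j, h5, h6⟩ := ih (t ^ 2) h4 h3
      have e : t ^ 2 ^ (j + 1) = (t ^ 2) ^ 2 ^ j := by rw [← pow_mul, ← pow_succ']
      exact ⟨j + 1, by rw [e]; exact h5, by rw [e]; exact h6⟩

/-- Let T and X be subgroups of a group with T a finite 2-group normalizing X but not centralizing it. Then some element of T inverts some non-identity element of X under conjugation. -/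
theorem result {G : Type*} [Group G] (T X : Subgroup G) [Finite ↥T] (hT : IsPGroup 2 ↥T) (hTN : T ≤ Subgroup.normalizer (X : Set G)) (hTC : ¬ T ≤ Subgroup.centralizer (X : Set G)) : ∃ t ∈ T, ∃ x ∈ X, x ≠ 1 ∧ t * x * t⁻¹ = x⁻¹ := by
  obtain ⟨t, htT, htC⟩ := Set.not_subset.mp hTC
  -- `t` has `2`-power order
  obtain ⟨k, hk⟩ := (IsPGroup.iff_orderOf.mp hT) ⟨t, htT⟩
  have ht1 : t ^ 2 ^ k = 1 := by
    have := pow_orderOf_eq_one (⟨t, htT⟩ : T)
    rw [hk] at this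
    exact congrArg Subtype.val this
  obtain ⟨j, h5, h6⟩ := exists_step (Subgroup.centralizer (X : Set G)) k t (by rw [ht1]; exact one_mem _) htC
  set s := t ^ 2 ^ j with hs
  have hsT : s ∈ T := pow_mem htT _
  rw [Subgroup.mem_centralizer_iff] at h5
  push_neg at h5
  obtain ⟨x, hx, hxs⟩ := h5
  have hxX : x ∈ X := hx
  have hn := hTN hsT
  rw [Subgroup.mem_normalizer_iff] at hn
  have hsx : s * x * s⁻¹ ∈ X := (hn x).mp hxX
  refine ⟨s, hsT, x⁻¹ * (s * x * s⁻¹), ?_, ?_, ?_⟩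
  · exact mul_mem (inv_mem hxX) hsx
  · intro h
    apply hxs
    have h2 : s * x * s⁻¹ = x := (inv_mul_eq_one.mp h).symm
    have h3 : s * x = x * s := by
      calc s * x = (s * x * s⁻¹) * s := by group
        _ = x * s := by rw [h2]
    exact h3.symm
  · have h7 : s ^ 2 * x = x * s ^ 2 := (Subgroup.mem_centralizer_iff.mp h6 x hx).symm
    have h8 : s * (s * x) * s⁻¹ * s⁻¹ = x := by
      calc s * (s * x) * s⁻¹ * s⁻¹ = (s ^ 2 * x) * (s ^ 2)⁻¹ := by simp only [pow_two, mul_inv_rev, mul_assoc]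
        _ = x := by rw [h7, mul_inv_cancel_right]
    calc s * (x⁻¹ * (s * x * s⁻¹)) * s⁻¹ = (s * x⁻¹ * s⁻¹) * (s * (s * x) * s⁻¹ * s⁻¹) := by group
      _ = (s * x⁻¹ * s⁻¹) * x := by rw [h8]
      _ = (x⁻¹ * (s * x * s⁻¹))⁻¹ := by group

end Cfsg.Agent.S4186
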