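import Cfsg.Statements.S4211
import Mathlib
import Cfsg.Agent.Lib.FGSBasic
import Cfsg.Agent.Lib.H1Quat
import Cfsg.Agent.Lib.H1Core
-- import your own Cfsg.Agent.* helpers here

set_option autoImplicit false
open Cfsg

namespace Cfsg.Agent.S4211

open Subgroup
section
variable {G : Type*} [Group G]

theorem p1 {u w d : G} (h : u * w = d * w * u) (hu : Commute d u) (hw : Commute d w) (i : ℕ) :
    u ^ i * w = d ^ i * w * u ^ i := by
  induction i with
  | zero => simp
  | succ i ih =>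
    have h1 : u ^ i * (d * w * u) = d * (u ^ i * w) * u := by
      rw [← mul_assoc, ← mul_assoc, (hu.pow_right i).eq.symm]
      group
    calc u ^ (i + 1) * w = u ^ i * (u * w) := by rw [pow_succ, mul_assoc]
      _ = u ^ i * (d * w * u) := by rw [h]
      _ = d * (u ^ i * w) * u := h1
      _ = d * (d ^ i * w * u ^ i) * u := by rw [ih]
      _ = d ^ (i + 1) * w * u ^ (i + 1) := by
        rw [pow_succ' d, pow_succ u]; simp only [mul_assoc]

theorem p2 {u w d : G} (h : u * w = d * w * u) (hu : Commute d u) (hw : Commute d w) (i j : ℕ) :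
    u ^ i * w ^ j = d ^ (i * j) * w ^ j * u ^ i := by
  induction j with
  | zero => simp
  | succ j ih =>
    rw [pow_succ, ← mul_assoc, ih, mul_assoc, mul_assoc, p1 h hu hw i]
    have h1 : u ^ i * d ^ (i * j) = d ^ (i * j) * u ^ i := ((hu.pow_left _).pow_right _).eq.symm
    have h2 : (w ^ j) * d ^ i = d ^ i * w ^ j := ((hw.pow_left _).pow_right _).eq.symm
    rw [mul_add, pow_add, mul_one]
    simp only [mul_assoc]
    rw [← mul_assoc (w ^ j) (d ^ i), h2]
    simp only [mul_assoc]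

theorem p3 {u w d : G} (h : u * w = d * w * u) (hu : Commute d u) (hw : Commute d w) (k : ℕ) :
    (w * u) ^ k = w ^ k * u ^ k * d ^ (k.choose 2) := by
  induction k with
  | zero => simp
  | succ k ih =>
    rw [pow_succ, ih]
    have h1 : Nat.choose (k + 1) 2 = k + k.choose 2 := by
      rw [Nat.choose_succ_succ' k 1]; simp
    rw [h1, pow_add d k]
    have h2 := p1 h hu hw k
    have h3 : d ^ (k.choose 2) * (w * u) = (w * u) * d ^ (k.choose 2) :=
      ((hw.mul_right hu).pow_left _).eq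
    have h4 : d ^ k * w = w * d ^ k := (hw.pow_left _).eq
    have h5 : d ^ k * (u ^ k * u) = (u ^ k * u) * d ^ k :=
      (((hu.pow_right k).pow_left k).mul_right (hu.pow_left k)).eq
    calc w ^ k * u ^ k * d ^ (k.choose 2) * (w * u) = w ^ k * u ^ k * (w * u) * d ^ (k.choose 2) := by
          rw [mul_assoc, h3]; simp only [mul_assoc]
      _ = w ^ k * (u ^ k * w) * u * d ^ (k.choose 2) := by simp only [mul_assoc]
      _ = w ^ k * (d ^ k * w * u ^ k) * u * d ^ (k.choose 2) := by rw [h2]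
      _ = w ^ k * w * (d ^ k * (u ^ k * u)) * d ^ (k.choose 2) := by
          simp only [mul_assoc]
          rw [← mul_assoc (d ^ k) w, h4]
          simp only [mul_assoc]
      _ = _ := by
          rw [h5, pow_succ w, pow_succ u]
          simp only [mul_assoc]

theorem two_dvd_choose (p n : ℕ) (hp : p.Prime) (hn : 2 ≤ n) (h : ¬ (p = 2 ∧ n = 2)) :
    p ∣ (p ^ (n - 1)).choose 2 := by
  obtain ⟨n', rfl⟩ : ∃ n', n = n' + 2 := ⟨n - 2, by omega⟩
  have hk : n' + 2 - 1 = n' + 1 := by omega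
  rw [hk]
  set k := p ^ (n' + 1) with hkdef
  have h2 : 2 * k.choose 2 = k * (k - 1) := by
    rw [Nat.choose_two_right]
    exact Nat.mul_div_cancel' (Nat.even_mul_pred_self k).two_dvd
  by_cases hp2 : p = 2
  · subst hp2
    have hn' : 1 ≤ n' := by
      by_contra hh
      exact h ⟨rfl, by omega⟩
    obtain ⟨l, rfl⟩ : ∃ l, n' = l + 1 := ⟨n' - 1, by omega⟩
    have h3 : k = 2 * (2 * 2 ^ l) := by rw [hkdef]; ring
    have h4 : k.choose 2 = 2 * (2 ^ l * (k - 1)) := by
      apply Nat.eq_of_mul_eq_mul_left (by norm_num : 0 < 2)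
      rw [h2]
      nth_rewrite 1 [h3]
      ring
    rw [h4]
    exact Dvd.intro _ rfl
  · have h3 : p ∣ 2 * k.choose 2 := by
      rw [h2]
      exact Dvd.dvd.mul_right (dvd_pow_self p (by omega)) _
    exact (hp.dvd_mul.mp h3).resolve_left (fun hd => hp2 ((Nat.prime_dvd_prime_iff_eq hp Nat.prime_two).mp hd))

theorem decomp [Finite G] {x c : G} {p k : ℕ} (hp : p.Prime) (hox : orderOf x = p ^ k)
    (hc : c ∈ zpowers x) (hc1 : c ≠ 1) (hcp : c ^ p = 1) :
    1 ≤ k ∧ ∃ r, x ^ (p ^ (k - 1) * r) = c ∧ ¬ p ∣ r := by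
  obtain ⟨i, rfl⟩ : ∃ i : ℕ, x ^ i = c :=
    (Submonoid.mem_powers_iff _ _).mp (mem_powers_iff_mem_zpowers.mpr hc)
  have hk : 1 ≤ k := by
    by_contra h
    have : k = 0 := by omega
    subst this
    rw [pow_zero, orderOf_eq_one_iff] at hox
    apply hc1
    rw [hox, one_pow]
  refine ⟨hk, ?_⟩
  obtain ⟨k', rfl⟩ : ∃ k', k = k' + 1 := ⟨k - 1, by omega⟩
  have h1 : p ^ (k' + 1) ∣ i * p := by
    rw [← hox]
    apply orderOf_dvd_of_pow_eq_one
    rw [pow_mul]; exact hcp
  have h2 : p ^ k' ∣ i := by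
    rw [pow_succ] at h1
    exact Nat.dvd_of_mul_dvd_mul_right hp.pos h1
  obtain ⟨r, rfl⟩ := h2
  refine ⟨r, by simp, ?_⟩
  rintro ⟨l, rfl⟩
  apply hc1
  have : p ^ (k' + 1) ∣ p ^ k' * (p * l) := ⟨l, by ring⟩
  rw [← hox] at this
  exact orderOf_dvd_iff_pow_eq_one.mp this

theorem pair_lemma [Finite G] (hn : ∀ H : Subgroup G, H.Normal) {a b : G} {p m n : ℕ} (hp : p.Prime)
    (hab : ¬ Commute a b)
    (hmin : ∀ x y : G, ¬ Commute x y → orderOf a + orderOf b ≤ orderOf x + orderOf y)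
    (hoa : orderOf a = p ^ m) (hob : orderOf b = p ^ n) (hnm : n ≤ m) :
    p = 2 ∧ m = 2 ∧ n = 2 := by
  haveI : Fact p.Prime := ⟨hp⟩
  set c := a * b * a⁻¹ * b⁻¹ with hc
  have hca' : c ∈ zpowers a := by
    have h1 : b * a⁻¹ * b⁻¹ ∈ zpowers a := (hn _).conj_mem _ (inv_mem (mem_zpowers a)) b
    have h2 := mul_mem (mem_zpowers a) h1
    convert h2 using 1
    rw [hc]; group
  have hcb' : c ∈ zpowers b := by
    have h1 : a * b * a⁻¹ ∈ zpowers b := (hn _).conj_mem _ (mem_zpowers b) a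
    exact mul_mem h1 (inv_mem (mem_zpowers b))
  have hca : Commute c a := by
    obtain ⟨k, hk⟩ := mem_zpowers_iff.mp hca'
    rw [← hk]; exact (Commute.refl a).zpow_left k
  have hcb : Commute c b := by
    obtain ⟨k, hk⟩ := mem_zpowers_iff.mp hcb'
    rw [← hk]; exact (Commute.refl b).zpow_left k
  have hrel : a * b = c * b * a := by rw [hc]; group
  have hc1 : c ≠ 1 := by
    intro h
    apply hab
    show a * b = b * a
    rw [hrel, h, one_mul]
  have hm1 : 1 ≤ m := by
    by_contra h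
    have h0 : m = 0 := by omega
    rw [h0, pow_zero, orderOf_eq_one_iff] at hoa
    apply hab; rw [hoa]; exact Commute.one_left b
  have hapb : Commute (a ^ p) b := by
    by_contra h
    have h1 := hmin _ _ h
    have h2 : (a ^ p) ^ (p ^ (m - 1)) = 1 := by
      rw [← pow_mul, ← pow_succ', show m - 1 + 1 = m by omega, ← hoa, pow_orderOf_eq_one]
    have h3 := Nat.le_of_dvd (pow_pos hp.pos _) (orderOf_dvd_of_pow_eq_one h2)
    have h4 : p ^ (m - 1) < p ^ m := Nat.pow_lt_pow_right hp.one_lt (by omega)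
    omega
  have hcp : c ^ p = 1 := by
    have h1 := p1 hrel hca hcb p
    have h2 : c ^ p * b * a ^ p = 1 * b * a ^ p := by
      rw [← h1, one_mul]; exact hapb.eq
    exact mul_right_cancel (mul_right_cancel h2)
  have hocp : orderOf c = p := orderOf_eq_prime hcp hc1
  obtain ⟨-, r, hr, hpr⟩ := decomp hp hoa hca' hc1 hcp
  obtain ⟨hn1, s, hs, hps⟩ := decomp hp hob hcb' hc1 hcp
  have hn2 : 2 ≤ n := by
    by_contra h
    have hn' : n = 1 := by omega
    subst hn'
    simp only [Nat.sub_self, pow_zero, one_mul, pow_one] at hs hob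
    obtain ⟨t, ht⟩ := Nat.exists_mul_mod_eq_one_of_coprime
      ((Nat.Prime.coprime_iff_not_dvd hp).mpr hps).symm hp.one_lt
    have h1 : b ^ (s * t) = b := by
      have h2 : b ^ p = 1 := by rw [← hob]; exact pow_orderOf_eq_one b
      rw [pow_eq_pow_mod _ h2, ht.2, pow_one]
    rw [pow_mul, hs] at h1
    apply hab
    rw [← h1]
    exact (hca.symm.pow_right t)
  set k := p ^ (n - 1) with hk
  set t := p ^ (m - n) * r with ht
  set u := a ^ t with hu
  set w := b ^ s with hw
  set d := c ^ (t * s) with hd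
  have hrel2 : u * w = d * w * u := p2 hrel hca hcb t s
  have hdu : Commute d u := (hca.pow_left _).pow_right _
  have hdw : Commute d w := (hcb.pow_left _).pow_right _
  have hrel3 : u⁻¹ * w = d⁻¹ * w * u⁻¹ := by
    have h1 : w = u⁻¹ * (d * w * u) * u⁻¹ * u := by
      rw [← hrel2]; group
    have h2 : d⁻¹ * w * u⁻¹ = d⁻¹ * (u⁻¹ * (d * w * u) * u⁻¹ * u) * u⁻¹ := by rw [← h1]
    rw [h2]
    have h3 : u⁻¹ * d = d * u⁻¹ := (hdu.inv_right).eq.symm
    calc u⁻¹ * w = d⁻¹ * (d * u⁻¹) * w := by group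
      _ = d⁻¹ * (u⁻¹ * d) * w := by rw [h3]
      _ = _ := by group
  have hpw := p3 hrel3 hdu.inv_inv hdw.inv_left k
  have hwk : w ^ k = c := by
    rw [hw, ← pow_mul, mul_comm, hs]
  have huk : u ^ k = c := by
    rw [hu, ← pow_mul, ← hr, ht, hk]
    congr 1
    have : p ^ (m - 1) = p ^ (m - n) * p ^ (n - 1) := by
      rw [← pow_add]; congr 1; omega
    rw [this]; ring
  have hyk : (w * u⁻¹) ^ k = (d⁻¹) ^ (k.choose 2) := by
    rw [hpw, hwk, inv_pow, huk]; simp
  have hnot : ¬ p ∣ t * s * k.choose 2 := by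
    intro hdvd
    have h1 : d ^ (k.choose 2) = 1 := by
      rw [hd, ← pow_mul]
      rw [← hocp] at hdvd
      exact orderOf_dvd_iff_pow_eq_one.mp hdvd
    have h2 : (w * u⁻¹) ^ k = 1 := by rw [hyk, inv_pow, h1, inv_one]
    have h3 := Nat.le_of_dvd (pow_pos hp.pos _) (orderOf_dvd_of_pow_eq_one h2)
    have h4 : ¬ Commute a (w * u⁻¹) := by
      intro h
      have h5 : Commute a u := (Commute.refl a).pow_right _
      have h6 : Commute a w := by
        have := h.mul_right h5
        simpa using this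
      have h7 := p2 hrel hca hcb 1 s
      rw [pow_one, one_mul, ← hw] at h7
      have h8 : c ^ s * w * a = 1 * w * a := by rw [← h7, one_mul]; exact h6.eq
      have h9 : c ^ s = 1 := mul_right_cancel (mul_right_cancel h8)
      apply hps
      rw [← hocp]
      exact orderOf_dvd_iff_pow_eq_one.mpr h9
    have h5 := hmin _ _ h4
    have h6 : p ^ (n - 1) < p ^ n := Nat.pow_lt_pow_right hp.one_lt (by omega)
    omega
  have hmn : m - n = 0 := by
    by_contra h
    apply hnot
    rw [ht]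
    have : p ∣ p ^ (m - n) := dvd_pow_self p h
    exact Dvd.dvd.mul_right (Dvd.dvd.mul_right (Dvd.dvd.mul_right this r) s) _
  have hch : p = 2 ∧ n = 2 := by
    by_contra h
    apply hnot
    exact Dvd.dvd.mul_left (two_dvd_choose p n hp hn2 h) _
  exact ⟨hch.1, by omega, hch.2⟩

theorem sq_of_order4 [Finite G] {x c : G} (hox : orderOf x = 4) (hc : c ∈ zpowers x) (hc1 : c ≠ 1)
    (hc2 : c ^ 2 = 1) : c = x ^ 2 := by
  obtain ⟨i, rfl⟩ : ∃ i : ℕ, x ^ i = c :=
    (Submonoid.mem_powers_iff _ _).mp (mem_powers_iff_mem_zpowers.mpr hc)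
  have h4 : x ^ 4 = 1 := by rw [← hox]; exact pow_orderOf_eq_one x
  have h1 : 4 ∣ i * 2 := by
    rw [← hox]
    apply orderOf_dvd_of_pow_eq_one
    rw [pow_mul]; exact hc2
  rw [pow_eq_pow_mod i h4] at hc1 ⊢
  have h3 : i % 4 < 4 := Nat.mod_lt _ (by norm_num)
  have h5 : i % 4 = 0 ∨ i % 4 = 2 := by omega
  rcases h5 with h5 | h5
  · rw [h5, pow_zero] at hc1; exact absurd rfl hc1
  · rw [h5]

theorem pp_of_min [Finite G] {a b : G} (hab : ¬ Commute a b)
    (hmin : ∀ x : G, orderOf x < orderOf a → Commute x b) :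
    ∃ p k : ℕ, p.Prime ∧ orderOf a = p ^ k := by
  have ha1 : orderOf a ≠ 1 := by
    intro h
    rw [orderOf_eq_one_iff] at h
    apply hab; rw [h]; exact Commute.one_left b
  obtain ⟨p, hp, hpd⟩ := Nat.exists_prime_and_dvd ha1
  haveI : Fact p.Prime := ⟨hp⟩
  obtain ⟨x, y, hx, hy, hxy, ⟨k, hk⟩, hcop⟩ := Lib.FGSBasic.exists_p_decomp p a
  have hxd : orderOf x ∣ orderOf a := orderOf_dvd_of_mem_zpowers hx
  have hyd : orderOf y ∣ orderOf a := orderOf_dvd_of_mem_zpowers hy
  have hpos := orderOf_pos a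
  by_cases hxa : orderOf x = orderOf a
  · exact ⟨p, k, hp, by rw [← hxa, hk]⟩
  · exfalso
    have hxlt : orderOf x < orderOf a := lt_of_le_of_ne (Nat.le_of_dvd hpos hxd) hxa
    have hya : orderOf y ≠ orderOf a := by
      intro h
      rw [h] at hcop
      have := Nat.Coprime.eq_one_of_dvd hcop.symm hpd
      exact hp.one_lt.ne' this
    have hylt : orderOf y < orderOf a := lt_of_le_of_ne (Nat.le_of_dvd hpos hyd) hya
    apply hab
    rw [← hxy]
    exact (hmin x hxlt).mul_left (hmin y hylt)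

theorem exists_quat_pair [Finite G] (hn : ∀ H : Subgroup G, H.Normal) (hna : ¬ IsMulCommutative G) :
    ∃ a b : G, orderOf a = 4 ∧ orderOf b = 4 ∧ b ^ 2 = a ^ 2 ∧ b * a * b⁻¹ = a⁻¹ ∧ a * b * a⁻¹ = b⁻¹ := by
  classical
  have hex : ∃ N, ∃ x y : G, ¬ Commute x y ∧ orderOf x + orderOf y = N := by
    by_contra h
    apply hna
    refine ⟨⟨fun x y => ?_⟩⟩
    by_contra hxy
    exact h ⟨_, x, y, hxy, rfl⟩
  obtain ⟨a, b, hab, hN⟩ := Nat.find_spec hex
  have hmin : ∀ x y : G, ¬ Commute x y → orderOf a + orderOf b ≤ orderOf x + orderOf y := by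
    intro x y hxy
    rw [hN]
    exact Nat.find_min' hex ⟨x, y, hxy, rfl⟩
  obtain ⟨p, m, hp, hoa⟩ := pp_of_min hab (by
    intro x hx
    by_contra h
    have := hmin x b h
    omega)
  obtain ⟨q, n, hq, hob⟩ := pp_of_min (a := b) (b := a) (fun h => hab h.symm) (by
    intro x hx
    by_contra h
    have := hmin a x (fun h' => h h'.symm)
    omega)
  set c := a * b * a⁻¹ * b⁻¹ with hc
  have hca' : c ∈ zpowers a := by
    have h1 : b * a⁻¹ * b⁻¹ ∈ zpowers a := (hn _).conj_mem _ (inv_mem (mem_zpowers a)) b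
    have h2 := mul_mem (mem_zpowers a) h1
    convert h2 using 1
    rw [hc]; group
  have hcb' : c ∈ zpowers b := by
    have h1 : a * b * a⁻¹ ∈ zpowers b := (hn _).conj_mem _ (mem_zpowers b) a
    exact mul_mem h1 (inv_mem (mem_zpowers b))
  have hca : Commute c a := by
    obtain ⟨k, hk⟩ := mem_zpowers_iff.mp hca'
    rw [← hk]; exact (Commute.refl a).zpow_left k
  have hcb : Commute c b := by
    obtain ⟨k, hk⟩ := mem_zpowers_iff.mp hcb'
    rw [← hk]; exact (Commute.refl b).zpow_left k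
  have hrel : a * b = c * b * a := by rw [hc]; group
  have hc1 : c ≠ 1 := by
    intro h
    apply hab
    show a * b = b * a
    rw [hrel, h, one_mul]
  have hpq : p = q := by
    by_contra hne
    have h1 := orderOf_dvd_of_mem_zpowers hca'
    have h2 := orderOf_dvd_of_mem_zpowers hcb'
    rw [hoa] at h1
    rw [hob] at h2
    have hco : Nat.Coprime (p ^ m) (q ^ n) :=
      Nat.Coprime.pow _ _ ((Nat.coprime_primes hp hq).mpr hne)
    have := Nat.Coprime.eq_one_of_dvd (hco.coprime_dvd_left h1) h2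
    exact hc1 (orderOf_eq_one_iff.mp this)
  subst hpq
  have hall : p = 2 ∧ m = 2 ∧ n = 2 := by
    rcases le_total n m with h | h
    · exact pair_lemma hn hp hab hmin hoa hob h
    · obtain ⟨h1, h2, h3⟩ := pair_lemma hn hp (fun h' => hab h'.symm)
        (fun x y hxy => by have := hmin x y hxy; omega) hob hoa h
      exact ⟨h1, h3, h2⟩
  obtain ⟨rfl, rfl, rfl⟩ := hall
  norm_num at hoa hob
  have ha4 : a ^ 4 = 1 := by rw [← hoa]; exact pow_orderOf_eq_one a
  have hb4 : b ^ 4 = 1 := by rw [← hob]; exact pow_orderOf_eq_one b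
  have hc2 : c ^ 2 = 1 := by
    have hapb : Commute (a ^ 2) b := by
      by_contra h
      have h1 := hmin _ _ h
      have h2 : (a ^ 2) ^ 2 = 1 := by rw [← pow_mul]; exact ha4
      have h3 := Nat.le_of_dvd (by positivity) (orderOf_dvd_of_pow_eq_one h2)
      omega
    have h1 := p1 hrel hca hcb 2
    have h2 : c ^ 2 * b * a ^ 2 = 1 * b * a ^ 2 := by
      rw [← h1, one_mul]; exact hapb.eq
    exact mul_right_cancel (mul_right_cancel h2)
  have hca2 := sq_of_order4 hoa hca' hc1 hc2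
  have hcb2 := sq_of_order4 hob hcb' hc1 hc2
  refine ⟨a, b, hoa, hob, by rw [← hca2, ← hcb2], ?_, ?_⟩
  · have h1 : b * a⁻¹ * b⁻¹ = a := by
      have h2 : a * (b * a⁻¹ * b⁻¹) = a * a := by
        have h3 : a * b * a⁻¹ * b⁻¹ = a ^ 2 := hca2
        rw [pow_two] at h3
        rw [← h3]; group
      exact mul_left_cancel h2
    have h3 : b * a * b⁻¹ = (b * a⁻¹ * b⁻¹)⁻¹ := by group
    rw [h3, h1]
  · have h3 : a * b * a⁻¹ * b⁻¹ = b ^ 2 := hcb2
    have h4 : a * b * a⁻¹ = b ^ 2 * b := by rw [← h3]; group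
    rw [h4]
    rw [eq_inv_iff_mul_eq_one, ← hb4]
    simp only [pow_succ, pow_zero, one_mul]

theorem conj4 [Finite G] {a y : G} (hoa : orderOf a = 4) (hy : y ∈ zpowers a) (hoy : orderOf y = 4) :
    y = a ∨ y = a⁻¹ := by
  obtain ⟨i, rfl⟩ : ∃ i : ℕ, a ^ i = y :=
    (Submonoid.mem_powers_iff _ _).mp (mem_powers_iff_mem_zpowers.mpr hy)
  have h4 : a ^ 4 = 1 := by rw [← hoa]; exact pow_orderOf_eq_one a
  have h3 : i % 4 < 4 := Nat.mod_lt _ (by norm_num)
  rw [pow_eq_pow_mod i h4] at hoy ⊢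
  interval_cases h : i % 4
  · simp at hoy
  · left; simp
  · exfalso
    have : (a ^ 2) ^ 2 = 1 := by rw [← pow_mul]; exact h4
    have h5 := orderOf_dvd_of_pow_eq_one this
    rw [hoy] at h5
    norm_num at h5
  · right
    rw [eq_inv_iff_mul_eq_one, ← h4]
    simp only [pow_succ, pow_zero, one_mul]

theorem mem_Q [Finite G] {a b z : G} (hba : b ^ 2 = a ^ 2) (hna : (zpowers a).Normal) (hz : z ∈ zpowers b ⊔ zpowers a) :
    z ∈ zpowers a ∨ b⁻¹ * z ∈ zpowers a := by
  rw [← SetLike.mem_coe, Subgroup.mul_normal, Set.mem_mul] at hz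
  obtain ⟨x, hx, y, hy, rfl⟩ := hz
  obtain ⟨j, rfl⟩ : ∃ j : ℕ, b ^ j = x :=
    (Submonoid.mem_powers_iff _ _).mp (mem_powers_iff_mem_zpowers.mpr hx)
  have hy' : y ∈ zpowers a := hy
  rcases Nat.even_or_odd' j with ⟨l, rfl | rfl⟩
  · left
    rw [pow_mul, hba]
    exact mul_mem (pow_mem (pow_mem (mem_zpowers a) _) _) hy'
  · right
    rw [pow_succ', pow_mul, hba]
    have : b⁻¹ * (b * (a ^ 2) ^ l * y) = (a ^ 2) ^ l * y := by group
    rw [this]
    exact mul_mem (pow_mem (pow_mem (mem_zpowers a) _) _) hy'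

theorem quat_of_pair [Finite G] {a b : G} (hoa : orderOf a = 4) (hba : b ^ 2 = a ^ 2)
    (hbab : b * a * b⁻¹ = a⁻¹) (hna : (zpowers a).Normal) :
    Nonempty (↥(zpowers b ⊔ zpowers a) ≃* QuaternionGroup 2) := by
  set Q := zpowers b ⊔ zpowers a with hQ
  have haQ : a ∈ Q := (le_sup_right : zpowers a ≤ Q) (mem_zpowers a)
  have hbQ : b ∈ Q := (le_sup_left : zpowers b ≤ Q) (mem_zpowers b)
  have hbna : b ∉ zpowers a := by
    intro h
    obtain ⟨k, hk⟩ := mem_zpowers_iff.mp h
    have hc : Commute b a := by rw [← hk]; exact (Commute.refl a).zpow_left k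
    have h1 : a = a⁻¹ := by rw [← hbab, hc.eq]; group
    have h2 : a ^ 2 = 1 := by
      rw [pow_two]; nth_rewrite 2 [h1]; simp
    have h3 := orderOf_dvd_of_pow_eq_one h2
    rw [hoa] at h3
    norm_num at h3
  have htr : ∀ (x : Q), (x : G) ∈ zpowers a → x ∈ zpowers (⟨a, haQ⟩ : Q) := by
    intro x hx
    obtain ⟨k, hk⟩ := mem_zpowers_iff.mp hx
    refine mem_zpowers_iff.mpr ⟨k, Subtype.ext ?_⟩
    simpa using hk
  refine Lib.H1Quat.quat_iso (n := 2) (⟨a, haQ⟩ : Q) ⟨b, hbQ⟩ ?_ ?_ ?_ ?_ ?_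
  · rw [Subgroup.orderOf_mk, hoa]
  · apply Subtype.ext
    simpa using hbab
  · apply Subtype.ext
    simpa using hba
  · intro h
    obtain ⟨k, hk⟩ := mem_zpowers_iff.mp h
    apply hbna
    refine mem_zpowers_iff.mpr ⟨k, ?_⟩
    have := congrArg Subtype.val hk
    simpa using this
  · intro x
    rcases mem_Q hba hna x.2 with h | h
    · exact Or.inl (htr x h)
    · right
      apply htr
      simpa using h

theorem main [Finite G] (hna : ¬ IsMulCommutative G) (hn : ∀ H : Subgroup G, H.Normal) :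
    ∃ Q E A : Subgroup G, Nonempty (Q ≃* QuaternionGroup 2) ∧ Cfsg.IsElementaryAbelian 2 E ∧
      IsMulCommutative A ∧ Odd (Nat.card A) ∧ E ⊓ A = ⊥ ∧ Q ⊓ (E ⊔ A) = ⊥ ∧ Q ⊔ (E ⊔ A) = ⊤ := by
  classical
  obtain ⟨a, b, hoa, hob, hba2, hbab, habab⟩ := exists_quat_pair hn hna
  have ha4 : a ^ 4 = 1 := by rw [← hoa]; exact pow_orderOf_eq_one a
  have hb4 : b ^ 4 = 1 := by rw [← hob]; exact pow_orderOf_eq_one b
  have ha2 : a ^ 2 ≠ 1 := by
    intro h
    have h3 := orderOf_dvd_of_pow_eq_one h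
    rw [hoa] at h3
    norm_num at h3
  have hinv2 : ∀ {y : G}, y ^ 4 = 1 → y ^ 3 = y⁻¹ := by
    intro y hy
    rw [eq_inv_iff_mul_eq_one, ← hy]
    simp only [pow_succ, pow_zero, one_mul]
  have hnc : ¬ Commute a b := by
    intro h
    have h1 : b = b⁻¹ := by rw [← habab, h.eq]; group
    have h2 : b ^ 2 = 1 := by
      rw [pow_two]; nth_rewrite 2 [h1]; simp
    exact ha2 (by rw [← hba2, h2])
  set c := a ^ 2 with hc
  set Q := zpowers b ⊔ zpowers a with hQ
  have hQiso := quat_of_pair hoa hba2 hbab (hn _)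
  set C := centralizer ({a, b} : Set G) with hCdef
  have memC : ∀ x, x ∈ C ↔ x * a = a * x ∧ x * b = b * x := by
    intro x
    rw [hCdef, Subgroup.mem_centralizer_iff]
    constructor
    · intro h
      exact ⟨(h a (by simp)).symm, (h b (by simp)).symm⟩
    · rintro ⟨h1, h2⟩ y hy
      rcases hy with rfl | hy
      · exact h1.symm
      · rw [Set.mem_singleton_iff.mp hy]; exact h2.symm
  have haQ : a ∈ Q := (le_sup_right : zpowers a ≤ Q) (mem_zpowers a)
  have hbQ : b ∈ Q := (le_sup_left : zpowers b ≤ Q) (mem_zpowers b)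
  have hcQ : c ∈ Q := pow_mem haQ 2
  -- every element is in `Q C`
  have hQC : ∀ x : G, ∃ q ∈ Q, q * x ∈ C := by
    intro x
    have h1 : x * a * x⁻¹ ∈ zpowers a := (hn _).conj_mem _ (mem_zpowers a) x
    have h2 : x * b * x⁻¹ ∈ zpowers b := (hn _).conj_mem _ (mem_zpowers b) x
    have h3 := conj4 hoa h1 (by rw [← hoa]; exact Lib.FGSBasic.orderOf_conj _ _)
    have h4 := conj4 hob h2 (by rw [← hob]; exact Lib.FGSBasic.orderOf_conj _ _)
    have hmemC : ∀ q : G, q * x * a * (q * x)⁻¹ = a → q * x * b * (q * x)⁻¹ = b → q * x ∈ C := by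
      intro q h5 h6
      rw [memC]
      constructor
      · rw [mul_inv_eq_iff_eq_mul] at h5; exact h5
      · rw [mul_inv_eq_iff_eq_mul] at h6; exact h6
    rcases h3 with h3 | h3 <;> rcases h4 with h4 | h4
    · refine ⟨1, one_mem _, ?_⟩
      rw [one_mul]
      rw [memC]
      rw [mul_inv_eq_iff_eq_mul] at h3 h4
      exact ⟨h3, h4⟩
    · refine ⟨a, haQ, hmemC a ?_ ?_⟩
      · have : a * x * a * (a * x)⁻¹ = a * (x * a * x⁻¹) * a⁻¹ := by group
        rw [this, h3]; group
      · have : a * x * b * (a * x)⁻¹ = a * (x * b * x⁻¹) * a⁻¹ := by group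
        rw [this, h4]
        have h5 : a * b⁻¹ * a⁻¹ = (a * b * a⁻¹)⁻¹ := by group
        rw [h5, habab]; group
    · refine ⟨b, hbQ, hmemC b ?_ ?_⟩
      · have : b * x * a * (b * x)⁻¹ = b * (x * a * x⁻¹) * b⁻¹ := by group
        rw [this, h3]
        have h5 : b * a⁻¹ * b⁻¹ = (b * a * b⁻¹)⁻¹ := by group
        rw [h5, hbab]; group
      · have : b * x * b * (b * x)⁻¹ = b * (x * b * x⁻¹) * b⁻¹ := by group
        rw [this, h4]; group
    · refine ⟨a * b, mul_mem haQ hbQ, hmemC (a * b) ?_ ?_⟩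
      · have : a * b * x * a * (a * b * x)⁻¹ = a * (b * (x * a * x⁻¹) * b⁻¹) * a⁻¹ := by group
        rw [this, h3]
        have h5 : b * a⁻¹ * b⁻¹ = (b * a * b⁻¹)⁻¹ := by group
        rw [h5, hbab]; group
      · have : a * b * x * b * (a * b * x)⁻¹ = a * (b * (x * b * x⁻¹) * b⁻¹) * a⁻¹ := by group
        rw [this, h4]
        have h5 : a * (b * b⁻¹ * b⁻¹) * a⁻¹ = (a * b * a⁻¹)⁻¹ := by group
        rw [h5, habab]; group
  -- no elements of order 4 in `C`
  have hC4 : ∀ x ∈ C, x ^ 4 = 1 → x ^ 2 = 1 := by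
    intro x hx hx4
    obtain ⟨hxa, hxb⟩ := (memC x).mp hx
    have hcxa : Commute a x := hxa.symm
    set y := a * x with hy
    have h1 : y * b * y⁻¹ * b⁻¹ ∈ zpowers y := by
      have h2 : b * y⁻¹ * b⁻¹ ∈ zpowers y := (hn _).conj_mem _ (inv_mem (mem_zpowers y)) b
      have h3 := mul_mem (mem_zpowers y) h2
      convert h3 using 1
      group
    have h2 : y * b * y⁻¹ * b⁻¹ = c := by
      have h3 : y * b * y⁻¹ = b⁻¹ := by
        have : y * b * y⁻¹ = a * (x * b * x⁻¹) * a⁻¹ := by rw [hy]; group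
        rw [this, mul_inv_eq_iff_eq_mul.mpr hxb, habab]
      rw [h3]
      show b⁻¹ * b⁻¹ = c
      rw [← hba2, pow_two]
      have h4 : b⁻¹ * b⁻¹ = b * b := by
        have h5 : b * b * (b * b) = 1 := by
          have := hb4
          simp only [pow_succ, pow_zero, one_mul] at this
          simpa [mul_assoc] using this
        have h6 : b⁻¹ * b⁻¹ = (b * b)⁻¹ := by group
        rw [h6]
        exact (eq_inv_of_mul_eq_one_left h5).symm
      exact h4
    rw [h2] at h1
    obtain ⟨i, hi⟩ : ∃ i : ℕ, y ^ i = c :=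
      (Submonoid.mem_powers_iff _ _).mp (mem_powers_iff_mem_zpowers.mpr h1)
    have hy4 : y ^ 4 = 1 := by rw [hy, hcxa.mul_pow, ha4, hx4, one_mul]
    have h3 : i % 4 < 4 := Nat.mod_lt _ (by norm_num)
    rw [pow_eq_pow_mod i hy4] at hi
    have hnaC : a ∉ C := fun h => hnc ((memC a).mp h).2
    interval_cases h : i % 4
    · exact absurd hi.symm (by simpa using ha2)
    · exfalso
      rw [pow_one, hy, hc, pow_two] at hi
      have h5 : x = a := mul_left_cancel hi
      exact hnaC (h5 ▸ hx)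
    · rw [hy, hcxa.mul_pow, hc] at hi
      have : a ^ 2 * x ^ 2 = a ^ 2 * 1 := by rw [hi, mul_one]
      exact mul_left_cancel this
    · exfalso
      rw [hy, hcxa.mul_pow, hc] at hi
      have h5 : a * x ^ 3 = 1 := by
        have : a ^ 2 * (a * x ^ 3) = a ^ 2 * 1 := by
          rw [mul_one, ← mul_assoc, ← pow_succ]
          exact hi
        exact mul_left_cancel this
      have h6 : a = (x ^ 3)⁻¹ := eq_inv_of_mul_eq_one_left h5
      exact hnaC (by rw [h6]; exact inv_mem (pow_mem hx 3))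
  -- `C` is abelian
  have hnC : ∀ H : Subgroup C, H.Normal := by
    intro H
    constructor
    intro n hn' g
    have h1 := (hn (H.map C.subtype)).conj_mem n (Subgroup.mem_map_of_mem _ hn') g
    obtain ⟨z, hz, hzz⟩ := h1
    have : z = g * n * g⁻¹ := Subtype.ext (by simpa using hzz)
    rwa [← this]
  have hCab : ∀ x ∈ C, ∀ y ∈ C, x * y = y * x := by
    by_contra hcon
    push_neg at hcon
    obtain ⟨x, hx, y, hy, hxy⟩ := hcon
    have hna' : ¬ IsMulCommutative C := by
      intro h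
      apply hxy
      have := h.is_comm.comm ⟨x, hx⟩ ⟨y, hy⟩
      simpa using congrArg Subtype.val this
    obtain ⟨a', b', hoa', -, -, -, -⟩ := exists_quat_pair hnC hna'
    have h4 : (a' : G) ^ 4 = 1 := by
      have : a' ^ 4 = 1 := by rw [← hoa']; exact pow_orderOf_eq_one a'
      simpa using congrArg Subtype.val this
    have h2 := hC4 a' a'.2 h4
    have h3 : a' ^ 2 = 1 := Subtype.ext (by simpa using h2)
    have h5 := orderOf_dvd_of_pow_eq_one h3
    rw [hoa'] at h5
    norm_num at h5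
  -- 2-elements of `C` are involutions
  have hC2 : ∀ x ∈ C, ∀ k, orderOf x = 2 ^ k → x ^ 2 = 1 := by
    intro x hx k hk
    by_contra hne
    have hk2 : 2 ≤ k := by
      by_contra h
      have h1 : k = 0 ∨ k = 1 := by omega
      apply hne
      rcases h1 with rfl | rfl
      · rw [pow_zero, orderOf_eq_one_iff] at hk
        rw [hk, one_pow]
      · rw [pow_one] at hk
        rw [← hk]; exact pow_orderOf_eq_one x
    obtain ⟨l, rfl⟩ : ∃ l, k = l + 2 := ⟨k - 2, by omega⟩
    have h1 : (x ^ (2 ^ l)) ^ 4 = 1 := by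
      rw [← pow_mul, show 2 ^ l * 4 = 2 ^ (l + 2) by ring, ← hk]
      exact pow_orderOf_eq_one x
    have h2 := hC4 _ (pow_mem hx _) h1
    have h3 : orderOf x ∣ 2 ^ l * 2 := by
      apply orderOf_dvd_of_pow_eq_one
      rw [pow_mul]; exact h2
    rw [hk] at h3
    have h4 : 2 ^ (l + 2) = 2 * (2 ^ l * 2) := by ring
    have h5 : 2 ^ l * 2 > 0 := by positivity
    have h6 := Nat.le_of_dvd h5 h3
    omega
  -- the odd part
  set A₀ := Cfsg.pPrimeCore 2 C with hA₀
  set A := A₀.map C.subtype with hA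
  have hAC : A ≤ C := by
    rintro _ ⟨z, -, rfl⟩
    exact z.2
  have hcardA : (Nat.card A).Coprime 2 := by
    have h1 : Nat.card A = Nat.card A₀ :=
      (Nat.card_congr (A₀.equivMapOfInjective _ C.subtype_injective).toEquiv).symm
    rw [h1]
    exact Lib.H1Core.pPrimeCore_coprime 2
  have hAodd : Odd (Nat.card A) := Nat.coprime_two_right.mp hcardA
  have hAsq : ∀ z ∈ A, z ^ 2 = 1 → z = 1 := by
    intro z hz hz2
    by_contra hne
    have h1 : orderOf z = 2 := orderOf_eq_prime hz2 hne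
    have h2 : orderOf (⟨z, hz⟩ : A) ∣ Nat.card A := orderOf_dvd_natCard _
    rw [Subgroup.orderOf_mk, h1] at h2
    have := Nat.Coprime.eq_one_of_dvd hcardA.symm h2
    omega
  have hAmem : ∀ z ∈ C, (orderOf z).Coprime 2 → z ∈ A := by
    intro z hz hcop
    refine ⟨⟨z, hz⟩, ?_, rfl⟩
    have h1 : zpowers (⟨z, hz⟩ : C) ≤ A₀ := by
      apply Lib.H1Core.le_pPrimeCore (hnC _)
      rw [Nat.card_zpowers, Subgroup.orderOf_mk]
      exact hcop
    exact h1 (mem_zpowers _)
  -- the elementary part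
  let F : Set (Subgroup G) := {K | K ≤ C ∧ (∀ x ∈ K, x ^ 2 = 1) ∧ c ∉ K}
  have hbotF : (⊥ : Subgroup G) ∈ F := by
    refine ⟨bot_le, ?_, ?_⟩
    · intro x hx
      rw [Subgroup.mem_bot] at hx
      rw [hx, one_pow]
    · rw [Subgroup.mem_bot]; exact ha2
  obtain ⟨E, hE⟩ := (Set.toFinite F).exists_le_maximal hbotF |>.imp fun _ h => h.2
  obtain ⟨hEC, hE2, hcE⟩ := hE.prop
  have hEmem : ∀ x ∈ C, x ^ 2 = 1 → x ∈ E ∨ c * x ∈ E := by
    intro x hx hx2
    by_contra hcon
    push_neg at hcon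
    obtain ⟨hxE, hcxE⟩ := hcon
    haveI := hn E
    have hcase : ∀ y ∈ zpowers x, y = 1 ∨ y = x := by
      intro y hy
      obtain ⟨i, rfl⟩ : ∃ i : ℕ, x ^ i = y :=
        (Submonoid.mem_powers_iff _ _).mp (mem_powers_iff_mem_zpowers.mpr hy)
      rw [pow_eq_pow_mod i hx2]
      have h3 : i % 2 < 2 := Nat.mod_lt _ (by norm_num)
      interval_cases h : i % 2
      · left; simp
      · right; simp
    set E' := E ⊔ zpowers x with hE'
    have hE'mem : ∀ y ∈ E', y ∈ E ∨ ∃ e ∈ E, y = e * x := by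
      intro y hy
      rw [← SetLike.mem_coe, Subgroup.normal_mul, Set.mem_mul] at hy
      obtain ⟨e, he, z, hz, rfl⟩ := hy
      rcases hcase z hz with rfl | rfl
      · left; simpa using he
      · right; exact ⟨e, he, rfl⟩
    have hE'C : E' ≤ C := sup_le hEC ((Subgroup.zpowers_le).mpr hx)
    have hE'2 : ∀ y ∈ E', y ^ 2 = 1 := by
      intro y hy
      rcases hE'mem y hy with h | ⟨e, he, rfl⟩
      · exact hE2 y h
      · have : Commute e x := hCab e (hEC he) x hx
        rw [this.mul_pow, hE2 e he, hx2, one_mul]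
    have hcE' : c ∈ E' := by
      by_contra h
      have hmem : E' ∈ F := ⟨hE'C, hE'2, h⟩
      have hle : E ≤ E' := le_sup_left
      have := hE.le_of_ge hmem hle
      exact hxE (this ((le_sup_right : zpowers x ≤ E') (mem_zpowers x)))
    rcases hE'mem c hcE' with h | ⟨e, he, he2⟩
    · exact hcE h
    · apply hcxE
      have : c * x = e := by
        rw [he2, mul_assoc, ← pow_two, hx2, mul_one]
      rw [this]; exact he
  refine ⟨Q, E, A, hQiso, ?_, ?_, hAodd, ?_, ?_, ?_⟩
  · refine ⟨⟨⟨fun x y => Subtype.ext (hCab _ (hEC x.2) _ (hEC y.2))⟩⟩, hE2⟩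
  · exact ⟨⟨fun x y => Subtype.ext (hCab _ (hAC x.2) _ (hAC y.2))⟩⟩
  · rw [eq_bot_iff]
    rintro x ⟨hx1, hx2⟩
    rw [Subgroup.mem_bot]
    exact hAsq x hx2 (hE2 x hx1)
  · rw [eq_bot_iff]
    rintro z ⟨hz1, hz2⟩
    rw [Subgroup.mem_bot]
    haveI := hn E
    have hz2' : z ∈ (E ⊔ A : Subgroup G) := hz2
    rw [← SetLike.mem_coe, Subgroup.normal_mul, Set.mem_mul] at hz2'
    obtain ⟨e, he, α, hα, rfl⟩ := hz2'
    have hzC : e * α ∈ C := mul_mem (hEC he) (hAC hα)
    have hcom : Commute e α := hCab e (hEC he) α (hAC hα)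
    -- `e * α` is `1` or `c`
    have hQC' : e * α = 1 ∨ e * α = c := by
      obtain ⟨hza, hzb⟩ := (memC _).mp hzC
      have hnaodd : ∀ i : ℕ, Commute (a ^ i) b → a ^ i = 1 ∨ a ^ i = c := by
        intro i hi
        have h3 : i % 4 < 4 := Nat.mod_lt _ (by norm_num)
        rw [pow_eq_pow_mod i ha4] at hi ⊢
        interval_cases h : i % 4
        · left; simp
        · exact absurd (by simpa using hi) hnc
        · right; rfl
        · exfalso
          rw [hinv2 ha4] at hi
          apply hnc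
          simpa using hi.inv_left
      rcases mem_Q hba2 (hn _) hz1 with h | h
      · obtain ⟨i, hi⟩ : ∃ i : ℕ, a ^ i = e * α :=
          (Submonoid.mem_powers_iff _ _).mp (mem_powers_iff_mem_zpowers.mpr h)
        rw [← hi]
        apply hnaodd
        rw [hi]; exact hzb
      · exfalso
        obtain ⟨i, hi⟩ : ∃ i : ℕ, a ^ i = b⁻¹ * (e * α) :=
          (Submonoid.mem_powers_iff _ _).mp (mem_powers_iff_mem_zpowers.mpr h)
        have hz : e * α = b * a ^ i := by rw [hi]; group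
        have h1 : Commute (a ^ i) b := by
          have h2 : Commute (b * a ^ i) b := by rw [← hz]; exact hzb
          have h3 := ((Commute.refl b).inv_left).mul_left h2
          simpa using h3
        rcases hnaodd i h1 with h2 | h2
        · rw [h2, mul_one] at hz
          apply hnc
          have : Commute (e * α) a := hza
          rw [hz] at this
          exact this.symm
        · rw [h2] at hz
          apply hnc
          have h3 : Commute (e * α) a := hza
          rw [hz] at h3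
          have h4 : Commute c a := (Commute.refl a).pow_left 2
          have h5 := h3.mul_left h4.inv_left
          rw [mul_inv_cancel_right] at h5
          exact h5.symm
    have hzsq : (e * α) ^ 2 = 1 := by
      rcases hQC' with h | h
      · rw [h, one_pow]
      · rw [h, hc, ← pow_mul]; exact ha4
    rw [hcom.mul_pow, hE2 e he, one_mul] at hzsq
    have hα1 := hAsq α hα hzsq
    rw [hα1, mul_one] at hQC' ⊢
    rcases hQC' with h | h
    · exact h
    · exact absurd (h ▸ he) hcE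
  · rw [eq_top_iff]
    intro x _
    obtain ⟨q, hq, hqx⟩ := hQC x
    obtain ⟨s, t, hs, ht, hst, ⟨k, hk⟩, hcop⟩ := Lib.FGSBasic.exists_p_decomp 2 (q * x)
    have hzle : zpowers (q * x) ≤ C := (Subgroup.zpowers_le).mpr hqx
    have hsC := hzle hs
    have htC := hzle ht
    have hs2 := hC2 s hsC k hk
    have htA := hAmem t htC hcop
    have hQle : Q ≤ Q ⊔ (E ⊔ A) := le_sup_left
    have hEle : E ≤ Q ⊔ (E ⊔ A) := le_sup_left.trans le_sup_right
    have hAle : A ≤ Q ⊔ (E ⊔ A) := le_sup_right.trans le_sup_right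
    have hx : x = q⁻¹ * (s * t) := by rw [hst]; group
    rw [hx]
    refine mul_mem (inv_mem (hQle hq)) (mul_mem ?_ (hAle htA))
    rcases hEmem s hsC hs2 with h | h
    · exact hEle h
    · have : s = c⁻¹ * (c * s) := by group
      rw [this]
      exact mul_mem (inv_mem (hQle hcQ)) (hEle h)
end

/-- A finite non-abelian group in which every subgroup is normal is the internal direct product of a subgroup isomorphic to the quaternion group of order `8`, an elementary abelian `2`-subgroup and an abelian subgroup of odd order. -/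
theorem result {G : Type*} [Group G] [Finite G] (hna : ¬ IsMulCommutative G) (hn : ∀ H : Subgroup G, H.Normal) : ∃ Q E A : Subgroup G, Nonempty (Q ≃* QuaternionGroup 2) ∧ Cfsg.IsElementaryAbelian 2 E ∧ IsMulCommutative A ∧ Odd (Nat.card A) ∧ E ⊓ A = ⊥ ∧ Q ⊓ (E ⊔ A) = ⊥ ∧ Q ⊔ (E ⊔ A) = ⊤ := by
  exact main hna hn

end Cfsg.Agent.S4211
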