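import Cfsg.Statements.S4189
import Mathlib
import Cfsg.Agent.Lib.Taussky2
import Cfsg.Agent.Lib.H1Quat
import Cfsg.Agent.Lib.FGSBasic
import Cfsg.Agent.S4211
-- import your own Cfsg.Agent.* helpers here

set_option autoImplicit false
open Cfsg

namespace Cfsg.Agent.S4189

open Subgroup
open scoped commutatorElement
universe u

/-- an automorphism of odd order fixes a generator of an invariant cyclic 2-subgroup -/
theorem fix_gen {P : Type*} [Group P] [Finite P] (α : MulAut P) {m : ℕ} (hm : Odd m) (hαm : α ^ m = 1)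
    {x : P} {n : ℕ} (hn : orderOf x = 2 ^ n) (hx : α x ∈ zpowers x) : α x = x := by
  obtain ⟨r, hr⟩ : ∃ r : ℕ, x ^ r = α x :=
    (Submonoid.mem_powers_iff _ _).mp (mem_powers_iff_mem_zpowers.mpr hx)
  have hpow : ∀ k : ℕ, (α ^ k) x = x ^ (r ^ k) := by
    intro k
    induction k with
    | zero => simp
    | succ k ih =>
      rw [pow_succ', MulAut.mul_apply, ih, map_pow, ← hr, ← pow_mul, pow_succ']
  have h1 : x ^ (r ^ m) = x := by
    rw [← hpow, hαm]; rfl
  have h2 : r ^ m ≡ 1 [MOD 2 ^ n] := by
    rw [← hn]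
    apply pow_eq_pow_iff_modEq.mp
    rw [h1, pow_one]
  have hm0 : m ≠ 0 := by
    rintro rfl
    simp at hm
  haveI : NeZero (2 ^ n) := ⟨by positivity⟩
  have h3 : ((r : ZMod (2 ^ n))) ^ m = 1 := by
    have := (ZMod.natCast_eq_natCast_iff _ _ _).mpr h2
    simpa using this
  let u : (ZMod (2 ^ n))ˣ := Units.ofPowEqOne _ m h3 hm0
  have hu : u ^ m = 1 := Units.pow_ofPowEqOne _ _
  have hcard : Nat.card (ZMod (2 ^ n))ˣ ∣ 2 ^ n := by
    rw [Nat.card_eq_fintype_card, ZMod.card_units_eq_totient]
    cases n with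
    | zero => simp
    | succ k =>
      rw [Nat.totient_prime_pow_succ Nat.prime_two k]
      exact ⟨2, by ring⟩
  have hu1 : u = 1 := by
    have h4 : orderOf u ∣ m := orderOf_dvd_of_pow_eq_one hu
    have h5 : orderOf u ∣ 2 ^ n := (orderOf_dvd_natCard u).trans hcard
    have h6 : Nat.Coprime m (2 ^ n) := Nat.Coprime.pow_right _ (Nat.coprime_two_right.mpr hm)
    have h7 := Nat.Coprime.eq_one_of_dvd (h6.coprime_dvd_left h4) h5
    exact orderOf_eq_one_iff.mp h7
  have h8 : (r : ZMod (2 ^ n)) = 1 := by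
    have := congrArg Units.val hu1
    simpa [u] using this
  have h9 : r ≡ 1 [MOD 2 ^ n] := by
    apply (ZMod.natCast_eq_natCast_iff _ _ _).mp
    simpa using h8
  have h10 : x ^ r = x ^ 1 := by
    apply pow_eq_pow_iff_modEq.mpr
    rw [hn]; exact h9
  rw [← hr, h10, pow_one]
/-- an automorphism of odd order leaving a cyclic subgroup of index two invariant is trivial -/
theorem aut_trivial {P : Type*} [Group P] [Finite P] (hP : IsPGroup 2 P) (α : MulAut P) {m : ℕ}
    (hm : Odd m) (hαm : α ^ m = 1) {x : P} (hxi : (zpowers x).index = 2) (hx : α x ∈ zpowers x) :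
    α = 1 := by
  obtain ⟨n, hn⟩ := (IsPGroup.iff_orderOf.mp hP) x
  have h1 : α x = x := fix_gen α hm hαm hn hx
  have hfixU : ∀ y ∈ zpowers x, α y = y := by
    intro y hy
    obtain ⟨i, rfl⟩ := mem_zpowers_iff.mp hy
    rw [map_zpow, h1]
  obtain ⟨g, hg⟩ : ∃ g, g ∉ zpowers x := by
    by_contra h
    push_neg at h
    have : zpowers x = ⊤ := Subgroup.eq_top_iff' _ |>.mpr h
    rw [this, Subgroup.index_top] at hxi
    omega
  have hαg : α g ∉ zpowers x := by
    intro h
    have h2 := hfixU _ h
    have h3 : α g = g := α.injective h2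
    exact hg (h3 ▸ h)
  have hu : g⁻¹ * α g ∈ zpowers x := by
    rw [Subgroup.mul_mem_iff_of_index_two hxi]
    have : g⁻¹ ∉ zpowers x := fun h => hg (by simpa using inv_mem h)
    tauto
  set u := g⁻¹ * α g with hudef
  have hαu : α u = u := hfixU u hu
  have hpow : ∀ k : ℕ, (α ^ k) g = g * u ^ k := by
    intro k
    induction k with
    | zero => simp
    | succ k ih =>
      have hgu : g * u = α g := by rw [hudef]; group
      rw [pow_succ', MulAut.mul_apply, ih, map_mul, map_pow, hαu, pow_succ', ← mul_assoc, hgu]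
  have h3 : u ^ m = 1 := by
    have h4 := hpow m
    rw [hαm] at h4
    have h5 : g * 1 = g * u ^ m := by simpa using h4
    exact (mul_left_cancel h5).symm
  obtain ⟨e, he⟩ := (IsPGroup.iff_orderOf.mp hP) u
  have hu1 : u = 1 := by
    have h4 : orderOf u ∣ m := orderOf_dvd_of_pow_eq_one h3
    have h6 : Nat.Coprime m (2 ^ e) := Nat.Coprime.pow_right _ (Nat.coprime_two_right.mpr hm)
    have h7 := Nat.Coprime.eq_one_of_dvd (h6.coprime_dvd_left h4) (by rw [he])
    exact orderOf_eq_one_iff.mp h7
  have hαg' : α g = g := by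
    have : g⁻¹ * α g = 1 := hu1
    rwa [inv_mul_eq_one, eq_comm] at this
  ext y
  show α y = y
  rcases Lib.Taussky2.form_of_index hxi hg y with h | h
  · exact hfixU y h
  · have h5 := hfixU _ h
    rw [map_mul, map_inv, hαg', mul_right_inj] at h5
    exact h5

theorem exists_odd_aut {P : Type*} [Group P] [Finite P] (haut : ¬ IsPGroup 2 (MulAut P)) :
    ∃ (α : MulAut P) (m : ℕ), Odd m ∧ α ^ m = 1 ∧ α ≠ 1 := by
  haveI : Finite (MulAut P) := Finite.of_injective (fun f => f.toEquiv) (fun a b h => by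
    ext y; exact congrFun (congrArg DFunLike.coe h) y)
  by_contra hcon
  push_neg at hcon
  apply haut
  rw [IsPGroup.iff_orderOf]
  intro φ
  haveI : Fact (Nat.Prime 2) := ⟨Nat.prime_two⟩
  obtain ⟨a, b, -, -, hab, ⟨k, hk⟩, hcop⟩ := Lib.FGSBasic.exists_p_decomp 2 φ
  have hb : b = 1 := hcon b (orderOf b) (Nat.coprime_two_right.mp hcop) (pow_orderOf_eq_one b)
  rw [hb, mul_one] at hab
  exact ⟨k, by rw [← hab, hk]⟩

/-- Let P be a finite non-abelian 2-group whose commutator subgroup has index 4 and whose automorphism group is not a 2-group (some automorphism has order that is not a power of 2). Then P is isomorphic to the quaternion group of order 8. -/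
theorem result {P : Type*} [Group P] [Finite P] (hP : IsPGroup 2 P) (hna : ¬ IsMulCommutative P) (h4 : (commutator P).index = 4) (haut : ¬ IsPGroup 2 (MulAut P)) : Nonempty (P ≃* QuaternionGroup 2) := by
  classical
  haveI : Fact (Nat.Prime 2) := ⟨Nat.prime_two⟩
  obtain ⟨α, m, hm, hαm, hα1⟩ := exists_odd_aut haut
  obtain ⟨a, ha⟩ := Lib.Taussky.taussky _ P rfl hP h4
  set b := α a with hb
  have hbU : b ∉ zpowers a := fun h => hα1 (aut_trivial hP α hm hαm ha h)
  have hoab : orderOf b = orderOf a := MulEquiv.orderOf_eq α a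
  have hoa2 : orderOf a * 2 = Nat.card P := by
    have := Subgroup.card_mul_index (zpowers a)
    rwa [Nat.card_zpowers, ha] at this
  have hb2 : (zpowers b).index = 2 := by
    have h1 := Subgroup.card_mul_index (zpowers b)
    rw [Nat.card_zpowers, hoab, ← hoa2] at h1
    have hpos := orderOf_pos a
    exact Nat.eq_of_mul_eq_mul_left hpos h1
  have haV : a ∉ zpowers b := by
    intro h
    have h1 : zpowers a ≤ zpowers b := (Subgroup.zpowers_le).mpr h
    have h2 : Nat.card (zpowers b) ≤ Nat.card (zpowers a) := by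
      rw [Nat.card_zpowers, Nat.card_zpowers, hoab]
    have h3 := Subgroup.eq_of_le_of_card_ge h1 h2
    apply hbU
    rw [h3]; exact mem_zpowers b
  have haa : a * a ∈ zpowers b := Subgroup.mul_self_mem_of_index_two hb2 a
  have hbb : b * b ∈ zpowers a := Subgroup.mul_self_mem_of_index_two ha b
  have hUn : (zpowers a).Normal := Subgroup.normal_of_index_eq_two ha
  have hVn : (zpowers b).Normal := Subgroup.normal_of_index_eq_two hb2
  have hform := Lib.Taussky2.form_of_index ha hbU
  set c := a * b * a⁻¹ * b⁻¹ with hc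
  have hca' : c ∈ zpowers a := by
    have h1 : b * a⁻¹ * b⁻¹ ∈ zpowers a := hUn.conj_mem _ (inv_mem (mem_zpowers a)) b
    have h2 := mul_mem (mem_zpowers a) h1
    convert h2 using 1
    rw [hc]; group
  have hcb' : c ∈ zpowers b := by
    have h1 : a * b * a⁻¹ ∈ zpowers b := hVn.conj_mem _ (mem_zpowers b) a
    exact mul_mem h1 (inv_mem (mem_zpowers b))
  have hca : Commute c a := by
    obtain ⟨k, hk⟩ := mem_zpowers_iff.mp hca'
    rw [← hk]; exact (Commute.refl a).zpow_left k
  have hcb : Commute c b := by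
    obtain ⟨k, hk⟩ := mem_zpowers_iff.mp hcb'
    rw [← hk]; exact (Commute.refl b).zpow_left k
  have hrel : a * b = c * b * a := by rw [hc]; group
  have haab : Commute (a ^ 2) b := by
    obtain ⟨k, hk⟩ := mem_zpowers_iff.mp haa
    rw [pow_two, ← hk]
    exact (Commute.refl b).zpow_left k
  have hc2 : c ^ 2 = 1 := by
    have h1 := S4211.p1 hrel hca hcb 2
    have h2 : c ^ 2 * b * a ^ 2 = 1 * b * a ^ 2 := by
      rw [← h1, one_mul]; exact haab.eq
    exact mul_right_cancel (mul_right_cancel h2)
  -- every element commutes with `c`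
  have hcent : ∀ y, Commute c y := by
    intro y
    rcases hform y with h | h
    · obtain ⟨k, hk⟩ := mem_zpowers_iff.mp h
      rw [← hk]; exact hca.zpow_right k
    · obtain ⟨k, hk⟩ := mem_zpowers_iff.mp h
      have : y = b * a ^ k := by rw [hk]; group
      rw [this]
      exact hcb.mul_right (hca.zpow_right k)
  haveI hLn : (zpowers c).Normal := by
    constructor
    intro u hu g
    obtain ⟨i, rfl⟩ := mem_zpowers_iff.mp hu
    have h1 : Commute g (c ^ i) := ((hcent g).zpow_left i).symm
    rw [h1.eq]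
    simpa using zpow_mem (mem_zpowers c) i
  have hle : commutator P ≤ zpowers c := by
    refine Lib.Taussky.comm_le_of _ (zpowers a) ?_ b hform ?_
    · intro u hu v hv
      obtain ⟨i, rfl⟩ := mem_zpowers_iff.mp hu
      obtain ⟨j, rfl⟩ := mem_zpowers_iff.mp hv
      exact (Commute.refl a).zpow_zpow i j
    · intro u hu
      obtain ⟨i, rfl⟩ : ∃ i : ℕ, a ^ i = u :=
        (Submonoid.mem_powers_iff _ _).mp (mem_powers_iff_mem_zpowers.mpr hu)
      rcases Nat.even_or_odd' i with ⟨l, rfl | rfl⟩
      · have h1 : Commute (a ^ (2 * l)) b := by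
          rw [pow_mul]; exact haab.pow_left l
        rw [h1.eq]
        have : b * a ^ (2 * l) * (a ^ (2 * l))⁻¹ * b⁻¹ = 1 := by group
        rw [this]; exact one_mem _
      · have h1 : Commute (a ^ (2 * l)) b := by
          rw [pow_mul]; exact haab.pow_left l
        have h2 : a ^ (2 * l + 1) = a * a ^ (2 * l) := by rw [pow_succ']
        rw [h2]
        have h3 : a * a ^ (2 * l) * b * (a * a ^ (2 * l))⁻¹ * b⁻¹ = c := by
          have : a * a ^ (2 * l) * b = a * (b * a ^ (2 * l)) := by
            rw [mul_assoc, h1.eq]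
          rw [this, hc]
          group
        rw [h3]; exact mem_zpowers c
  have hcardL : Nat.card (zpowers c) ≤ 2 := by
    rw [Nat.card_zpowers]
    exact Nat.le_of_dvd (by norm_num) (orderOf_dvd_of_pow_eq_one hc2)
  have e4 : Nat.card (commutator P) * 4 = Nat.card P := by
    have := Subgroup.card_mul_index (commutator P)
    rwa [h4] at this
  have hbot : commutator P ≠ ⊥ := by
    intro h
    apply hna
    refine ⟨⟨fun x y => ?_⟩⟩
    have h1 : ⁅x, y⁆ ∈ commutator P := by
      rw [_root_.commutator_def]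
      exact Subgroup.commutator_mem_commutator (mem_top _) (mem_top _)
    rw [h, Subgroup.mem_bot, commutatorElement_eq_one_iff_mul_comm] at h1
    exact h1
  have h1 : Nat.card (commutator P) ≠ 1 := fun h => hbot (Subgroup.eq_bot_of_card_eq _ h)
  have h0 : 0 < Nat.card (commutator P) := Nat.card_pos
  have h5 := Subgroup.card_le_of_le hle
  have hcP : Nat.card (commutator P) = 2 := by omega
  have hoa : orderOf a = 4 := by omega
  have hob : orderOf b = 4 := by omega
  have hc1 : c ≠ 1 := by
    intro h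
    apply hbot
    rw [eq_bot_iff]
    refine hle.trans ?_
    rw [h]; simp
  have hca2 := S4211.sq_of_order4 hoa hca' hc1 hc2
  have hcb2 := S4211.sq_of_order4 hob hcb' hc1 hc2
  have hbab : b * a * b⁻¹ = a⁻¹ := by
    have h1 : b * a⁻¹ * b⁻¹ = a := by
      have h2 : a * (b * a⁻¹ * b⁻¹) = a * a := by
        have h3 : a * b * a⁻¹ * b⁻¹ = a ^ 2 := hca2
        rw [pow_two] at h3
        rw [← h3]; group
      exact mul_left_cancel h2
    have h3 : b * a * b⁻¹ = (b * a⁻¹ * b⁻¹)⁻¹ := by group
    rw [h3, h1]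
  exact Lib.H1Quat.quat_iso (n := 2) a b (by rw [hoa]) hbab (by rw [← hca2, ← hcb2]) hbU hform

end Cfsg.Agent.S4189
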