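import Cfsg.Statements.S4194
import Cfsg.Agent.Lib.CentralSylow
-- import your own Cfsg.Agent.* helpers here

set_option autoImplicit false
open Cfsg

namespace Cfsg.Agent.S4194

/-- A finite group G has commutative Sylow 2-subgroups if and only if every 2-element of G (element of order a power of 2) is 2-central, that is, its centralizer contains a Sylow 2-subgroup of G. -/
theorem result {G : Type*} [Group G] [Finite G] (P : Sylow 2 G) :
    IsMulCommutative (P : Subgroup G) ↔ ∀ x : G, (∃ k : ℕ, orderOf x = 2 ^ k) → (∃ Q : Sylow 2 G, (Q : Subgroup G) ≤ Subgroup.centralizer ({x} : Set G)) := by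
  constructor
  · intro hP x hx
    have hZ : IsPGroup 2 (Subgroup.zpowers x) := by
      obtain ⟨k, hk⟩ := hx
      apply IsPGroup.of_card (n := k)
      rw [Nat.card_zpowers, hk]
    obtain ⟨Q, hQ⟩ := hZ.exists_le_sylow
    refine ⟨Q, fun y hy => ?_⟩
    obtain ⟨g, rfl⟩ := MulAction.exists_smul_eq G P Q
    have hxQ := hQ (Subgroup.mem_zpowers x)
    rw [Lib.FGSBasic.mem_smul_sylow_iff] at hxQ hy
    rw [Subgroup.mem_centralizer_singleton_iff]
    have := Lib.FGSBasic.mul_comm_of_mem (P : Subgroup G) hy hxQ
    have h2 : g * (g⁻¹ * y * g * (g⁻¹ * x * g)) * g⁻¹ = g * (g⁻¹ * x * g * (g⁻¹ * y * g)) * g⁻¹ := by rw [this]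
    simpa [mul_assoc] using h2
  · intro h
    have hodd : ∀ x : G, (∃ k : ℕ, orderOf x = 2 ^ k) → ¬ 2 ∣ (Subgroup.centralizer ({x} : Set G)).index := by
      intro x hx hd
      obtain ⟨Q, hQ⟩ := h x hx
      have h1 := Subgroup.index_dvd_of_le hQ
      have h2 : ¬ 2 ∣ (Q : Subgroup G).index := by
        intro h3
        have h4 := Q.card_coprime_index
        have h5 : 2 ∣ Nat.card (Q : Subgroup G) := by
          rw [Q.card_eq_multiplicity]
          apply dvd_pow_self
          intro h0
          rw [Nat.factorization_eq_zero_iff] at h0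
          rcases h0 with h0 | h0 | h0
          · exact absurd Nat.prime_two h0
          · apply h0
            exact (h3.trans (Subgroup.index_dvd_card _))
          · exact absurd h0 Nat.card_pos.ne'
        exact Nat.Prime.not_coprime_iff_dvd.mpr ⟨2, Nat.prime_two, h5, h3⟩ h4
      exact h2 (hd.trans h1)
    exact ⟨⟨fun a b => Subtype.ext (Lib.CentralSylow.sylow_two_comm hodd P a.2 b.2)⟩⟩

end Cfsg.Agent.S4194
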