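import Cfsg.Statements.S4196
import Mathlib
import Cfsg.Agent.Lib.FGSBasic
-- import your own Cfsg.Agent.* helpers here

set_option autoImplicit false
open Cfsg

namespace Cfsg.Agent.S4196

/-- A finite group G has elementary abelian Sylow 2-subgroups (commutative with every element squaring to the identity) if and only if every 2-element of G has a Sylow 2-subgroup in its centralizer and is conjugate to its inverse. -/
theorem result {G : Type*} [Group G] [Finite G] (P : Sylow 2 G) :
    (IsMulCommutative (P : Subgroup G) ∧ ∀ x ∈ (P : Subgroup G), x ^ 2 = 1) ↔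
      ∀ x : G, (∃ k : ℕ, orderOf x = 2 ^ k) → (∃ Q : Sylow 2 G, (Q : Subgroup G) ≤ Subgroup.centralizer ({x} : Set G)) ∧ IsConj x x⁻¹ := by
  classical
  constructor
  · rintro ⟨hab, hexp⟩ x ⟨k, hk⟩
    -- x lies in a Sylow subgroup conjugate to P
    have hz : IsPGroup 2 (Subgroup.zpowers x) := by
      rw [IsPGroup.iff_card, Nat.card_zpowers]
      exact ⟨k, hk⟩
    obtain ⟨Q, hQ⟩ := hz.exists_le_sylow
    have hxQ : x ∈ (Q : Subgroup G) := hQ (Subgroup.mem_zpowers x)
    obtain ⟨g, hg⟩ := MulAction.exists_smul_eq G P Q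
    have hx' : g⁻¹ * x * g ∈ (P : Subgroup G) := by
      rw [← hg] at hxQ
      exact (Cfsg.Agent.Lib.FGSBasic.mem_smul_sylow_iff P g x).mp hxQ
    have h2 : x ^ 2 = 1 := by
      have h3 := hexp _ hx'
      have h4 : (g⁻¹ * x * g) ^ 2 = g⁻¹ * x ^ 2 * g := by
        rw [pow_two, pow_two]; group
      rw [h4] at h3
      have h5 : x ^ 2 = g * (g⁻¹ * x ^ 2 * g) * g⁻¹ := by group
      rw [h5, h3]; group
    refine ⟨⟨Q, ?_⟩, ?_⟩
    · intro y hy
      rw [Subgroup.mem_centralizer_singleton_iff]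
      -- elements of Q commute
      rw [← hg] at hy
      have hy' := (Cfsg.Agent.Lib.FGSBasic.mem_smul_sylow_iff P g y).mp hy
      haveI := hab
      have hc := Cfsg.Agent.Lib.FGSBasic.mul_comm_of_mem (P : Subgroup G) hy' hx'
      have h6 : g⁻¹ * y * g * (g⁻¹ * x * g) = g⁻¹ * (y * x) * g := by group
      have h7 : g⁻¹ * x * g * (g⁻¹ * y * g) = g⁻¹ * (x * y) * g := by group
      rw [h6, h7] at hc
      have h8 := mul_left_cancel (mul_right_cancel hc)
      exact h8
    · have : x⁻¹ = x := by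
        rw [inv_eq_iff_mul_eq_one, ← pow_two]; exact h2
      rw [this]
  · intro h
    have hexp : ∀ x ∈ (P : Subgroup G), x ^ 2 = 1 := by
      intro x hx
      obtain ⟨⟨Q, hQ⟩, hconj⟩ := h x (Cfsg.Agent.Lib.FGSBasic.orderOf_of_mem_sylow P hx)
      have hodd : Odd (Subgroup.centralizer ({x} : Set G)).index := by
        rw [← Nat.not_even_iff_odd, even_iff_two_dvd]
        intro h2
        exact Q.not_dvd_index (dvd_trans h2 (Subgroup.index_dvd_of_le hQ))
      exact Cfsg.Agent.Lib.FGSBasic.sq_eq_one_of_isConj_inv_of_odd x hconj hodd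
    refine ⟨⟨⟨fun a b => ?_⟩⟩, hexp⟩
    apply Subtype.ext
    have h1 := hexp _ (a * b).2
    have h2 := hexp _ a.2
    have h3 := hexp _ b.2
    simp only [Subgroup.coe_mul] at h1 ⊢
    have h4 : (a : G)⁻¹ = a := by rw [inv_eq_iff_mul_eq_one, ← pow_two]; exact h2
    have h5 : (b : G)⁻¹ = b := by rw [inv_eq_iff_mul_eq_one, ← pow_two]; exact h3
    have h6 : (a * b : G)⁻¹ = a * b := by rw [inv_eq_iff_mul_eq_one, ← pow_two]; exact h1
    rw [mul_inv_rev, h4, h5] at h6
    exact h6.symm

end Cfsg.Agent.S4196
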