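import Cfsg.Statements.S4201
import Cfsg.Agent.S4152
-- import your own Cfsg.Agent.* helpers here

set_option autoImplicit false
open Cfsg

namespace Cfsg.Agent.S4201

/-- If N is a normal subgroup of the finite group X then k(X) ≤ k(N)·k(X ⧸ N), where k denotes the number of conjugacy classes. -/
theorem result {X : Type*} [Group X] [Finite X] (N : Subgroup X) [N.Normal] : Nat.card (ConjClasses X) ≤ Nat.card (ConjClasses N) * Nat.card (ConjClasses (X ⧸ N)) := by
  have h := Cfsg.Agent.S4152.result N (Set.univ : Set ℕ)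
  have e1 : ∀ (Y : Type _) [Group Y], Nat.card {C : ConjClasses Y // ∀ q : ℕ, q.Prime → (∃ g : Y, ConjClasses.mk g = C ∧ q ∣ orderOf g) → q ∈ (Set.univ : Set ℕ)} = Nat.card (ConjClasses Y) := by
    intro Y _
    exact Nat.card_congr (Equiv.subtypeUnivEquiv (fun C q _ _ => Set.mem_univ q))
  rwa [e1, e1, e1] at h

end Cfsg.Agent.S4201
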