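import Cfsg.Statements.S4213
import Mathlib
import Cfsg.Agent.Lib.FrobCount
import Cfsg.Agent.Lib.H1Hall
import Cfsg.Agent.S4214
-- import your own Cfsg.Agent.* helpers here

set_option autoImplicit false
open Cfsg

namespace Cfsg.Agent.S4213

universe u

/-- a nontrivial normal subgroup of prime exponent -/
theorem exists_el {G : Type*} [Group G] [Finite G] (hG : Group.IsSolvable G) (hne : Nontrivial G) :
    ∃ (q : ℕ) (A : Subgroup G), q.Prime ∧ A.Normal ∧ A ≠ ⊥ ∧ IsPGroup q A ∧ ∀ a ∈ A, a ^ q = 1 := by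
  obtain ⟨q, K, hq, hKn, hKne, hKp, hKab⟩ := Cfsg.Agent.S4214.exists_normal_ab hG hne
  haveI : Fact q.Prime := ⟨hq⟩
  let A : Subgroup G :=
    { carrier := {a | a ∈ K ∧ a ^ q = 1}
      mul_mem' := by
        rintro a b ⟨ha, ha'⟩ ⟨hb, hb'⟩
        refine ⟨mul_mem ha hb, ?_⟩
        have hc : Commute a b := hKab a ha b hb
        rw [hc.mul_pow, ha', hb', one_mul]
      one_mem' := ⟨one_mem _, one_pow _⟩
      inv_mem' := by
        rintro a ⟨ha, ha'⟩
        exact ⟨inv_mem ha, by rw [inv_pow, ha', inv_one]⟩ }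
  refine ⟨q, A, hq, ⟨?_⟩, ?_, hKp.to_le (fun a ha => ha.1), fun a ha => ha.2⟩
  · rintro a ⟨ha, ha'⟩ g
    refine ⟨hKn.conj_mem a ha g, ?_⟩
    rw [conj_pow, ha']; group
  · intro hA
    haveI : Nontrivial K := (Subgroup.nontrivial_iff_ne_bot _).mpr hKne
    obtain ⟨t, ht⟩ := exists_ne (1 : K)
    have hqd : q ∣ Nat.card K := by
      obtain ⟨k, hk⟩ := IsPGroup.iff_card.mp hKp
      rw [hk]
      have : k ≠ 0 := by
        rintro rfl
        rw [pow_zero] at hk
        have := (Nat.card_eq_one_iff_unique.mp hk).1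
        exact ht (Subsingleton.elim _ _)
      exact dvd_pow_self q this
    obtain ⟨x, hx⟩ := exists_prime_orderOf_dvd_card' (G := K) q hqd
    have hx1 : (x : G) ^ q = 1 := by
      have : orderOf (x : G) = q := by rw [Subgroup.orderOf_coe, hx]
      rw [← this, pow_orderOf_eq_one]
    have hxA : (x : G) ∈ A := ⟨x.2, hx1⟩
    rw [hA, Subgroup.mem_bot] at hxA
    have : orderOf (x : G) = q := by rw [Subgroup.orderOf_coe, hx]
    rw [hxA, orderOf_one] at this
    exact hq.one_lt.ne this

theorem card_pre {G : Type*} [Group G] [Finite G] (A : Subgroup G) (T : Set (G ⧸ A)) :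
    Nat.card ((QuotientGroup.mk : G → G ⧸ A) ⁻¹' T) = Nat.card A * Nat.card T := by
  rw [Nat.card_congr (QuotientGroup.preimageMkEquivSubgroupProdSet A T), Nat.card_prod]

theorem card_sol_pos {G : Type*} [Group G] [Finite G] (n : ℕ) : 0 < Nat.card {x : G // x ^ n = 1} := by
  haveI : Nonempty {x : G // x ^ n = 1} := ⟨⟨1, one_pow n⟩⟩
  exact Nat.card_pos

theorem main_thm : ∀ (N : ℕ) (G : Type u) [Group G] [Finite G] [Group.IsSolvable G] (n : ℕ),
    Nat.card G = N → n ∣ Nat.card G → Nat.card {x : G // x ^ n = 1} = n →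
      ∃ H : Subgroup G, H.Normal ∧ (H : Set G) = {x : G | x ^ n = 1} := by
  intro N
  induction N using Nat.strong_induction_on with
  | _ N ih =>
  intro G _ _ _ n hN hn hcount
  classical
  by_cases hnt : Nontrivial G
  swap
  · rw [not_nontrivial_iff_subsingleton] at hnt
    refine ⟨⊤, inferInstance, ?_⟩
    ext x
    simp [Subsingleton.elim x 1]
  obtain ⟨q, A, hq, hAn, hAne, hAp, hAq⟩ := exists_el (G := G) inferInstance hnt
  haveI : Fact q.Prime := ⟨hq⟩
  haveI := hAn
  have hn0 : 0 < n := Nat.pos_of_dvd_of_pos hn Nat.card_pos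
  have hcardsplit : Nat.card (G ⧸ A) * Nat.card A = Nat.card G :=
    (Subgroup.card_eq_card_quotient_mul_card_subgroup A).symm
  have hA1 : 1 < Nat.card A := by
    have h1 : Nat.card A ≠ 1 := fun h => hAne (Subgroup.card_eq_one.mp h)
    have h2 : 0 < Nat.card A := Nat.card_pos
    omega
  have hlt : Nat.card (G ⧸ A) < N := by
    rw [← hN, ← hcardsplit]
    exact lt_mul_of_one_lt_right Nat.card_pos hA1
  obtain ⟨c, hc⟩ := IsPGroup.iff_card.mp hAp
  have hc0 : c ≠ 0 := by
    rintro rfl
    rw [pow_zero] at hc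
    omega
  have hqA : q ∣ Nat.card A := by
    rw [hc]; exact dvd_pow_self q hc0
  have hndvd : n ∣ Nat.card (G ⧸ A) * Nat.card A := by rw [hcardsplit]; exact hn
  set S : Set G := {x : G | x ^ n = 1} with hS
  have hScard : Nat.card S = n := hcount
  by_cases hqn : q ∣ n
  · -- first case
    set g := Nat.gcd n (Nat.card A) with hg
    have hg0 : 0 < g := Nat.gcd_pos_of_pos_left _ hn0
    obtain ⟨n', hn'⟩ : g ∣ n := Nat.gcd_dvd_left _ _
    obtain ⟨a', ha'⟩ : g ∣ Nat.card A := Nat.gcd_dvd_right _ _
    have hn'0 : 0 < n' := by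
      apply Nat.pos_of_ne_zero
      rintro rfl
      omega
    have hqg : q ∣ g := Nat.dvd_gcd hqn hqA
    have hn'd : n' ∣ Nat.card (G ⧸ A) := by
      have hcop : Nat.Coprime n' a' := by
        have := Nat.coprime_div_gcd_div_gcd (m := n) (n := Nat.card A) hg0
        rw [← hg] at this
        have e1 : n / g = n' := by rw [hn']; exact Nat.mul_div_cancel_left _ hg0
        have e2 : Nat.card A / g = a' := by rw [ha']; exact Nat.mul_div_cancel_left _ hg0
        rwa [e1, e2] at this
      apply hcop.dvd_of_dvd_mul_right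
      have : g * n' ∣ g * (Nat.card (G ⧸ A) * a') := by
        rw [← hn']
        have h2 : g * (Nat.card (G ⧸ A) * a') = Nat.card (G ⧸ A) * (g * a') := by ring
        rw [h2, ← ha']
        exact hndvd
      exact Nat.dvd_of_mul_dvd_mul_left hg0 this
    set T : Set (G ⧸ A) := {y | y ^ n' = 1} with hT
    have hTd : n' ∣ Nat.card T := Lib.FrobCount.dvd_card_pow_eq_one hn'd
    have hTpos : 0 < Nat.card T := card_sol_pos (G := G ⧸ A) n'
    have hTge : n' ≤ Nat.card T := Nat.le_of_dvd hTpos hTd
    set Pre : Set G := (QuotientGroup.mk : G → G ⧸ A) ⁻¹' T with hPre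
    have hPreS : Pre ⊆ S := by
      intro x hx
      have h1 : ((x ^ n' : G) : G ⧸ A) = 1 := by
        have : ((x : G ⧸ A)) ^ n' = 1 := hx
        rwa [← QuotientGroup.mk_pow] at this
      have h2 : x ^ n' ∈ A := (QuotientGroup.eq_one_iff _).mp h1
      have h3 := hAq _ h2
      obtain ⟨g', hg'⟩ := hqg
      show x ^ n = 1
      rw [hn', hg', show q * g' * n' = n' * q * g' by ring, pow_mul, pow_mul, h3, one_pow]
    have hPrecard : Nat.card Pre = Nat.card A * Nat.card T := card_pre A T
    have hle : Nat.card Pre ≤ Nat.card S := Nat.card_mono (Set.toFinite _) hPreS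
    rw [hPrecard, hScard] at hle
    have hgle : g ≤ Nat.card A := Nat.le_of_dvd Nat.card_pos (Nat.gcd_dvd_right _ _)
    have hTeq : Nat.card T = n' := by
      apply le_antisymm _ hTge
      have h4 : Nat.card A * Nat.card T ≤ Nat.card A * n' := by
        calc Nat.card A * Nat.card T ≤ n := hle
          _ = g * n' := hn'
          _ ≤ Nat.card A * n' := Nat.mul_le_mul_right _ hgle
      exact Nat.le_of_mul_le_mul_left h4 Nat.card_pos
    have hgeq : g = Nat.card A := by
      apply le_antisymm hgle
      rw [hTeq, hn'] at hle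
      exact Nat.le_of_mul_le_mul_right hle hn'0
    obtain ⟨Hb, hHbn, hHb⟩ := ih _ hlt (G ⧸ A) n' rfl hn'd hTeq
    refine ⟨Hb.comap (QuotientGroup.mk' A), hHbn.comap _, ?_⟩
    have hPreS2 : Pre = S := by
      apply Set.eq_of_subset_of_ncard_le hPreS
      rw [← Nat.card_coe_set_eq, ← Nat.card_coe_set_eq, hPrecard, hScard, hTeq, ← hgeq, hn']
    rw [← hPreS2, hPre]
    ext x
    show (x : G ⧸ A) ∈ Hb ↔ (x : G ⧸ A) ∈ T
    rw [← hT] at hHb
    rw [← hHb]
    rfl
  · -- second case
    have hcopn : Nat.Coprime n (Nat.card A) := by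
      rw [hc]
      exact Nat.Coprime.pow_right _ ((Nat.Prime.coprime_iff_not_dvd hq).mpr hqn).symm
    have hnd : n ∣ Nat.card (G ⧸ A) := hcopn.dvd_of_dvd_mul_right hndvd
    set T : Set (G ⧸ A) := {y | y ^ n = 1} with hT
    have hTd : n ∣ Nat.card T := Lib.FrobCount.dvd_card_pow_eq_one hnd
    have hTpos : 0 < Nat.card T := card_sol_pos (G := G ⧸ A) n
    have hTge : n ≤ Nat.card T := Nat.le_of_dvd hTpos hTd
    have hTle : Nat.card T ≤ n := by
      rw [← hScard]
      have hmap : ∀ x : S, ((x : G) : G ⧸ A) ∈ T := by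
        intro x
        show ((x : G) : G ⧸ A) ^ n = 1
        rw [← QuotientGroup.mk_pow, (show (x : G) ^ n = 1 from x.2)]
        rfl
      apply Nat.card_le_card_of_surjective (fun x : S => (⟨((x : G) : G ⧸ A), hmap x⟩ : T))
      rintro ⟨y, hy⟩
      obtain ⟨x, rfl⟩ := QuotientGroup.mk_surjective y
      have h1 : ((x ^ n : G) : G ⧸ A) = 1 := by
        rw [QuotientGroup.mk_pow]; exact hy
      have h2 : x ^ n ∈ A := (QuotientGroup.eq_one_iff _).mp h1
      obtain ⟨s, hs⟩ := Nat.exists_mul_mod_eq_one_of_coprime ((Nat.Prime.coprime_iff_not_dvd hq).mpr hqn).symm hq.one_lt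
      set a := x ^ n with ha
      have hcomm : Commute x a := (Commute.refl x).pow_right n
      set t := (q - 1) * s with ht
      have hq1 : ∃ k, 1 + t * n = q * k := by
        have h5 : n * s % q = 1 := hs.2
        have h6 : q ∣ 1 + t * n := by
          have h7 : (1 + t * n) % q = 0 := by
            have : t * n = (q - 1) * (n * s) := by rw [ht]; ring
            rw [this]
            have hq2 : 1 ≤ q := hq.one_lt.le
            have h8 : (n * s) = q * (n * s / q) + 1 := by
              have := Nat.div_add_mod (n * s) q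
              rw [h5] at this
              exact this.symm
            rw [h8]
            obtain ⟨q', rfl⟩ : ∃ q', q = q' + 1 := ⟨q - 1, by omega⟩
            simp only [Nat.add_sub_cancel]
            have : 1 + q' * ((q' + 1) * (n * s / (q' + 1)) + 1) = (q' + 1) * (q' * (n * s / (q' + 1)) + 1) := by ring
            rw [this]
            exact Nat.mul_mod_right _ _
          exact Nat.dvd_of_mod_eq_zero h7
        exact h6
      obtain ⟨k, hk⟩ := hq1
      refine ⟨⟨x * a ^ t, ?_⟩, ?_⟩
      · show (x * a ^ t) ^ n = 1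
        have hcomm2 : Commute x (a ^ t) := hcomm.pow_right t
        rw [hcomm2.mul_pow, ← ha, ← pow_mul, ← pow_succ', mul_comm t n]
        have hh : (1 : ℕ) + n * t = q * k := by rw [mul_comm n t]; exact hk
        rw [show n * t + 1 = 1 + n * t by ring, hh, pow_mul, hAq a h2, one_pow]
      · apply Subtype.ext
        show ((x * a ^ t : G) : G ⧸ A) = x
        rw [QuotientGroup.mk_mul, QuotientGroup.mk_pow, show (a : G ⧸ A) = 1 from (QuotientGroup.eq_one_iff _).mpr h2]
        simp
    have hTeq : Nat.card T = n := le_antisymm hTle hTge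
    obtain ⟨Hb, hHbn, hHb⟩ := ih _ hlt (G ⧸ A) n rfl hnd hTeq
    have hHbcard : Nat.card Hb = n := by
      rw [← hTeq]
      rw [← hT] at hHb
      rw [← hHb]
      rfl
    set H : Subgroup G := Hb.comap (QuotientGroup.mk' A) with hH
    have hHcard : Nat.card H = n * Nat.card A := by
      rw [hH, Lib.H1Hall.card_comap_mk, hHbcard]
    have hAH : A ≤ H := by
      intro a ha
      show (a : G ⧸ A) ∈ Hb
      rw [(QuotientGroup.eq_one_iff a).mpr ha]
      exact one_mem _
    set A' : Subgroup H := A.subgroupOf H with hA'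
    haveI hA'n : A'.Normal := Subgroup.Normal.subgroupOf hAn H
    have hA'card : Nat.card A' = Nat.card A :=
      Nat.card_congr (Subgroup.subgroupOfEquivOfLe hAH).toEquiv
    have hA'index : A'.index = n := by
      have h := Subgroup.card_mul_index A'
      rw [hA'card, hHcard, mul_comm n] at h
      exact Nat.eq_of_mul_eq_mul_left Nat.card_pos h
    have hcop : Nat.Coprime (Nat.card A') A'.index := by
      rw [hA'card, hA'index]; exact hcopn.symm
    obtain ⟨L', hL'⟩ := Subgroup.exists_right_complement'_of_coprime hcop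
    have hL'card : Nat.card L' = n := by
      have h := hL'.card_mul
      rw [hA'card, hHcard, mul_comm n] at h
      exact Nat.eq_of_mul_eq_mul_left Nat.card_pos h
    set L : Subgroup G := L'.map H.subtype with hL
    have hLcard : Nat.card L = n := by
      rw [← hL'card]
      exact Nat.card_congr (Subgroup.equivMapOfInjective _ _ H.subtype_injective).symm.toEquiv
    have hLS : (L : Set G) ⊆ S := by
      rintro _ ⟨y, hy, rfl⟩
      show ((y : H) : G) ^ n = 1
      have h1 : (⟨y, hy⟩ : L') ^ Nat.card L' = 1 := pow_card_eq_one'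
      rw [hL'card] at h1
      have h2 := congrArg (fun w : L' => ((w : H) : G)) h1
      simpa using h2
    have hLeq : (L : Set G) = S := by
      apply Set.eq_of_subset_of_ncard_le hLS
      rw [← Nat.card_coe_set_eq, ← Nat.card_coe_set_eq, hScard]
      exact hLcard.ge
    refine ⟨L, ⟨?_⟩, hLeq⟩
    intro x hx g
    have h1 : x ∈ S := hLS hx
    have h2 : g * x * g⁻¹ ∈ S := by
      show (g * x * g⁻¹) ^ n = 1
      rw [conj_pow, (show x ^ n = 1 from h1)]
      group
    rw [← hLeq] at h2
    exact h2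

/-- If `G` is a finite solvable group and `n` divides the order of `G` and exactly `n` elements `x` of `G` satisfy `x^n = 1`, then these elements form a normal subgroup. -/
theorem result {G : Type*} [Group G] [Finite G] [Group.IsSolvable G] (n : ℕ) (hn : n ∣ Nat.card G) (hcount : Nat.card {x : G // x ^ n = 1} = n) : ∃ H : Subgroup G, H.Normal ∧ (H : Set G) = {x : G | x ^ n = 1} := by
  exact main_thm _ G n rfl hn hcount

end Cfsg.Agent.S4213
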