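import Cfsg.Statements.S4250
import Mathlib
import Cfsg.Agent.Lib.PNilp
-- import your own Cfsg.Agent.* helpers here

set_option autoImplicit false
open Cfsg

namespace Cfsg.Agent.S4250

open Subgroup Lib.PNilp
open scoped commutatorElement

section

variable {G : Type*} [Group G] [Finite G] {p : ℕ} [Fact p.Prime]

theorem chain_F (P : Sylow p G) (F : Subgroup G) (c : ℕ)
    (hc : ∀ Q : Sylow p G, Tame (p := p) (P : Subgroup G) (Q : Subgroup G) →
      c ≤ Nat.card ((P : Subgroup G) ⊓ (Q : Subgroup G) : Subgroup G) →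
      ∀ x ∈ normalizer (((P : Subgroup G) ⊓ (Q : Subgroup G) : Subgroup G) : Set G),
      ∀ a ∈ (P : Subgroup G) ⊓ (Q : Subgroup G), a⁻¹ * (x⁻¹ * a * x) ∈ F)
    {A : Set G} {g : G} (h : AChain P A g) : c ≤ A.ncard → ∀ a ∈ A, a⁻¹ * (g⁻¹ * a * g) ∈ F := by
  induction h with
  | nil A =>
    intro _ a _
    simp
  | cons A Q x y hA hx ht hy ih =>
    intro hcA a ha
    have h1 : c ≤ Nat.card ((P : Subgroup G) ⊓ (Q : Subgroup G) : Subgroup G) := by
      refine hcA.trans ?_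
      have h2 := Set.ncard_le_ncard hA (Set.toFinite _)
      have e0 : (((P : Subgroup G) ⊓ (Q : Subgroup G) : Subgroup G) : Set G).ncard =
          Nat.card ((P : Subgroup G) ⊓ (Q : Subgroup G) : Subgroup G) := (Nat.card_coe_set_eq _).symm
      rwa [e0] at h2
    have h3 : (cj x A).ncard = A.ncard := by
      apply Set.ncard_image_of_injective
      intro u v huv
      simpa using huv
    have h4 := ih (by rw [h3]; exact hcA) (x⁻¹ * a * x) ⟨a, ha, rfl⟩
    have h5 := hc Q ht h1 x hx a (hA ha)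
    have e : a⁻¹ * ((x * y)⁻¹ * a * (x * y)) =
        (a⁻¹ * (x⁻¹ * a * x)) * ((x⁻¹ * a * x)⁻¹ * (y⁻¹ * (x⁻¹ * a * x) * y)) := by group
    rw [e]
    exact mul_mem h5 h4

theorem claim (P : Sylow p G) (F : Subgroup G)
    (h1 : ∀ a ∈ (P : Subgroup G), ∀ n ∈ normalizer ((P : Subgroup G) : Set G), ⁅a, n⁆ ∈ F)
    (h2 : ∀ Q : Sylow p G, Tame (p := p) (P : Subgroup G) (Q : Subgroup G) →
      ∀ y ∈ normalizer (((P : Subgroup G) ⊓ (Q : Subgroup G) : Subgroup G) : Set G), (∃ k : ℕ, orderOf y = p ^ k) →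
      ∀ a ∈ (P : Subgroup G) ⊓ (Q : Subgroup G), ⁅a, y⁆ ∈ F) (n : ℕ) :
    ∀ Q : Sylow p G, Tame (p := p) (P : Subgroup G) (Q : Subgroup G) →
      Nat.card (P : Subgroup G) - Nat.card ((P : Subgroup G) ⊓ (Q : Subgroup G) : Subgroup G) = n →
      ∀ x ∈ normalizer (((P : Subgroup G) ⊓ (Q : Subgroup G) : Subgroup G) : Set G),
      ∀ a ∈ (P : Subgroup G) ⊓ (Q : Subgroup G), a⁻¹ * (x⁻¹ * a * x) ∈ F := by
  induction n using Nat.strong_induction_on with
  | _ n IH =>
  intro Q ht hn x hx a ha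
  set R := (P : Subgroup G) ⊓ (Q : Subgroup G) with hR
  have hcomm : ∀ b w : G, b⁻¹ * (w⁻¹ * b * w) = ⁅b⁻¹, w⁻¹⁆ := by
    intro b w
    rw [commutatorElement_def]
    group
  by_cases hRP : R = P
  · have hxP : x ∈ normalizer ((P : Subgroup G) : Set G) := by
      rw [← hRP]
      exact hx
    rw [hcomm]
    exact h1 _ (inv_mem (hRP ▸ ha)) _ (inv_mem hxP)
  have hRlt : R < P := lt_of_le_of_ne inf_le_left hRP
  set N := normalizer (R : Set G) with hN
  set T := (P : Subgroup G) ⊓ N with hT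
  have hRT : R < T := lt_inf_normalizer _ R P.2 hRlt
  have hTp : IsPGroup p T := P.2.to_le inf_le_left
  have hTN : T ≤ N := inf_le_right
  have hTidx : ¬ p ∣ T.relIndex N := ht.1
  have hcardT : Nat.card R < Nat.card T := card_lt_of_lt' hRT
  have hTP : Nat.card T ≤ Nat.card (P : Subgroup G) := Nat.card_le_card_of_injective _ (inclusion_injective (inf_le_left))
  -- the chain for elements normalizing `T`
  have hstar : ∀ n' ∈ normalizer (T : Set G), ∀ b ∈ T, b⁻¹ * (n'⁻¹ * b * n') ∈ F := by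
    intro n' hn' b hb
    have hch : AChain P (T : Set G) n' := by
      apply alperin_fusion
      · intro t ht'
        exact ht'.1
      · rintro _ ⟨t, ht', rfl⟩
        have := (mem_normalizer_iff.1 (inv_mem hn') t).1 ht'
        simp only [inv_inv] at this
        exact this.1
    refine chain_F P F (Nat.card T) ?_ hch ?_ b hb
    · intro Q' ht' hc' x' hx' a' ha'
      have hlt : Nat.card (P : Subgroup G) - Nat.card ((P : Subgroup G) ⊓ (Q' : Subgroup G) : Subgroup G) < n := by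
        have h3 : Nat.card R < Nat.card ((P : Subgroup G) ⊓ (Q' : Subgroup G) : Subgroup G) := lt_of_lt_of_le hcardT hc'
        have h4 : Nat.card R ≤ Nat.card (P : Subgroup G) := hcardT.le.trans hTP
        have h5 : Nat.card ((P : Subgroup G) ⊓ (Q' : Subgroup G) : Subgroup G) ≤ Nat.card (P : Subgroup G) :=
          Nat.card_le_card_of_injective _ (inclusion_injective (inf_le_left))
        rw [← hn]
        omega
      exact IH _ hlt Q' ht' rfl x' hx' a' ha'
    · exact (Nat.card_coe_set_eq (T : Set G)).le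
  -- the subgroup generated by the `p`-elements of `N`
  set K := closure {y : G | y ∈ N ∧ ∃ k : ℕ, orderOf y = p ^ k} with hK
  have hKN : K ≤ N := by
    rw [hK, closure_le]
    exact fun y hy => hy.1
  have hTK : T ≤ K := by
    intro t ht'
    apply Subgroup.subset_closure
    refine ⟨ht'.2, ?_⟩
    obtain ⟨k, hk⟩ := IsPGroup.iff_orderOf.1 P.2 ⟨t, ht'.1⟩
    exact ⟨k, by rw [← hk, Subgroup.orderOf_mk]⟩
  have hstar2 : ∀ k ∈ K, ∀ b ∈ R, b⁻¹ * (k⁻¹ * b * k) ∈ F := by
    intro k hk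
    induction hk using closure_induction with
    | mem y hy =>
      intro b hb
      rw [hcomm]
      obtain ⟨k, hk⟩ := hy.2
      exact h2 Q ht _ (inv_mem hy.1) ⟨k, by rw [orderOf_inv, hk]⟩ _ (inv_mem hb)
    | one =>
      intro b _
      simp
    | mul k₁ k₂ hk₁ hk₂ ih₁ ih₂ =>
      intro b hb
      have hN₁ : k₁ ∈ N := hKN hk₁
      have hb' : k₁⁻¹ * b * k₁ ∈ R := by
        have := (mem_normalizer_iff.1 (inv_mem hN₁) b).1 hb
        simpa using this
      have hw : b⁻¹ * (k₁⁻¹ * b * k₁) ∈ R := mul_mem (inv_mem hb) hb'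
      have e : b⁻¹ * ((k₁ * k₂)⁻¹ * b * (k₁ * k₂)) = (b⁻¹ * (k₂⁻¹ * b * k₂)) *
          ((b⁻¹ * (k₁⁻¹ * b * k₁)) * ((b⁻¹ * (k₁⁻¹ * b * k₁))⁻¹ * (k₂⁻¹ * (b⁻¹ * (k₁⁻¹ * b * k₁)) * k₂))) := by group
      rw [e]
      exact mul_mem (ih₂ b hb) (mul_mem (ih₁ b hb) (ih₂ _ hw))
    | inv k hk ih =>
      intro b hb
      have hNk : k ∈ N := hKN hk
      have hb' : k * b * k⁻¹ ∈ R := (mem_normalizer_iff.1 hNk b).1 hb
      have h3 := ih _ hb'
      have e : b⁻¹ * (k⁻¹⁻¹ * b * k⁻¹) = ((k * b * k⁻¹)⁻¹ * (k⁻¹ * (k * b * k⁻¹) * k))⁻¹ := by group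
      rw [e]
      exact inv_mem h3
  -- Frattini
  have hxinv : x⁻¹ ∈ N := inv_mem hx
  set T' := T.map (MulAut.conj x).toMonoidHom with hT'
  have hT'p : IsPGroup p T' := hTp.of_equiv (T.equivMapOfInjective _ (MulAut.conj x).injective)
  have hT'c : Nat.card T' = Nat.card T := (Nat.card_congr (T.equivMapOfInjective _ (MulAut.conj x).injective).toEquiv).symm
  have hT'K : T' ≤ K := by
    rintro _ ⟨t, ht', rfl⟩
    apply Subgroup.subset_closure
    refine ⟨mul_mem (mul_mem hx (hTN ht')) hxinv, ?_⟩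
    obtain ⟨k, hk⟩ := IsPGroup.iff_orderOf.1 P.2 ⟨t, ht'.1⟩
    refine ⟨k, ?_⟩
    have h3 : orderOf ((MulAut.conj x).toMonoidHom t) = orderOf t :=
      MulEquiv.orderOf_eq (MulAut.conj x) t
    rw [h3, ← hk, Subgroup.orderOf_mk]
  have hidxK : ¬ p ∣ T.relIndex K := by
    intro hd
    apply hTidx
    rw [← Subgroup.relIndex_mul_relIndex T K N hTK hKN]
    exact hd.trans (dvd_mul_right _ _)
  have hidxK' : ¬ p ∣ T'.relIndex K := by
    have h3 := card_mul_relIndex' T K hTK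
    have h4 := card_mul_relIndex' T' K hT'K
    have h5 : T'.relIndex K = T.relIndex K := by
      apply Nat.eq_of_mul_eq_mul_left (Nat.card_pos (α := T))
      rw [h3, ← hT'c, h4]
    rw [h5]
    exact hidxK
  obtain ⟨h, hhK, hh⟩ := exists_conj_of_relIndex K T' T hT'p hTp hT'K hTK hidxK' hidxK
  have hnT : h * x ∈ normalizer (T : Set G) := by
    rw [mem_normalizer_iff]
    have hmem : ∀ t, t ∈ T → (h * x) * t * (h * x)⁻¹ ∈ T := by
      intro t ht'
      rw [← hh]
      exact ⟨x * t * x⁻¹, ⟨t, ht', rfl⟩, by simp [mul_assoc]⟩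
    have hcard : T.map (MulAut.conj (h * x)).toMonoidHom = T := by
      apply Subgroup.eq_of_le_of_card_ge
      · rintro _ ⟨t, ht', rfl⟩
        exact hmem t ht'
      · exact (Nat.card_congr (T.equivMapOfInjective _ (MulAut.conj (h * x)).injective).toEquiv).le
    intro t
    constructor
    · exact hmem t
    · intro ht'
      rw [← hcard] at ht'
      obtain ⟨t₀, ht₀, e⟩ := ht'
      have e2 : (h * x) * t₀ * (h * x)⁻¹ = (h * x) * t * (h * x)⁻¹ := e
      have e3 : t₀ = t := by simpa using e2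
      rw [← e3]
      exact ht₀
  set n' := h * x with hn'
  have hxe : x = h⁻¹ * n' := by rw [hn']; group
  have hk : h⁻¹ ∈ K := inv_mem hhK
  have hNk : h⁻¹ ∈ N := hKN hk
  have hb : (h⁻¹)⁻¹ * a * h⁻¹ ∈ R := by
    have := (mem_normalizer_iff.1 (inv_mem hNk) a).1 ha
    simpa using this
  have hw : a⁻¹ * ((h⁻¹)⁻¹ * a * h⁻¹) ∈ R := mul_mem (inv_mem ha) hb
  have e : a⁻¹ * (x⁻¹ * a * x) = (a⁻¹ * (n'⁻¹ * a * n')) * ((a⁻¹ * ((h⁻¹)⁻¹ * a * h⁻¹)) *
      ((a⁻¹ * ((h⁻¹)⁻¹ * a * h⁻¹))⁻¹ * (n'⁻¹ * (a⁻¹ * ((h⁻¹)⁻¹ * a * h⁻¹)) * n'))) := by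
    rw [hxe]
    group
  rw [e]
  exact mul_mem (hstar n' hnT a (hRT.le ha)) (mul_mem (hstar2 _ hk a ha) (hstar n' hnT _ (hRT.le hw)))

theorem core (P : Sylow p G) (F : Subgroup G)
    (h1 : ∀ a ∈ (P : Subgroup G), ∀ n ∈ normalizer ((P : Subgroup G) : Set G), ⁅a, n⁆ ∈ F)
    (h2 : ∀ Q : Sylow p G, Tame (p := p) (P : Subgroup G) (Q : Subgroup G) →
      ∀ y ∈ normalizer (((P : Subgroup G) ⊓ (Q : Subgroup G) : Subgroup G) : Set G), (∃ k : ℕ, orderOf y = p ^ k) →
      ∀ a ∈ (P : Subgroup G) ⊓ (Q : Subgroup G), ⁅a, y⁆ ∈ F) :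
    commutator G ⊓ (P : Subgroup G) ≤ F := by
  rw [Subgroup.commutator_inf_eq_focalSubgroup P, focalSubgroup_def, closure_le]
  rintro g ⟨hg, y, hy, u, rfl⟩
  have hch : AChain P {y⁻¹} u⁻¹ := by
    apply alperin_fusion
    · intro a ha
      rw [Set.mem_singleton_iff.1 ha]
      exact inv_mem hy
    · rintro _ ⟨a, ha, rfl⟩
      rw [Set.mem_singleton_iff.1 ha]
      have e : (u⁻¹)⁻¹ * y⁻¹ * u⁻¹ = y⁻¹ * ⁅y, u⁆ := by
        rw [commutatorElement_def]
        group
      simp only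
      rw [e]
      exact mul_mem (inv_mem hy) hg
  have h3 := chain_F P F 0 (fun Q ht _ x hx a ha => claim P F h1 h2 _ Q ht rfl x hx a ha) hch
    (Nat.zero_le _) y⁻¹ rfl
  have e : (y⁻¹)⁻¹ * ((u⁻¹)⁻¹ * y⁻¹ * u⁻¹) = ⁅y, u⁆ := by
    rw [commutatorElement_def]
    group
  rw [e] at h3
  exact h3

end

/-- Let P be a Sylow p-subgroup of a finite group G. Call an intersection H = P ∩ Q with a Sylow p-subgroup Q tame when N_P(H) and N_Q(H) are Sylow p-subgroups of N_G(H). Then P ∩ G′ is generated by [P, N_G(P)] together with the commutator subgroups [P ∩ Q, ⟨x⟩] for all tame intersections P ∩ Q and all p-elements x of N_G(P ∩ Q). -/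
theorem result {G : Type*} [Group G] [Finite G] (p : ℕ) [Fact p.Prime] (P : Sylow p G) :
    (P : Subgroup G) ⊓ commutator G =
      ⁅(P : Subgroup G), Subgroup.normalizer ((P : Subgroup G) : Set G)⁆ ⊔
        ⨆ (Q : Sylow p G) (_ : (¬ p ∣ ((P : Subgroup G) ⊓ Subgroup.normalizer (((P : Subgroup G) ⊓ (Q : Subgroup G) : Subgroup G) : Set G)).relIndex (Subgroup.normalizer (((P : Subgroup G) ⊓ (Q : Subgroup G) : Subgroup G) : Set G)) ∧ ¬ p ∣ ((Q : Subgroup G) ⊓ Subgroup.normalizer (((P : Subgroup G) ⊓ (Q : Subgroup G) : Subgroup G) : Set G)).relIndex (Subgroup.normalizer (((P : Subgroup G) ⊓ (Q : Subgroup G) : Subgroup G) : Set G))))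
          (x : G) (_ : x ∈ Subgroup.normalizer (((P : Subgroup G) ⊓ (Q : Subgroup G) : Subgroup G) : Set G) ∧ ∃ k : ℕ, orderOf x = p ^ k),
          ⁅(P : Subgroup G) ⊓ (Q : Subgroup G), Subgroup.zpowers x⁆ := by
  apply le_antisymm
  · rw [inf_comm]
    apply core P
    · intro a ha n hn
      exact Subgroup.mem_sup_left (commutator_mem_commutator ha hn)
    · intro Q ht y hy hyo a ha
      refine Subgroup.mem_sup_right ?_
      refine Subgroup.mem_iSup_of_mem Q (Subgroup.mem_iSup_of_mem ht (Subgroup.mem_iSup_of_mem y (Subgroup.mem_iSup_of_mem ⟨hy, hyo⟩ ?_)))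
      exact commutator_mem_commutator ha (mem_zpowers y)
  · apply sup_le
    · rw [commutator_le]
      intro a ha n hn
      refine ⟨?_, commutator_mem_commutator (mem_top a) (mem_top n)⟩
      rw [commutatorElement_def]
      have h3 := (mem_normalizer_iff.1 hn a⁻¹).1 (inv_mem ha)
      have e : a * n * a⁻¹ * n⁻¹ = a * (n * a⁻¹ * n⁻¹) := by group
      rw [e]
      exact mul_mem ha h3
    · apply iSup_le
      intro Q
      apply iSup_le
      intro _
      apply iSup_le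
      intro x
      apply iSup_le
      intro hx
      rw [commutator_le]
      intro a ha z hz
      refine ⟨?_, commutator_mem_commutator (mem_top a) (mem_top z)⟩
      have hzN : z ∈ normalizer (((P : Subgroup G) ⊓ (Q : Subgroup G) : Subgroup G) : Set G) :=
        (zpowers_le.2 hx.1) hz
      rw [commutatorElement_def]
      have h3 := (mem_normalizer_iff.1 hzN a⁻¹).1 (inv_mem ha)
      have e : a * z * a⁻¹ * z⁻¹ = a * (z * a⁻¹ * z⁻¹) := by group
      rw [e]
      exact (mul_mem ha h3).1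

end Cfsg.Agent.S4250
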