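import Cfsg.Statements.S4216
import Mathlib
import Cfsg.Agent.S4250
import Cfsg.Agent.Lib.H1Core
-- import your own Cfsg.Agent.* helpers here

set_option autoImplicit false
open Cfsg

namespace Cfsg.Agent.S4216

/-- Grün's first Theorem: if `P` is a Sylow `p`-subgroup of the finite group `G`, then `P ∩ G'` is the subgroup generated by `P ∩ N_G(P)'` together with the subgroups `P ∩ z P' z⁻¹` for all `z ∈ G`, where `'` denotes the derived subgroup and `N_G(P)` the normalizer of `P`. -/
theorem result {G : Type*} [Group G] [Finite G] {p : ℕ} [Fact p.Prime] (P : Sylow p G) : (P : Subgroup G) ⊓ commutator G = ((P : Subgroup G) ⊓ ⁅Subgroup.normalizer ((P : Subgroup G) : Set G), Subgroup.normalizer ((P : Subgroup G) : Set G)⁆) ⊔ ⨆ z : G, (P : Subgroup G) ⊓ (⁅(P : Subgroup G), (P : Subgroup G)⁆).map (MulAut.conj z).toMonoidHom := by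
  open scoped commutatorElement in
  apply le_antisymm
  · rw [inf_comm]
    apply S4250.core P
    · intro a ha n hn
      apply Subgroup.mem_sup_left
      constructor
      · rw [commutatorElement_def]
        have h3 := (Subgroup.mem_normalizer_iff.1 hn a⁻¹).1 (inv_mem ha)
        have e : a * n * a⁻¹ * n⁻¹ = a * (n * a⁻¹ * n⁻¹) := by group
        rw [e]
        exact mul_mem ha h3
      · exact Subgroup.commutator_mem_commutator (Subgroup.le_normalizer ha) hn
    · intro Q ht y hy hyo a ha
      apply Subgroup.mem_sup_right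
      have hp1 : IsPGroup p ((P : Subgroup G) ⊓ (Q : Subgroup G) : Subgroup G) := P.2.to_le inf_le_left
      have hp2 : IsPGroup p (Subgroup.zpowers y) := by
        obtain ⟨k, hk⟩ := hyo
        exact IsPGroup.of_card (n := k) (by rw [Nat.card_zpowers, hk])
      have hp3 := hp1.to_sup_of_normal_left' hp2 (Subgroup.zpowers_le.2 hy)
      obtain ⟨Q₂, hQ₂⟩ := hp3.exists_le_sylow
      obtain ⟨z, hz⟩ := MulAction.exists_smul_eq G P Q₂
      refine Subgroup.mem_iSup_of_mem z ⟨?_, ?_⟩
      · rw [commutatorElement_def]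
        have h3 := (Subgroup.mem_normalizer_iff.1 hy a⁻¹).1 (inv_mem ha)
        have e : a * y * a⁻¹ * y⁻¹ = a * (y * a⁻¹ * y⁻¹) := by group
        rw [e]
        exact (mul_mem ha h3).1
      · have haQ : a ∈ (Q₂ : Subgroup G) := hQ₂ (Subgroup.mem_sup_left ha)
        have hyQ : y ∈ (Q₂ : Subgroup G) := hQ₂ (Subgroup.mem_sup_right (Subgroup.mem_zpowers y))
        rw [← hz, Lib.H1Core.mem_sylow_smul] at haQ hyQ
        refine ⟨⁅z⁻¹ * a * z, z⁻¹ * y * z⁆, Subgroup.commutator_mem_commutator haQ hyQ, ?_⟩
        simp only [MulEquiv.coe_toMonoidHom, MulAut.conj_apply, commutatorElement_def]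
        group
  · apply sup_le
    · apply inf_le_inf_left
      exact Subgroup.commutator_mono le_top le_top
    · apply iSup_le
      intro z
      apply inf_le_inf_left
      rintro _ ⟨c, hc, rfl⟩
      have hc' : c ∈ commutator G := Subgroup.commutator_mono le_top le_top hc
      exact Subgroup.Normal.conj_mem inferInstance c hc' z

end Cfsg.Agent.S4216
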