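import Cfsg.Statements.S4227
import Mathlib
import Cfsg.Agent.Lib.H1Core
import Cfsg.Agent.Lib.H1Fit
import Cfsg.Agent.Lib.H1PLen
import Cfsg.Agent.Lib.PJ4
import Cfsg.Agent.Lib.PMin2
import Cfsg.Agent.Lib.FGS4
import Cfsg.Agent.Lib.PGrp2
import Cfsg.Agent.Lib.LQd4
import Cfsg.Agent.Lib.CharGal
import Cfsg.Agent.Lib.PSolv
-- import your own Cfsg.Agent.* helpers here

set_option autoImplicit false
open Cfsg

namespace Cfsg.Agent.S4227

open scoped commutatorElement

theorem e1 {V : Type*} [CommGroup V] (a b c : V) : (a * b * c) * (a⁻¹ * b⁻¹ * c) = c * c := by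
  rw [mul_mul_mul_comm (a * b) c (a⁻¹ * b⁻¹) c, mul_mul_mul_comm a b a⁻¹ b⁻¹]
  simp

theorem e2 {V : Type*} [CommGroup V] (a b c : V) : (a * b * c) * (a * b⁻¹ * c⁻¹) = a * a := by
  have h1 : (a * b * c) = a * (b * c) := mul_assoc _ _ _
  have h2 : (a * b⁻¹ * c⁻¹) = a * (b⁻¹ * c⁻¹) := mul_assoc _ _ _
  rw [h1, h2, mul_mul_mul_comm a (b * c) a (b⁻¹ * c⁻¹), mul_mul_mul_comm b c b⁻¹ c⁻¹]
  simp

theorem e3 {V : Type*} [CommGroup V] (x y u z : V) :
    (x * y⁻¹ * u * z⁻¹) * (x * y * u⁻¹ * z⁻¹) = (x * z⁻¹) * (x * z⁻¹) := by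
  have h1 : x * y⁻¹ * u * z⁻¹ = (x * z⁻¹) * (y⁻¹ * u) := by
    simp only [mul_comm, mul_left_comm, mul_assoc]
  have h2 : x * y * u⁻¹ * z⁻¹ = (x * z⁻¹) * (y * u⁻¹) := by
    simp only [mul_comm, mul_left_comm, mul_assoc]
  rw [h1, h2, mul_mul_mul_comm (x * z⁻¹) (y⁻¹ * u) (x * z⁻¹) (y * u⁻¹), mul_mul_mul_comm y⁻¹ u y u⁻¹]
  simp

theorem key_aut {V : Type*} [CommGroup V] (hV : ∀ v : V, v ^ 3 = 1) (α β γ ξ : MulAut V)
    (hβ : β * ξ = ξ * α) (hγ : γ * ξ = ξ * β) (hα : α * ξ = ξ * γ) (hcomm : α * β = β * α)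
    (hprod : α * β * γ = 1) (hα2 : α * α = 1) (hβ2 : β * β = 1)
    (hN : ∀ v, v * ξ v * ξ (ξ v) = 1) : α = 1 := by
  have hβ' : ∀ v, β (ξ v) = ξ (α v) := fun v => DFunLike.congr_fun hβ v
  have hγ' : ∀ v, γ (ξ v) = ξ (β v) := fun v => DFunLike.congr_fun hγ v
  have hα' : ∀ v, α (ξ v) = ξ (γ v) := fun v => DFunLike.congr_fun hα v
  have hcomm' : ∀ v, α (β v) = β (α v) := fun v => DFunLike.congr_fun hcomm v
  have hαα : ∀ v, α (α v) = v := fun v => DFunLike.congr_fun hα2 v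
  have hββ : ∀ v, β (β v) = v := fun v => DFunLike.congr_fun hβ2 v
  have hγeq : γ = α * β := by
    have h1 : (α * β) * (α * β) = 1 := by
      calc (α * β) * (α * β) = α * (β * α) * β := by simp only [mul_assoc]
        _ = α * (α * β) * β := by rw [hcomm]
        _ = (α * α) * (β * β) := by simp only [mul_assoc]
        _ = 1 := by rw [hα2, hβ2, one_mul]
    calc γ = ((α * β) * (α * β)) * γ := by rw [h1, one_mul]
      _ = (α * β) * ((α * β) * γ) := by rw [mul_assoc]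
      _ = α * β := by rw [hprod, mul_one]
  have hγv : ∀ v, γ v = α (β v) := fun v => by rw [hγeq]; rfl
  have hsq : ∀ w : V, w * w = 1 → w = 1 := by
    intro w hw
    have h3 := hV w
    rw [pow_succ, sq, hw, one_mul] at h3
    exact h3
  have hA : ∀ w : V, α w = w⁻¹ → β w = w → w = 1 := by
    intro w h1 h2
    have hN1 := hN w
    have hN2 := congrArg α hN1
    rw [map_mul, map_mul, map_one, h1, hα', hα', hγv, h2, h1, hγ', h2, map_inv] at hN2
    have h3 : ξ (ξ w) * ξ (ξ w) = 1 := by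
      calc ξ (ξ w) * ξ (ξ w) = (w * ξ w * ξ (ξ w)) * (w⁻¹ * (ξ w)⁻¹ * ξ (ξ w)) := (e1 _ _ _).symm
        _ = 1 := by rw [hN1, hN2, one_mul]
    have h4 := hsq _ h3
    have h5 : ξ w = 1 := by
      apply ξ.injective
      rw [h4, map_one]
    apply ξ.injective
    rw [h5, map_one]
  have hB : ∀ w : V, α w = w → β w = w⁻¹ → w = 1 := by
    intro w h1 h2
    have hN1 := hN w
    have hN2 := congrArg α hN1
    rw [map_mul, map_mul, map_one, h1, hα', hα', hγv, h2, map_inv, h1, hγ', h2, map_inv, map_inv] at hN2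
    apply hsq
    calc w * w = (w * ξ w * ξ (ξ w)) * (w * (ξ w)⁻¹ * (ξ (ξ w))⁻¹) := (e2 _ _ _).symm
      _ = 1 := by rw [hN1, hN2, one_mul]
  have hv : ∀ v, α (β v) = v := by
    intro v
    have h1 : β (α v) = α (β v) := (hcomm' v).symm
    have h2 : β (α (β v)) = α v := by rw [← hcomm' (β v), hββ]
    have hf : v * (α v)⁻¹ * β v * (α (β v))⁻¹ = 1 := by
      apply hA
      · simp only [map_mul, map_inv, hαα, inv_inv, mul_inv_rev]
        simp only [mul_comm, mul_left_comm, mul_assoc]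
      · simp only [map_mul, map_inv, hββ, h1, h2]
        simp only [mul_comm, mul_left_comm, mul_assoc]
    have hf' : v * α v * (β v)⁻¹ * (α (β v))⁻¹ = 1 := by
      apply hB
      · simp only [map_mul, map_inv, hαα]
        simp only [mul_comm, mul_left_comm, mul_assoc]
      · simp only [map_mul, map_inv, hββ, h1, h2, inv_inv, mul_inv_rev]
        simp only [mul_comm, mul_left_comm, mul_assoc]
    have h3 : (v * (α (β v))⁻¹) * (v * (α (β v))⁻¹) = 1 := by
      calc (v * (α (β v))⁻¹) * (v * (α (β v))⁻¹)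
          = (v * (α v)⁻¹ * β v * (α (β v))⁻¹) * (v * α v * (β v)⁻¹ * (α (β v))⁻¹) := (e3 _ _ _ _).symm
        _ = 1 := by rw [hf, hf', one_mul]
    have h4 := hsq _ h3
    exact (mul_inv_eq_one.mp h4).symm
  have hγ1 : γ = 1 := by
    ext v
    rw [hγv, hv]; rfl
  rw [hγ1, mul_one] at hα
  simpa using hα

theorem cent_le {K : Type*} [Group K] [Finite K] [Group.IsSolvable K] (p : ℕ) [Fact p.Prime]
    (hO : Cfsg.pPrimeCore p K = ⊥) :
    Subgroup.centralizer (Cfsg.pCore p K : Set K) ≤ Cfsg.pCore p K := by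
  classical
  have hpp : p.Prime := Fact.out
  have hle : Cfsg.fittingSubgroup K ≤ Cfsg.pCore p K := by
    intro x hx
    have hord : ∃ b, orderOf x = p ^ b := by
      have hall : ∀ q : ℕ, q.Prime → q ∣ orderOf x → q = p := by
        intro q hq hqd
        by_contra hqp
        have ho0 : orderOf x ≠ 0 := (orderOf_pos x).ne'
        have hyo : orderOf (x ^ (orderOf x / q)) = q := by
          rw [orderOf_pow_of_dvd (by
            intro h
            rw [Nat.div_eq_zero_iff] at h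
            rcases h with h | h
            · exact hq.ne_zero h
            · exact absurd (Nat.le_of_dvd (Nat.pos_of_ne_zero ho0) hqd) (by omega)) (Nat.div_dvd_of_dvd hqd)]
          exact Nat.div_div_self hqd ho0
        have hyF : x ^ (orderOf x / q) ∈ Cfsg.fittingSubgroup K := pow_mem hx _
        have hyq : x ^ (orderOf x / q) ∈ Cfsg.pCore q K :=
          Lib.FGS4.mem_pCore_of_mem_fitting hq _ hyF (by rw [hyo, pow_one])
        haveI : Fact q.Prime := ⟨hq⟩
        have h1 : (Nat.card (Cfsg.pCore q K)).Coprime p := by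
          obtain ⟨m, hm⟩ := IsPGroup.iff_card.mp (Lib.H1Core.pCore_isPGroup (G := K) q)
          rw [hm]
          exact Nat.Coprime.pow_left m ((Nat.coprime_primes hq hpp).mpr hqp)
        have h2 := Lib.H1Core.le_pPrimeCore (Lib.H1Core.pCore_normal q K) h1
        rw [hO] at h2
        have h3 : x ^ (orderOf x / q) = 1 := Subgroup.mem_bot.mp (h2 hyq)
        rw [h3, orderOf_one] at hyo
        exact hq.one_lt.ne hyo
      exact ⟨_, (Nat.eq_prime_pow_of_unique_prime_dvd (orderOf_pos x).ne' (fun {d} hd hdd => hall d hd hdd))⟩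
    obtain ⟨b, hb⟩ := hord
    exact Lib.FGS4.mem_pCore_of_mem_fitting hpp x hx hb
  have hge : Cfsg.pCore p K ≤ Cfsg.fittingSubgroup K := Lib.H1Core.pCore_le_fitting p
  have heq : Cfsg.fittingSubgroup K = Cfsg.pCore p K := le_antisymm hle hge
  have := Lib.H1Fit.centralizer_fitting_le (G := K)
  rwa [heq] at this

theorem pow_aux {K : Type*} [Group K] {p m k : ℕ} (hp : p.Prime) (hm : ¬ p ∣ m) (y : K) (h1 : y ^ p ^ k = 1)
    (h2 : y ^ (p * m) = 1) : y ^ p = 1 := by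
  have h3 : orderOf y ∣ p ^ k := orderOf_dvd_of_pow_eq_one h1
  have h4 : orderOf y ∣ p * m := orderOf_dvd_of_pow_eq_one h2
  obtain ⟨j, -, hj⟩ := (Nat.dvd_prime_pow hp).mp h3
  have hj1 : j ≤ 1 := by
    by_contra hlt
    have h5 : p ^ 2 ∣ orderOf y := hj ▸ pow_dvd_pow p (by omega)
    have h6 : p * p ∣ p * m := by
      rw [← sq]; exact h5.trans h4
    exact hm (Nat.dvd_of_mul_dvd_mul_left hp.pos h6)
  apply orderOf_dvd_iff_pow_eq_one.mp
  rw [hj]
  calc p ^ j ∣ p ^ 1 := pow_dvd_pow p hj1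
    _ = p := pow_one p

theorem two_case {K : Type*} [Group K] [Finite K] [Group.IsSolvable K] (h : ∀ y : K, y ^ 6 = 1)
    (hO : Cfsg.pPrimeCore 2 K = ⊥) (z : K) (hz : z ^ 2 = 1) : z ∈ Cfsg.pCore 2 K := by
  classical
  haveI : Fact (Nat.Prime 2) := ⟨Nat.prime_two⟩
  haveI hTn : (Cfsg.pCore 2 K).Normal := Lib.H1Core.pCore_normal 2 K
  apply cent_le 2 hO
  rw [Subgroup.mem_centralizer_iff]
  intro t ht
  have hTp := Lib.H1Core.pCore_isPGroup (G := K) 2
  have hpow : ∀ w ∈ Cfsg.pCore 2 K, w ^ 2 = 1 := by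
    intro w hw
    obtain ⟨k, hk⟩ := hTp ⟨w, hw⟩
    have h1 : w ^ 2 ^ k = 1 := by
      have := congrArg Subtype.val hk
      simpa using this
    exact pow_aux (m := 3) Nat.prime_two (by norm_num) w h1 (h w)
  -- `z * t` has square in `T` hence square one
  have hzt : (z * t) ^ 2 = 1 := by
    have h1 : (z * t) ^ 2 ∈ Cfsg.pCore 2 K := by
      have e : (z * t) ^ 2 = (z * t * z⁻¹) * (z ^ 2) * t := by
        simp only [sq]; group
      rw [e, hz, mul_one]
      exact mul_mem (hTn.conj_mem t ht z) ht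
    have h2 := hpow _ h1
    have h3 : (z * t) ^ 4 = 1 := by
      calc (z * t) ^ 4 = ((z * t) ^ 2) ^ 2 := by rw [← pow_mul]
        _ = 1 := h2
    have h4 := h (z * t)
    have h5 : orderOf (z * t) ∣ Nat.gcd 4 6 := Nat.dvd_gcd (orderOf_dvd_of_pow_eq_one h3) (orderOf_dvd_of_pow_eq_one h4)
    exact orderOf_dvd_iff_pow_eq_one.mp h5
  have hz' : z * z = 1 := by rw [← sq]; exact hz
  have ht' : t * t = 1 := by rw [← sq]; exact hpow t ht
  have hzt' : z * t * (z * t) = 1 := by rw [← sq]; exact hzt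
  calc t * z = t * z * (z * t * (z * t)) := by rw [hzt', mul_one]
    _ = t * (z * z) * t * (z * t) := by group
    _ = z * t := by rw [hz', mul_one, ht', one_mul]

theorem three_case {K : Type*} [Group K] [Finite K] [Group.IsSolvable K] (h : ∀ y : K, y ^ 6 = 1)
    (hO : Cfsg.pPrimeCore 3 K = ⊥) (x : K) (hx : x ^ 3 = 1) : x ∈ Cfsg.pCore 3 K := by
  classical
  haveI hf3 : Fact (Nat.Prime 3) := ⟨by norm_num⟩
  haveI hTn : (Cfsg.pCore 3 K).Normal := Lib.H1Core.pCore_normal 3 K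
  have hTp : IsPGroup 3 (Cfsg.pCore 3 K) := Lib.H1Core.pCore_isPGroup (G := K) 3
  have hCT := cent_le 3 hO
  by_contra hxT
  let T := Cfsg.pCore 3 K
  let L := K ⧸ T
  let π : K →* L := QuotientGroup.mk' T
  have hπs : Function.Surjective π := QuotientGroup.mk'_surjective T
  have hπ1 : ∀ y, π y = 1 ↔ y ∈ T := fun y => QuotientGroup.eq_one_iff y
  have hLO : Cfsg.pCore 3 L = ⊥ := Lib.PZJ.pCore_quot_self
  have hL6 : ∀ y : L, y ^ 6 = 1 := by
    intro y
    obtain ⟨y, rfl⟩ := hπs y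
    rw [← map_pow, h, map_one]
  let F := Cfsg.fittingSubgroup L
  haveI hFn : F.Normal := Lib.H1Core.fittingSubgroup_normal L
  have hF2 : ∀ z ∈ F, z * z = 1 := by
    intro z hz
    have hw : (z ^ 2) ^ 3 = 1 := by rw [← pow_mul]; exact hL6 z
    have hwF : z ^ 2 ∈ F := pow_mem hz 2
    have hdvd : orderOf (z ^ 2) ∣ 3 ^ 1 := by
      rw [pow_one]; exact orderOf_dvd_of_pow_eq_one hw
    obtain ⟨b, -, hb⟩ := (Nat.dvd_prime_pow (by norm_num : Nat.Prime 3)).mp hdvd
    have h1 := Lib.FGS4.mem_pCore_of_mem_fitting (by norm_num : Nat.Prime 3) _ hwF hb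
    rw [hLO] at h1
    rw [← sq]
    exact Subgroup.mem_bot.mp h1
  have hFc : ∀ a ∈ F, ∀ b ∈ F, a * b = b * a := by
    intro a ha b hb
    have h1 := hF2 _ (mul_mem ha hb)
    have h2 := hF2 a ha
    have h3 := hF2 b hb
    calc a * b = a * b * (b * a * (b * a)) := by rw [hF2 _ (mul_mem hb ha), mul_one]
      _ = a * (b * b) * a * (b * a) := by group
      _ = b * a := by rw [h3, mul_one, h2, one_mul]
  have hxnot : π x ∉ Subgroup.centralizer (F : Set L) := by
    intro hc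
    have h1 := Lib.H1Fit.centralizer_fitting_le (G := L) hc
    have h2 := hF2 _ h1
    have h3 : π x ^ 3 = 1 := by rw [← map_pow, hx, map_one]
    have h4 : π x = 1 := by
      rw [pow_succ, sq, h2, one_mul] at h3
      exact h3
    exact hxT ((hπ1 x).mp h4)
  rw [Subgroup.mem_centralizer_iff] at hxnot
  push_neg at hxnot
  obtain ⟨d, hdF, hd⟩ := hxnot
  obtain ⟨d₀, rfl⟩ := hπs d
  -- the action on the Frattini quotient of `T`
  let Φ : Subgroup T := frattini T
  have hchar : ∀ a : MulAut T, Φ.map (a : T →* T) = Φ := fun a =>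
    (Subgroup.characteristic_iff_map_eq.mp inferInstance) a
  let ρ : K →* MulAut (T ⧸ Φ) := MonoidHom.mk' (fun g => QuotientGroup.congr Φ Φ (MulAut.conjNormal g) (hchar _)) (by
    intro a b
    ext v
    obtain ⟨t, rfl⟩ := QuotientGroup.mk_surjective v
    show ((MulAut.conjNormal (a * b) t : T) : T ⧸ Φ) = ((MulAut.conjNormal a (MulAut.conjNormal b t) : T) : T ⧸ Φ)
    rw [map_mul]
    rfl)
  have hρ : ∀ (g : K) (t : T), ρ g (t : T ⧸ Φ) = ((MulAut.conjNormal g t : T) : T ⧸ Φ) := fun g t => rfl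
  have hρT : ∀ t₀ ∈ T, ρ t₀ = 1 := by
    intro t₀ ht₀
    ext v
    obtain ⟨t, rfl⟩ := QuotientGroup.mk_surjective v
    rw [hρ]
    show _ = (t : T ⧸ Φ)
    rw [QuotientGroup.eq]
    have h1 : ⁅(⟨t₀, ht₀⟩ : T), t⁆ ∈ frattini T :=
      Lib.PGrp.commutator_le_frattini hTp (Subgroup.commutator_mem_commutator (Subgroup.mem_top _) (Subgroup.mem_top _))
    have e : (MulAut.conjNormal t₀ t)⁻¹ * t = ⁅(⟨t₀, ht₀⟩ : T), t⁻¹⁆ := by
      apply Subtype.ext
      simp only [Subgroup.coe_mul, MulAut.conjNormal_apply, commutatorElement_def, Subgroup.coe_inv, inv_inv]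
      group
    rw [e]
    exact Lib.PGrp.commutator_le_frattini hTp (Subgroup.commutator_mem_commutator (Subgroup.mem_top _) (Subgroup.mem_top _))
  have hT3 : ∀ t ∈ T, t ^ 3 = 1 := by
    intro t ht
    obtain ⟨k, hk⟩ := hTp ⟨t, ht⟩
    have h1 : t ^ 3 ^ k = 1 := by
      have := congrArg Subtype.val hk
      simpa using this
    exact pow_aux (m := 2) (by norm_num) (by norm_num) t h1 (h t)
  have hVexp : ∀ v : T ⧸ Φ, v ^ 3 = 1 := by
    intro v
    obtain ⟨t, rfl⟩ := QuotientGroup.mk_surjective v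
    have h1 : t ^ 3 = 1 := Subtype.ext (by simpa using hT3 t t.2)
    rw [← QuotientGroup.mk_pow, h1]
    rfl
  have hVc : ∀ v w : T ⧸ Φ, v * w = w * v := by
    intro v w
    obtain ⟨s, rfl⟩ := QuotientGroup.mk_surjective v
    obtain ⟨t, rfl⟩ := QuotientGroup.mk_surjective w
    rw [← QuotientGroup.mk_mul, ← QuotientGroup.mk_mul, QuotientGroup.eq]
    have e : (s * t)⁻¹ * (t * s) = ⁅t⁻¹, s⁻¹⁆ := by
      rw [commutatorElement_def]; group
    rw [e]
    exact Lib.PGrp.commutator_le_frattini hTp (Subgroup.commutator_mem_commutator (Subgroup.mem_top _) (Subgroup.mem_top _))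
  let a : K := d₀⁻¹ * (x * d₀ * x⁻¹)
  let b : K := x * a * x⁻¹
  let c : K := x * b * x⁻¹
  have hπa : π a ∈ F := by
    show π (d₀⁻¹ * (x * d₀ * x⁻¹)) ∈ F
    rw [map_mul, map_inv, map_mul, map_mul, map_inv]
    exact mul_mem (inv_mem hdF) (hFn.conj_mem _ hdF _)
  have hπb : π b ∈ F := by
    show π (x * a * x⁻¹) ∈ F
    rw [map_mul, map_mul, map_inv]
    exact hFn.conj_mem _ hπa _
  have hπa1 : π a ≠ 1 := by
    intro h1
    apply hd
    have h2 : π (d₀⁻¹ * (x * d₀ * x⁻¹)) = 1 := h1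
    rw [map_mul, map_inv, map_mul, map_mul, map_inv, inv_mul_eq_one] at h2
    calc π d₀ * π x = (π x * π d₀ * (π x)⁻¹) * π x := congrArg (· * π x) h2
      _ = π x * π d₀ := by group
  have hT1 : ∀ y : K, π y = 1 → ρ y = 1 := fun y hy => hρT y ((hπ1 y).mp hy)
  have hx3 : x * x * x = 1 := by
    rw [← hx, pow_succ, sq]
  have hβ : ρ b * ρ x = ρ x * ρ a := by
    rw [← map_mul, ← map_mul]
    congr 1
    show x * a * x⁻¹ * x = x * a
    group
  have hγ : ρ c * ρ x = ρ x * ρ b := by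
    rw [← map_mul, ← map_mul]
    congr 1
    show x * b * x⁻¹ * x = x * b
    group
  have hα : ρ a * ρ x = ρ x * ρ c := by
    rw [← map_mul, ← map_mul]
    congr 1
    have e : x * c = (x * x * x) * a * (x * x * x)⁻¹ * x := by
      show x * (x * (x * a * x⁻¹) * x⁻¹) = _
      group
    rw [e, hx3]
    group
  have hcomm : ρ a * ρ b = ρ b * ρ a := by
    rw [← map_mul, ← map_mul]
    have h1 : π (a * b * a⁻¹ * b⁻¹) = 1 := by
      rw [map_mul, map_mul, map_mul, map_inv, map_inv, hFc _ hπa _ hπb]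
      group
    have e : a * b = (a * b * a⁻¹ * b⁻¹) * (b * a) := by group
    rw [e, map_mul, hT1 _ h1, one_mul]
  have hprod : ρ a * ρ b * ρ c = 1 := by
    rw [← map_mul, ← map_mul]
    have e : a * b * c = d₀⁻¹ * (x * x * x) * d₀ * (x * x * x)⁻¹ := by
      show d₀⁻¹ * (x * d₀ * x⁻¹) * (x * (d₀⁻¹ * (x * d₀ * x⁻¹)) * x⁻¹) * (x * (x * (d₀⁻¹ * (x * d₀ * x⁻¹)) * x⁻¹) * x⁻¹) = _
      group
    rw [e, hx3]
    simp
  have hα2 : ρ a * ρ a = 1 := by
    rw [← map_mul]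
    apply hT1
    rw [map_mul]
    exact hF2 _ hπa
  have hβ2 : ρ b * ρ b = 1 := by
    rw [← map_mul]
    apply hT1
    rw [map_mul]
    exact hF2 _ hπb
  have hN : ∀ v, v * ρ x v * ρ x (ρ x v) = 1 := by
    intro v
    obtain ⟨t, rfl⟩ := QuotientGroup.mk_surjective v
    rw [hρ, hρ, ← QuotientGroup.mk_mul, ← QuotientGroup.mk_mul]
    have h1 : (t : K) * (x * t * x⁻¹) * (x * (x * t * x⁻¹) * x⁻¹) = 1 := by
      have hy : ((t : K) * x) ^ 3 = 1 := by
        have h2 : ((t : K) * x) ^ 3 ∈ T := by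
          rw [← hπ1, map_pow, map_mul, (hπ1 _).mpr t.2, one_mul, ← map_pow, hx, map_one]
        have h3 := hT3 _ h2
        rw [← pow_mul] at h3
        have h4 := h ((t : K) * x)
        have h5 : orderOf ((t : K) * x) ∣ Nat.gcd (3 * 3) 6 :=
          Nat.dvd_gcd (orderOf_dvd_of_pow_eq_one h3) (orderOf_dvd_of_pow_eq_one h4)
        exact orderOf_dvd_iff_pow_eq_one.mp h5
      have hy' : ((t : K) * x) * ((t : K) * x) * ((t : K) * x) = 1 := by
        rw [← hy, pow_succ, sq]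
      have e : (t : K) * (x * t * x⁻¹) * (x * (x * t * x⁻¹) * x⁻¹) =
          (((t : K) * x) * ((t : K) * x) * ((t : K) * x)) * (x * x * x)⁻¹ := by
        group
      rw [e, hy', hx3]
      simp
    have h2 : t * (MulAut.conjNormal x t) * (MulAut.conjNormal x (MulAut.conjNormal x t)) = 1 := by
      apply Subtype.ext
      simpa [MulAut.conjNormal_apply] using h1
    rw [h2]
    rfl
  letI iV : CommGroup (T ⧸ Φ) := { (inferInstance : Group (T ⧸ Φ)) with mul_comm := hVc }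
  have hα1 : ρ a = 1 := key_aut hVexp (ρ a) (ρ b) (ρ c) (ρ x) hβ hγ hα hcomm hprod hα2 hβ2 hN
  -- `a ^ 3` is a `2`-element acting trivially
  let u : K := a ^ 3
  have hρu : ρ u = 1 := by
    show ρ (a ^ 3) = 1
    rw [map_pow, hα1, one_pow]
  have hπu : π u = π a := by
    show π (a ^ 3) = π a
    rw [map_pow, pow_succ, sq, hF2 _ hπa, one_mul]
  have hu2 : u ^ 2 = 1 := by
    show (a ^ 3) ^ 2 = 1
    rw [← pow_mul]
    exact h a
  have huc : (orderOf u).Coprime 3 := by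
    have h1 : orderOf u ∣ 2 := orderOf_dvd_of_pow_eq_one hu2
    exact Nat.Coprime.coprime_dvd_left h1 (by norm_num)
  have hun : u ∈ Subgroup.normalizer (T : Set K) := by
    rw [Subgroup.normalizer_eq_top_iff.mpr hTn]
    exact Subgroup.mem_top _
  have hucent : u ∈ Subgroup.centralizer (T : Set K) := by
    apply Lib.LQd.centralizes_of_frattini' hTp huc hun
    rw [Subgroup.commutator_le]
    intro t ht w hw
    obtain ⟨j, rfl⟩ := (Submonoid.mem_powers_iff _ _).mp (mem_powers_iff_mem_zpowers.mpr hw)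
    have h1 : ρ (u ^ j) = 1 := by rw [map_pow, hρu, one_pow]
    have h2 : ρ (u ^ j) (((⟨t, ht⟩ : T) : T) : T ⧸ Φ) = ((⟨t, ht⟩ : T) : T ⧸ Φ) := by rw [h1]; rfl
    rw [hρ, QuotientGroup.eq] at h2
    set c₁ : T := MulAut.conjNormal (u ^ j) (⟨t, ht⟩ : T) with hc₁
    have h3 : (⟨t, ht⟩ : T) * (c₁⁻¹ * ⟨t, ht⟩) * (⟨t, ht⟩ : T)⁻¹ ∈ Φ :=
      (inferInstance : Φ.Normal).conj_mem _ h2 _
    refine ⟨_, h3, ?_⟩
    simp only [hc₁, Subgroup.coe_subtype, Subgroup.coe_mul, Subgroup.coe_inv, MulAut.conjNormal_apply, commutatorElement_def]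
    group
  have huT : u ∈ T := hCT hucent
  exact hπa1 (hπu ▸ (hπ1 u).mpr huT)

theorem plen_of {G : Type*} [Group G] [Finite G] (p m : ℕ) [Fact p.Prime] (hpm : p * m = 6) (hm : ¬ p ∣ m)
    (h : ∀ x : G, x ^ 6 = 1) (hz : ∀ z : G, z ^ p = 1 → z ∈ Cfsg.pPrimePCore p G) : Cfsg.PLengthLE p 1 G := by
  classical
  have hpp : p.Prime := Fact.out
  haveI hLn : (Cfsg.pPrimePCore p G).Normal := Lib.H1PLen.pPrimePCore_normal'
  have hidx : ¬ p ∣ (Cfsg.pPrimePCore p G).index := by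
    intro hd
    obtain ⟨y, hy⟩ := exists_prime_orderOf_dvd_card' (G := G ⧸ Cfsg.pPrimePCore p G) p hd
    obtain ⟨y, rfl⟩ := QuotientGroup.mk_surjective y
    have h1 : (y ^ m) ^ p = 1 := by
      rw [← pow_mul, mul_comm, hpm]; exact h y
    have h2 := hz _ h1
    have h3 : ((y ^ m : G) : G ⧸ Cfsg.pPrimePCore p G) = 1 := (QuotientGroup.eq_one_iff _).mpr h2
    rw [QuotientGroup.mk_pow] at h3
    have h4 := orderOf_dvd_of_pow_eq_one h3
    rw [hy] at h4
    exact hm h4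
  unfold Cfsg.PLengthLE
  show (Cfsg.upperPSeries p G (2 + 1)).1 = ⊤
  rw [Lib.PSolv.upper_succ_even p (n := 2) (by decide)]
  rw [eq_top_iff]
  intro x _
  rw [Subgroup.mem_comap]
  have hcop : (Nat.card (⊤ : Subgroup (G ⧸ (Cfsg.upperPSeries p G 2).1))).Coprime p := by
    rw [Subgroup.card_top]
    have e : Nat.card (G ⧸ (Cfsg.upperPSeries p G 2).1) = (Cfsg.pPrimePCore p G).index := by
      rw [← Lib.H1PLen.upper_two]; rfl
    rw [e]
    exact ((Nat.Prime.coprime_iff_not_dvd hpp).mpr hidx).symm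
  have := Lib.H1Core.le_pPrimeCore (inferInstance : (⊤ : Subgroup (G ⧸ (Cfsg.upperPSeries p G 2).1)).Normal) hcop
  exact this (Subgroup.mem_top _)

/-- A finite group in which every element has order dividing `6` has `2`-length at most `1` and `3`-length at most `1`. -/
theorem result {G : Type*} [Group G] [Finite G] (h : ∀ x : G, x ^ 6 = 1) : Cfsg.PLengthLE 2 1 G ∧ Cfsg.PLengthLE 3 1 G := by
  classical
  have hprimes : ∀ r : ℕ, r.Prime → r ∣ Nat.card G → r = 2 ∨ r = 3 := by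
    intro r hr hd
    haveI : Fact r.Prime := ⟨hr⟩
    obtain ⟨y, hy⟩ := exists_prime_orderOf_dvd_card' (G := G) r hd
    have h1 : r ∣ 2 * 3 := by
      rw [← hy]; exact orderOf_dvd_of_pow_eq_one (h y)
    rcases (Nat.Prime.dvd_mul hr).mp h1 with h2 | h2
    · exact Or.inl ((Nat.prime_dvd_prime_iff_eq hr Nat.prime_two).mp h2)
    · exact Or.inr ((Nat.prime_dvd_prime_iff_eq hr (by norm_num)).mp h2)
  have hn0 : Nat.card G ≠ 0 := Nat.card_pos.ne'
  obtain ⟨a, n₁, hn₁, ha⟩ := Nat.exists_eq_pow_mul_and_not_dvd hn0 2 (by norm_num)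
  have hn₁0 : n₁ ≠ 0 := by
    rintro rfl
    simp at hn₁
  obtain ⟨b, n₂, hn₂, hb⟩ := Nat.exists_eq_pow_mul_and_not_dvd hn₁0 3 (by norm_num)
  have hn₂1 : n₂ = 1 := by
    by_contra hne
    obtain ⟨r, hr, hrd⟩ := Nat.exists_prime_and_dvd hne
    have h1 : r ∣ n₁ := hb ▸ Dvd.dvd.mul_left hrd _
    have h2 : r ∣ Nat.card G := ha ▸ Dvd.dvd.mul_left h1 _
    rcases hprimes r hr h2 with rfl | rfl
    · exact hn₁ h1
    · exact hn₂ hrd
  have hcard : Nat.card G = 2 ^ a * 3 ^ b := by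
    rw [ha, hb, hn₂1, mul_one]
  haveI hsol : Group.IsSolvable G := Lib.CharGal.solvable_of_card_pq 2 3 a b Nat.prime_two (by norm_num) hcard
  haveI hf2 : Fact (Nat.Prime 2) := ⟨Nat.prime_two⟩
  haveI hf3 : Fact (Nat.Prime 3) := ⟨by norm_num⟩
  constructor
  · apply plen_of 2 3 (by norm_num) (by norm_num) h
    intro z hz
    have hO : Cfsg.pPrimeCore 2 (G ⧸ Cfsg.pPrimeCore 2 G) = ⊥ := Lib.PJ.pPrimeCore_quot
    show (QuotientGroup.mk' _) z ∈ Cfsg.pCore 2 (G ⧸ Cfsg.pPrimeCore 2 G)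
    apply two_case _ hO
    · rw [← map_pow, hz, map_one]
    · intro y
      obtain ⟨y, rfl⟩ := QuotientGroup.mk'_surjective _ y
      rw [← map_pow, h, map_one]
  · apply plen_of 3 2 (by norm_num) (by norm_num) h
    intro z hz
    have hO : Cfsg.pPrimeCore 3 (G ⧸ Cfsg.pPrimeCore 3 G) = ⊥ := Lib.PJ.pPrimeCore_quot
    show (QuotientGroup.mk' _) z ∈ Cfsg.pCore 3 (G ⧸ Cfsg.pPrimeCore 3 G)
    apply three_case _ hO
    · rw [← map_pow, hz, map_one]
    · intro y
      obtain ⟨y, rfl⟩ := QuotientGroup.mk'_surjective _ y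
      rw [← map_pow, h, map_one]

end Cfsg.Agent.S4227
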