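import Cfsg.Statements.S4230
-- import your own Cfsg.Agent.* helpers here

set_option autoImplicit false
open Cfsg

namespace Cfsg.Agent.S4230

/-- Let p be an odd prime, q a natural number not divisible by p, and e the multiplicative order of q modulo p. For a natural number f, p divides the value at q of the f-th cyclotomic polynomial if and only if f = e·p^j for some j ≥ 0. -/
theorem result (p q f : ℕ) (hp : p.Prime) (hp2 : p ≠ 2) (hpq : ¬ p ∣ q) :
    ((p : ℤ) ∣ (Polynomial.cyclotomic f ℤ).eval (q : ℤ)) ↔ ∃ j : ℕ, f = orderOf (q : ZMod p) * p ^ j := by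
  classical
  haveI : Fact p.Prime := ⟨hp⟩
  have hq0 : ((q : ℕ) : ZMod p) ≠ 0 := by
    rw [Ne, ZMod.natCast_eq_zero_iff]
    exact hpq
  have heval : ((p : ℤ) ∣ (Polynomial.cyclotomic f ℤ).eval (q : ℤ)) ↔
      (Polynomial.cyclotomic f (ZMod p)).eval (q : ZMod p) = 0 := by
    rw [← Polynomial.map_cyclotomic_int f (ZMod p), Polynomial.eval_map,
      ← ZMod.intCast_zmod_eq_zero_iff_dvd]
    have : Polynomial.eval₂ (Int.castRingHom (ZMod p)) ((q : ℕ) : ZMod p) (Polynomial.cyclotomic f ℤ)
        = (((Polynomial.cyclotomic f ℤ).eval (q : ℤ) : ℤ) : ZMod p) := by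
      have h1 := Polynomial.hom_eval₂ (Polynomial.cyclotomic f ℤ) (RingHom.id ℤ) (Int.castRingHom (ZMod p)) (q : ℤ)
      simp only [Polynomial.eval₂_id, RingHomCompTriple.comp_eq] at h1
      have h2 : (Int.castRingHom (ZMod p)) (q : ℤ) = ((q : ℕ) : ZMod p) := by simp
      rw [h2] at h1
      simpa using h1.symm
    rw [this]
  rw [heval]
  have he0 : orderOf (q : ZMod p) ≠ 0 := by
    have hu : IsUnit ((q : ℕ) : ZMod p) := isUnit_iff_ne_zero.mpr hq0
    exact (orderOf_pos_iff.mpr hu.isOfFinOrder).ne'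
  have hep : ¬ p ∣ orderOf (q : ZMod p) := by
    have hu : IsUnit ((q : ℕ) : ZMod p) := isUnit_iff_ne_zero.mpr hq0
    have h1 : orderOf (q : ZMod p) ∣ p - 1 := by
      apply orderOf_dvd_of_pow_eq_one
      exact ZMod.pow_card_sub_one_eq_one hq0
    intro h2
    have h3 := Nat.le_of_dvd (Nat.sub_pos_of_lt hp.one_lt) (h2.trans h1)
    have := hp.one_lt
    omega
  by_cases hf : f = 0
  · subst hf
    simp only [Polynomial.cyclotomic_zero, Polynomial.eval_one, one_ne_zero, false_iff]
    rintro ⟨j, hj⟩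
    have : 0 < orderOf (q : ZMod p) * p ^ j := Nat.mul_pos (Nat.pos_of_ne_zero he0) (pow_pos hp.pos j)
    omega
  obtain ⟨k, m, hm, rfl⟩ := Nat.exists_eq_pow_mul_and_not_dvd hf p hp.ne_one
  have hm0 : (m : ZMod p) ≠ 0 := by
    rw [Ne, ZMod.natCast_eq_zero_iff]
    exact hm
  have hprim : (Polynomial.cyclotomic m (ZMod p)).eval (q : ZMod p) = 0 ↔ orderOf (q : ZMod p) = m := by
    haveI : NeZero ((m : ℕ) : ZMod p) := ⟨hm0⟩
    rw [← Polynomial.IsRoot.def, Polynomial.isRoot_cyclotomic_iff]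
    constructor
    · intro h
      exact (h.eq_orderOf).symm
    · intro h
      rw [← h]
      exact IsPrimitiveRoot.orderOf _
  have hpow : (Polynomial.cyclotomic (p ^ k * m) (ZMod p)).eval (q : ZMod p) = 0 ↔
      (Polynomial.cyclotomic m (ZMod p)).eval (q : ZMod p) = 0 := by
    rcases Nat.eq_zero_or_pos k with rfl | hk
    · simp
    · rw [Polynomial.cyclotomic_mul_prime_pow_eq (ZMod p) hm hk, Polynomial.eval_pow]
      have : p ^ k - p ^ (k - 1) ≠ 0 := by
        have h1 : p ^ (k - 1) < p ^ k := Nat.pow_lt_pow_right hp.one_lt (by omega)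
        omega
      exact pow_eq_zero_iff this
  rw [hpow, hprim]
  constructor
  · intro h
    exact ⟨k, by rw [h, mul_comm]⟩
  · rintro ⟨j, hj⟩
    -- uniqueness of the `p`-part
    have h1 : k = j := by
      have h2 := congrArg (fun x => padicValNat p x) hj
      haveI := Fact.mk hp
      have hm0' : m ≠ 0 := fun h => hm (h ▸ dvd_zero p)
      rw [padicValNat.mul (pow_ne_zero _ hp.ne_zero) hm0', padicValNat.mul he0 (pow_ne_zero _ hp.ne_zero),
        padicValNat.prime_pow, padicValNat.prime_pow, padicValNat.eq_zero_of_not_dvd hm,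
        padicValNat.eq_zero_of_not_dvd hep] at h2
      omega
    subst h1
    rw [mul_comm (p ^ k) m] at hj
    exact (Nat.eq_of_mul_eq_mul_right (pow_pos hp.pos k) hj).symm

end Cfsg.Agent.S4230
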