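import Cfsg.Statements.S4249
import Cfsg.Agent.Lib.Kegel
import Cfsg.Agent.Lib.FGSBasic
-- import your own Cfsg.Agent.* helpers here

set_option autoImplicit false
open Cfsg

namespace Cfsg.Agent.S4249

/-- Let G be a finite group and p a prime such that G is not a p-group, and suppose the Hughes subgroup H_p(G), generated by all elements g with g^p ≠ 1, is a proper subgroup. Then H_p(G) is nilpotent and has index p in G. -/
theorem result {G : Type*} [Group G] [Finite G] (p : ℕ) (hp : p.Prime) (hG : ¬ IsPGroup p G)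
    (hH : Subgroup.closure {g : G | g ^ p ≠ 1} ≠ ⊤) :
    Group.IsNilpotent (Subgroup.closure {g : G | g ^ p ≠ 1}) ∧ (Subgroup.closure {g : G | g ^ p ≠ 1}).index = p := by
  classical
  haveI : Fact p.Prime := ⟨hp⟩
  have hnormal : (Subgroup.closure {g : G | g ^ p ≠ 1}).Normal := by
    apply Cfsg.Agent.Lib.FGSBasic.normal_closure_of_conj_inv
    intro g s hs h
    apply hs
    have h1 : (g * s * g⁻¹) ^ p = g * s ^ p * g⁻¹ := conj_pow
    rw [h1] at h
    have h2 : s ^ p = g⁻¹ * (g * s ^ p * g⁻¹) * g := by group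
    rw [h2, h]
    group
  have hSP : Lib.Kegel.SP (Subgroup.closure {g : G | g ^ p ≠ 1}) p := by
    refine ⟨hnormal, hH, ?_⟩
    intro x hx
    by_contra h
    exact hx (Subgroup.subset_closure h)
  have := Lib.Kegel.main hSP
  exact ⟨this.1, this.2 hG⟩

end Cfsg.Agent.S4249
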