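import Cfsg.Statements.S4251
import Mathlib
import Cfsg.Agent.Lib.PNilp
-- import your own Cfsg.Agent.* helpers here

set_option autoImplicit false
open Cfsg

namespace Cfsg.Agent.S4251

/-- Let P be a Sylow p-subgroup of a finite group G. Call an intersection H = P ∩ Q with a Sylow p-subgroup Q tame when N_P(H) and N_Q(H) are Sylow p-subgroups of N_G(H). If N_G(H)/C_G(H) is a p-group for every nontrivial tame intersection H = P ∩ Q, then G has a normal p-complement. -/
theorem result {G : Type*} [Group G] [Finite G] (p : ℕ) [Fact p.Prime] (P : Sylow p G)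
    (h : ∀ Q : Sylow p G, (P : Subgroup G) ⊓ (Q : Subgroup G) ≠ ⊥ → (¬ p ∣ ((P : Subgroup G) ⊓ Subgroup.normalizer (((P : Subgroup G) ⊓ (Q : Subgroup G) : Subgroup G) : Set G)).relIndex (Subgroup.normalizer (((P : Subgroup G) ⊓ (Q : Subgroup G) : Subgroup G) : Set G)) ∧ ¬ p ∣ ((Q : Subgroup G) ⊓ Subgroup.normalizer (((P : Subgroup G) ⊓ (Q : Subgroup G) : Subgroup G) : Set G)).relIndex (Subgroup.normalizer (((P : Subgroup G) ⊓ (Q : Subgroup G) : Subgroup G) : Set G))) →
      IsPGroup p (Subgroup.normalizer (((P : Subgroup G) ⊓ (Q : Subgroup G) : Subgroup G) : Set G) ⧸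
        (Subgroup.centralizer (((P : Subgroup G) ⊓ (Q : Subgroup G) : Subgroup G) : Set G)).subgroupOf
          (Subgroup.normalizer (((P : Subgroup G) ⊓ (Q : Subgroup G) : Subgroup G) : Set G)))) :
    Cfsg.HasNormalPComplement p G := by
  apply Lib.PNilp.hasNormalPComplement_of_fusion P
  intro x hx y hy ⟨g, hg⟩
  have hchain : Lib.PNilp.AChain P {x} g⁻¹ := by
    apply Lib.PNilp.alperin_fusion
    · intro a ha
      rw [Set.mem_singleton_iff.1 ha]
      exact hx
    · rintro _ ⟨a, ha, rfl⟩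
      rw [Set.mem_singleton_iff.1 ha]
      simp only [inv_inv]
      rw [hg]
      exact hy
  have hstep : ∀ (Q : Sylow p G) (x : G), Lib.PNilp.Tame (p := p) (P : Subgroup G) (Q : Subgroup G) →
      x ∈ Subgroup.normalizer (((P : Subgroup G) ⊓ (Q : Subgroup G) : Subgroup G) : Set G) →
      ∃ z ∈ (P : Subgroup G), ∀ a ∈ (P : Subgroup G) ⊓ (Q : Subgroup G), x⁻¹ * a * x = z⁻¹ * a * z := by
    intro Q x ht hx
    by_cases hbot : (P : Subgroup G) ⊓ (Q : Subgroup G) = ⊥
    · refine ⟨1, one_mem _, fun a ha => ?_⟩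
      rw [hbot, Subgroup.mem_bot] at ha
      rw [ha]
      simp
    have hyp : ∀ g ∈ Subgroup.normalizer (((P : Subgroup G) ⊓ (Q : Subgroup G) : Subgroup G) : Set G),
        Nat.Coprime (orderOf g) p → g ∈ Subgroup.centralizer (((P : Subgroup G) ⊓ (Q : Subgroup G) : Subgroup G) : Set G) := by
      intro g hg hc
      have h1 := h Q hbot ht
      set D := (P : Subgroup G) ⊓ (Q : Subgroup G) with hD
      set N := Subgroup.normalizer (D : Set G) with hN
      set C := (Subgroup.centralizer (D : Set G)).subgroupOf N with hC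
      let g' : N := ⟨g, hg⟩
      obtain ⟨k, hk⟩ := h1 (QuotientGroup.mk g' : N ⧸ C)
      have h2 : orderOf (QuotientGroup.mk g' : N ⧸ C) ∣ orderOf g' := by
        exact orderOf_map_dvd (QuotientGroup.mk' C) g'
      have h3 : orderOf (QuotientGroup.mk g' : N ⧸ C) ∣ p ^ k := orderOf_dvd_of_pow_eq_one hk
      have h4 : (orderOf g').Coprime p := by
        rw [Subgroup.orderOf_mk]
        exact hc
      have h5 : orderOf (QuotientGroup.mk g' : N ⧸ C) = 1 :=
        Nat.eq_one_of_dvd_coprimes (Nat.Coprime.pow_right k h4) h2 h3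
      rw [orderOf_eq_one_iff, QuotientGroup.eq_one_iff, hC, Subgroup.mem_subgroupOf] at h5
      exact h5
    obtain ⟨z, hz, hh⟩ := Lib.PNilp.step_core ((P : Subgroup G) ⊓ (Q : Subgroup G))
      ((P : Subgroup G) ⊓ Subgroup.normalizer (((P : Subgroup G) ⊓ (Q : Subgroup G) : Subgroup G) : Set G))
      (P.2.to_le inf_le_left) inf_le_right ht.1 hyp x hx
    exact ⟨z, hz.1, hh⟩
  obtain ⟨z, hz, hh⟩ := hchain.conj_by_sylow hstep
  refine ⟨z⁻¹, inv_mem hz, ?_⟩
  have := hh x rfl
  rw [← hg]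
  simpa using this.symm

end Cfsg.Agent.S4251
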