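import Cfsg.Statements.S4253
import Mathlib
import Cfsg.Agent.Lib.FGSBasic
-- import your own Cfsg.Agent.* helpers here

set_option autoImplicit false
open Cfsg

namespace Cfsg.Agent.S4253

/-- Let H be a Frobenius complement in a finite group G (a nontrivial proper subgroup meeting each conjugate gHg⁻¹ with g outside H trivially). Then in the action of G on the left cosets of H by left multiplication, no non-identity element of G fixes two distinct cosets. -/
theorem result {G : Type*} [Group G] [Finite G] (H : Subgroup G) (hH : Cfsg.IsFrobeniusComplement H)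
    (g : G) (hg : g ≠ 1) (a b : G ⧸ H) (ha : g • a = a) (hb : g • b = b) : a = b := by
  classical
  obtain ⟨hH1, hH2, hH3⟩ := hH
  induction a using QuotientGroup.induction_on with
  | H u =>
    induction b using QuotientGroup.induction_on with
    | H v =>
      have key : ∀ w : G, g • (w : G ⧸ H) = w → w⁻¹ * g * w ∈ H := by
        intro w hw
        have h1 : ((g * w : G) : G ⧸ H) = (w : G ⧸ H) := hw
        rw [QuotientGroup.eq] at h1
        have h2 := inv_mem h1
        have h3 : ((g * w)⁻¹ * w)⁻¹ = w⁻¹ * g * w := by group
        rwa [h3] at h2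
      have h1 := key u ha
      have h2 := key v hb
      rw [QuotientGroup.eq]
      by_contra hw
      have h3 := hH3 _ hw
      have h4 : u⁻¹ * g * u = 1 := by
        rw [← Subgroup.mem_bot, ← h3]
        refine ⟨h1, (Cfsg.Agent.Lib.FGSBasic.mem_conj_smul_iff H _ _).mpr ?_⟩
        have h5 : (u⁻¹ * v)⁻¹ * (u⁻¹ * g * u) * (u⁻¹ * v) = v⁻¹ * g * v := by group
        rwa [h5]
      apply hg
      have h5 : g = u * (u⁻¹ * g * u) * u⁻¹ := by group
      rw [h5, h4]; group

end Cfsg.Agent.S4253
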