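import Cfsg.Statements.S4260
import Mathlib
import Cfsg.Agent.Lib.FGSBasic
-- import your own Cfsg.Agent.* helpers here

set_option autoImplicit false
open Cfsg

namespace Cfsg.Agent.S4260

/-- Let H be a Hall subgroup of a finite group G (the order of H is coprime to its index) such that x^[G : H] lies in H for every x in G. Then H is normal in G. -/
theorem result {G : Type*} [Group G] [Finite G] (H : Subgroup G) (hHall : (Nat.card H).Coprime H.index)
    (hexp : ∀ x : G, x ^ H.index ∈ H) : H.Normal := by
  -- conjugate elements lie in H
  have key : ∀ g : G, ∀ h ∈ H, g * h * g⁻¹ ∈ H := by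
    intro g h hh
    set y := g * h * g⁻¹ with hy
    have hord : orderOf y = orderOf h := Cfsg.Agent.Lib.FGSBasic.orderOf_conj g h
    have hdvd : orderOf h ∣ Nat.card H := by
      have := Subgroup.orderOf_dvd_natCard H hh
      exact this
    have hcop : (orderOf y).Coprime H.index := by
      rw [hord]; exact Nat.Coprime.coprime_dvd_left hdvd hHall
    have h1 : y ^ H.index ∈ H := hexp y
    obtain ⟨a, b, hab⟩ := Cfsg.Agent.Lib.FGSBasic.exists_zpow_bezout y hcop
    simp only [pow_orderOf_eq_one, one_zpow, one_mul] at hab
    rw [← hab]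
    exact Subgroup.zpow_mem _ h1 _
  exact ⟨fun h hh g => key g h hh⟩

end Cfsg.Agent.S4260
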