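import Cfsg.Statements.S4261
import Cfsg.Agent.Lib.H1SZ
import Cfsg.Agent.Lib.FGSBasic
-- import your own Cfsg.Agent.* helpers here

set_option autoImplicit false
open Cfsg

namespace Cfsg.Agent.S4261

open Subgroup

/-- Let M be a maximal subgroup of a finite solvable group G such that x^[G : M] lies in M for every x in G. Then M is normal in G. -/
theorem result {G : Type*} [Group G] [Finite G] (hG : Group.IsSolvable G) (M : Subgroup G) (hM : IsCoatom M)
    (hexp : ∀ x : G, x ^ M.index ∈ M) : M.Normal := by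
  classical
  haveI := hG
  set K := M.normalCore with hK
  haveI hKn : K.Normal := by rw [hK]; infer_instance
  have hKM : K ≤ M := Subgroup.normalCore_le M
  have hKt : K ≠ ⊤ := by
    intro h
    apply hM.1
    rw [eq_top_iff, ← h]
    exact hKM
  by_cases hnormal : M = K
  · rw [hnormal]; exact hKn
  exfalso
  let π := QuotientGroup.mk' K
  have hπs : Function.Surjective π := QuotientGroup.mk'_surjective K
  haveI hQnt : Nontrivial (G ⧸ K) := QuotientGroup.nontrivial_iff.mpr hKt
  obtain ⟨q, hq, Abar, hAn, hAne, hAp⟩ := Lib.H1SZ.exists_normal_pSubgroup (X := G ⧸ K)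
  set A := Abar.comap π with hA
  have hAnorm : A.Normal := hAn.comap π
  haveI := hAnorm
  have hAM : ¬ A ≤ M := by
    intro hle
    apply hAne
    have h1 : A ≤ K := Subgroup.normal_le_normalCore.mpr hle
    rw [eq_bot_iff]
    intro x hx
    obtain ⟨g, rfl⟩ := hπs x
    have : g ∈ K := h1 hx
    have h2 : π g = 1 := (QuotientGroup.eq_one_iff g).mpr this
    rw [h2]
    exact one_mem _
  have hsup : A ⊔ M = ⊤ := by
    rw [sup_comm]
    exact hM.2 _ (lt_of_le_of_ne le_sup_left (fun h => hAM (by rw [h]; exact le_sup_right)))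
  have hidx : M.index = M.relIndex A := by
    have h1 := Lib.FGSBasic.relIndex_eq_relIndex_sup A M
    rw [hsup, Subgroup.relIndex_top_right] at h1
    exact h1.symm
  obtain ⟨a, ha⟩ := IsPGroup.iff_card.mp hAp
  have hdvd : M.index ∣ q ^ a := by
    rw [hidx, ← ha]
    have h1 : M.relIndex A ∣ K.relIndex A := Subgroup.relIndex_dvd_of_le_left A hKM
    refine h1.trans (dvd_of_eq ?_)
    have h2 : (⊥ : Subgroup (G ⧸ K)).comap π = K := by
      ext x
      simp [π, QuotientGroup.eq_one_iff]
    calc K.relIndex A = ((⊥ : Subgroup (G ⧸ K)).comap π).relIndex A := by rw [h2]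
      _ = (⊥ : Subgroup (G ⧸ K)).relIndex (A.map π) := Subgroup.relIndex_comap _ _ _
      _ = (⊥ : Subgroup (G ⧸ K)).relIndex Abar := by
        rw [hA, Subgroup.map_comap_eq_self_of_surjective hπs]
      _ = Nat.card Abar := Subgroup.relIndex_bot_left _
  obtain ⟨b, -, hb⟩ := (Nat.dvd_prime_pow hq.out).mp hdvd
  -- the quotient has exponent dividing the index
  have hpow : ∀ x : G, x ^ M.index ∈ K := by
    intro x
    rw [hK]
    show ∀ g : G, g * (x ^ M.index) * g⁻¹ ∈ M
    intro g
    rw [← conj_pow]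
    exact hexp _
  have hQp : IsPGroup q (G ⧸ K) := by
    intro x
    obtain ⟨g, rfl⟩ := hπs x
    refine ⟨b, ?_⟩
    rw [← map_pow, ← hb]
    exact (QuotientGroup.eq_one_iff _).mpr (hpow g)
  haveI := hQp.isNilpotent
  have hcond := normalizerCondition_of_isNilpotent (G := G ⧸ K)
  set Mbar := M.map π with hMbar
  have hMcomap : Mbar.comap π = M := by
    rw [hMbar, Subgroup.comap_map_eq_self]
    rw [QuotientGroup.ker_mk']
    exact hKM
  have hMne : Mbar ≠ ⊤ := by
    intro h
    apply hM.1
    rw [← hMcomap, h, Subgroup.comap_top]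
  have hlt := hcond Mbar (lt_top_iff_ne_top.mpr hMne)
  have hcomap : normalizer (Mbar : Set (G ⧸ K)) = ⊤ := by
    have h1 : M < (normalizer (Mbar : Set (G ⧸ K))).comap π := by
      rw [← hMcomap]
      exact Subgroup.comap_lt_comap_of_surjective hπs |>.mpr hlt
    have h2 := hM.2 _ h1
    rw [eq_top_iff]
    intro x _
    obtain ⟨g, rfl⟩ := hπs x
    have : g ∈ (normalizer (Mbar : Set (G ⧸ K))).comap π := by rw [h2]; trivial
    exact this
  have hMbn : Mbar.Normal := Subgroup.normalizer_eq_top_iff.mp hcomap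
  have hMn : M.Normal := by
    rw [← hMcomap]
    exact hMbn.comap π
  apply hnormal
  apply le_antisymm _ hKM
  exact Subgroup.normal_le_normalCore.mpr le_rfl

end Cfsg.Agent.S4261
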