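import Cfsg.Statements.S4262
import Cfsg.Agent.Lib.Herstein
import Cfsg.Agent.Lib.H1Cop
import Cfsg.Agent.Lib.FGSBasic
-- import your own Cfsg.Agent.* helpers here

set_option autoImplicit false
open Cfsg

namespace Cfsg.Agent.S4262

open Subgroup in
theorem cen_le_of_power {G : Type*} [Group G] {g y : G} (hy : y ∈ zpowers g) :
    centralizer ({g} : Set G) ≤ centralizer ({y} : Set G) := by
  intro w hw
  rw [Subgroup.mem_centralizer_singleton_iff] at hw ⊢
  obtain ⟨k, rfl⟩ := Subgroup.mem_zpowers_iff.mp hy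
  exact (Commute.zpow_right hw k)

open Subgroup in
theorem cen_ne_top {G : Type*} [Group G] {x : G} (hx : x ∉ center G) :
    centralizer ({x} : Set G) ≠ ⊤ := by
  intro h
  apply hx
  rw [Subgroup.mem_center_iff]
  intro w
  have : w ∈ centralizer ({x} : Set G) := by rw [h]; trivial
  exact Subgroup.mem_centralizer_singleton_iff.mp this

open Subgroup in
theorem cen_eq_of_power {G : Type*} [Group G]
    (h : ∀ g : G, g ∉ center G → IsCoatom (centralizer ({g} : Set G)))
    {g y : G} (hg : g ∉ center G) (hy : y ∈ zpowers g) (hyZ : y ∉ center G) :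
    centralizer ({y} : Set G) = centralizer ({g} : Set G) := by
  by_contra hne
  have hlt : centralizer ({g} : Set G) < centralizer ({y} : Set G) :=
    lt_of_le_of_ne (cen_le_of_power hy) (Ne.symm hne)
  exact cen_ne_top hyZ ((h g hg).2 _ hlt)

open Subgroup in
theorem mem_zpowers_mul {G : Type*} [Group G] {x y : G} (hc : x * y = y * x)
    (hco : (orderOf x).Coprime (orderOf y)) : x ∈ zpowers (x * y) := by
  let k := Nat.chineseRemainder hco 1 0
  have h1 : (k : ℕ) ≡ 1 [MOD orderOf x] := k.2.1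
  have h2 : (k : ℕ) ≡ 0 [MOD orderOf y] := k.2.2
  have h3 : (x * y) ^ (k : ℕ) = x := by
    rw [(show Commute x y from hc).mul_pow, (pow_eq_pow_iff_modEq).mpr h2, pow_zero, mul_one,
      (pow_eq_pow_iff_modEq).mpr h1, pow_one]
  rw [Subgroup.mem_zpowers_iff]
  exact ⟨(k : ℕ), by rw [zpow_natCast, h3]⟩

open Subgroup in
theorem cen_eq_of_coprime {G : Type*} [Group G]
    (h : ∀ g : G, g ∉ center G → IsCoatom (centralizer ({g} : Set G)))
    {x y : G} (hx : x ∉ center G) (hy : y ∉ center G) (hc : x * y = y * x)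
    (hco : (orderOf x).Coprime (orderOf y)) :
    centralizer ({x} : Set G) = centralizer ({y} : Set G) := by
  by_cases hxy : x * y ∈ center G
  · ext w
    rw [Subgroup.mem_centralizer_singleton_iff, Subgroup.mem_centralizer_singleton_iff]
    have hz := Subgroup.mem_center_iff.mp hxy w
    constructor
    · intro h1
      have h1' : w * x = x * w := h1
      apply mul_left_cancel (a := x)
      calc x * (w * y) = (x * w) * y := by group
        _ = (w * x) * y := by rw [h1']
        _ = w * (x * y) := by group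
        _ = x * y * w := hz
        _ = x * (y * w) := by group
    · intro h1
      have h1' : w * y = y * w := h1
      apply mul_left_cancel (a := y)
      calc y * (w * x) = (y * w) * x := by group
        _ = (w * y) * x := by rw [h1']
        _ = w * (y * x) := by group
        _ = w * (x * y) := by rw [hc]
        _ = x * y * w := hz
        _ = y * x * w := by rw [hc]
        _ = y * (x * w) := by group
  · have h1 := cen_eq_of_power h hxy (mem_zpowers_mul hc hco) hx
    have h2 := cen_eq_of_power h hxy (show y ∈ zpowers (x * y) by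
      rw [hc]; exact mem_zpowers_mul hc.symm hco.symm) hy
    rw [h1, h2]

open Subgroup in
/-- Claim A. -/
theorem p_prime_central {G : Type*} [Group G] [Finite G]
    (h : ∀ g : G, g ∉ center G → IsCoatom (centralizer ({g} : Set G)))
    (hna : ∀ g : G, g ∉ center G → ¬ ∀ a ∈ centralizer ({g} : Set G), ∀ b ∈ centralizer ({g} : Set G), a * b = b * a)
    (p : ℕ) [Fact p.Prime] {y : G} (hy : y ∉ center G) (hyp : ∃ k, orderOf y = p ^ k)
    {w : G} (hw : w ∈ centralizer ({y} : Set G)) (hwc : (orderOf w).Coprime p) : w ∈ center G := by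
  by_contra hwZ
  obtain ⟨k, hk⟩ := hyp
  have hcom : w * y = y * w := Subgroup.mem_centralizer_singleton_iff.mp hw
  have hcw : centralizer ({w} : Set G) = centralizer ({y} : Set G) :=
    cen_eq_of_coprime h hwZ hy hcom (by rw [hk]; exact hwc.pow_right k)
  apply hna y hy
  intro a ha b hb
  obtain ⟨a₁, a₂, ha₁, ha₂, rfl, ⟨m, hm⟩, ha₂c⟩ := Cfsg.Agent.Lib.FGSBasic.exists_p_decomp p a
  have hle1 := cen_le_of_power ha₁
  have hle2 := cen_le_of_power ha₂
  have hmemY : ∀ z ∈ zpowers (a₁ * a₂), z ∈ centralizer ({y} : Set G) := by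
    intro z hz
    obtain ⟨k, rfl⟩ := Subgroup.mem_zpowers_iff.mp hz
    exact Subgroup.zpow_mem _ ha k
  -- `b` commutes with `a₂`
  have hb2 : b * a₂ = a₂ * b := by
    by_cases h2 : a₂ ∈ center G
    · exact Subgroup.mem_center_iff.mp h2 b
    · have e : centralizer ({a₂} : Set G) = centralizer ({y} : Set G) :=
        cen_eq_of_coprime h h2 hy (Subgroup.mem_centralizer_singleton_iff.mp (hmemY _ ha₂))
          (by rw [hk]; exact ha₂c.pow_right k)
      exact Subgroup.mem_centralizer_singleton_iff.mp (e ▸ hb)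
  have hb1 : b * a₁ = a₁ * b := by
    by_cases h1 : a₁ ∈ center G
    · exact Subgroup.mem_center_iff.mp h1 b
    · have e : centralizer ({a₁} : Set G) = centralizer ({w} : Set G) :=
        cen_eq_of_coprime h h1 hwZ (by
            have := hmemY _ ha₁
            rw [← hcw] at this
            exact Subgroup.mem_centralizer_singleton_iff.mp this)
          (by rw [hm]; exact (hwc.pow_right m).symm)
      rw [hcw] at e
      exact Subgroup.mem_centralizer_singleton_iff.mp (e ▸ hb)
  calc a₁ * a₂ * b = a₁ * (a₂ * b) := by group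
    _ = a₁ * (b * a₂) := by rw [hb2]
    _ = (a₁ * b) * a₂ := by group
    _ = (b * a₁) * a₂ := by rw [hb1]
    _ = b * (a₁ * a₂) := by group

theorem sum_Icc_bound (N : ℕ) (hN : 2 ≤ N) :
    ∑ k ∈ Finset.Icc 2 N, (1 : ℚ) / (k : ℚ) ^ 2 ≤ 3 / 4 - 1 / (N : ℚ) := by
  induction N, hN using Nat.le_induction with
  | base => norm_num
  | succ n hn ih =>
    rw [Finset.sum_Icc_succ_top (by omega)]
    have hn0 : (0 : ℚ) < n := by exact_mod_cast (by omega : 0 < n)
    have key : (1 : ℚ) / ((n + 1 : ℕ) : ℚ) ^ 2 ≤ 1 / (n : ℚ) - 1 / ((n + 1 : ℕ) : ℚ) := by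
      push_cast
      rw [div_sub_div _ _ hn0.ne' (by positivity), div_le_div_iff₀ (by positivity) (by positivity)]
      nlinarith
    linarith

theorem sum_inv_sq_lt (s : Finset ℕ) (hs : ∀ n ∈ s, 2 ≤ n) :
    ∑ n ∈ s, (1 : ℚ) / (n : ℚ) ^ 2 < 3 / 4 := by
  set N := s.sup id + 2 with hN
  have hsub : s ⊆ Finset.Icc 2 N := by
    intro n hn
    rw [Finset.mem_Icc]
    refine ⟨hs n hn, ?_⟩
    have : n ≤ s.sup id := Finset.le_sup (f := id) hn
    omega
  have h1 := Finset.sum_le_sum_of_subset_of_nonneg (f := fun n : ℕ => (1 : ℚ) / (n : ℚ) ^ 2) hsub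
    (fun i _ _ => by positivity)
  have h2 := sum_Icc_bound N (by omega)
  have h3 : (0 : ℚ) < 1 / (N : ℚ) := by
    have : (0 : ℚ) < N := by exact_mod_cast (by omega : 0 < N)
    positivity
  linarith

open Subgroup in
/-- Elements of `M ⧸ center M` are `p`-elements when all `p'`-elements of `M` are central in `G`. -/
theorem isPGroup_quot_center {G : Type*} [Group G] [Finite G] (p : ℕ) [Fact p.Prime] (M : Subgroup G)
    (hM : ∀ w ∈ M, (orderOf w).Coprime p → w ∈ center G) :
    IsPGroup p (↥M ⧸ center ↥M) := by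
  rw [IsPGroup.iff_orderOf]
  intro y
  obtain ⟨m, rfl⟩ := QuotientGroup.mk'_surjective (center ↥M) y
  obtain ⟨a, b, ha, hb, rfl, ⟨k, hk⟩, hbc⟩ := Cfsg.Agent.Lib.FGSBasic.exists_p_decomp p m
  have hbz : b ∈ center ↥M := by
    have h1 := hM (b : G) b.2 (by rwa [Subgroup.orderOf_coe])
    rw [Subgroup.mem_center_iff] at h1 ⊢
    intro g
    exact Subtype.ext (h1 g)
  have h0 : QuotientGroup.mk' (center ↥M) b = 1 := (QuotientGroup.eq_one_iff b).mpr hbz
  rw [map_mul, h0, mul_one]
  have h2 : orderOf (QuotientGroup.mk' (center ↥M) a) ∣ p ^ k := hk ▸ orderOf_map_dvd _ _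
  obtain ⟨j, _, hj⟩ := (Nat.dvd_prime_pow (Fact.out)).1 h2
  exact ⟨j, hj⟩

/-- The set of elements attached to the prime `p`. -/
def InA {G : Type*} [Group G] (p : ℕ) (g : G) : Prop :=
  g ∉ Subgroup.center G ∧ ∃ S : Subgroup G, IsPGroup p S ∧ ¬ p ∣ S.index ∧
    Subgroup.centralizer ({g} : Set G) = Subgroup.normalizer (S : Set G) ∧
    ∀ w ∈ Subgroup.centralizer ({g} : Set G), (orderOf w).Coprime p → w ∈ Subgroup.center G

open Subgroup in
theorem exists_InA {G : Type*} [Group G] [Finite G]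
    (h : ∀ g : G, g ∉ center G → IsCoatom (centralizer ({g} : Set G)))
    (hna : ∀ g : G, g ∉ center G → ¬ ∀ a ∈ centralizer ({g} : Set G), ∀ b ∈ centralizer ({g} : Set G), a * b = b * a)
    (hns : ¬ Group.IsSolvable G) (g : G) (hg : g ∉ center G) :
    ∃ p ∈ (Nat.card G).primeFactors, InA p g := by
  classical
  have hex : ∃ y ∈ zpowers g, (∃ q k, q.Prime ∧ orderOf y = q ^ k) ∧ y ∉ center G := by
    by_contra hc
    push_neg at hc
    apply hg
    have h1 := Cfsg.Agent.Lib.FGSBasic.mem_closure_primePow_parts g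
    have h2 : closure {y | y ∈ zpowers g ∧ ∃ q k, q.Prime ∧ orderOf y = q ^ k} ≤ center G := by
      rw [closure_le]
      rintro y ⟨hy1, hy2⟩
      exact hc y hy1 hy2
    exact h2 h1
  obtain ⟨y, hyg, ⟨q, k, hq, hk⟩, hyZ⟩ := hex
  haveI : Fact q.Prime := ⟨hq⟩
  have hCg := cen_eq_of_power h hg hyg hyZ
  have hk0 : k ≠ 0 := by
    rintro rfl
    rw [pow_zero, orderOf_eq_one_iff] at hk
    exact hyZ (hk ▸ one_mem _)
  have hqG : q ∣ Nat.card G := by
    have : q ∣ orderOf y := by rw [hk]; exact dvd_pow_self q hk0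
    exact this.trans (orderOf_dvd_natCard y)
  refine ⟨q, by rw [Nat.mem_primeFactors]; exact ⟨hq, hqG, Nat.card_pos.ne'⟩, hg, ?_⟩
  rw [← hCg]
  set M := centralizer ({y} : Set G) with hMd
  have hclaim : ∀ w ∈ M, (orderOf w).Coprime q → w ∈ center G :=
    fun w hw hwc => p_prime_central h hna q hyZ ⟨k, hk⟩ hw hwc
  have hpq := isPGroup_quot_center q M hclaim
  have hnil : Group.IsNilpotent M := by
    haveI : Group.IsNilpotent (↥M ⧸ center ↥M) := hpq.isNilpotent
    exact Group.of_quotient_center_nilpotent ‹_›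
  obtain ⟨S₀⟩ : Nonempty (Sylow q M) := inferInstance
  have hS₀n : (S₀ : Subgroup M).Normal := by
    have htf := (Group.isNilpotent_of_finite_tfae (G := ↥M)).out 0 3
    exact htf.mp hnil q ⟨hq⟩ S₀
  let T : Subgroup G := (S₀ : Subgroup M).map M.subtype
  have hTM : T ≤ M := Subgroup.map_subtype_le _
  have hTp : IsPGroup q T := S₀.isPGroup'.map _
  have hMN : M ≤ normalizer (T : Set G) := by
    rw [Subgroup.le_normalizer_iff]
    rintro m hm _ ⟨t, ht, rfl⟩
    refine ⟨⟨m, hm⟩ * t * ⟨m, hm⟩⁻¹, hS₀n.conj_mem t ht ⟨m, hm⟩, ?_⟩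
    simp
  have hpT : ∀ a ∈ M, (∃ j, orderOf a = q ^ j) → a ∈ T := by
    intro a ha haj
    have h1 : (⟨a, ha⟩ : M) ∈ (S₀ : Subgroup M) :=
      Cfsg.Agent.Lib.FGSBasic.mem_sylow_of_normal S₀ hS₀n (by
        obtain ⟨j, hj⟩ := haj
        exact ⟨j, by rw [Subgroup.orderOf_mk, hj]⟩)
    exact ⟨⟨a, ha⟩, h1, rfl⟩
  rcases hMN.lt_or_eq with hlt | heq
  · -- `T` normal in `G`
    exfalso
    have htop := (h y hyZ).2 _ hlt
    have hTn : T.Normal := Subgroup.normalizer_eq_top_iff.mp htop
    have hMn : M.Normal := by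
      refine ⟨fun m hm u => ?_⟩
      obtain ⟨a, b, ha, hb, rfl, haj, hbc⟩ := Cfsg.Agent.Lib.FGSBasic.exists_p_decomp q m
      have hmem : ∀ z ∈ zpowers (a * b), z ∈ M := by
        intro z hz
        obtain ⟨k, rfl⟩ := Subgroup.mem_zpowers_iff.mp hz
        exact Subgroup.zpow_mem _ hm k
      have h1 : u * a * u⁻¹ ∈ M := hTM (hTn.conj_mem a (hpT a (hmem a ha) haj) u)
      have hbZ := hclaim b (hmem b hb) hbc
      have h2 : u * (a * b) * u⁻¹ = (u * a * u⁻¹) * b := by
        have := Subgroup.mem_center_iff.mp hbZ u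
        calc u * (a * b) * u⁻¹ = u * a * (b * u⁻¹) := by group
          _ = u * a * (u⁻¹ * b) := by rw [Subgroup.mem_center_iff.mp hbZ u⁻¹]
          _ = _ := by group
      rw [h2]
      exact M.mul_mem h1 (hmem b hb)
    exact hns (Cfsg.Agent.Lib.Herstein.solvable_of_normal_coatom M (h y hyZ) IsNilpotent.to_isSolvable)
  · refine ⟨T, hTp, ?_, heq, hclaim⟩
    have hsyl := Cfsg.Agent.Lib.H1Cop.isSylowIn_of_normalizer (p := q) (P := T) (K := ⊤) le_top hTp (by
      rw [top_inf_eq, ← heq]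
      have e : T.subgroupOf M = (S₀ : Subgroup M) :=
        Cfsg.Agent.Lib.H1Cop.map_subgroupOf_eq' _
      rw [Subgroup.relIndex, e]
      exact S₀.not_dvd_index)
    have := hsyl.2.2
    rwa [Subgroup.relIndex_top_right] at this

open Subgroup in
/-- Conjugation and normalizers. -/
theorem normalizer_conj_iff {G : Type*} [Group G] (S S₀ : Subgroup G) (h : G)
    (hS : ∀ w, w ∈ S ↔ h⁻¹ * w * h ∈ S₀) (x : G) :
    x ∈ normalizer (S : Set G) ↔ h⁻¹ * x * h ∈ normalizer (S₀ : Set G) := by
  rw [Subgroup.mem_normalizer_iff, Subgroup.mem_normalizer_iff]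
  constructor
  · intro hx v
    have h1 := hx (h * v * h⁻¹)
    rw [hS (h * v * h⁻¹), hS (x * (h * v * h⁻¹) * x⁻¹)] at h1
    have e1 : h⁻¹ * (h * v * h⁻¹) * h = v := by group
    have e2 : h⁻¹ * (x * (h * v * h⁻¹) * x⁻¹) * h = h⁻¹ * x * h * v * (h⁻¹ * x * h)⁻¹ := by group
    rwa [e1, e2] at h1
  · intro hx v
    have h1 := hx (h⁻¹ * v * h)
    rw [hS v, hS (x * v * x⁻¹)]
    have e2 : h⁻¹ * (x * v * x⁻¹) * h = h⁻¹ * x * h * (h⁻¹ * v * h) * (h⁻¹ * x * h)⁻¹ := by group
    rwa [e2]

open Subgroup in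
theorem card_InA_bound {G : Type*} [Group G] [Finite G]
    (hna : ∀ g : G, g ∉ center G → ¬ ∀ a ∈ centralizer ({g} : Set G), ∀ b ∈ centralizer ({g} : Set G), a * b = b * a)
    (p : ℕ) (hp : p.Prime) :
    Set.ncard {g : G | InA p g} * p ^ 2 ≤ Nat.card G := by
  classical
  haveI : Fact p.Prime := ⟨hp⟩
  by_cases hemp : {g : G | InA p g} = ∅
  · rw [hemp]; simp
  obtain ⟨g₀, hg₀Z, S₀, hS₀p, hS₀i, hS₀N, hS₀c⟩ := Set.nonempty_iff_ne_empty.mpr hemp
  set M := centralizer ({g₀} : Set G) with hMd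
  have hpq := isPGroup_quot_center p M hS₀c
  -- size of the centre of `M`
  have hcen : Nat.card (center ↥M) * p ^ 2 ≤ Nat.card M := by
    obtain ⟨j, hj⟩ := IsPGroup.iff_card.mp hpq
    have hj2 : 2 ≤ j := by
      by_contra hlt
      apply hna g₀ hg₀Z
      have hcyc : IsCyclic (↥M ⧸ center ↥M) := by
        have hj' : j = 0 ∨ j = 1 := by omega
        rcases hj' with rfl | rfl
        · rw [pow_zero] at hj
          haveI : Subsingleton (↥M ⧸ center ↥M) := (Nat.card_eq_one_iff_unique.mp hj).1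
          infer_instance
        · rw [pow_one] at hj
          exact isCyclic_of_prime_card hj
      have hcomm := commutative_of_cyclic_center_quotient (QuotientGroup.mk' (center ↥M)) (by rw [QuotientGroup.ker_mk'])
      intro a ha b hb
      exact congrArg Subtype.val (hcomm ⟨a, ha⟩ ⟨b, hb⟩)
    have h1 : Nat.card M = Nat.card (center ↥M) * p ^ j := by
      rw [← hj, ← Subgroup.index_eq_card, mul_comm, Subgroup.index_mul_card]
    rw [h1]
    exact Nat.mul_le_mul_left _ (Nat.pow_le_pow_right hp.pos hj2)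
  -- covering
  let f : (G ⧸ M) × (center ↥M) → G := fun a => (a.1.out) * ((a.2 : ↥M) : G) * (a.1.out)⁻¹
  have hsub : {g : G | InA p g} ⊆ Set.range f := by
    rintro g ⟨hgZ, S, hSp, hSi, hSN, hSc⟩
    let s₀ : Sylow p G := hS₀p.toSylow hS₀i
    let s : Sylow p G := hSp.toSylow hSi
    obtain ⟨u, hu⟩ := MulAction.exists_smul_eq G s₀ s
    have hmem : ∀ w, w ∈ S ↔ u⁻¹ * w * u ∈ S₀ := by
      intro w
      have h1 : w ∈ (s : Subgroup G) ↔ w ∈ S := Iff.rfl
      rw [← h1, ← hu, Cfsg.Agent.Lib.FGSBasic.mem_smul_sylow_iff]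
      rfl
    have hconj : ∀ x, x ∈ centralizer ({g} : Set G) ↔ u⁻¹ * x * u ∈ M := by
      intro x
      rw [hSN, hS₀N]
      exact normalizer_conj_iff S S₀ u hmem x
    have hgg : g ∈ centralizer ({g} : Set G) := by
      rw [Subgroup.mem_centralizer_singleton_iff]
    have hzM := (hconj g).mp hgg
    let z : ↥M := ⟨u⁻¹ * g * u, hzM⟩
    have hzc : z ∈ center ↥M := by
      rw [Subgroup.mem_center_iff]
      rintro ⟨m, hm⟩
      apply Subtype.ext
      show m * (u⁻¹ * g * u) = (u⁻¹ * g * u) * m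
      have h1 : u * m * u⁻¹ ∈ centralizer ({g} : Set G) := by
        rw [hconj]
        have : u⁻¹ * (u * m * u⁻¹) * u = m := by group
        rwa [this]
      have h2 : u * m * u⁻¹ * g = g * (u * m * u⁻¹) := Subgroup.mem_centralizer_singleton_iff.mp h1
      calc m * (u⁻¹ * g * u) = u⁻¹ * (u * m * u⁻¹ * g) * u := by group
        _ = u⁻¹ * (g * (u * m * u⁻¹)) * u := by rw [h2]
        _ = _ := by group
    refine ⟨((u : G ⧸ M), ⟨z, hzc⟩), ?_⟩
    obtain ⟨m₀, hm₀⟩ := QuotientGroup.mk_out_eq_mul M u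
    show ((u : G ⧸ M).out) * (u⁻¹ * g * u) * ((u : G ⧸ M).out)⁻¹ = g
    rw [hm₀]
    have hcomm : (m₀ : G) * (u⁻¹ * g * u) = (u⁻¹ * g * u) * m₀ :=
      congrArg Subtype.val (Subgroup.mem_center_iff.mp hzc m₀)
    calc u * m₀ * (u⁻¹ * g * u) * (u * m₀)⁻¹ = u * ((m₀ : G) * (u⁻¹ * g * u)) * (m₀ : G)⁻¹ * u⁻¹ := by group
      _ = u * ((u⁻¹ * g * u) * m₀) * (m₀ : G)⁻¹ * u⁻¹ := by rw [hcomm]
      _ = g := by group
  have hcard : Set.ncard {g : G | InA p g} ≤ M.index * Nat.card (center ↥M) := by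
    have h1 := Set.ncard_le_ncard hsub (Set.toFinite _)
    have h2 : (Set.range f).ncard ≤ Nat.card ((G ⧸ M) × (center ↥M)) := by
      rw [← Set.image_univ, ]
      calc (f '' Set.univ).ncard ≤ (Set.univ : Set ((G ⧸ M) × (center ↥M))).ncard := Set.ncard_image_le (Set.toFinite _)
        _ = _ := Set.ncard_univ _
    rw [Nat.card_prod] at h2
    exact h1.trans h2
  calc Set.ncard {g : G | InA p g} * p ^ 2 ≤ M.index * Nat.card (center ↥M) * p ^ 2 := Nat.mul_le_mul_right _ hcard
    _ = M.index * (Nat.card (center ↥M) * p ^ 2) := by ring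
    _ ≤ M.index * Nat.card M := Nat.mul_le_mul_left _ hcen
    _ = Nat.card G := M.index_mul_card

/-- Let G be a finite group in which the centralizer of every non-central element is a maximal subgroup of G. Then G is solvable. -/
theorem result {G : Type*} [Group G] [Finite G]
    (h : ∀ g : G, g ∉ Subgroup.center G → IsCoatom (Subgroup.centralizer ({g} : Set G))) :
    Group.IsSolvable G := by
  classical
  by_contra hns
  have hna : ∀ g : G, g ∉ Subgroup.center G → ¬ ∀ a ∈ Subgroup.centralizer ({g} : Set G), ∀ b ∈ Subgroup.centralizer ({g} : Set G), a * b = b * a := by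
    intro g hg hab
    exact hns (Lib.Herstein.herstein _ (h g hg) hab)
  haveI : Fintype G := Fintype.ofFinite G
  set π := (Nat.card G).primeFactors with hπ
  let A : ℕ → Finset G := fun p => Finset.univ.filter (fun g => InA p g)
  let Zc : Finset G := Finset.univ.filter (fun g => g ∉ Subgroup.center G)
  have hcover : Zc ⊆ π.biUnion A := by
    intro g hg
    have hg' : g ∉ Subgroup.center G := (Finset.mem_filter.mp hg).2
    obtain ⟨p, hp, hpg⟩ := exists_InA h hna hns g hg'
    exact Finset.mem_biUnion.mpr ⟨p, hp, Finset.mem_filter.mpr ⟨Finset.mem_univ _, hpg⟩⟩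
  have hcard1 : Zc.card ≤ ∑ p ∈ π, (A p).card := (Finset.card_le_card hcover).trans Finset.card_biUnion_le
  have hAb : ∀ p ∈ π, (A p).card * p ^ 2 ≤ Nat.card G := by
    intro p hp
    have hpp : p.Prime := (Nat.mem_primeFactors.mp hp).1
    have h1 := card_InA_bound hna p hpp
    have h2 : Set.ncard {g : G | InA p g} = (A p).card := by
      rw [Set.ncard_eq_toFinset_card']
      congr 1
      ext g
      simp [A]
    rwa [h2] at h1
  have hn0 : (0 : ℚ) < Nat.card G := by exact_mod_cast Nat.card_pos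
  have hsum : (Zc.card : ℚ) < 3 / 4 * Nat.card G := by
    have h1 : (Zc.card : ℚ) ≤ ∑ p ∈ π, ((A p).card : ℚ) := by exact_mod_cast hcard1
    have h2 : ∑ p ∈ π, ((A p).card : ℚ) ≤ ∑ p ∈ π, (Nat.card G : ℚ) * (1 / (p : ℚ) ^ 2) := by
      apply Finset.sum_le_sum
      intro p hp
      have hpp : p.Prime := (Nat.mem_primeFactors.mp hp).1
      have hp0 : (0 : ℚ) < (p : ℚ) ^ 2 := by
        have : (0 : ℚ) < p := by exact_mod_cast hpp.pos
        positivity
      rw [mul_one_div, le_div_iff₀ hp0]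
      exact_mod_cast hAb p hp
    have h3 := sum_inv_sq_lt π (fun p hp => (Nat.mem_primeFactors.mp hp).1.two_le)
    rw [← Finset.mul_sum] at h2
    have h4 : (Nat.card G : ℚ) * ∑ p ∈ π, (1 : ℚ) / (p : ℚ) ^ 2 < Nat.card G * (3 / 4) :=
      mul_lt_mul_of_pos_left h3 hn0
    linarith
  have hZc : Zc.card + Nat.card (Subgroup.center G) = Nat.card G := by
    have e1 : Nat.card (Subgroup.center G) = (Finset.univ.filter (fun g => g ∈ Subgroup.center G)).card := by
      rw [Nat.card_eq_fintype_card, Fintype.card_subtype]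
    rw [e1, Nat.card_eq_fintype_card, add_comm]
    exact Finset.card_filter_add_card_filter_not (s := (Finset.univ : Finset G)) (fun g => g ∈ Subgroup.center G)
  have hidx := (Subgroup.center G).index_mul_card
  have hz0 : 0 < Nat.card (Subgroup.center G) := Nat.card_pos
  have hidx4 : (Subgroup.center G).index < 4 := by
    have h1 : (Nat.card G : ℚ) = Zc.card + Nat.card (Subgroup.center G) := by exact_mod_cast hZc.symm
    have h2 : (Nat.card G : ℚ) < 4 * Nat.card (Subgroup.center G) := by linarith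
    have h3 : Nat.card G < 4 * Nat.card (Subgroup.center G) := by exact_mod_cast h2
    rw [← hidx] at h3
    exact lt_of_mul_lt_mul_right h3 (Nat.zero_le _)
  have hidx0 : (Subgroup.center G).index ≠ 0 := Subgroup.index_ne_zero_of_finite
  have hcyc : IsCyclic (G ⧸ Subgroup.center G) := by
    have hc : Nat.card (G ⧸ Subgroup.center G) = (Subgroup.center G).index := rfl
    have : (Subgroup.center G).index = 1 ∨ (Subgroup.center G).index = 2 ∨ (Subgroup.center G).index = 3 := by omega
    rcases this with h1 | h1 | h1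
    · rw [h1] at hc
      haveI : Subsingleton (G ⧸ Subgroup.center G) := (Nat.card_eq_one_iff_unique.mp hc).1
      infer_instance
    · rw [h1] at hc
      exact isCyclic_of_prime_card (p := 2) hc
    · rw [h1] at hc
      exact isCyclic_of_prime_card (p := 3) hc
  have hcomm := commutative_of_cyclic_center_quotient (QuotientGroup.mk' (Subgroup.center G)) (by rw [QuotientGroup.ker_mk'])
  exact hns (Group.isSolvable_of_comm hcomm)

end Cfsg.Agent.S4262
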