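import Cfsg.Statements.S4263
import Cfsg.Agent.Lib.FGSBasic
import Cfsg.Agent.Lib.H1Core
-- import your own Cfsg.Agent.* helpers here

set_option autoImplicit false
open Cfsg

namespace Cfsg.Agent.S4263

universe u
theorem aux_nil {F : Type*} [Group F] [Finite F] [Group.IsNilpotent F] (x : F) :
    ∀ (n : ℕ) (K : Subgroup F), K.index = n → x ^ K.index ∈ K := by
  intro n
  induction n using Nat.strong_induction_on with
  | _ n ih =>
    intro K hK
    by_cases htop : K = ⊤
    · subst htop; simp
    · have hlt : K < Subgroup.normalizer (K : Set F) :=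
        Group.normalizerCondition_of_isNilpotent K (lt_top_iff_ne_top.2 htop)
      set N := Subgroup.normalizer (K : Set F) with hN
      have hidx : K.relIndex N * N.index = K.index := Subgroup.relIndex_mul_index hlt.le
      have hpos : K.index ≠ 0 := Subgroup.index_ne_zero_of_finite
      have hrel : 1 < K.relIndex N := by
        have h1 : K.relIndex N ≠ 1 := by
          intro h
          rw [Subgroup.relIndex_eq_one] at h
          exact absurd h (not_le_of_gt hlt)
        have h0 : K.relIndex N ≠ 0 := by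
          intro h
          rw [h] at hidx
          omega
        omega
      have hNpos : N.index ≠ 0 := Subgroup.index_ne_zero_of_finite
      have hlt2 : N.index < n := by
        rw [← hK, ← hidx]
        have : 0 < N.index := Nat.pos_of_ne_zero hNpos
        nlinarith
      have h1 : x ^ N.index ∈ N := ih _ hlt2 N rfl
      haveI : (K.subgroupOf N).Normal := Subgroup.normal_in_normalizer
      have h2 := Subgroup.pow_index_mem (K.subgroupOf N) (⟨x ^ N.index, h1⟩ : N)
      rw [Subgroup.mem_subgroupOf] at h2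
      have h3 : (x ^ N.index) ^ K.relIndex N ∈ K := by
        simpa [Subgroup.relIndex] using h2
      rw [← hidx, mul_comm, pow_mul]
      exact h3

theorem aux_fwd {G : Type*} [Group G] [Finite G] (x : G) (hx : x ∈ Cfsg.fittingSubgroup G) (H : Subgroup G) :
    x ^ H.index ∈ H := by
  haveI : Group.IsNilpotent (Cfsg.fittingSubgroup G) := Cfsg.Agent.Lib.H1Core.fittingSubgroup_isNilpotent
  haveI : (Cfsg.fittingSubgroup G).Normal := Cfsg.Agent.Lib.H1Core.fittingSubgroup_normal G
  have h1 := aux_nil (⟨x, hx⟩ : Cfsg.fittingSubgroup G) _ (H.subgroupOf (Cfsg.fittingSubgroup G)) rfl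
  rw [Subgroup.mem_subgroupOf] at h1
  have h2 : x ^ H.relIndex (Cfsg.fittingSubgroup G) ∈ H := by
    simpa [Subgroup.relIndex] using h1
  have hd : H.relIndex (Cfsg.fittingSubgroup G) ∣ H.index := by
    have h3 := Lib.FGSBasic.relIndex_eq_relIndex_sup (Cfsg.fittingSubgroup G) H
    rw [h3]
    exact Subgroup.relIndex_dvd_index_of_le le_sup_right
  obtain ⟨k, hk⟩ := hd
  rw [hk, pow_mul]
  exact pow_mem h2 k

theorem aux_bwd {G : Type*} [Group G] [Finite G] (x : G) (h : ∀ H : Subgroup G, x ^ H.index ∈ H) :
    x ∈ Cfsg.fittingSubgroup G := by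
  have hcl := Lib.FGSBasic.mem_closure_primePow_parts x
  refine (Subgroup.closure_le _).2 ?_ hcl
  rintro y ⟨hy, q, k, hq, hk⟩
  haveI : Fact q.Prime := ⟨hq⟩
  refine Cfsg.Agent.Lib.H1Core.pCore_le_fitting q ?_
  rw [Cfsg.Agent.Lib.H1Core.pCore_eq_iInf_sylow, Subgroup.mem_iInf]
  intro P
  obtain ⟨m, hm⟩ := Subgroup.mem_zpowers_iff.1 hy
  have h1 : y ^ (P : Subgroup G).index ∈ (P : Subgroup G) := by
    rw [← hm, ← zpow_natCast, ← zpow_mul, mul_comm, zpow_mul, zpow_natCast]
    exact zpow_mem (h _) _
  have hcop : ((P : Subgroup G).index).Coprime (orderOf y) := by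
    rw [hk]
    apply Nat.Coprime.pow_right
    exact (Nat.coprime_comm.1 ((Nat.Prime.coprime_iff_not_dvd hq).2 (fun hd => by
      exact (P.not_dvd_index) hd)))
  obtain ⟨a, b, hab⟩ := Lib.FGSBasic.exists_zpow_bezout y hcop
  have h2 : y ^ orderOf y = 1 := pow_orderOf_eq_one y
  rw [h2, one_zpow, mul_one] at hab
  rw [← hab]
  exact zpow_mem h1 a

/-- Let G be a finite group. An element x lies in the Fitting subgroup F(G) if and only if, for every subgroup H of G, the power x^[G : H] lies in H. -/
theorem result {G : Type*} [Group G] [Finite G] (x : G) :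
    x ∈ Cfsg.fittingSubgroup G ↔ ∀ H : Subgroup G, x ^ H.index ∈ H := by
  exact ⟨fun hx H => aux_fwd x hx H, aux_bwd x⟩

end Cfsg.Agent.S4263
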