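import Cfsg.Statements.S4269
import Mathlib
import Cfsg.Agent.Lib.H1Cop
import Cfsg.Agent.Lib.Herstein
-- import your own Cfsg.Agent.* helpers here

set_option autoImplicit false
open Cfsg

namespace Cfsg.Agent.S4269

open Subgroup
open scoped commutatorElement

theorem mem_mapc {G : Type*} [Group G] (H : Subgroup G) (g y : G) :
    y ∈ H.map (MulAut.conj g).toMonoidHom ↔ g⁻¹ * y * g ∈ H := by
  constructor
  · rintro ⟨x, hx, rfl⟩
    simpa [mul_assoc] using hx
  · intro h
    exact ⟨_, h, by simp [mul_assoc]⟩

theorem mapc_eq {G : Type*} [Group G] (H : Subgroup G) (a b : G) (h : a⁻¹ * b ∈ normalizer (H : Set G)) :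
    H.map (MulAut.conj a).toMonoidHom = H.map (MulAut.conj b).toMonoidHom := by
  ext y
  rw [mem_mapc, mem_mapc]
  have := Subgroup.mem_normalizer_iff.mp ((normalizer (H : Set G)).inv_mem h) (a⁻¹ * y * a)
  rw [this]
  have e : (a⁻¹ * b)⁻¹ * (a⁻¹ * y * a) * (a⁻¹ * b)⁻¹⁻¹ = b⁻¹ * y * b := by group
  rw [e]

theorem mem_norm_of_mapc {G : Type*} [Group G] [Finite G] (H : Subgroup G) (a b : G)
    (h : H.map (MulAut.conj a).toMonoidHom = H.map (MulAut.conj b).toMonoidHom) : a⁻¹ * b ∈ normalizer (H : Set G) := by
  apply Cfsg.Agent.Lib.Herstein.mem_normalizer_of_conj_le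
  intro w hw
  have h1 : b * w * b⁻¹ ∈ H.map (MulAut.conj b).toMonoidHom := by
    rw [mem_mapc]
    simpa [mul_assoc] using hw
  rw [← h, mem_mapc] at h1
  have e : a⁻¹ * b * w * (a⁻¹ * b)⁻¹ = a⁻¹ * (b * w * b⁻¹) * a := by group
  rw [e]
  exact h1

/-- Let G be a finite group, V an abelian normal subgroup and H a subgroup with HV = G. Then H is pronormal in G (H and gHg⁻¹ are conjugate inside the subgroup they generate, for every g) if and only if every H-invariant subgroup U of V satisfies U = N_U(H)·[H, U], that is, U is the join of U ∩ N_G(H) and the commutator subgroup [H, U]. -/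
theorem result {G : Type*} [Group G] [Finite G]
    (V : Subgroup G) [V.Normal] (hV : IsMulCommutative ↥V) (H : Subgroup G) (hHV : H ⊔ V = ⊤) :
    Cfsg.IsPronormal H ↔
      ∀ U : Subgroup G, U ≤ V → (∀ h ∈ H, U.map (MulAut.conj h).toMonoidHom = U) →
        U = (U ⊓ Subgroup.normalizer (H : Set G)) ⊔ ⁅H, U⁆ := by
  classical
  have hVab : ∀ x ∈ V, ∀ y ∈ V, x * y = y * x := by
    intro x hx y hy
    have := hV.is_comm.comm ⟨x, hx⟩ ⟨y, hy⟩
    exact congrArg Subtype.val this
  constructor
  · -- pronormal implies the condition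
    intro hH U hUV hinv
    have hconjU : ∀ h ∈ H, ∀ u ∈ U, h * u * h⁻¹ ∈ U := by
      intro h hh u hu
      have : h * u * h⁻¹ ∈ U.map (MulAut.conj h).toMonoidHom := ⟨u, hu, rfl⟩
      rwa [hinv h hh] at this
    set W := ⁅H, U⁆ with hW
    have hWU : W ≤ U := by
      rw [hW, Subgroup.commutator_le]
      intro h hh u hu
      rw [commutatorElement_def]
      exact U.mul_mem (hconjU h hh u hu) (U.inv_mem hu)
    have hHW : H ≤ normalizer (W : Set G) := by
      intro h hh
      apply Cfsg.Agent.Lib.Herstein.mem_normalizer_of_conj_le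
      have hle : W ≤ W.comap (MulAut.conj h).toMonoidHom := by
        rw [hW, Subgroup.commutator_le]
        intro a ha u hu
        show h * ⁅a, u⁆ * h⁻¹ ∈ ⁅H, U⁆
        have e : h * ⁅a, u⁆ * h⁻¹ = ⁅h * a, u⁆ * ⁅h, u⁆⁻¹ := by
          simp only [commutatorElement_def]
          group
        rw [e]
        exact Subgroup.mul_mem _ (Subgroup.commutator_mem_commutator (H.mul_mem hh ha) hu)
          (Subgroup.inv_mem _ (Subgroup.commutator_mem_commutator hh hu))
      intro w hw
      exact hle hw
    apply le_antisymm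
    · intro u hu
      obtain ⟨x, hx, hxe⟩ := hH u
      have hle : H ⊔ H.map (MulAut.conj u).toMonoidHom ≤ W ⊔ H := by
        apply sup_le le_sup_right
        rintro _ ⟨h, hh, rfl⟩
        have e : (MulAut.conj u).toMonoidHom h = ⁅h, u⁆⁻¹ * h := by
          show u * h * u⁻¹ = _
          simp only [commutatorElement_def]
          group
        rw [e]
        exact Subgroup.mul_mem _ ((le_sup_left : W ≤ W ⊔ H) (Subgroup.inv_mem _ (Subgroup.commutator_mem_commutator hh hu)))
          ((le_sup_right : H ≤ W ⊔ H) hh)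
      have hx2 := hle hx
      obtain ⟨w, hw, h, hh, rfl⟩ := (Cfsg.Agent.Lib.H1Cop.mem_sup_iff hHW).mp hx2
      have h1 : H.map (MulAut.conj (w * h)).toMonoidHom = H.map (MulAut.conj w).toMonoidHom := by
        apply mapc_eq
        have : (w * h)⁻¹ * w = h⁻¹ := by group
        rw [this]
        exact Subgroup.le_normalizer (H.inv_mem hh)
      rw [h1] at hxe
      have h2 := mem_norm_of_mapc H w u hxe.symm
      have hu' : w⁻¹ * u ∈ U ⊓ normalizer (H : Set G) := ⟨U.mul_mem (U.inv_mem (hWU hw)) hu, h2⟩
      have e : u = (w⁻¹ * u) * (u⁻¹ * w * u) := by group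
      have h3 : u⁻¹ * w * u = w := by
        rw [mul_assoc, hVab w (hUV (hWU hw)) u (hUV hu)]
        simp
      rw [e, h3]
      exact Subgroup.mul_mem _ ((le_sup_left : U ⊓ normalizer (H : Set G) ≤ _) hu') ((le_sup_right : W ≤ _) hw)
    · exact sup_le inf_le_left hWU
  · -- the condition implies pronormality
    intro hC g
    have hg : g ∈ V ⊔ H := by
      rw [sup_comm, hHV]; trivial
    rw [← SetLike.mem_coe, Subgroup.normal_mul, Set.mem_mul] at hg
    obtain ⟨v, hv, h₀, hh₀, rfl⟩ := hg
    have hmap : H.map (MulAut.conj (v * h₀)).toMonoidHom = H.map (MulAut.conj v).toMonoidHom := by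
      apply mapc_eq
      have : (v * h₀)⁻¹ * v = h₀⁻¹ := by group
      rw [this]
      exact Subgroup.le_normalizer (H.inv_mem hh₀)
    rw [hmap]
    set J := H ⊔ H.map (MulAut.conj v).toMonoidHom with hJ
    have hHJ : H ≤ J := le_sup_left
    have hYb : ∀ b ∈ H, (b * v * b⁻¹) * v⁻¹ ∈ J := by
      intro b hb
      have h1 : v * b⁻¹ * v⁻¹ ∈ J := (le_sup_right : _ ≤ J) ⟨b⁻¹, H.inv_mem hb, rfl⟩
      have h2 := J.mul_mem (hHJ hb) (J.mul_mem (J.mul_mem (hHJ hb) (hHJ (H.inv_mem hb))) h1)
      have e : b * (b * b⁻¹ * (v * b⁻¹ * v⁻¹)) = b * v * b⁻¹ * v⁻¹ := by group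
      rwa [e] at h2
    let S : Set G := {y | ∃ a ∈ H, y = a * v * a⁻¹}
    let U : Subgroup G := Subgroup.closure S
    have hSV : S ⊆ V := by
      rintro _ ⟨a, _, rfl⟩
      exact ‹V.Normal›.conj_mem v hv a
    have hUV : U ≤ V := (Subgroup.closure_le _).mpr hSV
    have hvU : v ∈ U := Subgroup.subset_closure ⟨1, H.one_mem, by simp⟩
    have hinv : ∀ h ∈ H, U.map (MulAut.conj h).toMonoidHom = U := by
      intro h hh
      rw [MonoidHom.map_closure]
      congr 1
      ext y
      constructor
      · rintro ⟨_, ⟨a, ha, rfl⟩, rfl⟩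
        refine ⟨h * a, H.mul_mem hh ha, ?_⟩
        show h * (a * v * a⁻¹) * h⁻¹ = _
        group
      · rintro ⟨a, ha, rfl⟩
        refine ⟨_, ⟨h⁻¹ * a, H.mul_mem (H.inv_mem hh) ha, rfl⟩, ?_⟩
        show h * (h⁻¹ * a * v * (h⁻¹ * a)⁻¹) * h⁻¹ = _
        group
    have hcJ : ⁅H, U⁆ ≤ J := by
      rw [Subgroup.commutator_le]
      intro h hh u hu
      revert h
      have hgen : U ≤ { carrier := {u | u ∈ V ∧ ∀ h ∈ H, ⁅h, u⁆ ∈ J}
                        mul_mem' := by
                          rintro u₁ u₂ ⟨h1, h1'⟩ ⟨h2, h2'⟩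
                          refine ⟨V.mul_mem h1 h2, fun h hh => ?_⟩
                          have h3 := J.mul_mem (h1' h hh) (h2' h hh)
                          have e1 : ⁅h, u₁ * u₂⁆ = ⁅h, u₁⁆ * (u₁ * ⁅h, u₂⁆ * u₁⁻¹) := by
                            simp only [commutatorElement_def]
                            group
                          have hcV : ⁅h, u₂⁆ ∈ V := by
                            rw [commutatorElement_def]
                            exact V.mul_mem (‹V.Normal›.conj_mem _ h2 h) (V.inv_mem h2)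
                          have e2 : u₁ * ⁅h, u₂⁆ * u₁⁻¹ = ⁅h, u₂⁆ := by
                            rw [hVab _ h1 _ hcV]
                            simp
                          rw [e1, e2]
                          exact h3
                        one_mem' := ⟨V.one_mem, fun h _ => by simp [J.one_mem]⟩
                        inv_mem' := by
                          rintro u₁ ⟨h1, h1'⟩
                          refine ⟨V.inv_mem h1, fun h hh => ?_⟩
                          have hcV : ⁅h, u₁⁆ ∈ V := by
                            rw [commutatorElement_def]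
                            exact V.mul_mem (‹V.Normal›.conj_mem _ h1 h) (V.inv_mem h1)
                          have e1 : ⁅h, u₁⁻¹⁆ = u₁⁻¹ * ⁅h, u₁⁆⁻¹ * u₁ := by
                            simp only [commutatorElement_def]
                            group
                          have e2 : u₁⁻¹ * ⁅h, u₁⁆⁻¹ * u₁ = ⁅h, u₁⁆⁻¹ := by
                            rw [hVab _ (V.inv_mem h1) _ (V.inv_mem hcV)]
                            simp
                          rw [e1, e2]
                          exact J.inv_mem (h1' h hh) } := by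
        apply (Subgroup.closure_le _).mpr
        rintro _ ⟨a, ha, rfl⟩
        refine ⟨‹V.Normal›.conj_mem v hv a, fun h hh => ?_⟩
        have h1 := hYb (h * a) (H.mul_mem hh ha)
        have h2 := hYb a ha
        have e : ⁅h, a * v * a⁻¹⁆ = (((h * a) * v * (h * a)⁻¹) * v⁻¹) * ((a * v * a⁻¹) * v⁻¹)⁻¹ := by
          simp only [commutatorElement_def]
          group
        rw [e]
        exact J.mul_mem h1 (J.inv_mem h2)
      intro h hh
      exact (hgen hu).2 h hh
    have hvU' := hvU
    rw [hC U hUV hinv] at hvU'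
    have hAK : U ⊓ normalizer (H : Set G) ≤ normalizer ((⁅H, U⁆ : Subgroup G) : Set G) := by
      rintro n ⟨hn, -⟩
      rw [Subgroup.mem_normalizer_iff]
      have hcV : ∀ w ∈ ⁅H, U⁆, w ∈ V := by
        have : ⁅H, U⁆ ≤ V := by
          rw [Subgroup.commutator_le]
          intro h hh u hu
          rw [commutatorElement_def]
          exact V.mul_mem (‹V.Normal›.conj_mem _ (hUV hu) h) (V.inv_mem (hUV hu))
        exact fun w hw => this hw
      intro w
      constructor
      · intro hw
        rw [hVab _ (hUV hn) _ (hcV w hw)]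
        simpa using hw
      · intro hw
        have hnw := hcV _ hw
        have e : w = n⁻¹ * (n * w * n⁻¹) * n := by group
        rw [e, hVab _ (V.inv_mem (hUV hn)) _ hnw]
        simpa using hw
    rw [sup_comm, Cfsg.Agent.Lib.H1Cop.mem_sup_iff hAK] at hvU'
    obtain ⟨w, hw, n, hn, hvwn⟩ := hvU'
    refine ⟨w, (hcJ hw), ?_⟩
    apply mapc_eq
    have e : v⁻¹ * w = n⁻¹ := by
      rw [← hvwn]
      group
    rw [e]
    exact (normalizer (H : Set G)).inv_mem hn.2

end Cfsg.Agent.S4269
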