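import Cfsg.Statements.S4270
import Mathlib
import Cfsg.Agent.Lib.H1Cop
import Cfsg.Agent.Lib.Herstein
-- import your own Cfsg.Agent.* helpers here

set_option autoImplicit false
open Cfsg

namespace Cfsg.Agent.S4270

open scoped Pointwise

section
variable {G : Type*} [Group G]

abbrev cj (g : G) (H : Subgroup G) : Subgroup G := H.map (MulAut.conj g).toMonoidHom

def Cj (K : Subgroup G) (g : G) : Prop := ∃ x ∈ K ⊔ cj g K, cj g K = cj x K

theorem mem_cj (H : Subgroup G) (g y : G) : y ∈ cj g H ↔ g⁻¹ * y * g ∈ H := by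
  constructor
  · rintro ⟨x, hx, rfl⟩
    simpa [mul_assoc] using hx
  · intro h
    exact ⟨_, h, by simp [mul_assoc]⟩

theorem cj_mul (a b : G) (H : Subgroup G) : cj (a * b) H = cj a (cj b H) := by
  ext y
  rw [mem_cj, mem_cj, mem_cj]
  have : (a * b)⁻¹ * y * (a * b) = b⁻¹ * (a⁻¹ * y * a) * b := by group
  rw [this]

theorem cj_one (H : Subgroup G) : cj 1 H = H := by
  ext y
  rw [mem_cj]
  simp

theorem cj_of_mem_normalizer {n : G} {H : Subgroup G} (hn : n ∈ Subgroup.normalizer (H : Set G)) : cj n H = H := by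
  ext y
  rw [mem_cj]
  have := Subgroup.mem_normalizer_iff.1 (Subgroup.inv_mem _ hn) y
  simp only [inv_inv] at this
  exact this.symm

theorem mem_normalizer_of_cj {n : G} {H : Subgroup G} (h : cj n H = H) : n ∈ Subgroup.normalizer (H : Set G) := by
  rw [Subgroup.mem_normalizer_iff]
  intro y
  constructor
  · intro hy
    have : n * y * n⁻¹ ∈ cj n H := ⟨y, hy, rfl⟩
    rwa [h] at this
  · intro hy
    rw [← h] at hy
    rw [mem_cj] at hy
    simpa [mul_assoc] using hy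

theorem mem_normalizer_of_cj_eq {a b : G} {H : Subgroup G} (h : cj a H = cj b H) :
    b⁻¹ * a ∈ Subgroup.normalizer (H : Set G) := by
  apply mem_normalizer_of_cj
  rw [cj_mul, h, ← cj_mul, inv_mul_cancel, cj_one]

theorem map_cj {Y : Type*} [Group Y] (φ : G →* Y) (H : Subgroup G) (a : G) :
    (cj a H).map φ = cj (φ a) (H.map φ) := by
  show (H.map _).map φ = (H.map φ).map _
  rw [Subgroup.map_map, Subgroup.map_map]
  congr 1
  ext x
  simp

theorem Cj.congr {K : Subgroup G} {a b : G} (h : cj a K = cj b K) (hb : Cj K a) : Cj K b := by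
  obtain ⟨x, hx, hxe⟩ := hb
  refine ⟨x, ?_, ?_⟩
  · rw [← h]; exact hx
  · rw [← h]; exact hxe

theorem Cj.reduce {K : Subgroup G} {y a : G} (hy : y ∈ K ⊔ cj (y * a) K) (h : Cj K a) : Cj K (y * a) := by
  obtain ⟨x, hx, hxe⟩ := h
  set L := K ⊔ cj (y * a) K with hL
  have hle : K ⊔ cj a K ≤ L := by
    refine sup_le le_sup_left ?_
    rintro _ ⟨k, hk, rfl⟩
    have h1 : (MulAut.conj a).toMonoidHom k = y⁻¹ * ((y * a) * k * (y * a)⁻¹) * y := by
      show a * k * a⁻¹ = _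
      group
    rw [h1]
    have h2 : (y * a) * k * (y * a)⁻¹ ∈ L := Subgroup.mem_sup_right ⟨k, hk, rfl⟩
    exact L.mul_mem (L.mul_mem (L.inv_mem hy) h2) hy
  refine ⟨y * x, L.mul_mem hy (hle hx), ?_⟩
  rw [cj_mul, hxe, ← cj_mul]

theorem pron_conj (K : Subgroup G) (w : G) (h : Cfsg.IsPronormal (cj w K)) : Cfsg.IsPronormal K := by
  intro g
  obtain ⟨x, hx, hxe⟩ := h (w * g * w⁻¹)
  have h1 : cj (w * g * w⁻¹) (cj w K) = cj w (cj g K) := by
    rw [← cj_mul, ← cj_mul]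
    congr 1
    group
  have h2 : cj w K ⊔ cj (w * g * w⁻¹) (cj w K) = (K ⊔ cj g K).map (MulAut.conj w).toMonoidHom := by
    rw [Subgroup.map_sup, h1]
  change x ∈ cj w K ⊔ cj (w * g * w⁻¹) (cj w K) at hx
  rw [h2] at hx
  obtain ⟨x₀, hx₀, rfl⟩ := hx
  refine ⟨x₀, hx₀, ?_⟩
  change cj g K = cj x₀ K
  change cj (w * g * w⁻¹) (cj w K) = cj (w * x₀ * w⁻¹) (cj w K) at hxe
  rw [h1] at hxe
  have h3 : cj (w * x₀ * w⁻¹) (cj w K) = cj w (cj x₀ K) := by
    rw [← cj_mul, ← cj_mul]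
    congr 1
    group
  rw [h3] at hxe
  exact Subgroup.map_injective (MulAut.conj w).injective hxe


open Cfsg.Agent.Lib.H1Cop in
theorem sylow_sub {p : ℕ} {R B C : Subgroup G} (h : IsSylowIn p R C) (hRB : R ≤ B) (hBC : B ≤ C) :
    IsSylowIn p R B :=
  ⟨hRB, h.2.1, fun hd => h.2.2 (by
    rw [← Subgroup.relIndex_mul_relIndex R B C hRB hBC]; exact dvd_mul_of_dvd_left hd _)⟩

open Cfsg.Agent.Lib.H1Cop in
theorem exists_conj_in [Finite G] {p : ℕ} [Fact p.Prime] {A T H₀ : Subgroup G} [A.Normal]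
    (hT : IsSylowIn p T A) (hTH : T ≤ H₀) (hH : H₀ ≤ A) (b : G) (hb : cj b T ≤ H₀) :
    ∃ h ∈ H₀, cj b T = cj h T := by
  have h1 := sylow_sub hT hTH hH
  have h2 : IsSylowIn p (MulAut.conj b • T) A :=
    hT.conj_smul (by rw [Subgroup.normalizer_eq_top]; trivial)
  have h3 : IsSylowIn p (MulAut.conj b • T) H₀ := sylow_sub h2 hb hH
  obtain ⟨x, hx, hxe⟩ := h1.exists_conj h3
  exact ⟨x, hx, hxe.symm⟩

theorem mem_norm_inf (A K : Subgroup G) [A.Normal] {y : G} (hy : y ∈ K) :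
    y ∈ Subgroup.normalizer ((K ⊓ A : Subgroup G) : Set G) := by
  rw [Subgroup.mem_normalizer_iff]
  intro z
  constructor
  · rintro ⟨hzK, hzA⟩
    exact ⟨K.mul_mem (K.mul_mem hy hzK) (K.inv_mem hy), Subgroup.Normal.conj_mem ‹_› z hzA y⟩
  · rintro ⟨h1, h2⟩
    have e : z = y⁻¹ * (y * z * y⁻¹) * y := by group
    rw [e]
    refine ⟨K.mul_mem (K.mul_mem (K.inv_mem hy) h1) hy, ?_⟩
    have := Subgroup.Normal.conj_mem ‹A.Normal› _ h2 y⁻¹
    simpa using this

open Cfsg.Agent.Lib.H1Cop in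
theorem step4 [Finite G] {p : ℕ} [Fact p.Prime] (A T N : Subgroup G) [A.Normal]
    (hN : N = Subgroup.normalizer (T : Set G))
    (hTs : IsSylowIn p T A) (T' : Subgroup ↥N) [T'.Normal] (hT' : T' = T.subgroupOf N)
    (hi : ∀ K : Subgroup (↥N ⧸ T'), (∃ P : Sylow p (↥N ⧸ T'), (P : Subgroup _) ≤ K) → Cfsg.IsPronormal K)
    (K : Subgroup G) (P : Sylow p G) (hTP : T ≤ P) (hPK : (P : Subgroup G) ≤ K) (hPN : (P : Subgroup G) ≤ N)
    (a : G) (haT : a ∈ N) (haH : a ∈ Subgroup.normalizer ((K ⊓ A : Subgroup G) : Set G)) : Cj K a := by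
  classical
  have hTA : T ≤ A := hTs.1
  have hTH : T ≤ K ⊓ A := le_inf (hTP.trans hPK) hTA
  set mk' := QuotientGroup.mk' T' with hmk
  set K₁ : Subgroup ↥N := K.subgroupOf N with hK₁
  have hT'K₁ : T' ≤ K₁ := by
    rw [hT']
    intro x hx
    exact Subgroup.mem_subgroupOf.2 (hPK (hTP (Subgroup.mem_subgroupOf.1 hx)))
  have hsyl : ∃ S : Sylow p (↥N ⧸ T'), (S : Subgroup _) ≤ K₁.map mk' := by
    have hPp : IsPGroup p ((P : Subgroup G).subgroupOf N) := P.isPGroup'.comap_subtype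
    have hmap : IsPGroup p (((P : Subgroup G).subgroupOf N).map mk') := hPp.map _
    have hidx : ¬ p ∣ (((P : Subgroup G).subgroupOf N).map mk').index := by
      intro hd
      have h1 : (((P : Subgroup G).subgroupOf N).map mk').index ∣ ((P : Subgroup G).subgroupOf N).index :=
        Subgroup.index_map_dvd _ (QuotientGroup.mk'_surjective _)
      have h2 : ((P : Subgroup G).subgroupOf N).index ∣ (P : Subgroup G).index := by
        rw [← Subgroup.relIndex_mul_index hPN]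
        exact dvd_mul_right _ _
      exact P.not_dvd_index (hd.trans (h1.trans h2))
    refine ⟨hmap.toSylow hidx, ?_⟩
    rw [IsPGroup.toSylow_coe]
    apply Subgroup.map_mono
    intro x hx
    exact Subgroup.mem_subgroupOf.2 (hPK (Subgroup.mem_subgroupOf.1 hx))
  obtain ⟨xt, hxt, hxte⟩ := hi (K₁.map mk') hsyl (mk' ⟨a, haT⟩)
  set a' : ↥N := ⟨a, haT⟩ with ha'
  have hcjm : ∀ b : ↥N, (K₁.map mk').map (MulAut.conj (mk' b)).toMonoidHom = (cj b K₁).map mk' := by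
    intro b
    exact (map_cj mk' K₁ b).symm
  rw [hcjm a', ← Subgroup.map_sup] at hxt
  obtain ⟨x', hx', rfl⟩ := hxt
  rw [hcjm a', hcjm x'] at hxte
  have hTcj : ∀ b : ↥N, T' ≤ cj b K₁ := by
    intro b t ht
    rw [mem_cj]
    exact hT'K₁ (Subgroup.Normal.conj_mem' ‹_› t ht b)
  have hker : mk'.ker = T' := QuotientGroup.ker_mk' T'
  have heq : cj a' K₁ = cj x' K₁ :=
    Subgroup.map_injective_of_ker_le mk' (by rw [hker]; exact hTcj _) (by rw [hker]; exact hTcj _) hxte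
  -- membership of x in K ⊔ cj a K
  have hx1 : (x' : G) ∈ K ⊔ cj a K := by
    have hle : K₁ ⊔ cj a' K₁ ≤ (K ⊔ cj a K).subgroupOf N := by
      refine sup_le ?_ ?_
      · intro y hy
        exact Subgroup.mem_subgroupOf.2 (Subgroup.mem_sup_left (Subgroup.mem_subgroupOf.1 hy))
      · rintro _ ⟨k, hk, rfl⟩
        refine Subgroup.mem_subgroupOf.2 (Subgroup.mem_sup_right ?_)
        exact ⟨k, Subgroup.mem_subgroupOf.1 hk, rfl⟩
    exact Subgroup.mem_subgroupOf.1 (hle hx')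
  -- x normalizes K ⊓ A
  have hx2 : (x' : G) ∈ Subgroup.normalizer ((K ⊓ A : Subgroup G) : Set G) := by
    have hle : K₁ ⊔ cj a' K₁ ≤ (Subgroup.normalizer ((K ⊓ A : Subgroup G) : Set G)).subgroupOf N := by
      refine sup_le ?_ ?_
      · intro y hy
        exact Subgroup.mem_subgroupOf.2 (mem_norm_inf A K (Subgroup.mem_subgroupOf.1 hy))
      · rintro _ ⟨k, hk, rfl⟩
        refine Subgroup.mem_subgroupOf.2 ?_
        have h3 := mem_norm_inf A K (Subgroup.mem_subgroupOf.1 hk)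
        exact Subgroup.mul_mem _ (Subgroup.mul_mem _ haH h3) (Subgroup.inv_mem _ haH)
    exact Subgroup.mem_subgroupOf.1 (hle hx')
  have h3N : x'⁻¹ * a' ∈ Subgroup.normalizer ((K₁ : Subgroup ↥N) : Set ↥N) := mem_normalizer_of_cj_eq heq
  have h3H : (x' : G)⁻¹ * a ∈ Subgroup.normalizer ((K ⊓ A : Subgroup G) : Set G) :=
    Subgroup.mul_mem _ (Subgroup.inv_mem _ hx2) haH
  have h3K : (x' : G)⁻¹ * a ∈ Subgroup.normalizer (K : Set G) := by
    apply Lib.Herstein.mem_normalizer_of_conj_le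
    intro w hw
    have hb : cj w T ≤ K ⊓ A := by
      rintro _ ⟨t, ht, rfl⟩
      have h4 := (Subgroup.mem_normalizer_iff.1 (mem_norm_inf A K hw) t).1 (hTH ht)
      exact h4
    obtain ⟨h, hh, he⟩ := exists_conj_in hTs hTH inf_le_right w hb
    have hw1 : h⁻¹ * w ∈ N := by
      rw [hN]; exact mem_normalizer_of_cj_eq he
    have hw2 : h⁻¹ * w ∈ K := K.mul_mem (K.inv_mem hh.1) hw
    set w₁ : ↥N := ⟨h⁻¹ * w, hw1⟩ with hw₁
    have hw3 : w₁ ∈ K₁ := Subgroup.mem_subgroupOf.2 hw2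
    have h5 := (Subgroup.mem_normalizer_iff.1 h3N w₁).1 hw3
    have h6 : ((x' : G)⁻¹ * a) * (h⁻¹ * w) * ((x' : G)⁻¹ * a)⁻¹ ∈ K := Subgroup.mem_subgroupOf.1 h5
    have h7 : ((x' : G)⁻¹ * a) * h * ((x' : G)⁻¹ * a)⁻¹ ∈ K ⊓ A :=
      (Subgroup.mem_normalizer_iff.1 h3H h).1 hh
    have e : ((x' : G)⁻¹ * a) * w * ((x' : G)⁻¹ * a)⁻¹ =
        (((x' : G)⁻¹ * a) * h * ((x' : G)⁻¹ * a)⁻¹) * (((x' : G)⁻¹ * a) * (h⁻¹ * w) * ((x' : G)⁻¹ * a)⁻¹) := by
      group
    rw [e]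
    exact K.mul_mem h7.1 h6
  refine ⟨x', hx1, ?_⟩
  have e : a = (x' : G) * ((x' : G)⁻¹ * a) := by group
  show cj a K = cj (x' : G) K
  conv_lhs => rw [e]
  rw [cj_mul, cj_of_mem_normalizer h3K]

open Cfsg.Agent.Lib.H1Cop in
theorem step3 [Finite G] {p : ℕ} [Fact p.Prime] (A T N : Subgroup G) [A.Normal]
    (hN : N = Subgroup.normalizer (T : Set G))
    (hTs : IsSylowIn p T A) (T' : Subgroup ↥N) [T'.Normal] (hT' : T' = T.subgroupOf N)
    (hi : ∀ K : Subgroup (↥N ⧸ T'), (∃ P : Sylow p (↥N ⧸ T'), (P : Subgroup _) ≤ K) → Cfsg.IsPronormal K)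
    (K : Subgroup G) (P : Sylow p G) (hTP : T ≤ P) (hPK : (P : Subgroup G) ≤ K) (hPN : (P : Subgroup G) ≤ N)
    (a : G) (haH : a ∈ Subgroup.normalizer ((K ⊓ A : Subgroup G) : Set G)) : Cj K a := by
  have hTH : T ≤ K ⊓ A := le_inf (hTP.trans hPK) hTs.1
  have hb : cj a T ≤ K ⊓ A := by
    rintro _ ⟨t, ht, rfl⟩
    exact (Subgroup.mem_normalizer_iff.1 haH t).1 (hTH ht)
  obtain ⟨h, hh, he⟩ := exists_conj_in hTs hTH inf_le_right a hb
  have h1 : h⁻¹ * a ∈ N := by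
    rw [hN]; exact mem_normalizer_of_cj_eq he
  have h2 : h⁻¹ * a ∈ Subgroup.normalizer ((K ⊓ A : Subgroup G) : Set G) :=
    Subgroup.mul_mem _ (Subgroup.inv_mem _ (Subgroup.le_normalizer hh)) haH
  have h3 := step4 A T N hN hTs T' hT' hi K P hTP hPK hPN _ h1 h2
  have h4 : Cj K (h * (h⁻¹ * a)) := Cj.reduce (Subgroup.mem_sup_left hh.1) h3
  simpa using h4

open Cfsg.Agent.Lib.H1Cop in
theorem step2 [Finite G] {p : ℕ} [Fact p.Prime] (A T N : Subgroup G) [A.Normal]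
    (hA : ∀ K : Subgroup ↥A, (∃ P : Sylow p ↥A, (P : Subgroup ↥A) ≤ K) → Cfsg.IsPronormal K)
    (hN : N = Subgroup.normalizer (T : Set G))
    (hTs : IsSylowIn p T A) (T' : Subgroup ↥N) [T'.Normal] (hT' : T' = T.subgroupOf N)
    (hi : ∀ K : Subgroup (↥N ⧸ T'), (∃ P : Sylow p (↥N ⧸ T'), (P : Subgroup _) ≤ K) → Cfsg.IsPronormal K)
    (K : Subgroup G) (P : Sylow p G) (hTP : T ≤ P) (hPK : (P : Subgroup G) ≤ K) (hPN : (P : Subgroup G) ≤ N)
    (a : G) (haA : a ∈ A) : Cj K a := by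
  have hTH : T ≤ K ⊓ A := le_inf (hTP.trans hPK) hTs.1
  obtain ⟨P₀, -, hP₀⟩ := hTs.exists_sylow
  have hsyl : ∃ S : Sylow p ↥A, (S : Subgroup ↥A) ≤ K.subgroupOf A := by
    refine ⟨P₀, ?_⟩
    intro x hx
    have h1 : (x : G) ∈ T := by
      rw [← hP₀]; exact ⟨x, hx, rfl⟩
    exact Subgroup.mem_subgroupOf.2 (hTH h1).1
  obtain ⟨x', hx', hxe⟩ := hA (K.subgroupOf A) hsyl ⟨a, haA⟩
  have h1 : (K.subgroupOf A).map A.subtype = K ⊓ A := Subgroup.subgroupOf_map_subtype _ _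
  have hxe2 : cj a (K ⊓ A) = cj (x' : G) (K ⊓ A) := by
    have h2 := congrArg (Subgroup.map A.subtype) hxe
    have h3 : ∀ b : ↥A, ((K.subgroupOf A).map (MulAut.conj b).toMonoidHom).map A.subtype
        = cj (b : G) (K ⊓ A) := by
      intro b
      rw [← h1]
      exact map_cj A.subtype (K.subgroupOf A) b
    rw [h3, h3] at h2
    exact h2
  have hx2 : (x' : G) ∈ K ⊔ cj a K := by
    have hle : K.subgroupOf A ⊔ (K.subgroupOf A).map (MulAut.conj (⟨a, haA⟩ : ↥A)).toMonoidHom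
        ≤ (K ⊔ cj a K).subgroupOf A := by
      refine sup_le ?_ ?_
      · intro y hy
        exact Subgroup.mem_subgroupOf.2 (Subgroup.mem_sup_left (Subgroup.mem_subgroupOf.1 hy))
      · rintro _ ⟨k, hk, rfl⟩
        refine Subgroup.mem_subgroupOf.2 (Subgroup.mem_sup_right ?_)
        exact ⟨k, Subgroup.mem_subgroupOf.1 hk, rfl⟩
    exact Subgroup.mem_subgroupOf.1 (hle hx')
  have ha1 : (x' : G)⁻¹ * a ∈ Subgroup.normalizer ((K ⊓ A : Subgroup G) : Set G) :=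
    mem_normalizer_of_cj_eq hxe2
  have h3 := step3 A T N hN hTs T' hT' hi K P hTP hPK hPN _ ha1
  have h4 : Cj K ((x' : G) * ((x' : G)⁻¹ * a)) := Cj.reduce (by simpa using hx2) h3
  simpa using h4

open Cfsg.Agent.Lib.H1Cop in
theorem step1 [Finite G] {p : ℕ} [Fact p.Prime] (A T N : Subgroup G) [A.Normal]
    (hA : ∀ K : Subgroup ↥A, (∃ P : Sylow p ↥A, (P : Subgroup ↥A) ≤ K) → Cfsg.IsPronormal K)
    (hQ : ∀ K : Subgroup (G ⧸ A), (∃ P : Sylow p (G ⧸ A), (P : Subgroup (G ⧸ A)) ≤ K) → Cfsg.IsPronormal K)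
    (hN : N = Subgroup.normalizer (T : Set G))
    (hTs : IsSylowIn p T A) (T' : Subgroup ↥N) [T'.Normal] (hT' : T' = T.subgroupOf N)
    (hi : ∀ K : Subgroup (↥N ⧸ T'), (∃ P : Sylow p (↥N ⧸ T'), (P : Subgroup _) ≤ K) → Cfsg.IsPronormal K)
    (hii : ∀ K : Subgroup G, (∃ P : Sylow p G, (P : Subgroup G) ≤ K) →
      (Subgroup.normalizer (K : Set G)).map (QuotientGroup.mk' A) =
        Subgroup.normalizer ((K.map (QuotientGroup.mk' A) : Subgroup (G ⧸ A)) : Set (G ⧸ A)))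
    (K : Subgroup G) (P : Sylow p G) (hTP : T ≤ P) (hPK : (P : Subgroup G) ≤ K) (hPN : (P : Subgroup G) ≤ N)
    (g : G) : Cj K g := by
  classical
  set mk' := QuotientGroup.mk' A with hmk
  have hsyl : ∃ S : Sylow p (G ⧸ A), (S : Subgroup _) ≤ K.map mk' := by
    have hmap : IsPGroup p ((P : Subgroup G).map mk') := P.isPGroup'.map _
    have hidx : ¬ p ∣ ((P : Subgroup G).map mk').index := fun hd =>
      P.not_dvd_index (hd.trans (Subgroup.index_map_dvd _ (QuotientGroup.mk'_surjective _)))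
    refine ⟨hmap.toSylow hidx, ?_⟩
    rw [IsPGroup.toSylow_coe]
    exact Subgroup.map_mono hPK
  obtain ⟨xb, hxb, hxbe⟩ := hQ (K.map mk') hsyl (mk' g)
  have hcjm : ∀ b : G, (K.map mk').map (MulAut.conj (mk' b)).toMonoidHom = (cj b K).map mk' := by
    intro b
    exact (map_cj mk' K b).symm
  rw [hcjm g, ← Subgroup.map_sup] at hxb
  obtain ⟨y, hy, rfl⟩ := hxb
  rw [hcjm g, hcjm y] at hxbe
  have h1 : mk' y⁻¹ * mk' g ∈ Subgroup.normalizer ((K.map mk' : Subgroup (G ⧸ A)) : Set (G ⧸ A)) := by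
    have h2 : cj (mk' g) (K.map mk') = cj (mk' y) (K.map mk') := by
      rw [← map_cj, ← map_cj]; exact hxbe
    have h3 := mem_normalizer_of_cj_eq h2
    rwa [← map_inv] at h3
  rw [← hii K ⟨P, hPK⟩] at h1
  obtain ⟨n, hn, hne⟩ := h1
  have h40 : mk' (y⁻¹ * g * n⁻¹) = 1 := by
    rw [map_mul, map_mul, map_inv mk' n, hne]
    exact mul_inv_cancel _
  have h4 : y⁻¹ * g * n⁻¹ ∈ A := (QuotientGroup.eq_one_iff _).1 h40
  have h5 := step2 A T N hA hN hTs T' hT' hi K P hTP hPK hPN _ h4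
  have h6 : cj (y * (y⁻¹ * g * n⁻¹)) K = cj g K := by
    have e : g = (y * (y⁻¹ * g * n⁻¹)) * n := by group
    conv_rhs => rw [e]
    rw [cj_mul _ n, cj_of_mem_normalizer hn]
  have h7 : Cj K (y * (y⁻¹ * g * n⁻¹)) := by
    apply Cj.reduce _ h5
    rw [h6]
    exact hy
  exact h7.congr h6

open Cfsg.Agent.Lib.H1Cop in
theorem sylow_le_norm [Finite G] {p : ℕ} [Fact p.Prime] (A T : Subgroup G) [A.Normal]
    (hTs : IsSylowIn p T A) (P : Sylow p G) (hTP : T ≤ P) :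
    (P : Subgroup G) ≤ Subgroup.normalizer (T : Set G) := by
  have hTeq : (P : Subgroup G) ⊓ A ≤ T := by
    have h1 := sylow_sub hTs (le_inf hTP hTs.1) inf_le_right
    have h2 : IsPGroup p ((P : Subgroup G) ⊓ A : Subgroup G) :=
      P.isPGroup'.to_le inf_le_left
    obtain ⟨n, hn⟩ := IsPGroup.iff_card.1 h2
    have h3 := Subgroup.relIndex_dvd_card T ((P : Subgroup G) ⊓ A)
    rw [hn] at h3
    obtain ⟨m, -, hm⟩ := (Nat.dvd_prime_pow (Fact.out : p.Prime)).1 h3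
    rcases Nat.eq_zero_or_pos m with rfl | hpos
    · rw [pow_zero] at hm
      exact Subgroup.relIndex_eq_one.1 hm
    · exact absurd (hm ▸ dvd_pow_self p hpos.ne') h1.2.2
  intro y hy
  apply Lib.Herstein.mem_normalizer_of_conj_le
  intro t ht
  have h3 := (Subgroup.mem_normalizer_iff.1 (mem_norm_inf A P hy) t).1 ⟨hTP ht, hTs.1 ht⟩
  exact hTeq h3

theorem fwd_ii (A : Subgroup G) [A.Normal] (K : Subgroup G) (hK : Cfsg.IsPronormal K) :
    (Subgroup.normalizer (K : Set G)).map (QuotientGroup.mk' A) =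
        Subgroup.normalizer ((K.map (QuotientGroup.mk' A) : Subgroup (G ⧸ A)) : Set (G ⧸ A)) := by
  set mk' := QuotientGroup.mk' A with hmk
  apply le_antisymm
  · rintro _ ⟨g, hg, rfl⟩
    apply mem_normalizer_of_cj
    rw [← map_cj]
    have hg' : g ∈ Subgroup.normalizer (K : Set G) := hg
    rw [cj_of_mem_normalizer hg']
  · intro gb hgb
    obtain ⟨g, rfl⟩ := QuotientGroup.mk'_surjective A gb
    obtain ⟨x, hx, hxe⟩ := hK g
    have h1 : cj (mk' g) (K.map mk') = K.map mk' := cj_of_mem_normalizer hgb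
    rw [← map_cj] at h1
    have h2 : cj g K ≤ A ⊔ K := by
      intro y hy
      have h3 : mk' y ∈ K.map mk' := by rw [← h1]; exact ⟨y, hy, rfl⟩
      obtain ⟨k, hk, hke⟩ := h3
      have h40 : mk' (y * k⁻¹) = 1 := by
        rw [map_mul, map_inv, hke]; exact mul_inv_cancel _
      have h4 : y * k⁻¹ ∈ A := (QuotientGroup.eq_one_iff _).1 h40
      have e : y = (y * k⁻¹) * k := by group
      rw [e]
      exact Subgroup.mul_mem _ (Subgroup.mem_sup_left h4) (Subgroup.mem_sup_right hk)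
    have hx2 : x ∈ A ⊔ K := (sup_le le_sup_right h2) hx
    have h5 : x ∈ (A : Set G) * K := by rw [← Subgroup.normal_mul]; exact hx2
    obtain ⟨a, ha, k, hk, rfl⟩ := Set.mem_mul.1 h5
    have hcj : cj g K = cj a K := by
      have h6 : cj g K = cj (a * k) K := hxe
      rw [cj_mul, cj_of_mem_normalizer (Subgroup.le_normalizer hk)] at h6
      exact h6
    have h6 : a⁻¹ * g ∈ Subgroup.normalizer (K : Set G) := mem_normalizer_of_cj_eq hcj
    refine ⟨a⁻¹ * g, h6, ?_⟩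
    have h7 : mk' a = 1 := (QuotientGroup.eq_one_iff _).2 ha
    rw [map_mul, map_inv, h7, inv_one, one_mul]

open Cfsg.Agent.Lib.H1Cop in
theorem fwd_i [Finite G] {p : ℕ} [Fact p.Prime] (A T N : Subgroup G) [A.Normal]
    (hN : N = Subgroup.normalizer (T : Set G))
    (hTs : IsSylowIn p T A) (T' : Subgroup ↥N) [T'.Normal] (hT' : T' = T.subgroupOf N)
    (h : ∀ K : Subgroup G, (∃ P : Sylow p G, (P : Subgroup G) ≤ K) → Cfsg.IsPronormal K)
    (K : Subgroup (↥N ⧸ T')) (hK : ∃ P : Sylow p (↥N ⧸ T'), (P : Subgroup _) ≤ K) :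
    Cfsg.IsPronormal K := by
  classical
  obtain ⟨Pt, hPt⟩ := hK
  set mk' := QuotientGroup.mk' T' with hmk
  have hPsurj : Function.Surjective mk' := QuotientGroup.mk'_surjective T'
  have hTp : IsPGroup p T := hTs.2.1
  set Q : Subgroup G := (Pt.1.comap mk').map N.subtype with hQ
  have hQp : IsPGroup p Q := by
    apply IsPGroup.map
    apply Pt.isPGroup'.comap_of_ker_isPGroup
    rw [hmk, QuotientGroup.ker_mk', hT']
    exact hTp.comap_subtype
  have hNidx : ¬ p ∣ N.index := by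
    obtain ⟨P, hTP⟩ := hTp.exists_le_sylow
    have hPN : (P : Subgroup G) ≤ N := by
      rw [hN]; exact sylow_le_norm A T hTs P hTP
    exact fun hd => P.not_dvd_index (hd.trans (Subgroup.index_dvd_of_le hPN))
  have hQidx : ¬ p ∣ Q.index := by
    rw [hQ, Subgroup.index_map_subtype, Subgroup.index_comap_of_surjective _ hPsurj]
    intro hd
    rcases ((Fact.out : p.Prime).dvd_mul).1 hd with h1 | h1
    · exact Pt.not_dvd_index h1
    · exact hNidx h1
  set K₀ : Subgroup ↥N := K.comap mk' with hK₀def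
  set K₂ : Subgroup G := K₀.map N.subtype with hK₂def
  have hK₂ := h K₂ ⟨hQp.toSylow hQidx, by
    rw [IsPGroup.toSylow_coe]
    exact Subgroup.map_mono (Subgroup.comap_mono hPt)⟩
  intro gt
  obtain ⟨n, rfl⟩ := hPsurj gt
  obtain ⟨x, hx, hxe⟩ := hK₂ (n : G)
  have hcj : ∀ b : ↥N, K₂.map (MulAut.conj (b : G)).toMonoidHom = (cj b K₀).map N.subtype :=
    fun b => (map_cj N.subtype K₀ b).symm
  rw [hcj n, ← Subgroup.map_sup] at hx
  obtain ⟨x₀, hx₀, rfl⟩ := hx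
  change K₂.map (MulAut.conj (n : G)).toMonoidHom = K₂.map (MulAut.conj (x₀ : G)).toMonoidHom at hxe
  rw [hcj n, hcj x₀] at hxe
  have heq : cj n K₀ = cj x₀ K₀ := Subgroup.map_injective N.subtype_injective hxe
  have hK₀ : K₀.map mk' = K := Subgroup.map_comap_eq_self_of_surjective hPsurj K
  have hcj2 : ∀ b : ↥N, K.map (MulAut.conj (mk' b)).toMonoidHom = (cj b K₀).map mk' := by
    intro b
    conv_lhs => rw [← hK₀]
    exact (map_cj mk' K₀ b).symm
  refine ⟨mk' x₀, ?_, ?_⟩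
  · rw [hcj2 n]
    have h9 : mk' x₀ ∈ (K₀ ⊔ cj n K₀).map mk' := ⟨x₀, hx₀, rfl⟩
    rw [Subgroup.map_sup, hK₀] at h9
    exact h9
  · rw [hcj2 n, hcj2 x₀, heq]

open Cfsg.Agent.Lib.H1Cop in
theorem back [Finite G] {p : ℕ} [Fact p.Prime] (A T N : Subgroup G) [A.Normal]
    (hA : ∀ K : Subgroup ↥A, (∃ P : Sylow p ↥A, (P : Subgroup ↥A) ≤ K) → Cfsg.IsPronormal K)
    (hQ : ∀ K : Subgroup (G ⧸ A), (∃ P : Sylow p (G ⧸ A), (P : Subgroup (G ⧸ A)) ≤ K) → Cfsg.IsPronormal K)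
    (hN : N = Subgroup.normalizer (T : Set G))
    (hTs : IsSylowIn p T A) (T' : Subgroup ↥N) [T'.Normal] (hT' : T' = T.subgroupOf N)
    (hi : ∀ K : Subgroup (↥N ⧸ T'), (∃ P : Sylow p (↥N ⧸ T'), (P : Subgroup _) ≤ K) → Cfsg.IsPronormal K)
    (hii : ∀ K : Subgroup G, (∃ P : Sylow p G, (P : Subgroup G) ≤ K) →
      (Subgroup.normalizer (K : Set G)).map (QuotientGroup.mk' A) =
        Subgroup.normalizer ((K.map (QuotientGroup.mk' A) : Subgroup (G ⧸ A)) : Set (G ⧸ A)))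
    (K : Subgroup G) (hK : ∃ P : Sylow p G, (P : Subgroup G) ≤ K) : Cfsg.IsPronormal K := by
  obtain ⟨Q, hQK⟩ := hK
  obtain ⟨P, hTP⟩ := hTs.2.1.exists_le_sylow
  obtain ⟨w, hw⟩ := MulAction.exists_smul_eq G Q P
  apply pron_conj K w
  have hPK : (P : Subgroup G) ≤ cj w K := by
    rw [← hw]
    rintro _ ⟨q, hq, rfl⟩
    exact ⟨q, hQK hq, rfl⟩
  have hPN : (P : Subgroup G) ≤ N := by
    rw [hN]; exact sylow_le_norm A T hTs P hTP
  exact fun g => step1 A T N hA hQ hN hTs T' hT' hi hii _ P hTP hPK hPN g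

end

/-- Let p be a prime and G a finite group with a normal subgroup A such that, both in A and in G/A, every subgroup containing a Sylow p-subgroup of that group is pronormal in that group. Let T be a Sylow p-subgroup of A. Then every subgroup of G containing a Sylow p-subgroup of G is pronormal in G if and only if (i) every subgroup of N_G(T)/T containing a Sylow p-subgroup of N_G(T)/T is pronormal there, and (ii) for every subgroup H of G containing a Sylow p-subgroup of G, the image of N_G(H) in G/A is the full normalizer of the image of H. (Pronormal: H and gHg⁻¹ are conjugate inside the subgroup they generate, for every g.) -/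
theorem result {G : Type*} [Group G] [Finite G] {p : ℕ} [Fact p.Prime]
    (A : Subgroup G) [A.Normal] (hA : (∀ K : Subgroup ↥A, (∃ P : Sylow p ↥A, (P : Subgroup ↥A) ≤ K) → Cfsg.IsPronormal K)) (hQ : (∀ K : Subgroup (G ⧸ A), (∃ P : Sylow p (G ⧸ A), (P : Subgroup (G ⧸ A)) ≤ K) → Cfsg.IsPronormal K))
    (T : Subgroup G) (hT : ∃ P : Sylow p ↥A, (P : Subgroup ↥A).map A.subtype = T) [(T.subgroupOf (Subgroup.normalizer (T : Set G))).Normal] :
    (∀ K : Subgroup G, (∃ P : Sylow p G, (P : Subgroup G) ≤ K) → Cfsg.IsPronormal K) ↔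
      ((∀ K : Subgroup (↥(Subgroup.normalizer (T : Set G)) ⧸ T.subgroupOf (Subgroup.normalizer (T : Set G))), (∃ P : Sylow p (↥(Subgroup.normalizer (T : Set G)) ⧸ T.subgroupOf (Subgroup.normalizer (T : Set G))), (P : Subgroup (↥(Subgroup.normalizer (T : Set G)) ⧸ T.subgroupOf (Subgroup.normalizer (T : Set G)))) ≤ K) → Cfsg.IsPronormal K) ∧
        ∀ K : Subgroup G, (∃ P : Sylow p G, (P : Subgroup G) ≤ K) →
          (Subgroup.normalizer (K : Set G)).map (QuotientGroup.mk' A) = Subgroup.normalizer ((K.map (QuotientGroup.mk' A) : Subgroup (G ⧸ A)) : Set (G ⧸ A))) := by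
  obtain ⟨P₀, hP₀⟩ := hT
  have hTs : Lib.H1Cop.IsSylowIn p T A := by
    rw [← hP₀]; exact Lib.H1Cop.isSylowIn_map P₀
  constructor
  · intro h
    exact ⟨fwd_i A T _ rfl hTs _ rfl h, fun K hK => fwd_ii A K (h K hK)⟩
  · rintro ⟨hi, hii⟩
    exact back A T _ hA hQ rfl hTs _ rfl hi hii

end Cfsg.Agent.S4270
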