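import Cfsg.Statements.S4271
import Mathlib
import Cfsg.Agent.S4270
-- import your own Cfsg.Agent.* helpers here

set_option autoImplicit false
open Cfsg

namespace Cfsg.Agent.S4271

open scoped Pointwise

open Cfsg.Agent.S4270 in
open Cfsg.Agent.Lib.H1Cop in
theorem pron_of_selfnorm {Y : Type*} [Group Y] [Finite Y] {p : ℕ} [Fact p.Prime]
    (hQ : ∀ P : Sylow p Y, Subgroup.normalizer ((P : Subgroup Y) : Set Y) = P)
    (K : Subgroup Y) (hK : ∃ P : Sylow p Y, (P : Subgroup Y) ≤ K) : Cfsg.IsPronormal K := by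
  obtain ⟨P, hPK⟩ := hK
  intro g
  set L := K ⊔ cj g K with hL
  have h0 : IsSylowIn p (P : Subgroup Y) ⊤ :=
    ⟨le_top, P.isPGroup', by rw [Subgroup.relIndex_top_right]; exact P.not_dvd_index⟩
  have h1 : IsSylowIn p (P : Subgroup Y) L := sylow_sub h0 (hPK.trans le_sup_left) le_top
  have h2 : IsSylowIn p (MulAut.conj g • (P : Subgroup Y)) L := by
    apply sylow_sub (h0.conj_smul (by rw [Subgroup.normalizer_eq_top]; trivial)) _ le_top
    rintro _ ⟨q, hq, rfl⟩
    exact Subgroup.mem_sup_right ⟨q, hPK hq, rfl⟩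
  obtain ⟨l, hl, hle⟩ := h1.exists_conj h2
  have h3 : cj l (P : Subgroup Y) = cj g (P : Subgroup Y) := hle
  have h4 : l⁻¹ * g ∈ Subgroup.normalizer (((P : Subgroup Y) : Subgroup Y) : Set Y) :=
    mem_normalizer_of_cj_eq h3.symm
  rw [hQ] at h4
  refine ⟨l, hl, ?_⟩
  show cj g K = cj l K
  have e : g = l * (l⁻¹ * g) := by group
  conv_lhs => rw [e]
  rw [cj_mul, cj_of_mem_normalizer (Subgroup.le_normalizer (hPK h4))]

open Cfsg.Agent.S4270 in
open Cfsg.Agent.Lib.H1Cop in
theorem hii_of_selfnorm {G : Type*} [Group G] [Finite G] {p : ℕ} [Fact p.Prime] (A : Subgroup G) [A.Normal]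
    (hQ : ∀ P : Sylow p (G ⧸ A), Subgroup.normalizer ((P : Subgroup (G ⧸ A)) : Set (G ⧸ A)) = P)
    (K : Subgroup G) (hK : ∃ P : Sylow p G, (P : Subgroup G) ≤ K) :
    (Subgroup.normalizer (K : Set G)).map (QuotientGroup.mk' A) =
        Subgroup.normalizer ((K.map (QuotientGroup.mk' A) : Subgroup (G ⧸ A)) : Set (G ⧸ A)) := by
  obtain ⟨P, hPK⟩ := hK
  set mk' := QuotientGroup.mk' A with hmk
  apply le_antisymm
  · rintro _ ⟨g, hg, rfl⟩
    apply mem_normalizer_of_cj
    rw [← map_cj]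
    have hg' : g ∈ Subgroup.normalizer (K : Set G) := hg
    rw [cj_of_mem_normalizer hg']
  · intro gb hgb
    have hmap : IsPGroup p ((P : Subgroup G).map mk') := P.isPGroup'.map _
    have hidx : ¬ p ∣ ((P : Subgroup G).map mk').index := fun hd =>
      P.not_dvd_index (hd.trans (Subgroup.index_map_dvd _ (QuotientGroup.mk'_surjective _)))
    set Pb : Sylow p (G ⧸ A) := hmap.toSylow hidx with hPb
    have hPbc : (Pb : Subgroup (G ⧸ A)) = (P : Subgroup G).map mk' := IsPGroup.toSylow_coe _ _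
    have hPbK : (Pb : Subgroup (G ⧸ A)) ≤ K.map mk' := by
      rw [hPbc]; exact Subgroup.map_mono hPK
    have h0 : IsSylowIn p (Pb : Subgroup (G ⧸ A)) ⊤ :=
      ⟨le_top, Pb.isPGroup', by rw [Subgroup.relIndex_top_right]; exact Pb.not_dvd_index⟩
    have h1 : IsSylowIn p (Pb : Subgroup (G ⧸ A)) (K.map mk') := sylow_sub h0 hPbK le_top
    have h2 : IsSylowIn p (MulAut.conj gb • (Pb : Subgroup (G ⧸ A))) (K.map mk') := by
      apply sylow_sub (h0.conj_smul (by rw [Subgroup.normalizer_eq_top]; trivial)) _ le_top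
      rintro _ ⟨q, hq, rfl⟩
      exact (Subgroup.mem_normalizer_iff.1 hgb q).1 (hPbK hq)
    obtain ⟨l, hl, hle⟩ := h1.exists_conj h2
    have h3 : cj l (Pb : Subgroup (G ⧸ A)) = cj gb (Pb : Subgroup (G ⧸ A)) := hle
    have h4 : l⁻¹ * gb ∈ Subgroup.normalizer (((Pb : Subgroup (G ⧸ A)) : Subgroup (G ⧸ A)) : Set (G ⧸ A)) :=
      mem_normalizer_of_cj_eq h3.symm
    rw [hQ] at h4
    have h5 : gb ∈ K.map mk' := by
      have e : gb = l * (l⁻¹ * gb) := by group
      rw [e]
      exact Subgroup.mul_mem _ hl (hPbK h4)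
    exact Subgroup.map_mono (Subgroup.le_normalizer) h5

/-- Let p be a prime and G a finite group with a normal subgroup A such that every subgroup of A containing a Sylow p-subgroup of A is pronormal in A, and the Sylow p-subgroups of G/A are self-normalizing. Let T be a Sylow p-subgroup of A. Then every subgroup of G containing a Sylow p-subgroup of G is pronormal in G if and only if every subgroup of N_G(T)/T containing a Sylow p-subgroup of N_G(T)/T is pronormal in N_G(T)/T. (Pronormal: H and gHg⁻¹ are conjugate inside the subgroup they generate, for every g.) -/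
theorem result {G : Type*} [Group G] [Finite G] {p : ℕ} [Fact p.Prime]
    (A : Subgroup G) [A.Normal] (hA : (∀ K : Subgroup ↥A, (∃ P : Sylow p ↥A, (P : Subgroup ↥A) ≤ K) → Cfsg.IsPronormal K))
    (hQ : ∀ P : Sylow p (G ⧸ A), Subgroup.normalizer ((P : Subgroup (G ⧸ A)) : Set (G ⧸ A)) = P)
    (T : Subgroup G) (hT : ∃ P : Sylow p ↥A, (P : Subgroup ↥A).map A.subtype = T) [(T.subgroupOf (Subgroup.normalizer (T : Set G))).Normal] :
    (∀ K : Subgroup G, (∃ P : Sylow p G, (P : Subgroup G) ≤ K) → Cfsg.IsPronormal K) ↔ (∀ K : Subgroup (↥(Subgroup.normalizer (T : Set G)) ⧸ T.subgroupOf (Subgroup.normalizer (T : Set G))), (∃ P : Sylow p (↥(Subgroup.normalizer (T : Set G)) ⧸ T.subgroupOf (Subgroup.normalizer (T : Set G))), (P : Subgroup (↥(Subgroup.normalizer (T : Set G)) ⧸ T.subgroupOf (Subgroup.normalizer (T : Set G)))) ≤ K) → Cfsg.IsPronormal K) := by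
  obtain ⟨P₀, hP₀⟩ := hT
  have hTs : Lib.H1Cop.IsSylowIn p T A := by
    rw [← hP₀]; exact Lib.H1Cop.isSylowIn_map P₀
  constructor
  · intro h
    exact S4270.fwd_i A T _ rfl hTs _ rfl h
  · intro hi
    exact S4270.back A T _ hA (pron_of_selfnorm hQ) rfl hTs _ rfl hi (hii_of_selfnorm A hQ)

end Cfsg.Agent.S4271
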