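import Cfsg.Statements.S4303
import Mathlib
import Cfsg.Agent.Lib.SylNum
-- import your own Cfsg.Agent.* helpers here

set_option autoImplicit false
universe u
open Cfsg

namespace Cfsg.Agent.S4303

open Subgroup

/-- `n` as a product of its prime parts. -/
theorem list_of_parts (n p : ℕ) (hp : 2 ≤ p) (hn : n ≠ 0) (h : ∀ q : ℕ, q.Prime → q ^ n.factorization q ≡ 1 [MOD p]) :
    ∃ l : List ℕ, l.prod = n ∧ ∀ m ∈ l, IsPrimePow m ∧ m % p = 1 := by
  classical
  refine ⟨n.primeFactors.toList.map (fun q => q ^ n.factorization q), ?_, ?_⟩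
  · rw [Finset.prod_map_toList]
    conv_rhs => rw [← Nat.factorization_prod_pow_eq_self hn]
    rfl
  · intro m hm
    rw [List.mem_map] at hm
    obtain ⟨q, hq, rfl⟩ := hm
    rw [Finset.mem_toList] at hq
    have hq' : q.Prime := Nat.prime_of_mem_primeFactors hq
    have hd : q ∣ n := Nat.dvd_of_mem_primeFactors hq
    refine ⟨hq'.isPrimePow.pow ?_, ?_⟩
    · exact (hq'.factorization_pos_of_dvd hn hd).ne'
    · have := h q hq'
      unfold Nat.ModEq at this
      rw [this, Nat.mod_eq_of_lt (by omega)]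

theorem main_ind (p : ℕ) [Fact p.Prime] : ∀ (n : ℕ) (G : Type u) [Group G] [Finite G], Nat.card G = n →
    ∃ l : List ℕ, l.prod = Nat.card (Sylow p G) ∧
      ∀ m ∈ l, (IsPrimePow m ∧ m % p = 1) ∨
        ∃ (S : Type u) (_ : Group S) (_ : Finite S), IsSimpleGroup S ∧ m = Nat.card (Sylow p S) := by
  intro n
  induction n using Nat.strong_induction_on with
  | _ n ih =>
  intro G _ _ hn
  have hp2 : 2 ≤ p := (Fact.out : p.Prime).two_le
  rcases subsingleton_or_nontrivial G with hs | hnt
  · have h1 : Nat.card (Sylow p G) = 1 := by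
      obtain ⟨P⟩ : Nonempty (Sylow p G) := inferInstance
      rw [P.card_eq_index_normalizer]
      have : normalizer ((P : Subgroup G) : Set G) = ⊤ := Subsingleton.elim _ _
      show (normalizer ((P : Subgroup G) : Set G)).index = 1
      rw [this, Subgroup.index_top]
    exact ⟨[], by simp [h1], by simp⟩
  by_cases hsimple : IsSimpleGroup G
  · refine ⟨[Nat.card (Sylow p G)], by simp, ?_⟩
    intro m hm
    rw [List.mem_singleton] at hm
    exact Or.inr ⟨G, inferInstance, inferInstance, hsimple, hm⟩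
  -- a proper nontrivial normal subgroup
  obtain ⟨K, hKn, hKbot, hKtop⟩ : ∃ K : Subgroup G, K.Normal ∧ K ≠ ⊥ ∧ K ≠ ⊤ := by
    by_contra hno
    push_neg at hno
    apply hsimple
    exact { eq_bot_or_eq_top_of_normal := fun H hH => by
              by_cases hb : H = ⊥
              · exact Or.inl hb
              · exact Or.inr (hno H hH hb) }
  obtain ⟨P⟩ : Nonempty (Sylow p G) := inferInstance
  let N : Subgroup G := ((P : Subgroup G) ⊔ K) ⊓ Subgroup.normalizer (((P : Subgroup G) ⊓ K : Subgroup G) : Set G)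
  have hQN : (P : Subgroup G) ⊓ K ≤ N :=
    le_inf (inf_le_left.trans le_sup_left) (Subgroup.le_normalizer)
  haveI hnn : (((P : Subgroup G) ⊓ K).subgroupOf N).Normal :=
    (Subgroup.normal_subgroupOf_iff_le_normalizer hQN).mpr inf_le_right
  have hform := Cfsg.Agent.S4341.result p K P N rfl
  have hcardQ : Nat.card (G ⧸ K) < n := by
    rw [← hn, ← Subgroup.index_eq_card]
    have h1 := Subgroup.card_mul_index K
    have h2 : 1 < Nat.card K := by
      obtain ⟨a, ha⟩ := (Subgroup.ne_bot_iff_exists_ne_one).mp hKbot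
      have : Nontrivial K := ⟨⟨a, 1, ha⟩⟩
      exact Finite.one_lt_card
    have h3 : 0 < K.index := Nat.pos_of_ne_zero Subgroup.index_ne_zero_of_finite
    rw [← h1]
    nlinarith
  have hcardK : Nat.card K < n := by
    rw [← hn]
    have h1 : Nat.card K ≤ Nat.card G := Subgroup.card_le_card_group K
    have h2 : Nat.card K ≠ Nat.card G := fun h => hKtop (Subgroup.eq_top_of_card_eq K h)
    omega
  obtain ⟨l₁, hl₁, hl₁'⟩ := ih _ hcardQ (G ⧸ K) rfl
  obtain ⟨l₂, hl₂, hl₂'⟩ := ih _ hcardK K rfl
  by_cases hcardN : Nat.card (N ⧸ ((P : Subgroup G) ⊓ K).subgroupOf N) < n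
  · obtain ⟨l₃, hl₃, hl₃'⟩ := ih _ hcardN (N ⧸ ((P : Subgroup G) ⊓ K).subgroupOf N) rfl
    refine ⟨l₁ ++ l₂ ++ l₃, ?_, ?_⟩
    · rw [List.prod_append, List.prod_append, hl₁, hl₂, hl₃, hform]
    · intro m hm
      rw [List.mem_append, List.mem_append] at hm
      rcases hm with (hm | hm) | hm
      · exact hl₁' m hm
      · exact hl₂' m hm
      · exact hl₃' m hm
  · -- `G = K P` with `K` a `p'`-group
    have h1 := Subgroup.card_eq_card_quotient_mul_card_subgroup (((P : Subgroup G) ⊓ K).subgroupOf N)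
    have h2 : Nat.card N ≤ Nat.card G := Subgroup.card_le_card_group N
    have h3 : 0 < Nat.card (((P : Subgroup G) ⊓ K).subgroupOf N) := Nat.card_pos
    have h4 : Nat.card N = Nat.card G := by
      rw [hn] at h2
      have : n ≤ Nat.card N := by
        rw [h1]
        push_neg at hcardN
        calc n ≤ _ := hcardN
          _ ≤ _ := Nat.le_mul_of_pos_right _ h3
      rw [hn]
      omega
    have hNtop : N = ⊤ := Subgroup.eq_top_of_card_eq N h4
    have h5 : Nat.card (((P : Subgroup G) ⊓ K).subgroupOf N) = 1 := by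
      have h6 : Nat.card (N ⧸ ((P : Subgroup G) ⊓ K).subgroupOf N) ≥ n := not_lt.mp hcardN
      have h7 : Nat.card N = n := by rw [h4, hn]
      rw [h7] at h1
      have h8 : 0 < Nat.card (N ⧸ ((P : Subgroup G) ⊓ K).subgroupOf N) := Nat.card_pos
      by_contra hne
      have h9 : 2 ≤ Nat.card (((P : Subgroup G) ⊓ K).subgroupOf N) := by omega
      nlinarith [hn ▸ (Nat.card_pos : 0 < Nat.card G)]
    have hinf : (P : Subgroup G) ⊓ K = ⊥ := by
      rw [eq_bot_iff]
      intro x hx
      have hxN : x ∈ N := hQN hx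
      have hmem : (⟨x, hxN⟩ : N) ∈ ((P : Subgroup G) ⊓ K).subgroupOf N := hx
      haveI := (Nat.card_eq_one_iff_unique.mp h5).1
      have : (⟨⟨x, hxN⟩, hmem⟩ : ((P : Subgroup G) ⊓ K).subgroupOf N) = 1 := Subsingleton.elim _ _
      have h10 := congrArg Subtype.val (congrArg Subtype.val this)
      simpa using h10
    have hsup : (P : Subgroup G) ⊔ K = ⊤ := by
      rw [eq_top_iff, ← hNtop]
      exact inf_le_left
    have hKp : ¬ p ∣ Nat.card K := by
      have h11 := (Cfsg.Agent.Lib.PNilp.sylowOfNormal P K).not_dvd_index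
      have h12 : ((Cfsg.Agent.Lib.PNilp.sylowOfNormal P K : Sylow p K) : Subgroup K) = ⊥ := by
        rw [Cfsg.Agent.Lib.PNilp.coe_sylowOfNormal, eq_bot_iff]
        intro x hx
        have : (x : G) ∈ (P : Subgroup G) ⊓ K := ⟨hx, x.2⟩
        rw [hinf, Subgroup.mem_bot] at this
        exact Subgroup.mem_bot.mpr (Subtype.ext this)
      rw [h12, Subgroup.index_bot] at h11
      exact h11
    obtain ⟨l, hl, hl'⟩ := list_of_parts (Nat.card (Sylow p G)) p hp2 Nat.card_pos.ne' (fun q hq =>
      Lib.SylNum.part_of_split p q hq P K hKp hsup)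
    exact ⟨l, hl, fun m hm => Or.inl (hl' m hm)⟩

/-- For a finite group `G` and a prime `p`, the number of Sylow `p`-subgroups of `G` is a product of natural numbers each of which is either a prime power congruent to 1 modulo `p` or the number of Sylow `p`-subgroups of some finite simple group. -/
theorem result {G : Type u} [Group G] [Finite G]
    (p : ℕ) [Fact p.Prime] :
    ∃ l : List ℕ, l.prod = Nat.card (Sylow p G) ∧
      ∀ m ∈ l, (IsPrimePow m ∧ m % p = 1) ∨
        ∃ (S : Type u) (_ : Group S) (_ : Finite S), IsSimpleGroup S ∧ m = Nat.card (Sylow p S) := by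
  exact main_ind p _ G rfl

end Cfsg.Agent.S4303
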