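import Cfsg.Statements.S4314
import Mathlib
import Cfsg.Agent.Lib.ItoTwo
import Cfsg.Agent.Lib.FGSBasic
import Cfsg.Agent.S3858
-- import your own Cfsg.Agent.* helpers here

set_option autoImplicit false
open Cfsg

namespace Cfsg.Agent.S4314

open Subgroup

section
variable {G : Type*} [Group G] [Finite G]

abbrev cc (x : G) : Subgroup G := centralizer ({x} : Set G)

theorem mem_cc {g x : G} : g ∈ cc x ↔ g * x = x * g := mem_centralizer_singleton_iff

theorem idx_ne_one {x : G} (hx : x ∉ center G) : (cc x).index ≠ 1 := by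
  intro h1
  rw [Subgroup.index_eq_one] at h1
  apply hx
  rw [Subgroup.mem_center_iff]
  intro g
  have : g ∈ cc x := by rw [h1]; trivial
  exact mem_cc.mp this

theorem eq_of_le_idx {A B : Subgroup G} (hAB : A ≤ B) (h : A.index = B.index) : A = B := by
  apply Subgroup.eq_of_le_of_card_ge hAB
  have h1 := A.card_mul_index
  have h2 := B.card_mul_index
  rw [← h2, h] at h1
  have h3 : 0 < B.index := Nat.pos_of_ne_zero Subgroup.index_ne_zero_of_finite
  exact (Nat.eq_of_mul_eq_mul_right h3 h1).ge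

theorem center_le_cc (x : G) : center G ≤ cc x := by
  intro u hu
  exact mem_cc.mpr (Subgroup.mem_center_iff.mp hu x).symm

theorem idx_conj (x g : G) : (cc (g * x * g⁻¹)).index = (cc x).index := by
  rw [← Lib.FGSBasic.card_conj_eq_index, ← Lib.FGSBasic.card_conj_eq_index]
  refine Nat.card_congr (Equiv.subtypeEquivRight fun z => ?_)
  have h : IsConj x (g * x * g⁻¹) := isConj_iff.mpr ⟨g, rfl⟩
  exact ⟨fun h1 => h.trans h1, fun h1 => h.symm.trans h1⟩

theorem inf_index {A B : Subgroup G} (hco : A.index.Coprime B.index) : (A ⊓ B).index = A.index * B.index := by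
  apply le_antisymm Subgroup.index_inf_le
  apply Nat.le_of_dvd (Nat.pos_of_ne_zero Subgroup.index_ne_zero_of_finite)
  exact Nat.Coprime.mul_dvd_of_dvd_of_dvd hco (Subgroup.index_dvd_of_le inf_le_left) (Subgroup.index_dvd_of_le inf_le_right)

theorem comm_coprime {x y : G} (hc : Commute x y) (hco : (orderOf x).Coprime (orderOf y)) :
    cc (x * y) = cc x ⊓ cc y := by
  apply le_antisymm
  · obtain ⟨m, hm⟩ := Lib.ItoTwo.pow_of_commute_coprime hc hco
    obtain ⟨m', hm'⟩ := Lib.ItoTwo.pow_of_commute_coprime hc.symm hco.symm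
    rw [← hc.eq] at hm'
    exact le_inf (Lib.ItoTwo.cent_le_of_eq_pow hm) (Lib.ItoTwo.cent_le_of_eq_pow hm')
  · rintro g ⟨h1, h2⟩
    have h3 : Commute g x := mem_cc.mp h1
    have h4 : Commute g y := mem_cc.mp h2
    exact mem_cc.mpr (h3.mul_right h4)

variable (h : ∀ x : G, (cc x).index = 1 ∨ (cc x).index.Prime)
include h

theorem idx_prime {x : G} (hx : x ∉ center G) : (cc x).index.Prime :=
  (h x).resolve_left (idx_ne_one hx)

theorem part {x : G} (hx : x ∉ center G) : ∃ u ∈ zpowers x, u ∉ center G ∧ (∃ s k : ℕ, s.Prime ∧ orderOf u = s ^ k) ∧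
    cc u = cc x := by
  obtain ⟨u, hu, huc, s, k, hs, hk⟩ := Lib.ItoTwo.exists_part hx
  refine ⟨u, hu, huc, ⟨s, k, hs, hk⟩, ?_⟩
  have hle : cc x ≤ cc u := by
    intro v hv
    have h1 : Commute v x := mem_cc.mp hv
    obtain ⟨i, rfl⟩ := hu
    exact mem_cc.mpr (h1.zpow_right i)
  symm
  apply eq_of_le_idx hle
  have h1 := Subgroup.index_dvd_of_le hle
  have h2 := idx_prime h hx
  rcases (Nat.dvd_prime h2).mp h1 with h3 | h3
  · exact absurd h3 (idx_ne_one huc)
  · exact h3.symm

theorem same_of_commute {x w : G} (hx : x ∉ center G) (hw : w ∉ center G) (hc : Commute w x)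
    (hco : (orderOf w).Coprime (orderOf x)) : cc w = cc x := by
  have h1 := comm_coprime hc hco
  have hpx := idx_prime h hx
  have hpw := idx_prime h hw
  have h2 : (cc w ⊓ cc x).index ≠ 1 := by
    intro h3
    have h4 : cc x ≤ cc w ⊓ cc x := by
      intro v _
      rw [Subgroup.index_eq_one] at h3
      rw [h3]
      trivial
    have h5 := (Subgroup.index_eq_one.mp h3)
    have h6 : (⊤ : Subgroup G) ≤ cc x := by rw [← h5]; exact inf_le_right
    exact idx_ne_one hx (Subgroup.index_eq_one.mpr (top_le_iff.mp h6))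
  have h3 : (cc w ⊓ cc x).index.Prime := by
    have := h (w * x)
    rw [h1] at this
    exact this.resolve_left h2
  have h4 : (cc w ⊓ cc x).index = (cc x).index := by
    have := Subgroup.index_dvd_of_le (inf_le_right : cc w ⊓ cc x ≤ cc x)
    rcases (Nat.dvd_prime h3).mp this with h5 | h5
    · exact absurd h5 hpx.one_lt.ne'
    · exact h5.symm
  have h5 : (cc w ⊓ cc x).index = (cc w).index := by
    have := Subgroup.index_dvd_of_le (inf_le_left : cc w ⊓ cc x ≤ cc w)
    rcases (Nat.dvd_prime h3).mp this with h5 | h5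
    · exact absurd h5 hpw.one_lt.ne'
    · exact h5.symm
  have h6 := eq_of_le_idx (inf_le_right : cc w ⊓ cc x ≤ cc x) h4
  have h7 := eq_of_le_idx (inf_le_left : cc w ⊓ cc x ≤ cc w) h5
  rw [← h7, h6]

theorem main_case {x y : G} (hx : x ∉ center G) (hy : y ∉ center G) {l l' a b : ℕ} (hl : l.Prime) (hl' : l'.Prime)
    (hll : l ≠ l') (hxo : orderOf x = l ^ a) (hyo : orderOf y = l' ^ b) (hne : (cc x).index ≠ (cc y).index) :
    ∃ p q : ℕ, p.Prime ∧ q.Prime ∧ p ≠ q ∧ Nat.card (G ⧸ center G) = p * q ∧ ¬ IsMulCommutative (G ⧸ center G) := by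
  classical
  set p := (cc x).index with hp
  set q := (cc y).index with hq
  have hpp : p.Prime := idx_prime h hx
  have hqp : q.Prime := idx_prime h hy
  have hco : Nat.Coprime (l ^ a) (l' ^ b) := Nat.Coprime.pow _ _ ((Nat.coprime_primes hl hl').mpr hll)
  -- no conjugate of `y` commutes with `x`
  have hnc : ∀ g : G, ¬ Commute x (g * y * g⁻¹) := by
    intro g hc
    have hy' : g * y * g⁻¹ ∉ center G := by
      intro hm
      apply hy
      have := (inferInstance : (center G).Normal).conj_mem _ hm g⁻¹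
      convert this using 1
      group
    have hord : orderOf (g * y * g⁻¹) = l' ^ b := by
      rw [← hyo]
      exact MulEquiv.orderOf_eq (MulAut.conj g) y
    have := same_of_commute h hx hy' hc.symm (by rw [hord, hxo]; exact hco.symm)
    apply hne
    rw [hp, hq, ← idx_conj y g, ← this]
  have hxy : ¬ Commute x y := by
    intro hc
    apply hnc 1
    simpa using hc
  have hl_q : l = q := by
    by_contra hne2
    have hnd : ¬ l ∣ (cc y).index := by
      rw [← hq]
      intro hd
      exact hne2 ((Nat.prime_dvd_prime_iff_eq hl hqp).mp hd)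
    haveI : Fact l.Prime := ⟨hl⟩
    have hPG : IsPGroup l (zpowers x) := by
      apply IsPGroup.of_card (n := a)
      rw [Nat.card_zpowers, hxo]
    obtain ⟨g, hg⟩ := S3858.exists_conj_le (zpowers x) hPG (cc y) hnd
    obtain ⟨c, hc, hcx⟩ := hg (mem_zpowers x)
    have hcx' : g * c * g⁻¹ = x := hcx
    apply hnc g
    rw [← hcx']
    have h1 : Commute c y := mem_cc.mp hc
    show g * c * g⁻¹ * (g * y * g⁻¹) = g * y * g⁻¹ * (g * c * g⁻¹)
    calc g * c * g⁻¹ * (g * y * g⁻¹) = g * (c * y) * g⁻¹ := by group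
      _ = g * (y * c) * g⁻¹ := by rw [h1.eq]
      _ = _ := by group
  have hl'_p : l' = p := by
    by_contra hne2
    have hnd : ¬ l' ∣ (cc x).index := by
      rw [← hp]
      intro hd
      exact hne2 ((Nat.prime_dvd_prime_iff_eq hl' hpp).mp hd)
    haveI : Fact l'.Prime := ⟨hl'⟩
    have hPG : IsPGroup l' (zpowers y) := by
      apply IsPGroup.of_card (n := b)
      rw [Nat.card_zpowers, hyo]
    obtain ⟨g, hg⟩ := S3858.exists_conj_le (zpowers y) hPG (cc x) hnd
    obtain ⟨c, hc, hcx⟩ := hg (mem_zpowers y)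
    have hcx' : g * c * g⁻¹ = y := hcx
    apply hnc g⁻¹
    have h1 : Commute c x := mem_cc.mp hc
    have h2 : g⁻¹ * y * g⁻¹⁻¹ = c := by rw [← hcx']; group
    rw [h2]
    exact h1.symm
  have hcore : cc x ⊓ cc y ≤ center G := by
    intro w hw
    by_contra hwc
    obtain ⟨u, hu, huc, ⟨t, k, ht, hk⟩, -⟩ := part h hwc
    have huxy : u ∈ cc x ⊓ cc y := by
      obtain ⟨i, rfl⟩ := hu
      exact zpow_mem hw i
    have hux : Commute u x := mem_cc.mp huxy.1
    have huy : Commute u y := mem_cc.mp huxy.2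
    by_cases htq : t = l
    · -- then `t ≠ l'`
      have h1 : cc u = cc y := same_of_commute h hy huc huy (by
        rw [hk, hyo, htq]
        exact Nat.Coprime.pow _ _ ((Nat.coprime_primes hl hl').mpr hll))
      have h2 : x ∈ cc u := mem_cc.mpr hux.symm.eq
      rw [h1] at h2
      exact hxy (mem_cc.mp h2)
    · have h1 : cc u = cc x := same_of_commute h hx huc hux (by
        rw [hk, hxo]
        exact Nat.Coprime.pow _ _ ((Nat.coprime_primes ht hl).mpr htq))
      have h2 : y ∈ cc u := mem_cc.mpr huy.symm.eq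
      rw [h1] at h2
      exact hxy (mem_cc.mp h2).symm
  have hcen : center G = cc x ⊓ cc y := le_antisymm (le_inf (center_le_cc x) (center_le_cc y)) hcore
  have hpq : Nat.Coprime p q := (Nat.coprime_primes hpp hqp).mpr hne
  have hcard : Nat.card (G ⧸ center G) = p * q := by
    show (center G).index = p * q
    rw [hcen]
    exact inf_index hpq
  refine ⟨p, q, hpp, hqp, hne, hcard, ?_⟩
  intro hcomm
  have hxbar : ((x : G) : G ⧸ center G) ≠ 1 := fun h1 => hx ((QuotientGroup.eq_one_iff x).mp h1)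
  have hybar : ((y : G) : G ⧸ center G) ≠ 1 := fun h1 => hy ((QuotientGroup.eq_one_iff y).mp h1)
  have hxd : orderOf ((x : G) : G ⧸ center G) = q := by
    have h1 : orderOf ((x : G) : G ⧸ center G) ∣ l ^ a := by
      rw [← hxo]
      exact orderOf_map_dvd (QuotientGroup.mk' (center G)) x
    have h2 : orderOf ((x : G) : G ⧸ center G) ∣ p * q := by
      rw [← hcard]
      exact orderOf_dvd_natCard _
    have h3 : Nat.Coprime (l ^ a) p := by
      rw [hl_q]
      exact Nat.Coprime.pow_left _ hpq.symm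
    have h4 : orderOf ((x : G) : G ⧸ center G) ∣ q := by
      have h5 : Nat.Coprime (orderOf ((x : G) : G ⧸ center G)) p := Nat.Coprime.coprime_dvd_left h1 h3
      exact h5.dvd_of_dvd_mul_left h2
    rcases (Nat.dvd_prime hqp).mp h4 with h5 | h5
    · exact absurd (orderOf_eq_one_iff.mp h5) hxbar
    · exact h5
  have hyd : orderOf ((y : G) : G ⧸ center G) = p := by
    have h1 : orderOf ((y : G) : G ⧸ center G) ∣ l' ^ b := by
      rw [← hyo]
      exact orderOf_map_dvd (QuotientGroup.mk' (center G)) y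
    have h2 : orderOf ((y : G) : G ⧸ center G) ∣ p * q := by
      rw [← hcard]
      exact orderOf_dvd_natCard _
    have h3 : Nat.Coprime (l' ^ b) q := by
      rw [hl'_p]
      exact Nat.Coprime.pow_left _ hpq
    have h4 : orderOf ((y : G) : G ⧸ center G) ∣ p := by
      have h5 : Nat.Coprime (orderOf ((y : G) : G ⧸ center G)) q := Nat.Coprime.coprime_dvd_left h1 h3
      exact h5.dvd_of_dvd_mul_right h2
    rcases (Nat.dvd_prime hpp).mp h4 with h5 | h5
    · exact absurd (orderOf_eq_one_iff.mp h5) hybar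
    · exact h5
  have hc : Commute ((x : G) : G ⧸ center G) ((y : G) : G ⧸ center G) := hcomm.is_comm.comm _ _
  have hord : orderOf (((x : G) : G ⧸ center G) * ((y : G) : G ⧸ center G)) = Nat.card (G ⧸ center G) := by
    rw [hc.orderOf_mul_eq_mul_orderOf_of_coprime (by rw [hxd, hyd]; exact hpq.symm), hxd, hyd, hcard, mul_comm]
  haveI : IsCyclic (G ⧸ center G) := isCyclic_of_orderOf_eq_card _ hord
  apply hx
  rw [Subgroup.mem_center_iff]
  intro g
  exact commutative_of_cyclic_center_quotient (QuotientGroup.mk' (center G)) (by simp) g x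

/-- a p-element outside a subgroup whose index is divisible by p -/
theorem exists_elem_not_mem {p : ℕ} (hp : p.Prime) (H : Subgroup G) (hd : p ∣ H.index) :
    ∃ u : G, u ∉ H ∧ ∃ k, orderOf u = p ^ k := by
  classical
  haveI : Fact p.Prime := ⟨hp⟩
  let P : Sylow p G := default
  have h1 : ¬ (P : Subgroup G) ≤ H := by
    intro hle
    exact P.not_dvd_index (hd.trans (Subgroup.index_dvd_of_le hle))
  obtain ⟨u, hu, hu'⟩ := SetLike.not_le_iff_exists.mp h1
  refine ⟨u, hu', ?_⟩
  have h2 : IsPGroup p (P : Subgroup G) := P.isPGroup'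
  obtain ⟨k, hk⟩ := IsPGroup.iff_orderOf.mp h2 ⟨u, hu⟩
  exact ⟨k, by rw [← hk, Subgroup.orderOf_mk]⟩

theorem aux_case {x y : G} (hx : x ∉ center G) (hy : y ∉ center G) {r a b : ℕ} (hr : r.Prime)
    (hxo : orderOf x = r ^ a) (hyo : orderOf y = r ^ b) (hne : (cc x).index ≠ (cc y).index)
    (hrp : r ≠ (cc x).index) :
    ∃ p q : ℕ, p.Prime ∧ q.Prime ∧ p ≠ q ∧ Nat.card (G ⧸ center G) = p * q ∧ ¬ IsMulCommutative (G ⧸ center G) := by
  have hpp := idx_prime h hx
  obtain ⟨u, hu, k, hk⟩ := exists_elem_not_mem h hpp (cc x) dvd_rfl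
  have huc : u ∉ center G := fun hm => hu (center_le_cc x hm)
  by_cases h1 : (cc x).index = (cc u).index
  · exact main_case h huc hy hpp hr hrp.symm hk hyo (by rw [← h1]; exact hne)
  · exact main_case h hx huc hr hpp hrp hxo hk h1

theorem same_idx (hnot : ¬ ∃ p q : ℕ, p.Prime ∧ q.Prime ∧ p ≠ q ∧ Nat.card (G ⧸ center G) = p * q ∧ ¬ IsMulCommutative (G ⧸ center G))
    {x y : G} (hx : x ∉ center G) (hy : y ∉ center G) : (cc x).index = (cc y).index := by
  by_contra hne
  obtain ⟨x', -, hxc, ⟨r, a, hr, hra⟩, hx'⟩ := part h hx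
  obtain ⟨y', -, hyc, ⟨s, b, hs, hsb⟩, hy'⟩ := part h hy
  rw [← hx', ← hy'] at hne
  apply hnot
  by_cases hrs : r = s
  · subst hrs
    by_cases h1 : r = (cc x').index
    · have h2 : r ≠ (cc y').index := fun h3 => hne (h1.symm.trans h3)
      exact aux_case h hyc hxc hr hsb hra (Ne.symm hne) h2
    · exact aux_case h hxc hyc hr hra hsb hne h1
  · exact main_case h hxc hyc hr hs hrs hra hsb hne

end

section class2
variable {G : Type*} [Group G] [Finite G]

theorem lemmaK {a c Z : G} {p : ℕ} (hZ : Z ∈ center G) (hord : orderOf Z = p) (hidx : (cc a).index = p)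
    (hc : c * a * c⁻¹ = Z * a) {a' : G} (ha' : IsConj a a') : ∃ k : ℕ, a' = Z ^ k * a := by
  classical
  have hp : 0 < p := by rw [← hord]; exact orderOf_pos Z
  have hpow : ∀ k : ℕ, c ^ k * a * (c ^ k)⁻¹ = Z ^ k * a := by
    intro k
    induction k with
    | zero => simp
    | succ k ih =>
      have h1 : Z * c = c * Z := (Subgroup.mem_center_iff.mp hZ c).symm
      calc c ^ (k + 1) * a * (c ^ (k + 1))⁻¹ = c * (c ^ k * a * (c ^ k)⁻¹) * c⁻¹ := by
            rw [pow_succ']
            group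
        _ = c * (Z ^ k * a) * c⁻¹ := by rw [ih]
        _ = Z ^ k * (c * a * c⁻¹) := by
            have h2 : Commute (Z ^ k) c := (show Commute Z c from (Subgroup.mem_center_iff.mp hZ c).symm).pow_left k
            calc c * (Z ^ k * a) * c⁻¹ = (c * Z ^ k) * a * c⁻¹ := by group
              _ = (Z ^ k * c) * a * c⁻¹ := by rw [h2.eq]
              _ = _ := by group
        _ = Z ^ (k + 1) * a := by rw [hc, pow_succ]; group
  let f : Fin p → {y : G // IsConj a y} := fun k => ⟨Z ^ (k : ℕ) * a, isConj_iff.mpr ⟨c ^ (k : ℕ), hpow k⟩⟩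
  have hinj : Function.Injective f := by
    intro i j hij
    have h1 : Z ^ (i : ℕ) * a = Z ^ (j : ℕ) * a := congrArg Subtype.val hij
    have h2 : Z ^ (i : ℕ) = Z ^ (j : ℕ) := mul_right_cancel h1
    have h3 := pow_injOn_Iio_orderOf (x := Z)
    rw [hord] at h3
    exact Fin.ext (h3 i.2 j.2 h2)
  have hcard : Nat.card (Fin p) = Nat.card {y : G // IsConj a y} := by
    rw [Lib.FGSBasic.card_conj_eq_index, hidx, Nat.card_eq_fintype_card, Fintype.card_fin]
  have hbij := (Nat.bijective_iff_injective_and_card f).mpr ⟨hinj, hcard⟩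
  obtain ⟨k, hk⟩ := hbij.2 ⟨a', ha'⟩
  exact ⟨k, (congrArg Subtype.val hk).symm⟩

theorem lemmaO {d c : G} {p : ℕ} (hpp : p.Prime) (hd : ∀ g : G, g * d * g⁻¹ * d⁻¹ ∈ center G)
    (hidx : (cc d).index = p) (hc : c ∉ cc d) : orderOf (c * d * c⁻¹ * d⁻¹) = p := by
  classical
  haveI : Fact p.Prime := ⟨hpp⟩
  let ψ : G →* center G := MonoidHom.mk' (fun g => ⟨g * d * g⁻¹ * d⁻¹, hd g⟩) (by
    intro a b
    apply Subtype.ext
    show a * b * d * (a * b)⁻¹ * d⁻¹ = (a * d * a⁻¹ * d⁻¹) * (b * d * b⁻¹ * d⁻¹)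
    have h1 := Subgroup.mem_center_iff.mp (hd b) a
    calc a * b * d * (a * b)⁻¹ * d⁻¹ = a * (b * d * b⁻¹ * d⁻¹) * d * a⁻¹ * d⁻¹ := by group
      _ = (b * d * b⁻¹ * d⁻¹) * a * d * a⁻¹ * d⁻¹ := by rw [← h1]
      _ = (b * d * b⁻¹ * d⁻¹) * (a * d * a⁻¹ * d⁻¹) := by group
      _ = (a * d * a⁻¹ * d⁻¹) * (b * d * b⁻¹ * d⁻¹) := (Subgroup.mem_center_iff.mp (hd b) (a * d * a⁻¹ * d⁻¹)).symm)
  have hker : ψ.ker = cc d := by
    ext g
    rw [MonoidHom.mem_ker, mem_cc]
    constructor
    · intro h1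
      have h2 : g * d * g⁻¹ * d⁻¹ = 1 := congrArg Subtype.val h1
      have h3 : g * d = (g * d * g⁻¹ * d⁻¹) * (d * g) := by group
      rw [h3, h2, one_mul]
    · intro h1
      apply Subtype.ext
      show g * d * g⁻¹ * d⁻¹ = 1
      rw [h1]
      group
  have hrange : Nat.card ψ.range = p := by
    rw [← Subgroup.index_ker, hker, hidx]
  have hne : ψ c ≠ 1 := by
    intro h1
    apply hc
    rw [← hker]
    exact h1
  have hpow : (⟨ψ c, c, rfl⟩ : ψ.range) ^ p = 1 := by
    rw [← hrange]
    exact pow_card_eq_one'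
  have h3 : orderOf (⟨ψ c, c, rfl⟩ : ψ.range) = p := orderOf_eq_prime hpow (by
    intro h1
    exact hne (congrArg Subtype.val h1))
  have h4 : orderOf (ψ c) = p := by
    rw [← h3]
    exact (Subgroup.orderOf_mk _ _).symm
  rw [← h4]
  exact (Subgroup.orderOf_mk (c * d * c⁻¹ * d⁻¹) (hd c)).symm

/-- Knoche's step: `Z₃ ≤ Z₂` when every noncentral class has size `p`. -/
theorem step3 {p : ℕ} (hpp : p.Prime) (hG : IsPGroup p (G ⧸ center G))
    (hall : ∀ x : G, x ∉ center G → (cc x).index = p) {b : G}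
    (hb : ∀ y : G, b * y * b⁻¹ * y⁻¹ ∈ Subgroup.upperCentralSeries G 2) : b ∈ Subgroup.upperCentralSeries G 2 := by
  classical
  by_contra hbn
  rw [show (2 : ℕ) = 1 + 1 from rfl, Subgroup.mem_upperCentralSeries_succ_iff] at hbn
  push Not at hbn
  obtain ⟨y, hy⟩ := hbn
  rw [Subgroup.upperCentralSeries_one, commutatorElement_def] at hy
  set d := b * y * b⁻¹ * y⁻¹ with hd
  have hd2 : ∀ g : G, g * d * g⁻¹ * d⁻¹ ∈ center G := by
    intro g
    have h1 : d ∈ Subgroup.upperCentralSeries G 2 := hb y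
    rw [show (2 : ℕ) = 1 + 1 from rfl, Subgroup.mem_upperCentralSeries_succ_iff] at h1
    have h2 := h1 g
    rw [Subgroup.upperCentralSeries_one, commutatorElement_def] at h2
    have h3 := inv_mem h2
    convert h3 using 1
    group
  have hdidx := hall d hy
  have hbc : b ∉ center G := by
    intro hm
    apply hy
    have h1 : d = 1 := by
      rw [hd, ← Subgroup.mem_center_iff.mp hm y]
      group
    rw [h1]
    exact one_mem _
  have hbidx := hall b hbc
  have hycb : y ∉ cc b := by
    intro hm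
    apply hy
    have h1 : y * b = b * y := mem_cc.mp hm
    have h2 : d = 1 := by
      rw [hd, ← h1]
      group
    rw [h2]
    exact one_mem _
  -- `C(b) ≤ C(d)`
  have hle : cc b ≤ cc d := by
    intro c hc
    by_contra hcd
    have hzord := lemmaO hpp hd2 hdidx hcd
    set z := c * d * c⁻¹ * d⁻¹ with hz
    have hzc : z ∈ center G := hd2 c
    have hcb : c * b = b * c := mem_cc.mp hc
    have hconj : c * d * c⁻¹ = z * d := by rw [hz]; group
    have hcb2 : c * b * c⁻¹ = b := by rw [hcb]; group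
    set a := d⁻¹ * b with ha
    have hca : c * a * c⁻¹ = z⁻¹ * a := by
      have h1 : c * d⁻¹ * c⁻¹ = d⁻¹ * z⁻¹ := by
        have := congrArg (·⁻¹) hconj
        simpa [mul_assoc] using this
      have h2 : d⁻¹ * z⁻¹ = z⁻¹ * d⁻¹ := Subgroup.mem_center_iff.mp (inv_mem hzc) d⁻¹
      calc c * a * c⁻¹ = (c * d⁻¹ * c⁻¹) * (c * b * c⁻¹) := by rw [ha]; group
        _ = z⁻¹ * a := by rw [h1, h2, hcb2, ha]; group
    have hya : y * b * y⁻¹ = a := by
      rw [ha, hd]
      group
    have hconj2 : IsConj a b := by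
      rw [← hya]
      exact (isConj_iff.mpr ⟨y, rfl⟩ : IsConj b (y * b * y⁻¹)).symm
    have haidx : (cc a).index = p := by
      rw [← hya, idx_conj]
      exact hbidx
    obtain ⟨k, hk⟩ := lemmaK (inv_mem hzc) (by rw [orderOf_inv]; exact hzord) haidx hca hconj2
    apply hy
    have h3 : b = (z⁻¹) ^ k * (d⁻¹ * b) := hk
    have h4 : (z⁻¹) ^ k * d⁻¹ = 1 := by
      have h5 : (z⁻¹) ^ k * d⁻¹ * b = 1 * b := by
        rw [one_mul, mul_assoc]
        exact h3.symm
      exact mul_right_cancel h5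
    have h6 : d = (z⁻¹) ^ k := (mul_inv_eq_one.mp h4).symm
    rw [h6]
    exact pow_mem (inv_mem hzc) k
  have heq : cc b = cc d := eq_of_le_idx hle (by rw [hbidx, hdidx])
  have hycd : y ∉ cc d := by rw [← heq]; exact hycb
  have hyc : y ∉ center G := fun hm => hycd (center_le_cc d hm)
  have hordw := lemmaO hpp hd2 hdidx hycd
  set w := y * d * y⁻¹ * d⁻¹ with hw
  have hwc : w ∈ center G := hd2 y
  have hdy : d * y * d⁻¹ = w⁻¹ * y := by
    rw [hw]
    group
  have hbconj : IsConj y (b * y * b⁻¹) := isConj_iff.mpr ⟨b, rfl⟩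
  obtain ⟨k, hk⟩ := lemmaK (inv_mem hwc) (by rw [orderOf_inv]; exact hordw) (hall y hyc) hdy hbconj
  apply hy
  have h1 : b * y * b⁻¹ = d * y := by rw [hd]; group
  rw [h1] at hk
  have h2 : d = (w⁻¹) ^ k := mul_right_cancel hk
  rw [h2]
  exact pow_mem (inv_mem hwc) k

end class2

/-- Let `G` be a finite group every conjugacy class of which has size 1 or a prime. Then either `G` is nilpotent of class at most 2, or `G/Z(G)` is a non-abelian group of order `pq` for distinct primes `p, q` (a Frobenius group of order `pq`). -/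
theorem result {G : Type*} [Group G] [Finite G]
    (h : ∀ x : G, (Subgroup.centralizer ({x} : Set G)).index = 1 ∨ ((Subgroup.centralizer ({x} : Set G)).index).Prime) :
    Subgroup.upperCentralSeries G 2 = ⊤ ∨
      ∃ p q : ℕ, p.Prime ∧ q.Prime ∧ p ≠ q ∧ Nat.card (G ⧸ Subgroup.center G) = p * q ∧ ¬ IsMulCommutative (G ⧸ Subgroup.center G) := by
  classical
  by_cases hex : ∃ p q : ℕ, p.Prime ∧ q.Prime ∧ p ≠ q ∧ Nat.card (G ⧸ Subgroup.center G) = p * q ∧ ¬ IsMulCommutative (G ⧸ Subgroup.center G)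
  · exact Or.inr hex
  left
  have h' : ∀ x : G, (cc x).index = 1 ∨ (cc x).index.Prime := h
  by_cases hab : ∃ x₀ : G, x₀ ∉ Subgroup.center G
  swap
  · push Not at hab
    have htop : Subgroup.center G = ⊤ := by
      rw [eq_top_iff]
      intro x _
      exact hab x
    rw [eq_top_iff, ← htop, ← Subgroup.upperCentralSeries_one]
    exact Subgroup.upperCentralSeries_mono G (by norm_num : 1 ≤ 2)
  obtain ⟨x₀, hx₀⟩ := hab
  set p := (cc x₀).index with hp
  have hpp : p.Prime := idx_prime h' hx₀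
  have hall : ∀ x : G, x ∉ Subgroup.center G → (cc x).index = p := fun x hx => same_idx h' hex hx hx₀
  have hn : 1 < p := hpp.one_lt
  have hh : ∀ x : G, (Subgroup.centralizer ({x} : Set G)).index = 1 ∨ (Subgroup.centralizer ({x} : Set G)).index = p := by
    intro x
    by_cases hx : x ∈ Subgroup.center G
    · left
      rw [Subgroup.index_eq_one, eq_top_iff]
      intro g _
      exact mem_cc.mpr (Subgroup.mem_center_iff.mp hx g)
    · exact Or.inr (hall x hx)
  obtain ⟨u, hu, k, hk⟩ := exists_elem_not_mem h' hpp (cc x₀) dvd_rfl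
  have huc : u ∉ Subgroup.center G := fun hm => hu (center_le_cc x₀ hm)
  have honly : ∀ v : G, v ∉ Subgroup.center G → ∀ s j : ℕ, s.Prime → orderOf v = s ^ j → s = p := by
    intro v hv s j hs hvo
    by_contra hne
    exact Lib.ItoTwo.two_primes_false hn hh hs hpp hne hv huc hvo hk
  haveI : Fact p.Prime := ⟨hpp⟩
  have hG : IsPGroup p (G ⧸ Subgroup.center G) := by
    intro g
    obtain ⟨g, rfl⟩ := QuotientGroup.mk_surjective g
    obtain ⟨a, b, -, hb, hab, ⟨m, hm⟩, hcop⟩ := Lib.FGSBasic.exists_p_decomp p g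
    have hbc : b ∈ Subgroup.center G := by
      by_contra hbn
      obtain ⟨w, hw, hwc, s, j, hs, hj⟩ := Lib.ItoTwo.exists_part hbn
      have hsp := honly w hwc s j hs hj
      have h1 : orderOf w ∣ orderOf b := orderOf_dvd_of_mem_zpowers hw
      have h2 : Nat.Coprime (orderOf w) p := Nat.Coprime.coprime_dvd_left h1 hcop
      rw [hj, hsp] at h2
      have hj0 : j = 0 := by
        by_contra hj0
        have h3 : p ∣ p ^ j := dvd_pow_self p hj0
        have h4 := Nat.Coprime.eq_one_of_dvd h2.symm h3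
        exact hpp.one_lt.ne' h4
      apply hwc
      rw [hj0, pow_zero] at hj
      rw [orderOf_eq_one_iff.mp hj]
      exact one_mem _
    refine ⟨m, ?_⟩
    have h1 : ((g : G) : G ⧸ Subgroup.center G) = ((a : G) : G ⧸ Subgroup.center G) := by
      rw [← hab, QuotientGroup.mk_mul, (QuotientGroup.eq_one_iff b).mpr hbc, mul_one]
    rw [h1, ← QuotientGroup.mk_pow, ← hm, pow_orderOf_eq_one]
    rfl
  have hnil : Group.IsNilpotent (G ⧸ Subgroup.center G) := hG.isNilpotent
  have hnilG : Group.IsNilpotent G := of_quotient_center_nilpotent hnil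
  have hind : ∀ n : ℕ, Subgroup.upperCentralSeries G (n + 2) ≤ Subgroup.upperCentralSeries G 2 := by
    intro n
    induction n with
    | zero => exact le_rfl
    | succ n ih =>
      intro x hx
      apply step3 hpp hG hall
      intro y
      rw [show n + 1 + 2 = (n + 2) + 1 from rfl, Subgroup.mem_upperCentralSeries_succ_iff] at hx
      apply ih
      have := hx y
      rwa [commutatorElement_def] at this
  obtain ⟨n, hn2⟩ := Group.IsNilpotent.nilpotent G
  rw [eq_top_iff, ← hn2]
  exact (Subgroup.upperCentralSeries_mono G (Nat.le_add_right n 2)).trans (hind n)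

end Cfsg.Agent.S4314
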