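import Cfsg.Statements.S4333
import Mathlib
import Cfsg.Agent.Lib.H1Zip
import Cfsg.Agent.Lib.Herstein
-- import your own Cfsg.Agent.* helpers here

set_option autoImplicit false
open Pointwise
open Cfsg

namespace Cfsg.Agent.S4333

open Subgroup Cfsg.Agent.Lib.H1Zip
open scoped Pointwise
universe u
theorem crit : ∀ (n : ℕ) (G : Type u) [Group G] [Finite G], Nat.card G = n → ∀ A : Subgroup G,
    (∀ a ∈ A, ∀ g : G, (A.subgroupOf (A ⊔ MulAut.conj (g⁻¹ * a * g) • A)).IsSubnormal) → A.IsSubnormal := by
  intro n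
  induction n using Nat.strong_induction_on with
  | _ n ih =>
  intro G _ _ hn A h
  classical
  by_contra hns
  have hAtop : A ≠ ⊤ := by
    rintro rfl
    exact hns Subgroup.IsSubnormal.top
  have hconjP : ∀ x : G, ∀ b ∈ MulAut.conj x • A, ∀ v : G, ((MulAut.conj x • A).subgroupOf
      ((MulAut.conj x • A) ⊔ MulAut.conj (v⁻¹ * b * v) • (MulAut.conj x • A))).IsSubnormal := by
    intro x b hb v
    rw [mem_conj] at hb
    have h1 := sn_conj (h _ hb (x⁻¹ * v * x)) x
    have h2 : MulAut.conj x • (A ⊔ MulAut.conj ((x⁻¹ * v * x)⁻¹ * (x⁻¹ * b * x) * (x⁻¹ * v * x)) • A) =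
        (MulAut.conj x • A) ⊔ MulAut.conj (v⁻¹ * b * v) • (MulAut.conj x • A) := by
      rw [Subgroup.smul_sup, ← mul_smul, ← map_mul, ← mul_smul, ← map_mul]
      congr 3
      group
    rwa [h2] at h1
  have hIH : ∀ V : Subgroup G, V ≠ ⊤ → ∀ B : Subgroup G, (∃ x : G, B = MulAut.conj x • A) → B ≤ V →
      (B.subgroupOf V).IsSubnormal := by
    intro V hV B hB hBV
    have hcard : Nat.card V < n := by
      rw [← hn]
      have h1 : Nat.card V ≤ Nat.card G := Subgroup.card_le_card_group V
      have h2 : Nat.card V ≠ Nat.card G := fun h => hV (Subgroup.eq_top_of_card_eq V h)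
      omega
    apply ih _ hcard V rfl
    intro b hb v
    obtain ⟨x, rfl⟩ := hB
    have hb' : (b : G) ∈ MulAut.conj x • A := hb
    set B : Subgroup G := MulAut.conj x • A with hBdef
    set w : V := v⁻¹ * b * v with hw
    have h1 : (B.subgroupOf (B ⊔ MulAut.conj (w : G) • B)).IsSubnormal := hconjP x b hb' v
    have hconjle : MulAut.conj (w : G) • B ≤ V := by
      intro y hy
      rw [mem_conj] at hy
      have := V.mul_mem (V.mul_mem w.2 (hBV hy)) (V.inv_mem w.2)
      simpa [mul_assoc] using this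
    rw [conj_subgroupOf, sup_subgroupOf hBV hconjle]
    exact sn_sub (sup_le hBV hconjle) h1
  let U : Set (Subgroup G) := {W | A ≤ W ∧ W ≠ ⊤}
  let S : Subgroup G → Set (Subgroup G) := fun V =>
    {B | (∃ g : G, B = MulAut.conj g • A) ∧ B ≤ V ∧ (B.subgroupOf V).IsSubnormal}
  have hone : A = MulAut.conj (1 : G) • A := by
    rw [map_one, one_smul]
  have hmemA : ∀ V ∈ U, A ∈ S V := fun V hV =>
    ⟨⟨1, hone⟩, hV.1, hIH V hV.2 A ⟨1, hone⟩ hV.1⟩
  obtain ⟨M, hM, hMall⟩ := zipper A U ⟨A, le_rfl, hAtop⟩ S (fun V B => Iff.rfl) hmemA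
    (fun V hV W hW B hB hBV => ⟨hB.1, hBV, hIH V hV.2 B hB.1 hBV⟩)
    (by
      intro V hV W hW
      refine ⟨Subgroup.normalizer ((sSup (S V ∩ S W) : Subgroup G) : Set G), ⟨?_, ?_⟩, le_rfl⟩
      · have hAmem : A ∈ S V ∩ S W := ⟨hmemA V hV, hmemA W hW⟩
        exact (le_sSup hAmem).trans Subgroup.le_normalizer
      · intro htop
        set D : Subgroup G := sSup (S V ∩ S W) with hD
        have hDn : D.Normal := Subgroup.normalizer_eq_top_iff.mp htop
        have hDV : D ≤ V := sSup_le (fun B hB => hB.1.2.1)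
        have hDtop : D ≠ ⊤ := by
          intro h
          rw [h, top_le_iff] at hDV
          exact hV.2 hDV
        have hAmem : A ∈ S V ∩ S W := ⟨hmemA V hV, hmemA W hW⟩
        have hAD : A ≤ D := le_sSup hAmem
        exact hns (Subgroup.IsSubnormal.trans hAD (hIH D hDtop A ⟨1, hone⟩ hAD) hDn.isSubnormal))
  -- a conjugate of `A` outside `M`
  have hout : ∃ g : G, ¬ MulAut.conj g • A ≤ M := by
    by_contra hall
    push_neg at hall
    have hK : Subgroup.normalClosure (A : Set G) ≤ M := by
      apply (Subgroup.closure_le _).mpr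
      intro y hy
      obtain ⟨a, ha, hc⟩ := Group.mem_conjugatesOfSet_iff.mp hy
      obtain ⟨g, rfl⟩ := isConj_iff.mp hc
      apply hall g
      rw [mem_conj]
      simpa [mul_assoc] using ha
    have hKtop : Subgroup.normalClosure (A : Set G) ≠ ⊤ := by
      intro h
      rw [h, top_le_iff] at hK
      exact hM.2 hK
    have hAK : A ≤ Subgroup.normalClosure (A : Set G) := Subgroup.le_normalClosure
    exact hns (Subgroup.IsSubnormal.trans hAK (hIH _ hKtop A ⟨1, hone⟩ hAK)
      (Subgroup.normalClosure_normal).isSubnormal)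
  obtain ⟨g, hg⟩ := hout
  obtain ⟨y, hy, hyM⟩ := SetLike.not_le_iff_exists.mp hg
  rw [mem_conj] at hy
  have hxeq : (g⁻¹)⁻¹ * (g⁻¹ * y * g) * g⁻¹ = y := by group
  have h1 := h _ hy g⁻¹
  rw [hxeq] at h1
  by_cases hL : A ⊔ MulAut.conj y • A = ⊤
  · rw [hL] at h1
    exact hns (Subgroup.IsSubnormal.trans le_top h1 Subgroup.IsSubnormal.top)
  · have h2 : A ⊔ MulAut.conj y • A ≤ M := hMall _ ⟨le_sup_left, hL⟩
    have h3 : MulAut.conj y • A ≤ M := le_sup_right.trans h2
    -- `y` normalizes `M`
    have hW : MulAut.conj y⁻¹ • M ≤ M := by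
      apply hMall
      refine ⟨?_, ?_⟩
      · intro z hz
        rw [mem_conj]
        apply h3
        rw [mem_conj]
        simpa [mul_assoc] using hz
      · intro htop
        apply hM.2
        rw [eq_top_iff]
        intro z _
        have : y⁻¹ * z * y ∈ MulAut.conj y⁻¹ • M := by rw [htop]; trivial
        rw [mem_conj] at this
        simpa [mul_assoc] using this
    have hyn : y ∈ Subgroup.normalizer (M : Set G) := by
      have hc : ∀ z ∈ M, y⁻¹ * z * y ∈ M := by
        intro z hz
        apply hW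
        rw [mem_conj]
        simpa [mul_assoc] using hz
      have := Cfsg.Agent.Lib.Herstein.mem_normalizer_of_conj_le M y⁻¹ (by
        intro z hz
        simpa using hc z hz)
      simpa using (Subgroup.inv_mem _ this)
    by_cases hNM : Subgroup.normalizer (M : Set G) = ⊤
    · have hMn : M.Normal := Subgroup.normalizer_eq_top_iff.mp hNM
      exact hns (Subgroup.IsSubnormal.trans hM.1 (hIH M hM.2 A ⟨1, hone⟩ hM.1) hMn.isSubnormal)
    · have : Subgroup.normalizer (M : Set G) ≤ M :=
        hMall _ ⟨hM.1.trans Subgroup.le_normalizer, hNM⟩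
      exact hyM (this hyn)

/-- Let A be a subgroup of a finite group G. If A is subnormal in the subgroup generated by A and its conjugate by g⁻¹ a g, for every a ∈ A and every g ∈ G, then A is subnormal in G. (A sharpening of Wielandt's subnormality criterion: only conjugates of A by conjugates of elements of A are needed.) -/
theorem result {G : Type*} [Group G] [Finite G]
    (A : Subgroup G)
    (h : ∀ a ∈ A, ∀ g : G, (A.subgroupOf (A ⊔ MulAut.conj (g⁻¹ * a * g) • A)).IsSubnormal) :
    A.IsSubnormal := by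
  exact crit _ G rfl A h

end Cfsg.Agent.S4333
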