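import Cfsg.Statements.S4337
import Cfsg.Agent.Lib.CharGal
-- import your own Cfsg.Agent.* helpers here

set_option autoImplicit false
open Cfsg

namespace Cfsg.Agent.S4337

open Subgroup Equiv

theorem solv_of_support {n : ℕ} (T : Finset (Fin n)) (hT : T.card ≤ 4) (s : Set (Perm (Fin n)))
    (hs : ∀ g ∈ s, (g.support : Set (Fin n)) ⊆ T) : Group.IsSolvable (closure s) := by
  classical
  let φ : Perm {x // x ∈ T} →* Perm (Fin n) := Equiv.Perm.ofSubtype
  have hle : closure s ≤ φ.range := by
    rw [Subgroup.closure_le]
    intro g hg
    exact Equiv.Perm.mem_range_ofSubtype_iff.mpr (hs g hg)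
  have hcard : Nat.card (Perm {x // x ∈ T}) = (T.card).factorial := by
    rw [Nat.card_eq_fintype_card, Fintype.card_perm, Fintype.card_coe]
  haveI hsolv : Group.IsSolvable (Perm {x // x ∈ T}) := by
    obtain ⟨a, b, hab⟩ : ∃ a b : ℕ, (T.card).factorial = 2 ^ a * 3 ^ b := by
      generalize T.card = k at hT
      interval_cases k
      · exact ⟨0, 0, by decide⟩
      · exact ⟨0, 0, by decide⟩
      · exact ⟨1, 0, by decide⟩
      · exact ⟨1, 1, by decide⟩
      · exact ⟨3, 1, by decide⟩
    exact Cfsg.Agent.Lib.CharGal.solvable_of_card_pq 2 3 a b Nat.prime_two Nat.prime_three (by rw [hcard, hab])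
  haveI : Group.IsSolvable φ.range := solvable_of_surjective φ.rangeRestrict_surjective
  exact solvable_of_solvable_injective (Subgroup.inclusion_injective hle)

theorem solv_central {G : Type*} [Group G] (a b c : G) (hL : Group.IsSolvable (closure {a, b}))
    (hac : a * c = c * a) (hbc : b * c = c * b) : Group.IsSolvable (closure {a, b, c}) := by
  set L := closure {a, b} with hLdef
  have hcent : ∀ m ∈ L, m * c = c * m := by
    intro m hm
    induction hm using Subgroup.closure_induction with
    | mem x hx =>
      rcases hx with rfl | rfl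
      · exact hac
      · exact hbc
    | one => simp
    | mul x y _ _ h1 h2 =>
      exact (Commute.mul_left h1 h2)
    | inv x _ h1 =>
      exact (Commute.inv_left h1)
  have hcomm : ∀ (m : L) (k : zpowers c), Commute (L.subtype m) ((zpowers c).subtype k) := by
    rintro m ⟨_, k, rfl⟩
    exact Commute.zpow_right (hcent m m.2) k
  let φ := MonoidHom.noncommCoprod L.subtype (zpowers c).subtype hcomm
  have hle : closure {a, b, c} ≤ φ.range := by
    rw [Subgroup.closure_le]
    rintro x (rfl | rfl | rfl)
    · exact ⟨(⟨x, Subgroup.subset_closure (by simp)⟩, 1), by simp [φ]⟩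
    · exact ⟨(⟨x, Subgroup.subset_closure (by simp)⟩, 1), by simp [φ]⟩
    · exact ⟨(1, ⟨x, mem_zpowers x⟩), by simp [φ]⟩
  haveI : Group.IsSolvable (zpowers c) := isSolvable_of_comm (IsCyclic.commGroup (α := zpowers c)).mul_comm
  haveI := hL
  haveI : Group.IsSolvable φ.range := solvable_of_surjective φ.rangeRestrict_surjective
  exact solvable_of_solvable_injective (Subgroup.inclusion_injective hle)

theorem card_union_le {α : Type*} [DecidableEq α] (A B C : Finset α) (hA : A.card = 2) (hB : B.card = 2)
    (hC : C.card = 2) (hAB : ¬ Disjoint A B) (hABC : ¬ Disjoint C (A ∪ B)) : (A ∪ B ∪ C).card ≤ 4 := by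
  have h1 := Finset.card_union_add_card_inter A B
  have h2 := Finset.card_union_add_card_inter (A ∪ B) C
  have h3 : 1 ≤ (A ∩ B).card := by
    rw [Nat.one_le_iff_ne_zero, Finset.card_ne_zero]
    exact Finset.not_disjoint_iff_nonempty_inter.mp hAB
  have h4 : 1 ≤ ((A ∪ B) ∩ C).card := by
    rw [Nat.one_le_iff_ne_zero, Finset.card_ne_zero, Finset.inter_comm]
    exact Finset.not_disjoint_iff_nonempty_inter.mp hABC
  omega

/-- In a finite symmetric group, any three transpositions generate a solvable subgroup. -/
theorem result (n : ℕ) (a b c : Equiv.Perm (Fin n))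
    (ha : a.IsSwap) (hb : b.IsSwap) (hc : c.IsSwap) :
    Group.IsSolvable (Subgroup.closure ({a, b, c} : Set (Equiv.Perm (Fin n)))) := by
  classical
  have hA : a.support.card = 2 := Equiv.Perm.card_support_eq_two.mpr ha
  have hB : b.support.card = 2 := Equiv.Perm.card_support_eq_two.mpr hb
  have hC : c.support.card = 2 := Equiv.Perm.card_support_eq_two.mpr hc
  have hcomm : ∀ f g : Perm (Fin n), Disjoint f.support g.support → f * g = g * f := by
    intro f g h
    exact (Equiv.Perm.disjoint_iff_disjoint_support.mpr h).commute
  have h2 : ∀ f g : Perm (Fin n), f.IsSwap → g.IsSwap → Group.IsSolvable (closure {f, g}) := by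
    intro f g hf hg
    apply solv_of_support (f.support ∪ g.support)
    · have h1 := Finset.card_union_le f.support g.support
      rw [Equiv.Perm.card_support_eq_two.mpr hf, Equiv.Perm.card_support_eq_two.mpr hg] at h1
      exact h1
    · rintro x (rfl | rfl)
      · intro y hy
        simp only [Finset.coe_union, Set.mem_union]
        exact Or.inl hy
      · intro y hy
        simp only [Finset.coe_union, Set.mem_union]
        exact Or.inr hy
  have hdisj : ∀ f g k : Perm (Fin n), Disjoint k.support (f.support ∪ g.support) → f * k = k * f ∧ g * k = k * g := by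
    intro f g k h
    rw [Finset.disjoint_union_right] at h
    exact ⟨hcomm f k h.1.symm, hcomm g k h.2.symm⟩
  have hfour : ∀ (T : Finset (Fin n)), T.card ≤ 4 → a.support ⊆ T → b.support ⊆ T → c.support ⊆ T →
      Group.IsSolvable (closure {a, b, c}) := by
    intro T hT h1 h2 h3
    apply solv_of_support T hT
    rintro x (rfl | rfl | rfl)
    · exact_mod_cast h1
    · exact_mod_cast h2
    · exact_mod_cast h3
  by_cases hc1 : Disjoint c.support (a.support ∪ b.support)
  · obtain ⟨h3, h4⟩ := hdisj a b c hc1
    exact solv_central a b c (h2 a b ha hb) h3 h4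
  by_cases ha1 : Disjoint a.support (b.support ∪ c.support)
  · obtain ⟨h3, h4⟩ := hdisj b c a ha1
    have e : ({a, b, c} : Set (Perm (Fin n))) = {b, c, a} := by
      ext x; simp only [Set.mem_insert_iff, Set.mem_singleton_iff]; tauto
    rw [e]
    exact solv_central b c a (h2 b c hb hc) h3 h4
  by_cases hb1 : Disjoint b.support (a.support ∪ c.support)
  · obtain ⟨h3, h4⟩ := hdisj a c b hb1
    have e : ({a, b, c} : Set (Perm (Fin n))) = {a, c, b} := by
      ext x; simp only [Set.mem_insert_iff, Set.mem_singleton_iff]; tauto
    rw [e]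
    exact solv_central a c b (h2 a c ha hc) h3 h4
  by_cases hab : Disjoint a.support b.support
  · -- `a` and `b` both meet `c`
    have hac : ¬ Disjoint a.support c.support := by
      intro h
      exact ha1 (Finset.disjoint_union_right.mpr ⟨hab, h⟩)
    have hbac : ¬ Disjoint b.support (a.support ∪ c.support) := hb1
    have := card_union_le a.support c.support b.support hA hC hB hac hbac
    refine hfour _ this ?_ ?_ ?_
    · exact fun x hx => by simp [hx]
    · exact fun x hx => by simp [hx]
    · exact fun x hx => by simp [hx]
  · have := card_union_le a.support b.support c.support hA hB hC hab hc1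
    refine hfour _ this ?_ ?_ ?_
    · exact fun x hx => by simp [hx]
    · exact fun x hx => by simp [hx]
    · exact fun x hx => by simp [hx]

end Cfsg.Agent.S4337
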