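import Cfsg.Statements.S4342
-- import your own Cfsg.Agent.* helpers here

set_option autoImplicit false
open Cfsg

namespace Cfsg.Agent.S4342

open Subgroup

theorem sylow_le {G : Type*} [Group G] [Finite G] {p : ℕ} [Fact p.Prime] (H : Subgroup G) [H.Normal]
    (hp : ¬ p ∣ H.index) (P : Sylow p G) : (P : Subgroup G) ≤ H := by
  intro x hx
  obtain ⟨k, hk⟩ := IsPGroup.iff_orderOf.mp P.2 ⟨x, hx⟩
  have h1 : orderOf x = p ^ k := by rw [← hk, Subgroup.orderOf_mk]
  let y : G ⧸ H := QuotientGroup.mk x
  have h2 : orderOf y ∣ p ^ k := by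
    rw [← h1]
    exact orderOf_map_dvd (QuotientGroup.mk' H) x
  have h3 : orderOf y ∣ H.index := orderOf_dvd_natCard y
  have hcop : (p ^ k).Coprime H.index :=
    Nat.Coprime.pow_left k ((Nat.Prime.coprime_iff_not_dvd (Fact.out)).mpr hp)
  have h4 : orderOf y = 1 := Nat.eq_one_of_dvd_coprimes hcop h2 h3
  rw [orderOf_eq_one_iff] at h4
  exact (QuotientGroup.eq_one_iff x).mp h4

/-- Bijection between Sylow subgroups of `G` and of a normal subgroup of index prime to `p`. -/
theorem card_sylow_normal {G : Type*} [Group G] [Finite G] {p : ℕ} [Fact p.Prime] (H : Subgroup G) [H.Normal]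
    (hp : ¬ p ∣ H.index) : Nat.card (Sylow p H) = Nat.card (Sylow p G) := by
  symm
  apply Nat.card_eq_of_bijective (fun P : Sylow p G => P.subtype (sylow_le H hp P))
  constructor
  · intro P Q h
    exact Sylow.subtype_injective h
  · intro Q
    have hQ' : IsPGroup p ((Q : Subgroup H).map H.subtype) := Q.2.map _
    obtain ⟨R, hR⟩ := hQ'.exists_le_sylow
    refine ⟨R, ?_⟩
    apply Sylow.ext
    apply Q.is_maximal' ((R.subtype (sylow_le H hp R)).2)
    intro x hx
    exact hR ⟨x, hx, rfl⟩

/-- Bijection between Sylow subgroups of a group and of its central quotient. -/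
theorem card_sylow_center {H : Type*} [Group H] [Finite H] {p : ℕ} [Fact p.Prime] :
    Nat.card (Sylow p (H ⧸ Subgroup.center H)) = Nat.card (Sylow p H) := by
  classical
  let π := QuotientGroup.mk' (Subgroup.center H)
  have hs : Function.Surjective π := QuotientGroup.mk'_surjective _
  symm
  apply Nat.card_eq_of_bijective (Sylow.mapSurjective hs)
  constructor
  · intro P Q h
    have key : ∀ P Q : Sylow p H, Sylow.mapSurjective hs P = Sylow.mapSurjective hs Q →
        (P : Subgroup H) ≤ Q := by
      intro P Q h x hx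
      have h1 : π x ∈ (Q : Subgroup H).map π := by
        have h2 : π x ∈ (P : Subgroup H).map π := ⟨x, hx, rfl⟩
        have h3 : (P : Subgroup H).map π = (Q : Subgroup H).map π :=
          congrArg (fun R : Sylow p (H ⧸ Subgroup.center H) => (R : Subgroup (H ⧸ Subgroup.center H))) h
        rwa [h3] at h2
      obtain ⟨y, hy, hyx⟩ := h1
      -- `z = y⁻¹ x` is central
      have hz : y⁻¹ * x ∈ Subgroup.center H := by
        apply (QuotientGroup.eq_one_iff _).mp
        show π (y⁻¹ * x) = 1
        rw [map_mul, map_inv, hyx, inv_mul_cancel]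
      set z := y⁻¹ * x with hzdef
      have hxe : x = y * z := by rw [hzdef]; group
      -- `z` is a `p`-element
      obtain ⟨a, ha⟩ := IsPGroup.iff_orderOf.mp P.2 ⟨x, hx⟩
      obtain ⟨b, hb⟩ := IsPGroup.iff_orderOf.mp Q.2 ⟨y, hy⟩
      have hxo : x ^ p ^ a = 1 := by
        have := pow_orderOf_eq_one x
        rwa [← Subgroup.orderOf_mk x hx, ha] at this
      have hyo : y ^ p ^ b = 1 := by
        have := pow_orderOf_eq_one y
        rwa [← Subgroup.orderOf_mk y hy, hb] at this
      have hczy : Commute z y := (Subgroup.mem_center_iff.mp hz y).symm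
      have hczx : Commute y x := by
        rw [hxe]
        exact (Commute.refl y).mul_right hczy.symm
      have hzo : z ^ p ^ (a + b) = 1 := by
        have h2 : Commute y⁻¹ x := hczx.inv_left
        rw [hzdef, h2.mul_pow, inv_pow]
        have h3 : x ^ p ^ (a + b) = 1 := by
          rw [pow_add, pow_mul, hxo, one_pow]
        have h4 : y ^ p ^ (a + b) = 1 := by
          rw [add_comm, pow_add, pow_mul, hyo, one_pow]
        rw [h3, h4]; simp
      -- `Q ⊔ ⟨z⟩` is a `p`-group
      have hzp : IsPGroup p (zpowers z) := by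
        rintro ⟨w, k, rfl⟩
        refine ⟨a + b, ?_⟩
        apply Subtype.ext
        show (z ^ k) ^ p ^ (a + b) = 1
        rw [← zpow_natCast, ← zpow_mul, mul_comm, zpow_mul, zpow_natCast, hzo, one_zpow]
      haveI hzn : (zpowers z).Normal := by
        constructor
        rintro _ ⟨k, rfl⟩ g
        refine ⟨k, ?_⟩
        show z ^ k = g * z ^ k * g⁻¹
        have h5 : g * z ^ k = z ^ k * g := by
          have : Commute g (z ^ k) := Commute.zpow_right (Subgroup.mem_center_iff.mp hz g) k
          exact this
        rw [h5]; group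
      have hsup : IsPGroup p ((Q : Subgroup H) ⊔ zpowers z : Subgroup H) :=
        IsPGroup.to_sup_of_normal_right Q.2 hzp
      have hle := Q.is_maximal' hsup le_sup_left
      have hzQ : z ∈ (Q : Subgroup H) := by
        have h9 : z ∈ (Q : Subgroup H) ⊔ zpowers z := Subgroup.mem_sup_right (mem_zpowers z)
        rwa [hle] at h9
      rw [hxe]
      exact (Q : Subgroup H).mul_mem hy hzQ
    have h1 := key P Q h
    have h2 := key Q P h.symm
    exact Sylow.ext (le_antisymm h1 h2)
  · exact Sylow.mapSurjective_surjective hs p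

/-- Let H be a normal subgroup of a finite group G and p a prime not dividing the index of H. Then the number of Sylow p-subgroups of H/Z(H) equals the number of Sylow p-subgroups of G. -/
theorem result {G : Type*} [Group G] [Finite G]
    (p : ℕ) [Fact p.Prime] (H : Subgroup G) [H.Normal] (hp : ¬ p ∣ H.index) :
    Nat.card (Sylow p (H ⧸ Subgroup.center H)) = Nat.card (Sylow p G) := by
  rw [card_sylow_center, card_sylow_normal H hp]

end Cfsg.Agent.S4342
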