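import Cfsg.Statements.S4343
import Mathlib

set_option autoImplicit false
open Cfsg

namespace Cfsg.Agent.S4343

open scoped Pointwise

section aux

variable {G : Type*} [Group G] [Finite G] {p : ℕ} [Fact p.Prime]

theorem stab_iff (Q R : Sylow p G) (x : (Q : Subgroup G)) :
    x ∈ MulAction.stabilizer (Q : Subgroup G) R ↔ (x : G) ∈ (R : Subgroup G) := by
  have h1 : x • R = (x : G) • R := rfl
  rw [MulAction.mem_stabilizer_iff, h1, Sylow.smul_eq_iff_mem_normalizer]
  constructor
  · intro h
    have h2 : (x : G) ∈ (Q : Subgroup G) ⊓ Subgroup.normalizer (R : Set G) :=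
      Subgroup.mem_inf.mpr ⟨x.2, h⟩
    rw [Q.isPGroup'.inf_normalizer_sylow R] at h2
    exact (Subgroup.mem_inf.mp h2).2
  · intro h
    exact Subgroup.le_normalizer h

theorem stab_eq (Q R : Sylow p G) :
    MulAction.stabilizer (Q : Subgroup G) R = (R : Subgroup G).subgroupOf (Q : Subgroup G) := by
  ext x
  rw [stab_iff, Subgroup.mem_subgroupOf]

theorem card_inf (Q R : Sylow p G) :
    Nat.card ((R : Subgroup G).subgroupOf (Q : Subgroup G)) =
      Nat.card ((Q : Subgroup G) ⊓ (R : Subgroup G) : Subgroup G) := by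
  rw [inf_comm, ← Subgroup.subgroupOf_map_subtype]
  exact (Subgroup.card_map_of_injective (Q : Subgroup G).subtype_injective).symm

theorem not_mem_orbit (Q R : Sylow p G) (hQR : Q ≠ R) :
    Q ∉ MulAction.orbit (Q : Subgroup G) R := by
  rintro ⟨x, hx⟩
  apply hQR
  have h1 : (x : G) • R = Q := hx
  have h2 : (x : G)⁻¹ • Q = Q := by
    rw [Sylow.smul_eq_iff_mem_normalizer]
    exact Subgroup.le_normalizer ((Q : Subgroup G).inv_mem x.2)
  have h3 : (x : G)⁻¹ • ((x : G) • R) = R := inv_smul_smul _ _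
  rw [h1] at h3
  exact h2.symm.trans h3

theorem orbit_data (hn : Nat.card (Sylow p G) < p ^ 2) (Q R : Sylow p G) (hQR : Q ≠ R) :
    (MulAction.orbit (Q : Subgroup G) R).ncard = p ∧
      Nat.card Q = Nat.card ((Q : Subgroup G) ⊓ (R : Subgroup G) : Subgroup G) * p := by
  classical
  have hp : p.Prime := Fact.out
  have h1 : (MulAction.stabilizer (Q : Subgroup G) R).index = (MulAction.orbit (Q : Subgroup G) R).ncard :=
    MulAction.index_stabilizer _ _
  have h2 := Subgroup.card_mul_index (MulAction.stabilizer (Q : Subgroup G) R)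
  rw [h1, stab_eq, card_inf] at h2
  set m := (MulAction.orbit (Q : Subgroup G) R).ncard with hm
  obtain ⟨a, ha⟩ := IsPGroup.iff_card.mp Q.isPGroup'
  have hdvd : m ∣ p ^ a := by
    rw [← ha]
    exact Dvd.intro_left _ h2
  obtain ⟨j, hj, hmj⟩ := (Nat.dvd_prime_pow hp).mp hdvd
  have hlt : m < p ^ 2 := by
    refine lt_trans ?_ hn
    rw [hm, ← Set.ncard_univ]
    apply Set.ncard_lt_ncard _ Set.finite_univ
    refine ⟨Set.subset_univ _, fun h => not_mem_orbit Q R hQR (h (Set.mem_univ Q))⟩
  have hj2 : j < 2 := (Nat.pow_lt_pow_iff_right hp.one_lt).mp (hmj ▸ hlt)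
  have hj0 : j ≠ 0 := by
    intro h0
    rw [h0, pow_zero] at hmj
    have h3 : MulAction.stabilizer (Q : Subgroup G) R = ⊤ := by
      rw [← Subgroup.index_eq_one, h1, hmj]
    have hle : (Q : Subgroup G) ≤ R := by
      intro x hx
      have : (⟨x, hx⟩ : (Q : Subgroup G)) ∈ MulAction.stabilizer (Q : Subgroup G) R := by
        rw [h3]; exact Subgroup.mem_top _
      exact (stab_iff Q R _).mp this
    apply hQR
    exact Sylow.ext (Q.is_maximal' R.isPGroup' hle).symm
  have hj1 : j = 1 := by omega
  rw [hj1, pow_one] at hmj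
  refine ⟨hmj, ?_⟩
  rw [← h2, hmj]

theorem inf_normal (hn : Nat.card (Sylow p G) < p ^ 2) (Q R : Sylow p G) (hQR : Q ≠ R) (x t : G)
    (hx : x ∈ (Q : Subgroup G)) (ht : t ∈ (Q : Subgroup G) ⊓ (R : Subgroup G)) :
    x * t * x⁻¹ ∈ (Q : Subgroup G) ⊓ (R : Subgroup G) := by
  have hp : p.Prime := Fact.out
  obtain ⟨h1, h2⟩ := orbit_data hn Q R hQR
  have h3 : ((R : Subgroup G).subgroupOf (Q : Subgroup G)).index = p := by
    rw [← stab_eq, MulAction.index_stabilizer, h1]
  obtain ⟨a, ha⟩ := IsPGroup.iff_card.mp Q.isPGroup'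
  have ha0 : a ≠ 0 := by
    intro h0
    rw [h0, pow_zero] at ha
    rw [ha] at h2
    have := Nat.eq_one_of_mul_eq_one_left h2.symm
    exact hp.ne_one this
  have hmin : (Nat.card (Q : Subgroup G)).minFac = p := by
    have h5 : Nat.card (Q : Subgroup G) = p ^ a := ha
    rw [h5, Nat.Prime.pow_minFac hp ha0]
  have hnorm : ((R : Subgroup G).subgroupOf (Q : Subgroup G)).Normal :=
    Subgroup.normal_of_index_eq_minFac_card (by rw [h3, hmin])
  obtain ⟨ht1, ht2⟩ := Subgroup.mem_inf.mp ht
  have h6 := hnorm.conj_mem ⟨t, ht1⟩ (Subgroup.mem_subgroupOf.mpr ht2) ⟨x, hx⟩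
  have h7 := Subgroup.mem_subgroupOf.mp h6
  refine Subgroup.mem_inf.mpr ⟨?_, h7⟩
  exact (Q : Subgroup G).mul_mem ((Q : Subgroup G).mul_mem hx ht1) ((Q : Subgroup G).inv_mem hx)

theorem inf_orbit (hn : Nat.card (Sylow p G) < p ^ 2) (Q R : Sylow p G) (hQR : Q ≠ R) (x : G)
    (hx : x ∈ (Q : Subgroup G)) :
    (Q : Subgroup G) ⊓ ((x • R : Sylow p G) : Subgroup G) = (Q : Subgroup G) ⊓ (R : Subgroup G) := by
  have hco : ((x • R : Sylow p G) : Subgroup G) = MulAut.conj x • (R : Subgroup G) :=
    Sylow.coe_subgroup_smul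
  ext y
  rw [Subgroup.mem_inf, Subgroup.mem_inf, hco, Subgroup.mem_smul_pointwise_iff_exists]
  constructor
  · rintro ⟨hy, t, ht, rfl⟩
    have htQ : t ∈ (Q : Subgroup G) := by
      have h1 : t = x⁻¹ * (MulAut.conj x • t) * x := by
        simp [MulAut.smul_def, mul_assoc]
      rw [h1]
      exact (Q : Subgroup G).mul_mem ((Q : Subgroup G).mul_mem ((Q : Subgroup G).inv_mem hx) hy) hx
    have h2 := inf_normal hn Q R hQR x t hx (Subgroup.mem_inf.mpr ⟨htQ, ht⟩)
    exact ⟨hy, (Subgroup.mem_inf.mp h2).2⟩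
  · rintro ⟨hy, hyR⟩
    refine ⟨hy, x⁻¹ * y * x, ?_, ?_⟩
    · have h2 := inf_normal hn Q R hQR x⁻¹ y ((Q : Subgroup G).inv_mem hx) (Subgroup.mem_inf.mpr ⟨hy, hyR⟩)
      simp only [inv_inv] at h2
      exact (Subgroup.mem_inf.mp h2).2
    · simp [MulAut.smul_def, mul_assoc]

theorem fiber_card (hn : Nat.card (Sylow p G) < p ^ 2) [Fintype (Sylow p G)] [DecidableEq (Sylow p G)]
    [DecidableEq (Subgroup G)] (Q R : Sylow p G) (hQR : Q ≠ R) :
    p ≤ ((Finset.univ.erase Q).filter
      (fun T : Sylow p G => (Q : Subgroup G) ⊓ (T : Subgroup G) = (Q : Subgroup G) ⊓ (R : Subgroup G))).card := by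
  obtain ⟨h1, -⟩ := orbit_data hn Q R hQR
  refine h1.symm.le.trans ?_
  rw [← Set.ncard_coe_finset]
  apply Set.ncard_le_ncard _ (Finset.finite_toSet _)
  rintro _ ⟨x, rfl⟩
  simp only [Finset.coe_filter, Finset.mem_erase, Finset.mem_univ, and_true, Set.mem_setOf_eq]
  constructor
  · intro h
    apply not_mem_orbit Q R hQR
    exact ⟨x, h⟩
  · exact inf_orbit hn Q R hQR x x.2

end aux

/-- Let S be a finite non-abelian simple group and p a prime dividing its order. If S has fewer than p² Sylow p-subgroups, then its Sylow p-subgroups have order p. -/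
theorem result {S : Type*} [Group S] [Finite S]
    [IsSimpleGroup S] (hS : ¬ IsMulCommutative S) (p : ℕ) [Fact p.Prime] (hp : p ∣ Nat.card S)
    (hn : Nat.card (Sylow p S) < p ^ 2) (P : Sylow p S) : Nat.card P = p := by

  classical
  have hpp : p.Prime := Fact.out
  haveI : Fintype (Sylow p S) := Fintype.ofFinite _
  -- a p-group cannot be S
  have hnotp : (P : Subgroup S) ≠ ⊤ := by
    intro htop
    have hpg : IsPGroup p S := by
      intro g
      obtain ⟨k, hk⟩ := P.isPGroup' ⟨g, by rw [htop]; exact Subgroup.mem_top g⟩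
      exact ⟨k, by simpa using congrArg Subtype.val hk⟩
    haveI : Nontrivial S := IsSimpleGroup.toNontrivial
    haveI := hpg.center_nontrivial
    have hc : Subgroup.center S ≠ ⊥ := by
      intro h
      obtain ⟨x, hx⟩ := exists_ne (1 : Subgroup.center S)
      have h1 : (x : S) ∈ (⊥ : Subgroup S) := by
        rw [← h]; exact x.2
      exact hx (Subtype.ext (Subgroup.mem_bot.mp h1))
    rcases IsSimpleGroup.eq_bot_or_eq_top_of_normal (Subgroup.center S) inferInstance with h | h
    · exact hc h
    · apply hS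
      refine ⟨⟨fun a b => ?_⟩⟩
      have : a ∈ Subgroup.center S := by rw [h]; exact Subgroup.mem_top a
      exact (Subgroup.mem_center_iff.mp this b).symm
  have hPne : (P : Subgroup S) ≠ ⊥ := P.ne_bot_of_dvd_card hp
  -- a second Sylow
  obtain ⟨Q, hQ⟩ : ∃ Q : Sylow p S, P ≠ Q := by
    by_contra hcon
    push_neg at hcon
    haveI : Subsingleton (Sylow p S) := ⟨fun a b => (hcon a).symm.trans (hcon b)⟩
    have hN : (P : Subgroup S).Normal := Sylow.normal_of_subsingleton P
    rcases IsSimpleGroup.eq_bot_or_eq_top_of_normal (P : Subgroup S) hN with h | h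
    · exact hPne h
    · exact hnotp h
  -- main claim
  have hbot : (P : Subgroup S) ⊓ (Q : Subgroup S) = ⊥ := by
    by_contra hD
    set D := (P : Subgroup S) ⊓ (Q : Subgroup S) with hDdef
    -- some Sylow does not contain D
    obtain ⟨S₀, hS₀⟩ : ∃ S₀ : Sylow p S, ¬ D ≤ (S₀ : Subgroup S) := by
      by_contra hcon
      push_neg at hcon
      let O : Subgroup S := ⨅ T : Sylow p S, (T : Subgroup S)
      have hOn : O.Normal := by
        refine ⟨fun n hn g => ?_⟩
        rw [Subgroup.mem_iInf] at hn ⊢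
        intro T
        have h1 := hn (g⁻¹ • T)
        have hco : ((g⁻¹ • T : Sylow p S) : Subgroup S) = MulAut.conj g⁻¹ • (T : Subgroup S) :=
          Sylow.coe_subgroup_smul
        rw [hco, Subgroup.mem_smul_pointwise_iff_exists] at h1
        obtain ⟨t, ht, rfl⟩ := h1
        simpa [MulAut.smul_def, mul_assoc] using ht
      have hDO : D ≤ O := le_iInf hcon
      rcases IsSimpleGroup.eq_bot_or_eq_top_of_normal O hOn with h | h
      · exact hD (le_bot_iff.mp (h ▸ hDO))
      · apply hnotp
        rw [eq_top_iff, ← h]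
        exact iInf_le _ P
    -- the set of Sylow containing D
    let L : Finset (Sylow p S) := Finset.univ.filter (fun T => D ≤ (T : Subgroup S))
    have hLcard : p + 1 ≤ L.card := by
      have h1 := fiber_card hn P Q hQ
      let F := (Finset.univ.erase P).filter
        (fun T : Sylow p S => (P : Subgroup S) ⊓ (T : Subgroup S) = (P : Subgroup S) ⊓ (Q : Subgroup S))
      have h2 : insert P F ⊆ L := by
        intro T hT
        rw [Finset.mem_insert] at hT
        rcases hT with rfl | hT
        · exact Finset.mem_filter.mpr ⟨Finset.mem_univ _, inf_le_left⟩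
        · have h3 := (Finset.mem_filter.mp hT).2
          refine Finset.mem_filter.mpr ⟨Finset.mem_univ _, ?_⟩
          rw [hDdef, ← h3]
          exact inf_le_right
      have h4 : P ∉ F := fun h => (Finset.mem_erase.mp (Finset.mem_filter.mp h).1).1 rfl
      calc p + 1 ≤ F.card + 1 := Nat.succ_le_succ h1
        _ = (insert P F).card := (Finset.card_insert_of_notMem h4).symm
        _ ≤ L.card := Finset.card_le_card h2
    -- map to intersections with S₀
    let s₀ : Finset (Sylow p S) := Finset.univ.erase S₀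
    let f₀ : Sylow p S → Subgroup S := fun T => (S₀ : Subgroup S) ⊓ (T : Subgroup S)
    have hcard1 : p * (s₀.image f₀).card ≤ s₀.card := by
      apply Finset.mul_card_image_le_card
      intro a ha
      obtain ⟨T, hT, rfl⟩ := Finset.mem_image.mp ha
      have hne : S₀ ≠ T := fun h => (Finset.mem_erase.mp hT).1 h.symm
      exact fiber_card hn S₀ T hne
    have hs₀ : s₀.card + 1 = Nat.card (Sylow p S) := by
      rw [Finset.card_erase_of_mem (Finset.mem_univ _), Finset.card_univ, Nat.card_eq_fintype_card]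
      have : 0 < Fintype.card (Sylow p S) := Fintype.card_pos_iff.mpr ⟨P⟩
      omega
    have hinj : Set.InjOn f₀ (L : Set (Sylow p S)) := by
      intro T hT T' hT' hf
      by_contra hne
      have hDT : D ≤ (T : Subgroup S) := (Finset.mem_filter.mp hT).2
      have hDT' : D ≤ (T' : Subgroup S) := (Finset.mem_filter.mp hT').2
      have hTS : S₀ ≠ T := fun h => hS₀ (h ▸ hDT)
      have hTS' : S₀ ≠ T' := fun h => hS₀ (h ▸ hDT')
      have cPQ := (orbit_data hn P Q hQ).2
      have cTT := (orbit_data hn T T' hne).2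
      have cS := (orbit_data hn S₀ T hTS).2
      have hcards : Nat.card (P : Subgroup S) = Nat.card (T : Subgroup S) := by
        rw [Sylow.card_eq_multiplicity, Sylow.card_eq_multiplicity]
      have hcards2 : Nat.card (S₀ : Subgroup S) = Nat.card (T : Subgroup S) := by
        rw [Sylow.card_eq_multiplicity, Sylow.card_eq_multiplicity]
      have hDeq : D = (T : Subgroup S) ⊓ (T' : Subgroup S) := by
        apply Subgroup.eq_of_le_of_card_ge (le_inf hDT hDT')
        have : Nat.card ((T : Subgroup S) ⊓ (T' : Subgroup S) : Subgroup S) * p = Nat.card D * p := by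
          rw [← cTT, ← hcards]
          exact cPQ
        exact (Nat.eq_of_mul_eq_mul_right hpp.pos this).le
      have hEle : f₀ T ≤ (T : Subgroup S) ⊓ (T' : Subgroup S) := by
        refine le_inf inf_le_right ?_
        rw [hf]
        exact inf_le_right
      have hEeq : f₀ T = (T : Subgroup S) ⊓ (T' : Subgroup S) := by
        apply Subgroup.eq_of_le_of_card_ge hEle
        have : Nat.card ((T : Subgroup S) ⊓ (T' : Subgroup S) : Subgroup S) * p = Nat.card (f₀ T) * p := by
          rw [← cTT, ← hcards2]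
          exact cS
        exact (Nat.eq_of_mul_eq_mul_right hpp.pos this).le
      apply hS₀
      rw [hDeq, ← hEeq]
      exact inf_le_left
    have hsub : L.image f₀ ⊆ s₀.image f₀ := by
      intro a ha
      obtain ⟨T, hT, rfl⟩ := Finset.mem_image.mp ha
      refine Finset.mem_image_of_mem _ (Finset.mem_erase.mpr ⟨?_, Finset.mem_univ _⟩)
      intro h
      exact hS₀ (h ▸ (Finset.mem_filter.mp hT).2)
    have hle2 : L.card ≤ (s₀.image f₀).card := by
      rw [← Finset.card_image_of_injOn hinj]
      exact Finset.card_le_card hsub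
    have h5 : p * (p + 1) ≤ p * (s₀.image f₀).card :=
      Nat.mul_le_mul_left _ (hLcard.trans hle2)
    have h6 : p * (p + 1) + 1 ≤ Nat.card (Sylow p S) := by
      rw [← hs₀]
      exact Nat.succ_le_succ (h5.trans hcard1)
    have h7 : p ^ 2 ≤ p * (p + 1) := by nlinarith
    exact lt_irrefl _ (lt_of_lt_of_le hn (h7.trans ((Nat.le_succ _).trans h6)))
  have h := (orbit_data hn P Q hQ).2
  rw [hbot, Subgroup.card_bot, one_mul] at h
  exact h

end Cfsg.Agent.S4343
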