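import Cfsg.Statements.S4344
import Mathlib
import Cfsg.Agent.Lib.FGSBasic
-- import your own Cfsg.Agent.* helpers here

set_option autoImplicit false
open Cfsg

namespace Cfsg.Agent.S4344

/-- Let S be a finite non-abelian simple group, M a maximal subgroup of S and C a cyclic normal subgroup of M. If a Sylow p-subgroup P of S (for a prime p dividing the order of S) is contained in C, then the number of Sylow p-subgroups of S equals the index of M. -/
theorem result {S : Type*} [Group S] [Finite S]
    [IsSimpleGroup S] (hS : ¬ IsMulCommutative S) (p : ℕ) [Fact p.Prime] (hp : p ∣ Nat.card S)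
    (M : Subgroup S) (hM : IsCoatom M) (C : Subgroup S) (hCM : C ≤ M) (hCn : (C.subgroupOf M).Normal)
    (hC : IsCyclic C) (P : Sylow p S) (hP : (P : Subgroup S) ≤ C) :
    Nat.card (Sylow p S) = M.index := by
  classical
  haveI := hC
  have hCn' : ∀ m ∈ M, ∀ c ∈ C, m * c * m⁻¹ ∈ C := by
    intro m hm c hc
    have := hCn.conj_mem ⟨c, hCM hc⟩ (by simpa [Subgroup.mem_subgroupOf] using hc) ⟨m, hm⟩
    simpa [Subgroup.mem_subgroupOf] using this
  have hcomm : ∀ a b : C, a * b = b * a := by
    obtain ⟨g, hg⟩ := IsCyclic.exists_generator (α := C)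
    intro a b
    obtain ⟨i, rfl⟩ := Subgroup.mem_zpowers_iff.mp (hg a)
    obtain ⟨j, rfl⟩ := Subgroup.mem_zpowers_iff.mp (hg b)
    exact (Commute.refl g).zpow_zpow i j
  have hle : M ≤ Subgroup.normalizer ((P : Subgroup S) : Set S) := by
    intro m hm
    refine Sylow.smul_eq_iff_mem_normalizer.mp ?_
    have hP'C : ((m • P : Sylow p S) : Subgroup S) ≤ C := by
      intro a ha
      rw [Cfsg.Agent.Lib.FGSBasic.mem_smul_sylow_iff] at ha
      have h1 := hCn' m hm _ (hP ha)
      have h2 : m * (m⁻¹ * a * m) * m⁻¹ = a := by group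
      rwa [h2] at h1
    let A := P.subtype hP
    let B := (m • P).subtype hP'C
    have hAn : (A : Subgroup C).Normal := ⟨fun n hn g => by
      rw [hcomm g n]; simpa using hn⟩
    obtain ⟨c, hc⟩ := MulAction.exists_smul_eq C A B
    have hAB : A = B := by
      rw [← hc]; exact (Sylow.smul_eq_of_normal (P := A) (h := hAn)).symm
    apply Sylow.ext
    have h3 : (B : Subgroup C) = (A : Subgroup C) := by rw [hAB]
    simp only [A, B, Sylow.coe_subtype] at h3
    apply le_antisymm
    · intro a ha
      have h4 : (⟨a, hP'C ha⟩ : C) ∈ ((m • P : Sylow p S) : Subgroup S).subgroupOf C := by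
        rw [Subgroup.mem_subgroupOf]; exact ha
      rw [h3, Subgroup.mem_subgroupOf] at h4
      exact h4
    · intro a ha
      have h4 : (⟨a, hP ha⟩ : C) ∈ (P : Subgroup S).subgroupOf C := by
        rw [Subgroup.mem_subgroupOf]; exact ha
      rw [← h3, Subgroup.mem_subgroupOf] at h4
      exact h4
  have hne : Subgroup.normalizer ((P : Subgroup S) : Set S) ≠ ⊤ := by
    intro ht
    have hPn : (P : Subgroup S).Normal := Subgroup.normalizer_eq_top_iff.mp ht
    have hP1 : (P : Subgroup S) ≠ ⊥ := by
      exact P.ne_bot_of_dvd_card hp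
    rcases hPn.eq_bot_or_eq_top with h | h
    · exact hP1 h
    · apply hS
      have hCt : C = ⊤ := by
        rw [eq_top_iff, ← h]; exact hP
      refine ⟨⟨fun a b => ?_⟩⟩
      have ha : a ∈ C := by rw [hCt]; trivial
      have hb : b ∈ C := by rw [hCt]; trivial
      exact congrArg Subtype.val (hcomm ⟨a, ha⟩ ⟨b, hb⟩)
  have hMN : M = Subgroup.normalizer ((P : Subgroup S) : Set S) := by
    rcases hM.le_iff.mp hle with h | h
    · exact absurd h hne
    · exact h.symm
  rw [hMN]
  exact Sylow.card_eq_index_normalizer P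

end Cfsg.Agent.S4344
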