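import Cfsg.Statements.S4345
import Mathlib
import Cfsg.Agent.Lib.SylNum
-- import your own Cfsg.Agent.* helpers here

set_option autoImplicit false
open Cfsg

namespace Cfsg.Agent.S4345

open Subgroup
universe u
theorem main_ind (p ℓ : ℕ) [Fact p.Prime] (hℓ : ℓ.Prime) : ∀ (n : ℕ) (G : Type u) [Group G] [Finite G], Nat.card G = n →
    Group.IsSolvable G → ℓ ^ (Nat.card (Sylow p G)).factorization ℓ ≡ 1 [MOD p] := by
  intro n
  induction n using Nat.strong_induction_on with
  | _ n ih =>
  intro G _ _ hn hG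
  rcases subsingleton_or_nontrivial G with hs | hnt
  · have h1 : Nat.card (Sylow p G) = 1 := by
      obtain ⟨P⟩ : Nonempty (Sylow p G) := inferInstance
      rw [P.card_eq_index_normalizer]
      have : normalizer ((P : Subgroup G) : Set G) = ⊤ := Subsingleton.elim _ _
      show (normalizer ((P : Subgroup G) : Set G)).index = 1
      rw [this, Subgroup.index_top]
    rw [h1]
    simp [Nat.ModEq]
  · obtain ⟨q, K, hq, hKn, hKne, hKq⟩ := Lib.SylNum.exists_normal_pgroup hG hnt
    haveI : Fact q.Prime := ⟨hq⟩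
    obtain ⟨P⟩ : Nonempty (Sylow p G) := inferInstance
    let N : Subgroup G := ((P : Subgroup G) ⊔ K) ⊓ Subgroup.normalizer (((P : Subgroup G) ⊓ K : Subgroup G) : Set G)
    have hQN : (P : Subgroup G) ⊓ K ≤ N :=
      le_inf (inf_le_left.trans le_sup_left) (Subgroup.le_normalizer)
    haveI hnn : (((P : Subgroup G) ⊓ K).subgroupOf N).Normal :=
      (Subgroup.normal_subgroupOf_iff_le_normalizer hQN).mpr inf_le_right
    have hform := Cfsg.Agent.S4341.result p K P N rfl
    have hK1 := Lib.SylNum.card_sylow_of_pgroup p q hKq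
    rw [hK1, mul_one] at hform
    have hdvd := Lib.SylNum.card_sylow_sub_dvd p K P N rfl
    obtain ⟨e, he⟩ := IsPGroup.iff_card.mp hKq
    rw [he] at hdvd
    set m := Nat.card (Sylow p (N ⧸ ((P : Subgroup G) ⊓ K).subgroupOf N)) with hm
    have hmmod : m ≡ 1 [MOD p] := card_sylow_modEq_one p _
    have hm0 : m ≠ 0 := Nat.card_pos.ne'
    have hcardQ : Nat.card (G ⧸ K) < n := by
      rw [← hn, ← Subgroup.index_eq_card]
      have h1 := Subgroup.card_mul_index K
      have h2 : 1 < Nat.card K := by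
        obtain ⟨a, ha⟩ := (Subgroup.ne_bot_iff_exists_ne_one).mp hKne
        have : Nontrivial K := ⟨⟨a, 1, ha⟩⟩
        exact Finite.one_lt_card
      have h3 : 0 < K.index := Nat.pos_of_ne_zero Subgroup.index_ne_zero_of_finite
      rw [← h1]
      nlinarith
    have h1 := ih _ hcardQ (G ⧸ K) rfl (inferInstance)
    have hn0 : Nat.card (Sylow p (G ⧸ K)) ≠ 0 := Nat.card_pos.ne'
    rw [hform]
    apply Lib.SylNum.part_mul hn0 hm0 h1
    obtain ⟨t, -, ht⟩ := (Nat.dvd_prime_pow hq).mp hdvd
    by_cases hℓq : ℓ = q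
    · subst hℓq
      rw [ht, Nat.Prime.factorization_pow hℓ]
      simp only [Finsupp.single_eq_same]
      rw [← ht]
      exact hmmod
    · have : m.factorization ℓ = 0 := by
        apply Nat.factorization_eq_zero_of_not_dvd
        rw [ht]
        intro hd
        exact hℓq ((Nat.prime_dvd_prime_iff_eq hℓ hq).mp (hℓ.dvd_of_dvd_pow hd))
      rw [this, pow_zero]

/-- Let G be a finite solvable group and p, ℓ primes. Then the largest power of ℓ dividing the number of Sylow p-subgroups of G is congruent to 1 modulo p. -/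
theorem result {G : Type*} [Group G] [Finite G]
    (hG : Group.IsSolvable G) (p ℓ : ℕ) [Fact p.Prime] (hℓ : ℓ.Prime) :
    ℓ ^ (Nat.card (Sylow p G)).factorization ℓ ≡ 1 [MOD p] := by
  exact main_ind p ℓ hℓ _ G rfl hG

end Cfsg.Agent.S4345
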