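import Cfsg.Statements.S4354
import Cfsg.Agent.Lib.CentralSylow
import Cfsg.Agent.Lib.FGS2
-- import your own Cfsg.Agent.* helpers here

set_option autoImplicit false
open Cfsg

namespace Cfsg.Agent.S4354

/-- Lift of a `p`-element of a quotient to a `p`-element. -/
theorem exists_lift_p {G : Type*} [Group G] [Finite G] (p : ℕ) [Fact p.Prime] (N : Subgroup G) [N.Normal]
    (y : G ⧸ N) (hy : ∃ k : ℕ, orderOf y = p ^ k) :
    ∃ x : G, (QuotientGroup.mk' N) x = y ∧ ∃ k : ℕ, orderOf x = p ^ k := by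
  obtain ⟨g, rfl⟩ := QuotientGroup.mk'_surjective N y
  obtain ⟨a, b, ha, hb, hab, hak, hbc⟩ := Lib.FGSBasic.exists_p_decomp p g
  refine ⟨a, ?_, hak⟩
  obtain ⟨j, hj⟩ := hy
  have h1 : orderOf (QuotientGroup.mk' N b) ∣ orderOf b := orderOf_map_dvd _ _
  have h2 : orderOf (QuotientGroup.mk' N b) ∣ p ^ j := by
    obtain ⟨m, rfl⟩ := Subgroup.mem_zpowers_iff.mp hb
    rw [← hj, map_zpow]
    apply orderOf_dvd_of_pow_eq_one
    rw [← zpow_natCast, zpow_comm, zpow_natCast, pow_orderOf_eq_one, one_zpow]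
  have h3 : orderOf (QuotientGroup.mk' N b) = 1 := by
    have h4 : (orderOf (QuotientGroup.mk' N b)).Coprime p := Nat.Coprime.coprime_dvd_left h1 hbc
    have h5 : (orderOf (QuotientGroup.mk' N b)).Coprime (p ^ j) := Nat.Coprime.pow_right _ h4
    exact Nat.Coprime.eq_one_of_dvd h5 h2
  have h6 : QuotientGroup.mk' N b = 1 := orderOf_eq_one_iff.mp h3
  rw [← hab, map_mul, h6, mul_one]

/-- Let G be a finite group and p a prime such that the Sylow p-subgroups of G are non-abelian while every element of p-power order has conjugacy class size prime to p, and suppose no nontrivial proper normal subgroup N of G has this property and no quotient G/N by such an N has it. Then G is simple. -/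
theorem result {G : Type*} [Group G] [Finite G]
    (p : ℕ) [Fact p.Prime] (h : ((∃ P : Sylow p G, ¬ IsMulCommutative P) ∧ ∀ x : G, (∃ k : ℕ, orderOf x = p ^ k) → ¬ p ∣ (Subgroup.centralizer ({x} : Set G)).index))
    (hmin : ∀ (N : Subgroup G) [N.Normal], N ≠ ⊥ → N ≠ ⊤ →
      ¬ ((∃ P : Sylow p N, ¬ IsMulCommutative P) ∧ ∀ x : N, (∃ k : ℕ, orderOf x = p ^ k) → ¬ p ∣ (Subgroup.centralizer ({x} : Set N)).index) ∧
      ¬ ((∃ P : Sylow p (G ⧸ N), ¬ IsMulCommutative P) ∧ ∀ x : (G ⧸ N), (∃ k : ℕ, orderOf x = p ^ k) → ¬ p ∣ (Subgroup.centralizer ({x} : Set (G ⧸ N))).index)) :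
    IsSimpleGroup G := by
  obtain ⟨⟨P₀, hP₀⟩, hcl⟩ := h
  have hnt : Nontrivial G := by
    by_contra hn
    rw [not_nontrivial_iff_subsingleton] at hn
    exact hP₀ ⟨⟨fun a b => Subsingleton.elim _ _⟩⟩
  refine { toNontrivial := hnt, eq_bot_or_eq_top_of_normal := ?_ }
  intro N hN
  by_contra hcon
  push_neg at hcon
  obtain ⟨h1, h2⟩ := hcon
  haveI := hN
  obtain ⟨hm1, hm2⟩ := hmin N h1 h2
  have hcN : ∀ P : Sylow p N, IsMulCommutative P := by
    intro P
    by_contra hc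
    refine hm1 ⟨⟨P, hc⟩, ?_⟩
    intro x hx hd
    have hx' : ∃ k : ℕ, orderOf (x : G) = p ^ k := by
      obtain ⟨k, hk⟩ := hx
      exact ⟨k, by rw [Subgroup.orderOf_coe, hk]⟩
    apply hcl _ hx'
    have h3 : Subgroup.centralizer ({x} : Set N) = (Subgroup.centralizer ({(x : G)} : Set G)).subgroupOf N := by
      ext y
      rw [Subgroup.mem_subgroupOf, Subgroup.mem_centralizer_singleton_iff, Subgroup.mem_centralizer_singleton_iff]
      constructor
      · intro h; exact congrArg Subtype.val h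
      · intro h; exact Subtype.ext h
    rw [h3] at hd
    exact hd.trans (Lib.FGS2.relIndex_normal_dvd_index N _)
  have hcQ : ∀ P : Sylow p (G ⧸ N), IsMulCommutative P := by
    intro P
    by_contra hc
    refine hm2 ⟨⟨P, hc⟩, ?_⟩
    intro y hy hd
    obtain ⟨a, rfl, hak⟩ := exists_lift_p p N y hy
    apply hcl a hak
    have h3 : Subgroup.centralizer ({a} : Set G) ≤ (Subgroup.centralizer ({QuotientGroup.mk' N a} : Set (G ⧸ N))).comap (QuotientGroup.mk' N) := by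
      intro g hg
      rw [Subgroup.mem_comap, Subgroup.mem_centralizer_singleton_iff]
      rw [Subgroup.mem_centralizer_singleton_iff] at hg
      rw [← map_mul, ← map_mul, hg]
    have h4 := Subgroup.index_dvd_of_le h3
    rw [Subgroup.index_comap_of_surjective _ (QuotientGroup.mk'_surjective N)] at h4
    exact hd.trans h4
  -- the image of `P₀` is abelian
  have himg : ∀ a ∈ (P₀ : Subgroup G), ∀ b ∈ (P₀ : Subgroup G), QuotientGroup.mk' N a * QuotientGroup.mk' N b = QuotientGroup.mk' N b * QuotientGroup.mk' N a := by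
    have hpg : IsPGroup p ((P₀ : Subgroup G).map (QuotientGroup.mk' N)) := P₀.isPGroup'.map _
    obtain ⟨S, hS⟩ := hpg.exists_le_sylow
    haveI := hcQ S
    intro a ha b hb
    exact Lib.FGSBasic.mul_comm_of_mem (S : Subgroup (G ⧸ N)) (hS ⟨a, ha, rfl⟩) (hS ⟨b, hb, rfl⟩)
  have hinf : ∀ a ∈ (P₀ : Subgroup G), a ∈ N → ∀ b ∈ (P₀ : Subgroup G), b ∈ N → a * b = b * a := by
    have hpg : IsPGroup p ((P₀ : Subgroup G).subgroupOf N) := P₀.isPGroup'.comap_of_injective N.subtype N.subtype_injective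
    obtain ⟨S, hS⟩ := hpg.exists_le_sylow
    haveI := hcN S
    intro a ha han b hb hbn
    have := Lib.FGSBasic.mul_comm_of_mem (S : Subgroup N) (a := ⟨a, han⟩) (b := ⟨b, hbn⟩)
      (hS (by rw [Subgroup.mem_subgroupOf]; exact ha)) (hS (by rw [Subgroup.mem_subgroupOf]; exact hb))
    exact congrArg Subtype.val this
  have hdec : ∀ x ∈ (P₀ : Subgroup G), ∃ z ∈ (P₀ : Subgroup G), (∀ r ∈ (P₀ : Subgroup G), r * z = z * r) ∧ z⁻¹ * x ∈ N := by
    intro x hx
    have hxo := Lib.FGSBasic.orderOf_of_mem_sylow P₀ hx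
    let L : Subgroup G := (Subgroup.centralizer ({QuotientGroup.mk' N x} : Set (G ⧸ N))).comap (QuotientGroup.mk' N)
    have hCL : Subgroup.centralizer ({x} : Set G) ≤ L := by
      intro g hg
      rw [Subgroup.mem_comap, Subgroup.mem_centralizer_singleton_iff]
      rw [Subgroup.mem_centralizer_singleton_iff] at hg
      rw [← map_mul, ← map_mul, hg]
    have hPL : (P₀ : Subgroup G) ≤ L := by
      intro g hg
      rw [Subgroup.mem_comap, Subgroup.mem_centralizer_singleton_iff]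
      exact himg g hg x hx
    obtain ⟨c, hcL, hz, hzc⟩ := Lib.CentralSylow.exists_central_conj p x hxo (hcl x hxo) L hCL P₀ hPL
    refine ⟨_, hz, hzc, ?_⟩
    have hcc : QuotientGroup.mk' N c * QuotientGroup.mk' N x = QuotientGroup.mk' N x * QuotientGroup.mk' N c :=
      Subgroup.mem_centralizer_singleton_iff.mp (Subgroup.mem_comap.mp hcL)
    have : QuotientGroup.mk' N ((c * x * c⁻¹)⁻¹ * x) = 1 := by
      rw [map_mul, map_inv, map_mul, map_mul, map_inv, hcc]
      group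
    rwa [← MonoidHom.mem_ker, QuotientGroup.ker_mk'] at this
  apply hP₀
  refine ⟨⟨fun a b => Subtype.ext ?_⟩⟩
  obtain ⟨a, ha⟩ := a
  obtain ⟨b, hb⟩ := b
  show a * b = b * a
  obtain ⟨z₁, hz₁, hc₁, hw₁⟩ := hdec a ha
  obtain ⟨z₂, hz₂, hc₂, hw₂⟩ := hdec b hb
  have hwp₁ : z₁⁻¹ * a ∈ (P₀ : Subgroup G) := (P₀ : Subgroup G).mul_mem ((P₀ : Subgroup G).inv_mem hz₁) ha
  have hwp₂ : z₂⁻¹ * b ∈ (P₀ : Subgroup G) := (P₀ : Subgroup G).mul_mem ((P₀ : Subgroup G).inv_mem hz₂) hb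
  have hww := hinf _ hwp₁ hw₁ _ hwp₂ hw₂
  set w₁ := z₁⁻¹ * a with hw₁d
  set w₂ := z₂⁻¹ * b with hw₂d
  have ha' : a = z₁ * w₁ := by rw [hw₁d]; group
  have hb' : b = z₂ * w₂ := by rw [hw₂d]; group
  have h12 : z₂ * z₁ = z₁ * z₂ := hc₁ z₂ hz₂
  have hw1z2 : w₁ * z₂ = z₂ * w₁ := hc₂ w₁ hwp₁
  have hw2z1 : w₂ * z₁ = z₁ * w₂ := hc₁ w₂ hwp₂
  rw [ha', hb']
  calc z₁ * w₁ * (z₂ * w₂) = z₁ * (w₁ * z₂) * w₂ := by group
    _ = z₁ * (z₂ * w₁) * w₂ := by rw [hw1z2]
    _ = (z₁ * z₂) * (w₁ * w₂) := by group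
    _ = (z₂ * z₁) * (w₂ * w₁) := by rw [h12, hww]
    _ = z₂ * (z₁ * w₂) * w₁ := by group
    _ = z₂ * (w₂ * z₁) * w₁ := by rw [hw2z1]
    _ = z₂ * w₂ * (z₁ * w₁) := by group

end Cfsg.Agent.S4354
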