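import Cfsg.Statements.S4370
import Cfsg.Agent.Lib.H1TwoClass2

set_option autoImplicit false
open Cfsg

namespace Cfsg.Agent.S4370

section aux

open Subgroup Cfsg.Agent.Lib.H1Quat

theorem neg_self_cases {n : ℕ} [NeZero n] {i : ZMod (2 * n)} (h : -i = i) : i = 0 ∨ i = (n : ZMod (2 * n)) := by
  haveI : NeZero (2 * n) := ⟨by simpa using NeZero.ne n⟩
  have hn : 0 < n := Nat.pos_of_ne_zero (NeZero.ne n)
  have hi : ((i.val : ℕ) : ZMod (2 * n)) = i := ZMod.natCast_zmod_val i
  have h1 : ((2 * i.val : ℕ) : ZMod (2 * n)) = 0 := by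
    push_cast
    rw [hi]
    have : i + i = 0 := by
      nth_rw 1 [← h]
      ring
    exact (two_mul i).trans this
  rw [ZMod.natCast_eq_zero_iff] at h1
  have h2 : n ∣ i.val := Nat.dvd_of_mul_dvd_mul_left (by norm_num) h1
  obtain ⟨c, hc⟩ := h2
  have hlt : i.val < 2 * n := ZMod.val_lt i
  have hc2 : c < 2 := by
    by_contra hge
    have : n * 2 ≤ n * c := Nat.mul_le_mul_left _ (by omega)
    omega
  interval_cases c
  · left
    rw [← hi, hc]
    simp
  · right
    rw [← hi, hc]
    simp

theorem comm_coprime (G : Type*) [Group G] [Group.IsNilpotent G] :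
    ∀ x y : G, Nat.Coprime (orderOf x) (orderOf y) → x * y = y * x := by
  apply Group.nilpotent_center_quotient_ind (P := fun G _ _ => ∀ x y : G, Nat.Coprime (orderOf x) (orderOf y) → x * y = y * x) G
  · intro G _ _ x y _
    exact Subsingleton.elim _ _
  · intro G _ _ ih x y hxy
    have h1 : Nat.Coprime (orderOf (x : G ⧸ center G)) (orderOf (y : G ⧸ center G)) := by
      refine Nat.Coprime.coprime_dvd_left ?_ (Nat.Coprime.coprime_dvd_right ?_ hxy)
      · exact orderOf_map_dvd (QuotientGroup.mk' (center G)) x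
      · exact orderOf_map_dvd (QuotientGroup.mk' (center G)) y
    have h2 := ih x y h1
    have h3 : x⁻¹ * y⁻¹ * x * y ∈ center G := by
      have h4 : (QuotientGroup.mk (x⁻¹ * y⁻¹ * x * y) : G ⧸ center G) = 1 := by
        simp only [QuotientGroup.mk_mul, QuotientGroup.mk_inv]
        have e : ((x : G ⧸ center G)⁻¹ * (y : G ⧸ center G)⁻¹ * x * y) = ((y : G ⧸ center G) * x)⁻¹ * (x * y) := by group
        rw [e, h2]
        simp
      exact (QuotientGroup.eq_one_iff _).mp h4
    set c := x⁻¹ * y⁻¹ * x * y with hc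
    have hcc : ∀ g, g * c = c * g := fun g => (Subgroup.mem_center_iff.mp h3 g)
    have hcy : c ^ orderOf y = 1 := by
      have e1 : x⁻¹ * y * x = y * c⁻¹ := by
        rw [hc]
        group
      have e2 : (x⁻¹ * y * x) ^ orderOf y = 1 := by
        have e3 := conj_pow (a := x⁻¹) (b := y) (i := orderOf y)
        rw [inv_inv] at e3
        rw [e3, pow_orderOf_eq_one]
        group
      rw [e1, (show Commute y c⁻¹ from ((show Commute y c from hcc y).inv_right)).mul_pow, pow_orderOf_eq_one,
        one_mul, inv_pow] at e2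
      exact inv_eq_one.mp e2
    have hcx : c ^ orderOf x = 1 := by
      have e1 : y⁻¹ * x * y = x * c := by
        rw [hc]
        group
      have e2 : (y⁻¹ * x * y) ^ orderOf x = 1 := by
        have e3 := conj_pow (a := y⁻¹) (b := x) (i := orderOf x)
        rw [inv_inv] at e3
        rw [e3, pow_orderOf_eq_one]
        group
      rw [e1, (show Commute x c from hcc x).mul_pow, pow_orderOf_eq_one, one_mul] at e2
      exact e2
    have hc1 : c = 1 := by
      have h5 : orderOf c ∣ Nat.gcd (orderOf x) (orderOf y) :=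
        Nat.dvd_gcd (orderOf_dvd_of_pow_eq_one hcx) (orderOf_dvd_of_pow_eq_one hcy)
      rw [hxy.gcd_eq_one, Nat.dvd_one, orderOf_eq_one_iff] at h5
      exact h5
    rw [hc] at hc1
    have h6 : x⁻¹ * y⁻¹ * (x * y) = 1 := by rw [← mul_assoc]; exact hc1
    have h7 : (y * x)⁻¹ * (x * y) = 1 := by
      rw [mul_inv_rev]
      exact h6
    exact (inv_mul_eq_one.mp h7).symm

variable {G : Type*} [Group G] [Finite G]

/-- splitting an element into a `p`-part and a `p'`-part -/
theorem split_elem (p : ℕ) [Fact p.Prime] (g : G) :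
    ∃ u v : G, g = u * v ∧ Commute u v ∧ (∃ e, orderOf u = p ^ e) ∧ Nat.Coprime (orderOf v) p := by
  have hpp : p.Prime := Fact.out
  set n := orderOf g with hn
  have hn0 : n ≠ 0 := (orderOf_pos g).ne'
  set a := ordProj[p] n with ha
  set b := ordCompl[p] n with hb
  have hab : a * b = n := Nat.ordProj_mul_ordCompl_eq_self n p
  have hcopb : Nat.Coprime p b := Nat.coprime_ordCompl hpp hn0
  have hcop : Nat.Coprime a b := Nat.Coprime.pow_left _ hcopb
  obtain ⟨k, hk1, hk2⟩ := Nat.chineseRemainder hcop 1 0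
  obtain ⟨l, hl1, hl2⟩ := Nat.chineseRemainder hcop 0 1
  have hkl : k + l ≡ 1 [MOD n] := by
    rw [← hab]
    apply (Nat.modEq_and_modEq_iff_modEq_mul hcop).mp
    constructor
    · simpa using hk1.add hl1
    · simpa using hk2.add hl2
  have hgn : g ^ n = 1 := pow_orderOf_eq_one g
  refine ⟨g ^ k, g ^ l, ?_, (Commute.refl g).pow_pow k l, ?_, ?_⟩
  · rw [← pow_add]
    have h1 : g ^ (k + l) = g ^ 1 := pow_eq_pow_iff_modEq.mpr hkl
    rw [h1, pow_one]
  · have h1 : (g ^ k) ^ a = 1 := by
      rw [← pow_mul]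
      have hd : b ∣ k := (Nat.modEq_zero_iff_dvd).mp hk2
      obtain ⟨c, rfl⟩ := hd
      rw [show b * c * a = n * c by rw [← hab]; ring, pow_mul, hgn, one_pow]
    have h2 := orderOf_dvd_of_pow_eq_one h1
    obtain ⟨e, -, he⟩ := (Nat.dvd_prime_pow hpp).mp h2
    exact ⟨e, he⟩
  · have h1 : (g ^ l) ^ b = 1 := by
      rw [← pow_mul]
      have hd : a ∣ l := (Nat.modEq_zero_iff_dvd).mp hl1
      obtain ⟨c, rfl⟩ := hd
      rw [show a * c * b = n * c by rw [← hab]; ring, pow_mul, hgn, one_pow]
    have h2 := orderOf_dvd_of_pow_eq_one h1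
    exact (hcopb.symm.coprime_dvd_left h2)

theorem exists_prime_elem (hna : ¬ IsMulCommutative G) :
    ∃ (p : ℕ) (_ : p.Prime) (x : G) (e : ℕ), orderOf x = p ^ e ∧ x ∉ center G := by
  have hne : ({g : G | g ∉ center G}).Nonempty := by
    by_contra hno
    rw [Set.not_nonempty_iff_eq_empty] at hno
    apply hna
    refine ⟨⟨fun a b => ?_⟩⟩
    have h1 : a ∈ center G := by
      by_contra h
      have : a ∈ ({g : G | g ∉ center G}) := h
      rw [hno] at this
      exact this
    exact (Subgroup.mem_center_iff.mp h1 b).symm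
  obtain ⟨g, hg, hmin⟩ := Set.exists_min_image _ orderOf (Set.toFinite _) hne
  have hg1 : orderOf g ≠ 1 := by
    intro h
    rw [orderOf_eq_one_iff] at h
    exact hg (h ▸ one_mem _)
  set p := (orderOf g).minFac with hp
  have hpp : p.Prime := Nat.minFac_prime hg1
  haveI : Fact p.Prime := ⟨hpp⟩
  have hpg : p ∣ orderOf g := Nat.minFac_dvd _
  obtain ⟨u, v, hg', huv, ⟨e, he⟩, hvc⟩ := split_elem p g
  refine ⟨p, hpp, ?_⟩
  by_cases hv1 : orderOf v = 1
  · rw [orderOf_eq_one_iff] at hv1
    rw [hv1, mul_one] at hg'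
    exact ⟨g, e, by rw [hg']; exact he, hg⟩
  by_cases hu1 : orderOf u = 1
  · exfalso
    rw [orderOf_eq_one_iff] at hu1
    rw [hu1, one_mul] at hg'
    rw [hg'] at hpg
    have h1 := Nat.Coprime.eq_one_of_dvd hvc.symm hpg
    exact hpp.one_lt.ne' h1
  exfalso
  have hcopuv : Nat.Coprime (orderOf u) (orderOf v) := by
    rw [he]
    exact Nat.Coprime.pow_left _ hvc.symm
  have hord : orderOf g = orderOf u * orderOf v := by
    rw [hg']
    exact huv.orderOf_mul_eq_mul_orderOf_of_coprime hcopuv
  have hposu : 0 < orderOf u := orderOf_pos u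
  have hposv : 0 < orderOf v := orderOf_pos v
  have hu : u ∈ center G := by
    by_contra h
    have := hmin u h
    rw [hord] at this
    have h2 : 2 ≤ orderOf v := by omega
    nlinarith
  have hv : v ∈ center G := by
    by_contra h
    have := hmin v h
    rw [hord] at this
    have h2 : 2 ≤ orderOf u := by omega
    nlinarith
  apply hg
  rw [hg']
  exact mul_mem hu hv

theorem cyc_uniq {p : ℕ} [Fact p.Prime] (L : Subgroup G) (hL : IsCyclic L) {z h : G} (hzL : z ∈ L) (hhL : h ∈ L)
    (hz : orderOf z = p) (hh : h ^ p = 1) : h ∈ zpowers z := by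
  have hcomm : ∀ a ∈ L, ∀ b ∈ L, a * b = b * a := by
    intro a ha b hb
    have := hL.commutative.is_comm.comm ⟨a, ha⟩ ⟨b, hb⟩
    exact congrArg Subtype.val this
  let Y : Subgroup G :=
    { carrier := {a | a ∈ L ∧ a ^ p = 1}
      mul_mem' := by
        rintro a b ⟨ha, ha'⟩ ⟨hb, hb'⟩
        refine ⟨mul_mem ha hb, ?_⟩
        have hc : Commute a b := hcomm a ha b hb
        rw [hc.mul_pow, ha', hb', one_mul]
      one_mem' := ⟨one_mem _, one_pow _⟩
      inv_mem' := by
        rintro a ⟨ha, ha'⟩
        exact ⟨inv_mem ha, by rw [inv_pow, ha', inv_one]⟩ }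
  have hYL : Y ≤ L := fun a ha => ha.1
  haveI hYc : IsCyclic Y := Subgroup.isCyclic_of_le hYL
  obtain ⟨c, hc⟩ := IsCyclic.exists_generator (α := Y)
  have h1 : orderOf c = Nat.card Y := orderOf_eq_card_of_forall_mem_zpowers hc
  have h2 : c ^ p = 1 := Subtype.ext c.2.2
  have h3 : Nat.card Y ∣ p := by
    rw [← h1]
    exact orderOf_dvd_of_pow_eq_one h2
  have hzY : zpowers z ≤ Y := by
    rw [zpowers_le]
    exact ⟨hzL, by rw [← hz]; exact pow_orderOf_eq_one z⟩
  have hYz : zpowers z = Y := by
    apply Subgroup.eq_of_le_of_card_ge hzY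
    rw [Nat.card_zpowers, hz]
    exact Nat.le_of_dvd (Nat.Prime.pos Fact.out) h3
  rw [hYz]
  exact ⟨hhL, hh⟩

theorem forward [hnil : Group.IsNilpotent G] (hna : ¬ IsMulCommutative G)
    (hcyc : ∀ x : G, x ∉ center G → IsCyclic (centralizer ({x} : Set G))) :
    ∃ (k m : ℕ), 1 ≤ k ∧ Odd m ∧ Nonempty (G ≃* QuaternionGroup (2 ^ k) × Multiplicative (ZMod m)) := by
  classical
  obtain ⟨p, hpp, x, e, hxo, hxc⟩ := exists_prime_elem hna
  haveI hfp : Fact p.Prime := ⟨hpp⟩
  have hSn : ∀ P : Sylow p G, (P : Subgroup G).Normal := fun P =>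
    (Group.isNilpotent_of_finite_tfae (G := G)).out 0 3 rfl rfl |>.mp hnil p hfp P
  obtain ⟨P⟩ : Nonempty (Sylow p G) := inferInstance
  haveI hPn : (P : Subgroup G).Normal := hSn P
  have hmemP : ∀ y : G, (∃ e, orderOf y = p ^ e) → y ∈ (P : Subgroup G) := by
    intro y ⟨f, hf⟩
    have h1 : IsPGroup p (zpowers y) := by
      rw [IsPGroup.iff_card, Nat.card_zpowers]
      exact ⟨f, hf⟩
    obtain ⟨Q, hQ⟩ := h1.exists_le_sylow
    have h2 : Q = P := by
      obtain ⟨g, hg⟩ := MulAction.exists_smul_eq G P Q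
      haveI : P.Normal := hPn
      rw [Sylow.smul_eq_of_normal] at hg
      exact hg.symm
    rw [← h2]
    exact hQ (mem_zpowers y)
  have hPord : ∀ y ∈ (P : Subgroup G), ∃ e, orderOf y = p ^ e := by
    intro y hy
    obtain ⟨f, hf⟩ := (IsPGroup.iff_orderOf.mp P.isPGroup') ⟨y, hy⟩
    rw [Subgroup.orderOf_mk] at hf
    exact ⟨f, hf⟩
  have hxP : x ∈ (P : Subgroup G) := hmemP x ⟨e, hxo⟩
  have hcommP : ∀ a ∈ (P : Subgroup G), ∀ v : G, Nat.Coprime (orderOf v) p → a * v = v * a := by
    intro a ha v hv
    obtain ⟨f, hf⟩ := hPord a ha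
    apply comm_coprime
    rw [hf]
    exact Nat.Coprime.pow_left _ hv.symm
  -- x not central in P
  obtain ⟨w, hwP, hxw⟩ : ∃ w ∈ (P : Subgroup G), w * x ≠ x * w := by
    have : ∃ g, g * x ≠ x * g := by
      by_contra h
      push_neg at h
      exact hxc (Subgroup.mem_center_iff.mpr h)
    obtain ⟨g, hg⟩ := this
    obtain ⟨u, v, hgu, huv, hu, hv⟩ := split_elem p g
    refine ⟨u, hmemP u hu, ?_⟩
    intro h
    apply hg
    rw [hgu, mul_assoc, (hcommP x hxP v hv).symm, ← mul_assoc, h, mul_assoc]
  have hPp : IsPGroup p (P : Subgroup G) := P.isPGroup'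
  have huniq : ∀ H K : Subgroup (P : Subgroup G), Nat.card H = p → Nat.card K = p → H = K := by
    have hnt : (⊥ : Subgroup (P : Subgroup G)) < ⊤ := by
      rw [bot_lt_iff_ne_bot]
      intro h
      have h1 : (⟨x, hxP⟩ : (P : Subgroup G)) ∈ (⊤ : Subgroup (P : Subgroup G)) := trivial
      have h2 : (⟨w, hwP⟩ : (P : Subgroup G)) ∈ (⊤ : Subgroup (P : Subgroup G)) := trivial
      rw [h, Subgroup.mem_bot] at h1 h2
      have h3 := congrArg Subtype.val h1
      have h4 := congrArg Subtype.val h2
      simp only [Subgroup.coe_one] at h3 h4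
      apply hxw
      rw [h3, h4]
    obtain ⟨V₁, -, -, -, -, hV₁z, z, hzV, hz1, hz2, -⟩ :=
      Cfsg.Agent.Lib.PGrp.exists_normal_between hPp ⊥ ⊤ hnt
    have hz1' : z ≠ 1 := by simpa using hz1
    have hz2' : z ^ p = 1 := by simpa using hz2
    have hzc : ∀ g : (P : Subgroup G), g * z = z * g := by
      intro g
      have h1 := hV₁z z hzV g
      rw [Subgroup.mem_bot, commutatorElement_eq_one_iff_mul_comm] at h1
      exact h1.symm
    have hzo : orderOf z = p := orderOf_eq_prime hz2' hz1'
    have hall : ∀ H : Subgroup (P : Subgroup G), Nat.card H = p → H = zpowers z := by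
      intro H hH
      haveI : Fact p.Prime := hfp
      haveI : Nontrivial H := by
        rw [← Finite.one_lt_card_iff_nontrivial, hH]
        exact hpp.one_lt
      obtain ⟨⟨h, hh⟩, hh1⟩ := exists_ne (1 : H)
      have hh1' : h ≠ 1 := fun h' => hh1 (Subtype.ext h')
      have hhp : h ^ p = 1 := by
        have h2 := pow_card_eq_one' (x := (⟨h, hh⟩ : H))
        rw [hH] at h2
        exact congrArg Subtype.val h2
      have hzoG : orderOf (z : G) = p := by rw [Subgroup.orderOf_coe, hzo]
      have hhpG : (h : G) ^ p = 1 := by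
        have := congrArg Subtype.val hhp
        simpa using this
      have hmemL : (h : G) ∈ zpowers (z : G) := by
        by_cases hhc : (h : G) ∈ center G
        · refine cyc_uniq (centralizer ({x} : Set G)) (hcyc x hxc) ?_ ?_ hzoG hhpG
          · rw [Subgroup.mem_centralizer_singleton_iff]
            have := hzc ⟨x, hxP⟩
            exact (congrArg Subtype.val this).symm
          · rw [Subgroup.mem_centralizer_singleton_iff]
            exact (Subgroup.mem_center_iff.mp hhc x).symm
        · refine cyc_uniq (centralizer ({(h : G)} : Set G)) (hcyc h hhc) ?_ ?_ hzoG hhpG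
          · rw [Subgroup.mem_centralizer_singleton_iff]
            exact (congrArg Subtype.val (hzc h)).symm
          · exact Subgroup.mem_centralizer_singleton_iff.mpr rfl
      have hmem2 : h ∈ zpowers z := by
        obtain ⟨i, hi⟩ := Subgroup.mem_zpowers_iff.mp hmemL
        exact Subgroup.mem_zpowers_iff.mpr ⟨i, Subtype.ext (by simpa using hi)⟩
      have h3 : zpowers h = zpowers z := by
        apply Subgroup.eq_of_le_of_card_ge
        · rwa [zpowers_le]
        · rw [Nat.card_zpowers, Nat.card_zpowers, hzo, orderOf_eq_prime hhp hh1']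
      rw [← h3]
      symm
      apply Subgroup.eq_of_le_of_card_ge
      · rw [zpowers_le]
        exact hh
      · rw [hH, Nat.card_zpowers, orderOf_eq_prime hhp hh1']
    intro H K h1 h2
    rw [hall H h1, hall K h2]
  rcases cyclic_or_quaternion p hPp huniq with hc | ⟨hp2, n, ⟨f⟩⟩
  · exfalso
    apply hxw
    have := hc.commutative.is_comm.comm ⟨w, hwP⟩ ⟨x, hxP⟩
    exact congrArg Subtype.val this
  subst hp2
  have hn1 : 1 ≤ n := by
    by_contra hn0
    have hn00 : n = 0 := by omega
    subst hn00
    have hcommq : ∀ a b : QuaternionGroup (2 ^ 0), a * b = b * a := by decide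
    apply hxw
    have h1 := hcommq (f ⟨w, hwP⟩) (f ⟨x, hxP⟩)
    rw [← map_mul, ← map_mul] at h1
    exact congrArg Subtype.val (f.injective h1)
  -- the odd part
  have hKcomm : ∀ g : G, Odd (orderOf g) → g ∈ centralizer ({x} : Set G) := by
    intro g hg
    rw [Subgroup.mem_centralizer_singleton_iff]
    exact (hcommP x hxP g (Nat.coprime_two_right.mpr hg)).symm
  have hLcomm : ∀ a ∈ centralizer ({x} : Set G), ∀ b ∈ centralizer ({x} : Set G), a * b = b * a := by
    intro a ha b hb
    have := (hcyc x hxc).commutative.is_comm.comm ⟨a, ha⟩ ⟨b, hb⟩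
    exact congrArg Subtype.val this
  let K : Subgroup G :=
    { carrier := {g | Odd (orderOf g)}
      mul_mem' := by
        intro a b ha hb
        have hc : Commute a b := hLcomm a (hKcomm a ha) b (hKcomm b hb)
        exact Odd.of_dvd_nat (Odd.mul ha hb) hc.orderOf_mul_dvd_mul_orderOf
      one_mem' := by simp
      inv_mem' := by
        intro a ha
        simpa using ha }
  have hKmem : ∀ g, g ∈ K ↔ Odd (orderOf g) := fun g => Iff.rfl
  haveI hKc : IsCyclic K := by
    haveI := hcyc x hxc
    exact Subgroup.isCyclic_of_le (H := K) (H' := centralizer ({x} : Set G)) (fun g hg => hKcomm g hg)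
  have hmodd : Odd (Nat.card K) := by
    obtain ⟨c, hc⟩ := IsCyclic.exists_generator (α := K)
    rw [← orderOf_eq_card_of_forall_mem_zpowers hc, ← Subgroup.orderOf_coe]
    exact c.2
  have hcomm : ∀ (a : (P : Subgroup G)) (b : K), Commute ((P : Subgroup G).subtype a) (K.subtype b) := by
    intro a b
    exact hcommP a a.2 b (Nat.coprime_two_right.mpr b.2)
  let φ : ↥(P : Subgroup G) × ↥K →* G := MonoidHom.noncommCoprod (P : Subgroup G).subtype K.subtype hcomm
  have hφ : ∀ a b, φ (a, b) = (a : G) * (b : G) := fun a b => rfl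
  have hinj : Function.Injective φ := by
    rw [injective_iff_map_eq_one]
    rintro ⟨a, b⟩ h
    rw [hφ] at h
    have h1 : (b : G) = (a : G)⁻¹ := eq_inv_of_mul_eq_one_right h
    obtain ⟨f', hf'⟩ := hPord a a.2
    have h2 : Odd (orderOf (a : G)) := by
      have h3 : Odd (orderOf (b : G)) := b.2
      rwa [h1, orderOf_inv] at h3
    have h3 : orderOf (a : G) = 1 := by
      rw [hf'] at h2 ⊢
      rcases Nat.eq_zero_or_pos f' with rfl | hpos
      · simp
      · exfalso
        rw [Nat.odd_pow_iff (by omega)] at h2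
        exact absurd h2 (by decide)
    rw [orderOf_eq_one_iff] at h3
    have ha : a = 1 := Subtype.ext h3
    have hb : b = 1 := by
      apply Subtype.ext
      rw [h1, h3]
      simp
    rw [ha, hb]
    rfl
  have hsurj : Function.Surjective φ := by
    intro g
    obtain ⟨u, v, hgu, -, hu, hv⟩ := split_elem 2 g
    exact ⟨(⟨u, hmemP u hu⟩, ⟨v, Nat.coprime_two_right.mp hv⟩), hgu.symm⟩
  let e1 : ↥(P : Subgroup G) × ↥K ≃* G := MulEquiv.ofBijective φ ⟨hinj, hsurj⟩
  exact ⟨n, Nat.card K, hn1, hmodd, ⟨e1.symm.trans (MulEquiv.prodCongr f (zmodCyclicMulEquiv hKc).symm)⟩⟩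

theorem backward {k m : ℕ} (hk : 1 ≤ k) (hm : Odd m) (f : G ≃* QuaternionGroup (2 ^ k) × Multiplicative (ZMod m)) :
    ∀ x : G, x ∉ center G → IsCyclic (centralizer ({x} : Set G)) := by
  classical
  intro x hx
  haveI hn0 : NeZero (2 ^ k) := ⟨by positivity⟩
  haveI hm0 : NeZero m := ⟨hm.pos.ne'⟩
  set n := 2 ^ k with hn
  have hfx : f x = ((f x).1, (f x).2) := rfl
  set u := (f x).1 with hu
  set v := (f x).2 with hv
  have hcentral : ∃ q, q * u ≠ u * q := by
    by_contra h
    push_neg at h
    apply hx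
    rw [Subgroup.mem_center_iff]
    intro g
    apply f.injective
    rw [map_mul, map_mul, hfx]
    apply Prod.ext
    · exact h _
    · exact mul_comm _ _
  have hnn : (n : ZMod (2 * n)) + (n : ZMod (2 * n)) = 0 := by
    have : ((2 * n : ℕ) : ZMod (2 * n)) = 0 := ZMod.natCast_self _
    rw [← this]
    push_cast
    ring
  have hnneg : -(n : ZMod (2 * n)) = (n : ZMod (2 * n)) := by
    rw [neg_eq_iff_add_eq_zero]
    exact hnn
  have hcent0 : ∀ i : ZMod (2 * n), (i = 0 ∨ i = (n : ZMod (2 * n))) → ∀ q : QuaternionGroup n,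
      q * QuaternionGroup.a i = QuaternionGroup.a i * q := by
    intro i hi q
    rcases q with l | l
    · rw [QuaternionGroup.a_mul_a, QuaternionGroup.a_mul_a, add_comm]
    · rw [QuaternionGroup.xa_mul_a, QuaternionGroup.a_mul_xa]
      congr 1
      rcases hi with rfl | rfl
      · simp
      · rw [sub_eq_add_neg, hnneg]
  have hL : IsCyclic (centralizer ({u} : Set (QuaternionGroup n))) := by
    rcases huu : u with i | j
    · apply Subgroup.isCyclic_of_le (H' := zpowers (QuaternionGroup.a (1 : ZMod (2 * n))))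
      intro g hg
      rw [Subgroup.mem_centralizer_singleton_iff] at hg
      rcases g with l | l
      · have h1 : QuaternionGroup.a l = (QuaternionGroup.a (1 : ZMod (2 * n))) ^ l.val := by
          rw [QuaternionGroup.a_one_pow]
          simp
        rw [h1]
        exact npow_mem_zpowers _ _
      · exfalso
        rw [QuaternionGroup.xa_mul_a, QuaternionGroup.a_mul_xa] at hg
        have h1 : i = -i := by
          have h2 := QuaternionGroup.xa.inj hg
          have h3 : l + i = l + -i := by simpa [sub_eq_add_neg] using h2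
          exact add_left_cancel h3
        obtain ⟨q, hq⟩ := hcentral
        apply hq
        rw [huu]
        exact hcent0 i (neg_self_cases h1.symm) q
    · apply Subgroup.isCyclic_of_le (H' := zpowers (QuaternionGroup.xa j))
      intro g hg
      rw [Subgroup.mem_centralizer_singleton_iff] at hg
      have hsq : (QuaternionGroup.xa j : QuaternionGroup n) ^ 2 = QuaternionGroup.a (n : ZMod (2 * n)) :=
        QuaternionGroup.xa_sq j
      rcases g with l | l
      · rw [QuaternionGroup.a_mul_xa, QuaternionGroup.xa_mul_a] at hg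
        have h1 : -l = l := by
          have h2 := QuaternionGroup.xa.inj hg
          have h3 : j + -l = j + l := by simpa [sub_eq_add_neg] using h2
          exact add_left_cancel h3
        rcases neg_self_cases h1 with rfl | rfl
        · exact one_mem _
        · rw [← hsq]
          exact npow_mem_zpowers _ _
      · rw [QuaternionGroup.xa_mul_xa, QuaternionGroup.xa_mul_xa] at hg
        have h1 : -(l - j) = l - j := by
          have h2 := QuaternionGroup.a.inj hg
          have h3 : (n : ZMod (2 * n)) + (j - l) = (n : ZMod (2 * n)) + (l - j) := by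
            rw [← add_sub_assoc, ← add_sub_assoc]
            exact h2
          have h4 := add_left_cancel h3
          rw [neg_sub]
          exact h4
        rcases neg_self_cases h1 with h2 | h2
        · have h3 : l = j := sub_eq_zero.mp h2
          rw [h3]
          exact mem_zpowers _
        · have h3 : l = j + (n : ZMod (2 * n)) := by
            rw [← h2]
            ring
          have h4 : (QuaternionGroup.xa l : QuaternionGroup n) = (QuaternionGroup.xa j) ^ 3 := by
            rw [pow_succ', hsq, QuaternionGroup.xa_mul_a, h3]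
          rw [h4]
          exact npow_mem_zpowers _ _
  have hLcard : Nat.Coprime (Nat.card (centralizer ({u} : Set (QuaternionGroup n)))) m := by
    have h1 := Subgroup.card_subgroup_dvd_card (centralizer ({u} : Set (QuaternionGroup n)))
    rw [Nat.card_eq_fintype_card (α := QuaternionGroup n), QuaternionGroup.card] at h1
    have h2 : Nat.Coprime (4 * n) m := by
      rw [hn, show 4 * 2 ^ k = 2 ^ (k + 2) by ring]
      exact Nat.Coprime.pow_left _ (Nat.coprime_two_left.mpr hm)
    exact h2.coprime_dvd_left h1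
  have hCm : Nat.card (Multiplicative (ZMod m)) = m := by
    rw [Nat.card_congr Multiplicative.toAdd, Nat.card_zmod]
  haveI hprod : IsCyclic (↥(centralizer ({u} : Set (QuaternionGroup n))) × Multiplicative (ZMod m)) :=
    Group.isCyclic_prod_iff.mpr ⟨hL, inferInstance, by rw [hCm]; exact hLcard⟩
  let ψ : ↥(centralizer ({u} : Set (QuaternionGroup n))) × Multiplicative (ZMod m) →* G :=
    f.symm.toMonoidHom.comp (MonoidHom.prodMap (centralizer ({u} : Set (QuaternionGroup n))).subtype (MonoidHom.id _))
  have hψ : ∀ a, ψ a = f.symm ((a.1 : QuaternionGroup n), a.2) := fun a => rfl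
  have hψmem : ∀ a, ψ a ∈ centralizer ({x} : Set G) := by
    intro a
    rw [Subgroup.mem_centralizer_singleton_iff]
    apply f.injective
    rw [hψ, map_mul, map_mul, MulEquiv.apply_symm_apply, hfx]
    apply Prod.ext
    · exact Subgroup.mem_centralizer_singleton_iff.mp a.1.2
    · exact mul_comm _ _
  let φ := ψ.codRestrict (centralizer ({x} : Set G)) hψmem
  refine isCyclic_of_surjective φ ?_
  rintro ⟨g, hg⟩
  rw [Subgroup.mem_centralizer_singleton_iff] at hg
  have h1 : (f g).1 ∈ centralizer ({u} : Set (QuaternionGroup n)) := by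
    rw [Subgroup.mem_centralizer_singleton_iff]
    have h2 := congrArg f hg
    rw [map_mul, map_mul] at h2
    exact congrArg Prod.fst h2
  refine ⟨(⟨(f g).1, h1⟩, (f g).2), Subtype.ext ?_⟩
  show f.symm ((f g).1, (f g).2) = g
  rw [Prod.mk.eta, MulEquiv.symm_apply_apply]

end aux
/-- Let G be a finite non-abelian nilpotent group. Then the centralizer of every non-central element of G is cyclic if and only if G is isomorphic to the direct product of a generalized quaternion group and a cyclic group of odd order. -/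
theorem result {G : Type*} [Group G] [Finite G] (hG : Group.IsNilpotent G)
    (hna : ¬ IsMulCommutative G) :
    (∀ x : G, x ∉ Subgroup.center G → IsCyclic (Subgroup.centralizer ({x} : Set G))) ↔
      ∃ (k m : ℕ), 1 ≤ k ∧ Odd m ∧ Nonempty (G ≃* QuaternionGroup (2 ^ k) × Multiplicative (ZMod m)) := by

  constructor
  · exact fun h => forward hna h
  · rintro ⟨k, m, hk, hm, ⟨f⟩⟩
    exact backward hk hm f

end Cfsg.Agent.S4370
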