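import Cfsg.Statements.S4377
import Mathlib
import Cfsg.Agent.Lib.FGSBasic
-- import your own Cfsg.Agent.* helpers here

set_option autoImplicit false
open Cfsg

namespace Cfsg.Agent.S4377

theorem sum_divisors {G : Type*} [Group G] [Finite G] (n : ℕ) (hn : n ≠ 0) :
    Nat.card {g : G // g ^ n = 1} = ∑ d ∈ n.divisors, Nat.card {g : G // orderOf g = d} := by
  classical
  haveI := Fintype.ofFinite G
  simp only [Nat.card_eq_fintype_card, Fintype.card_subtype]
  rw [Finset.card_eq_sum_card_fiberwise (f := orderOf) (t := n.divisors)]
  · apply Finset.sum_congr rfl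
    intro d hd
    congr 1
    ext g
    simp only [Finset.mem_filter, Finset.mem_univ, true_and]
    constructor
    · rintro ⟨_, h⟩; exact h
    · intro h
      refine ⟨?_, h⟩
      rw [← orderOf_dvd_iff_pow_eq_one, h]
      exact Nat.dvd_of_mem_divisors hd
  · intro g hg
    simp only [Finset.coe_filter, Finset.mem_univ, true_and, Set.mem_setOf_eq] at hg
    simp only [Finset.mem_coe, Nat.mem_divisors]
    exact ⟨orderOf_dvd_of_pow_eq_one hg, hn⟩

/-- Two finite groups have the same number of elements of each order if and only if, for every n, they have the same number of elements g with gⁿ = 1. -/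
theorem result {G H : Type*} [Group G] [Finite G] [Group H] [Finite H] :
    (∀ n : ℕ, Nat.card {g : G // orderOf g = n} = Nat.card {h : H // orderOf h = n}) ↔
      ∀ n : ℕ, Nat.card {g : G // g ^ n = 1} = Nat.card {h : H // h ^ n = 1} := by
  classical
  constructor
  · intro h n
    obtain ⟨e, he⟩ := Cfsg.Agent.Lib.FGSBasic.exists_orderOf_equiv h
    refine Nat.card_congr (e.subtypeEquiv ?_)
    intro g
    rw [← orderOf_dvd_iff_pow_eq_one, ← orderOf_dvd_iff_pow_eq_one, he]
  · intro h n
    induction n using Nat.strong_induction_on with
    | _ n ih =>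
      by_cases hn : n = 0
      · subst hn
        haveI : IsEmpty {g : G // orderOf g = 0} := ⟨fun g => (orderOf_pos g.1).ne' g.2⟩
        haveI : IsEmpty {g : H // orderOf g = 0} := ⟨fun g => (orderOf_pos g.1).ne' g.2⟩
        rw [Nat.card_of_isEmpty, Nat.card_of_isEmpty]
      · have h1 := h n
        have hni : n ∉ n.properDivisors := by simp [Nat.mem_properDivisors]
        rw [sum_divisors n hn, sum_divisors n hn, ← Nat.insert_self_properDivisors hn,
          Finset.sum_insert hni, Finset.sum_insert hni] at h1
        have h2 : ∑ d ∈ n.properDivisors, Nat.card {g : G // orderOf g = d} = ∑ d ∈ n.properDivisors, Nat.card {g : H // orderOf g = d} := by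
          apply Finset.sum_congr rfl
          intro d hd
          exact ih d (Nat.mem_properDivisors.mp hd).2
        omega

end Cfsg.Agent.S4377
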