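import Cfsg.Statements.S4379
import Mathlib
import Cfsg.Agent.Lib.H1Cop
import Cfsg.Agent.Lib.H1Conj
import Cfsg.Agent.Lib.H1Frat
import Cfsg.Agent.Lib.H1Hall
import Cfsg.Agent.Lib.PSolv
-- import your own Cfsg.Agent.* helpers here

set_option autoImplicit false
open Cfsg

namespace Cfsg.Agent.S4379

open scoped Pointwise

universe u

section
variable {G : Type u} [Group G]

def Hyp (p : ℕ) (G : Type u) [Group G] : Prop :=
  ∀ M : Subgroup G, IsCoatom M → (∃ K : Subgroup ↥M, K.Normal ∧ ¬ p ∣ Nat.card K ∧ ∃ k : ℕ, K.index = p ^ k) ∨ (M.index).Prime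

def Ch (p : ℕ) {G : Type u} [Group G] (A B C D : Subgroup G) : Prop :=
  A.Normal ∧ B.Normal ∧ C.Normal ∧ D.Normal ∧ A ≤ B ∧ B ≤ C ∧ C ≤ D ∧ ¬ p ∣ Nat.card A ∧
      (∃ k : ℕ, A.relIndex B = p ^ k) ∧ ¬ p ∣ B.relIndex C ∧ (∃ k : ℕ, C.relIndex D = p ^ k) ∧ ¬ p ∣ D.index ∧
      (p = 2 → D = ⊤)

theorem hyp_quot [Finite G] {p : ℕ} [hp : Fact p.Prime] (h : Hyp p G) (N : Subgroup G) [hN : N.Normal] : Hyp p (G ⧸ N) := by
  intro Mb hMb
  let f := QuotientGroup.mk' N
  have hf : Function.Surjective f := QuotientGroup.mk'_surjective N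
  let M := Mb.comap f
  have hM : IsCoatom M := by
    refine ⟨fun h1 => hMb.1 ?_, fun L hL => ?_⟩
    · rw [eq_top_iff]
      intro y _
      obtain ⟨x, rfl⟩ := hf y
      have : x ∈ M := by rw [h1]; trivial
      exact this
    · have hle : Mb ≤ L.map f := by
        intro y hy
        obtain ⟨x, rfl⟩ := hf y
        exact ⟨x, hL.le hy, rfl⟩
      have hlt : Mb < L.map f := by
        refine lt_of_le_of_ne hle fun he => ?_
        obtain ⟨x, hxL, hxM⟩ := SetLike.exists_of_lt hL
        apply hxM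
        show f x ∈ Mb
        rw [he]
        exact ⟨x, hxL, rfl⟩
      have htop := hMb.2 _ hlt
      rw [eq_top_iff]
      intro x _
      have h1 : f x ∈ L.map f := by rw [htop]; trivial
      obtain ⟨y, hy, hyx⟩ := h1
      have h2 : y⁻¹ * x ∈ N := QuotientGroup.eq.1 hyx
      have h3 : N ≤ M := fun n hn => by
        show f n ∈ Mb
        rw [show f n = 1 from (QuotientGroup.eq_one_iff n).2 hn]
        exact Mb.one_mem
      have h4 : x = y * (y⁻¹ * x) := by group
      rw [h4]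
      exact L.mul_mem hy (hL.le (h3 h2))
  rcases h M hM with ⟨K, hK, hK1, k, hk⟩ | h1
  · left
    let g : M →* Mb := MonoidHom.codRestrict (f.comp M.subtype) Mb (fun x => x.2)
    have hg : Function.Surjective g := by
      rintro ⟨y, hy⟩
      obtain ⟨x, rfl⟩ := hf y
      exact ⟨⟨x, hy⟩, rfl⟩
    refine ⟨K.map g, Subgroup.Normal.map hK g hg, ?_, ?_⟩
    · intro hd
      apply hK1
      have h2 : Nat.card (K.map g) ∣ Nat.card K := by
        have := Subgroup.card_dvd_of_surjective (g.subgroupMap K) (g.subgroupMap_surjective K)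
        exact this
      exact hd.trans h2
    · have h2 : (K.map g).index ∣ p ^ k := hk ▸ Subgroup.index_map_dvd K hg
      obtain ⟨j, -, hj⟩ := (Nat.dvd_prime_pow hp.out).1 h2
      exact ⟨j, hj⟩
  · right
    have h2 : M.index = Mb.index := Subgroup.index_comap_of_surjective _ hf
    rwa [← h2]

theorem relIndex_comap_comap {H : Type*} [Group H] (f : G →* H) (hf : Function.Surjective f) (X Y : Subgroup H) :
    (X.comap f).relIndex (Y.comap f) = X.relIndex Y := by
  rw [Subgroup.relIndex_comap, Subgroup.map_comap_eq_self_of_surjective hf]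

theorem ch_comap [Finite G] {p : ℕ} [hp : Fact p.Prime] (N : Subgroup G) [hN : N.Normal]
    {A B C D : Subgroup (G ⧸ N)} (h : Ch p A B C D) :
    (A.comap (QuotientGroup.mk' N)).Normal ∧ (B.comap (QuotientGroup.mk' N)).Normal ∧
    (C.comap (QuotientGroup.mk' N)).Normal ∧ (D.comap (QuotientGroup.mk' N)).Normal ∧
    A.comap (QuotientGroup.mk' N) ≤ B.comap (QuotientGroup.mk' N) ∧
    B.comap (QuotientGroup.mk' N) ≤ C.comap (QuotientGroup.mk' N) ∧
    C.comap (QuotientGroup.mk' N) ≤ D.comap (QuotientGroup.mk' N) ∧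
    N ≤ A.comap (QuotientGroup.mk' N) ∧
    Nat.card (A.comap (QuotientGroup.mk' N)) = Nat.card A * Nat.card N ∧
    (∃ k : ℕ, (A.comap (QuotientGroup.mk' N)).relIndex (B.comap (QuotientGroup.mk' N)) = p ^ k) ∧
    ¬ p ∣ (B.comap (QuotientGroup.mk' N)).relIndex (C.comap (QuotientGroup.mk' N)) ∧
    (∃ k : ℕ, (C.comap (QuotientGroup.mk' N)).relIndex (D.comap (QuotientGroup.mk' N)) = p ^ k) ∧
    ¬ p ∣ (D.comap (QuotientGroup.mk' N)).index ∧ (p = 2 → D.comap (QuotientGroup.mk' N) = ⊤) := by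
  obtain ⟨h1, h2, h3, h4, h5, h6, h7, h8, h9, h10, h11, h12, h13⟩ := h
  have hf := QuotientGroup.mk'_surjective N
  refine ⟨Subgroup.Normal.comap h1 _, Subgroup.Normal.comap h2 _, Subgroup.Normal.comap h3 _, Subgroup.Normal.comap h4 _,
    Subgroup.comap_mono h5, Subgroup.comap_mono h6, Subgroup.comap_mono h7, ?_, Lib.H1Hall.card_comap_mk N A, ?_, ?_, ?_, ?_, ?_⟩
  · intro n hn
    show QuotientGroup.mk' N n ∈ A
    rw [show QuotientGroup.mk' N n = 1 from (QuotientGroup.eq_one_iff n).2 hn]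
    exact A.one_mem
  · rwa [relIndex_comap_comap _ hf]
  · rwa [relIndex_comap_comap _ hf]
  · rwa [relIndex_comap_comap _ hf]
  · rwa [Subgroup.index_comap_of_surjective _ hf]
  · intro hp2
    rw [h13 hp2, Subgroup.comap_top]

/-- case of a normal p'-subgroup -/
theorem case_a [Finite G] {p : ℕ} [hp : Fact p.Prime] (N : Subgroup G) [hN : N.Normal] (hNc : (Nat.card N).Coprime p)
    {A B C D : Subgroup (G ⧸ N)} (h : Ch p A B C D) : ∃ A B C D : Subgroup G, Ch p A B C D := by
  obtain ⟨h1, h2, h3, h4, h5, h6, h7, h0, hc, h10, h11, h12, h13, h14⟩ := ch_comap N h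
  refine ⟨_, _, _, _, h1, h2, h3, h4, h5, h6, h7, ?_, h10, h11, h12, h13, h14⟩
  rw [hc]
  intro hd
  rcases (Nat.Prime.dvd_mul hp.out).1 hd with hd | hd
  · exact h.2.2.2.2.2.2.2.1 hd
  · exact (Nat.Prime.coprime_iff_not_dvd hp.out).1 hNc.symm hd

/-- case of a normal p-subgroup in the Frattini subgroup -/
theorem case_b [Finite G] {p : ℕ} [hp : Fact p.Prime] (N : Subgroup G) [hN : N.Normal] (hNp : IsPGroup p N)
    (hNF : N ≤ frattini G)
    {A B C D : Subgroup (G ⧸ N)} (h : Ch p A B C D) : ∃ A B C D : Subgroup G, Ch p A B C D := by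
  classical
  obtain ⟨h1, h2, h3, h4, h5, h6, h7, h0, hc, h10, h11, h12, h13, h14⟩ := ch_comap N h
  have hA := h.2.2.2.2.2.2.2.1
  set A₁ := A.comap (QuotientGroup.mk' N) with hA₁
  obtain ⟨t, ht⟩ := IsPGroup.iff_card.1 hNp
  let N' : Subgroup A₁ := N.subgroupOf A₁
  have hN'card : Nat.card N' = Nat.card N := Nat.card_congr (Subgroup.subgroupOfEquivOfLe h0).toEquiv
  have hNpos : 0 < Nat.card N := Nat.card_pos
  have hN'idx : N'.index = Nat.card A := by
    have h1' := Subgroup.card_mul_index N'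
    rw [hN'card, hc] at h1'
    exact Nat.eq_of_mul_eq_mul_left hNpos (by rw [h1', mul_comm])
  have hAc : (Nat.card A).Coprime p := ((Nat.Prime.coprime_iff_not_dvd hp.out).2 hA).symm
  have hcop : (Nat.card N').Coprime N'.index := by
    rw [hN'card, hN'idx, ht]
    exact (hAc.pow_right t).symm
  obtain ⟨K, hK⟩ := Subgroup.exists_right_complement'_of_coprime hcop
  let A₀ : Subgroup G := K.map A₁.subtype
  have hA₀card : Nat.card A₀ = Nat.card A := by
    have h2' : Nat.card A₀ = Nat.card K :=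
      Nat.card_congr (Subgroup.equivMapOfInjective K A₁.subtype A₁.subtype_injective).toEquiv.symm
    rw [h2', ← hK.symm.index_eq_card, hN'idx]
  have hA₀A₁ : A₀ ≤ A₁ := Subgroup.map_subtype_le K
  have hsupA : A₁ ≤ N ⊔ A₀ := by
    intro x hx
    obtain ⟨⟨n, k⟩, hnk⟩ := hK.2 (⟨x, hx⟩ : A₁)
    have h3' : ((n : A₁) : G) * ((k : A₁) : G) = x := congrArg Subtype.val hnk
    rw [← h3']
    exact Subgroup.mul_mem _ (Subgroup.mem_sup_left (Subgroup.mem_subgroupOf.1 n.2))
      (Subgroup.mem_sup_right ⟨k, k.2, rfl⟩)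
  have hsup : N ⊔ A₀ = A₁ := le_antisymm (sup_le h0 hA₀A₁) hsupA
  haveI := h1
  have hA₀n : A₀.Normal := by
    rw [← Subgroup.normalizer_eq_top_iff]
    by_contra hne
    obtain h' | ⟨Y, hY, hUY⟩ := eq_top_or_exists_le_coatom (Subgroup.normalizer (A₀ : Set G))
    · exact hne h'
    · apply hY.1
      rw [eq_top_iff]
      intro g _
      have hNY : N ≤ Y := hNF.trans (Lib.H1Frat.le_frattini_iff.1 le_rfl Y hY)
      have hB : MulAut.conj g • A₀ ≤ N ⊔ A₀ := by
        rw [hsup]
        intro x hx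
        obtain ⟨y, hy, rfl⟩ := hx
        exact h1.conj_mem y (hA₀A₁ hy) g
      have hBcard : Nat.card (MulAut.conj g • A₀ : Subgroup G) = Nat.card A₀ := by
        exact Nat.card_congr (Subgroup.equivSMul (MulAut.conj g) A₀).toEquiv.symm
      obtain ⟨k, hk, hke⟩ := Lib.H1Cop.rel_conj (A := A₀) (K := N)
        (by rw [Subgroup.normalizer_eq_top_iff.2 hN]; exact le_top)
        (by rw [hA₀card, ht]; exact hAc.pow_right t)
        (Or.inr (by
          haveI : Group.IsNilpotent N := hNp.isNilpotent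
          infer_instance))
        hB hBcard
      have h8 : MulAut.conj (k * g) • A₀ = A₀ := by
        rw [map_mul, mul_smul]; exact hke
      have h9 : k * g ∈ Subgroup.normalizer (A₀ : Set G) := Lib.H1Conj.mem_normalizer_of_conj_smul_eq h8
      have h10' : g = k⁻¹ * (k * g) := by group
      rw [h10']
      exact Y.mul_mem (Y.inv_mem (hNY hk)) (hUY h9)
  refine ⟨A₀, _, _, _, hA₀n, h2, h3, h4, hA₀A₁.trans h5, h6, h7, ?_, ?_, h11, h12, h13, h14⟩
  · rwa [hA₀card]
  · obtain ⟨k, hk⟩ := h10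
    refine ⟨t + k, ?_⟩
    have h15 : A₀.relIndex A₁ = p ^ t := by
      have h16 : A₀.relIndex A₁ = K.index := by
        show (K.map A₁.subtype).relIndex A₁ = K.index
        rw [Subgroup.relIndex, Lib.H1Cop.map_subgroupOf_eq']
      rw [h16, hK.index_eq_card, hN'card, ht]
    rw [← Subgroup.relIndex_mul_relIndex _ _ _ hA₀A₁ h5, h15, hk, pow_add]

/-- case of a complement with a normal p-complement -/
theorem case_c1 [Finite G] {p : ℕ} [hp : Fact p.Prime] (N M : Subgroup G) [hN : N.Normal] (hNp : IsPGroup p N)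
    (hsup : N ⊔ M = ⊤) (hinf : N ⊓ M = ⊥)
    (K : Subgroup M) (hK : K.Normal) (hK1 : ¬ p ∣ Nat.card K) (k : ℕ) (hk : K.index = p ^ k) :
    ∃ A B C D : Subgroup G, Ch p A B C D := by
  classical
  let K₁ : Subgroup G := K.map M.subtype
  have hK₁card : Nat.card K₁ = Nat.card K :=
    Nat.card_congr (Subgroup.equivMapOfInjective K M.subtype M.subtype_injective).toEquiv.symm
  have hK₁M : K₁ ≤ M := Subgroup.map_subtype_le K
  have hCn : (N ⊔ K₁).Normal := by
    rw [← Subgroup.normalizer_eq_top_iff, eq_top_iff, ← hsup]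
    refine sup_le ((le_sup_left : N ≤ N ⊔ K₁).trans Subgroup.le_normalizer) ?_
    intro m hm
    apply Lib.H1Conj.mem_normalizer_of_conj_smul_eq
    rw [Subgroup.smul_sup, Subgroup.Normal.conj_smul_eq_self]
    congr 1
    have h1 : ∀ (u : M), MulAut.conj (u : G) • K₁ ≤ K₁ := by
      rintro u _ ⟨y, hy, rfl⟩
      obtain ⟨z, hz, rfl⟩ := hy
      exact ⟨u * z * u⁻¹, hK.conj_mem z hz u, rfl⟩
    apply le_antisymm (h1 ⟨m, hm⟩)
    have h2 := h1 (⟨m, hm⟩ : M)⁻¹
    intro y hy
    have h3 : MulAut.conj (m⁻¹) y ∈ MulAut.conj (m⁻¹) • K₁ := ⟨y, hy, rfl⟩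
    have h4 := h2 h3
    refine ⟨MulAut.conj (m⁻¹) y, h4, ?_⟩
    change m * (m⁻¹ * y * m⁻¹⁻¹) * m⁻¹ = y
    group
  obtain ⟨t, ht⟩ := IsPGroup.iff_card.1 hNp
  refine ⟨⊥, N, N ⊔ K₁, ⊤, inferInstance, hN, hCn, inferInstance, bot_le, le_sup_left, le_top, ?_, ⟨t, ?_⟩, ?_, ?_, ?_, fun _ => rfl⟩
  · simpa using hp.out.one_lt.ne'
  · rw [Subgroup.relIndex_bot_left, ht]
  · rw [Subgroup.relIndex_sup_left]
    intro hd
    exact hK1 (hK₁card ▸ hd.trans (Subgroup.relIndex_dvd_card _ _))
  · rw [Subgroup.relIndex_top_right]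
    have h1 : (N ⊔ K₁).index = (N ⊔ K₁).relIndex M := by
      have h2 := Subgroup.relIndex_sup_right (H := M) (K := N ⊔ K₁)
      have h3 : M ⊔ (N ⊔ K₁) = ⊤ := by
        rw [eq_top_iff, ← hsup]
        exact sup_le (le_sup_left.trans le_sup_right) le_sup_left
      rw [h3, Subgroup.relIndex_top_right] at h2
      exact h2
    have h4 : K ≤ (N ⊔ K₁).subgroupOf M := by
      intro x hx
      exact Subgroup.mem_subgroupOf.2 (Subgroup.mem_sup_right ⟨x, hx, rfl⟩)
    have h5 : (N ⊔ K₁).index ∣ p ^ k := by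
      rw [h1, ← hk]
      exact Subgroup.index_dvd_of_le h4
    obtain ⟨j, -, hj⟩ := (Nat.dvd_prime_pow hp.out).1 h5
    exact ⟨j, hj⟩
  · simpa using hp.out.one_lt.ne'

theorem sec_dvd (X Y Z : Subgroup G) [hX : X.Normal] (hXY : X ≤ Y) :
    (X ⊓ Z).relIndex (Y ⊓ Z) ∣ X.relIndex Y := by
  have h1 : (X ⊓ Z).relIndex (Y ⊓ Z) = X.relIndex (Y ⊓ Z) := by
    have h2 : X ⊓ Z = X ⊓ (Y ⊓ Z) := by
      rw [← inf_assoc, inf_of_le_left hXY]
    rw [h2, Subgroup.inf_relIndex_right]
  rw [h1]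
  exact Lib.PSolv.relIndex_mono_right X inf_le_left

/-- case of a complement of prime index -/
theorem case_c2 [Finite G] {p : ℕ} [hp : Fact p.Prime] (N M : Subgroup G) [hN : N.Normal] (hNp : IsPGroup p N)
    (hNab : ∀ a ∈ N, ∀ b ∈ N, a * b = b * a)
    (hsup : N ⊔ M = ⊤) (hinf : N ⊓ M = ⊥) (hidx : (M.index).Prime)
    {A B C D : Subgroup (G ⧸ N)} (h : Ch p A B C D) : ∃ A B C D : Subgroup G, Ch p A B C D := by
  classical
  obtain ⟨h1, h2, h3, h4, h5, h6, h7, h0, hc, h10, h11, h12, h13, h14⟩ := ch_comap N h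
  have hA := h.2.2.2.2.2.2.2.1
  set A₁ := A.comap (QuotientGroup.mk' N) with hA₁
  set B₁ := B.comap (QuotientGroup.mk' N) with hB₁
  set C₁ := C.comap (QuotientGroup.mk' N) with hC₁
  set D₁ := D.comap (QuotientGroup.mk' N) with hD₁
  haveI := h1; haveI := h2; haveI := h3; haveI := h4
  -- orders
  have hmulset : ((N : Set G) * (M : Set G)) = Set.univ := by
    rw [← Subgroup.normal_mul, hsup]; rfl
  have hNM : Nat.card N = M.index := by
    have hc' : Subgroup.IsComplement' N M := Subgroup.isComplement'_of_disjoint_and_mul_eq_univ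
      (disjoint_iff.2 hinf) hmulset
    exact hc'.index_eq_card.symm
  have hdec : ∀ g : G, ∃ n ∈ N, ∃ m ∈ M, g = n * m := by
    intro g
    have : g ∈ (N : Set G) * (M : Set G) := by rw [hmulset]; trivial
    obtain ⟨n, hn, m, hm, rfl⟩ := Set.mem_mul.1 this
    exact ⟨n, hn, m, hm, rfl⟩
  obtain ⟨t, ht⟩ := IsPGroup.iff_card.1 hNp
  have hNcardp : Nat.card N = p := by
    have hpr : (Nat.card N).Prime := hNM ▸ hidx
    have ht0 : t ≠ 0 := by
      rintro rfl
      rw [ht, pow_zero] at hpr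
      exact Nat.not_prime_one hpr
    have h15 : p ∣ Nat.card N := by rw [ht]; exact dvd_pow_self p ht0
    exact ((Nat.prime_dvd_prime_iff_eq hp.out hpr).1 h15).symm
  let T : Subgroup G := Subgroup.centralizer (N : Set G)
  haveI hTn : T.Normal := Subgroup.normal_centralizer
  have hNT : N ≤ T := fun a ha => Subgroup.mem_centralizer_iff.2 fun b hb => hNab b hb a ha
  have hTdvd : T.index ∣ (p - 1) := by
    haveI : Fact (Nat.card N).Prime := ⟨hNcardp ▸ hp.out⟩
    haveI : IsCyclic N := isCyclic_of_prime_card rfl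
    let f : G →* MulAut N := MulAut.conjNormal
    have hle : f.ker ≤ T := by
      intro g hg
      rw [Subgroup.mem_centralizer_iff]
      intro h hh
      have h16 : f g = 1 := hg
      have h17 : (f g) ⟨h, hh⟩ = ⟨h, hh⟩ := by rw [h16]; rfl
      have h18 : g * h * g⁻¹ = h := by
        have := congrArg Subtype.val h17
        simpa [f, MulAut.conjNormal_apply] using this
      calc h * g = (g * h * g⁻¹) * g := by rw [h18]
        _ = g * h := by group
    have h19 : T.index ∣ f.ker.index := Subgroup.index_dvd_of_le hle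
    rw [Subgroup.index_ker] at h19
    have h20 : Nat.card f.range ∣ Nat.card (MulAut N) := Subgroup.card_subgroup_dvd_card _
    have h21 : Nat.card (MulAut N) = p - 1 := by
      rw [IsCyclic.card_mulAut, hNcardp, Nat.totient_prime hp.out]
    rw [h21] at h20
    exact h19.trans h20
  have hTidx : ¬ p ∣ T.index := by
    intro hd
    have h22 := hd.trans hTdvd
    have h23 := Nat.le_of_dvd (by have := hp.out.two_le; omega) h22
    have := hp.out.two_le
    omega
  let M₀ : Subgroup G := M ⊓ T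
  haveI hM₀n : M₀.Normal := by
    refine ⟨fun x hx g => ?_⟩
    obtain ⟨n, hn, m, hm, rfl⟩ := hdec g
    have hw1 : m * x * m⁻¹ ∈ T := hTn.conj_mem x hx.2 m
    have hw2 : m * x * m⁻¹ ∈ M := M.mul_mem (M.mul_mem hm hx.1) (M.inv_mem hm)
    have h24 := Subgroup.mem_centralizer_iff.1 hw1 n hn
    have h25 : n * m * x * (n * m)⁻¹ = m * x * m⁻¹ := by
      calc n * m * x * (n * m)⁻¹ = (n * (m * x * m⁻¹)) * n⁻¹ := by group
        _ = ((m * x * m⁻¹) * n) * n⁻¹ := by rw [h24]
        _ = m * x * m⁻¹ := by group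
    rw [h25]
    exact ⟨hw2, hw1⟩
  have hAN : (A₁ ⊓ M₀) ⊓ N = ⊥ := by
    rw [eq_bot_iff]
    rintro x ⟨⟨-, hx1⟩, hx2⟩
    have : x ∈ N ⊓ M := ⟨hx2, hx1.1⟩
    rw [hinf] at this
    exact this
  have hA₂eq : A₁ ⊓ T = N ⊔ (A₁ ⊓ M₀) := by
    apply le_antisymm
    · rintro x ⟨hx1, hx2⟩
      obtain ⟨n, hn, m, hm, rfl⟩ := hdec x
      have hmT : m ∈ T := by
        have : m = n⁻¹ * (n * m) := by group
        rw [this]
        exact T.mul_mem (T.inv_mem (hNT hn)) hx2
      have hmA : m ∈ A₁ := by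
        have : m = n⁻¹ * (n * m) := by group
        rw [this]
        exact A₁.mul_mem (A₁.inv_mem (h0 hn)) hx1
      exact Subgroup.mul_mem _ (Subgroup.mem_sup_left hn) (Subgroup.mem_sup_right ⟨hmA, hm, hmT⟩)
    · exact sup_le (le_inf h0 hNT) (inf_le_inf_left _ inf_le_right)
  refine ⟨A₁ ⊓ M₀, B₁ ⊓ T, C₁ ⊓ T, D₁ ⊓ T, Subgroup.normal_inf_normal _ _, Subgroup.normal_inf_normal _ _,
    Subgroup.normal_inf_normal _ _, Subgroup.normal_inf_normal _ _, ?_, inf_le_inf_right _ h6, inf_le_inf_right _ h7, ?_, ?_,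
    ?_, ?_, ?_, ?_⟩
  · exact le_inf (inf_le_left.trans h5) (inf_le_right.trans inf_le_right)
  · intro hd
    apply hA
    have h15 := Lib.H1Cop.card_sup_mul_inf_of_normalizes (A := A₁ ⊓ M₀) (K := N)
      (by rw [Subgroup.normalizer_eq_top_iff.2 hN]; exact le_top)
    rw [hAN] at h15
    simp only [Subgroup.card_bot, mul_one] at h15
    have h16 : Nat.card ↥((A₁ ⊓ M₀) ⊔ N) ∣ Nat.card A₁ := Subgroup.card_dvd_of_le (sup_le inf_le_left h0)
    rw [h15, hc] at h16
    have hNpos : 0 < Nat.card N := Nat.card_pos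
    exact hd.trans (Nat.dvd_of_mul_dvd_mul_right hNpos h16)
  · have hAA₂ : A₁ ⊓ M₀ ≤ A₁ ⊓ T := inf_le_inf_left _ inf_le_right
    have hA₂B : A₁ ⊓ T ≤ B₁ ⊓ T := inf_le_inf_right _ h5
    have h15 : (A₁ ⊓ M₀).relIndex (A₁ ⊓ T) = p := by
      rw [hA₂eq, Subgroup.relIndex_sup_right, ← Subgroup.inf_relIndex_right, hAN, Subgroup.relIndex_bot_left, hNcardp]
    obtain ⟨k, hk⟩ := h10
    have h16 : (A₁ ⊓ T).relIndex (B₁ ⊓ T) ∣ p ^ k := hk ▸ sec_dvd A₁ B₁ T h5
    obtain ⟨j, -, hj⟩ := (Nat.dvd_prime_pow hp.out).1 h16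
    refine ⟨1 + j, ?_⟩
    rw [← Subgroup.relIndex_mul_relIndex _ _ _ hAA₂ hA₂B, h15, hj, pow_add, pow_one]
  · exact fun hd => h11 (hd.trans (sec_dvd B₁ C₁ T h6))
  · obtain ⟨k, hk⟩ := h12
    have h16 : (C₁ ⊓ T).relIndex (D₁ ⊓ T) ∣ p ^ k := hk ▸ sec_dvd C₁ D₁ T h7
    obtain ⟨j, -, hj⟩ := (Nat.dvd_prime_pow hp.out).1 h16
    exact ⟨j, hj⟩
  · intro hd
    rw [← Subgroup.relIndex_mul_index (inf_le_left : D₁ ⊓ T ≤ D₁), inf_comm, Subgroup.inf_relIndex_right] at hd
    rcases (Nat.Prime.dvd_mul hp.out).1 hd with hd | hd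
    · apply hTidx
      have h17 := Lib.PSolv.relIndex_mono_right T (le_top : D₁ ≤ ⊤)
      rw [Subgroup.relIndex_top_right] at h17
      exact hd.trans h17
    · exact h13 hd
  · intro hp2
    rw [h14 hp2]
    have h15 : T.index = 1 := by
      subst hp2
      simpa using hTdvd
    rw [Subgroup.index_eq_one.1 h15]
    exact inf_idem _

theorem exists_normal_of_psolv' {G : Type u} [Group G] [Finite G] {p : ℕ} (h : Cfsg.IsPSolvable p G)
    [Nontrivial G] : ∃ N : Subgroup G, N.Normal ∧ N ≠ ⊥ ∧ (IsPGroup p N ∨ (Nat.card N).Coprime p) := by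
  obtain ⟨n, H, h0, hn, hm, hN, hi⟩ := h
  by_contra hne
  push Not at hne
  have key : ∀ i : Fin (n + 1), H i = ⊥ := by
    intro i
    induction i using Fin.induction with
    | zero => exact h0
    | succ i ih =>
      by_contra hb
      have h1 := hne (H i.succ) (hN _) hb
      have h2 := hi i
      rw [ih, Subgroup.relIndex_bot_left] at h2
      rcases h2 with ⟨m, hm'⟩ | h2
      · exact h1.1 (IsPGroup.of_card hm')
      · exact h1.2 h2
  have h3 := key (Fin.last n)
  rw [hn] at h3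
  exact top_ne_bot h3

theorem chain (p : ℕ) [hp : Fact p.Prime] : ∀ (n : ℕ) (G : Type u) [Group G] [Finite G], Nat.card G = n →
    (Group.IsSolvable G ∨ Cfsg.IsPSolvable p G) → Hyp p G → ∃ A B C D : Subgroup G, Ch p A B C D := by
  classical
  intro n
  induction n using Nat.strong_induction_on with
  | _ n ih =>
    intro G _ _ hn hsol hyp
    by_cases hnt : Nontrivial G
    · have hN₀ : ∃ N : Subgroup G, N.Normal ∧ N ≠ ⊥ ∧ (IsPGroup p N ∨ (Nat.card N).Coprime p) := by
        rcases hsol with hs | hs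
        · obtain ⟨q, a, N, hq, ha, hNn, hNc⟩ := Lib.H1Hall.exists_minimal_normal_pgroup (X := G)
          refine ⟨N, hNn, ?_, ?_⟩
          · intro hb
            rw [hb, Subgroup.card_bot] at hNc
            have := Nat.one_lt_pow ha.ne' hq.one_lt
            omega
          · by_cases hqp : q = p
            · left
              subst hqp
              exact IsPGroup.of_card hNc
            · right
              rw [hNc]
              exact Nat.Coprime.pow_left a ((Nat.coprime_primes hq hp.out).2 hqp)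
        · exact exists_normal_of_psolv' hs
      have quot : ∀ (N : Subgroup G) [N.Normal], N ≠ ⊥ → ∃ A B C D : Subgroup (G ⧸ N), Ch p A B C D := by
        intro N _ hb
        have hlt : Nat.card (G ⧸ N) < n := by
          rw [← hn, ← Subgroup.card_mul_index N]
          have hpos : 0 < N.index := Nat.pos_of_ne_zero Subgroup.index_ne_zero_of_finite
          have h1 : 1 < Nat.card N := by
            rw [Subgroup.one_lt_card_iff_ne_bot]; exact hb
          show N.index < Nat.card N * N.index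
          nlinarith
        refine ih _ hlt (G ⧸ N) rfl ?_ (hyp_quot hyp N)
        rcases hsol with hs | hs
        · left
          exact solvable_of_surjective (QuotientGroup.mk'_surjective N)
        · right
          exact Lib.PSolv.isPSolvable_of_surjective (QuotientGroup.mk' N) (QuotientGroup.mk'_surjective N) hs
      obtain ⟨N₀, hN₀n, hN₀b, hN₀c⟩ := hN₀
      rcases hN₀c with hp' | hc
      · obtain ⟨N, -, hN⟩ := (Set.toFinite {X : Subgroup G | X ≤ N₀ ∧ X.Normal ∧ X ≠ ⊥}).exists_le_minimal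
          (show N₀ ∈ {X : Subgroup G | X ≤ N₀ ∧ X.Normal ∧ X ≠ ⊥} from ⟨le_rfl, hN₀n, hN₀b⟩)
        obtain ⟨⟨hNN₀, hNn, hNb⟩, hNmin⟩ := hN
        haveI := hNn
        have hNp : IsPGroup p N := hp'.to_le hNN₀
        have hmin : ∀ X : Subgroup G, X ≤ N → X.Normal → X ≠ ⊥ → N ≤ X := fun X hX hXn hXb =>
          hNmin (show X ∈ {X : Subgroup G | X ≤ N₀ ∧ X.Normal ∧ X ≠ ⊥} from ⟨hX.trans hNN₀, hXn, hXb⟩) hX
        have hNab : ∀ a ∈ N, ∀ b ∈ N, a * b = b * a := by
          let Z : Subgroup G := (Subgroup.center N).map N.subtype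
          have hZn : Z.Normal := by
            refine ⟨?_⟩
            rintro _ ⟨z, hz, rfl⟩ g
            refine ⟨⟨g * z * g⁻¹, hNn.conj_mem _ z.2 g⟩, Subgroup.mem_center_iff.2 ?_, rfl⟩
            rintro ⟨y, hy⟩
            apply Subtype.ext
            have h1 : g⁻¹ * y * g ∈ N := by
              have := hNn.conj_mem y hy g⁻¹
              simpa using this
            have h2 := (Subgroup.mem_center_iff.1 hz) ⟨_, h1⟩
            have h3 : g⁻¹ * y * g * (z : G) = (z : G) * (g⁻¹ * y * g) := congrArg Subtype.val h2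
            show y * (g * z * g⁻¹) = g * z * g⁻¹ * y
            calc y * (g * z * g⁻¹) = g * (g⁻¹ * y * g * (z : G)) * g⁻¹ := by group
              _ = g * ((z : G) * (g⁻¹ * y * g)) * g⁻¹ := by rw [h3]
              _ = g * z * g⁻¹ * y := by group
          have hZb : Z ≠ ⊥ := by
            haveI : Nontrivial N := (Subgroup.nontrivial_iff_ne_bot N).2 hNb
            haveI := hNp.center_nontrivial
            obtain ⟨z, hz⟩ := exists_ne (1 : Subgroup.center N)
            intro h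
            have h1 : ((z : N) : G) ∈ Z := ⟨z, z.2, rfl⟩
            rw [h, Subgroup.mem_bot] at h1
            exact hz (Subtype.ext (Subtype.ext h1))
          have hle := hmin Z (Subgroup.map_subtype_le _) hZn hZb
          intro a ha b hb
          obtain ⟨z, hz, hze⟩ := hle ha
          have h1 := Subgroup.mem_center_iff.1 hz ⟨b, hb⟩
          have h2 : b * (z : G) = (z : G) * b := congrArg Subtype.val h1
          rw [← hze]
          exact h2.symm
        by_cases hΦ : N ≤ frattini G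
        · obtain ⟨A, B, C, D, h⟩ := quot N hNb
          exact case_b N hNp hΦ h
        · obtain ⟨M, hM, hNM⟩ : ∃ M : Subgroup G, IsCoatom M ∧ ¬ N ≤ M := by
            by_contra hcon
            push Not at hcon
            exact hΦ (Lib.H1Frat.le_frattini_iff.2 hcon)
          have hsupM : N ⊔ M = ⊤ := by
            apply hM.2
            refine lt_of_le_of_ne le_sup_right fun h => hNM ?_
            rw [h]; exact le_sup_left
          have hdec : ∀ g : G, ∃ n ∈ N, ∃ m ∈ M, g = n * m := by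
            intro g
            have : g ∈ ((N ⊔ M : Subgroup G) : Set G) := by rw [hsupM]; trivial
            rw [Subgroup.normal_mul] at this
            obtain ⟨n, hn, m, hm, rfl⟩ := Set.mem_mul.1 this
            exact ⟨n, hn, m, hm, rfl⟩
          have hinfM : N ⊓ M = ⊥ := by
            by_contra hne
            apply hNM
            refine (hmin (N ⊓ M) inf_le_left ?_ hne).trans inf_le_right
            refine ⟨fun x hx g => ?_⟩
            obtain ⟨n, hn, m, hm, rfl⟩ := hdec g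
            have hw1 : m * x * m⁻¹ ∈ N := hNn.conj_mem x hx.1 m
            have hw2 : m * x * m⁻¹ ∈ M := M.mul_mem (M.mul_mem hm hx.2) (M.inv_mem hm)
            have h24 := hNab n hn _ hw1
            have h25 : n * m * x * (n * m)⁻¹ = m * x * m⁻¹ := by
              calc n * m * x * (n * m)⁻¹ = (n * (m * x * m⁻¹)) * n⁻¹ := by group
                _ = ((m * x * m⁻¹) * n) * n⁻¹ := by rw [h24]
                _ = m * x * m⁻¹ := by group
            rw [h25]
            exact ⟨hw1, hw2⟩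
          rcases hyp M hM with ⟨K, hK, hK1, k, hk⟩ | hpr
          · exact case_c1 N M hNp hsupM hinfM K hK hK1 k hk
          · obtain ⟨A, B, C, D, h⟩ := quot N hNb
            exact case_c2 N M hNp hNab hsupM hinfM hpr h
      · obtain ⟨A, B, C, D, h⟩ := quot N₀ hN₀b
        exact case_a N₀ hc h
    · rw [not_nontrivial_iff_subsingleton] at hnt
      have h1 : Nat.card G = 1 := Nat.card_of_subsingleton (1 : G)
      refine ⟨⊥, ⊥, ⊥, ⊥, inferInstance, inferInstance, inferInstance, inferInstance, le_rfl, le_rfl, le_rfl, ?_, ⟨0, ?_⟩, ?_, ⟨0, ?_⟩, ?_, fun _ => Subsingleton.elim _ _⟩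
      · simpa using hp.out.one_lt.ne'
      · simp
      · simpa using hp.out.one_lt.ne'
      · simp
      · rw [Subgroup.index_bot, h1]
        simpa using hp.out.one_lt.ne'
end

/-- Let p be an odd prime and G a finite p-solvable group in which every maximal subgroup either has a normal p-complement or has prime index. Then G has a chain of normal subgroups 1 ≤ A ≤ B ≤ C ≤ D ≤ G in which A, C/B and G/D have order prime to p and B/A and D/C are p-groups (so the p-length of G is at most 2). -/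
theorem result {G : Type*} [Group G] [Finite G]
    (p : ℕ) [Fact p.Prime] (hp : p ≠ 2) (hG : Cfsg.IsPSolvable p G)
    (hmax : ∀ M : Subgroup G, IsCoatom M → (∃ K : Subgroup ↥M, K.Normal ∧ ¬ p ∣ Nat.card K ∧ ∃ k : ℕ, K.index = p ^ k) ∨ (M.index).Prime) :
    ∃ A B C D : Subgroup G, A.Normal ∧ B.Normal ∧ C.Normal ∧ D.Normal ∧ A ≤ B ∧ B ≤ C ∧ C ≤ D ∧ ¬ p ∣ Nat.card A ∧
      (∃ k : ℕ, A.relIndex B = p ^ k) ∧ ¬ p ∣ B.relIndex C ∧ (∃ k : ℕ, C.relIndex D = p ^ k) ∧ ¬ p ∣ D.index := by
  obtain ⟨A, B, C, D, h1, h2, h3, h4, h5, h6, h7, h8, h9, h10, h11, h12, -⟩ := chain p _ G rfl (Or.inr hG) hmax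
  exact ⟨A, B, C, D, h1, h2, h3, h4, h5, h6, h7, h8, h9, h10, h11, h12⟩

end Cfsg.Agent.S4379
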