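import Cfsg.Statements.S4378
import Mathlib
import Cfsg.Agent.S4379
-- import your own Cfsg.Agent.* helpers here

set_option autoImplicit false
open Cfsg

namespace Cfsg.Agent.S4378

/-- Let G be a finite solvable group in which every maximal subgroup either has a normal 2-complement or has prime index. Then G has a chain of normal subgroups 1 ≤ A ≤ B ≤ C ≤ G in which A and C/B have odd order and B/A and G/C are 2-groups (so the 2-length of G is at most 2). -/
theorem result {G : Type*} [Group G] [Finite G]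
    (hG : Group.IsSolvable G)
    (hmax : ∀ M : Subgroup G, IsCoatom M → (∃ K : Subgroup ↥M, K.Normal ∧ ¬ 2 ∣ Nat.card K ∧ ∃ k : ℕ, K.index = 2 ^ k) ∨ (M.index).Prime) :
    ∃ A B C : Subgroup G, A.Normal ∧ B.Normal ∧ C.Normal ∧ A ≤ B ∧ B ≤ C ∧ Odd (Nat.card A) ∧
      (∃ k : ℕ, A.relIndex B = 2 ^ k) ∧ Odd (B.relIndex C) ∧ ∃ k : ℕ, C.index = 2 ^ k := by
  classical
  haveI : Fact (Nat.Prime 2) := ⟨Nat.prime_two⟩
  obtain ⟨A, B, C, D, h1, h2, h3, h4, h5, h6, h7, h8, h9, h10, h11, h12, h13⟩ :=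
    S4379.chain 2 _ G rfl (Or.inl hG) hmax
  have hD := h13 rfl
  subst hD
  refine ⟨A, B, C, h1, h2, h3, h5, h6, ?_, h9, ?_, ?_⟩
  · exact Nat.not_even_iff_odd.1 (fun h => h8 (even_iff_two_dvd.1 h))
  · exact Nat.not_even_iff_odd.1 (fun h => h10 (even_iff_two_dvd.1 h))
  · obtain ⟨k, hk⟩ := h11
    rw [Subgroup.relIndex_top_right] at hk
    exact ⟨k, hk⟩

end Cfsg.Agent.S4378
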