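import Cfsg.Statements.S4381
import Mathlib
import Cfsg.Agent.Lib.H1Cop
import Cfsg.Agent.Lib.PMaschke
import Cfsg.Agent.Lib.PGrp2
import Cfsg.Agent.Lib.H1Frat
-- import your own Cfsg.Agent.* helpers here

set_option autoImplicit false
open Pointwise
open Cfsg

namespace Cfsg.Agent.S4381

section
variable {A G : Type*} [Group A] [Group G] [MulDistribMulAction A G]

/-- maximal invariant -/
def MaxI (A : Type*) {G : Type*} [Group A] [Group G] [MulDistribMulAction A G] (M : Subgroup G) : Prop :=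
  M ≠ ⊤ ∧ (∀ a : A, ∀ x ∈ M, a • x ∈ M) ∧ ∀ L : Subgroup G, M < L → (∀ a : A, ∀ x ∈ L, a • x ∈ L) → L = ⊤

theorem exists_max [Finite G] (L : Subgroup G) (hL : L ≠ ⊤) (hi : ∀ a : A, ∀ x ∈ L, a • x ∈ L) :
    ∃ M, MaxI A M ∧ L ≤ M := by
  obtain ⟨M, hLM, hM⟩ := (Set.toFinite {M : Subgroup G | M ≠ ⊤ ∧ ∀ a : A, ∀ x ∈ M, a • x ∈ M}).exists_le_maximal
    (show L ∈ {M : Subgroup G | M ≠ ⊤ ∧ ∀ a : A, ∀ x ∈ M, a • x ∈ M} from ⟨hL, hi⟩)
  refine ⟨M, ⟨hM.1.1, hM.1.2, fun L' hL' hi' => ?_⟩, hLM⟩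
  by_contra hne
  exact absurd (hM.2 (show L' ∈ {M : Subgroup G | M ≠ ⊤ ∧ ∀ a : A, ∀ x ∈ M, a • x ∈ M} from ⟨hne, hi'⟩) hL'.le) (not_le_of_gt hL')

theorem inv_sylow [Finite A] [Finite G] (hcop : (Nat.card A).Coprime (Nat.card G))
    (hsol : Group.IsSolvable A ∨ Group.IsSolvable G) (q : ℕ) [Fact q.Prime] :
    ∃ S : Subgroup G, (∀ a : A, ∀ x ∈ S, a • x ∈ S) ∧ IsPGroup q S ∧ ¬ q ∣ S.index := by
  classical
  let φ : A →* MulAut G := MulDistribMulAction.toMulAut A G
  let Γ := G ⋊[φ] A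
  haveI : Finite Γ := Finite.of_equiv _ (SemidirectProduct.equivProd (φ := φ)).symm
  let K : Subgroup Γ := (SemidirectProduct.inl : G →* Γ).range
  let A₁ : Subgroup Γ := (SemidirectProduct.inr : A →* Γ).range
  have hKn : K.Normal := by
    have : K = (SemidirectProduct.rightHom : Γ →* A).ker := SemidirectProduct.range_inl_eq_ker_rightHom
    rw [this]; infer_instance
  have hAK : A₁ ≤ Subgroup.normalizer (K : Set Γ) := by
    rw [Subgroup.normalizer_eq_top_iff.2 hKn]; exact le_top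
  have hcA : Nat.card A₁ = Nat.card A := Nat.card_congr (MonoidHom.ofInjective SemidirectProduct.inr_injective).toEquiv.symm
  have hcK : Nat.card K = Nat.card G := Nat.card_congr (MonoidHom.ofInjective SemidirectProduct.inl_injective).toEquiv.symm
  have hsol' : Group.IsSolvable A₁ ∨ Group.IsSolvable K := by
    rcases hsol with h | h
    · left; exact solvable_of_surjective (f := (SemidirectProduct.inr : A →* Γ).rangeRestrict) (MonoidHom.rangeRestrict_surjective _)
    · right; exact solvable_of_surjective (f := (SemidirectProduct.inl : G →* Γ).rangeRestrict) (MonoidHom.rangeRestrict_surjective _)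
  obtain ⟨R, hR, hAR⟩ := Lib.H1Cop.exists_invariant_sylow hAK (by rw [hcA, hcK]; exact hcop) hsol' q
  refine ⟨R.comap (SemidirectProduct.inl : G →* Γ), ?_, ?_, ?_⟩
  · intro a x hx
    have h1 : (SemidirectProduct.inr a : Γ) ∈ Subgroup.normalizer (R : Set Γ) := hAR ⟨a, rfl⟩
    have h2 := (Subgroup.mem_normalizer_iff.1 h1 (SemidirectProduct.inl x)).1 hx
    have h3 : (SemidirectProduct.inl (a • x) : Γ) = SemidirectProduct.inr a * SemidirectProduct.inl x * (SemidirectProduct.inr a)⁻¹ := by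
      rw [← map_inv]
      exact SemidirectProduct.inl_aut a x
    show (SemidirectProduct.inl (a • x) : Γ) ∈ R
    rw [h3]; exact h2
  · exact hR.2.1.comap_of_injective _ SemidirectProduct.inl_injective
  · have := hR.2.2
    rwa [Subgroup.index_comap]

theorem exists_compl {V : Type*} [CommGroup V] [Finite V] {p : ℕ} (hp : p.Prime) (hV : ∀ v : V, v ^ p = 1)
    (U : Subgroup V) : ∃ W : Subgroup V, U ⊓ W = ⊥ ∧ U ⊔ W = ⊤ := by
  obtain ⟨W, -, hW⟩ := (Set.toFinite {W : Subgroup V | U ⊓ W = ⊥}).exists_le_maximal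
    (show (⊥ : Subgroup V) ∈ {W : Subgroup V | U ⊓ W = ⊥} by simp)
  refine ⟨W, hW.1, ?_⟩
  by_contra hne
  obtain ⟨v, hv⟩ : ∃ v, v ∉ U ⊔ W := by
    by_contra h
    push Not at h
    exact hne (eq_top_iff.2 fun x _ => h x)
  have hW' : U ⊓ (W ⊔ Subgroup.zpowers v) = ⊥ := by
    rw [eq_bot_iff]
    intro x hx
    obtain ⟨hxU, hxW⟩ := Subgroup.mem_inf.1 hx
    obtain ⟨w, hw, y, hy, rfl⟩ := Subgroup.mem_sup.1 hxW
    obtain ⟨i, rfl⟩ := Subgroup.mem_zpowers_iff.1 hy
    by_cases hi : (p : ℤ) ∣ i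
    · obtain ⟨j, rfl⟩ := hi
      have h1 : v ^ ((p : ℤ) * j) = 1 := by
        rw [zpow_mul, zpow_natCast, hV, one_zpow]
      rw [h1, mul_one] at hxU ⊢
      have h2 : w ∈ U ⊓ W := Subgroup.mem_inf.2 ⟨hxU, hw⟩
      rw [hW.1] at h2
      exact h2
    · exfalso
      have hc : IsCoprime i (p : ℤ) := by
        have hpp : Prime (p : ℤ) := Nat.prime_iff_prime_int.1 hp
        exact ((Prime.coprime_iff_not_dvd hpp).2 hi).symm
      obtain ⟨a, b, hab⟩ := hc
      apply hv
      have h1 : v ^ i ∈ U ⊔ W := by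
        have h2 : v ^ i = w⁻¹ * (w * v ^ i) := by group
        rw [h2]
        exact Subgroup.mul_mem _ (Subgroup.mem_sup_right (W.inv_mem hw)) (Subgroup.mem_sup_left hxU)
      have h3 : v = (v ^ i) ^ a := by
        have h4 : v ^ (p : ℤ) = 1 := by rw [zpow_natCast, hV]
        calc v = v ^ (a * i + b * (p : ℤ)) := by rw [hab, zpow_one]
          _ = (v ^ i) ^ a := by
            rw [zpow_add, mul_comm b, zpow_mul _ (p : ℤ), h4, one_zpow, mul_one, mul_comm a, zpow_mul]
      rw [h3]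
      exact Subgroup.zpow_mem _ h1 a
  have hle := hW.2 (show W ⊔ Subgroup.zpowers v ∈ {W : Subgroup V | U ⊓ W = ⊥} from hW') le_sup_left
  apply hv
  exact Subgroup.mem_sup_right (hle (Subgroup.mem_sup_right (Subgroup.mem_zpowers v)))

theorem pgroup_of_conj [Finite A] [Finite G] (hcop : (Nat.card A).Coprime (Nat.card G))
    (hsol : Group.IsSolvable A ∨ Group.IsSolvable G)
    (hconj : ∀ M N : Subgroup G, MaxI A M → MaxI A N → ∃ c : G, (∀ a : A, a • c = c) ∧ N = MulAut.conj c • M) :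
    ∃ p : ℕ, p.Prime ∧ IsPGroup p G := by
  by_cases hG : (⊥ : Subgroup G) = ⊤
  · refine ⟨2, Nat.prime_two, fun g => ⟨0, ?_⟩⟩
    have : g ∈ (⊥ : Subgroup G) := by rw [hG]; trivial
    simpa using this
  · obtain ⟨M, hM, -⟩ := exists_max (A := A) (⊥ : Subgroup G) hG (fun a x hx => by
      rw [Subgroup.mem_bot] at hx ⊢
      rw [hx, smul_one])
    have hidx : M.index ≠ 1 := fun h => hM.1 (Subgroup.index_eq_one.1 h)
    obtain ⟨q, hq, hqd⟩ := Nat.exists_prime_and_dvd hidx
    haveI := Fact.mk hq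
    obtain ⟨S, hSi, hSq, hSn⟩ := inv_sylow (A := A) hcop hsol q
    refine ⟨q, hq, ?_⟩
    by_cases hS : S = ⊤
    · subst hS
      intro g
      obtain ⟨k, hk⟩ := hSq ⟨g, trivial⟩
      exact ⟨k, by simpa [Subtype.ext_iff] using hk⟩
    · exfalso
      obtain ⟨N, hN, hSN⟩ := exists_max (A := A) S hS hSi
      obtain ⟨c, -, hc⟩ := hconj M N hM hN
      have h1 : N.index = M.index := by
        rw [hc]
        exact Subgroup.index_map_of_bijective (MulAut.conj c).bijective M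
      exact hSn (dvd_trans hqd (h1 ▸ Subgroup.index_dvd_of_le hSN))

theorem frat_inv (a : A) (x : G) (hx : x ∈ frattini G) : a • x ∈ frattini G := by
  have h1 := (inferInstance : (frattini G).Characteristic).fixed (MulDistribMulAction.toMulEquiv G a)
  have h2 : x ∈ (frattini G).comap (MulDistribMulAction.toMulEquiv G a).toMonoidHom := by
    rw [h1]; exact hx
  exact h2

theorem irr_of_conj [Finite A] [Finite G] (hcop : (Nat.card A).Coprime (Nat.card G))
    (hp : ∃ p : ℕ, p.Prime ∧ IsPGroup p G)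
    (hconj : ∀ M N : Subgroup G, MaxI A M → MaxI A N → ∃ c : G, (∀ a : A, a • c = c) ∧ N = MulAut.conj c • M)
    (L : Subgroup G) (hL : frattini G < L) (hi : ∀ a : A, ∀ x ∈ L, a • x ∈ L) : L = ⊤ := by
  classical
  obtain ⟨p, hpp, hG⟩ := hp
  haveI := Fact.mk hpp
  by_contra hne
  obtain ⟨M₁, hM₁, hLM⟩ := exists_max (A := A) L hne hi
  have hΦM : frattini G < M₁ := lt_of_lt_of_le hL hLM
  have hcomm : commutator G ≤ frattini G := Lib.PGrp.commutator_le_frattini hG
  have hM₁n : M₁.Normal := by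
    refine ⟨fun x hx g => ?_⟩
    have h1 : g * x * g⁻¹ * x⁻¹ ∈ frattini G :=
      hcomm (Subgroup.commutator_mem_commutator (Subgroup.mem_top g) (Subgroup.mem_top x))
    have h2 : g * x * g⁻¹ = (g * x * g⁻¹ * x⁻¹) * x := by group
    rw [h2]
    exact M₁.mul_mem (hΦM.le h1) hx
  haveI hΦn : (frattini G).Normal := inferInstance
  have hab : IsMulCommutative (G ⧸ frattini G) :=
    (Subgroup.Normal.quotient_commutative_iff_commutator_le).2 hcomm
  letI : CommGroup (G ⧸ frattini G) :=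
    { (inferInstance : Group (G ⧸ frattini G)) with mul_comm := fun a b => hab.is_comm.comm a b }
  have hV : ∀ v : G ⧸ frattini G, v ^ p = 1 := by
    intro v
    obtain ⟨x, rfl⟩ := QuotientGroup.mk'_surjective _ v
    rw [← map_pow]
    exact (QuotientGroup.eq_one_iff _).2 (Lib.PGrp.pow_mem_frattini hG x)
  have hmap : ∀ a : A, (frattini G).map (MulDistribMulAction.toMulEquiv G a).toMonoidHom = frattini G := fun a =>
    Subgroup.characteristic_iff_map_eq.1 inferInstance _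
  let ρ : A →* MulAut (G ⧸ frattini G) :=
    MonoidHom.mk' (fun a => QuotientGroup.congr (frattini G) (frattini G) (MulDistribMulAction.toMulEquiv G a) (hmap a))
      (by
        intro a b
        ext v
        obtain ⟨x, rfl⟩ := QuotientGroup.mk'_surjective _ v
        show ((QuotientGroup.mk ((a * b) • x)) : G ⧸ frattini G) = QuotientGroup.mk (a • b • x)
        rw [mul_smul])
  have hρ : ∀ (a : A) (x : G), ρ a (QuotientGroup.mk' (frattini G) x) = QuotientGroup.mk' (frattini G) (a • x) :=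
    fun a x => rfl
  let U : Subgroup (G ⧸ frattini G) := M₁.map (QuotientGroup.mk' (frattini G))
  obtain ⟨W₀, hW1, hW2⟩ := exists_compl hpp hV U
  have hcard : (Nat.card A).Coprime (Nat.card (G ⧸ frattini G)) :=
    hcop.coprime_dvd_right (Subgroup.index_dvd_card (frattini G))
  have hinv : ∀ a : A, ∀ u ∈ U, ρ a u ∈ U := by
    rintro a u ⟨x, hx, rfl⟩
    exact ⟨a • x, hM₁.2.1 a x hx, rfl⟩
  obtain ⟨W', hW'i, hW'1, hW'2⟩ := Lib.PMaschke.abstract_maschke ρ hcard U W₀ hinv hW1 hW2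
  let C : Subgroup G := W'.comap (QuotientGroup.mk' (frattini G))
  have hCi : ∀ a : A, ∀ x ∈ C, a • x ∈ C := by
    intro a x hx
    show QuotientGroup.mk' (frattini G) (a • x) ∈ W'
    rw [← hρ]
    exact hW'i a _ hx
  have hUne : U ≠ ⊥ := by
    intro h
    apply not_le_of_gt hΦM
    intro x hx
    have h1 : QuotientGroup.mk' (frattini G) x ∈ U := ⟨x, hx, rfl⟩
    rw [h, Subgroup.mem_bot] at h1
    exact (QuotientGroup.eq_one_iff _).1 h1
  have hCne : C ≠ ⊤ := by
    intro h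
    apply hUne
    rw [eq_bot_iff, ← hW'1]
    intro u hu
    refine Subgroup.mem_inf.2 ⟨hu, ?_⟩
    obtain ⟨x, rfl⟩ := QuotientGroup.mk'_surjective _ u
    have : x ∈ C := by rw [h]; trivial
    exact this
  obtain ⟨M₂, hM₂, hCM⟩ := exists_max (A := A) C hCne hCi
  obtain ⟨c, -, hc⟩ := hconj M₁ M₂ hM₁ hM₂
  have hM₂1 : M₂ = M₁ := by rw [hc]; exact Subgroup.Normal.conj_smul_eq_self c M₁
  have hW'bot : W' = ⊥ := by
    rw [eq_bot_iff, ← hW'1]
    intro w hw
    refine Subgroup.mem_inf.2 ⟨?_, hw⟩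
    obtain ⟨x, rfl⟩ := QuotientGroup.mk'_surjective _ w
    exact ⟨x, hM₂1 ▸ hCM hw, rfl⟩
  rw [hW'bot, sup_bot_eq] at hW'2
  apply hM₁.1
  rw [eq_top_iff]
  intro x _
  have h1 : QuotientGroup.mk' (frattini G) x ∈ U := by rw [hW'2]; trivial
  obtain ⟨m, hm, hmx⟩ := h1
  have h2 : m⁻¹ * x ∈ frattini G := QuotientGroup.eq.1 hmx
  have h3 : x = m * (m⁻¹ * x) := by group
  rw [h3]
  exact M₁.mul_mem hm (hΦM.le h2)

theorem maxI_iff [Finite G] (hirr : ∀ L : Subgroup G, frattini G < L → (∀ a : A, ∀ x ∈ L, a • x ∈ L) → L = ⊤)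
    (M : Subgroup G) : MaxI A M ↔ (M = frattini G ∧ M ≠ ⊤) := by
  constructor
  · intro hM
    refine ⟨?_, hM.1⟩
    have hle : frattini G ≤ M := by
      by_contra hn
      have hlt : M < M ⊔ frattini G := by
        refine lt_of_le_of_ne le_sup_left fun h => hn ?_
        rw [h]; exact le_sup_right
      have htop := hM.2.2 _ hlt (fun a x hx => by
        have hle' : M ⊔ frattini G ≤ (M ⊔ frattini G).comap (MulDistribMulAction.toMulEquiv G a).toMonoidHom :=
          sup_le (fun y hy => Subgroup.mem_sup_left (hM.2.1 a y hy)) (fun z hz => Subgroup.mem_sup_right (frat_inv a z hz))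
        exact hle' hx)
      obtain h | ⟨Y, hY, hMY⟩ := eq_top_or_exists_le_coatom M
      · exact hM.1 h
      · have h1 : frattini G ≤ Y := Lib.H1Frat.le_frattini_iff.1 le_rfl Y hY
        have h2 : M ⊔ frattini G ≤ Y := sup_le hMY h1
        rw [htop] at h2
        exact hY.1 (top_le_iff.1 h2)
    refine le_antisymm ?_ hle
    by_contra hn
    have hlt : frattini G < M := lt_of_le_of_ne hle fun h => hn (h ▸ le_rfl)
    exact hM.1 (hirr M hlt hM.2.1)
  · rintro ⟨rfl, hne⟩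
    exact ⟨hne, fun a x hx => frat_inv a x hx, fun L hL hi => hirr L hL hi⟩
end

/-- Let the finite group A act by automorphisms on the finite group G with the orders of A and G coprime, and assume that A or G is solvable. Call a proper A-invariant subgroup of G maximal A-invariant when no A-invariant subgroup lies strictly between it and G. Then all maximal A-invariant subgroups of G are conjugate under elements of the fixed-point subgroup C_G(A) if and only if G is a p-group for some prime p and A leaves invariant no subgroup strictly between the Frattini subgroup of G and G. In that case, if G is nontrivial, the Frattini subgroup is the only maximal A-invariant subgroup (a trivial G has none). -/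
theorem result {A G : Type*} [Group A] [Finite A]
    [Group G] [Finite G] [MulDistribMulAction A G] (hcop : (Nat.card A).Coprime (Nat.card G)) (hsol : Group.IsSolvable A ∨ Group.IsSolvable G) :
    ((∀ M N : Subgroup G, (M ≠ ⊤ ∧ (∀ a : A, ∀ x ∈ M, a • x ∈ M) ∧ ∀ L : Subgroup G, M < L → (∀ a : A, ∀ x ∈ L, a • x ∈ L) → L = ⊤) → (N ≠ ⊤ ∧ (∀ a : A, ∀ x ∈ N, a • x ∈ N) ∧ ∀ L : Subgroup G, N < L → (∀ a : A, ∀ x ∈ L, a • x ∈ L) → L = ⊤) →
        ∃ c : G, (∀ a : A, a • c = c) ∧ N = MulAut.conj c • M) ↔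
      ((∃ p : ℕ, p.Prime ∧ IsPGroup p G) ∧ ∀ L : Subgroup G, frattini G < L → (∀ a : A, ∀ x ∈ L, a • x ∈ L) → L = ⊤)) ∧
    (((∃ p : ℕ, p.Prime ∧ IsPGroup p G) ∧ ∀ L : Subgroup G, frattini G < L → (∀ a : A, ∀ x ∈ L, a • x ∈ L) → L = ⊤) →
      ∀ M : Subgroup G, (M ≠ ⊤ ∧ (∀ a : A, ∀ x ∈ M, a • x ∈ M) ∧ ∀ L : Subgroup G, M < L → (∀ a : A, ∀ x ∈ L, a • x ∈ L) → L = ⊤) ↔ (M = frattini G ∧ M ≠ ⊤)) := by
  have key1 : ∀ M N : Subgroup G, MaxI A M ↔ (M ≠ ⊤ ∧ (∀ a : A, ∀ x ∈ M, a • x ∈ M) ∧ ∀ L : Subgroup G, M < L → (∀ a : A, ∀ x ∈ L, a • x ∈ L) → L = ⊤) :=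
    fun _ _ => Iff.rfl
  refine ⟨⟨fun h => ?_, fun h => ?_⟩, fun h M => ?_⟩
  · have hp := pgroup_of_conj (A := A) hcop hsol h
    exact ⟨hp, fun L hL hi => irr_of_conj (A := A) hcop hp h L hL hi⟩
  · intro M N hM hN
    have h1 := (maxI_iff (A := A) h.2 M).1 hM
    have h2 := (maxI_iff (A := A) h.2 N).1 hN
    refine ⟨1, fun a => smul_one a, ?_⟩
    rw [h1.1, h2.1, map_one, one_smul]
  · exact maxI_iff (A := A) h.2 M

end Cfsg.Agent.S4381
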