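import Cfsg.Statements.S4387
import Mathlib
import Cfsg.Agent.Lib.FGSBasic
-- import your own Cfsg.Agent.* helpers here

set_option autoImplicit false
open Pointwise
open Cfsg

namespace Cfsg.Agent.S4387

/-- Let G be a non-trivial finite group in which any two maximal subgroups are conjugate. Then G is cyclic of prime-power order. -/
theorem result {G : Type*} [Group G] [Finite G] [Nontrivial G]
    (h : ∀ M N : Subgroup G, IsCoatom M → IsCoatom N → ∃ g : G, N = MulAut.conj g • M) :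
    IsCyclic G ∧ IsPrimePow (Nat.card G) := by
  classical

  obtain ⟨M, hM, -⟩ := (eq_top_or_exists_le_coatom (⊥ : Subgroup G)).resolve_left bot_ne_top
  obtain ⟨x, hx⟩ := Cfsg.Agent.Lib.FGSBasic.exists_not_mem_conj M hM.1
  have hgen : Subgroup.zpowers x = ⊤ := by
    by_contra hne
    obtain ⟨N, hN, hxN⟩ := (eq_top_or_exists_le_coatom (Subgroup.zpowers x)).resolve_left hne
    obtain ⟨g, hg⟩ := h M N hM hN
    have h1 : x ∈ N := hxN (Subgroup.mem_zpowers x)
    rw [hg] at h1
    exact hx g ((Cfsg.Agent.Lib.FGSBasic.mem_conj_smul_iff M g x).mp h1)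
  have hcyc : IsCyclic G := ⟨⟨x, fun y => by
    have : y ∈ Subgroup.zpowers x := by rw [hgen]; trivial
    exact this⟩⟩
  have hcomm : ∀ a b : G, a * b = b * a := by
    intro a b
    have ha : a ∈ Subgroup.zpowers x := by rw [hgen]; trivial
    have hb : b ∈ Subgroup.zpowers x := by rw [hgen]; trivial
    obtain ⟨i, rfl⟩ := Subgroup.mem_zpowers_iff.mp ha
    obtain ⟨j, rfl⟩ := Subgroup.mem_zpowers_iff.mp hb
    exact (Commute.refl x).zpow_zpow i j
  refine ⟨hcyc, ?_⟩
  -- all coatoms coincide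
  have huniq : ∀ N : Subgroup G, IsCoatom N → N = M := by
    intro N hN
    obtain ⟨g, hg⟩ := h M N hM hN
    rw [hg]
    ext y
    rw [Cfsg.Agent.Lib.FGSBasic.mem_conj_smul_iff]
    have : g⁻¹ * y * g = y := by rw [hcomm g⁻¹ y, mul_assoc]; simp
    rw [this]
  have hcard : Nat.card G ≠ 1 := by
    have : 1 < Nat.card G := Finite.one_lt_card
    omega
  have hord : orderOf x = Nat.card G := by
    rw [← Nat.card_zpowers, hgen, Nat.card_congr Subgroup.topEquiv.toEquiv]
  have hH : ∀ q : ℕ, q.Prime → q ∣ Nat.card G → (Subgroup.zpowers (x ^ q)).index = q := by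
    intro q hq hqd
    have h0 : Nat.card G ≠ 0 := Nat.card_pos.ne'
    have h1 := (Subgroup.zpowers (x ^ q)).card_mul_index
    rw [Nat.card_zpowers, orderOf_pow, hord, Nat.gcd_eq_right hqd] at h1
    obtain ⟨m, hm⟩ := hqd
    have hq0 := hq.pos
    have hm0 : 0 < m := Nat.pos_of_ne_zero (by rintro rfl; simp at hm; exact h0 hm)
    rw [hm, Nat.mul_div_cancel_left _ hq0, mul_comm q m] at h1
    exact Nat.eq_of_mul_eq_mul_left hm0 h1
  rw [isPrimePow_iff_unique_prime_dvd]
  refine ⟨(Nat.card G).minFac, ⟨Nat.minFac_prime hcard, Nat.minFac_dvd _⟩, ?_⟩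
  rintro q ⟨hq, hqd⟩
  have h1 := hH q hq hqd
  have h2 := hH _ (Nat.minFac_prime hcard) (Nat.minFac_dvd _)
  have h3 := huniq _ (Cfsg.Agent.Lib.FGSBasic.isCoatom_of_index_prime _ (by rw [h1]; exact hq))
  have h4 := huniq _ (Cfsg.Agent.Lib.FGSBasic.isCoatom_of_index_prime _ (by rw [h2]; exact Nat.minFac_prime hcard))
  rw [← h1, h3, ← h4, h2]

end Cfsg.Agent.S4387
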