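import Cfsg.Statements.S4398
import Cfsg.Agent.Lib.H1TwoClass2
import Cfsg.Agent.S3380

set_option autoImplicit false
open Cfsg

namespace Cfsg.Agent.S4398

section aux

variable {S : Type*} [Group S] [Finite S]

theorem noE8 (hr : Cfsg.SectionalPRankLE 2 2 S) (X N : Subgroup S) (hNX : N ≤ X)
    (hnorm : ∀ x ∈ X, ∀ n ∈ N, x * n * x⁻¹ ∈ N) (hsq : ∀ x ∈ X, x * x ∈ N)
    (hcard : 8 * Nat.card N ≤ Nat.card X) : False := by
  let N' : Subgroup X := N.subgroupOf X
  haveI hN' : N'.Normal := ⟨fun n hn g => by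
    rw [Subgroup.mem_subgroupOf] at hn ⊢
    exact hnorm g g.2 n hn⟩
  have hone : ∀ q : X ⧸ N', q * q = 1 := by
    intro q
    obtain ⟨x, rfl⟩ := QuotientGroup.mk_surjective q
    rw [← QuotientGroup.mk_mul]
    apply (QuotientGroup.eq_one_iff _).mpr
    rw [Subgroup.mem_subgroupOf]
    exact hsq x x.2
  have hcomm : ∀ a b : X ⧸ N', a * b = b * a := by
    intro a b
    have h1 := hone (a * b)
    have h2 := hone a
    have h3 := hone b
    calc a * b = a * (a * b * (a * b)) * b := by rw [h1]; group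
      _ = (a * a) * (b * a) * (b * b) := by group
      _ = b * a := by rw [h2, h3]; group
  have h1 := hr X N' ⊤ ⟨⟨fun x y => Subtype.ext (hcomm _ _)⟩⟩ (fun a _ => by rw [sq]; exact hone a)
  rw [Subgroup.card_top] at h1
  have h2 : Nat.card X = Nat.card (X ⧸ N') * Nat.card N' := Subgroup.card_eq_card_quotient_mul_card_subgroup _
  have h3 : Nat.card N' = Nat.card N := Nat.card_congr (Subgroup.subgroupOfEquivOfLe hNX).toEquiv
  rw [h3] at h2
  have h4 : 0 < Nat.card N := Nat.card_pos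
  have h5 : Nat.card (X ⧸ N') * Nat.card N ≤ 4 * Nat.card N := Nat.mul_le_mul_right _ (by simpa using h1)
  omega

theorem helper_ext (hr : Cfsg.SectionalPRankLE 2 2 S) (B N : Subgroup S) (hNB : N ≤ B)
    (hBN : ∀ b ∈ B, ∀ n ∈ N, b * n * b⁻¹ ∈ N) (hsq : ∀ b ∈ B, b * b ∈ N) {u : S} (huB : u ∉ B)
    (hu2 : u * u ∈ N) (hub : ∀ b ∈ B, ∃ n ∈ N, u * b * u⁻¹ = b * n)
    (hcard : 4 * Nat.card N ≤ Nat.card B) : False := by
  have hubB : ∀ b ∈ B, u * b * u⁻¹ ∈ B := by
    intro b hb
    obtain ⟨n, hn, h⟩ := hub b hb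
    rw [h]
    exact B.mul_mem hb (hNB hn)
  let X : Subgroup S :=
    { carrier := {x | x ∈ B ∨ x * u⁻¹ ∈ B}
      mul_mem' := by
        rintro x y (hx | hx) (hy | hy)
        · exact Or.inl (B.mul_mem hx hy)
        · right
          rw [mul_assoc]
          exact B.mul_mem hx hy
        · right
          have : x * y * u⁻¹ = (x * u⁻¹) * (u * y * u⁻¹) := by group
          rw [this]
          exact B.mul_mem hx (hubB y hy)
        · left
          have : x * y = (x * u⁻¹) * (u * (y * u⁻¹) * u⁻¹) * (u * u) := by group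
          rw [this]
          exact B.mul_mem (B.mul_mem hx (hubB _ hy)) (hNB hu2)
      one_mem' := Or.inl B.one_mem
      inv_mem' := by
        rintro x (hx | hx)
        · exact Or.inl (B.inv_mem hx)
        · right
          have : x⁻¹ * u⁻¹ = (u * u)⁻¹ * (u * (x * u⁻¹)⁻¹ * u⁻¹) := by group
          rw [this]
          exact B.mul_mem (B.inv_mem (hNB hu2)) (hubB _ (B.inv_mem hx)) }
  have hmem : ∀ x, x ∈ X ↔ x ∈ B ∨ x * u⁻¹ ∈ B := fun x => Iff.rfl
  have hBX : B ≤ X := fun b hb => Or.inl hb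
  have huX : u ∈ X := Or.inr (by rw [mul_inv_cancel]; exact B.one_mem)
  refine noE8 hr X N (hNB.trans hBX) ?_ ?_ ?_
  · intro x hx n hn
    rcases (hmem x).mp hx with h | h
    · exact hBN x h n hn
    · have h1 : u * n * u⁻¹ ∈ N := by
        obtain ⟨n', hn', h2⟩ := hub n (hNB hn)
        rw [h2]
        exact N.mul_mem hn hn'
      have : x * n * x⁻¹ = (x * u⁻¹) * (u * n * u⁻¹) * (x * u⁻¹)⁻¹ := by group
      rw [this]
      exact hBN _ h _ h1
  · intro x hx
    rcases (hmem x).mp hx with h | h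
    · exact hsq x h
    · obtain ⟨n, hn, h2⟩ := hub _ h
      have : x * x = ((x * u⁻¹) * (x * u⁻¹)) * n * (u * u) := by
        rw [mul_assoc (x * u⁻¹), ← h2]
        group
      rw [this]
      exact N.mul_mem (N.mul_mem (hsq _ h) hn) hu2
  · obtain ⟨k, hk⟩ := Subgroup.card_dvd_of_le hBX
    have hk0 : k ≠ 0 := by
      rintro rfl
      have : 0 < Nat.card X := Nat.card_pos
      omega
    have hk1 : k ≠ 1 := by
      rintro rfl
      rw [mul_one] at hk
      have h1 : B = X := Subgroup.eq_of_le_of_card_ge hBX hk.le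
      exact huB (h1 ▸ huX)
    have hk2 : 2 ≤ k := by omega
    have h5 : Nat.card B * 2 ≤ Nat.card B * k := Nat.mul_le_mul_left _ hk2
    omega

/-- The structure of non-abelian groups of order eight. -/
def P8 (Y : Type*) [Group Y] : Prop :=
  ∃ z : Y, z ≠ 1 ∧ z * z = 1 ∧ (∀ g, g * z = z * g) ∧ (∀ g, g * g = 1 ∨ g * g = z) ∧
    (∀ g h, g * h = h * g ∨ g * h = h * g * z) ∧ (∀ g, (∀ h, g * h = h * g) → g = 1 ∨ g = z) ∧
    ∃ a b : Y, a * b ≠ b * a

theorem p8_dih : P8 (DihedralGroup 4) := ⟨DihedralGroup.r 2, by decide⟩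

theorem p8_quat : P8 (QuaternionGroup 2) := ⟨QuaternionGroup.a 2, by decide⟩

theorem p8_of_equiv {Y Y' : Type*} [Group Y] [Group Y'] (f : Y ≃* Y') (h : P8 Y') : P8 Y := by
  obtain ⟨z, hz1, hz2, hzc, hsq, hcomm, hcen, a, b, hab⟩ := h
  refine ⟨f.symm z, ?_, ?_, ?_, ?_, ?_, ?_, f.symm a, f.symm b, ?_⟩
  · intro h
    apply hz1
    simpa using congrArg f h
  · apply f.injective
    simp [hz2]
  · intro g
    apply f.injective
    simp [hzc]
  · intro g
    rcases hsq (f g) with h | h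
    · left
      apply f.injective
      simp [h]
    · right
      apply f.injective
      simp [h]
  · intro g k
    rcases hcomm (f g) (f k) with h | h
    · left
      apply f.injective
      simp [h]
    · right
      apply f.injective
      simp [h]
  · intro g hg
    rcases hcen (f g) (by
      intro k
      have h1 := hg (f.symm k)
      simpa using congrArg f h1) with h | h
    · left
      apply f.injective
      simp [h]
    · right
      apply f.injective
      simp [h]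
  · intro h
    apply hab
    simpa using congrArg f h

theorem normal_V4_case (hr : Cfsg.SectionalPRankLE 2 2 S) (h2 : IsPGroup 2 S) (H : Subgroup S)
    (hH8 : Nat.card H = 8) (z : S) (hzH : z ∈ H) (hz1 : z ≠ 1) (hz2 : z * z = 1)
    (hzc : ∀ g ∈ H, g * z = z * g) (hsq : ∀ g ∈ H, g * g = 1 ∨ g * g = z)
    (hcomm : ∀ g ∈ H, ∀ k ∈ H, g * k = k * g ∨ g * k = k * g * z)
    (hcen : ∀ g ∈ H, (∀ k ∈ H, g * k = k * g) → g = 1 ∨ g = z)
    (hna : ∃ a ∈ H, ∃ b ∈ H, a * b ≠ b * a)
    (V : Subgroup S) (hVn : V.Normal) (hVexp : ∀ x ∈ V, x * x = 1) (hVcard : Nat.card V = 4) :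
    H = ⊤ := by
  classical
  haveI hp2 : Fact (Nat.Prime 2) := ⟨Nat.prime_two⟩
  haveI := hVn
  -- central involution in V
  have hbotV : (⊥ : Subgroup S) < V := by
    rw [bot_lt_iff_ne_bot]
    intro h
    rw [h] at hVcard
    simp at hVcard
  obtain ⟨V₁, hV₁n, hV₁1, hV₁V, hV₁c, hV₁z, z₀, hz₀V₁, hz₀1, -, hV₁form⟩ :=
    Cfsg.Agent.Lib.PGrp.exists_normal_between h2 ⊥ V hbotV
  haveI := hV₁n
  have hV₁card : Nat.card V₁ = 2 := by simpa using hV₁c
  have hz₀V : z₀ ∈ V := hV₁V hz₀V₁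
  have hz₀ne : z₀ ≠ 1 := by simpa using hz₀1
  have hz₀2 : z₀ * z₀ = 1 := hVexp z₀ hz₀V
  have hz₀c : ∀ g : S, g * z₀ = z₀ * g := by
    intro g
    have h1 := hV₁z z₀ hz₀V₁ g
    rw [Subgroup.mem_bot, commutatorElement_eq_one_iff_mul_comm] at h1
    exact h1.symm
  have hV₁mem : ∀ x ∈ V₁, x = 1 ∨ x = z₀ := by
    intro x hx
    obtain ⟨k, u, hu, rfl⟩ := hV₁form x hx
    rw [Subgroup.mem_bot] at hu
    subst hu
    rw [mul_one]
    rcases Nat.even_or_odd' k with ⟨l, rfl | rfl⟩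
    · left
      rw [pow_mul, sq, hz₀2, one_pow]
    · right
      rw [pow_succ, pow_mul, sq, hz₀2, one_pow, one_mul]
  have hV₁lt : V₁ < V := by
    refine lt_of_le_of_ne hV₁V ?_
    intro h
    rw [h, hVcard] at hV₁card
    omega
  obtain ⟨V₂, hV₂n, hV₂1, hV₂V, hV₂c, hV₂z, t, htV₂, htV₁, -, hV₂form⟩ :=
    Cfsg.Agent.Lib.PGrp.exists_normal_between h2 V₁ V hV₁lt
  have hV₂eq : V₂ = V := Subgroup.eq_of_le_of_card_ge hV₂V (by rw [hV₂c, hV₁card, hVcard])
  subst hV₂eq
  have htne : t ≠ 1 := fun h => htV₁ (h ▸ V₁.one_mem)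
  have htz₀ : t ≠ z₀ := fun h => htV₁ (h ▸ hz₀V₁)
  have ht2 : t * t = 1 := hVexp t htV₂
  -- elements of V
  have hVmem : ∀ v ∈ V₂, v = 1 ∨ v = z₀ ∨ v = t ∨ v = t * z₀ := by
    intro v hv
    obtain ⟨k, u, hu, rfl⟩ := hV₂form v hv
    rcases hV₁mem u hu with rfl | rfl <;> rcases Nat.even_or_odd' k with ⟨l, rfl | rfl⟩
    · left
      rw [pow_mul, sq, ht2, one_pow, mul_one]
    · right; right; left
      rw [pow_succ, pow_mul, sq, ht2, one_pow, one_mul, mul_one]
    · right; left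
      rw [pow_mul, sq, ht2, one_pow, one_mul]
    · right; right; right
      rw [pow_succ, pow_mul, sq, ht2, one_pow, one_mul]
  have hconj : ∀ v ∈ V₂, ∀ g : S, g * v * g⁻¹ = v ∨ g * v * g⁻¹ = v * z₀ := by
    intro v hv g
    have h1 := hV₂z v hv g
    rw [commutatorElement_def] at h1
    have hvv : v⁻¹ = v := inv_eq_of_mul_eq_one_left (hVexp v hv)
    have hgv : g * v * g⁻¹ ∈ V₂ := hV₂n.conj_mem v hv g
    have hgvv : (g * v * g⁻¹)⁻¹ = g * v * g⁻¹ := inv_eq_of_mul_eq_one_left (hVexp _ hgv)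
    have h3 : v * g * v⁻¹ * g⁻¹ = v * (g * v * g⁻¹) := by
      rw [hvv]
      group
    rw [h3] at h1
    rcases hV₁mem _ h1 with h4 | h4
    · left
      have h5 : g * v * g⁻¹ = v⁻¹ := eq_inv_of_mul_eq_one_right h4
      rw [h5, hvv]
    · right
      have h5 : g * v * g⁻¹ = v⁻¹ * (v * (g * v * g⁻¹)) := by group
      rw [h5, h4, hvv]
  -- the centralizer
  let C : Subgroup S := Subgroup.centralizer (V₂ : Set S)
  haveI hV₂n' : V₂.Normal := hV₂n
  haveI hCn : C.Normal := inferInstance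
  have hz₀conj : ∀ g x : S, g * (x * z₀) * g⁻¹ = (g * x * g⁻¹) * z₀ := by
    intro g x
    have h3 := hz₀c g⁻¹
    calc g * (x * z₀) * g⁻¹ = g * x * (z₀ * g⁻¹) := by group
      _ = g * x * (g⁻¹ * z₀) := by rw [h3]
      _ = _ := by group
  have hCmem : ∀ g, g ∈ C ↔ g * t = t * g := by
    intro g
    constructor
    · intro hg
      exact (Subgroup.mem_centralizer_iff.mp hg t htV₂).symm
    · intro hg
      apply Subgroup.mem_centralizer_iff.mpr
      intro v hv
      rcases hVmem v hv with rfl | rfl | rfl | rfl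
      · simp
      · exact (hz₀c g).symm
      · exact hg.symm
      · rw [mul_assoc, ← hz₀c g, ← mul_assoc, ← hg, mul_assoc]
  have hCconj : ∀ g, g ∈ C ↔ g * t * g⁻¹ = t := by
    intro g
    rw [hCmem, mul_inv_eq_iff_eq_mul]
  have hnotC : ∀ g, g ∉ C → g * t * g⁻¹ = t * z₀ := by
    intro g hg
    rcases hconj t htV₂ g with h1 | h1
    · exact absurd ((hCconj g).mpr h1) hg
    · exact h1
  have hmulC : ∀ a b, a ∉ C → b ∉ C → a * b ∈ C := by
    intro a b ha hb
    rw [hCconj]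
    have : a * b * t * (a * b)⁻¹ = a * (b * t * b⁻¹) * a⁻¹ := by group
    rw [this, hnotC b hb, hz₀conj, hnotC a ha, mul_assoc, hz₀2, mul_one]
  -- subgroup generated by z
  have hNB : Subgroup.zpowers z ≤ H := by
    rw [Subgroup.zpowers_le]
    exact hzH
  have hBN : ∀ b ∈ H, ∀ n ∈ Subgroup.zpowers z, b * n * b⁻¹ ∈ Subgroup.zpowers z := by
    intro b hb n hn
    obtain ⟨k, rfl⟩ := Subgroup.mem_zpowers_iff.mp hn
    have h1 : Commute b z := hzc b hb
    have h3 : b * z ^ k = z ^ k * b := (h1.zpow_right k).eq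
    rw [h3, mul_inv_cancel_right]
    exact Subgroup.zpow_mem_zpowers _ _
  have hNmem : ∀ n, n = 1 ∨ n = z → n ∈ Subgroup.zpowers z := by
    rintro n (rfl | rfl)
    · exact one_mem _
    · exact Subgroup.mem_zpowers _
  have hNcard : 4 * Nat.card (Subgroup.zpowers z) ≤ Nat.card H := by
    rw [Nat.card_zpowers, orderOf_eq_prime (by rw [sq]; exact hz2) hz1, hH8]
  have hext : ∀ u, u ∉ H → (u * u = 1 ∨ u * u = z) → (∀ b ∈ H, u * b * u⁻¹ = b ∨ u * b * u⁻¹ = b * z) → False := by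
    intro u huH hu2 hub
    refine helper_ext hr H (Subgroup.zpowers z) hNB hBN (fun b hb => hNmem _ (hsq b hb)) huH (hNmem _ hu2) ?_ hNcard
    intro b hb
    rcases hub b hb with h1 | h1
    · exact ⟨1, one_mem _, by rw [h1, mul_one]⟩
    · exact ⟨z, Subgroup.mem_zpowers _, h1⟩
  have hextV : ∀ u, u ∉ V₂ → u * u = 1 → (∀ v ∈ V₂, u * v * u⁻¹ = v) → False := by
    intro u huV hu2 huv
    refine helper_ext hr V₂ ⊥ bot_le ?_ ?_ huV ?_ ?_ ?_
    · intro b _ n hn
      rw [Subgroup.mem_bot] at hn ⊢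
      rw [hn]
      group
    · intro b hb
      rw [Subgroup.mem_bot]
      exact hVexp b hb
    · rw [Subgroup.mem_bot]
      exact hu2
    · intro b hb
      exact ⟨1, one_mem _, by rw [huv b hb, mul_one]⟩
    · rw [hVcard]
      simp
  by_cases hHC : ∀ g ∈ H, g ∈ C
  · -- case I
    exfalso
    have hcommC : ∀ g ∈ H, ∀ v ∈ V₂, g * v = v * g := by
      intro g hg v hv
      exact (Subgroup.mem_centralizer_iff.mp (hHC g hg) v hv).symm
    obtain ⟨u, huV, huH⟩ : ∃ u ∈ V₂, u ∉ H := by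
      by_contra hno
      push_neg at hno
      have h1 := hcen t (hno t htV₂) (fun k hk => (hcommC k hk t htV₂).symm)
      have h3 := hcen z₀ (hno z₀ hz₀V) (fun k hk => (hcommC k hk z₀ hz₀V).symm)
      rcases h1 with h1 | h1
      · exact htne h1
      · rcases h3 with h3 | h3
        · exact hz₀ne h3
        · exact htz₀ (h1.trans h3.symm)
    refine hext u huH (Or.inl (hVexp u huV)) ?_
    intro b hb
    left
    rw [← hcommC b hb u huV, mul_inv_cancel_right]
  -- case II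
  push_neg at hHC
  obtain ⟨h, hhH, hhC⟩ := hHC
  have hzC : z ∈ C := by
    obtain ⟨a, ha, b, hb, hab⟩ := hna
    have h1 : a * b = b * a * z := (hcomm a ha b hb).resolve_left hab
    have key : a * b * t * (a * b)⁻¹ = b * a * t * (b * a)⁻¹ := by
      have e1 : a * b * t * (a * b)⁻¹ = a * (b * t * b⁻¹) * a⁻¹ := by group
      have e2 : b * a * t * (b * a)⁻¹ = b * (a * t * a⁻¹) * b⁻¹ := by group
      rw [e1, e2]
      rcases hconj t htV₂ a with h3 | h3 <;> rcases hconj t htV₂ b with h4 | h4 <;>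
        simp only [h3, h4, hz₀conj]
    rw [hCconj]
    have e3 : a * b * t * (a * b)⁻¹ = (b * a) * (z * t * z⁻¹) * (b * a)⁻¹ := by
      rw [h1]
      group
    rw [e3] at key
    have e4 := mul_left_cancel (a := b * a) (b := z * t * z⁻¹ * (b * a)⁻¹) (c := t * (b * a)⁻¹)
      (by simpa [mul_assoc] using key)
    exact mul_right_cancel e4
  have hzV : z ∈ V₂ := by
    by_contra hzV
    refine hextV z hzV hz2 ?_
    intro v hv
    rw [← Subgroup.mem_centralizer_iff.mp hzC v hv, mul_inv_cancel_right]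
  have fixV : ∀ g, g ∉ C → ∀ v ∈ V₂, g * v * g⁻¹ = v → v = 1 ∨ v = z₀ := by
    intro g hg v hv hgv
    rcases hVmem v hv with rfl | rfl | rfl | rfl
    · exact Or.inl rfl
    · exact Or.inr rfl
    · exact absurd ((hCconj g).mpr hgv) hg
    · rw [hz₀conj] at hgv
      exact absurd ((hCconj g).mpr (mul_right_cancel hgv)) hg
  have hzz₀ : z₀ = z := by
    have h1 : h * z * h⁻¹ = z := by rw [hzc h hhH, mul_inv_cancel_right]
    rcases fixV h hhC z hzV h1 with h3 | h3
    · exact absurd h3 hz1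
    · exact h3.symm
  subst hzz₀
  have htH : t ∈ H := by
    by_contra htH
    refine hext t htH (Or.inl ht2) ?_
    intro b hb
    have e1 : t * b * t⁻¹ = b * (b⁻¹ * t * b⁻¹⁻¹) * t⁻¹ := by group
    rcases hconj t htV₂ b⁻¹ with h3 | h3
    · left
      rw [e1, h3]
      group
    · right
      rw [e1, h3, mul_assoc b, mul_assoc t, ← hz₀c t⁻¹, mul_inv_cancel_left]
  have hVH : V₂ ≤ H := by
    intro v hv
    rcases hVmem v hv with rfl | rfl | rfl | rfl
    · exact H.one_mem
    · exact hzH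
    · exact htH
    · exact H.mul_mem htH hzH
  have hVC : V₂ ≤ C := by
    intro v hv
    rw [hCmem]
    rcases hVmem v hv with rfl | rfl | rfl | rfl
    · simp
    · exact hz₀c t |>.symm
    · rfl
    · rw [mul_assoc, ← hz₀c t]
  have hY : ∀ b ∈ H, b ∈ C → b ∈ V₂ := by
    have hle : V₂ ≤ H ⊓ C := le_inf hVH hVC
    have hYeq : V₂ = H ⊓ C := by
      apply Subgroup.eq_of_le_of_card_ge hle
      rw [hVcard]
      have hleH : H ⊓ C ≤ H := inf_le_left
      have h1 := Subgroup.card_dvd_of_le hleH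
      rw [hH8] at h1
      have h3 : Nat.card (H ⊓ C : Subgroup S) ≠ 8 := by
        intro h4
        have h5 : H ⊓ C = H := Subgroup.eq_of_le_of_card_ge hleH (by rw [h4, hH8])
        have h6 : h ∈ H ⊓ C := by rw [h5]; exact hhH
        exact hhC h6.2
      have h4 : Nat.card (H ⊓ C : Subgroup S) ≤ 8 := Nat.le_of_dvd (by norm_num) h1
      interval_cases hc : Nat.card (H ⊓ C : Subgroup S) <;> omega
    intro b hb hbC
    rw [hYeq]
    exact ⟨hb, hbC⟩
  have hCV : C ≤ V₂ := by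
    by_contra hCV
    have hlt : V₂ < C := lt_of_le_of_ne hVC (fun h3 => hCV (h3 ▸ le_refl _))
    obtain ⟨W, hWn, hW1, hWC, -, hWz, u, huW, huV, hu2, -⟩ :=
      Cfsg.Agent.Lib.PGrp.exists_normal_between h2 V₂ C hlt
    rw [sq] at hu2
    have huC : u ∈ C := hWC huW
    have hucomm : ∀ v ∈ V₂, v * u = u * v := fun v hv => Subgroup.mem_centralizer_iff.mp huC v hv
    have huH : u ∉ H := fun h3 => huV (hY u h3 huC)
    have hconju : ∀ g : S, ∃ c ∈ V₂, g * u * g⁻¹ = c * u := by
      intro g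
      have h1 := hWz u huW g
      rw [commutatorElement_def] at h1
      refine ⟨_, V₂.inv_mem h1, ?_⟩
      group
    have huu : ∀ g : S, g * (u * u) * g⁻¹ = u * u := by
      intro g
      obtain ⟨c, hc, h1⟩ := hconju g
      have e1 : g * (u * u) * g⁻¹ = (g * u * g⁻¹) * (g * u * g⁻¹) := by group
      rw [e1, h1]
      calc c * u * (c * u) = c * (u * c) * u := by group
        _ = c * (c * u) * u := by rw [hucomm c hc]
        _ = (c * c) * (u * u) := by group
        _ = u * u := by rw [hVexp c hc, one_mul]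
    rcases fixV h hhC _ hu2 (huu h) with h1 | h1
    · refine hextV u huV h1 ?_
      intro v hv
      rw [← hucomm v hv, mul_inv_cancel_right]
    · refine hext u huH (Or.inr h1) ?_
      intro b hb
      by_cases hbC : b ∈ C
      · left
        rw [← hucomm b (hY b hb hbC), mul_inv_cancel_right]
      · have hbinv : b⁻¹ ∉ C := fun h3 => hbC (by simpa using C.inv_mem h3)
        obtain ⟨c, hc, hc'⟩ := hconju b⁻¹
        have hcz : c = 1 ∨ c = z₀ := by
          apply fixV b⁻¹ hbinv c hc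
          have hbb : (b * b)⁻¹ * u * (b * b) = u := by
            rcases hsq b hb with h3 | h3
            · rw [h3]
              group
            · rw [h3, mul_assoc, hz₀c u, inv_mul_cancel_left]
          have e1 : (b * b)⁻¹ * u * (b * b) = b⁻¹ * (b⁻¹ * u * b⁻¹⁻¹) * b⁻¹⁻¹ := by group
          rw [e1, hc'] at hbb
          have e2 : b⁻¹ * (c * u) * b⁻¹⁻¹ = (b⁻¹ * c * b⁻¹⁻¹) * (b⁻¹ * u * b⁻¹⁻¹) := by group
          rw [e2, hc'] at hbb
          have e3 : (b⁻¹ * c * b⁻¹⁻¹) * c = 1 := by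
            have e4 : (b⁻¹ * c * b⁻¹⁻¹) * (c * u) = ((b⁻¹ * c * b⁻¹⁻¹) * c) * u := by group
            rw [e4] at hbb
            exact mul_eq_right.mp hbb
          have e5 : c⁻¹ = c := inv_eq_of_mul_eq_one_left (hVexp c hc)
          rw [eq_inv_of_mul_eq_one_left e3, e5]
        have e6 : u * b * u⁻¹ = b * (b⁻¹ * u * b⁻¹⁻¹) * u⁻¹ := by group
        rw [e6, hc']
        rcases hcz with rfl | rfl
        · left
          group
        · right
          group
  rw [Subgroup.eq_top_iff']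
  intro g
  by_cases hg : g ∈ C
  · exact hVH (hCV hg)
  · have hinv : h⁻¹ ∉ C := fun h3 => hhC (by simpa using C.inv_mem h3)
    have h1 : h⁻¹ * g ∈ H := hVH (hCV (hmulC _ _ hinv hg))
    have h3 : g = h * (h⁻¹ * g) := by group
    rw [h3]
    exact H.mul_mem hhH h1

end aux
/-- Let S be a finite 2-group of sectional 2-rank at most 2 that contains a subgroup isomorphic to the dihedral group of order 8 or to the quaternion group of order 8. Then S is dihedral of order at least 8, semidihedral of order at least 16 (order 2^(k+4) with an element a of order 2^(k+3) and an involution b with b a b⁻¹ = a^(2^(k+2)−1)), or generalized quaternion of order at least 8. -/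
theorem result {S : Type*} [Group S] [Finite S] (h2 : IsPGroup 2 S) (hr : Cfsg.SectionalPRankLE 2 2 S)
    (hsub : ∃ H : Subgroup S, Nonempty (↥H ≃* DihedralGroup 4) ∨ Nonempty (↥H ≃* QuaternionGroup 2)) :
    ((∃ k : ℕ, Nonempty (S ≃* DihedralGroup (2 ^ (k + 2)))) ∨
      (∃ k : ℕ, Nat.card S = 2 ^ (k + 4) ∧ ∃ a b : S, orderOf a = 2 ^ (k + 3) ∧ orderOf b = 2 ∧ b * a * b⁻¹ = a ^ (2 ^ (k + 2) - 1)) ∨
      (∃ k : ℕ, Nonempty (S ≃* QuaternionGroup (2 ^ (k + 1))))) := by

  classical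
  haveI hp2 : Fact (Nat.Prime 2) := ⟨Nat.prime_two⟩
  obtain ⟨H, hH⟩ := hsub
  have hP8 : P8 H := by
    rcases hH with ⟨⟨f⟩⟩ | ⟨⟨f⟩⟩
    · exact p8_of_equiv f p8_dih
    · exact p8_of_equiv f p8_quat
  have hH8 : Nat.card H = 8 := by
    rcases hH with ⟨⟨f⟩⟩ | ⟨⟨f⟩⟩
    · rw [Nat.card_congr f.toEquiv, DihedralGroup.nat_card]
    · rw [Nat.card_congr f.toEquiv, Nat.card_eq_fintype_card, QuaternionGroup.card]
  obtain ⟨z, hz1, hz2, hzc, hsq, hcomm, hcen, a, b, hab⟩ := hP8
  have hnc : ¬ IsCyclic S := by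
    intro hc
    haveI := hc
    apply hab
    apply Subtype.ext
    exact (IsCyclic.commutative (α := S)).is_comm.comm _ _
  by_cases hV : ∀ A : Subgroup S, A.Normal → IsMulCommutative A → IsCyclic A
  · apply Cfsg.Agent.Lib.H1TwoClass2.concl_of
    rcases Cfsg.Agent.Lib.H1TwoClass.two_class h2 hnc hV with ⟨k, hk, h⟩ | ⟨k, hk, h⟩ | h
    · exact Or.inl ⟨k, hk, h⟩
    · exact Or.inr (Or.inl ⟨k, by omega, h⟩)
    · exact Or.inr (Or.inr h)
  push_neg at hV
  obtain ⟨A, hAn, hAc, hAnc⟩ := hV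
  obtain ⟨V, hVn, hVexp, hV4⟩ := Cfsg.Agent.S3380.exists_omega h2 A hAn hAc hAnc
  have hVexp' : ∀ x ∈ V, x * x = 1 := fun x hx => by rw [← sq]; exact hVexp x hx
  have hVcard : Nat.card V = 4 := by
    obtain ⟨n, hn⟩ := IsPGroup.iff_card.mp (h2.to_subgroup V)
    by_contra hne
    refine noE8 hr V ⊥ bot_le ?_ ?_ ?_
    · intro x _ n hn
      rw [Subgroup.mem_bot] at hn ⊢
      rw [hn]
      group
    · intro x hx
      rw [Subgroup.mem_bot]
      exact hVexp' x hx
    · rw [Subgroup.card_bot, mul_one, hn]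
      rw [hn] at hV4 hne
      have h3 : 3 ≤ n := by
        by_contra hlt
        have h4 : n ≤ 2 := by omega
        interval_cases n <;> omega
      calc 8 = 2 ^ 3 := by norm_num
        _ ≤ 2 ^ n := Nat.pow_le_pow_right (by norm_num) h3
  have htop : H = ⊤ := by
    refine normal_V4_case hr h2 H hH8 (z : S) z.2 (fun h => hz1 (Subtype.ext h)) (congrArg Subtype.val hz2)
      (fun g hg => congrArg Subtype.val (hzc ⟨g, hg⟩)) ?_ ?_ ?_ ⟨a, a.2, b, b.2, fun h => hab (Subtype.ext h)⟩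
      V hVn hVexp' hVcard
    · intro g hg
      rcases hsq ⟨g, hg⟩ with h | h
      · exact Or.inl (congrArg Subtype.val h)
      · exact Or.inr (congrArg Subtype.val h)
    · intro g hg k hk
      rcases hcomm ⟨g, hg⟩ ⟨k, hk⟩ with h | h
      · exact Or.inl (congrArg Subtype.val h)
      · exact Or.inr (congrArg Subtype.val h)
    · intro g hg hk
      rcases hcen ⟨g, hg⟩ (fun k => Subtype.ext (hk k k.2)) with h | h
      · exact Or.inl (congrArg Subtype.val h)
      · exact Or.inr (congrArg Subtype.val h)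
  subst htop
  rcases hH with ⟨⟨f⟩⟩ | ⟨⟨f⟩⟩
  · left
    exact ⟨0, ⟨(Subgroup.topEquiv.symm.trans f)⟩⟩
  · right; right
    exact ⟨0, ⟨(Subgroup.topEquiv.symm.trans f)⟩⟩

end Cfsg.Agent.S4398
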