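import Cfsg.Statements.S4399
import Cfsg.Agent.Lib.H1TwoClass2
import Cfsg.Agent.Lib.PMaxClass4

set_option autoImplicit false
open Cfsg

namespace Cfsg.Agent.S4399

/-- Let S be a finite 2-group whose commutator quotient S/[S,S] is a Klein four-group (order 4 and exponent 2). Then S itself has order 4, or S is dihedral of order at least 8, semidihedral of order at least 16 (order 2^(k+4) with an element a of order 2^(k+3) and an involution b with b a b⁻¹ = a^(2^(k+2)−1)), or generalized quaternion of order at least 8. -/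
theorem result {S : Type*} [Group S] [Finite S] (h2 : IsPGroup 2 S) (hab : Nat.card (Abelianization S) = 4)
    (hexp : ∀ x : Abelianization S, x ^ 2 = 1) :
    Nat.card S = 4 ∨
    ((∃ k : ℕ, Nonempty (S ≃* DihedralGroup (2 ^ (k + 2)))) ∨
      (∃ k : ℕ, Nat.card S = 2 ^ (k + 4) ∧ ∃ a b : S, orderOf a = 2 ^ (k + 3) ∧ orderOf b = 2 ∧ b * a * b⁻¹ = a ^ (2 ^ (k + 2) - 1)) ∨
      (∃ k : ℕ, Nonempty (S ≃* QuaternionGroup (2 ^ (k + 1))))) := by
  classical
  haveI hp2 : Fact (Nat.Prime 2) := ⟨Nat.prime_two⟩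
  obtain ⟨N, hN⟩ := IsPGroup.iff_card.mp h2
  have hi : (commutator S).index = 4 := by
    rw [Subgroup.index_eq_card]
    exact hab
  have hsq : ∀ g : S, g ^ 2 ∈ commutator S := by
    intro g
    have h1 : (QuotientGroup.mk (g ^ 2) : S ⧸ commutator S) = 1 := by
      rw [QuotientGroup.mk_pow]
      exact hexp _
    exact (QuotientGroup.eq_one_iff _).mp h1
  have hN2 : 2 ≤ N := by
    have h1 : 4 ∣ 2 ^ N := by
      rw [← hN, ← hi]
      exact Subgroup.index_dvd_card _
    by_contra hlt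
    have : N = 0 ∨ N = 1 := by omega
    rcases this with rfl | rfl <;> norm_num at h1
  rcases eq_or_ne N 2 with rfl | hne
  · left
    rw [hN]
    norm_num
  right
  have hN3 : 3 ≤ N := by omega
  have hc := Cfsg.Agent.Lib.PMaxClass.maxClass_of_klein N S hN3 hN hi hsq
  obtain ⟨C, hCc, hCi⟩ := Cfsg.Agent.Lib.PMaxClass.exists_cyclic_index_two N S hN3 hN hc
  have hZ : Nat.card (Subgroup.center S) = 2 := Cfsg.Agent.Lib.PMaxClass.card_center_of_maxClass N hN3 hN hc
  obtain ⟨⟨x, hxC⟩, hx⟩ := IsCyclic.exists_generator (α := C)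
  have hCz : C = Subgroup.zpowers x := by
    apply le_antisymm
    · intro y hy
      obtain ⟨k, hk⟩ := Subgroup.mem_zpowers_iff.mp (hx ⟨y, hy⟩)
      have h1 := congrArg Subtype.val hk
      simp only [Subgroup.coe_zpow] at h1
      exact Subgroup.mem_zpowers_iff.mpr ⟨k, h1⟩
    · rw [Subgroup.zpowers_le]
      exact hxC
  obtain ⟨m, rfl⟩ : ∃ m, N = m + 1 := ⟨N - 1, by omega⟩
  have hxo : orderOf x = 2 ^ m := by
    have h1 := C.index_mul_card
    rw [hCi, hN, hCz, Nat.card_zpowers] at h1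
    have h2 : 2 ^ (m + 1) = 2 * 2 ^ m := by ring
    rw [h2] at h1
    exact Nat.eq_of_mul_eq_mul_left (by norm_num) h1
  subst hCz
  haveI hUn : (Subgroup.zpowers x).Normal := Subgroup.normal_of_index_eq_two hCi
  have hall : ∀ y, y ∉ Subgroup.zpowers x → ∀ g, g ∈ Subgroup.zpowers x ∨ y⁻¹ * g ∈ Subgroup.zpowers x := by
    intro y hy g
    by_cases hg : g ∈ Subgroup.zpowers x
    · exact Or.inl hg
    · right
      rw [Subgroup.mul_mem_iff_of_index_two hCi]
      have hyinv : y⁻¹ ∉ Subgroup.zpowers x := fun h => hy (by simpa using inv_mem h)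
      simp [hg, hyinv]
  -- central criterion
  have hcentral : ∀ y w, y ∉ Subgroup.zpowers x → w ∈ Subgroup.zpowers x → y * w * y⁻¹ = w →
      w ∈ Subgroup.center S := by
    intro y w hy hw hyw
    rw [Subgroup.mem_center_iff]
    intro g
    have hcomm : ∀ u ∈ Subgroup.zpowers x, u * w = w * u := by
      intro u hu
      have h1 := Cfsg.Agent.Lib.H1Quat.exists_pow_of_mem_zpowers hu
      have h2 := Cfsg.Agent.Lib.H1Quat.exists_pow_of_mem_zpowers hw
      obtain ⟨i, rfl⟩ := h1
      obtain ⟨j, rfl⟩ := h2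
      exact ((Commute.refl x).pow_pow i j).eq
    have hyw' : y * w = w * y := by
      rw [mul_inv_eq_iff_eq_mul] at hyw
      exact hyw
    rcases hall y hy g with hg | hg
    · exact hcomm g hg
    · have h5 : g = y * (y⁻¹ * g) := by group
      rw [h5, mul_assoc, hcomm _ hg, ← mul_assoc, hyw', mul_assoc]
  have hm2 : 2 ≤ m := by omega
  have hpow_le : ∀ w : S, orderOf w ≤ 2 ∨ w ∉ Subgroup.center S := by
    intro w
    by_cases hw : w ∈ Subgroup.center S
    · left
      have h1 : Subgroup.zpowers w ≤ Subgroup.center S := by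
        rw [Subgroup.zpowers_le]
        exact hw
      have h2 := Subgroup.card_le_of_le h1
      rwa [Nat.card_zpowers, hZ] at h2
    · exact Or.inr hw
  apply Cfsg.Agent.Lib.H1TwoClass2.concl_of
  apply Cfsg.Agent.Lib.H1TwoClass2.idx2 hm2 hxo hUn hCi
  · intro y hy hyx
    have h1 := hcentral y x hy (Subgroup.mem_zpowers x) hyx
    rcases hpow_le x with h2 | h2
    · rw [hxo] at h2
      have h3 : 2 ^ 2 ≤ 2 ^ m := Nat.pow_le_pow_right (by norm_num) hm2
      omega
    · exact h2 h1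
  · intro y hy hm3 hyx
    have h4 : y * x ^ 2 * y⁻¹ = x ^ 2 := by
      rw [Cfsg.Agent.Lib.H1TwoClass.conj_pow_eq hyx]
      have h5 : (2 ^ (m - 1) + 1) * 2 = 2 ^ m + 2 := by
        obtain ⟨e, rfl⟩ : ∃ e, m = e + 1 := ⟨m - 1, by omega⟩
        simp only [Nat.add_sub_cancel]
        ring
      rw [h5, pow_add, ← hxo, pow_orderOf_eq_one, one_mul]
    have h1 := hcentral y (x ^ 2) hy (Subgroup.npow_mem_zpowers _ _) h4
    rcases hpow_le (x ^ 2) with h2 | h2
    · rw [orderOf_pow_of_dvd (by norm_num) (by rw [hxo]; exact dvd_pow_self 2 (by omega)), hxo] at h2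
      obtain ⟨e, rfl⟩ : ∃ e, m = e + 3 := ⟨m - 3, by omega⟩
      have h6 : 2 ^ (e + 3) / 2 = 4 * 2 ^ e := by
        rw [show 2 ^ (e + 3) = 2 * (4 * 2 ^ e) by ring]
        simp
      have h7 : 0 < 2 ^ e := by positivity
      omega
    · exact h2 h1

end Cfsg.Agent.S4399
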