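import Cfsg.Statements.S4406
import Mathlib
import Cfsg.Agent.Lib.LPIrr
import Cfsg.Agent.Lib.PNilp
import Cfsg.Agent.Lib.Herstein
-- import your own Cfsg.Agent.* helpers here

set_option autoImplicit false
open Cfsg

namespace Cfsg.Agent.S4406

abbrev A4 := ↥(alternatingGroup (Fin 4))
set_option maxRecDepth 100000 in
set_option synthInstance.maxSize 2000 in
set_option synthInstance.maxHeartbeats 0 in
theorem dd : ∀ q₁ : A4, q₁ ≠ 1 → q₁ ^ 3 = 1 → ∀ q₂ : A4, q₂ ≠ 1 → q₂ ^ 3 = 1 →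
   ∀ u : A4, u ≠ 1 → u * u = 1 → ∀ v : A4, v ≠ 1 → v * v = 1 → ∀ u' : A4, u' ≠ 1 → u' * u' = 1 → u * u' ≠ 1 → ∀ v' : A4, v' ≠ 1 → v' * v' = 1 → v * v' ≠ 1 →
   ∃ ε : A4, (ε = q₂ ∨ ε = q₂ * q₂) ∧
    (((q₁ * u * q₁⁻¹ = u ∧ ε * v * ε⁻¹ = v) ∨ (q₁ * u * q₁⁻¹ = u' ∧ ε * v * ε⁻¹ = v') ∨ (q₁ * u * q₁⁻¹ = u * u' ∧ ε * v * ε⁻¹ = v * v')) ∧
     ((q₁ * u' * q₁⁻¹ = u ∧ ε * v' * ε⁻¹ = v) ∨ (q₁ * u' * q₁⁻¹ = u' ∧ ε * v' * ε⁻¹ = v') ∨ (q₁ * u' * q₁⁻¹ = u * u' ∧ ε * v' * ε⁻¹ = v * v'))) := by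
  decide +kernel

theorem pow6 : ∀ g : A4, g ^ 6 = 1 := by decide +kernel

theorem three_dvd : 3 ∣ Nat.card A4 := by
  rw [Nat.card_eq_fintype_card]
  decide +kernel

theorem exp6 (y : A4 × A4) : y ^ 6 = 1 := by
  ext1
  · simpa using pow6 y.1
  · simpa using pow6 y.2

theorem inv_of_two (y : A4 × A4) (k : ℕ) (hy : y ^ (2 ^ k) = 1) : y * y = 1 := by
  have h1 := orderOf_dvd_of_pow_eq_one hy
  have h2 := orderOf_dvd_of_pow_eq_one (exp6 y)
  obtain ⟨j, hj, hj2⟩ := (Nat.dvd_prime_pow Nat.prime_two).mp h1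
  have h3 : orderOf y ∣ 2 := by
    rw [hj2] at h2 ⊢
    have h4 : (2 ^ j) ∣ 2 * 3 := h2
    have hc : Nat.Coprime (2 ^ j) 3 := Nat.Coprime.pow_left j (by decide)
    exact hc.dvd_of_dvd_mul_right h4
  rw [← pow_two]
  exact orderOf_dvd_iff_pow_eq_one.mp h3

theorem cube_of_three (y : A4) (k : ℕ) (hy : y ^ (3 ^ k) = 1) : y ^ 3 = 1 := by
  have h1 := orderOf_dvd_of_pow_eq_one hy
  have h2 := orderOf_dvd_of_pow_eq_one (pow6 y)
  obtain ⟨j, hj, hj2⟩ := (Nat.dvd_prime_pow Nat.prime_three).mp h1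
  have h3 : orderOf y ∣ 3 := by
    rw [hj2] at h2 ⊢
    have h4 : (3 ^ j) ∣ 3 * 2 := h2
    have hc : Nat.Coprime (3 ^ j) 2 := Nat.Coprime.pow_left j (by decide)
    exact hc.dvd_of_dvd_mul_right h4
  exact orderOf_dvd_iff_pow_eq_one.mp h3

/-- In the direct product P = A₄ × A₄, let X be the Sylow 2-subgroup, X₁ and X₂ its intersections with the two direct factors, Q a Sylow 3-subgroup and Q₁, Q₂ its intersections with the two factors. Then every subgroup B of X of order 4 either meets X₁ or X₂ nontrivially, or is normalized by one of the two subgroups of Q of order 3 other than Q₁ and Q₂. -/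
theorem result
    (X : Sylow 2 (↥(alternatingGroup (Fin 4)) × ↥(alternatingGroup (Fin 4))))
    (Q : Sylow 3 (↥(alternatingGroup (Fin 4)) × ↥(alternatingGroup (Fin 4))))
    (B : Subgroup (↥(alternatingGroup (Fin 4)) × ↥(alternatingGroup (Fin 4)))) (hBX : B ≤ (X : Subgroup _)) (hB4 : Nat.card ↥B = 4) :
    B ⊓ ((X : Subgroup _) ⊓ Subgroup.prod ⊤ ⊥) ≠ ⊥ ∨ B ⊓ ((X : Subgroup _) ⊓ Subgroup.prod ⊥ ⊤) ≠ ⊥ ∨
      ∃ R : Subgroup (↥(alternatingGroup (Fin 4)) × ↥(alternatingGroup (Fin 4))), R ≤ (Q : Subgroup _) ∧ Nat.card ↥R = 3 ∧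
        R ≠ (Q : Subgroup _) ⊓ Subgroup.prod ⊤ ⊥ ∧ R ≠ (Q : Subgroup _) ⊓ Subgroup.prod ⊥ ⊤ ∧ R ≤ Subgroup.normalizer (B : Set _) := by
  classical
  haveI : Fact (Nat.Prime 3) := ⟨Nat.prime_three⟩
  haveI : Fact (Nat.Prime 2) := ⟨Nat.prime_two⟩
  by_cases h1 : B ⊓ ((X : Subgroup _) ⊓ Subgroup.prod ⊤ ⊥) ≠ ⊥
  · exact Or.inl h1
  by_cases h2 : B ⊓ ((X : Subgroup _) ⊓ Subgroup.prod ⊥ ⊤) ≠ ⊥
  · exact Or.inr (Or.inl h2)
  push Not at h1 h2
  right; right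
  -- elements of B
  have hinv : ∀ y ∈ B, y * y = 1 := by
    intro y hy
    obtain ⟨k, hk⟩ := X.isPGroup' ⟨y, hBX hy⟩
    exact inv_of_two y k (congrArg Subtype.val hk)
  have hB2 : ∀ y ∈ B, y ≠ 1 → y.2 ≠ 1 := by
    intro y hy hy1 h3
    apply hy1
    have : y ∈ B ⊓ ((X : Subgroup _) ⊓ Subgroup.prod ⊤ ⊥) := ⟨hy, hBX hy, ⟨trivial, h3⟩⟩
    rw [h1] at this
    exact this
  have hB1 : ∀ y ∈ B, y ≠ 1 → y.1 ≠ 1 := by
    intro y hy hy1 h3
    apply hy1
    have : y ∈ B ⊓ ((X : Subgroup _) ⊓ Subgroup.prod ⊥ ⊤) := ⟨hy, hBX hy, ⟨h3, trivial⟩⟩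
    rw [h2] at this
    exact this
  -- two generators
  have hBn : (B : Set (A4 × A4)).ncard = 4 := by
    rw [← Nat.card_coe_set_eq]; exact hB4
  have hBne : B ≠ ⊥ := by
    intro h
    rw [h, Subgroup.card_bot] at hB4
    omega
  obtain ⟨b, hbB, hb1⟩ := (Subgroup.bot_or_exists_ne_one B).resolve_left hBne
  obtain ⟨b', hb'B, hb'1, hb'b⟩ : ∃ b' ∈ B, b' ≠ 1 ∧ b' ≠ b := by
    by_contra hcon
    push Not at hcon
    have hsub : (B : Set (A4 × A4)) ⊆ {1, b} := by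
      intro y hy
      by_cases hy1 : y = 1
      · simp [hy1]
      · simp [hcon y hy hy1]
    have h3 := Set.ncard_le_ncard hsub (Set.toFinite _)
    rw [hBn] at h3
    have h4 := Set.ncard_insert_le (1 : A4 × A4) {b}
    rw [Set.ncard_singleton] at h4
    omega
  have hbb' : b * b' ≠ 1 := by
    intro h3
    apply hb'b
    calc b' = (b * b) * b' := by rw [hinv b hbB, one_mul]
      _ = b * (b * b') := by group
      _ = b := by rw [h3, mul_one]
  have hbb'B : b * b' ∈ B := B.mul_mem hbB hb'B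
  have hmemS : ∀ y ∈ B, y = 1 ∨ y = b ∨ y = b' ∨ y = b * b' := by
    set S : Finset (A4 × A4) := {1, b, b', b * b'} with hS
    have hScard : S.card = 4 := by
      rw [hS, Finset.card_insert_of_notMem, Finset.card_insert_of_notMem, Finset.card_insert_of_notMem, Finset.card_singleton]
      · simp only [Finset.mem_singleton]
        intro h3
        exact hb1 (by simpa using h3)
      · simp only [Finset.mem_insert, Finset.mem_singleton]
        rintro (h3 | h3)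
        · exact hb'b h3.symm
        · exact hb'1 (by simpa using h3)
      · simp only [Finset.mem_insert, Finset.mem_singleton]
        rintro (h3 | h3 | h3)
        · exact hb1 h3.symm
        · exact hb'1 h3.symm
        · exact hbb' h3.symm
    have hSsub : (S : Set (A4 × A4)) ⊆ B := by
      intro y hy
      simp only [hS, Finset.coe_insert, Finset.coe_singleton, Set.mem_insert_iff, Set.mem_singleton_iff] at hy
      rcases hy with rfl | rfl | rfl | rfl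
      · exact B.one_mem
      · exact hbB
      · exact hb'B
      · exact hbb'B
    have hSeq : (S : Set (A4 × A4)) = B := Set.eq_of_subset_of_ncard_le hSsub (by rw [hBn, Set.ncard_coe_finset, hScard])
    intro y hy
    have h3 : y ∈ (S : Set (A4 × A4)) := by rw [hSeq]; exact hy
    simpa [hS] using h3
  -- elements of Q
  obtain ⟨q0, hq0⟩ := exists_prime_orderOf_dvd_card' 3 three_dvd
  have hq01 : q0 ≠ 1 := by
    rintro rfl
    rw [orderOf_one] at hq0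
    omega
  have hq03 : q0 ^ 3 = 1 := by rw [← hq0, pow_orderOf_eq_one]
  have hQ3 : ∀ y ∈ (Q : Subgroup (A4 × A4)), y.1 ^ 3 = 1 ∧ y.2 ^ 3 = 1 := by
    intro y hy
    obtain ⟨k, hk⟩ := Q.isPGroup' ⟨y, hy⟩
    have h3 : y ^ (3 ^ k) = 1 := congrArg Subtype.val hk
    have h4 := congrArg Prod.fst h3
    have h5 := congrArg Prod.snd h3
    exact ⟨cube_of_three _ k (by simpa using h4), cube_of_three _ k (by simpa using h5)⟩
  set N₁ : Subgroup (A4 × A4) := Subgroup.prod ⊤ ⊥ with hN₁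
  set N₂ : Subgroup (A4 × A4) := Subgroup.prod ⊥ ⊤ with hN₂
  haveI hN₁n : N₁.Normal := Subgroup.prod_normal _ _
  haveI hN₂n : N₂.Normal := Subgroup.prod_normal _ _
  have hd1 : 3 ∣ Nat.card N₁ := by
    have hm : ((q0, 1) : A4 × A4) ∈ N₁ := ⟨trivial, rfl⟩
    have ho : orderOf (⟨(q0, 1), hm⟩ : N₁) = 3 := by
      rw [Subgroup.orderOf_mk, Prod.orderOf]
      simp [hq0]
    rw [← ho]
    exact orderOf_dvd_natCard _
  have hd2 : 3 ∣ Nat.card N₂ := by
    have hm : ((1, q0) : A4 × A4) ∈ N₂ := ⟨rfl, trivial⟩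
    have ho : orderOf (⟨(1, q0), hm⟩ : N₂) = 3 := by
      rw [Subgroup.orderOf_mk, Prod.orderOf]
      simp [hq0]
    rw [← ho]
    exact orderOf_dvd_natCard _
  obtain ⟨⟨⟨y1, hy1N⟩, hy1Q⟩, hy11⟩ := Subgroup.ne_bot_iff_exists_ne_one.mp ((Lib.PNilp.sylowOfNormal Q N₁).ne_bot_of_dvd_card hd1)
  obtain ⟨⟨⟨y2, hy2N⟩, hy2Q⟩, hy21⟩ := Subgroup.ne_bot_iff_exists_ne_one.mp ((Lib.PNilp.sylowOfNormal Q N₂).ne_bot_of_dvd_card hd2)
  have hy1Q' : y1 ∈ (Q : Subgroup (A4 × A4)) := hy1Q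
  have hy2Q' : y2 ∈ (Q : Subgroup (A4 × A4)) := hy2Q
  have hy1n : y1 ≠ 1 := fun h => hy11 (Subtype.ext (Subtype.ext h))
  have hy2n : y2 ≠ 1 := fun h => hy21 (Subtype.ext (Subtype.ext h))
  have hy12 : y1.2 = 1 := hy1N.2
  have hy21' : y2.1 = 1 := hy2N.1
  have hq1ne : y1.1 ≠ 1 := fun h => hy1n (Prod.ext h hy12)
  have hq2ne : y2.2 ≠ 1 := fun h => hy2n (Prod.ext hy21' h)
  obtain ⟨ε, hε, hc1, hc2⟩ := dd y1.1 hq1ne (hQ3 y1 hy1Q').1 y2.2 hq2ne (hQ3 y2 hy2Q').2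
    b.1 (hB1 b hbB hb1) (congrArg Prod.fst (hinv b hbB))
    b.2 (hB2 b hbB hb1) (congrArg Prod.snd (hinv b hbB))
    b'.1 (hB1 b' hb'B hb'1) (congrArg Prod.fst (hinv b' hb'B)) (hB1 _ hbb'B hbb')
    b'.2 (hB2 b' hb'B hb'1) (congrArg Prod.snd (hinv b' hb'B)) (hB2 _ hbb'B hbb')
  set r : A4 × A4 := (y1.1, ε) with hr
  have hrQ : r ∈ (Q : Subgroup (A4 × A4)) := by
    have hy1eq : y1 = (y1.1, 1) := Prod.ext rfl hy12
    have hy2eq : y2 = (1, y2.2) := Prod.ext hy21' rfl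
    rcases hε with rfl | rfl
    · have := Subgroup.mul_mem _ hy1Q' hy2Q'
      convert this using 1
      rw [hr]
      exact Prod.ext (by simp [hy21']) (by simp [hy12])
    · have := Subgroup.mul_mem _ (Subgroup.mul_mem _ hy1Q' hy2Q') hy2Q'
      convert this using 1
      rw [hr]
      exact Prod.ext (by simp [hy21']) (by simp [hy12, mul_assoc])
  have hεne : ε ≠ 1 := by
    rcases hε with rfl | rfl
    · exact hq2ne
    · intro h3
      apply hq2ne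
      have h4 := (hQ3 y2 hy2Q').2
      have h5 : y2.2 ^ 3 = y2.2 * (y2.2 * y2.2) := by rw [pow_succ, pow_two, mul_assoc]
      rw [h5, h3, mul_one] at h4
      exact h4
  have hr3 : r ^ 3 = 1 := by
    obtain ⟨k, hk⟩ := Q.isPGroup' ⟨r, hrQ⟩
    have h3 : r ^ (3 ^ k) = 1 := congrArg Subtype.val hk
    have h4 := congrArg Prod.fst h3
    have h5 := congrArg Prod.snd h3
    exact Prod.ext (cube_of_three _ k (by simpa using h4)) (cube_of_three _ k (by simpa using h5))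
  have hr1 : r ≠ 1 := fun h => hεne (congrArg Prod.snd h)
  have hro : orderOf r = 3 := orderOf_eq_prime hr3 hr1
  have hrN₁ : r ∉ N₁ := fun h => hεne h.2
  have hrN₂ : r ∉ N₂ := fun h => hq1ne h.1
  refine ⟨Subgroup.zpowers r, ?_, ?_, ?_, ?_, ?_⟩
  · exact (Subgroup.zpowers_le).mpr hrQ
  · rw [Nat.card_zpowers, hro]
  · intro h3
    have h4 : r ∈ (Q : Subgroup (A4 × A4)) ⊓ N₁ := by
      rw [← h3]; exact Subgroup.mem_zpowers r
    exact hrN₁ h4.2
  · intro h3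
    have h4 : r ∈ (Q : Subgroup (A4 × A4)) ⊓ N₂ := by
      rw [← h3]; exact Subgroup.mem_zpowers r
    exact hrN₂ h4.2
  · rw [Subgroup.zpowers_le]
    have hrb : r * b * r⁻¹ ∈ B := by
      rcases hc1 with ⟨h3, h4⟩ | ⟨h3, h4⟩ | ⟨h3, h4⟩
      · have : r * b * r⁻¹ = b := Prod.ext h3 h4
        rw [this]; exact hbB
      · have : r * b * r⁻¹ = b' := Prod.ext h3 h4
        rw [this]; exact hb'B
      · have : r * b * r⁻¹ = b * b' := Prod.ext h3 h4
        rw [this]; exact hbb'B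
    have hrb' : r * b' * r⁻¹ ∈ B := by
      rcases hc2 with ⟨h3, h4⟩ | ⟨h3, h4⟩ | ⟨h3, h4⟩
      · have : r * b' * r⁻¹ = b := Prod.ext h3 h4
        rw [this]; exact hbB
      · have : r * b' * r⁻¹ = b' := Prod.ext h3 h4
        rw [this]; exact hb'B
      · have : r * b' * r⁻¹ = b * b' := Prod.ext h3 h4
        rw [this]; exact hbb'B
    apply Lib.Herstein.mem_normalizer_of_conj_le
    intro w hw
    rcases hmemS w hw with rfl | rfl | rfl | rfl
    · simpa using B.one_mem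
    · exact hrb
    · exact hrb'
    · have h3 : r * (b * b') * r⁻¹ = (r * b * r⁻¹) * (r * b' * r⁻¹) := by group
      rw [h3]
      exact B.mul_mem hrb hrb'

end Cfsg.Agent.S4406
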