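import Cfsg.Statements.S4408
import Mathlib
import Cfsg.Agent.Lib.H1Cop
import Cfsg.Agent.Lib.H1Core
import Cfsg.Agent.Lib.H1Fit
-- import your own Cfsg.Agent.* helpers here

set_option autoImplicit false
open Cfsg

namespace Cfsg.Agent.S4408

section
variable {S : Type*} [Group S] [Finite S]

theorem exists_fixed_coset (C : Subgroup S) (hC : Odd (Nat.card C)) (σ : S) (hσ : σ * σ = 1)
    (hCσ : ∀ c ∈ C, σ * c * σ ∈ C) (w : S) (hw : w⁻¹ * (σ * w * σ) ∈ C) :
    ∃ c ∈ C, σ * (w * c) * σ = w * c := by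
  classical
  haveI := Fintype.ofFinite C
  have hσ' : ∀ x : S, σ * (σ * x) = x := fun x => by rw [← mul_assoc, hσ, one_mul]
  let d : C := ⟨w⁻¹ * (σ * w * σ), hw⟩
  let τ : Function.End C := fun c => d * ⟨σ * c * σ, hCσ c c.2⟩
  have hτ : τ ^ 2 ^ 1 = 1 := by
    rw [pow_one, pow_two]
    funext c
    apply Subtype.ext
    show (d : S) * (σ * ((d : S) * (σ * (c : S) * σ)) * σ) = c
    simp only [d, mul_assoc, hσ', hσ, mul_one, mul_inv_cancel_left, inv_mul_cancel_left]
  haveI : Fact (Nat.Prime 2) := ⟨Nat.prime_two⟩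
  have h := Equiv.Perm.card_fixedPoints_modEq (p := 2) (n := 1) hτ
  have hne : ∃ c, τ c = c := by
    by_contra hemp
    push Not at hemp
    haveI : IsEmpty (Function.fixedPoints τ) := ⟨fun c => hemp c.1 c.2⟩
    have h0 : ∀ (inst : Fintype (Function.fixedPoints τ)), @Fintype.card _ inst = 0 := fun _ => Fintype.card_eq_zero
    rw [h0] at h
    rw [Nat.card_eq_fintype_card, Nat.odd_iff] at hC
    have h2 : Fintype.card C % 2 = 0 := h
    omega
  obtain ⟨c, hc⟩ := hne
  refine ⟨c, c.2, ?_⟩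
  have h1 : (w⁻¹ * (σ * w * σ)) * (σ * (c : S) * σ) = c := congrArg Subtype.val hc
  have h3 : w⁻¹ * (σ * (w * ((c : S) * σ))) = c := by
    calc _ = (w⁻¹ * (σ * w * σ)) * (σ * (c : S) * σ) := by simp only [mul_assoc, hσ']
      _ = c := h1
  have h4 := congrArg (fun x => w * x) h3
  simp only [mul_inv_cancel_left] at h4
  simpa [mul_assoc] using h4

theorem odd_of_sq {D : Subgroup S} (hD : Odd (Nat.card D)) {x : S} (hx : x ∈ D) (h : x * x = 1) : x = 1 := by
  have h1 : orderOf (⟨x, hx⟩ : D) ∣ Nat.card D := orderOf_dvd_natCard _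
  have h2 : orderOf (⟨x, hx⟩ : D) ∣ 2 := orderOf_dvd_of_pow_eq_one (by
    apply Subtype.ext
    simpa [pow_two] using h)
  have h3 : orderOf (⟨x, hx⟩ : D) = 1 := by
    have hc : Nat.Coprime (Nat.card D) 2 := by
      exact Nat.Coprime.symm ((Nat.Prime.coprime_iff_not_dvd Nat.prime_two).2 (by
        rw [← even_iff_two_dvd]; exact Nat.not_even_iff_odd.2 hD))
    exact Nat.eq_one_of_dvd_coprimes hc h1 h2
  have h4 := orderOf_eq_one_iff.1 h3
  exact congrArg Subtype.val h4

theorem exists_line [Group.IsSolvable S] (I : Subgroup S) (hIc : ∀ a ∈ I, ∀ b ∈ I, a * b = b * a)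
    (hI2 : ∀ a ∈ I, a * a = 1) (D : Subgroup S) (hD : Odd (Nat.card D))
    (hinv : ∀ s ∈ I, ∀ x ∈ D, s * x * s ∈ D) (t : S) (ht : t ∈ I) (hnt : ∃ x ∈ D, t * x * t ≠ x) :
    ∃ z ∈ D, (orderOf z).Prime ∧ (∀ s ∈ I, s * z * s = z ∨ s * z * s = z⁻¹) ∧ t * z * t = z⁻¹ := by
  classical
  have hinv2 : ∀ a ∈ I, a⁻¹ = a := fun a ha => inv_eq_of_mul_eq_one_left (hI2 a ha)
  obtain ⟨Y, hYD', hY⟩ := (Set.toFinite {Y : Subgroup S | Y ≤ D ∧ (∀ s ∈ I, ∀ x ∈ Y, s * x * s ∈ Y) ∧ ∃ x ∈ Y, t * x * t ≠ x}).exists_le_minimal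
    (show D ∈ {Y : Subgroup S | Y ≤ D ∧ (∀ s ∈ I, ∀ x ∈ Y, s * x * s ∈ Y) ∧ ∃ x ∈ Y, t * x * t ≠ x} from ⟨le_rfl, hinv, hnt⟩)
  obtain ⟨⟨hYD, hYi, y₀, hy₀, hy₀t⟩, hYm⟩ := hY
  have hmin : ∀ Z : Subgroup S, Z ≤ Y → (∀ s ∈ I, ∀ x ∈ Z, s * x * s ∈ Z) → Z ≠ Y → ∀ x ∈ Z, t * x * t = x := by
    intro Z hZY hZi hne x hx
    by_contra hc
    exact hne (le_antisymm hZY (hYm (show Z ∈ {Y : Subgroup S | Y ≤ D ∧ (∀ s ∈ I, ∀ x ∈ Y, s * x * s ∈ Y) ∧ ∃ x ∈ Y, t * x * t ≠ x} from
      ⟨hZY.trans hYD, hZi, x, hx, hc⟩) hZY))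
  have hodd : ∀ x ∈ Y, x * x = 1 → x = 1 := fun x hx h => odd_of_sq hD (hYD hx) h
  -- fixed point subgroups
  have hcen : ∀ σ ∈ I, ∀ x, x ∈ Subgroup.centralizer {σ} ↔ σ * x * σ = x := by
    intro σ hσ x
    rw [Subgroup.mem_centralizer_singleton_iff]
    constructor
    · intro h
      rw [← h, mul_assoc, hI2 σ hσ, mul_one]
    · intro h
      calc x * σ = (σ * x * σ) * σ := by rw [h]
        _ = σ * x := by rw [mul_assoc, hI2 σ hσ, mul_one]
  have hfix : ∀ σ ∈ I, (∀ x ∈ Y, σ * x * σ = x) ∨ (∀ x ∈ Y, σ * x * σ = x → t * x * t = x) := by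
    intro σ hσ
    let Z : Subgroup S := Y ⊓ Subgroup.centralizer {σ}
    have hZm : ∀ x, x ∈ Z ↔ x ∈ Y ∧ σ * x * σ = x := by
      intro x
      rw [Subgroup.mem_inf, hcen σ hσ]
    by_cases hZY : Z = Y
    · left
      intro x hx
      rw [← hZY] at hx
      exact ((hZm x).1 hx).2
    · right
      intro x hx hxσ
      refine hmin Z inf_le_left ?_ hZY x ((hZm x).2 ⟨hx, hxσ⟩)
      intro s hs w hw
      obtain ⟨hw1, hw2⟩ := (hZm w).1 hw
      refine (hZm _).2 ⟨hYi s hs w hw1, ?_⟩
      have h1 : σ * s = s * σ := hIc σ hσ s hs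
      calc σ * (s * w * s) * σ = (σ * s) * w * (s * σ) := by group
        _ = (s * σ) * w * (σ * s) := by rw [h1, hIc s hs σ hσ]
        _ = s * (σ * w * σ) * s := by group
        _ = s * w * s := by rw [hw2]
  -- the commutator
  have hCm' : ∀ a ∈ Y, ∀ b ∈ Y, t * (a * b * a⁻¹ * b⁻¹) * t = a * b * a⁻¹ * b⁻¹ := by
    have hlt : ⁅Y, Y⁆ ≠ Y := by
      haveI hnt' : Nontrivial Y := by
        refine ⟨⟨⟨y₀, hy₀⟩, 1, fun h => hy₀t ?_⟩⟩
        have : y₀ = 1 := congrArg Subtype.val h
        rw [this]; simp [← mul_assoc, hI2 t ht]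
      have h1 := IsSolvable.commutator_lt_top_of_nontrivial Y
      intro h
      apply ne_of_lt h1
      rw [eq_top_iff]
      intro x _
      have h2 : (x : S) ∈ ⁅Y, Y⁆ := by rw [h]; exact x.2
      rw [← Subgroup.map_subtype_commutator] at h2
      obtain ⟨y, hy, hyx⟩ := h2
      have : y = x := Subtype.ext hyx
      exact this ▸ hy
    have hi : ∀ s ∈ I, ∀ x ∈ ⁅Y, Y⁆, s * x * s ∈ ⁅Y, Y⁆ := by
      intro s hs x hx
      have h1 : x ∈ (⁅Y, Y⁆ : Subgroup S).comap (MulAut.conj s).toMonoidHom := by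
        have h2 : ⁅Y, Y⁆ ≤ (⁅Y, Y⁆ : Subgroup S).comap (MulAut.conj s).toMonoidHom := by
          rw [← Subgroup.map_le_iff_le_comap, Subgroup.map_commutator]
          apply Subgroup.commutator_mono <;>
          · rw [Subgroup.map_le_iff_le_comap]
            intro y hy
            show s * y * s⁻¹ ∈ Y
            rw [hinv2 s hs]
            exact hYi s hs y hy
        exact h2 hx
      have h3 : s * x * s⁻¹ ∈ ⁅Y, Y⁆ := h1
      rwa [hinv2 s hs] at h3
    intro a ha b hb
    exact hmin _ (Subgroup.commutator_le.2 fun a ha b hb => Y.mul_mem (Y.mul_mem (Y.mul_mem ha hb) (Y.inv_mem ha)) (Y.inv_mem hb)) hi hlt _ (Subgroup.commutator_mem_commutator ha hb)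
  have htt : t * t = 1 := hI2 t ht
  let x := y₀⁻¹ * (t * y₀ * t)
  have hxY : x ∈ Y := Y.mul_mem (Y.inv_mem hy₀) (hYi t ht y₀ hy₀)
  have hxt : t * x * t = x⁻¹ := by
    simp only [x, mul_inv_rev, inv_inv, hinv2 t ht, mul_assoc, htt, mul_one]
  have hxne : x ≠ 1 := by
    intro h
    apply hy₀t
    have := inv_mul_eq_one.1 h
    exact this.symm
  have hxC : t * x * t ≠ x := by
    intro h
    apply hxne
    apply hodd x hxY
    rw [hxt] at h
    calc x * x = x⁻¹ * x := by rw [h]
      _ = 1 := inv_mul_cancel x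
  let C : Subgroup S := Y ⊓ Subgroup.centralizer {t}
  have hCm : ∀ w, w ∈ C ↔ w ∈ Y ∧ t * w * t = w := by
    intro w
    rw [Subgroup.mem_inf, hcen t ht]
  have hCodd : Odd (Nat.card C) := Odd.of_dvd_nat hD (Subgroup.card_dvd_of_le (inf_le_left.trans hYD))
  have hCσ : ∀ σ ∈ I, ∀ c ∈ C, σ * c * σ ∈ C := by
    intro σ hσ c hc
    obtain ⟨h1, h2⟩ := (hCm c).1 hc
    refine (hCm _).2 ⟨hYi σ hσ c h1, ?_⟩
    calc t * (σ * c * σ) * t = (t * σ) * c * (σ * t) := by group
      _ = (σ * t) * c * (t * σ) := by rw [hIc t ht σ hσ, hIc σ hσ t ht]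
      _ = σ * (t * c * t) * σ := by group
      _ = σ * c * σ := by rw [h2]
  have hd : ∀ s ∈ I, s * x * s = x ∨ s * x * s = x⁻¹ := by
    intro s hs
    have hss : s * s = 1 := hI2 s hs
    have hts : t * s = s * t := hIc t ht s hs
    have hu : s * t ∈ I := I.mul_mem hs ht
    have huu : ∀ w : S, (s * t) * w * (s * t) = s * (t * w * t) * s := by
      intro w
      calc (s * t) * w * (s * t) = s * t * w * (t * s) := by rw [hts]
        _ = s * (t * w * t) * s := by group
    have hsinv : ∀ w : S, s * w⁻¹ * s = (s * w * s)⁻¹ := by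
      intro w
      simp only [mul_inv_rev, hinv2 s hs, mul_assoc]
    rcases hfix s hs with h1 | h1
    · left; exact h1 x hxY
    rcases hfix (s * t) hu with h2 | h2
    · right
      have h3 := h2 x hxY
      rw [huu, hxt, hsinv] at h3
      exact inv_eq_iff_eq_inv.1 h3
    · exfalso
      let a := s * x * s
      have haY : a ∈ Y := hYi s hs x hxY
      have hsa : s * a * s = x := by
        simp only [a, mul_assoc, hss, mul_one]
        rw [← mul_assoc, hss, one_mul]
      let y := x * a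
      have hyY : y ∈ Y := Y.mul_mem hxY haY
      have hy1 : y⁻¹ * (s * y * s) ∈ C := by
        refine (hCm _).2 ⟨Y.mul_mem (Y.inv_mem hyY) (hYi s hs y hyY), ?_⟩
        have h3 : y⁻¹ * (s * y * s) = a⁻¹ * x⁻¹ * (a⁻¹)⁻¹ * (x⁻¹)⁻¹ := by
          have h4 : s * y * s = a * x := by
            calc s * y * s = (s * x * s) * (s * a * s) := by
                  simp only [y, mul_assoc]
                  rw [← mul_assoc s s, hss, one_mul]
              _ = a * x := by rw [hsa]
          rw [h4]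
          simp only [y, mul_inv_rev, inv_inv, mul_assoc]
        rw [h3]
        exact hCm' a⁻¹ (Y.inv_mem haY) x⁻¹ (Y.inv_mem hxY)
      obtain ⟨c, hc, hc1⟩ := exists_fixed_coset C hCodd s hss (hCσ s hs) y hy1
      obtain ⟨hcY, hct⟩ := (hCm c).1 hc
      have hyt : t * y * t = y := by
        have h3 := h1 (y * c) (Y.mul_mem hyY hcY) hc1
        have h4 : t * (y * c) * t = (t * y * t) * (t * c * t) := by
          simp only [mul_assoc]
          rw [← mul_assoc t t, htt, one_mul]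
        rw [h4, hct] at h3
        exact mul_right_cancel h3
      have hta : t * a * t = a⁻¹ := by
        calc t * a * t = (t * s) * x * (s * t) := by simp only [a, mul_assoc]
          _ = (s * t) * x * (t * s) := by rw [hts]
          _ = s * (t * x * t) * s := by group
          _ = a⁻¹ := by rw [hxt, hsinv]
      have hy2 : y = x⁻¹ * a⁻¹ := by
        have h4 : t * y * t = (t * x * t) * (t * a * t) := by
          simp only [y, mul_assoc]
          rw [← mul_assoc t t, htt, one_mul]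
        rw [← hyt, h4, hxt, hta]
      have hx1 : x⁻¹ * ((s * t) * x * (s * t)) ∈ C := by
        rw [huu, hxt, hsinv, ← hy2]
        exact (hCm y).2 ⟨hyY, hyt⟩
      have huus : (s * t) * (s * t) = 1 := hI2 _ hu
      obtain ⟨c', hc', hc'1⟩ := exists_fixed_coset C hCodd (s * t) huus (hCσ _ hu) x hx1
      obtain ⟨hc'Y, hc't⟩ := (hCm c').1 hc'
      have h5 := h2 (x * c') (Y.mul_mem hxY hc'Y) hc'1
      have h4 : t * (x * c') * t = (t * x * t) * (t * c' * t) := by
        simp only [mul_assoc]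
        rw [← mul_assoc t t, htt, one_mul]
      rw [h4, hc't, hxt] at h5
      have h6 : x⁻¹ = x := mul_right_cancel h5
      apply hxne
      apply hodd x hxY
      calc x * x = x⁻¹ * x := by rw [h6]
        _ = 1 := inv_mul_cancel x
  have hconj : ∀ s ∈ I, ∀ w : S, ∀ k : ℕ, s * w ^ k * s = (s * w * s) ^ k := by
    intro s hs w k
    have := conj_pow (a := s) (b := w) (i := k)
    rw [hinv2 s hs] at this
    exact this.symm
  obtain ⟨q, hq, hqd⟩ := Nat.exists_prime_and_dvd (mt orderOf_eq_one_iff.1 hxne)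
  have hord0 : orderOf x ≠ 0 := (orderOf_pos x).ne'
  refine ⟨x ^ (orderOf x / q), hYD (Y.pow_mem hxY _), ?_, ?_, ?_⟩
  · rw [orderOf_pow_orderOf_div hord0 hqd]; exact hq
  · intro s hs
    rw [hconj s hs]
    rcases hd s hs with h | h
    · left; rw [h]
    · right; rw [h, inv_pow]
  · rw [hconj t ht, hxt, inv_pow]

theorem comm_aux {t x n : S} (htt : t * t = 1) (h1 : t * x * t = x) (h2 : t * (n * x * n⁻¹) * t = n * x * n⁻¹) :
    (n⁻¹ * (t * n * t)) * x = x * (n⁻¹ * (t * n * t)) := by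
  have h3 : t * x = x * t := by
    calc t * x = (t * x * t) * t := by rw [mul_assoc _ t t, htt, mul_one]
      _ = x * t := by rw [h1]
  have h4 : t * (n * x * n⁻¹) = (n * x * n⁻¹) * t := by
    calc t * (n * x * n⁻¹) = (t * (n * x * n⁻¹) * t) * t := by rw [mul_assoc _ t t, htt, mul_one]
      _ = (n * x * n⁻¹) * t := by rw [h2]
  calc (n⁻¹ * (t * n * t)) * x = n⁻¹ * (t * n) * (t * x) := by group
    _ = n⁻¹ * (t * n) * (x * t) := by rw [h3]
    _ = n⁻¹ * (t * (n * x * n⁻¹)) * n * t := by group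
    _ = n⁻¹ * ((n * x * n⁻¹) * t) * n * t := by rw [h4]
    _ = x * (n⁻¹ * (t * n * t)) := by group

theorem tower (F : Subgroup S) [hnil : Group.IsNilpotent F] (hF : Odd (Nat.card F)) (A : Subgroup S)
    (hAF : A ≤ F) (t : S) (htt : t * t = 1) (htF : ∀ x ∈ F, t * x * t ∈ F) (hAt : ∀ a ∈ A, t * a * t = a)
    (hD : ∀ x ∈ F, (∀ a ∈ A, x * a = a * x) → t * x * t = x) : ∀ x ∈ F, t * x * t = x := by
  classical
  obtain ⟨X, hAX, hX⟩ := (Set.toFinite {X : Subgroup S | X ≤ F ∧ A ≤ X ∧ ∀ x ∈ X, t * x * t = x}).exists_le_maximal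
    (show A ∈ {X : Subgroup S | X ≤ F ∧ A ≤ X ∧ ∀ x ∈ X, t * x * t = x} from ⟨hAF, le_rfl, hAt⟩)
  obtain ⟨⟨hXF, hAX', hXt⟩, hXm⟩ := hX
  suffices h : F ≤ X from fun x hx => hXt x (h hx)
  by_contra hne
  have hlt : X.subgroupOf F < ⊤ := by
    rw [lt_top_iff_ne_top]
    intro h
    exact hne (Subgroup.subgroupOf_eq_top.1 h)
  have hN := normalizerCondition_of_isNilpotent (G := F) (X.subgroupOf F) hlt
  obtain ⟨n, hn, hnX⟩ := SetLike.exists_of_lt hN
  have hnorm : ∀ x ∈ X, (n : S) * x * (n : S)⁻¹ ∈ X := by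
    intro x hx
    have h1 := (Subgroup.mem_normalizer_iff.1 hn ⟨x, hXF hx⟩).1 (Subgroup.mem_subgroupOf.2 hx)
    exact Subgroup.mem_subgroupOf.1 h1
  let c := (n : S)⁻¹ * (t * n * t)
  have hcF : c ∈ F := F.mul_mem (F.inv_mem n.2) (htF _ n.2)
  have hc : ∀ x ∈ X, c * x = x * c := fun x hx =>
    comm_aux htt (hXt x hx) (hXt _ (hnorm x hx))
  have hct : t * c * t = c := hD c hcF fun a ha => hc a (hAX' ha)
  have hcc : c * c = 1 := by
    have h1 : t * ((n : S) * c) * t = (t * n * t) * (t * c * t) := by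
      simp only [mul_assoc]
      rw [← mul_assoc t t, htt, one_mul]
    have h2 : (n : S) * c = t * n * t := by simp [c]
    rw [h2, hct] at h1
    have h3 : t * (t * n * t) * t = n := by
      simp only [mul_assoc, htt, mul_one]
      rw [← mul_assoc, htt, one_mul]
    rw [h3, ← h2] at h1
    have h4 : (n : S) * 1 = n * (c * c) := by rw [mul_one, ← mul_assoc]; exact h1
    exact (mul_left_cancel h4).symm
  have hc1 : c = 1 := odd_of_sq hF hcF hcc
  have hnt : t * n * t = n := by
    have : (n : S)⁻¹ * (t * n * t) = 1 := hc1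
    exact (inv_mul_eq_one.1 this).symm
  have hcen : ∀ w : S, t * w * t = w → w ∈ Subgroup.centralizer {t} := by
    intro w h
    rw [Subgroup.mem_centralizer_singleton_iff]
    calc w * t = (t * w * t) * t := by rw [h]
      _ = t * w := by rw [mul_assoc, htt, mul_one]
  have hcen' : ∀ w ∈ Subgroup.centralizer {t}, t * w * t = w := by
    intro w h
    rw [Subgroup.mem_centralizer_singleton_iff] at h
    rw [← h, mul_assoc, htt, mul_one]
  have hmem : X ⊔ Subgroup.zpowers (n : S) ∈ {X : Subgroup S | X ≤ F ∧ A ≤ X ∧ ∀ x ∈ X, t * x * t = x} := by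
    refine ⟨sup_le hXF ?_, hAX'.trans le_sup_left, fun x hx => hcen' x ?_⟩
    · rw [Subgroup.zpowers_le]; exact n.2
    · have hle : X ⊔ Subgroup.zpowers (n : S) ≤ Subgroup.centralizer {t} := by
        refine sup_le (fun w hw => hcen w (hXt w hw)) ?_
        rw [Subgroup.zpowers_le]
        exact hcen _ hnt
      exact hle hx
  have h5 := hXm hmem le_sup_left
  exact hnX (Subgroup.mem_subgroupOf.2 (h5 (Subgroup.mem_sup_right (Subgroup.mem_zpowers _))))

def Good (I F : Subgroup S) (n k : ℕ) (f : Fin k → Subgroup S) : Prop :=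
  (∀ i, (Nat.card (f i)).Prime) ∧ (∀ i, f i ≤ F) ∧ (∀ i, ∀ s ∈ I, ∀ x ∈ f i, s * x * s ∈ f i) ∧
  (∀ i j, i ≠ j → ∀ a ∈ f i, ∀ b ∈ f j, a * b = b * a) ∧ (∀ a ∈ ⨆ i, f i, ∀ b ∈ ⨆ i, f i, a * b = b * a) ∧
  Nat.card ↥(⨆ i, f i) = ∏ i, Nat.card (f i) ∧
  Nat.card ↥(I ⊓ Subgroup.centralizer ((⨆ i, f i : Subgroup S) : Set S)) * 2 ^ k = 2 ^ n

theorem good_zero (I F : Subgroup S) (n : ℕ) (h : Nat.card I = 2 ^ n) : ∃ f, Good I F n 0 f := by
  refine ⟨Fin.elim0, fun i => i.elim0, fun i => i.elim0, fun i => i.elim0, fun i => i.elim0, ?_, ?_, ?_⟩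
  · intro a ha b hb
    have h1 : (⨆ i, (Fin.elim0 i : Subgroup S)) = ⊥ := iSup_of_empty _
    rw [h1, Subgroup.mem_bot] at ha
    rw [ha, one_mul, mul_one]
  · have h1 : (⨆ i, (Fin.elim0 i : Subgroup S)) = ⊥ := iSup_of_empty _
    rw [h1]; simp
  · have h1 : (⨆ i, (Fin.elim0 i : Subgroup S)) = ⊥ := iSup_of_empty _
    rw [h1]
    have h2 : Subgroup.centralizer (((⊥ : Subgroup S) : Set S)) = ⊤ := by
      ext x
      simp [Subgroup.mem_centralizer_iff]
    rw [h2, inf_top_eq, h]
    simp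

theorem good_step [Group.IsSolvable S] (I F : Subgroup S) [hFn : F.Normal] [hnil : Group.IsNilpotent F]
    (hF : Odd (Nat.card F)) (hCF : Subgroup.centralizer (F : Set S) ≤ F)
    (hIc : ∀ a ∈ I, ∀ b ∈ I, a * b = b * a) (hI2 : ∀ a ∈ I, a * a = 1) (n k : ℕ) (hk : k < n)
    (f : Fin k → Subgroup S) (hf : Good I F n k f) : ∃ f', Good I F n (k + 1) f' := by
  classical
  obtain ⟨h1, h2, h3, h4, h5, h6, h7⟩ := hf
  set X : Subgroup S := ⨆ i, f i with hX
  have hinv2 : ∀ a ∈ I, a⁻¹ = a := fun a ha => inv_eq_of_mul_eq_one_left (hI2 a ha)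
  have hXF : X ≤ F := iSup_le h2
  have hXi : ∀ s ∈ I, ∀ x ∈ X, s * x * s ∈ X := by
    intro s hs x hx
    have hle : X ≤ X.comap (MulAut.conj s).toMonoidHom := by
      refine iSup_le fun i y hy => ?_
      show s * y * s⁻¹ ∈ X
      rw [hinv2 s hs]
      exact (le_iSup f i) (h3 i s hs y hy)
    have := hle hx
    have h' : s * x * s⁻¹ ∈ X := this
    rwa [hinv2 s hs] at h'
  -- the subgroup J
  set J : Subgroup S := I ⊓ Subgroup.centralizer (X : Set S) with hJ
  have hJc : 2 ≤ Nat.card J := by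
    have h8 : Nat.card J * 2 ^ k = 2 ^ (n - k) * 2 ^ k := by
      rw [h7, ← pow_add]; congr 1; omega
    have h9 := Nat.eq_of_mul_eq_mul_right (by positivity) h8
    rw [h9]
    calc 2 = 2 ^ 1 := rfl
      _ ≤ 2 ^ (n - k) := Nat.pow_le_pow_right (by norm_num) (by omega)
  obtain ⟨t₀, ht₀⟩ : ∃ a : J, a ≠ 1 := by
    have : 1 < Nat.card J := by omega
    haveI : Nontrivial J := Finite.one_lt_card_iff_nontrivial.1 this
    exact exists_ne 1
  have ht : (t₀ : S) ∈ I := t₀.2.1
  have htC : (t₀ : S) ∈ Subgroup.centralizer (X : Set S) := t₀.2.2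
  set t : S := (t₀ : S) with htdef
  have htne : t ≠ 1 := fun h => ht₀ (Subtype.ext h)
  have htt : t * t = 1 := hI2 t ht
  have htX : ∀ a ∈ X, t * a * t = a := by
    intro a ha
    have := Subgroup.mem_centralizer_iff.1 htC a ha
    rw [← this, mul_assoc, htt, mul_one]
  let D : Subgroup S := F ⊓ Subgroup.centralizer (X : Set S)
  have hDodd : Odd (Nat.card D) := Odd.of_dvd_nat hF (Subgroup.card_dvd_of_le inf_le_left)
  have hFi : ∀ s ∈ I, ∀ x ∈ F, s * x * s ∈ F := by
    intro s hs x hx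
    have := hFn.conj_mem x hx s
    rwa [hinv2 s hs] at this
  have hDi : ∀ s ∈ I, ∀ x ∈ D, s * x * s ∈ D := by
    intro s hs x hx
    refine Subgroup.mem_inf.2 ⟨hFi s hs x (Subgroup.mem_inf.1 hx).1, Subgroup.mem_centralizer_iff.2 ?_⟩
    intro b hb
    have h8 := Subgroup.mem_centralizer_iff.1 (Subgroup.mem_inf.1 hx).2 (s * b * s) (hXi s hs b hb)
    have hss := hI2 s hs
    calc b * (s * x * s) = s * (s * b * s) * x * s := by
          simp only [mul_assoc]
          rw [← mul_assoc s s, hss, one_mul]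
      _ = s * ((s * b * s) * x) * s := by group
      _ = s * (x * (s * b * s)) * s := by rw [h8]
      _ = s * x * s * b := by
          simp only [mul_assoc, hss, mul_one]
  have hnt : ∃ x ∈ D, t * x * t ≠ x := by
    by_contra hcon
    push Not at hcon
    have hall := tower F hF X hXF t htt (hFi t ht) htX (fun x hx hc =>
      hcon x ⟨hx, Subgroup.mem_centralizer_iff.2 fun a ha => (hc a ha).symm⟩)
    have htCF : t ∈ Subgroup.centralizer (F : Set S) := by
      rw [Subgroup.mem_centralizer_iff]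
      intro x hx
      have := hall x hx
      calc x * t = (t * x * t) * t := by rw [this]
        _ = t * x := by rw [mul_assoc, htt, mul_one]
    exact htne (odd_of_sq hF (hCF htCF) htt)
  obtain ⟨z, hzD, hzp, hzs, hzt⟩ := exists_line I hIc hI2 D hDodd hDi t ht hnt
  have hzF : z ∈ F := hzD.1
  have hzX : ∀ b ∈ X, z * b = b * z := fun b hb => (Subgroup.mem_centralizer_iff.1 hzD.2 b hb).symm
  have hz1 : z ≠ 1 := by
    intro h
    rw [h, orderOf_one] at hzp
    exact Nat.not_prime_one hzp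
  have hzz : z ≠ z⁻¹ := by
    intro h
    apply hz1
    apply odd_of_sq hF hzF
    calc z * z = z⁻¹ * z := by rw [← h]
      _ = 1 := inv_mul_cancel z
  let L : Subgroup S := Subgroup.zpowers z
  have hLF : L ≤ F := by rw [Subgroup.zpowers_le]; exact hzF
  have hLi : ∀ s ∈ I, ∀ x ∈ L, s * x * s ∈ L := by
    intro s hs x hx
    obtain ⟨m, rfl⟩ := Subgroup.mem_zpowers_iff.1 hx
    have h8 : s * z ^ m * s = (s * z * s) ^ m := by
      have := conj_zpow (a := s) (b := z) (i := m)
      rw [hinv2 s hs] at this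
      exact this.symm
    rw [h8]
    rcases hzs s hs with h | h
    · rw [h]; exact L.zpow_mem (Subgroup.mem_zpowers z) m
    · rw [h]; exact L.zpow_mem (L.inv_mem (Subgroup.mem_zpowers z)) m
  have hLX : L ≤ Subgroup.centralizer (X : Set S) := by
    rw [Subgroup.zpowers_le, Subgroup.mem_centralizer_iff]
    intro b hb
    exact (hzX b hb).symm
  have hXL : X ≤ Subgroup.centralizer (L : Set S) := by
    rw [Subgroup.le_centralizer_iff]; exact hLX
  have hLL : L ≤ Subgroup.centralizer (L : Set S) := by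
    intro a ha
    rw [Subgroup.mem_centralizer_iff]
    intro b hb
    obtain ⟨m, rfl⟩ := Subgroup.mem_zpowers_iff.1 ha
    obtain ⟨m', rfl⟩ := Subgroup.mem_zpowers_iff.1 hb
    exact (Commute.refl z).zpow_zpow m' m
  have hXX : X ≤ Subgroup.centralizer (X : Set S) := by
    intro a ha
    rw [Subgroup.mem_centralizer_iff]
    intro b hb
    exact h5 b hb a ha
  have hsup : ∀ a ∈ L ⊔ X, ∀ b ∈ L ⊔ X, a * b = b * a := by
    have hA : L ⊔ X ≤ Subgroup.centralizer (L : Set S) := sup_le hLL hXL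
    have hB : L ⊔ X ≤ Subgroup.centralizer (X : Set S) := sup_le hLX hXX
    intro a ha b hb
    have hle : L ⊔ X ≤ Subgroup.centralizer ({a} : Set S) := by
      refine sup_le (fun l hl => ?_) (fun x hx => ?_)
      · rw [Subgroup.mem_centralizer_singleton_iff]
        exact Subgroup.mem_centralizer_iff.1 (hA ha) l hl
      · rw [Subgroup.mem_centralizer_singleton_iff]
        exact Subgroup.mem_centralizer_iff.1 (hB ha) x hx
    exact (Subgroup.mem_centralizer_singleton_iff.1 (hle hb)).symm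
  have hsupeq : (⨆ i, (Fin.cons L f : Fin (k + 1) → Subgroup S) i) = L ⊔ X := by
    apply le_antisymm
    · refine iSup_le fun i => ?_
      refine Fin.cases ?_ (fun j => ?_) i
      · simp only [Fin.cons_zero]; exact le_sup_left
      · simp only [Fin.cons_succ]; exact (le_iSup f j).trans le_sup_right
    · refine sup_le ?_ (iSup_le fun j => ?_)
      · have := le_iSup (Fin.cons L f : Fin (k + 1) → Subgroup S) 0
        simpa only [Fin.cons_zero] using this
      · have := le_iSup (Fin.cons L f : Fin (k + 1) → Subgroup S) j.succ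
        simpa only [Fin.cons_succ] using this
  have hinf : L ⊓ X = ⊥ := by
    rw [eq_bot_iff]
    intro a ha
    obtain ⟨ha1, ha2⟩ := Subgroup.mem_inf.1 ha
    obtain ⟨m, rfl⟩ := Subgroup.mem_zpowers_iff.1 ha1
    have h8 : t * z ^ m * t = (z ^ m)⁻¹ := by
      have := conj_zpow (a := t) (b := z) (i := m)
      rw [hinv2 t ht, hzt, inv_zpow] at this
      exact this.symm
    rw [htX _ ha2] at h8
    have h9 : z ^ m * z ^ m = 1 := by
      nth_rw 1 [h8]
      exact inv_mul_cancel _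
    exact odd_of_sq hF (hLF ha1) h9
  have hcardsup : Nat.card ↥(L ⊔ X) = Nat.card L * Nat.card X := by
    have := Lib.H1Cop.card_sup_mul_inf_of_normalizes (A := L) (K := X)
      (hLX.trans (Subgroup.centralizer_le_normalizer _))
    rw [hinf] at this
    simpa using this
  -- the index computation
  let J' : Subgroup S := I ⊓ Subgroup.centralizer ((L ⊔ X : Subgroup S) : Set S)
  have hJ'J : J' ≤ J := inf_le_inf_left _ (Subgroup.centralizer_le (SetLike.coe_subset_coe.2 le_sup_right))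
  let H : Subgroup J := J'.subgroupOf J
  have hHm : ∀ g : J, g ∈ H ↔ (g : S) * z * (g : S) = z := by
    intro g
    rw [Subgroup.mem_subgroupOf]
    have hg := hI2 g g.2.1
    constructor
    · intro h
      have h8 := Subgroup.mem_centralizer_iff.1 (Subgroup.mem_inf.1 h).2 z
        (Subgroup.mem_sup_left (Subgroup.mem_zpowers z))
      rw [← h8, mul_assoc, hg, mul_one]
    · intro h
      refine Subgroup.mem_inf.2 ⟨g.2.1, ?_⟩
      have hgz : z * (g : S) = (g : S) * z := by
        calc z * (g : S) = ((g : S) * z * (g : S)) * (g : S) := by rw [h]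
          _ = (g : S) * z := by rw [mul_assoc _ (g : S) (g : S), hg, mul_one]
      have hle : L ⊔ X ≤ Subgroup.centralizer ({(g : S)} : Set S) := by
        refine sup_le ?_ (fun x hx => ?_)
        · rw [Subgroup.zpowers_le, Subgroup.mem_centralizer_singleton_iff]
          exact hgz
        · rw [Subgroup.mem_centralizer_singleton_iff]
          exact Subgroup.mem_centralizer_iff.1 g.2.2 x hx
      rw [Subgroup.mem_centralizer_iff]
      intro y hy
      exact Subgroup.mem_centralizer_singleton_iff.1 (hle hy)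
  have hHidx : H.index = 2 := by
    rw [Subgroup.index_eq_two_iff]
    refine ⟨t₀, fun b => ?_⟩
    have hbI : (b : S) ∈ I := b.2.1
    have hbb := hI2 b hbI
    have hbt : ∀ w : S, ((b : S) * t) * w * ((b : S) * t) = (b : S) * (t * w * t) * (b : S) := by
      intro w
      rw [show (b : S) * t * w * ((b : S) * t) = (b : S) * t * w * (t * (b : S)) by rw [hIc _ hbI _ ht]]
      group
    have hbinv : ∀ w : S, (b : S) * w⁻¹ * (b : S) = ((b : S) * w * (b : S))⁻¹ := by
      intro w
      simp only [mul_inv_rev, hinv2 _ hbI, mul_assoc]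
    have hmul : ((b * t₀ : J) : S) = (b : S) * t := rfl
    rcases hzs b hbI with h | h
    · right
      refine ⟨(hHm b).2 h, ?_⟩
      rw [hHm, hmul, hbt, hzt, hbinv, h]
      exact fun h' => hzz h'.symm
    · left
      refine ⟨?_, ?_⟩
      · rw [hHm, hmul, hbt, hzt, hbinv, h, inv_inv]
      · rw [hHm, h]
        exact fun h' => hzz h'.symm
  have hcardJ : Nat.card J' * 2 = Nat.card J := by
    have h8 := Subgroup.card_mul_index H
    rw [hHidx] at h8
    rw [← h8]
    congr 1
    exact (Nat.card_congr (Subgroup.subgroupOfEquivOfLe hJ'J).toEquiv).symm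
  refine ⟨Fin.cons L f, ?_, ?_, ?_, ?_, ?_, ?_, ?_⟩
  · intro i
    refine Fin.cases ?_ (fun j => ?_) i
    · simp only [Fin.cons_zero]
      rw [Nat.card_zpowers]; exact hzp
    · simp only [Fin.cons_succ]; exact h1 j
  · intro i
    refine Fin.cases ?_ (fun j => ?_) i
    · simp only [Fin.cons_zero]; exact hLF
    · simp only [Fin.cons_succ]; exact h2 j
  · intro i
    refine Fin.cases ?_ (fun j => ?_) i
    · simp only [Fin.cons_zero]; exact hLi
    · simp only [Fin.cons_succ]; exact h3 j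
  · intro i j
    refine Fin.cases ?_ (fun i' => ?_) i
    · refine Fin.cases ?_ (fun j' => ?_) j
      · intro h; exact absurd rfl h
      · intro _ a ha b hb
        simp only [Fin.cons_zero, Fin.cons_succ] at ha hb
        exact (Subgroup.mem_centralizer_iff.1 (hLX ha) b ((le_iSup f j') hb)).symm
    · refine Fin.cases ?_ (fun j' => ?_) j
      · intro _ a ha b hb
        simp only [Fin.cons_zero, Fin.cons_succ] at ha hb
        exact Subgroup.mem_centralizer_iff.1 (hLX hb) a ((le_iSup f i') ha)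
      · intro hij a ha b hb
        simp only [Fin.cons_succ] at ha hb
        exact h4 i' j' (fun h => hij (by rw [h])) a ha b hb
  · rw [hsupeq]; exact hsup
  · rw [hsupeq, hcardsup, Fin.prod_univ_succ]
    simp only [Fin.cons_zero, Fin.cons_succ]
    rw [h6]
  · rw [hsupeq, pow_succ, ← mul_assoc, mul_right_comm, hcardJ]
    exact h7
end

/-- Let S be a finite solvable group whose Fitting subgroup F(S) has odd order, and let I be an elementary abelian 2-subgroup of S of order 2ⁿ with n ≥ 1. Then F(S) contains subgroups A₁, …, Aₙ of prime order, each normalized by I, pairwise commuting and generating a subgroup A of order |A₁|⋯|Aₙ| (their internal direct product), such that no non-identity element of I centralizes A. -/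
theorem result {S : Type*} [Group S] [Finite S]
    [Group.IsSolvable S] (hF : Odd (Nat.card ↥(Cfsg.fittingSubgroup S)))
    (I : Subgroup S) (hI : Cfsg.IsElementaryAbelian 2 I) (n : ℕ) (hn : 1 ≤ n) (hIn : Nat.card ↥I = 2 ^ n) :
    ∃ f : Fin n → Subgroup S, (∀ i, (Nat.card ↥(f i)).Prime) ∧ (∀ i, f i ≤ Cfsg.fittingSubgroup S) ∧
      (∀ i, I ≤ Subgroup.normalizer ((f i) : Set S)) ∧ (∀ i j, i ≠ j → ∀ a ∈ f i, ∀ b ∈ f j, a * b = b * a) ∧
      Nat.card ↥(⨆ i, f i) = ∏ i, Nat.card ↥(f i) ∧ I ⊓ Subgroup.centralizer ((⨆ i, f i : Subgroup S) : Set S) = ⊥ := by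
  classical
  have hIc : ∀ a ∈ I, ∀ b ∈ I, a * b = b * a := fun a ha b hb => by
    have := hI.1.is_comm.comm (⟨a, ha⟩ : I) ⟨b, hb⟩
    exact congrArg Subtype.val this
  have hI2 : ∀ a ∈ I, a * a = 1 := fun a ha => by
    have := hI.2 a ha
    rwa [pow_two] at this
  haveI hnil : Group.IsNilpotent (Cfsg.fittingSubgroup S) := Lib.H1Core.fittingSubgroup_isNilpotent
  haveI hFn : (Cfsg.fittingSubgroup S).Normal := Lib.H1Core.fittingSubgroup_normal S
  have hCF := Lib.H1Fit.centralizer_fitting_le (G := S)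
  have key : ∀ k, k ≤ n → ∃ f, Good I (Cfsg.fittingSubgroup S) n k f := by
    intro k
    induction k with
    | zero => exact fun _ => good_zero I _ n hIn
    | succ k ih =>
      intro hk
      obtain ⟨f, hf⟩ := ih (by omega)
      exact good_step I _ hF hCF hIc hI2 n k (by omega) f hf
  obtain ⟨f, h1, h2, h3, h4, -, h6, h7⟩ := key n le_rfl
  have hinv2 : ∀ a ∈ I, a⁻¹ = a := fun a ha => inv_eq_of_mul_eq_one_left (hI2 a ha)
  refine ⟨f, h1, h2, ?_, h4, h6, ?_⟩
  · intro i s hs
    rw [Subgroup.mem_normalizer_iff]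
    intro x
    rw [hinv2 s hs]
    refine ⟨h3 i s hs x, fun h => ?_⟩
    have h8 := h3 i s hs _ h
    have hss := hI2 s hs
    have h9 : s * (s * x * s) * s = x := by
      simp only [mul_assoc, hss, mul_one]
      rw [← mul_assoc, hss, one_mul]
    rwa [h9] at h8
  · have h8 : Nat.card ↥(I ⊓ Subgroup.centralizer ((⨆ i, f i : Subgroup S) : Set S)) = 1 := by
      have hpos : 0 < 2 ^ n := by positivity
      exact Nat.eq_of_mul_eq_mul_right hpos (by rw [h7, one_mul])
    exact Subgroup.eq_bot_of_card_eq _ h8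

end Cfsg.Agent.S4408
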