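import Cfsg.Statements.S4420
import Mathlib
import Cfsg.Agent.Lib.FGSBasic
import Cfsg.Agent.Lib.H1Frat
-- import your own Cfsg.Agent.* helpers here

set_option autoImplicit false
open Cfsg

namespace Cfsg.Agent.S4420

/-- Structure of groups in which every element outside some proper subgroup has square 1. Let H be a finite group with a proper subgroup A such that every element outside A has square 1. Then H has an abelian normal subgroup B of index 2 such that every element outside B is an involution inverting every element of B; and if H is not an elementary abelian 2-group, B is the only abelian normal subgroup of index 2 with this property. -/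
theorem result {H : Type*} [Group H] [Finite H] (A : Subgroup H) (hA : A ≠ ⊤) (hD : ∀ x : H, x ∉ A → x ^ 2 = 1) :
    ∃ B : Subgroup H, B.Normal ∧ IsMulCommutative ↥B ∧ B.index = 2 ∧
      (∀ x : H, x ∉ B → x ^ 2 = 1 ∧ ∀ b ∈ B, x * b * x⁻¹ = b⁻¹) ∧
      (¬ (IsMulCommutative H ∧ ∀ x : H, x ^ 2 = 1) →
        ∀ B' : Subgroup H, B'.Normal → IsMulCommutative ↥B' → B'.index = 2 →
          (∀ x : H, x ∉ B' → x ^ 2 = 1 ∧ ∀ b ∈ B', x * b * x⁻¹ = b⁻¹) → B' = B) := by
  classical
  have hinv : ∀ y : H, y ^ 2 = 1 → y⁻¹ = y := by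
    intro y hy
    rw [inv_eq_iff_mul_eq_one, ← pow_two]; exact hy
  -- elements outside A invert A
  have hinvA : ∀ x : H, x ∉ A → ∀ a ∈ A, x * a * x⁻¹ = a⁻¹ := by
    intro x hx a ha
    have h1 : x * a ∉ A := by
      intro h
      apply hx
      have := mul_mem h (inv_mem ha)
      simpa using this
    have h2 := hD _ h1
    rw [hinv x (hD x hx)]
    rw [pow_two] at h2
    rw [eq_inv_iff_mul_eq_one]
    calc x * a * x * a = (x * a) * (x * a) := by group
      _ = 1 := h2
  obtain ⟨x₀, hx₀⟩ : ∃ x, x ∉ A := by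
    by_contra h
    push_neg at h
    exact hA (eq_top_iff.mpr (fun x _ => h x))
  have hAcomm : ∀ a ∈ A, ∀ b ∈ A, a * b = b * a := by
    intro a ha b hb
    have h1 := hinvA x₀ hx₀ _ (mul_mem ha hb)
    have h2 : x₀ * (a * b) * x₀⁻¹ = (x₀ * a * x₀⁻¹) * (x₀ * b * x₀⁻¹) := by group
    rw [h2, hinvA x₀ hx₀ a ha, hinvA x₀ hx₀ b hb, mul_inv_rev] at h1
    have h3 : (a⁻¹ * b⁻¹)⁻¹ = (b⁻¹ * a⁻¹)⁻¹ := by rw [h1]
    exact (by simpa using h3 : b * a = a * b).symm
  by_cases hall : ∀ y : H, y ^ 2 = 1
  · -- elementary abelian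
    have hcomm : ∀ a b : H, a * b = b * a := by
      intro a b
      have h1 := hinv (a * b) (hall _)
      rw [mul_inv_rev, hinv a (hall a), hinv b (hall b)] at h1
      exact h1.symm
    obtain ⟨M, hM, hAM⟩ := (eq_top_or_exists_le_coatom A).resolve_left hA
    have hp2 : IsPGroup 2 H := by
      intro y
      exact ⟨1, by simpa using hall y⟩
    haveI : Group.IsNilpotent H := hp2.isNilpotent
    obtain ⟨hMn, hMp, -⟩ := Cfsg.Agent.Lib.H1Frat.coatom_index_prime_of_nilpotent hM
    have hM2 : M.index = 2 := by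
      have h1 : M.index ∣ Nat.card H := Subgroup.index_dvd_card M
      obtain ⟨n, hn⟩ := IsPGroup.iff_card.mp hp2
      rw [hn] at h1
      exact (Nat.prime_dvd_prime_iff_eq hMp Nat.prime_two).mp (hMp.dvd_of_dvd_pow h1)
    refine ⟨M, hMn, ⟨⟨fun a b => Subtype.ext (hcomm a b)⟩⟩, hM2, ?_, ?_⟩
    · intro y _
      refine ⟨hall y, ?_⟩
      intro b _
      rw [hcomm y b, mul_assoc, mul_inv_cancel, mul_one, hinv b (hall b)]
    · intro h
      exact (h ⟨⟨⟨fun a b => hcomm a b⟩⟩, hall⟩).elim
  · -- index two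
    push_neg at hall
    obtain ⟨z, hz⟩ := hall
    have hzA : z ∈ A := by
      by_contra h; exact hz (hD z h)
    have hindex : A.index = 2 := by
      rw [Subgroup.index_eq_two_iff]
      refine ⟨x₀, fun b => ?_⟩
      by_cases hb : b ∈ A
      · right
        refine ⟨hb, fun h => hx₀ ?_⟩
        have := mul_mem (inv_mem hb) h
        simpa using this
      · left
        refine ⟨?_, hb⟩
        by_contra hbx
        apply hz
        have h1 := hinvA _ hbx z hzA
        have h2 : b * x₀ * z * (b * x₀)⁻¹ = b * (x₀ * z * x₀⁻¹) * b⁻¹ := by group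
        have h3 : b * z⁻¹ * b⁻¹ = (b * z * b⁻¹)⁻¹ := by group
        rw [h2, hinvA x₀ hx₀ z hzA, h3, hinvA b hb z hzA, inv_inv] at h1
        rw [pow_two]
        nth_rewrite 1 [h1]
        simp
    refine ⟨A, Subgroup.normal_of_index_eq_two hindex, ⟨⟨fun a b => Subtype.ext (hAcomm a a.2 b b.2)⟩⟩,
      hindex, fun x hx => ⟨hD x hx, hinvA x hx⟩, ?_⟩
    intro _ B' _ _ hB'i hB'o
    have hzB' : z ∈ B' := by
      by_contra h; exact hz (hB'o z h).1
    have hle : A ≤ B' := by
      intro a ha
      by_contra haB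
      have h1 := (hB'o a haB).2 z hzB'
      rw [hAcomm a ha z hzA] at h1
      apply hz
      rw [mul_assoc, mul_inv_cancel, mul_one] at h1
      rw [pow_two]
      nth_rewrite 1 [h1]
      simp
    have h1 : A.relIndex B' * B'.index = A.index := Subgroup.relIndex_mul_index hle
    rw [hindex, hB'i] at h1
    have h2 : A.relIndex B' = 1 := by omega
    exact le_antisymm (Subgroup.relIndex_eq_one.mp h2) hle

end Cfsg.Agent.S4420
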