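import Cfsg.Statements.S4539
import Cfsg.Agent.Lib.BlockLat4

set_option autoImplicit false
open Cfsg

namespace Cfsg.Agent.S4539

/-- Let B be a p-block of the finite group G (relative to a maximal ideal M of the algebraic integers containing p) of defect d with defect group D. Let z be an element of D commuting with every element of D, and let b be a block of the centralizer C of z with defect group D that induces B (a major subsection (z, b)). If b has p-regular rank at most two, then B contains at most p ^ d irreducible characters. -/
theorem result {G : Type*} [Group G] [Finite G] (p : ℕ) [Fact p.Prime] (M : Ideal Cfsg.AlgInt) (hM : Cfsg.IsPModular p M) (B : Set (Cfsg.IrrCharacter G)) (hB : Cfsg.IsPBlock M B) (D : Subgroup G) (hD : Cfsg.IsDefectGroup p M B D) (z : G) (hzD : z ∈ D) (hzc : ∀ d ∈ D, d * z = z * d) (b : Set (Cfsg.IrrCharacter ↥(Subgroup.centralizer ({z} : Set G)))) (hb : Cfsg.IsInducedBlock M (Subgroup.centralizer ({z} : Set G)) b B) (hbD : Cfsg.IsDefectGroup p M b (D.subgroupOf (Subgroup.centralizer ({z} : Set G)))) (hl : Cfsg.blockRank p b ≤ 2) : Nat.card B ≤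 p ^ Cfsg.blockDefect p B := by
  classical
  have := Fintype.ofFinite G
  have := hM.2.1.isPrime
  have hind := hb
  obtain ⟨hq, k, hk⟩ := Lib.BlockLat3.major_facts hM hB hD hzD hzc hb.1 hbD
  have := Fintype.ofFinite (Cfsg.IrrCharacter ↥(Subgroup.centralizer ({z} : Set G)))
  exact Lib.BlockLat4.card_le_of_rank_le_two hM hB hk hind hq hl

end Cfsg.Agent.S4539
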