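import Cfsg.Statements.S4541
import Cfsg.Agent.Lib.BlockLat2

set_option autoImplicit false
open Cfsg

namespace Cfsg.Agent.S4541

/-- Let B be a 2-block of the finite group G (relative to a maximal ideal M of the algebraic integers containing 2), u a 2-element, and b a block of the centralizer of u inducing B (a subsection (u, b)), of defect q and 2-regular rank l; write s for the integer square root of l and k₀(B) for the number of members of B of height zero. If s is odd then k₀(B) ≤ s·2 ^ q, and otherwise (s + 1)·k₀(B) ≤ l·2 ^ q; in particular k₀(B) ≤ 2 ^ q when l ≤ 3. -/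
theorem result {G : Type*} [Group G] [Finite G] (M : Ideal Cfsg.AlgInt) (hM : Cfsg.IsPModular 2 M) (B : Set (Cfsg.IrrCharacter G)) (hB : Cfsg.IsPBlock M B) (u : G) (hu : ∃ j : ℕ, orderOf u = 2 ^ j) (b : Set (Cfsg.IrrCharacter ↥(Subgroup.centralizer ({u} : Set G)))) (hb : Cfsg.IsInducedBlock M (Subgroup.centralizer ({u} : Set G)) b B) : (Odd (Nat.sqrt (Cfsg.blockRank 2 b)) → Nat.card {χ : Cfsg.IrrCharacter G // χ ∈ B ∧ Cfsg.blockHeight 2 B (χ : G → ℂ) = 0} ≤ Nat.sqrt (Cfsg.blockRank 2 b) * 2 ^ Cfsg.blockDefect 2 b) ∧ (¬ Odd (Nat.sqrt (Cfsg.blockRank 2 b)) → (Nat.sqrt (Cfsg.blockRank 2 b) + 1) * Nat.card {χ : Cfsg.IrrCharacter G // χ ∈ B ∧ Cfsg.blockHeight 2 B (χ : G → ℂ) = 0} ≤ Cfsg.blockRank 2 b * 2 ^ Cfsg.blockDefect 2 b) ∧ (Cfsg.blockRank 2 b ≤ 3 → Nat.card {χ : Cfsg.IrrCharacter G // χ ∈ B ∧ Cfsg.blockHeight 2 B (χ : G → ℂ) = 0} ≤ 2 ^ Cfsg.blockDefect 2 b) := by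
  classical
  have := Fintype.ofFinite G
  have := hM.2.1.isPrime
  have := Fintype.ofFinite (Cfsg.IrrCharacter ↥(Subgroup.centralizer ({u} : Set G)))
  obtain ⟨j, hj⟩ := hu
  obtain ⟨β, hβ, h1, h2⟩ := Lib.BlockLat2.exists_beta_height_zero hM hB hj hb
  obtain ⟨k₀, hk₀⟩ : ∃ k₀, k₀ = Nat.card {χ : Cfsg.IrrCharacter G // χ ∈ B ∧ Cfsg.blockHeight 2 B (χ : G → ℂ) = 0} := ⟨_, rfl⟩
  obtain ⟨P, hP⟩ : ∃ P, P = 2 ^ Cfsg.blockDefect 2 b := ⟨_, rfl⟩
  obtain ⟨l, hl⟩ : ∃ l, l = Cfsg.blockRank 2 b := ⟨_, rfl⟩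
  rw [← hk₀, ← hP] at h1 h2
  rw [← hl] at h2
  rw [← hk₀, ← hP, ← hl]
  have hPpos : 0 < P := by rw [hP]; positivity
  obtain ⟨α, hα⟩ : ∃ α, α = Nat.sqrt l := ⟨_, rfl⟩
  have hα1 : α * α ≤ l := by rw [hα]; exact Nat.sqrt_le l
  have hα2 : l < (α + 1) * (α + 1) := by rw [hα]; exact Nat.lt_succ_sqrt l
  rw [← hα]
  have hi : Odd α → k₀ ≤ α * P := by
    intro hodd
    by_cases hβα : β ≤ α
    · calc k₀ ≤ P * β := h1
        _ ≤ P * α := Nat.mul_le_mul_left _ hβα
        _ = α * P := mul_comm _ _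
    · have h3 : α + 2 ≤ β := by
        obtain ⟨a, ha⟩ := hβ
        obtain ⟨c, hc⟩ := hodd
        omega
      have h4 : l ≤ α * (α + 2) := by nlinarith
      have h5 : (α + 2) * k₀ ≤ (α + 2) * (α * P) := by
        calc (α + 2) * k₀ ≤ β * k₀ := Nat.mul_le_mul_right _ h3
          _ ≤ P * l := h2
          _ ≤ P * (α * (α + 2)) := Nat.mul_le_mul_left _ h4
          _ = _ := by ring
      exact Nat.le_of_mul_le_mul_left h5 (by omega)
  refine ⟨hi, ?_, ?_⟩
  · intro hev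
    have hev' : Even α := Nat.not_odd_iff_even.mp hev
    by_cases hβα : α + 1 ≤ β
    · calc (α + 1) * k₀ ≤ β * k₀ := Nat.mul_le_mul_right _ hβα
        _ ≤ P * l := h2
        _ = l * P := mul_comm _ _
    · have h3 : β + 1 ≤ α := by
        obtain ⟨a, ha⟩ := hβ
        obtain ⟨c, hc⟩ := hev'
        omega
      obtain ⟨t, ht⟩ : ∃ t, α = t + 1 := ⟨α - 1, by omega⟩
      have h4 : (α + 1) * t ≤ l := by
        rw [ht] at hα1 ⊢
        nlinarith
      have h5 : β ≤ t := by omega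
      calc (α + 1) * k₀ ≤ (α + 1) * (P * β) := Nat.mul_le_mul_left _ h1
        _ ≤ (α + 1) * (P * t) := Nat.mul_le_mul_left _ (Nat.mul_le_mul_left _ h5)
        _ = ((α + 1) * t) * P := by ring
        _ ≤ l * P := Nat.mul_le_mul_right _ h4
  · intro hl3
    by_cases hl0 : l = 0
    · rw [hl0, mul_zero] at h2
      have hβ0 : 0 < β := hβ.pos
      have : k₀ = 0 := by
        rcases Nat.eq_zero_or_pos k₀ with h | h
        · exact h
        · exact absurd h2 (by have := Nat.mul_pos hβ0 h; omega)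
      omega
    · have hα0 : α = 1 := by
        have h6 : α ≠ 0 := by
          rintro rfl
          simp at hα2
          omega
        have h7 : α < 2 := by
          by_contra h8
          have : 2 ≤ α := by omega
          nlinarith
        omega
      have := hi (by rw [hα0]; exact odd_one)
      rw [hα0, one_mul] at this
      exact this

end Cfsg.Agent.S4541
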