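import Cfsg.Statements.S4558
import Cfsg.Agent.Lib.BlockReg2

set_option autoImplicit false
open Cfsg

namespace Cfsg.Agent.S4558

/-- Let χ be a character of the finite group G and g an element of p-power order for the prime p. If χ g = 0, then p divides the degree of χ. -/
theorem result {G : Type*} [Group G] [Finite G] (p : ℕ) [Fact p.Prime] (χ : G → ℂ) (hχ : Cfsg.IsCharacter G χ) (g : G) (hg : ∃ j : ℕ, orderOf g = p ^ j) (h0 : χ g = 0) : p ∣ Cfsg.charDegree χ := by
  classical
  have := Fintype.ofFinite G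
  obtain ⟨M, hM⟩ := Lib.BlockMain2.exists_isPModular (Fact.out : p.Prime)
  have := hM.2.1.isPrime
  obtain ⟨j, hj⟩ := hg
  have := Fintype.ofFinite (Cfsg.IrrCharacter G)
  obtain ⟨m, hm⟩ := Lib.CharAlg.IsCharacter.exists_nat_coeff hχ
  have h1 : Cfsg.MemLocalIdeal M (χ g - χ 1) := by
    rw [hm]
    simp only [Finset.sum_apply, Pi.smul_apply, smul_eq_mul]
    rw [← Finset.sum_sub_distrib]
    refine Lib.BlockOku.memLocalIdeal_finset_sum _ _ fun ψ _ => ?_
    rw [← mul_sub]
    have h2 := Lib.BlockMain3.val_mul_congr hM ψ hj (Commute.one_right g)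
    rw [mul_one] at h2
    exact Lib.LocRing.memLocalIdeal_mul_left (Lib.LocRing.natCast_mem_locRing _) h2
  rw [h0, zero_sub] at h1
  obtain ⟨n, hn⟩ := Lib.CharAlg.IsCharacter.map_one_nat hχ
  have h3 : Cfsg.charDegree χ = n := by
    simp [Cfsg.charDegree, hn]
  rw [h3]
  rw [hn] at h1
  have h4 : Cfsg.MemLocalIdeal M (((- (n : ℤ) : ℤ) : ℂ)) := by
    push_cast
    exact h1
  have h5 := Lib.BlockReg2.dvd_of_intCast_memLocalIdeal hM h4
  rw [dvd_neg] at h5
  exact_mod_cast h5

end Cfsg.Agent.S4558
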