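import Cfsg.Statements.S4566
import Cfsg.Agent.Lib.BlockCentral

set_option autoImplicit false
open Cfsg

namespace Cfsg.Agent.S4566

/-- Let N be a central subgroup of the finite group G, ψ a faithful irreducible (hence degree-one) character of N, and χ an irreducible character of G whose restriction to N contains ψ. If g ∈ G and some x ∈ G has commutator x⁻¹ g⁻¹ x g in N but different from 1, then χ g = 0. -/
theorem result {G : Type*} [Group G] [Fintype G] (N : Subgroup G) [Fintype N] (hN : N ≤ Subgroup.center G) (ψ : Cfsg.IrrCharacter ↥N) (hfaith : ∀ n : ↥N, (ψ : ↥N → ℂ) n = (ψ : ↥N → ℂ) 1 → n = 1) (χ : Cfsg.IrrCharacter G) (hover : Cfsg.classInner (fun n : ↥N => (χ : G → ℂ) n) (ψ : ↥N → ℂ) ≠ 0) (g x : G) (hcomm : x⁻¹ * g⁻¹ * x * g ∈ N) (hne : x⁻¹ * g⁻¹ * x * g ≠ 1) : (χ : G → ℂ) g = 0 := by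
  classical
  by_contra hg
  have hχ1 : (χ : G → ℂ) 1 ≠ 0 := Lib.IrrBasic.val_one_ne_zero χ
  have hψ1 : (ψ : ↥N → ℂ) 1 ≠ 0 := Lib.IrrBasic.val_one_ne_zero ψ
  have hcG : x⁻¹ * g⁻¹ * x * g ∈ Subgroup.center G := hN hcomm
  have h1 : (χ : G → ℂ) (x⁻¹ * g⁻¹ * x * g) = (χ : G → ℂ) 1 := by
    have h2 := Lib.BlockCentral.val_central_mul χ hcG g⁻¹
    have h3 : (x⁻¹ * g⁻¹ * x * g) * g⁻¹ = x⁻¹ * g⁻¹ * x⁻¹⁻¹ := by group
    rw [h3, Lib.IrrBasic.val_conj] at h2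
    have h4 : (χ : G → ℂ) g⁻¹ ≠ 0 := by
      rw [Lib.IrrBasic.val_inv]
      simpa using hg
    field_simp at h2
    exact h2.symm
  have hc : ∀ c : ↥N, c ∈ Subgroup.center ↥N := by
    intro c
    rw [Subgroup.mem_center_iff]
    intro d
    apply Subtype.ext
    exact (Subgroup.mem_center_iff.mp (hN c.2)) d.1
  let c0 : ↥N := ⟨_, hcomm⟩
  have h5 : (ψ : ↥N → ℂ) c0 = (ψ : ↥N → ℂ) 1 := by
    have ha : (∑ n : ↥N, (χ : G → ℂ) n * (starRingEnd ℂ) ((ψ : ↥N → ℂ) n)) ≠ 0 := by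
      intro h0
      apply hover
      simp [Cfsg.classInner, h0]
    have hsum : (∑ n : ↥N, (χ : G → ℂ) n * (starRingEnd ℂ) ((ψ : ↥N → ℂ) n)) =
        (starRingEnd ℂ) ((ψ : ↥N → ℂ) c0 / (ψ : ↥N → ℂ) 1) *
          ∑ n : ↥N, (χ : G → ℂ) n * (starRingEnd ℂ) ((ψ : ↥N → ℂ) n) := by
      refine (Equiv.sum_comp (Equiv.mulLeft c0) (fun n : ↥N => (χ : G → ℂ) n * (starRingEnd ℂ) ((ψ : ↥N → ℂ) n))).symm.trans ?_
      rw [Finset.mul_sum]
      refine Finset.sum_congr rfl fun n _ => ?_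
      have h6 := Lib.BlockCentral.val_central_mul χ (hN c0.2) (n : G)
      have h7 := Lib.BlockCentral.val_central_mul ψ (hc c0) n
      simp only [Equiv.coe_mulLeft, Subgroup.coe_mul]
      rw [h6, h7]
      have : (χ : G → ℂ) (c0 : G) = (χ : G → ℂ) 1 := h1
      rw [this, map_div₀, map_mul, map_div₀]
      field_simp
    have h8 : (starRingEnd ℂ) ((ψ : ↥N → ℂ) c0 / (ψ : ↥N → ℂ) 1) = 1 := by
      have := mul_right_cancel₀ ha (a := (starRingEnd ℂ) ((ψ : ↥N → ℂ) c0 / (ψ : ↥N → ℂ) 1)) (c := 1) (by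
        rw [one_mul]; exact hsum.symm)
      exact this
    have h9 : (ψ : ↥N → ℂ) c0 / (ψ : ↥N → ℂ) 1 = 1 := by
      have := congrArg (starRingEnd ℂ) h8
      simpa using this
    field_simp at h9
    exact h9
  have h10 := hfaith c0 h5
  exact hne (congrArg Subtype.val h10)

end Cfsg.Agent.S4566
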