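import Cfsg.Statements.S4575
import Cfsg.Agent.Lib.BlockLat3

set_option autoImplicit false
open Cfsg

namespace Cfsg.Agent.S4575

/-- Let B be a 2-block of the finite group G (relative to a maximal ideal M of the algebraic integers containing 2) of defect d with defect group D. Let z be an element of D commuting with every element of D, and let b be a block of the centralizer of z with defect group D that induces B (a major subsection (z, b)). If the number of irreducible characters in B exceeds the 2-regular rank of b by at most three, then B contains at most 2 ^ d irreducible characters. -/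
theorem result {G : Type*} [Group G] [Finite G] (M : Ideal Cfsg.AlgInt) (hM : Cfsg.IsPModular 2 M) (B : Set (Cfsg.IrrCharacter G)) (hB : Cfsg.IsPBlock M B) (D : Subgroup G) (hD : Cfsg.IsDefectGroup 2 M B D) (z : G) (hzD : z ∈ D) (hzc : ∀ d ∈ D, d * z = z * d) (b : Set (Cfsg.IrrCharacter ↥(Subgroup.centralizer ({z} : Set G)))) (hb : Cfsg.IsInducedBlock M (Subgroup.centralizer ({z} : Set G)) b B) (hbD : Cfsg.IsDefectGroup 2 M b (D.subgroupOf (Subgroup.centralizer ({z} : Set G)))) (h : Nat.card B ≤ Cfsg.blockRank 2 b + 3) : Nat.card B ≤ 2 ^ Cfsg.blockDefect 2 B := by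
  classical
  have := Fintype.ofFinite G
  have := Fintype.ofFinite (Cfsg.IrrCharacter G)
  have := hM.2.1.isPrime
  haveI : Fact (Nat.Prime 2) := ⟨Nat.prime_two⟩
  have := Fintype.ofFinite B
  have hind := hb
  obtain ⟨hq, k, hk⟩ := Lib.BlockLat3.major_facts hM hB hD hzD hzc hb.1 hbD
  by_cases hd : Cfsg.blockDefect 2 B = 0
  · rw [(Lib.BlockRank.card_eq_one_of_defect_zero hM hB hd).1, hd]
    simp
  · obtain ⟨β, hβ, h1, h2⟩ := Lib.BlockLat3.exists_beta_major_dual hM hB hk hind hq (Nat.pos_of_ne_zero hd)
    rw [Nat.card_eq_fintype_card] at h ⊢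
    exact Lib.BlockLat3.num_s4539 (fun i : B => Cfsg.blockHeight 2 B i.1.1) (2 ^ Cfsg.blockDefect 2 B) (Fintype.card B - Cfsg.blockRank 2 b) β hβ (by omega) h1 h2

end Cfsg.Agent.S4575
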