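import Cfsg.Statements.S4585
import Cfsg.Agent.Lib.LdP4

set_option autoImplicit false
open Cfsg

namespace Cfsg.Agent.S4585

/-- Let p be a prime and P a group of order p^4. Then P' has index p^2 in P if and only if P has maximal nilpotency class, that is, nilpotency class exactly 3. -/
theorem result {P : Type*} [Group P] [Finite P] (p : ℕ) [Fact p.Prime] (hP : Nat.card P = p ^ 4) :
    (commutator P).index = p ^ 2 ↔ Group.nilpotencyClass P = 3 := by
  exact ⟨Cfsg.Agent.Lib.LdP4.main3 hP, Cfsg.Agent.Lib.LdP4.main4 hP⟩

end Cfsg.Agent.S4585
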