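import Cfsg.Statements.S4748
import Cfsg.Agent.Lib.H3TIK2

set_option autoImplicit false
open scoped Pointwise
open Cfsg

namespace Cfsg.Agent.S4748

/-- Let G be a finite p-solvable group whose Sylow p-subgroup P meets each conjugate g P g⁻¹ with g outside N_G(P) trivially, and let χ be a faithful character of G (χ g = χ 1 only for g = 1) whose degree d satisfies d² ≤ |P|. Then P is normal in G. -/
theorem result {G : Type*} [Group G] [Finite G] (p : ℕ) [Fact p.Prime] (hsolv : Cfsg.IsPSolvable p G) (P : Sylow p G) (hTI : ∀ g : G, g ∉ Subgroup.normalizer ((P : Subgroup G) : Set G) → (P : Subgroup G) ⊓ (MulAut.conj g • (P : Subgroup G)) = ⊥) (χ : G → ℂ) (hχ : Cfsg.IsCharacter G χ) (hfaith : ∀ g : G, χ g = χ 1 → g = 1) (hdeg : Cfsg.charDegree χ ^ 2 ≤ Nat.card ↥(P : Subgroup G)) : (P : Subgroup G).Normal := by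
  classical
  letI : Fintype G := Fintype.ofFinite G
  obtain ⟨x, hx⟩ := Cfsg.Agent.Lib.CharAlg.IsCharacter.map_one_nat hχ
  have hdegx : Cfsg.charDegree χ = x := Cfsg.Agent.Lib.CharGlaub5.charDegree_of_nat hx
  rw [hdegx] at hdeg
  exact Cfsg.Agent.Lib.H3TIK.normal_of_small hsolv P hTI hχ hfaith hx hdeg

end Cfsg.Agent.S4748
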