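import Cfsg.Statements.S4843
import Cfsg.Agent.Lib.H3Sig

set_option autoImplicit false
open Cfsg

namespace Cfsg.Agent.S4843

/-- Let G be a finite group with a faithful irreducible character χ (taking the value χ(1) only at the identity) and let k be prime to the order of G, so that g ↦ χ(g^k) is a Galois conjugate of χ. If the pointwise product g ↦ χ(g)·χ(g^k) is again an irreducible character, then the Fitting subgroup of G equals its centre. -/
theorem result {G : Type*} [Group G] [Finite G] (χ : Cfsg.IrrCharacter G) (hfaith : ∀ g : G, (χ : G → ℂ) g = (χ : G → ℂ) 1 → g = 1) (k : ℕ) (hk : Nat.Coprime k (Nat.card G)) (hirr : Cfsg.IsIrrCharacter G (fun g => (χ : G → ℂ) g * (χ : G → ℂ) (g ^ k))) : Cfsg.fittingSubgroup G = Subgroup.center G := by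
  classical
  letI : Fintype G := Fintype.ofFinite G
  have hk1 : ∃ k' : ℕ, ∀ y : G, (y ^ k') ^ k = y := by
    by_cases hN : 1 < Nat.card G
    · obtain ⟨m, -, hm⟩ := Nat.exists_mul_mod_eq_one_of_coprime hk hN
      refine ⟨m, fun y => ?_⟩
      rw [← pow_mul, mul_comm, ← pow_mod_natCard, hm, pow_one]
    · have h1 : Nat.card G = 1 := by
        have := Nat.card_pos (α := G)
        omega
      haveI : Subsingleton G := (Nat.card_eq_one_iff_unique.mp h1).1
      exact ⟨0, fun y => Subsingleton.elim _ _⟩
  obtain ⟨k', h1⟩ := hk1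
  exact Cfsg.Agent.Lib.H3Sig.fitting_eq_center (k' := k') χ.2 hfaith h1
    (Cfsg.Agent.Lib.CharBasic.IsIrrCharacter.isCharacter (Cfsg.Agent.Lib.CharGlaub4.adams χ.2 k hk)) hirr

end Cfsg.Agent.S4843
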