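import Cfsg.Statements.S5011

set_option autoImplicit false
open Cfsg

namespace Cfsg.Agent.S5011

/-- Let G be a finite non-abelian simple group and ρ an irreducible complex representation of G on a space of dimension greater than one (irreducible in the sense that the only subspaces invariant under every ρ(x) are 0 and the whole space). Then for every non-identity element g of G, the centralizer of g does not act irreducibly: there is a non-zero proper subspace invariant under ρ(c) for every c commuting with g. -/
theorem result {G : Type*} [Group G] [Finite G] [IsSimpleGroup G]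
    (hG : ¬ IsMulCommutative G) {V : Type*} [AddCommGroup V] [Module ℂ V] [FiniteDimensional ℂ V]
    (ρ : Representation ℂ G V)
    (hirr : ∀ W : Submodule ℂ V, (∀ x : G, ∀ v ∈ W, ρ x v ∈ W) → W = ⊥ ∨ W = ⊤)
    (hdim : 1 < Module.finrank ℂ V) (g : G) (hg : g ≠ 1) :
    ∃ W : Submodule ℂ V, W ≠ ⊥ ∧ W ≠ ⊤ ∧ ∀ c ∈ Subgroup.centralizer ({g} : Set G), ∀ v ∈ W, ρ c v ∈ W := by
  classical
  have hV : Nontrivial V := by
    apply Module.nontrivial_of_finrank_pos (R := ℂ)
    omega
  obtain ⟨μ, hμ⟩ := Module.End.exists_eigenvalue (ρ g)
  refine ⟨Module.End.eigenspace (ρ g) μ, ?_, ?_, ?_⟩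
  · exact hμ
  · intro htop
    have hsc : ∀ v : V, ρ g v = μ • v := by
      intro v
      have : v ∈ Module.End.eigenspace (ρ g) μ := by rw [htop]; trivial
      exact Module.End.mem_eigenspace_iff.1 this
    -- the kernel of ρ is normal: trivial or everything
    have hker : (MonoidHom.ker ρ) = ⊥ ∨ (MonoidHom.ker ρ) = ⊤ := (MonoidHom.normal_ker ρ).eq_bot_or_eq_top
    rcases hker with hker | hker
    · -- g is central
      have hcen : g ∈ Subgroup.center G := by
        rw [Subgroup.mem_center_iff]
        intro x
        have hk : x * g * x⁻¹ * g⁻¹ ∈ MonoidHom.ker ρ := by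
          rw [MonoidHom.mem_ker]
          apply LinearMap.ext
          intro v
          have hμ0 : μ ≠ 0 := by
            rintro rfl
            have h1 : ρ g⁻¹ (ρ g v) = v := by
              rw [← Module.End.mul_apply, ← map_mul]; simp
            rw [hsc v] at h1
            have h2 : v = 0 := by simpa using h1.symm
            have h3 : ∀ w : V, w = 0 := by
              intro w
              have h1 : ρ g⁻¹ (ρ g w) = w := by
                rw [← Module.End.mul_apply, ← map_mul]; simp
              rw [hsc w] at h1
              simpa using h1.symm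
            obtain ⟨a, b, hab⟩ := hV
            exact hab ((h3 a).trans (h3 b).symm)
          have hinv : ρ g⁻¹ v = μ⁻¹ • v := by
            have h1 : ρ g (ρ g⁻¹ v) = v := by
              rw [← Module.End.mul_apply, ← map_mul]; simp
            rw [hsc] at h1
            rw [← h1, smul_smul, inv_mul_cancel₀ hμ0, one_smul, ← hsc, ← Module.End.mul_apply, ← map_mul]
            simp
          have h2 : ρ (x * g * x⁻¹ * g⁻¹) v = ρ x (ρ g (ρ x⁻¹ (ρ g⁻¹ v))) := by
            simp [map_mul, Module.End.mul_apply]
          rw [h2, hinv, map_smul, hsc, map_smul, map_smul, smul_smul, mul_inv_cancel₀ hμ0, one_smul,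
            ← Module.End.mul_apply, ← map_mul]
          simp
        rw [hker, Subgroup.mem_bot] at hk
        have : x * g * x⁻¹ = g := by
          have h3 := mul_inv_eq_one.1 hk
          exact h3
        calc x * g = x * g * x⁻¹ * x := by group
          _ = g * x := by rw [this]
      have hne : Subgroup.center G ≠ ⊥ := by
        intro h
        rw [h, Subgroup.mem_bot] at hcen
        exact hg hcen
      have htopc : Subgroup.center G = ⊤ := by
        rcases (inferInstance : (Subgroup.center G).Normal).eq_bot_or_eq_top with h | h
        · exact absurd h hne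
        · exact h
      apply hG
      refine ⟨⟨fun a b => ?_⟩⟩
      have : a ∈ Subgroup.center G := by rw [htopc]; trivial
      exact (Subgroup.mem_center_iff.1 this b).symm
    · -- ρ is trivial
      have htriv : ∀ x : G, ∀ v : V, ρ x v = v := by
        intro x v
        have : x ∈ MonoidHom.ker ρ := by rw [hker]; trivial
        rw [MonoidHom.mem_ker] at this
        rw [this]; rfl
      obtain ⟨v, hv⟩ : ∃ v : V, v ≠ 0 := exists_ne 0
      have := hirr (Submodule.span ℂ {v}) (fun x w hw => by rw [htriv]; exact hw)
      rcases this with h | h
      · rw [Submodule.span_singleton_eq_bot] at h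
        exact hv h
      · have h1 : Module.finrank ℂ (Submodule.span ℂ {v}) = 1 := finrank_span_singleton hv
        rw [h, finrank_top] at h1
        omega
  · intro c hc v hv
    rw [Module.End.mem_eigenspace_iff] at hv ⊢
    have hcg : c * g = g * c := by
      have := Subgroup.mem_centralizer_iff.1 hc g (by simp)
      exact this.symm
    have h1 : ρ g (ρ c v) = ρ c (ρ g v) := by
      rw [← Module.End.mul_apply, ← Module.End.mul_apply, ← map_mul, ← map_mul, hcg]
    rw [h1, hv, map_smul]

end Cfsg.Agent.S5011
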