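import Cfsg.Statements.S5125
import Mathlib
import Cfsg.Agent.Lib.FusNorm2

set_option autoImplicit false
open Cfsg

namespace Cfsg.Agent.S5125

open Cfsg.Agent.Lib.FusNorm2

/-- Let F be a saturated fusion system over a finite p-group S and Q a subgroup strongly closed in F. If Q has a subgroup Q₁ that is normal in F, with Q/Q₁ abelian and Aut_F(Q₁) a p-group, then Q is normal in F. -/
theorem result {Ω : Type*} [Group Ω] {S : Subgroup Ω} [Finite S] (p : ℕ) [Fact p.Prime] (hS : IsPGroup p S) (F : Cfsg.FusionSystem S) (hF : F.IsSaturated p) (Q Q₁ : Subgroup Ω) (hQ : F.StronglyClosed Q) (hQ₁Q : Q₁ ≤ Q) (hQ₁ : F.IsNormal Q₁) (hab : ⁅Q, Q⁆ ≤ Q₁) (hAut : IsPGroup p ↥(F.autGroup Q₁)) : F.IsNormal Q := by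
  exact normal_of_comm hS F hF hQ hQ₁Q hQ₁ hab hAut


end Cfsg.Agent.S5125
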