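import Cfsg.Statements.S5126
import Mathlib
import Cfsg.Agent.Lib.FusReal2

set_option autoImplicit false
open Cfsg

namespace Cfsg.Agent.S5126


open Cfsg.FusionSystem Cfsg.Agent.Lib.FusBasic Cfsg.Agent.Lib.FusSat Cfsg.Agent.Lib.FusReal Cfsg.Agent.Lib.FusReal2 Cfsg.Agent.Lib.FusNorm Cfsg.Agent.Lib.FusAut

set_option maxHeartbeats 4000000 in
/-- In a saturated fusion system over a finite p-group S, the normalizer system of a fully normalized, centric, radical subgroup R is constrained, and in every model of that normalizer system the largest normal p-subgroup is the image of R. -/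
theorem result {Ω : Type*} [Group Ω] {S : Subgroup Ω} [Finite S] (p : ℕ) [Fact p.Prime] (hS : IsPGroup p S) (F : Cfsg.FusionSystem S) (hF : F.IsSaturated p) (R : Subgroup Ω) (hRn : F.IsFullyNormalized R) (hRc : F.IsCentric R) (hRr : F.IsRadical p R) (E : Cfsg.FusionSystem (Cfsg.FusionSystem.normalizerIn S R)) (hE : F.IsNormalizerSystem R E) {G : Type*} [Group G] (ι : ↥(Cfsg.FusionSystem.normalizerIn S R) →* G) : E.IsConstrained p ∧ (E.IsModel p G ι → (Cfsg.pCore p G : Subgroup G) = (R.subgroupOf (Cfsg.FusionSystem.normalizerIn S R)).map ι) := by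
  classical
  have hRS : R ≤ S := hRc.1
  haveI : Finite R := finite_of_le hRS
  haveI hTfin : Finite ↥(normalizerIn S R) := finite_normalizerIn R
  have hRT : R ≤ normalizerIn S R := fun x hx => ⟨hRS hx, Subgroup.le_normalizer hx⟩
  have hsat : E.IsSaturated p := Cfsg.Agent.Lib.FusKNorm.saturated_normalizer hS hF hRn hE
  have hN : E.IsNormal R := normal_in_normalizer hRS hE
  have hcS : centralizerIn S R ≤ R := hRc.2 R (isConj_refl F hRS)
  have hcT : centralizerIn (normalizerIn S R) R ≤ R := by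
    intro x hx
    have h := mem_centralizerIn.1 hx
    exact hcS (mem_centralizerIn.2 ⟨(mem_normalizerIn.1 h.1).1, h.2⟩)
  have hCen : E.IsCentric R := by
    refine ⟨hRT, fun Q' hQ' => ?_⟩
    rw [Cfsg.Agent.Lib.FusSolv.normal_conj_eq hN hQ']
    exact hcT
  refine ⟨⟨hsat, R, hN, hCen⟩, fun hG => ?_⟩
  obtain ⟨hfin, hr, ⟨T, hT⟩, hC⟩ := hG
  have hpT : IsPGroup p ↥(normalizerIn S R) := hS.to_le inf_le_left
  -- `R` is radical in `E`
  have hAut : E.autGroup R = F.autGroup R := by
    ext α
    rw [mem_autGroup_iff E hRT, mem_autGroup_iff F hRS]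
    constructor
    · intro h
      rw [hE] at h
      exact h.1
    · intro h
      rw [hE]
      have hvN : ∀ x : R, (R.subtype.comp α.toMonoidHom) x ∈ normalizerIn S R := fun x => hRT (α x).2
      refine ⟨h, hRT, hvN, ?_⟩
      have key : ∀ (W : Subgroup Ω) (e : R = W), ∃ ψ ∈ F.Hom W, (∀ x : R, ψ ⟨x, e ▸ x.2⟩ = (R.subtype.comp α.toMonoidHom) x) ∧ (R.subgroupOf W).map ψ = R := by
        intro W e
        subst e
        refine ⟨_, h, fun x => rfl, ?_⟩
        ext y
        constructor
        · rintro ⟨x, -, rfl⟩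
          exact (α x).2
        · intro hy
          refine ⟨α.symm ⟨y, hy⟩, by simp [Subgroup.mem_subgroupOf], ?_⟩
          simp
      exact key (R ⊔ R) (by simp)
  have hRad : E.IsRadical p R := by
    refine ⟨hRT, ?_⟩
    rw [hAut]
    exact hRr.2
  have hle : coreOf p ι ≤ R := normal_le_of_radical hpT E (isNormal_coreOf hr T hT) hRad hcT
  have hge : R ≤ coreOf p ι := normal_le_coreOf hr T hT hC hpT hN
  apply le_antisymm
  · intro y hy
    obtain ⟨z, hz⟩ := pCore_le_range T hT hy
    have hzQ : (z : Ω) ∈ coreOf p ι := by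
      refine mem_coreOf.2 ⟨z.2, ?_⟩
      show ι z ∈ pCore p G
      rw [hz]
      exact hy
    exact ⟨z, hle hzQ, hz⟩
  · rintro _ ⟨z, hzR, rfl⟩
    exact (mem_coreOf.1 (hge hzR)).2

end Cfsg.Agent.S5126
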