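import Cfsg.Statements.S5131
import Mathlib
import Cfsg.Agent.Lib.FusBasic

set_option autoImplicit false
open Cfsg

namespace Cfsg.Agent.S5131

open Cfsg.Agent.Lib.FusBasic Cfsg.FusionSystem

/-- Let F be a fusion system over a finite p-group S and F' a fusion system over S'. If α : S → S' is a morphism of fusion systems from F to F' (every map of F induces along α a map of F'), then the kernel of α is strongly closed in S with respect to F. -/
theorem result {Ω : Type*} [Group Ω] {S : Subgroup Ω} [Finite S] (p : ℕ) [Fact p.Prime] (hS : IsPGroup p S) (F : Cfsg.FusionSystem S) {Ω' : Type*} [Group Ω'] {S' : Subgroup Ω'} (F' : Cfsg.FusionSystem S') (α : S →* Ω') (hα : F.IsMorphism F' α) : F.StronglyClosed ((α.ker).map S.subtype) := by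
  refine ⟨Subgroup.map_subtype_le _, fun R hR φ hφ x => ?_⟩
  obtain ⟨φ', -, hP, hv, hP', heq⟩ := hα.2 R φ hφ
  have hx : α ⟨x, hP x.2⟩ = 1 := by
    obtain ⟨y, hy, e⟩ := hR x.2
    have : y = ⟨x, hP x.2⟩ := Subtype.ext e
    rw [← this]
    exact hy
  have h1 := heq x
  have h2 : (⟨α ⟨x, hP x.2⟩, hP' x⟩ : imageAlong α R) = 1 := Subtype.ext hx
  rw [h2, map_one] at h1
  exact ⟨⟨φ x, hv x⟩, h1.symm, rfl⟩

end Cfsg.Agent.S5131
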