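import Cfsg.Statements.S5135
import Mathlib
import Cfsg.Agent.Lib.FusGroup

set_option autoImplicit false
open Cfsg

namespace Cfsg.Agent.S5135

open Cfsg.Agent.Lib.FusBasic Cfsg.Agent.Lib.FusGroup Cfsg.FusionSystem

/-- Let G be a finite group, S a Sylow p-subgroup and H a normal subgroup of G. Then the fusion system of G/H on the image SH/H of S is the factor system of the fusion system of G on S modulo S ∩ H, read through the quotient map restricted to S: for each subgroup P' of SH/H, the conjugation maps by elements of G/H defined on P' with values in SH/H are exactly the homomorphisms induced by the conjugation maps by elements of G defined on the full preimage of P' in S with values in S. -/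
theorem result {G : Type*} [Group G] [Finite G] (p : ℕ) [Fact p.Prime] (S : Sylow p G) (H : Subgroup G) [H.Normal] : (Cfsg.groupFusionSystem (S : Subgroup G)).IsFactorSystem ((S : Subgroup G) ⊓ H) ((QuotientGroup.mk' H).comp (S : Subgroup G).subtype) (Cfsg.groupFusionSystem ((S : Subgroup G).map (QuotientGroup.mk' H))) := by
  set θ := (QuotientGroup.mk' H).comp (S : Subgroup G).subtype with hθ
  refine ⟨inf_le_left, fun s => ?_, ?_, fun P' φ' => ⟨?_, ?_⟩⟩
  · show (QuotientGroup.mk (s : G) : G ⧸ H) = 1 ↔ _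
    rw [QuotientGroup.eq_one_iff]
    exact ⟨fun h => ⟨s.2, h⟩, fun h => h.2⟩
  · ext y
    constructor
    · rintro ⟨s, rfl⟩
      exact ⟨s, s.2, rfl⟩
    · rintro ⟨s, hs, rfl⟩
      exact ⟨⟨s, hs⟩, rfl⟩
  · rintro ⟨hP', hv, γ, hγ⟩
    refine ⟨hP', ?_⟩
    obtain ⟨g, rfl⟩ := QuotientGroup.mk_surjective γ
    set A := preimageAlong θ P' with hA
    have hAS : A ≤ (S : Subgroup G) := Subgroup.map_subtype_le _
    have hAp : IsPGroup p A := pgroup_of_le S hAS
    have hAP : ∀ x (hx : x ∈ A), (QuotientGroup.mk x : G ⧸ H) ∈ P' := by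
      rintro _ ⟨s, hs, rfl⟩
      exact hs
    obtain ⟨h, hh, hx⟩ := lift_conj S H hAp g (fun x hx => by
      have h1 := hv ⟨_, hAP x hx⟩
      rw [hγ] at h1
      obtain ⟨s, hs, e⟩ := h1
      have e' : (QuotientGroup.mk s : G ⧸ H) = QuotientGroup.mk (g * x * g⁻¹) := e
      have hm : s⁻¹ * (g * x * g⁻¹) ∈ H := QuotientGroup.eq.1 e'
      have e2 : g * x * g⁻¹ = s * (s⁻¹ * (g * x * g⁻¹)) := by group
      rw [e2]
      exact Subgroup.mul_mem_sup hs hm)
    refine ⟨conjHom A (h * g), ⟨hAS, fun x => hx x x.2, h * g, fun x => rfl⟩, hAS, fun x => hx x x.2, fun x => hAP x x.2, fun x => ?_⟩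
    have hh1 : QuotientGroup.mk' H h = 1 := (QuotientGroup.eq_one_iff h).2 hh
    refine (hγ _).trans ?_
    show (QuotientGroup.mk' H) g * (QuotientGroup.mk' H) (x : G) * ((QuotientGroup.mk' H) g)⁻¹ = (QuotientGroup.mk' H) (h * g * x * (h * g)⁻¹)
    simp only [map_mul, map_inv, hh1, one_mul, mul_inv_rev, inv_one, mul_one]
  · rintro ⟨hP', φ, ⟨hA, hv, g, hg⟩, hP, hφ, hP2, hind⟩
    have hsurj : ∀ y : P', ∃ x : preimageAlong θ P', (QuotientGroup.mk (x : G) : G ⧸ H) = y := by
      intro y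
      obtain ⟨s, hs, e⟩ := hP' y.2
      refine ⟨⟨s, ⟨s, hs⟩, ?_, rfl⟩, e⟩
      have : θ ⟨s, hs⟩ = y := e
      show θ ⟨s, hs⟩ ∈ P'
      rw [this]
      exact y.2
    refine ⟨hP', fun y => ?_, QuotientGroup.mk g, fun y => ?_⟩
    · obtain ⟨x, hx⟩ := hsurj y
      have e := hind x
      have e2 : (⟨θ ⟨x, hP x.2⟩, hP2 x⟩ : P') = y := Subtype.ext hx
      rw [e2] at e
      rw [e]
      exact ⟨φ x, hφ x, rfl⟩
    · obtain ⟨x, hx⟩ := hsurj y
      have e := hind x
      have e2 : (⟨θ ⟨x, hP x.2⟩, hP2 x⟩ : P') = y := Subtype.ext hx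
      rw [e2] at e
      rw [e]
      show (QuotientGroup.mk' H) (φ x) = _
      rw [hg, ← hx]
      show _ = (QuotientGroup.mk' H) g * (QuotientGroup.mk' H) (x : G) * ((QuotientGroup.mk' H) g)⁻¹
      simp only [map_mul, map_inv]

end Cfsg.Agent.S5135
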