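import Cfsg.Statements.S5137
import Mathlib
import Cfsg.Agent.Lib.FusSat
import Cfsg.Agent.Lib.FusAut
import Cfsg.Agent.Lib.FusBasic

set_option autoImplicit false
open Cfsg

namespace Cfsg.Agent.S5137


open Cfsg.FusionSystem Cfsg.Agent.Lib.FusBasic Cfsg.Agent.Lib.FusAut Cfsg.Agent.Lib.FusSat

section
variable {Ω₁ Ω₂ : Type*} [Group Ω₁] [Group Ω₂] {S₁ : Subgroup Ω₁} {S₂ : Subgroup Ω₂}
  {F₁ : Cfsg.FusionSystem S₁} {F₂ : Cfsg.FusionSystem S₂} {E : Cfsg.FusionSystem (S₁.prod S₂)}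

abbrev fs (P : Subgroup (Ω₁ × Ω₂)) : Subgroup Ω₁ := P.map (MonoidHom.fst Ω₁ Ω₂)
abbrev sn (P : Subgroup (Ω₁ × Ω₂)) : Subgroup Ω₂ := P.map (MonoidHom.snd Ω₁ Ω₂)

theorem mem_fs {P : Subgroup (Ω₁ × Ω₂)} (x : P) : (x : Ω₁ × Ω₂).1 ∈ fs P := ⟨x, x.2, rfl⟩
theorem mem_sn {P : Subgroup (Ω₁ × Ω₂)} (x : P) : (x : Ω₁ × Ω₂).2 ∈ sn P := ⟨x, x.2, rfl⟩

/-- the product of two maps on a subgroup -/
def pm {A : Subgroup Ω₁} {B : Subgroup Ω₂} {P : Subgroup (Ω₁ × Ω₂)} (φ₁ : A →* Ω₁) (φ₂ : B →* Ω₂) (hA : fs P ≤ A) (hB : sn P ≤ B) : P →* Ω₁ × Ω₂ :=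
  (φ₁.comp (((MonoidHom.fst Ω₁ Ω₂).comp P.subtype).codRestrict A (fun x => hA (mem_fs x)))).prod
    (φ₂.comp (((MonoidHom.snd Ω₁ Ω₂).comp P.subtype).codRestrict B (fun x => hB (mem_sn x))))

theorem pm_apply {A : Subgroup Ω₁} {B : Subgroup Ω₂} {P : Subgroup (Ω₁ × Ω₂)} (φ₁ : A →* Ω₁) (φ₂ : B →* Ω₂) (hA : fs P ≤ A) (hB : sn P ≤ B) (x : P) :
    pm φ₁ φ₂ hA hB x = (φ₁ ⟨(x : Ω₁ × Ω₂).1, hA (mem_fs x)⟩, φ₂ ⟨(x : Ω₁ × Ω₂).2, hB (mem_sn x)⟩) := rfl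

theorem pm_mem (hE : IsProductSystem F₁ F₂ E) {A : Subgroup Ω₁} {B : Subgroup Ω₂} {P : Subgroup (Ω₁ × Ω₂)} {φ₁ : A →* Ω₁} {φ₂ : B →* Ω₂}
    (h₁ : φ₁ ∈ F₁.Hom A) (h₂ : φ₂ ∈ F₂.Hom B) (hP : P ≤ S₁.prod S₂) (hA : fs P ≤ A) (hB : sn P ≤ B) : pm φ₁ φ₂ hA hB ∈ E.Hom P := by
  rw [hE]
  exact ⟨hP, φ₁.comp (Subgroup.inclusion hA), res_mem F₁ hA h₁, φ₂.comp (Subgroup.inclusion hB), res_mem F₂ hB h₂, fun x _ _ => rfl⟩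

theorem split (hE : IsProductSystem F₁ F₂ E) {P : Subgroup (Ω₁ × Ω₂)} {φ : P →* Ω₁ × Ω₂} (hφ : φ ∈ E.Hom P) :
    ∃ φ₁ ∈ F₁.Hom (fs P), ∃ φ₂ ∈ F₂.Hom (sn P), ∀ x : P, φ x = (φ₁ ⟨(x : Ω₁ × Ω₂).1, mem_fs x⟩, φ₂ ⟨(x : Ω₁ × Ω₂).2, mem_sn x⟩) := by
  obtain ⟨-, φ₁, h₁, φ₂, h₂, e⟩ := (hE P φ).1 hφ
  exact ⟨φ₁, h₁, φ₂, h₂, fun x => e x _ _⟩

theorem fs_range {P : Subgroup (Ω₁ × Ω₂)} {φ : P →* Ω₁ × Ω₂} {φ₁ : fs P →* Ω₁}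
    (e : ∀ x : P, (φ x).1 = φ₁ ⟨(x : Ω₁ × Ω₂).1, mem_fs x⟩) : fs φ.range = φ₁.range := by
  ext y
  constructor
  · rintro ⟨_, ⟨x, rfl⟩, rfl⟩
    exact ⟨_, (e x).symm⟩
  · rintro ⟨⟨_, x, hx, rfl⟩, rfl⟩
    exact ⟨φ ⟨x, hx⟩, ⟨_, rfl⟩, e ⟨x, hx⟩⟩

theorem sn_range {P : Subgroup (Ω₁ × Ω₂)} {φ : P →* Ω₁ × Ω₂} {φ₂ : sn P →* Ω₂}
    (e : ∀ x : P, (φ x).2 = φ₂ ⟨(x : Ω₁ × Ω₂).2, mem_sn x⟩) : sn φ.range = φ₂.range := by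
  ext y
  constructor
  · rintro ⟨_, ⟨x, rfl⟩, rfl⟩
    exact ⟨_, (e x).symm⟩
  · rintro ⟨⟨_, x, hx, rfl⟩, rfl⟩
    exact ⟨φ ⟨x, hx⟩, ⟨_, rfl⟩, e ⟨x, hx⟩⟩

/-- a projection of the extender lies in the extender of the component -/
theorem fs_extender {P : Subgroup (Ω₁ × Ω₂)} {φ : P →* Ω₁ × Ω₂} {φ₁ : fs P →* Ω₁}
    (e : ∀ x : P, (φ x).1 = φ₁ ⟨(x : Ω₁ × Ω₂).1, mem_fs x⟩) : fs (extender (S₁.prod S₂) P φ) ≤ extender S₁ (fs P) φ₁ := by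
  rintro _ ⟨g, hg, rfl⟩
  obtain ⟨h1, h2, h, hh, eh⟩ := mem_extender.1 hg
  have hn := Subgroup.mem_normalizer_iff.1 h2
  refine mem_extender.2 ⟨h1.1, Subgroup.mem_normalizer_iff.2 fun y => ?_, h.1, hh.1, ?_⟩
  · constructor
    · rintro ⟨x, hx, rfl⟩
      exact ⟨g * x * g⁻¹, (hn x).1 hx, rfl⟩
    · rintro ⟨z, hz, ez⟩
      refine ⟨g⁻¹ * z * g, ?_, ?_⟩
      · have e3 : z = g * (g⁻¹ * z * g) * g⁻¹ := by group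
        rw [e3] at hz
        exact (hn _).2 hz
      · have e4 : (MonoidHom.fst Ω₁ Ω₂) z = g.1 * y * g.1⁻¹ := ez
        show (g⁻¹ * z * g).1 = y
        have e5 : z.1 = g.1 * y * g.1⁻¹ := e4
        simp only [Prod.fst_mul, Prod.fst_inv, e5]
        group
  · rintro ⟨_, x, hx, rfl⟩ hx2
    have h3 : g * x * g⁻¹ ∈ P := (hn x).1 hx
    have h4 := eh ⟨x, hx⟩ h3
    have h5 := congrArg Prod.fst h4
    rw [e] at h5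
    refine h5.trans ?_
    simp only [Prod.fst_mul, Prod.fst_inv]
    rw [e]
    rfl

theorem sn_extender {P : Subgroup (Ω₁ × Ω₂)} {φ : P →* Ω₁ × Ω₂} {φ₂ : sn P →* Ω₂}
    (e : ∀ x : P, (φ x).2 = φ₂ ⟨(x : Ω₁ × Ω₂).2, mem_sn x⟩) : sn (extender (S₁.prod S₂) P φ) ≤ extender S₂ (sn P) φ₂ := by
  rintro _ ⟨g, hg, rfl⟩
  obtain ⟨h1, h2, h, hh, eh⟩ := mem_extender.1 hg
  have hn := Subgroup.mem_normalizer_iff.1 h2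
  refine mem_extender.2 ⟨h1.2, Subgroup.mem_normalizer_iff.2 fun y => ?_, h.2, hh.2, ?_⟩
  · constructor
    · rintro ⟨x, hx, rfl⟩
      exact ⟨g * x * g⁻¹, (hn x).1 hx, rfl⟩
    · rintro ⟨z, hz, ez⟩
      refine ⟨g⁻¹ * z * g, ?_, ?_⟩
      · have e3 : z = g * (g⁻¹ * z * g) * g⁻¹ := by group
        rw [e3] at hz
        exact (hn _).2 hz
      · have e4 : (MonoidHom.snd Ω₁ Ω₂) z = g.2 * y * g.2⁻¹ := ez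
        show (g⁻¹ * z * g).2 = y
        have e5 : z.2 = g.2 * y * g.2⁻¹ := e4
        simp only [Prod.snd_mul, Prod.snd_inv, e5]
        group
  · rintro ⟨_, x, hx, rfl⟩ hx2
    have h3 : g * x * g⁻¹ ∈ P := (hn x).1 hx
    have h4 := eh ⟨x, hx⟩ h3
    have h5 := congrArg Prod.snd h4
    rw [e] at h5
    refine h5.trans ?_
    simp only [Prod.snd_mul, Prod.snd_inv]
    rw [e]
    rfl

theorem receptive (hE : IsProductSystem F₁ F₂ E) {Q : Subgroup (Ω₁ × Ω₂)} (hQ : Q ≤ S₁.prod S₂) (h₁ : F₁.IsReceptive (fs Q)) (h₂ : F₂.IsReceptive (sn Q)) :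
    E.IsReceptive Q := by
  refine ⟨hQ, fun P φ hφ hr => ?_⟩
  obtain ⟨φ₁, hφ₁, φ₂, hφ₂, e⟩ := split hE hφ
  have e1 : ∀ x : P, (φ x).1 = φ₁ ⟨(x : Ω₁ × Ω₂).1, mem_fs x⟩ := fun x => by rw [e x]
  have e2 : ∀ x : P, (φ x).2 = φ₂ ⟨(x : Ω₁ × Ω₂).2, mem_sn x⟩ := fun x => by rw [e x]
  have r1 : φ₁.range = fs Q := by
    rw [← hr]
    exact (fs_range e1).symm
  have r2 : φ₂.range = sn Q := by
    rw [← hr]
    exact (sn_range e2).symm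
  obtain ⟨ψ₁, hψ₁, e₁⟩ := h₁.2 _ φ₁ hφ₁ r1
  obtain ⟨ψ₂, hψ₂, e₂⟩ := h₂.2 _ φ₂ hφ₂ r2
  have hle : extender (S₁.prod S₂) P φ ≤ S₁.prod S₂ := by
    apply (Subgroup.closure_le _).2
    rintro g ⟨h1, -⟩
    exact h1
  refine ⟨pm ψ₁ ψ₂ (fs_extender e1) (sn_extender e2), pm_mem hE hψ₁ hψ₂ hle _ _, fun x hP hN => ?_⟩
  rw [pm_apply, e ⟨x, hP⟩]
  exact Prod.ext (e₁ x.1 (mem_fs ⟨x, hP⟩) _) (e₂ x.2 (mem_sn ⟨x, hP⟩) _)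

theorem fa_of_transport {Ω : Type*} [Group Ω] {S : Subgroup Ω} [Finite S] {p : ℕ} [Fact p.Prime] (hS : IsPGroup p S) (F : Cfsg.FusionSystem S) {Q Q' : Subgroup Ω} {φ : Q →* Ω}
    (hφ : φ ∈ F.Hom Q) (hr : φ.range = Q') (D : Sylow p (F.autGroup Q))
    (h : ∀ α ∈ D, MulAut.congr (isoOf φ (inj F hφ) hr) (α : MulAut Q) ∈ autInducedBy S Q') : F.IsFullyAutomized p Q' := by
  have hQS : Q ≤ S := src_le F hφ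
  have hQ'S : Q' ≤ S := isConj_le F ⟨φ, hφ, hr⟩
  haveI : Finite Q := finite_of_le hQS
  haveI : Finite Q' := finite_of_le hQ'S
  refine ⟨hQ'S, ?_⟩
  let f : F.autGroup Q →* F.autGroup Q' :=
    ((MulAut.congr (isoOf φ (inj F hφ) hr)).toMonoidHom.comp (F.autGroup Q).subtype).codRestrict (F.autGroup Q') (fun a => congr_mem_autGroup F hφ hr a.2)
  have hf : Function.Surjective f := by
    intro γ
    obtain ⟨ψ, hψ, hψr, hψx⟩ := exists_inv F hφ hr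
    have h1 := congr_mem_autGroup F hψ hψr γ.2
    refine ⟨⟨_, h1⟩, Subtype.ext ?_⟩
    ext y
    show ((MulAut.congr (isoOf φ (inj F hφ) hr) (MulAut.congr (isoOf ψ (inj F hψ) hψr) (γ : MulAut Q')) y : Q') : Ω) = _
    have e1 : ∀ y : Q', (isoOf ψ (inj F hψ) hψr y) = (isoOf φ (inj F hφ) hr).symm y := by
      intro y
      rw [MulEquiv.eq_symm_apply]
      have e2 : (y : Ω) ∈ φ.range := by rw [hr]; exact y.2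
      obtain ⟨x, hx⟩ := e2
      have hmem : φ x ∈ Q' := by rw [hx]; exact y.2
      have e3 := hψx x hmem
      apply Subtype.ext
      have e4 : y = ⟨φ x, hmem⟩ := Subtype.ext hx.symm
      have e6 : isoOf ψ (inj F hψ) hψr y = x := Subtype.ext (by
        show ψ y = x
        rw [e4]
        exact e3)
      rw [isoOf_apply, e6]
      exact hx
    show ((isoOf φ (inj F hφ) hr ((isoOf ψ (inj F hψ) hψr ((γ : MulAut Q') ((isoOf ψ (inj F hψ) hψr).symm ((isoOf φ (inj F hφ) hr).symm y))))) : Q') : Ω) = _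
    rw [e1]
    simp only [MulEquiv.apply_symm_apply]
    have e5 : (isoOf ψ (inj F hψ) hψr).symm ((isoOf φ (inj F hφ) hr).symm y) = y := by
      rw [MulEquiv.symm_apply_eq, e1]
    rw [e5]
  have hT : IsPGroup p ((autInducedBy S Q').subgroupOf (F.autGroup Q')) :=
    (isPGroup_autInduced hS Q').comap_of_injective (F.autGroup Q').subtype (Subgroup.subtype_injective _)
  have hle : ((D.mapSurjective hf : Sylow p (F.autGroup Q')) : Subgroup (F.autGroup Q')) ≤ (autInducedBy S Q').subgroupOf (F.autGroup Q') := by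
    rintro _ ⟨α, hα, rfl⟩
    exact Subgroup.mem_subgroupOf.2 (h α hα)
  exact ⟨D.mapSurjective hf, ((D.mapSurjective hf).is_maximal' hT hle).symm⟩

theorem fin_prod [Finite S₁] [Finite S₂] : Finite ↥(S₁.prod S₂) := Finite.of_equiv _ (Subgroup.prodEquiv S₁ S₂).symm.toEquiv

theorem pgroup_prod {p : ℕ} (h₁ : IsPGroup p S₁) (h₂ : IsPGroup p S₂) : IsPGroup p ↥(S₁.prod S₂) := by
  intro x
  obtain ⟨a, ha⟩ := h₁ ⟨x.1.1, x.2.1⟩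
  obtain ⟨b, hb⟩ := h₂ ⟨x.1.2, x.2.2⟩
  have ha' : x.1.1 ^ p ^ a = 1 := congrArg Subtype.val ha
  have hb' : x.1.2 ^ p ^ b = 1 := congrArg Subtype.val hb
  refine ⟨a + b, Subtype.ext (Prod.ext ?_ ?_)⟩
  · show x.1.1 ^ p ^ (a + b) = 1
    rw [pow_add, pow_mul, ha', one_pow]
  · show x.1.2 ^ p ^ (a + b) = 1
    rw [pow_add, mul_comm, pow_mul, hb', one_pow]

theorem range_mulAut {Ω : Type*} [Group Ω] {X : Subgroup Ω} (α : MulAut X) : (X.subtype.comp α.toMonoidHom).range = X := by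
  ext y
  constructor
  · rintro ⟨x, rfl⟩
    exact Subtype.coe_prop _
  · intro hy
    refine ⟨α⁻¹ ⟨y, hy⟩, ?_⟩
    simp

theorem exists_proj (hE : IsProductSystem F₁ F₂ E) {Q : Subgroup (Ω₁ × Ω₂)} (hQ : Q ≤ S₁.prod S₂) {α : MulAut Q} (hα : α ∈ E.autGroup Q) :
    ∃ β₁ ∈ F₁.autGroup (fs Q), ∃ β₂ ∈ F₂.autGroup (sn Q), ∀ x : Q,
      ((α x : Q) : Ω₁ × Ω₂) = (((β₁ ⟨(x : Ω₁ × Ω₂).1, mem_fs x⟩ : fs Q) : Ω₁), ((β₂ ⟨(x : Ω₁ × Ω₂).2, mem_sn x⟩ : sn Q) : Ω₂)) := by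
  have hα' := (mem_autGroup_iff E hQ).1 hα
  obtain ⟨φ₁, h₁, φ₂, h₂, e⟩ := split hE hα'
  have e1 : ∀ x : Q, ((Q.subtype.comp α.toMonoidHom) x).1 = φ₁ ⟨(x : Ω₁ × Ω₂).1, mem_fs x⟩ := fun x => by rw [e x]
  have e2 : ∀ x : Q, ((Q.subtype.comp α.toMonoidHom) x).2 = φ₂ ⟨(x : Ω₁ × Ω₂).2, mem_sn x⟩ := fun x => by rw [e x]
  have r1 : φ₁.range = fs Q := by
    rw [← fs_range e1, range_mulAut]
  have r2 : φ₂.range = sn Q := by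
    rw [← sn_range e2, range_mulAut]
  refine ⟨isoOf φ₁ (inj F₁ h₁) r1, mem_autGroup_of F₁ (hom_congr F₁ h₁ fun x => rfl), isoOf φ₂ (inj F₂ h₂) r2, mem_autGroup_of F₂ (hom_congr F₂ h₂ fun x => rfl), fun x => ?_⟩
  exact e x

theorem fa_step [Finite S₁] [Finite S₂] {p : ℕ} [Fact p.Prime] (h₁ : IsPGroup p S₁) (h₂ : IsPGroup p S₂) (hE : IsProductSystem F₁ F₂ E) {Q : Subgroup (Ω₁ × Ω₂)} (hQ : Q ≤ S₁.prod S₂)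
    (hA₁ : F₁.IsFullyAutomized p (fs Q)) (hA₂ : F₂.IsFullyAutomized p (sn Q)) :
    ∃ Q', E.IsConj Q Q' ∧ fs Q' = fs Q ∧ sn Q' = sn Q ∧ E.IsFullyAutomized p Q' := by
  haveI : Finite ↥(S₁.prod S₂) := fin_prod
  haveI : Finite Q := finite_of_le hQ
  haveI : Finite (fs Q) := finite_of_le hA₁.1
  haveI : Finite (sn Q) := finite_of_le hA₂.1
  choose b₁ hb₁ b₂ hb₂ eb using (fun (α : E.autGroup Q) => exists_proj hE hQ α.2)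
  have u₁ : ∀ γ δ : MulAut (fs Q), (∀ x : Q, ((γ ⟨(x : Ω₁ × Ω₂).1, mem_fs x⟩ : fs Q) : Ω₁) = ((δ ⟨(x : Ω₁ × Ω₂).1, mem_fs x⟩ : fs Q) : Ω₁)) → γ = δ := by
    intro γ δ h
    ext ⟨_, x, hx, rfl⟩
    exact h ⟨x, hx⟩
  have u₂ : ∀ γ δ : MulAut (sn Q), (∀ x : Q, ((γ ⟨(x : Ω₁ × Ω₂).2, mem_sn x⟩ : sn Q) : Ω₂) = ((δ ⟨(x : Ω₁ × Ω₂).2, mem_sn x⟩ : sn Q) : Ω₂)) → γ = δ := by
    intro γ δ h
    ext ⟨_, x, hx, rfl⟩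
    exact h ⟨x, hx⟩
  have e₁ : ∀ (α : E.autGroup Q) (x : Q), ((b₁ α ⟨(x : Ω₁ × Ω₂).1, mem_fs x⟩ : fs Q) : Ω₁) = (((α : MulAut Q) x : Q) : Ω₁ × Ω₂).1 := by
    intro α x
    rw [eb]
  have e₂ : ∀ (α : E.autGroup Q) (x : Q), ((b₂ α ⟨(x : Ω₁ × Ω₂).2, mem_sn x⟩ : sn Q) : Ω₂) = (((α : MulAut Q) x : Q) : Ω₁ × Ω₂).2 := by
    intro α x
    rw [eb]
  let π₁ : E.autGroup Q →* MulAut (fs Q) := MonoidHom.mk' b₁ (fun a c => u₁ _ _ (fun x => by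
    rw [e₁]
    have h3 : b₁ c ⟨(x : Ω₁ × Ω₂).1, mem_fs x⟩ = ⟨(((c : MulAut Q) x : Q) : Ω₁ × Ω₂).1, mem_fs _⟩ := Subtype.ext (e₁ c x)
    show _ = ((b₁ a (b₁ c ⟨(x : Ω₁ × Ω₂).1, mem_fs x⟩) : fs Q) : Ω₁)
    rw [h3, e₁]
    rfl))
  let π₂ : E.autGroup Q →* MulAut (sn Q) := MonoidHom.mk' b₂ (fun a c => u₂ _ _ (fun x => by
    rw [e₂]
    have h3 : b₂ c ⟨(x : Ω₁ × Ω₂).2, mem_sn x⟩ = ⟨(((c : MulAut Q) x : Q) : Ω₁ × Ω₂).2, mem_sn _⟩ := Subtype.ext (e₂ c x)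
    show _ = ((b₂ a (b₂ c ⟨(x : Ω₁ × Ω₂).2, mem_sn x⟩) : sn Q) : Ω₂)
    rw [h3, e₂]
    rfl))
  obtain ⟨D, -⟩ := (IsPGroup.of_bot : IsPGroup p (⊥ : Subgroup (E.autGroup Q))).exists_le_sylow
  have hB₁ : (D : Subgroup (E.autGroup Q)).map π₁ ≤ F₁.autGroup (fs Q) := by
    rintro _ ⟨α, -, rfl⟩
    exact hb₁ α
  have hB₂ : (D : Subgroup (E.autGroup Q)).map π₂ ≤ F₂.autGroup (sn Q) := by
    rintro _ ⟨α, -, rfl⟩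
    exact hb₂ α
  obtain ⟨a₁, ha₁, ec₁⟩ := exists_conj_aut h₁ F₁ hA₁ hB₁ (D.isPGroup'.map π₁)
  obtain ⟨a₂, ha₂, ec₂⟩ := exists_conj_aut h₂ F₂ hA₂ hB₂ (D.isPGroup'.map π₂)
  have ha : pm ((fs Q).subtype.comp a₁.toMonoidHom) ((sn Q).subtype.comp a₂.toMonoidHom) (le_refl (fs Q)) (le_refl (sn Q)) ∈ E.Hom Q :=
    pm_mem hE ((mem_autGroup_iff F₁ hA₁.1).1 ha₁) ((mem_autGroup_iff F₂ hA₂.1).1 ha₂) hQ _ _
  set a : Q →* Ω₁ × Ω₂ := pm ((fs Q).subtype.comp a₁.toMonoidHom) ((sn Q).subtype.comp a₂.toMonoidHom) (le_refl (fs Q)) (le_refl (sn Q)) with hadef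
  refine ⟨a.range, ⟨a, ha, rfl⟩, ?_, ?_, fa_of_transport (pgroup_prod h₁ h₂) E ha rfl D ?_⟩
  · rw [fs_range (φ₁ := (fs Q).subtype.comp a₁.toMonoidHom) (fun x => rfl)]
    exact range_mulAut a₁
  · rw [sn_range (φ₂ := (sn Q).subtype.comp a₂.toMonoidHom) (fun x => rfl)]
    exact range_mulAut a₂
  · intro α hα
    obtain ⟨g₁, hg₁, eg₁⟩ := mem_autInducedBy'.1 (ec₁ (π₁ α) ⟨α, hα, rfl⟩)
    obtain ⟨g₂, hg₂, eg₂⟩ := mem_autInducedBy'.1 (ec₂ (π₂ α) ⟨α, hα, rfl⟩)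
    rw [mem_autInducedBy']
    refine ⟨(g₁, g₂), ⟨hg₁, hg₂⟩, fun u => ?_⟩
    obtain ⟨x, hx⟩ := u.2
    have hu : u = isoOf a (inj E ha) rfl x := Subtype.ext hx.symm
    rw [hu]
    have h5 : MulAut.congr (isoOf a (inj E ha) rfl) (α : MulAut Q) (isoOf a (inj E ha) rfl x) = isoOf a (inj E ha) rfl ((α : MulAut Q) x) := by
      show isoOf a (inj E ha) rfl ((α : MulAut Q) ((isoOf a (inj E ha) rfl).symm (isoOf a (inj E ha) rfl x))) = _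
      rw [MulEquiv.symm_apply_apply]
    rw [h5, isoOf_apply, isoOf_apply]
    apply Prod.ext
    · have h6 := eg₁ (a₁ ⟨(x : Ω₁ × Ω₂).1, mem_fs x⟩)
      have h7 : (a₁ * π₁ α * a₁⁻¹) (a₁ ⟨(x : Ω₁ × Ω₂).1, mem_fs x⟩) = a₁ ⟨(((α : MulAut Q) x : Q) : Ω₁ × Ω₂).1, mem_fs _⟩ := by
        show a₁ (b₁ α (a₁⁻¹ (a₁ ⟨(x : Ω₁ × Ω₂).1, mem_fs x⟩))) = _
        have h8 : a₁⁻¹ (a₁ ⟨(x : Ω₁ × Ω₂).1, mem_fs x⟩) = ⟨(x : Ω₁ × Ω₂).1, mem_fs x⟩ := by simp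
        rw [h8]
        exact congrArg a₁ (Subtype.ext (e₁ α x))
      rw [h7] at h6
      exact h6
    · have h6 := eg₂ (a₂ ⟨(x : Ω₁ × Ω₂).2, mem_sn x⟩)
      have h7 : (a₂ * π₂ α * a₂⁻¹) (a₂ ⟨(x : Ω₁ × Ω₂).2, mem_sn x⟩) = a₂ ⟨(((α : MulAut Q) x : Q) : Ω₁ × Ω₂).2, mem_sn _⟩ := by
        show a₂ (b₂ α (a₂⁻¹ (a₂ ⟨(x : Ω₁ × Ω₂).2, mem_sn x⟩))) = _
        have h8 : a₂⁻¹ (a₂ ⟨(x : Ω₁ × Ω₂).2, mem_sn x⟩) = ⟨(x : Ω₁ × Ω₂).2, mem_sn x⟩ := by simp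
        rw [h8]
        exact congrArg a₂ (Subtype.ext (e₂ α x))
      rw [h7] at h6
      exact h6

end

/-- Let F₁ and F₂ be saturated fusion systems over finite p-groups S₁ and S₂. Then their direct product (the fusion system over S₁ × S₂ whose maps are the restrictions of the product maps (φ₁, φ₂)) is saturated. -/
theorem result {Ω₁ Ω₂ : Type*} [Group Ω₁] [Group Ω₂] {S₁ : Subgroup Ω₁} {S₂ : Subgroup Ω₂} [Finite S₁] [Finite S₂] (p : ℕ) [Fact p.Prime] (h₁ : IsPGroup p S₁) (h₂ : IsPGroup p S₂) (F₁ : Cfsg.FusionSystem S₁) (F₂ : Cfsg.FusionSystem S₂) (hF₁ : F₁.IsSaturated p) (hF₂ : F₂.IsSaturated p) (E : Cfsg.FusionSystem (S₁.prod S₂)) (hE : Cfsg.FusionSystem.IsProductSystem F₁ F₂ E) : E.IsSaturated p := by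
  intro P hP
  have hA : fs P ≤ S₁ := by
    rintro _ ⟨x, hx, rfl⟩
    exact (hP hx).1
  have hB : sn P ≤ S₂ := by
    rintro _ ⟨x, hx, rfl⟩
    exact (hP hx).2
  obtain ⟨Q₁, ⟨θ₁, hθ₁, r₁⟩, hQ₁⟩ := exists_fullyNormalized_conj F₁ hA
  obtain ⟨Q₂, ⟨θ₂, hθ₂, r₂⟩, hQ₂⟩ := exists_fullyNormalized_conj F₂ hB
  have hθ : pm θ₁ θ₂ (le_refl (fs P)) (le_refl (sn P)) ∈ E.Hom P := pm_mem hE hθ₁ hθ₂ hP _ _
  have e1 : fs (pm θ₁ θ₂ (le_refl (fs P)) (le_refl (sn P))).range = Q₁ := by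
    rw [fs_range (φ₁ := θ₁) (fun x => rfl), r₁]
  have e2 : sn (pm θ₁ θ₂ (le_refl (fs P)) (le_refl (sn P))).range = Q₂ := by
    rw [sn_range (φ₂ := θ₂) (fun x => rfl), r₂]
  have hQle : (pm θ₁ θ₂ (le_refl (fs P)) (le_refl (sn P))).range ≤ S₁.prod S₂ := by
    rintro _ ⟨x, rfl⟩
    exact val_mem E hθ x
  obtain ⟨Q', hc, e3, e4, hFA⟩ := fa_step h₁ h₂ hE hQle
    (by rw [e1]; exact fullyAutomized_of_fullyNormalized h₁ F₁ hF₁ hQ₁)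
    (by rw [e2]; exact fullyAutomized_of_fullyNormalized h₂ F₂ hF₂ hQ₂)
  refine ⟨Q', isConj_trans E ⟨_, hθ, rfl⟩ hc, hFA, ?_⟩
  apply receptive hE hFA.1
  · rw [e3, e1]
    exact receptive_of_fullyNormalized h₁ F₁ hF₁ hQ₁
  · rw [e4, e2]
    exact receptive_of_fullyNormalized h₂ F₂ hF₂ hQ₂


end Cfsg.Agent.S5137
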