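import Cfsg.Statements.S5153
import Mathlib
import Cfsg.Agent.Lib.FusNorm2

set_option autoImplicit false
open Cfsg

namespace Cfsg.Agent.S5153

open Cfsg.FusionSystem Cfsg.Agent.Lib.FusBasic Cfsg.Agent.Lib.FusAut Cfsg.Agent.Lib.FusSat Cfsg.Agent.Lib.FusNorm Cfsg.Agent.Lib.FusNorm2

theorem sub_le {Ω : Type*} [Group Ω] {T S : Subgroup Ω} {E : Cfsg.FusionSystem T} {F : Cfsg.FusionSystem S} {p : ℕ} (h : E.IsSubnormalIn F p) : T ≤ S := by
  induction h with
  | refl => exact le_rfl
  | step h1 h2 ih => exact ih.trans h2.1.2.2.2.1.1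

theorem fn_step {Ω : Type*} [Group Ω] {S : Subgroup Ω} [Finite S] {p : ℕ} [Fact p.Prime] (hS : IsPGroup p S) {F : Cfsg.FusionSystem S} (hF : F.IsSaturated p)
    {U : Subgroup Ω} {D : Cfsg.FusionSystem U} (hD : D.IsNormalIn F p) {P : Subgroup Ω} (hPU : P ≤ U) (hP : F.IsFullyNormalized P) : D.IsFullyNormalized P := by
  have hinv := hD.1.2.2
  have hsc := hinv.2.1
  have hUS : U ≤ S := hsc.1
  refine ⟨hPU, fun P' hP' => ?_⟩
  obtain ⟨φ, hφ, hr⟩ := hP'
  have hφF := hinv.1 P hφ
  have hconj : F.IsConj P' P := isConj_symm F ⟨φ, hφF, hr⟩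
  obtain ⟨θ, hθ, hθv, -⟩ := exists_map_normalizer hS F (fullyAutomized_of_fullyNormalized hS F hF hP) (receptive_of_fullyNormalized hS F hF hP) hconj
  haveI : Finite U := finite_of_le hUS
  haveI : Finite (normalizerIn U P) := finite_of_le (S := U) inf_le_left
  have hres := res_mem F (P := U ⊓ normalizerIn S P') (Q := normalizerIn S P') inf_le_right hθ
  let f : normalizerIn U P' → normalizerIn U P := fun x =>
    ⟨θ ⟨x, hUS x.2.1, x.2.2⟩, hsc.2 _ inf_le_left _ hres ⟨x, x.2.1, hUS x.2.1, x.2.2⟩, (hθv _).2⟩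
  have hf : Function.Injective f := by
    intro a b e
    have e1 := congrArg Subtype.val e
    have e2 := inj F hθ e1
    have e3 : (a : Ω) = b := congrArg (fun z : ↥(normalizerIn S P') => (z : Ω)) e2
    exact Subtype.ext e3
  exact Nat.card_le_card_of_injective f hf

theorem aux {Ω : Type*} [Group Ω] {T S : Subgroup Ω} {E : Cfsg.FusionSystem T} {F : Cfsg.FusionSystem S} {p : ℕ} (h : E.IsSubnormalIn F p) :
    ∀ [Finite S] [Fact p.Prime], IsPGroup p S → F.IsSaturated p → ∀ P : Subgroup Ω, P ≤ T → F.IsFullyNormalized P → E.IsFullyNormalized P := by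
  induction h with
  | refl => intro _ _ _ _ P _ hP; exact hP
  | step h1 h2 ih =>
    intro _ _ hS hF P hPT hP
    have hUS := h2.1.2.2.2.1.1
    haveI := finite_of_le hUS
    exact ih (hS.to_le hUS) h2.1.1 P hPT (fn_step hS hF h2 (hPT.trans (sub_le h1)) hP)

/-- Let F be a saturated fusion system over a finite p-group S and E a subnormal subsystem of F over T. Then every subgroup of T that is fully normalized in F is fully normalized in E. -/
theorem result {Ω : Type*} [Group Ω] {S : Subgroup Ω} [Finite S] (p : ℕ) [Fact p.Prime] (hS : IsPGroup p S) (F : Cfsg.FusionSystem S) (hF : F.IsSaturated p) {T : Subgroup Ω} (E : Cfsg.FusionSystem T) (hE : E.IsSubnormalIn F p) (P : Subgroup Ω) (hPT : P ≤ T) (hP : F.IsFullyNormalized P) : E.IsFullyNormalized P := by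
  exact aux hE hS hF P hPT hP


end Cfsg.Agent.S5153
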