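import Cfsg.Statements.S5198
import Mathlib
import Cfsg.Agent.Lib.FusLift
import Cfsg.Agent.Lib.FusAlp

set_option autoImplicit false
open Cfsg

namespace Cfsg.Agent.S5198


open Cfsg.FusionSystem Cfsg.Agent.Lib.FusBasic Cfsg.Agent.Lib.FusAut Cfsg.Agent.Lib.FusSat Cfsg.Agent.Lib.FusAlp Cfsg.Agent.Lib.FusNorm Cfsg.Agent.Lib.FusHyp Cfsg.Agent.Lib.FusLift

section
variable {Ω : Type*} [Group Ω] {S : Subgroup Ω} [Finite S] {p : ℕ} [Fact p.Prime]

/-- the action of `S` on a strongly closed subgroup -/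
noncomputable def cT {F : Cfsg.FusionSystem S} {T : Subgroup Ω} (hT : F.StronglyClosed T) : ↥S →* MulAut ↥T :=
  (cAut T).comp (Subgroup.inclusion (sc_normalizer F hT))

theorem cT_apply {F : Cfsg.FusionSystem S} {T : Subgroup Ω} (hT : F.StronglyClosed T) (s : S) (t : T) :
    ((cT hT s t : T) : Ω) = (s : Ω) * t * (s : Ω)⁻¹ := rfl

theorem cT_mem {F : Cfsg.FusionSystem S} {T : Subgroup Ω} (hT : F.StronglyClosed T) (s : S) : cT hT s ∈ F.autGroup T :=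
  autInduced_le_autGroup F hT.1 (mem_autInducedBy'.2 ⟨s, s.2, fun _ => rfl⟩)

/-- the key step for an automorphism of order prime to `p` -/
theorem gen_step (hS : IsPGroup p S) {F : Cfsg.FusionSystem S} (hF : F.IsSaturated p) {T : Subgroup Ω} (hT : F.StronglyClosed T)
    {P : Subgroup Ω} (hPS : P ≤ S) {α : MulAut P} (hα : α ∈ F.autGroup P) (hco : Nat.Coprime (orderOf α) p) (x : P) :
    (cT hT ⟨x, hPS x.2⟩)⁻¹ * cT hT ⟨α x, hPS (α x).2⟩ ∈ ((pResidual p ↥(F.autGroup T)).map (F.autGroup T).subtype ⊔ Inn ↥T : Subgroup (MulAut ↥T)) := by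
  have hp : p.Prime := Fact.out
  have hTS := hT.1
  haveI : Finite T := finite_of_le hTS
  haveI : Finite P := finite_of_le hPS
  have hWS : P ⊔ T ≤ S := sup_le hPS hTS
  haveI : Finite ↥(P ⊔ T) := finite_of_le hWS
  haveI hNn : (pResidual p ↥(F.autGroup T)).Normal := Cfsg.Agent.Lib.PNilp.pResidual_normal
  by_cases hm1 : orderOf α = 1
  · rw [orderOf_eq_one_iff] at hm1
    rw [hm1]
    have : (cT hT ⟨x, hPS x.2⟩)⁻¹ * cT hT ⟨((1 : MulAut P) x : P), hPS ((1 : MulAut P) x).2⟩ = 1 := by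
      have e : (⟨((1 : MulAut P) x : P), hPS ((1 : MulAut P) x).2⟩ : S) = ⟨x, hPS x.2⟩ := rfl
      rw [e]
      group
    rw [this]
    exact Subgroup.one_mem _
  have hm2 : 1 < orderOf α := by
    have := orderOf_pos α
    omega
  have hφ := (mem_autGroup_iff F hPS).1 hα
  obtain ⟨ψ, hψ, eψ⟩ := exists_lift hS F hF hT hφ
  have hψT : ∀ t : T, ψ ⟨t, (le_sup_right : T ≤ P ⊔ T) t.2⟩ ∈ T := fun t => hT.2 T le_rfl _ (res_mem F le_sup_right hψ) t
  have hval : ∀ z : ↥(P ⊔ T), ψ z ∈ P ⊔ T := by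
    intro z
    refine map_sup_le (B := P ⊔ T) ψ le_rfl (fun y hy => ?_) (fun y hy => ?_) z z.2
    · have h1 := eψ ⟨y, hy⟩
      have e2 : Subgroup.inclusion le_sup_left (⟨y, hy⟩ : P) = y := Subtype.ext rfl
      rw [e2] at h1
      have e3 : ψ y = ((α ⟨y, hy⟩ : P) : Ω) * (((α ⟨y, hy⟩ : P) : Ω)⁻¹ * ψ y) := by group
      rw [e3]
      exact Subgroup.mul_mem _ ((le_sup_left : P ≤ P ⊔ T) (Subtype.coe_prop _)) ((le_sup_right : T ≤ P ⊔ T) h1)
    · exact (le_sup_right : T ≤ P ⊔ T) (hψT ⟨y, hy⟩)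
  have hinj := inj F hψ
  have hr : ψ.range = P ⊔ T := by
    apply Subgroup.eq_of_le_of_card_ge
    · rintro _ ⟨z, rfl⟩
      exact hval z
    · exact (Nat.card_congr (MonoidHom.ofInjective hinj).toEquiv).le
  set b : MulAut ↥(P ⊔ T) := isoOf ψ hinj hr with hb
  have hbv : ∀ z, ((b z : ↥(P ⊔ T)) : Ω) = ψ z := fun z => rfl
  have hbF : b ∈ F.autGroup (P ⊔ T) := by
    apply mem_autGroup_of
    exact hom_congr F hψ (fun x => rfl)
  set B : ↥(F.autGroup (P ⊔ T)) := ⟨b, hbF⟩ with hBd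
  obtain ⟨k, n, hn, he⟩ := Nat.exists_eq_pow_mul_and_not_dvd (orderOf_pos B).ne' p hp.ne_one
  have hco2 : (p ^ k).Coprime (orderOf α) := (Nat.Coprime.pow_right k hco).symm
  obtain ⟨t, -, ht⟩ := Nat.exists_mul_mod_eq_one_of_coprime hco2 hm2
  set r := p ^ k * t with hr'
  have hαr : α ^ r = α := by
    have h5 := pow_mod_orderOf α r
    rw [ht, pow_one] at h5
    exact h5.symm
  -- `b` preserves `T`
  have hbT : ∀ (j : ℕ) (y : ↥(P ⊔ T)), (y : Ω) ∈ T → (((b ^ j) y : ↥(P ⊔ T)) : Ω) ∈ T := by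
    intro j
    induction j with
    | zero => intro y hy; exact hy
    | succ j ih =>
      intro y hy
      rw [pow_succ, MulAut.mul_apply]
      apply ih
      exact hψT ⟨y, hy⟩
  -- the powers of `b` on `P` modulo `T`
  have hbP : ∀ (j : ℕ) (y : P), (((α ^ j) y : P) : Ω)⁻¹ * (((b ^ j) (Subgroup.inclusion le_sup_left y) : ↥(P ⊔ T)) : Ω) ∈ T := by
    intro j
    induction j with
    | zero => intro y; simp [T.one_mem]
    | succ j ih =>
      intro y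
      rw [pow_succ, pow_succ, MulAut.mul_apply, MulAut.mul_apply]
      have h1 := ih (α y)
      have h2 := eψ y
      set z : ↥(P ⊔ T) := Subgroup.inclusion le_sup_left (α y) with hz
      have hbyz : b (Subgroup.inclusion le_sup_left y) = z * ⟨((α y : P) : Ω)⁻¹ * ψ (Subgroup.inclusion le_sup_left y), (le_sup_right : T ≤ P ⊔ T) h2⟩ := by
        apply Subtype.ext
        show ψ (Subgroup.inclusion le_sup_left y) = ((α y : P) : Ω) * (((α y : P) : Ω)⁻¹ * ψ (Subgroup.inclusion le_sup_left y))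
        group
      rw [hbyz, map_mul]
      have h3 := hbT j ⟨((α y : P) : Ω)⁻¹ * ψ (Subgroup.inclusion le_sup_left y), (le_sup_right : T ≤ P ⊔ T) h2⟩ h2
      have e5 : (((α ^ j) (α y) : P) : Ω)⁻¹ * (((b ^ j) z * (b ^ j) ⟨((α y : P) : Ω)⁻¹ * ψ (Subgroup.inclusion le_sup_left y), (le_sup_right : T ≤ P ⊔ T) h2⟩ : ↥(P ⊔ T)) : Ω) =
          ((((α ^ j) (α y) : P) : Ω)⁻¹ * (((b ^ j) z : ↥(P ⊔ T)) : Ω)) * (((b ^ j) ⟨((α y : P) : Ω)⁻¹ * ψ (Subgroup.inclusion le_sup_left y), (le_sup_right : T ≤ P ⊔ T) h2⟩ : ↥(P ⊔ T)) : Ω) := by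
        rw [mul_assoc]
        rfl
      rw [e5]
      exact T.mul_mem h1 h3
  have hBco : Nat.Coprime (orderOf (B ^ r)) p := by
    have h1 : (B ^ r) ^ n = 1 := by
      rw [← pow_mul]
      have : r * n = orderOf B * t := by
        rw [he, hr']
        ring
      rw [this, pow_mul, pow_orderOf_eq_one, one_pow]
    have h2 := orderOf_dvd_of_pow_eq_one h1
    exact Nat.Coprime.coprime_dvd_left h2 ((Nat.Prime.coprime_iff_not_dvd hp).2 hn).symm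
  set g : MulAut ↥(P ⊔ T) := b ^ r with hg
  have hgF : g ∈ F.autGroup (P ⊔ T) := Subgroup.pow_mem _ hbF _
  have hgm := (mem_autGroup_iff F hWS).1 hgF
  have hgT : ∀ y : T, ((g ⟨y, (le_sup_right : T ≤ P ⊔ T) y.2⟩ : ↥(P ⊔ T)) : Ω) ∈ T := fun y => hbT r _ y.2
  -- the restriction to `T`
  have hres := res_mem F (le_sup_right : T ≤ P ⊔ T) hgm
  have hβ1 : ∃ β₁ ∈ F.autGroup T, ∀ y : T, ((β₁ y : T) : Ω) = ((g ⟨y, (le_sup_right : T ≤ P ⊔ T) y.2⟩ : ↥(P ⊔ T)) : Ω) := by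
    have hinj2 := inj F hres
    have hr2 : (((P ⊔ T).subtype.comp g.toMonoidHom).comp (Subgroup.inclusion (le_sup_right : T ≤ P ⊔ T))).range = T := by
      apply Subgroup.eq_of_le_of_card_ge
      · rintro _ ⟨y, rfl⟩
        exact hgT y
      · exact (Nat.card_congr (MonoidHom.ofInjective hinj2).toEquiv).le
    refine ⟨isoOf _ hinj2 hr2, ?_, fun y => rfl⟩
    apply mem_autGroup_of
    exact hom_congr F hres (fun x => rfl)
  obtain ⟨β₁, hβ₁F, hβ₁⟩ := hβ1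
  have hβ₁pow : ∀ (j : ℕ) (y : T), (((β₁ ^ j) y : T) : Ω) = (((g ^ j) ⟨y, (le_sup_right : T ≤ P ⊔ T) y.2⟩ : ↥(P ⊔ T)) : Ω) := by
    intro j
    induction j with
    | zero => intro y; rfl
    | succ j ih =>
      intro y
      rw [pow_succ, pow_succ, MulAut.mul_apply, MulAut.mul_apply, ih]
      have h9 : (⟨((β₁ y : T) : Ω), (le_sup_right : T ≤ P ⊔ T) (β₁ y).2⟩ : ↥(P ⊔ T)) = g ⟨y, (le_sup_right : T ≤ P ⊔ T) y.2⟩ := Subtype.ext (hβ₁ y)
      rw [h9]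
  have hβ₁co : Nat.Coprime (orderOf β₁) p := by
    have h1 : g ^ orderOf (B ^ r) = 1 := by
      have := pow_orderOf_eq_one (B ^ r)
      exact congrArg Subtype.val this
    have h2 : β₁ ^ orderOf (B ^ r) = 1 := by
      apply MulEquiv.ext
      intro y
      apply Subtype.ext
      rw [hβ₁pow, h1]
      rfl
    exact Nat.Coprime.coprime_dvd_left (orderOf_dvd_of_pow_eq_one h2) hBco
  -- assemble
  set cx := cT hT ⟨x, hPS x.2⟩ with hcx
  have hcxA : cx ∈ F.autGroup T := cT_mem hT _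
  set x₁ : ↥(P ⊔ T) := Subgroup.inclusion le_sup_left x with hx₁
  set v : Ω := ((g x₁ : ↥(P ⊔ T)) : Ω) with hv
  have hτ : ((α x : P) : Ω)⁻¹ * v ∈ T := by
    have h1 := hbP r x
    rw [hαr] at h1
    exact h1
  have hvS : v ∈ S := hWS (g x₁).2
  have hαx : (⟨(α x : P), hPS (α x).2⟩ : S) = ⟨v, hvS⟩ * ⟨((α x : P) : Ω)⁻¹ * v, hTS hτ⟩⁻¹ := by
    apply Subtype.ext
    show ((α x : P) : Ω) = v * (((α x : P) : Ω)⁻¹ * v)⁻¹
    group
  have hcv : cT hT ⟨v, hvS⟩ = β₁ * cx * β₁⁻¹ := by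
    apply MulEquiv.ext
    intro y
    apply Subtype.ext
    set w := β₁⁻¹ y with hw
    have hyw : y = β₁ w := by simp [hw]
    show v * (y : Ω) * v⁻¹ = ((β₁ (cx (β₁⁻¹ y)) : T) : Ω)
    rw [← hw]
    rw [hyw, hβ₁, hβ₁]
    have e1 : (⟨((cx w : T) : Ω), (le_sup_right : T ≤ P ⊔ T) (cx w).2⟩ : ↥(P ⊔ T)) = x₁ * ⟨w, (le_sup_right : T ≤ P ⊔ T) w.2⟩ * x₁⁻¹ := rfl
    rw [e1, map_mul, map_mul, map_inv]
    rfl
  have hrw : cx⁻¹ * cT hT ⟨(α x : P), hPS (α x).2⟩ = (cx⁻¹ * β₁ * cx) * β₁⁻¹ * (cT hT ⟨((α x : P) : Ω)⁻¹ * v, hTS hτ⟩)⁻¹ := by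
    rw [hαx, map_mul, map_inv, hcv]
    group
  rw [hrw]
  have hβmem : (⟨β₁, hβ₁F⟩ : ↥(F.autGroup T)) ∈ pResidual p (F.autGroup T) := by
    apply Subgroup.subset_closure
    show Nat.Coprime (orderOf (⟨β₁, hβ₁F⟩ : ↥(F.autGroup T))) p
    rw [Subgroup.orderOf_mk]
    exact hβ₁co
  have h1 : (cx⁻¹ * β₁ * cx) ∈ (pResidual p ↥(F.autGroup T)).map (F.autGroup T).subtype := by
    have h2 := hNn.conj_mem _ hβmem (⟨cx, hcxA⟩ : ↥(F.autGroup T))⁻¹
    refine ⟨_, h2, ?_⟩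
    show cx⁻¹ * β₁ * (cx⁻¹)⁻¹ = _
    rw [inv_inv]
  have h2 : β₁⁻¹ ∈ (pResidual p ↥(F.autGroup T)).map (F.autGroup T).subtype :=
    Subgroup.inv_mem _ ⟨_, hβmem, rfl⟩
  have h3 : cT hT ⟨((α x : P) : Ω)⁻¹ * v, hTS hτ⟩ ∈ Inn ↥T := ⟨⟨_, hτ⟩, rfl⟩
  refine Subgroup.mul_mem _ (Subgroup.mul_mem _ ((le_sup_left : _ ≤ _ ⊔ Inn ↥T) h1) ((le_sup_left : _ ≤ _ ⊔ Inn ↥T) h2)) ((le_sup_right : Inn ↥T ≤ _) (Subgroup.inv_mem _ h3))

theorem all_step (hS : IsPGroup p S) {F : Cfsg.FusionSystem S} (hF : F.IsSaturated p) {T : Subgroup Ω} (hT : F.StronglyClosed T)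
    {P : Subgroup Ω} (hPS : P ≤ S) {α : ↥(F.autGroup P)} (hα : α ∈ pResidual p ↥(F.autGroup P)) (x : P) :
    (cT hT ⟨x, hPS x.2⟩)⁻¹ * cT hT ⟨((α : MulAut P) x : P), hPS ((α : MulAut P) x).2⟩ ∈ ((pResidual p ↥(F.autGroup T)).map (F.autGroup T).subtype ⊔ Inn ↥T : Subgroup (MulAut ↥T)) := by
  have hα' : α ∈ Subgroup.closure {g : F.autGroup P | Nat.Coprime (orderOf g) p} := hα
  revert x
  refine Subgroup.closure_induction (p := fun (a : ↥(F.autGroup P)) _ => ∀ x : P, (cT hT ⟨x, hPS x.2⟩)⁻¹ * cT hT ⟨((a : MulAut P) x : P), hPS ((a : MulAut P) x).2⟩ ∈ ((pResidual p ↥(F.autGroup T)).map (F.autGroup T).subtype ⊔ Inn ↥T : Subgroup (MulAut ↥T))) ?_ ?_ ?_ ?_ hα'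
  · intro a ha x
    refine gen_step hS hF hT hPS a.2 ?_ x
    rw [Subgroup.orderOf_coe]
    exact ha
  · intro x
    have : (cT hT ⟨x, hPS x.2⟩)⁻¹ * cT hT ⟨(((1 : ↥(F.autGroup P)) : MulAut P) x : P), hPS (((1 : ↥(F.autGroup P)) : MulAut P) x).2⟩ = 1 := by
      have e : (⟨(((1 : ↥(F.autGroup P)) : MulAut P) x : P), hPS (((1 : ↥(F.autGroup P)) : MulAut P) x).2⟩ : S) = ⟨x, hPS x.2⟩ := rfl
      rw [e]
      group
    rw [this]
    exact Subgroup.one_mem _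
  · intro a b _ _ ha hb x
    have h1 := hb x
    have h2 := ha ((b : MulAut P) x)
    have e : (cT hT ⟨x, hPS x.2⟩)⁻¹ * cT hT ⟨(((a * b : ↥(F.autGroup P)) : MulAut P) x : P), hPS (((a * b : ↥(F.autGroup P)) : MulAut P) x).2⟩ =
        ((cT hT ⟨x, hPS x.2⟩)⁻¹ * cT hT ⟨((b : MulAut P) x : P), hPS ((b : MulAut P) x).2⟩) * ((cT hT ⟨((b : MulAut P) x : P), hPS ((b : MulAut P) x).2⟩)⁻¹ * cT hT ⟨((a : MulAut P) ((b : MulAut P) x) : P), hPS ((a : MulAut P) ((b : MulAut P) x)).2⟩) := by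
      have e2 : (⟨(((a * b : ↥(F.autGroup P)) : MulAut P) x : P), hPS (((a * b : ↥(F.autGroup P)) : MulAut P) x).2⟩ : S) = ⟨((a : MulAut P) ((b : MulAut P) x) : P), hPS ((a : MulAut P) ((b : MulAut P) x)).2⟩ := rfl
      rw [e2]
      group
    rw [e]
    exact Subgroup.mul_mem _ h1 h2
  · intro a _ ha x
    set y : P := ((a⁻¹ : ↥(F.autGroup P)) : MulAut P) x with hy
    have hxy : (a : MulAut P) y = x := by
      show (a : MulAut P) ((a : MulAut P)⁻¹ x) = x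
      simp
    have h1 := ha y
    rw [hxy] at h1
    have e : (cT hT ⟨x, hPS x.2⟩)⁻¹ * cT hT ⟨y, hPS y.2⟩ = ((cT hT ⟨y, hPS y.2⟩)⁻¹ * cT hT ⟨x, hPS x.2⟩)⁻¹ := by group
    show (cT hT ⟨x, hPS x.2⟩)⁻¹ * cT hT ⟨y, hPS y.2⟩ ∈ ((pResidual p ↥(F.autGroup T)).map (F.autGroup T).subtype ⊔ Inn ↥T : Subgroup (MulAut ↥T))
    rw [e]
    exact Subgroup.inv_mem _ h1

end

/-- Let F be a saturated fusion system over a finite p-group S and T a subgroup of S strongly closed in F (so T is normal in S). Then every element x of the hyperfocal subgroup of F acts on T by conjugation as an element of O^p(Aut_F(T))·Inn(T): there is an automorphism of T in the subgroup generated by the elements of Aut_F(T) of order prime to p together with the inner automorphisms of T that agrees with conjugation by x. -/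
theorem result {Ω : Type*} [Group Ω] {S : Subgroup Ω} [Finite S] (p : ℕ) [Fact p.Prime] (hS : IsPGroup p S) (F : Cfsg.FusionSystem S) (hF : F.IsSaturated p) (T : Subgroup Ω) (hT : F.StronglyClosed T) : ∀ x ∈ F.hyperfocalSubgroup p, ∃ α ∈ ((Cfsg.pResidual p ↥(F.autGroup T)).map (F.autGroup T).subtype ⊔ Cfsg.Inn ↥T : Subgroup (MulAut ↥T)), ∀ t : ↥T, ((α t : ↥T) : Ω) = x * (t : Ω) * x⁻¹ := by
  have hle : F.hyperfocalSubgroup p ≤ (((pResidual p ↥(F.autGroup T)).map (F.autGroup T).subtype ⊔ Inn ↥T : Subgroup (MulAut ↥T)).comap (cT hT)).map S.subtype := by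
    rw [hyperfocalSubgroup, Subgroup.closure_le]
    rintro _ ⟨P, α, x, hP, hα, rfl⟩
    refine ⟨⟨x, hP x.2⟩⁻¹ * ⟨((α : MulAut P) x : P), hP ((α : MulAut P) x).2⟩, ?_, rfl⟩
    show cT hT (⟨x, hP x.2⟩⁻¹ * ⟨((α : MulAut P) x : P), hP ((α : MulAut P) x).2⟩) ∈ ((pResidual p ↥(F.autGroup T)).map (F.autGroup T).subtype ⊔ Inn ↥T : Subgroup (MulAut ↥T))
    rw [map_mul, map_inv]
    exact all_step hS hF hT hP hα x
  intro x hx
  obtain ⟨s, hs, rfl⟩ := hle hx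
  exact ⟨cT hT s, hs, fun t => rfl⟩

end Cfsg.Agent.S5198
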