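import Cfsg.Statements.S5199
import Mathlib
import Cfsg.Agent.Lib.FusLift
import Cfsg.Agent.Lib.FusAlp

set_option autoImplicit false
open Cfsg

namespace Cfsg.Agent.S5199


open Cfsg.FusionSystem Cfsg.Agent.Lib.FusBasic Cfsg.Agent.Lib.FusAut Cfsg.Agent.Lib.FusSat Cfsg.Agent.Lib.FusAlp Cfsg.Agent.Lib.FusHyp

/-- Let F be a saturated fusion system over a finite p-group S, E a normal subsystem of F over T, and F₀ a normal subsystem of F over a subgroup U containing both T and the hyperfocal subgroup of F, such that F₀ has p-power index in F. Then E is a subsystem of F₀. -/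
theorem result {Ω : Type*} [Group Ω] {S : Subgroup Ω} [Finite S] (p : ℕ) [Fact p.Prime] (hS : IsPGroup p S) (F : Cfsg.FusionSystem S) (hF : F.IsSaturated p) {T U : Subgroup Ω} (E : Cfsg.FusionSystem T) (hE : E.IsNormalIn F p) (F₀ : Cfsg.FusionSystem U) (hF₀ : F₀.IsNormalIn F p) (hU : T ⊔ F.hyperfocalSubgroup p ≤ U) (hidx : F₀.HasPPowerIndexIn F p) : E.IsSubsystemOf F₀ := by
  obtain ⟨⟨hEsat, -, hsub, hTc, -, -⟩, -⟩ := hE
  have hTS : T ≤ S := hTc.1
  haveI : Finite T := finite_of_le hTS
  have hT' : IsPGroup p T := hS.to_le hTS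
  have hTU : T ≤ U := le_sup_left.trans hU
  let E' : Cfsg.FusionSystem T := subsystem E (fun P φ => φ ∈ F₀.Hom P)
    (by
      intro P g hP hg
      exact F₀.conj_mem (hP.trans hTU) (hTU hg))
    (by
      intro P Q φ ψ _ _ h1 h2 h
      exact F₀.comp_mem h1 h2 h)
    (by
      intro P φ ψ _ h1 _ hx
      obtain ⟨ψ', hψ', e⟩ := F₀.inv_mem h1
      refine hom_congr F₀ hψ' ?_
      rintro ⟨_, x, rfl⟩
      rw [e x]
      exact hx x)
  have hle : E ≤ E' := by
    apply le_of_autGroup_le hT' E hEsat E'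
    intro R hR a ha
    have hRT : R ≤ T := hR.1
    have hFA := fullyAutomized_of_fullyNormalized hT' E hEsat hR
    obtain ⟨β, hβ, c, hc, e⟩ := frattini_aut E hFA ⟨a, ha⟩
    have h1 : ((β : E.autGroup R) : MulAut R) ∈ E'.autGroup R := by
      refine Subgroup.closure_induction (p := fun (β : ↥(E.autGroup R)) _ => ((β : ↥(E.autGroup R)) : MulAut R) ∈ E'.autGroup R) ?_ ?_ ?_ ?_ hβ
      · intro γ hγ
        have h2 : (γ : MulAut R) ∈ F.autGroup R := by
          apply mem_autGroup_of
          exact hsub R ((mem_autGroup_iff E hRT).1 γ.2)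
        have h3 : (⟨γ, h2⟩ : ↥(F.autGroup R)) ∈ pResidual p (F.autGroup R) := by
          apply Subgroup.subset_closure
          show Nat.Coprime (orderOf (⟨γ, h2⟩ : ↥(F.autGroup R))) p
          rw [Subgroup.orderOf_mk]
          have h4 : Nat.Coprime (orderOf γ) p := hγ
          rwa [Subgroup.orderOf_coe] at *
        have h5 : (γ : MulAut R) ∈ F₀.autGroup R := hidx.2.2 R (hRT.trans hTU) ⟨_, h3, rfl⟩
        apply mem_autGroup_of
        exact ⟨(mem_autGroup_iff E hRT).1 γ.2, (mem_autGroup_iff F₀ (hRT.trans hTU)).1 h5⟩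
      · exact Subgroup.one_mem _
      · intro x y _ _ hx hy
        exact Subgroup.mul_mem _ hx hy
      · intro x _ hx
        exact Subgroup.inv_mem _ hx
    have h2 : c ∈ E'.autGroup R := autInduced_le_autGroup E' hRT hc
    have e' : a = ((β : E.autGroup R) : MulAut R) * c := e
    rw [e']
    exact Subgroup.mul_mem _ h1 h2
  intro P φ hφ
  exact (hle P hφ).2

end Cfsg.Agent.S5199
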