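import Cfsg.Statements.S5203
import Mathlib
import Cfsg.Agent.Lib.FusFrat
import Cfsg.Agent.Lib.FusHyp
import Cfsg.Prelude.Def_FusionReduction

set_option autoImplicit false
open Cfsg

namespace Cfsg.Agent.S5203


open Cfsg.FusionSystem Cfsg.Agent.Lib.FusBasic Cfsg.Agent.Lib.FusAut Cfsg.Agent.Lib.FusSat Cfsg.Agent.Lib.FusHyp Cfsg.Agent.Lib.FusFrat

section groups

theorem fix_mod {X : Type*} [Group X] {p : ℕ} [Fact p.Prime] (hX : IsPGroup p X) (N : Subgroup X) [N.Normal] (α : MulAut X) [Finite (MulAut X)] (hco : (orderOf α).Coprime p)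
    (hN : ∀ y ∈ N, α y ∈ N) {x : X} (h : (x⁻¹ * α x)⁻¹ * α (x⁻¹ * α x) ∈ N) : x⁻¹ * α x ∈ N := by
  let π := QuotientGroup.mk' N
  set t := x⁻¹ * α x with ht
  have hax : α x = x * t := by
    rw [ht]
    group
  have hat : π (α t) = π t := (QuotientGroup.eq.2 h).symm
  have hk : ∀ k : ℕ, π ((α ^ k) x) = π x * (π t) ^ k := by
    intro k
    induction k with
    | zero => simp
    | succ k ih =>
      have e1 : π (α ((α ^ k) x)) = QuotientGroup.map N N α.toMonoidHom hN (π ((α ^ k) x)) := rfl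
      rw [pow_succ', MulAut.mul_apply, e1, ih, map_mul, map_pow]
      have e2 : QuotientGroup.map N N α.toMonoidHom hN (π x) = π (α x) := rfl
      have e3 : QuotientGroup.map N N α.toMonoidHom hN (π t) = π (α t) := rfl
      rw [e2, e3, hat, hax, map_mul, pow_succ', mul_assoc]
  have h1 := hk (orderOf α)
  rw [pow_orderOf_eq_one] at h1
  have h2 : (π t) ^ orderOf α = 1 := by
    have h3 : π x = π x * (π t) ^ orderOf α := h1
    exact mul_eq_left.1 h3.symm
  obtain ⟨m, hm⟩ := hX t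
  have h4 : (π t) ^ (p ^ m) = 1 := by
    rw [← map_pow, hm, map_one]
  have h5 : orderOf (π t) = 1 := Nat.eq_one_of_dvd_coprimes (hco.pow_right m) (orderOf_dvd_of_pow_eq_one h2) (orderOf_dvd_of_pow_eq_one h4)
  have h6 : π t = 1 := orderOf_eq_one_iff.1 h5
  exact (QuotientGroup.eq_one_iff t).1 h6

end groups

section same

variable {Ω : Type*} [Group Ω] {p : ℕ}

theorem eq_of_same {S : Subgroup Ω} {X Y : Cfsg.FusionSystem S} (h : ∀ P, X.Hom P = Y.Hom P) : X = Y := by
  cases X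
  cases Y
  congr
  funext P
  exact h P

theorem same_sub {A B : Subgroup Ω} {X : Cfsg.FusionSystem A} {Y : Cfsg.FusionSystem B} (h : ∀ P, X.Hom P = Y.Hom P) : A = B := by
  apply le_antisymm
  · have h1 := X.conj_mem (le_refl A) A.one_mem
    rw [h A] at h1
    exact src_le Y h1
  · have h1 := Y.conj_mem (le_refl B) B.one_mem
    rw [← h B] at h1
    exact src_le X h1

theorem ppr_unique {S : Subgroup Ω} {X X' Y' : Cfsg.FusionSystem S} (h1 : X.IsPPrimeResidual p X') (h2 : X.IsPPrimeResidual p Y') : X' = Y' :=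
  eq_of_same fun P => Set.Subset.antisymm (h1.2.2 Y' h2.1 h2.2.1 P) (h2.2.2 X' h1.1 h1.2.1 P)

theorem ppr_same {Y S : Subgroup Ω} (hY : Y = S) {D D' : Cfsg.FusionSystem Y} {F F' : Cfsg.FusionSystem S} (hDF : ∀ P, D.Hom P = F.Hom P)
    (h1 : D.IsPPrimeResidual p D') (h2 : F.IsPPrimeResidual p F') : ∀ P, D'.Hom P = F'.Hom P := by
  subst hY
  have := eq_of_same hDF
  subst this
  rw [ppr_unique h1 h2]
  intro P
  rfl

variable [Fact p.Prime]

theorem pr_unique {S : Subgroup Ω} [Finite S] (hS : IsPGroup p S) {F : Cfsg.FusionSystem S} {D₁ D₂ : Cfsg.FusionSystem (F.hyperfocalSubgroup p)}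
    (h1 : F.IsPResidual p D₁) (h2 : F.IsPResidual p D₂) : D₁ = D₂ :=
  eq_of_same fun P => Set.Subset.antisymm
    (le_of_ppower hS h1.1 h1.2.1 (hyper_le F p) le_rfl h2.2 P) (le_of_ppower hS h2.1 h2.2.1 (hyper_le F p) le_rfl h1.2 P)

theorem pr_stable {S : Subgroup Ω} [Finite S] (hS : IsPGroup p S) {F : Cfsg.FusionSystem S} (hhy : F.hyperfocalSubgroup p = S) (hF : F.IsSaturated p)
    {D : Cfsg.FusionSystem (F.hyperfocalSubgroup p)} (h : F.IsPResidual p D) : ∀ P, D.Hom P = F.Hom P :=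
  fun P => Set.Subset.antisymm (h.2.1 P) (le_of_ppower hS hF (fun _ => subset_rfl) le_rfl hhy.ge h.2 P)

end same

theorem limit_stable {Ω : Type*} [Group Ω] {T₀ S₀ : Subgroup Ω} {E₀ : Cfsg.FusionSystem T₀} {G : Cfsg.FusionSystem S₀} {p : ℕ} (h : E₀.IsResidualLimitOf G p) :
    p.Prime → ∀ {S : Subgroup Ω}, Finite S → IsPGroup p S → ∀ {F : Cfsg.FusionSystem S}, F.hyperfocalSubgroup p = S → F.IsPPrimeResidual p F →
      (∀ P, G.Hom P = F.Hom P) → ∀ P, E₀.Hom P = F.Hom P := by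
  induction h with
  | stable G p _ _ =>
    intro _ S _ _ F _ _ hsame
    exact hsame
  | step G p D D' hD hD' h' ih =>
    intro hp S hfin hS F hhy hst hsame
    haveI := Fact.mk hp
    have e := same_sub hsame
    subst e
    have e2 := eq_of_same hsame
    subst e2
    have h1 := pr_stable hS hhy hst.1 hD
    have h2 := ppr_same hhy h1 hD' hst
    exact ih hp hfin hS hhy hst h2

theorem limit_uniq {Ω : Type*} [Group Ω] {T₁ S₀ : Subgroup Ω} {E₁ : Cfsg.FusionSystem T₁} {F : Cfsg.FusionSystem S₀} {p : ℕ} (h₁ : E₁.IsResidualLimitOf F p) :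
    p.Prime → Finite S₀ → IsPGroup p S₀ → ∀ {T₂ S₂ : Subgroup Ω} {E₂ : Cfsg.FusionSystem T₂} {F₂ : Cfsg.FusionSystem S₂},
      (∀ P, F.Hom P = F₂.Hom P) → E₂.IsResidualLimitOf F₂ p → ∀ P, E₁.Hom P = E₂.Hom P := by
  induction h₁ with
  | stable F p hhy hst =>
    intro hp hfin hS T₂ S₂ E₂ F₂ hsame h₂ P
    exact (limit_stable h₂ hp hfin hS hhy hst (fun P => (hsame P).symm) P).symm
  | step F p D D' hD hD' h' ih =>
    intro hp hfin hS T₂ S₂ E₂ F₂ hsame h₂
    haveI := Fact.mk hp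
    have e := same_sub hsame
    subst e
    have e2 := eq_of_same hsame
    subst e2
    haveI : Finite (F.hyperfocalSubgroup p) := finite_of_le (hyper_le F p)
    have hY : IsPGroup p (F.hyperfocalSubgroup p) := hS.to_le (hyper_le F p)
    cases h₂ with
    | stable _ _ hhy hst =>
      exact limit_stable (IsResidualLimitOf.step F p D D' hD hD' h') hp hfin hS hhy hst (fun _ => rfl)
    | step _ _ D₂ D₂' hD₂ hD₂' h₂' =>
      have e3 : D₂ = D := pr_unique hS hD₂ hD
      subst e3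
      have e4 : D₂' = D' := ppr_unique hD₂' hD'
      subst e4
      exact ih hp inferInstance hY (fun _ => rfl) h₂'

section main

variable {Ω : Type*} [Group Ω] {S T : Subgroup Ω} [Finite S] {p : ℕ} [Fact p.Prime]

theorem hyper_normal {F : Cfsg.FusionSystem S} {E : Cfsg.FusionSystem T} (hsc : F.StronglyClosed T)
    (hI : ∀ (P : Subgroup Ω) (hPT : P ≤ T) (φ : P →* Ω), φ ∈ E.Hom P → ∀ α ∈ F.autGroup T,
      ∃ χ ∈ E.Hom ((P.subgroupOf T).map (T.subtype.comp α.toMonoidHom)),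
        ∀ (x : P) (hφx : φ x ∈ T)
          (hαx : ((α ⟨x, hPT x.2⟩ : T) : Ω) ∈ (P.subgroupOf T).map (T.subtype.comp α.toMonoidHom)),
          χ ⟨(α ⟨x, hPT x.2⟩ : T), hαx⟩ = ((α ⟨φ x, hφx⟩ : T) : Ω))
    {s y : Ω} (hs : s ∈ S) (hy : y ∈ E.hyperfocalSubgroup p) : s * y * s⁻¹ ∈ E.hyperfocalSubgroup p := by
  haveI : Finite T := finite_of_le hsc.1
  obtain ⟨γ, hγ, eγ⟩ := aut_of hsc (F.conj_mem hsc.1 hs)
  refine Subgroup.closure_induction (p := fun y _ => s * y * s⁻¹ ∈ E.hyperfocalSubgroup p) ?_ ?_ ?_ ?_ hy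
  · rintro _ ⟨P, α, x, hP, hα, rfl⟩
    have hP'T : (P.subgroupOf T).map (T.subtype.comp γ.toMonoidHom) ≤ T := by
      rintro _ ⟨u, -, rfl⟩
      exact Subtype.coe_prop _
    let ρ : P →* Ω := (T.subtype.comp γ.toMonoidHom).comp (Subgroup.inclusion hP)
    have hρ : ∀ u : P, ρ u = s * u * s⁻¹ := fun u => eγ ⟨u, hP u.2⟩
    have hinj : Function.Injective ρ := by
      intro a b hab
      rw [hρ, hρ] at hab
      apply Subtype.ext
      simpa using hab
    have hr : ρ.range = (P.subgroupOf T).map (T.subtype.comp γ.toMonoidHom) := by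
      ext y
      constructor
      · rintro ⟨u, rfl⟩
        exact ⟨⟨u, hP u.2⟩, Subgroup.mem_subgroupOf.2 u.2, rfl⟩
      · rintro ⟨u, hu, rfl⟩
        exact ⟨⟨u, Subgroup.mem_subgroupOf.1 hu⟩, rfl⟩
    let e : P ≃* (P.subgroupOf T).map (T.subtype.comp γ.toMonoidHom) := isoOf ρ hinj hr
    have hmem : ∀ a ∈ E.autGroup P, MulAut.congr e a ∈ E.autGroup ((P.subgroupOf T).map (T.subtype.comp γ.toMonoidHom)) := by
      intro a ha
      have ha' := (mem_autGroup_iff E hP).1 ha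
      obtain ⟨χ, hχ, eχ⟩ := hI P hP _ ha' γ hγ
      apply mem_autGroup_of
      refine hom_congr E hχ (fun u => ?_)
      obtain ⟨v, hv⟩ := e.surjective u
      subst hv
      have e1 : MulAut.congr e a (e v) = e (a v) := by
        show e (a (e.symm (e v))) = _
        rw [e.symm_apply_apply]
      have h2 := eχ v (val_mem E ha' v) (by
        exact Subtype.coe_prop (e v))
      show ((MulAut.congr e a (e v) : _) : Ω) = χ (e v)
      rw [e1]
      exact h2.symm
    let f : E.autGroup P →* E.autGroup ((P.subgroupOf T).map (T.subtype.comp γ.toMonoidHom)) :=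
      { toFun := fun a => ⟨MulAut.congr e a, hmem a a.2⟩
        map_one' := Subtype.ext (map_one (MulAut.congr e))
        map_mul' := fun a b => Subtype.ext (map_mul (MulAut.congr e) _ _) }
    have h1 := mem_hyper E p hP'T (f α) (map_pResidual f hα) (e x)
    have h2 : ((((f α : E.autGroup _) : MulAut _) (e x) : _) : Ω) = s * (((α : MulAut P) x : P) : Ω) * s⁻¹ := by
      show ((e ((α : MulAut P) (e.symm (e x))) : _) : Ω) = _
      rw [e.symm_apply_apply]
      exact hρ _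
    have h3 : ((e x : _) : Ω) = s * x * s⁻¹ := hρ x
    rw [h2, h3] at h1
    have e4 : s * ((x : Ω)⁻¹ * (((α : MulAut P) x : P) : Ω)) * s⁻¹ = (s * x * s⁻¹)⁻¹ * (s * (((α : MulAut P) x : P) : Ω) * s⁻¹) := by
      group
    rw [e4]
    exact h1
  · simp
  · intro a b _ _ ha hb
    have e : s * (a * b) * s⁻¹ = (s * a * s⁻¹) * (s * b * s⁻¹) := by group
    rw [e]
    exact Subgroup.mul_mem _ ha hb
  · intro a _ ha
    have e : s * a⁻¹ * s⁻¹ = (s * a * s⁻¹)⁻¹ := by group
    rw [e]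
    exact Subgroup.inv_mem _ ha

theorem core_fix (hS : IsPGroup p S) {F : Cfsg.FusionSystem S} {E : Cfsg.FusionSystem T}
    (hN : ∀ s ∈ S, ∀ y ∈ E.hyperfocalSubgroup p, s * y * s⁻¹ ∈ E.hyperfocalSubgroup p)
    (hidx : E.HasPPowerIndexIn F p) (hTS : T ≤ S) {P : Subgroup Ω} (hPS : P ≤ S) {γ : F.autGroup P} (hco : (orderOf γ).Coprime p) (x : P) :
    (x : Ω)⁻¹ * (((γ : MulAut P) x : P) : Ω) ∈ E.hyperfocalSubgroup p := by
  haveI : Finite P := finite_of_le hPS
  haveI : Finite T := finite_of_le hTS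
  have hγres : γ ∈ pResidual p (F.autGroup P) := Subgroup.subset_closure hco
  have ht : ∀ u : P, (u : Ω)⁻¹ * (((γ : MulAut P) u : P) : Ω) ∈ T := fun u => hidx.2.1 (mem_hyper F p hPS γ hγres u)
  have hQT : P ⊓ T ≤ T := inf_le_right
  have hQP : P ⊓ T ≤ P := inf_le_left
  haveI : Finite ↥(P ⊓ T) := finite_of_le (hQP.trans hPS)
  have haT : ∀ u : P, (u : Ω) ∈ T → (((γ : MulAut P) u : P) : Ω) ∈ T := by
    intro u hu
    have e : (((γ : MulAut P) u : P) : Ω) = u * ((u : Ω)⁻¹ * (((γ : MulAut P) u : P) : Ω)) := by group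
    rw [e]
    exact T.mul_mem hu (ht u)
  let b : ↥(P ⊓ T) →* ↥(P ⊓ T) :=
    { toFun := fun y => ⟨(((γ : MulAut P) ⟨y, hQP y.2⟩ : P) : Ω), Subtype.coe_prop _, haT _ (hQT y.2)⟩
      map_one' := by
        apply Subtype.ext
        show (((γ : MulAut P) 1 : P) : Ω) = 1
        rw [map_one]
        rfl
      map_mul' := by
        intro y z
        apply Subtype.ext
        show (((γ : MulAut P) (⟨y, hQP y.2⟩ * ⟨z, hQP z.2⟩) : P) : Ω) = _
        rw [map_mul]
        rfl }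
  have hbinj : Function.Injective b := by
    intro y z hyz
    have h1 : (((γ : MulAut P) ⟨y, hQP y.2⟩ : P) : Ω) = (((γ : MulAut P) ⟨z, hQP z.2⟩ : P) : Ω) := congrArg (fun w : ↥(P ⊓ T) => (w : Ω)) hyz
    have h2 := (γ : MulAut P).injective (Subtype.ext h1)
    exact Subtype.ext (Subtype.mk.inj h2)
  let a : MulAut ↥(P ⊓ T) := MulEquiv.ofBijective b (Finite.injective_iff_bijective.1 hbinj)
  have hab : ∀ y : ↥(P ⊓ T), ((a y : ↥(P ⊓ T)) : Ω) = (((γ : MulAut P) ⟨y, hQP y.2⟩ : P) : Ω) := fun y => rfl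
  have ha : a ∈ F.autGroup (P ⊓ T) := mem_autGroup_of F (res_mem' F hQP ((mem_autGroup_iff F hPS).1 γ.2) (fun y => hab y))
  have hpw : ∀ (k : ℕ) (y : ↥(P ⊓ T)), (((a ^ k) y : ↥(P ⊓ T)) : Ω) = ((((γ : MulAut P) ^ k) ⟨y, hQP y.2⟩ : P) : Ω) := by
    intro k
    induction k with
    | zero => intro y; rfl
    | succ k ih =>
      intro y
      rw [pow_succ, MulAut.mul_apply, ih, pow_succ, MulAut.mul_apply]
      rfl
  have hao : a ^ orderOf (γ : MulAut P) = 1 := by
    ext y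
    rw [hpw, pow_orderOf_eq_one]
    rfl
  have hco' : (orderOf (γ : MulAut P)).Coprime p := by
    rw [Subgroup.orderOf_coe]
    exact hco
  have hcoa : (orderOf a).Coprime p := Nat.Coprime.coprime_dvd_left (orderOf_dvd_of_pow_eq_one hao) hco'
  have hres : (⟨a, ha⟩ : F.autGroup (P ⊓ T)) ∈ pResidual p (F.autGroup (P ⊓ T)) := by
    apply Subgroup.subset_closure
    show (orderOf (⟨a, ha⟩ : F.autGroup (P ⊓ T))).Coprime p
    rw [Subgroup.orderOf_mk]
    exact hcoa
  have hE : a ∈ E.autGroup (P ⊓ T) := hidx.2.2 _ hQT ⟨⟨a, ha⟩, hres, rfl⟩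
  have hresE : (⟨a, hE⟩ : E.autGroup (P ⊓ T)) ∈ pResidual p (E.autGroup (P ⊓ T)) := by
    apply Subgroup.subset_closure
    show (orderOf (⟨a, hE⟩ : E.autGroup (P ⊓ T))).Coprime p
    rw [Subgroup.orderOf_mk]
    exact hcoa
  have hyQ : ∀ y : ↥(P ⊓ T), (y : Ω)⁻¹ * (((γ : MulAut P) ⟨y, hQP y.2⟩ : P) : Ω) ∈ E.hyperfocalSubgroup p := by
    intro y
    have := mem_hyper E p hQT ⟨a, hE⟩ hresE y
    exact this
  haveI hnorm : ((E.hyperfocalSubgroup p).subgroupOf P).Normal := by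
    constructor
    intro n hn g
    exact Subgroup.mem_subgroupOf.2 (hN g (hPS g.2) n hn)
  have hPp : IsPGroup p P := hS.to_le hPS
  have hHT : E.hyperfocalSubgroup p ≤ T := hyper_le E p
  have := fix_mod hPp ((E.hyperfocalSubgroup p).subgroupOf P) (γ : MulAut P) hco' (x := x) (by
      intro y hy
      have hy' : (y : Ω) ∈ E.hyperfocalSubgroup p := hy
      have h1 := hyQ ⟨y, y.2, hHT hy'⟩
      have e : (((γ : MulAut P) y : P) : Ω) = y * ((y : Ω)⁻¹ * (((γ : MulAut P) y : P) : Ω)) := by group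
      apply Subgroup.mem_subgroupOf.2
      rw [e]
      exact Subgroup.mul_mem _ hy' h1) (by
      have hmem : ((x⁻¹ * (γ : MulAut P) x : P) : Ω) ∈ P ⊓ T := ⟨Subtype.coe_prop _, ht x⟩
      exact hyQ ⟨_, hmem⟩)
  exact this

theorem hyp_eq (hS : IsPGroup p S) {F : Cfsg.FusionSystem S} {E : Cfsg.FusionSystem T} (hsub : E.IsSubsystemOf F) (hTS : T ≤ S)
    (hN : ∀ s ∈ S, ∀ y ∈ E.hyperfocalSubgroup p, s * y * s⁻¹ ∈ E.hyperfocalSubgroup p)
    (hidx : E.HasPPowerIndexIn F p) : E.hyperfocalSubgroup p = F.hyperfocalSubgroup p := by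
  apply le_antisymm
  · rw [hyperfocalSubgroup, Subgroup.closure_le]
    rintro _ ⟨P, α, x, hP, hα, rfl⟩
    have hle : E.autGroup P ≤ F.autGroup P := Subgroup.closure_mono fun a ha => hsub P ha
    exact mem_hyper F p (hP.trans hTS) (Subgroup.inclusion hle α) (map_pResidual (Subgroup.inclusion hle) hα) x
  · rw [hyperfocalSubgroup, Subgroup.closure_le]
    rintro _ ⟨P, α, x, hP, hα, rfl⟩
    haveI : Finite P := finite_of_le hP
    suffices h : ∀ β ∈ pResidual p (F.autGroup P), ∀ x : P, (x : Ω)⁻¹ * (((β : MulAut P) x : P) : Ω) ∈ E.hyperfocalSubgroup p from h α hα x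
    intro β hβ
    refine Subgroup.closure_induction (p := fun (β : ↥(F.autGroup P)) _ => ∀ x : P, (x : Ω)⁻¹ * (((β : MulAut P) x : P) : Ω) ∈ E.hyperfocalSubgroup p) ?_ ?_ ?_ ?_ hβ
    · intro γ hγ x
      exact core_fix hS hN hidx hTS hP hγ x
    · intro x
      simp
    · intro a b _ _ ha hb x
      have e : (x : Ω)⁻¹ * ((((a * b : F.autGroup P) : MulAut P) x : P) : Ω) = ((x : Ω)⁻¹ * (((b : MulAut P) x : P) : Ω)) * ((((b : MulAut P) x : P) : Ω)⁻¹ * (((a : MulAut P) ((b : MulAut P) x) : P) : Ω)) := by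
        have : ((((a * b : F.autGroup P) : MulAut P) x : P) : Ω) = (((a : MulAut P) ((b : MulAut P) x) : P) : Ω) := rfl
        rw [this]
        group
      rw [e]
      exact Subgroup.mul_mem _ (hb x) (ha _)
    · intro a _ ha x
      have h1 := ha ((a : MulAut P)⁻¹ x)
      have e1 : (a : MulAut P) ((a : MulAut P)⁻¹ x) = x := by simp
      rw [e1] at h1
      have e2 : (x : Ω)⁻¹ * (((((a⁻¹ : F.autGroup P)) : MulAut P) x : P) : Ω) = (((((a : MulAut P)⁻¹ x : P) : Ω))⁻¹ * (x : Ω))⁻¹ := by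
        have : (((((a⁻¹ : F.autGroup P)) : MulAut P) x : P) : Ω) = (((a : MulAut P)⁻¹ x : P) : Ω) := rfl
        rw [this]
        group
      rw [e2]
      exact Subgroup.inv_mem _ h1

theorem ppower_trans (hS : IsPGroup p S) {F : Cfsg.FusionSystem S} {E : Cfsg.FusionSystem T} {Y : Subgroup Ω} {D : Cfsg.FusionSystem Y} (hTS : T ≤ S)
    (hsub : E.IsSubsystemOf F) (hidx : E.HasPPowerIndexIn F p) (hYT : Y ≤ T) (hDidx : D.HasPPowerIndexIn E p) (hY : F.hyperfocalSubgroup p ≤ Y) :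
    D.HasPPowerIndexIn F p := by
  refine ⟨fun P => (hDidx.1 P).trans (hsub P), hY, fun P hP => ?_⟩
  have hPT : P ≤ T := hP.trans hYT
  haveI : Finite P := finite_of_le (hPT.trans hTS)
  rw [Subgroup.map_le_iff_le_comap]
  apply (Subgroup.closure_le _).2
  intro b hb
  have hb' : (orderOf b).Coprime p := hb
  have hcoe : (orderOf (b : MulAut P)).Coprime p := by
    rw [Subgroup.orderOf_coe]
    exact hb'
  have hres : b ∈ pResidual p (F.autGroup P) := Subgroup.subset_closure hb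
  have hE : (b : MulAut P) ∈ E.autGroup P := hidx.2.2 P hPT ⟨b, hres, rfl⟩
  have hresE : (⟨b, hE⟩ : E.autGroup P) ∈ pResidual p (E.autGroup P) := by
    apply Subgroup.subset_closure
    show (orderOf (⟨b, hE⟩ : E.autGroup P)).Coprime p
    rw [Subgroup.orderOf_mk]
    exact hcoe
  exact hDidx.2.2 P hP ⟨⟨b, hE⟩, hresE, rfl⟩

theorem ppr_same2 {Y₁ Y₂ : Subgroup Ω} (h : Y₁ = Y₂) {D₁ D₁' : Cfsg.FusionSystem Y₁} {D D' : Cfsg.FusionSystem Y₂} (hs : ∀ P, D₁.Hom P = D.Hom P)
    (h1 : D₁.IsPPrimeResidual p D₁') (h2 : D.IsPPrimeResidual p D') : ∀ P, D₁'.Hom P = D'.Hom P :=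
  ppr_same h hs h1 h2

end main

/-- Let F be a saturated fusion system over a finite p-group S and E a normal subsystem of F over T that has p-power index in F. Then every residual limit of E has the same maps as every residual limit of F (the residual limit is reached by alternately passing to the p-residual and the p'-residual subsystem until nothing changes). -/
theorem result {Ω : Type*} [Group Ω] {S : Subgroup Ω} [Finite S] (p : ℕ) [Fact p.Prime] (hS : IsPGroup p S) (F : Cfsg.FusionSystem S) (hF : F.IsSaturated p) {T : Subgroup Ω} (E : Cfsg.FusionSystem T) (hE : E.IsNormalIn F p) (hidx : E.HasPPowerIndexIn F p) {U V : Subgroup Ω} (Finf : Cfsg.FusionSystem U) (hFinf : Finf.IsResidualLimitOf F p) (Einf : Cfsg.FusionSystem V) (hEinf : Einf.IsResidualLimitOf E p) : ∀ P : Subgroup Ω, Finf.Hom P = Einf.Hom P := by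
  have hp : p.Prime := Fact.out
  obtain ⟨⟨hEsat, -, hsub, hsc, hI, -⟩, -⟩ := hE
  have hTS : T ≤ S := hsc.1
  haveI : Finite T := finite_of_le hTS
  have hTp : IsPGroup p T := hS.to_le hTS
  have hN : ∀ s ∈ S, ∀ y ∈ E.hyperfocalSubgroup p, s * y * s⁻¹ ∈ E.hyperfocalSubgroup p :=
    fun s hs y hy => hyper_normal hsc hI hs hy
  have hyeq := hyp_eq hS hsub hTS hN hidx
  have hHF : F.hyperfocalSubgroup p ≤ T := hidx.2.1
  cases hFinf with
  | stable _ _ hhy hst =>
    have hTeq : T = S := le_antisymm hTS (hhy.ge.trans hHF)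
    subst hTeq
    have hsame : ∀ P, E.Hom P = F.Hom P := fun P =>
      Set.Subset.antisymm (hsub P) (le_of_ppower hS hF (fun _ => subset_rfl) le_rfl le_rfl hidx P)
    intro P
    exact (limit_stable hEinf hp inferInstance hS hhy hst hsame P).symm
  | step _ _ D D' hD hD' h' =>
    cases hEinf with
    | stable _ _ hhyE hstE =>
      have hYT : F.hyperfocalSubgroup p = T := hyeq.symm.trans hhyE
      have hDE : ∀ P, D.Hom P = E.Hom P := fun P =>
        Set.Subset.antisymm (le_of_ppower hS hD.1 hD.2.1 (hyper_le F p) hHF hidx P)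
          (le_of_ppower hS hEsat hsub hTS hYT.ge hD.2 P)
      have h2 := ppr_same hYT hDE hD' hstE
      exact limit_stable h' hp inferInstance hTp hhyE hstE h2
    | step _ _ D₁ D₁' hD₁ hD₁' h₁' =>
      have hD₁idx : D₁.HasPPowerIndexIn F p := ppower_trans hS hTS hsub hidx (hyper_le E p) hD₁.2 hyeq.ge
      have hsub₁ : D₁.IsSubsystemOf F := hD₁idx.1
      have hsame : ∀ P, D₁.Hom P = D.Hom P := fun P =>
        Set.Subset.antisymm (le_of_ppower hS hD₁.1 hsub₁ ((hyper_le E p).trans hTS) hyeq.le hD.2 P)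
          (le_of_ppower hS hD.1 hD.2.1 (hyper_le F p) hyeq.ge hD₁idx P)
      have h3 := ppr_same2 hyeq hsame hD₁' hD'
      haveI : Finite (F.hyperfocalSubgroup p) := finite_of_le (hyper_le F p)
      exact limit_uniq h' hp inferInstance (hS.to_le (hyper_le F p)) (fun P => (h3 P).symm) h₁'


end Cfsg.Agent.S5203
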