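import Cfsg.Statements.S5226
import Mathlib
import Cfsg.Agent.Lib.FusChain

set_option autoImplicit false
open Cfsg

namespace Cfsg.Agent.S5226

open Cfsg.Agent.Lib.FusChain Cfsg.Agent.Lib.FusNorm Cfsg.Agent.Lib.FusBasic Cfsg.FusionSystem

/-- Let F be a saturated fusion system over a finite p-group S and Q a subgroup of S. Then Q is normal in F (F equals the normalizer system of Q) if and only if Q is strongly closed in F and admits a central series 1 = Q₀ ≤ Q₁ ≤ ⋯ ≤ Qₙ = Q ([Qᵢ₊₁, Q] ≤ Qᵢ) all of whose proper terms are weakly closed in F. -/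
theorem result {Ω : Type*} [Group Ω] {S : Subgroup Ω} [Finite S] (p : ℕ) [Fact p.Prime] (hS : IsPGroup p S) (F : Cfsg.FusionSystem S) (hF : F.IsSaturated p) (Q : Subgroup Ω) : F.IsNormal Q ↔ F.StronglyClosed Q ∧ ∃ (n : ℕ) (C : Fin (n + 1) → Subgroup Ω), C 0 = ⊥ ∧ C (Fin.last n) = Q ∧ Monotone C ∧ (∀ i : Fin n, ⁅C i.succ, Q⁆ ≤ C i.castSucc) ∧ ∀ i : Fin n, F.WeaklyClosed (C i.castSucc) := by
  constructor
  · intro hQ
    obtain ⟨n, Qs, h0, hl, hm, hc⟩ := series_of_normal hS F hQ
    have hscw : ∀ {A : Subgroup Ω}, F.StronglyClosed A → F.WeaklyClosed A := by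
      intro A hA
      haveI : Finite A := finite_of_le hA.1
      refine ⟨hA.1, fun φ hφ => ?_⟩
      apply Subgroup.eq_of_le_of_card_ge
      · rintro _ ⟨x, rfl⟩
        exact hA.2 A le_rfl φ hφ x
      · rw [MonoidHom.range_eq_map, Subgroup.card_map_of_injective (inj F hφ)]
        exact (Subgroup.card_top (G := A)).symm.le
    refine ⟨stronglyClosed_of_normal F hQ, n, Qs, h0, hl, hm, fun i => ?_, fun i => ?_⟩
    · rw [Subgroup.commutator_comm]
      exact (hc i).2
    · apply hscw
      obtain ⟨i, hi⟩ := i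
      cases i with
      | zero =>
        have : Fin.castSucc (⟨0, hi⟩ : Fin n) = 0 := rfl
        rw [this, h0]
        exact sc_bot F
      | succ k =>
        have : Fin.castSucc (⟨k + 1, hi⟩ : Fin n) = Fin.succ ⟨k, by omega⟩ := rfl
        rw [this]
        exact (hc ⟨k, by omega⟩).1
  · rintro ⟨hsc, n, C, h0, hl, hm, hc, hw⟩
    let D : ℕ → Subgroup Ω := fun i => C ⟨min i n, by omega⟩
    have hD : ∀ i (hi : i ≤ n), D i = C ⟨i, by omega⟩ := by
      intro i hi
      show C _ = _
      congr 2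
      exact Nat.min_eq_left hi
    refine normal_of_central_series hS F hF hsc n D ?_ ?_ ?_ ?_ ?_
    · rw [hD 0 (by omega)]
      exact h0
    · rw [hD n le_rfl]
      exact hl
    · intro i hi
      rw [hD i (by omega), hD (i + 1) (by omega)]
      apply hm
      simp [Fin.le_def]
    · intro i hi
      rw [hD (i + 1) (by omega), hD i (by omega)]
      exact hc ⟨i, hi⟩
    · intro i hi
      rw [hD i (by omega)]
      exact hw ⟨i, hi⟩


end Cfsg.Agent.S5226
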