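import Cfsg.Statements.S5236
import Mathlib
import Cfsg.Agent.Lib.FusSolv
import Cfsg.Agent.Lib.FusNorm2
import Cfsg.Agent.Lib.PGrp5

set_option autoImplicit false
open Cfsg

namespace Cfsg.Agent.S5236

open Cfsg.FusionSystem Cfsg.Agent.Lib.FusBasic Cfsg.Agent.Lib.FusAut Cfsg.Agent.Lib.FusSat Cfsg.Agent.Lib.FusNorm Cfsg.Agent.Lib.FusNorm2 Cfsg.Agent.Lib.FusSolv

/-- restricting an automorphism acting trivially modulo `W`. -/
theorem fix_of_omega {Ω : Type*} [Group Ω] {p : ℕ} [Fact p.Prime] (hp : p ≠ 2) {R W : Subgroup Ω} [Finite R] (hWR : W ≤ R)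
    (hRp : IsPGroup p R) (κ : MulAut R) (hco : (orderOf κ).Coprime p)
    (hκW : ∀ x : R, (x : Ω) ∈ W → ((κ x : R) : Ω) ∈ W)
    (hfix : ∀ x : R, (x : Ω) ∈ W → (x : Ω) ^ p = 1 → κ x = x) :
    ∀ x : R, (x : Ω) ∈ W → κ x = x := by
  haveI : Finite W := Finite.of_injective (Subgroup.inclusion hWR) (Subgroup.inclusion_injective hWR)
  have hWp : IsPGroup p W := hRp.of_injective (Subgroup.inclusion hWR) (Subgroup.inclusion_injective hWR)
  let f : W →* W :=
    { toFun := fun w => ⟨κ ⟨w, hWR w.2⟩, hκW _ w.2⟩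
      map_one' := by
        apply Subtype.ext
        show ((κ (1 : R) : R) : Ω) = 1
        rw [map_one]
        rfl
      map_mul' := fun a b => by
        apply Subtype.ext
        show ((κ ((⟨a, hWR a.2⟩ : R) * ⟨b, hWR b.2⟩) : R) : Ω) = ((κ ⟨a, hWR a.2⟩ : R) : Ω) * ((κ ⟨b, hWR b.2⟩ : R) : Ω)
        rw [map_mul]
        rfl }
  have hf : ∀ w : W, ((f w : W) : Ω) = κ ⟨w, hWR w.2⟩ := fun _ => rfl
  have hinj : Function.Injective f := by
    intro a b h
    have h1 : κ ⟨a, hWR a.2⟩ = κ ⟨b, hWR b.2⟩ := Subtype.ext (congrArg (fun z : W => (z : Ω)) h)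
    have h2 := κ.injective h1
    exact Subtype.ext (congrArg (fun z : R => (z : Ω)) h2)
  let a : MulAut W := MulEquiv.ofBijective f (Finite.injective_iff_bijective.1 hinj)
  have ha : ∀ w : W, ((a w : W) : Ω) = κ ⟨w, hWR w.2⟩ := fun _ => rfl
  have hpow : ∀ (n : ℕ) (w : W), (((a ^ n) w : W) : Ω) = (κ ^ n) ⟨w, hWR w.2⟩ := by
    intro n
    induction n with
    | zero => intro w; rfl
    | succ n ih =>
      intro w
      rw [pow_succ, pow_succ, MulAut.mul_apply, MulAut.mul_apply, ih (a w)]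
      have : (⟨((a w : W) : Ω), hWR (a w).2⟩ : R) = κ ⟨w, hWR w.2⟩ := Subtype.ext (ha w)
      rw [this]
  have h1 : a ^ orderOf κ = 1 := by
    refine MulEquiv.ext (fun w => Subtype.ext ?_)
    rw [hpow, pow_orderOf_eq_one]
    rfl
  have hcoa : (orderOf a).Coprime p := Nat.Coprime.coprime_dvd_left (orderOf_dvd_of_pow_eq_one h1) hco
  have htriv := Cfsg.Agent.Lib.PGrp.aut_trivial_of_fix_omega hp hWp a hcoa (fun w hw => by
    apply Subtype.ext
    refine (ha w).trans ?_
    have h2 := hfix ⟨w, hWR w.2⟩ w.2 (by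
      have := congrArg (fun z : W => (z : Ω)) hw
      simpa using this)
    exact congrArg (fun z : R => (z : Ω)) h2)
  intro x hx
  have h3 : a ⟨x, hx⟩ = ⟨x, hx⟩ := by rw [htriv]; rfl
  apply Subtype.ext
  have h4 := ha ⟨x, hx⟩
  rw [h3] at h4
  exact h4.symm

/-- Let p be an odd prime, F a saturated fusion system over a finite p-group S and P a subgroup of S strongly closed in F. Then P is normal in F if and only if Ω₁(P) (the subgroup generated by the elements of order p of P) has a chain of subgroups 1 = Q₀ ≤ Q₁ ≤ ⋯ ≤ Qₙ = Ω₁(P), each strongly closed in F, with [Qᵢ₊₁, P] ≤ Qᵢ for all i. -/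
theorem result {Ω : Type*} [Group Ω] {S : Subgroup Ω} [Finite S] (p : ℕ) [Fact p.Prime] (hS : IsPGroup p S) (F : Cfsg.FusionSystem S) (hF : F.IsSaturated p) (hp : p ≠ 2) (P : Subgroup Ω) (hP : F.StronglyClosed P) : F.IsNormal P ↔ ∃ (n : ℕ) (Q : Fin (n + 1) → Subgroup Ω), Q 0 = ⊥ ∧ Q (Fin.last n) = Cfsg.omegaOne p P ∧ Monotone Q ∧ (∀ i : Fin (n + 1), F.StronglyClosed (Q i)) ∧ ∀ i : Fin n, ⁅Q i.succ, P⁆ ≤ Q i.castSucc := by
  constructor
  · intro hQ
    have hPS := hQ.1
    haveI : Finite P := finite_of_le hPS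
    obtain ⟨n, Qs, h0, hl, hm, hc⟩ := series_of_normal hS F hQ
    obtain ⟨O, hO⟩ : ∃ O, O = Cfsg.omegaOne p P := ⟨_, rfl⟩
    rw [← hO]
    have hOP : O ≤ P := by
      rw [hO, Cfsg.omegaOne, Subgroup.closure_le]
      exact fun x hx => hx.1
    have hαO : ∀ (α : MulAut P) (y : P), (y : Ω) ∈ O → ((α y : P) : Ω) ∈ O := by
      intro α y hy
      have h1 : O ≤ ((O.subgroupOf P).comap α.toMonoidHom).map P.subtype := by
        conv_lhs => rw [hO]
        rw [Cfsg.omegaOne, Subgroup.closure_le]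
        rintro z ⟨hz, hzp⟩
        refine ⟨⟨z, hz⟩, ?_, rfl⟩
        show ((α ⟨z, hz⟩ : P) : Ω) ∈ O
        rw [hO]
        refine Subgroup.subset_closure ⟨(α _).2, ?_⟩
        have h2 : (⟨z, hz⟩ : P) ^ p = 1 := Subtype.ext hzp
        have h3 : (α ⟨z, hz⟩) ^ p = 1 := by rw [← map_pow, h2, map_one]
        exact congrArg (fun w : P => (w : Ω)) h3
      obtain ⟨w, hw, e⟩ := h1 hy
      have h2 : w = y := Subtype.ext e
      subst h2
      exact hw
    have hOsc : F.StronglyClosed O := by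
      refine ⟨hOP.trans hPS, fun R hR φ hφ x => ?_⟩
      obtain ⟨α, hα, he⟩ := (normal_iff_ext hS F hF hPS).1 hQ R (hR.trans hOP) φ hφ
      rw [← he x]
      exact hαO α _ (hR x.2)
    refine ⟨n, fun i => Qs i ⊓ O, ?_, ?_, ?_, ?_, ?_⟩
    · show Qs 0 ⊓ O = ⊥
      rw [h0, bot_inf_eq]
    · show Qs (Fin.last n) ⊓ O = O
      rw [hl]
      exact inf_eq_right.2 hOP
    · exact fun a b h => inf_le_inf_right _ (hm h)
    · intro i
      refine Fin.cases ?_ (fun j => ?_) i
      · show F.StronglyClosed (Qs 0 ⊓ O)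
        rw [h0, bot_inf_eq]
        exact sc_bot F
      · exact sc_inf (hc j).1 hOsc
    · intro i
      rw [Subgroup.commutator_le]
      intro a ha b hb
      refine ⟨?_, ?_⟩
      · apply (hc i).2
        rw [Subgroup.commutator_comm]
        exact Subgroup.commutator_mem_commutator ha.1 hb
      · have h1 := hαO (MulAut.conj (⟨b, hb⟩ : P)) ⟨a⁻¹, hOP (O.inv_mem ha.2)⟩ (O.inv_mem ha.2)
        have h2 : ((MulAut.conj (⟨b, hb⟩ : P) ⟨a⁻¹, hOP (O.inv_mem ha.2)⟩ : P) : Ω) = b * a⁻¹ * b⁻¹ := rfl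
        rw [h2] at h1
        have e : a * b * a⁻¹ * b⁻¹ = a * (b * a⁻¹ * b⁻¹) := by group
        show a * b * a⁻¹ * b⁻¹ ∈ O
        rw [e]
        exact O.mul_mem ha.2 h1
  · rintro ⟨n, Q, h0, hl, hm, hsc, hcomm⟩
    rw [normal_iff_sc_radical hS F hF]
    refine ⟨hP, fun R hc hr => ?_⟩
    have hRS : R ≤ S := hc.1
    haveI : Finite R := finite_of_le hRS
    have hRp : IsPGroup p R := hS.to_le hRS
    have hcent := hc.2 R (isConj_refl F hRS)
    apply le_of_conj_mem_core hS F hr hcent hP.1 (sc_normalizer F hP)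
    intro v hv hvn
    have hstep : ∀ i : Fin n, Q i.castSucc ≤ Q i.succ := fun i => hm (Fin.castSucc_lt_succ).le
    let K : Subgroup (MulAut R) := stabPair R (P ⊓ R) ⊤ le_top ⊓
      ⨅ i : Fin n, stabPair R (Q i.castSucc) (Q i.succ) (hstep i)
    have hKmem : ∀ κ : MulAut R, κ ∈ K ↔ κ ∈ stabPair R (P ⊓ R) ⊤ le_top ∧
        ∀ i : Fin n, κ ∈ stabPair R (Q i.castSucc) (Q i.succ) (hstep i) := by
      intro κ
      simp only [K, Subgroup.mem_inf, Subgroup.mem_iInf]
    refine mem_core_of_stable F K ?_ ?_ ?_ (autInduced_le_autGroup F hRS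
      (mem_autInducedBy'.2 ⟨v, hP.1 hv, fun x => rfl⟩))
    · intro γ hγ κ hκ
      rw [hKmem] at hκ ⊢
      refine ⟨stabPair_conj (fun _ _ => trivial) (fun x hx => ?_) hκ.1, fun i => ?_⟩
      · exact ⟨sc_aut F hP hRS hγ x hx.1, (γ x).2⟩
      · refine stabPair_conj (fun x hx => ?_) (fun x hx => ?_) (hκ.2 i)
        · exact sc_aut F (hsc _) hRS (Subgroup.inv_mem _ hγ) x hx
        · exact sc_aut F (hsc _) hRS hγ x hx
    · intro κ hκ hκA hco
      rw [hKmem] at hκ
      have hfix : ∀ i : Fin (n + 1), ∀ x : R, (x : Ω) ∈ Q i → κ x = x := by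
        intro i
        refine Fin.induction ?_ (fun j ih => ?_) i
        · intro x hx
          rw [h0] at hx
          have : x = 1 := Subtype.ext (Subgroup.mem_bot.1 hx)
          rw [this, map_one]
        · intro x hx
          have h1 := hκ.2 j x hx
          apply aut_fix_step hRp hco
          exact ih _ h1
      have hWinv : ∀ x : R, (x : Ω) ∈ P ⊓ R → ((κ x : R) : Ω) ∈ P ⊓ R := by
        intro x hx
        have h1 := hκ.1 x trivial
        have e : ((κ x : R) : Ω) = x * ((x : Ω)⁻¹ * ((κ x : R) : Ω)) := by group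
        rw [e]
        exact (P ⊓ R).mul_mem hx h1
      have hW := fix_of_omega hp (inf_le_right : P ⊓ R ≤ R) hRp κ hco hWinv (fun x hx hxp => by
        apply hfix (Fin.last n)
        rw [hl]
        exact Subgroup.subset_closure ⟨hx.1, hxp⟩)
      refine MulEquiv.ext (fun x => ?_)
      show κ x = x
      apply aut_fix_step hRp hco
      exact hW _ (hκ.1 x trivial)
    · rw [hKmem]
      constructor
      · intro x _
        exact conj_in_sc_inf F hP hRS hv hvn x
      · intro i x hx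
        refine conj_in_comm ?_ hv hx
        rw [Subgroup.commutator_comm]
        exact hcomm i


end Cfsg.Agent.S5236
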