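import Cfsg.Statements.S5245
import Mathlib
import Cfsg.Agent.Lib.FusSemi
import Cfsg.Agent.Lib.FusHyp
import Cfsg.Agent.Lib.FusFrat
import Cfsg.Agent.Lib.FusAlp

set_option autoImplicit false
open Cfsg

namespace Cfsg.Agent.S5245


open Cfsg.FusionSystem Cfsg.Agent.Lib.FusBasic Cfsg.Agent.Lib.FusAut Cfsg.Agent.Lib.FusSat Cfsg.Agent.Lib.FusAlp Cfsg.Agent.Lib.FusHyp Cfsg.Agent.Lib.FusFrat Cfsg.Agent.Lib.FusSemi

section
variable {Ω : Type*} [Group Ω] {S : Subgroup Ω} [Finite S] {p : ℕ} [Fact p.Prime]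

theorem sparse_step (hS : IsPGroup p S) {F : Cfsg.FusionSystem S}
    (hxs : ∀ (T : Subgroup Ω) (E : Cfsg.FusionSystem T), E.IsSaturated p → E.IsSubsystemOf F → (T = S ∧ ∀ P : Subgroup Ω, E.Hom P = F.Hom P) ∨ (∀ P : Subgroup Ω, E.Hom P = (Cfsg.innerFusionSystem T).Hom P))
    {Q : Subgroup Ω} (hQS : Q ≤ S) {a : MulAut Q} (ha : a ∈ F.autGroup Q) (hco : Nat.Coprime (orderOf a) p) (hne : a ≠ 1) :
    Q = S ∧ ∀ P : Subgroup Ω, (autSys (Inn Q ⊔ Subgroup.zpowers a) le_sup_left).Hom P = F.Hom P := by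
  haveI : Finite Q := finite_of_le hQS
  have hQp := hS.to_le hQS
  have hsat : (autSys (Inn Q ⊔ Subgroup.zpowers a) le_sup_left).IsSaturated p :=
    autSys_saturated hQp (Subgroup.zpowers a) (by rw [Nat.card_zpowers]; exact hco)
  have hsub : (autSys (Inn Q ⊔ Subgroup.zpowers a) le_sup_left).IsSubsystemOf F := by
    rintro P φ ⟨hP, b, hb, e⟩
    have hb' : b ∈ F.autGroup Q := (sup_le (inn_le_autGroup F hQS) (Subgroup.zpowers_le.2 ha)) hb
    exact res_mem' F hP ((mem_autGroup_iff F hQS).1 hb') e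
  rcases hxs Q _ hsat hsub with h | h
  · exact h
  · exfalso
    have h1 : Q.subtype.comp a.toMonoidHom ∈ (autSys (Inn Q ⊔ Subgroup.zpowers a) le_sup_left).Hom Q :=
      ⟨le_rfl, a, Subgroup.mem_sup_right (Subgroup.mem_zpowers a), fun x => rfl⟩
    rw [h] at h1
    obtain ⟨hh, g, hg, e⟩ := h1
    have h0 : a = MulAut.conj ⟨g, hg⟩ := by
      ext x
      exact e x
    obtain ⟨k, hk⟩ := hQp ⟨g, hg⟩
    have h2 : a ^ (p ^ k) = 1 := by
      rw [h0, ← map_pow, hk, map_one]
    have h3 := orderOf_dvd_of_pow_eq_one h2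
    have h4 : orderOf a = 1 := Nat.Coprime.eq_one_of_dvd (hco.pow_right k) h3
    exact hne (orderOf_eq_one_iff.1 h4)

theorem exists_aut (hS : IsPGroup p S) {F : Cfsg.FusionSystem S} (hF : F.IsSaturated p)
    (hni : ¬ ∀ P : Subgroup Ω, F.Hom P = (Cfsg.innerFusionSystem S).Hom P) :
    ∃ Q, Q ≤ S ∧ ∃ a ∈ F.autGroup Q, ∃ q : ℕ, q.Prime ∧ q ≠ p ∧ orderOf a = q := by
  by_contra hcon
  push_neg at hcon
  have hp : p.Prime := Fact.out
  have hall : ∀ Q, Q ≤ S → ∀ a ∈ F.autGroup Q, Nat.Coprime (orderOf a) p → a = 1 := by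
    intro Q hQ a ha hco
    haveI : Finite Q := finite_of_le hQ
    by_contra hne
    have h1 : orderOf a ≠ 1 := fun h => hne (orderOf_eq_one_iff.1 h)
    have hq := Nat.minFac_prime h1
    have hd := Nat.minFac_dvd (orderOf a)
    have hqp : (orderOf a).minFac ≠ p := by
      intro h
      rw [h] at hd
      have := Nat.Coprime.eq_one_of_dvd hco.symm hd
      exact hp.one_lt.ne' this
    have h2 : orderOf (a ^ (orderOf a / (orderOf a).minFac)) = (orderOf a).minFac :=
      orderOf_pow_orderOf_div (orderOf_pos a).ne' hd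
    exact hcon Q hQ _ (Subgroup.pow_mem _ ha _) _ hq hqp h2
  apply hni
  intro P
  apply Set.Subset.antisymm
  · have hle : F ≤ Cfsg.innerFusionSystem S := by
      apply le_of_autGroup_le hS F hF
      intro R hR a ha
      have hRS := hR.1
      have hFA := fullyAutomized_of_fullyNormalized hS F hF hR
      obtain ⟨β, hβ, c, hc, e⟩ := frattini_aut F hFA ⟨a, ha⟩
      have h1 : pResidual p (F.autGroup R) ≤ ⊥ := by
        apply (Subgroup.closure_le _).2
        intro x hx
        have hx' : Nat.Coprime (orderOf x) p := hx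
        have hx'' : Nat.Coprime (orderOf (x : MulAut R)) p := by
          rw [Subgroup.orderOf_coe]
          exact hx'
        have h2 := hall R hRS x x.2 hx''
        show x = 1
        exact Subtype.ext h2
      have h3 : β = 1 := h1 hβ
      have e' : a = ((β : F.autGroup R) : MulAut R) * c := e
      rw [h3] at e'
      have e2 : a = c := by simpa using e'
      rw [e2]
      exact autInduced_le_autGroup _ hRS hc
    exact hle P
  · rintro φ ⟨hP, g, hg, e⟩
    exact hom_congr F (F.conj_mem hP hg) e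

end

/-- Let F be an extremely sparse fusion system over a finite p-group S (saturated, not the inner system, and every saturated fusion system over any subgroup T of S contained in F is F itself or the inner system of T). Then S is normal in F, the focal and hyperfocal subgroups of F are both S, and Aut_F(S) is generated by the inner automorphisms of S together with a single automorphism of prime order q ≠ p (F is the fusion system of the semidirect product of S by a cyclic group of prime order). -/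
theorem result {Ω : Type*} [Group Ω] {S : Subgroup Ω} [Finite S] (p : ℕ) [Fact p.Prime] (hS : IsPGroup p S) (F : Cfsg.FusionSystem S) (hF : F.IsSaturated p) (hxs : ¬ (∀ P : Subgroup Ω, F.Hom P = (Cfsg.innerFusionSystem S).Hom P) ∧ ∀ (T : Subgroup Ω) (E : Cfsg.FusionSystem T), E.IsSaturated p → E.IsSubsystemOf F → (T = S ∧ ∀ P : Subgroup Ω, E.Hom P = F.Hom P) ∨ (∀ P : Subgroup Ω, E.Hom P = (Cfsg.innerFusionSystem T).Hom P)) : F.IsNormal S ∧ F.focalSubgroup = S ∧ F.hyperfocalSubgroup p = S ∧ ∃ (q : ℕ) (β : MulAut ↥S), q.Prime ∧ q ≠ p ∧ β ∈ F.autGroup S ∧ orderOf β = q ∧ (F.autGroup S : Subgroup (MulAut ↥S)) = Cfsg.Inn ↥S ⊔ Subgroup.zpowers β := by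
  have hp : p.Prime := Fact.out
  obtain ⟨hni, hsp⟩ := hxs
  obtain ⟨Q, hQS, a, ha, q, hq, hqp, horder⟩ := exists_aut hS hF hni
  have hco : Nat.Coprime (orderOf a) p := by
    rw [horder]
    exact (Nat.coprime_primes hq hp).2 hqp
  have hne : a ≠ 1 := by
    intro h
    rw [h, orderOf_one] at horder
    exact hq.one_lt.ne horder
  obtain ⟨rfl, hE⟩ := sparse_step hS hsp hQS ha hco hne
  have hA : F.autGroup Q = Inn Q ⊔ Subgroup.zpowers a := by
    ext γ
    rw [mem_autGroup_iff F le_rfl, ← hE, ← mem_autGroup_iff (autSys (Inn Q ⊔ Subgroup.zpowers a) le_sup_left) le_rfl, autGroup_autSys]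
  have hhyp : F.hyperfocalSubgroup p = Q := by
    have hT := hyper_stronglyClosed hS F hF
    have haH : Q.subtype.comp a.toMonoidHom ∈ F.Hom Q := (mem_autGroup_iff F le_rfl).1 ha
    obtain ⟨b, hb, eb⟩ := aut_of hT (res_mem F hT.1 haH)
    by_cases hb1 : b = 1
    · exfalso
      apply hne
      ext x
      have ht : (x : Ω)⁻¹ * ((a x : Q) : Ω) ∈ F.hyperfocalSubgroup p := by
        apply mem_hyper F p le_rfl ⟨a, ha⟩ _ x
        apply Subgroup.subset_closure
        show Nat.Coprime (orderOf (⟨a, ha⟩ : ↥(F.autGroup Q))) p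
        rw [Subgroup.orderOf_mk]
        exact hco
      set t : Q := x⁻¹ * a x with htd
      have ht' : (t : Ω) ∈ F.hyperfocalSubgroup p := ht
      have hat : a t = t := by
        have h1 := eb ⟨t, ht'⟩
        rw [hb1] at h1
        exact Subtype.ext h1.symm
      have hax : a x = x * t := by
        rw [htd]
        group
      have hk : ∀ k : ℕ, (a ^ k) x = x * t ^ k := by
        intro k
        induction k with
        | zero => simp
        | succ k ih =>
          rw [pow_succ', MulAut.mul_apply, ih, map_mul, hax, map_pow, hat, pow_succ']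
          group
      have h1 := hk q
      rw [← horder, pow_orderOf_eq_one, horder] at h1
      have h2 : t ^ q = 1 := by
        have h3 : x = x * t ^ q := h1
        exact mul_eq_left.1 h3.symm
      obtain ⟨m, hm⟩ := hS t
      have h4 : orderOf t ∣ q := orderOf_dvd_of_pow_eq_one h2
      have h5 : orderOf t ∣ p ^ m := orderOf_dvd_of_pow_eq_one hm
      have h6 : Nat.Coprime q (p ^ m) := ((Nat.coprime_primes hq hp).2 hqp).pow_right m
      have h7 : orderOf t = 1 := Nat.eq_one_of_dvd_coprimes h6 h4 h5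
      have h8 : t = 1 := orderOf_eq_one_iff.1 h7
      rw [hax, h8, mul_one]
      rfl
    · haveI : Finite (F.hyperfocalSubgroup p) := finite_of_le hT.1
      have hbq : b ^ q = 1 := by
        have hk : ∀ (k : ℕ) (u : F.hyperfocalSubgroup p), (((b ^ k) u : F.hyperfocalSubgroup p) : Ω) = (((a ^ k) ⟨u, hT.1 u.2⟩ : Q) : Ω) := by
          intro k
          induction k with
          | zero => intro u; rfl
          | succ k ih =>
            intro u
            rw [pow_succ, MulAut.mul_apply, ih, pow_succ, MulAut.mul_apply]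
            have h1 := eb u
            have h2 : (⟨((b u : F.hyperfocalSubgroup p) : Ω), hT.1 (Subtype.coe_prop _)⟩ : Q) = a ⟨u, hT.1 u.2⟩ := Subtype.ext h1
            rw [h2]
        ext u
        rw [hk, ← horder, pow_orderOf_eq_one]
        rfl
      have hob : orderOf b ∣ q := orderOf_dvd_of_pow_eq_one hbq
      have hcob : Nat.Coprime (orderOf b) p := Nat.Coprime.coprime_dvd_left hob ((Nat.coprime_primes hq hp).2 hqp)
      exact (sparse_step hS hsp hT.1 hb hcob hb1).1
  refine ⟨⟨le_rfl, fun P φ hφ => ?_⟩, ?_, hhyp, q, a, hq, hqp, ha, horder, hA⟩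
  · rw [← hE] at hφ
    obtain ⟨hP, c, hc, e⟩ := hφ
    have hcF : Q.subtype.comp c.toMonoidHom ∈ F.Hom Q := (mem_autGroup_iff F le_rfl).1 (hA ▸ hc)
    have hle : P ⊔ Q ≤ Q := sup_le hP le_rfl
    refine ⟨_, res_mem F hle hcF, fun x => (e x).symm, ?_⟩
    ext y
    constructor
    · rintro ⟨z, hz, rfl⟩
      exact Subtype.coe_prop _
    · intro hy
      refine ⟨⟨((c⁻¹ ⟨y, hy⟩ : Q) : Ω), (le_sup_right : Q ≤ P ⊔ Q) (Subtype.coe_prop _)⟩, Subgroup.mem_subgroupOf.2 (Subtype.coe_prop _), ?_⟩
      show ((c (⟨((c⁻¹ ⟨y, hy⟩ : Q) : Ω), _⟩ : Q) : Q) : Ω) = y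
      have h1 : (⟨((c⁻¹ ⟨y, hy⟩ : Q) : Ω), Subtype.coe_prop _⟩ : Q) = c⁻¹ ⟨y, hy⟩ := rfl
      simp
  · apply le_antisymm
    · apply (Subgroup.closure_le _).2
      rintro _ ⟨P, φ, x, hφ, rfl⟩
      exact Subgroup.mul_mem _ (Subgroup.inv_mem _ (src_le F hφ x.2)) (val_mem F hφ x)
    · refine hhyp.ge.trans ?_
      apply Subgroup.closure_mono
      rintro _ ⟨P, α, x, hP, hα, rfl⟩
      exact ⟨P, P.subtype.comp (α : MulAut P).toMonoidHom, x, (mem_autGroup_iff F hP).1 α.2, rfl⟩


end Cfsg.Agent.S5245
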