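import Cfsg.Statements.S5246
import Mathlib
import Cfsg.Agent.Lib.FusStable

set_option autoImplicit false
open Cfsg

namespace Cfsg.Agent.S5246


open Cfsg.Agent.Lib.H1Core Cfsg.Agent.Lib.FusGroup Cfsg.Agent.Lib.SylowTools Cfsg.Agent.Lib.FusStable Cfsg.FusionSystem

/-- Let p be an odd prime, G a finite group and P a Sylow p-subgroup. Call a fusion system F p-stable when, for every fully normalized subgroup Q and every χ ∈ Aut_F(Q) acting quadratically on Q (that is, χ fixes a⁻¹χ(a) for every a ∈ Q; equivalently χ(a⁻¹)·a·χ(a⁻¹)·χ(χ(a)) = 1), χ lies in O_p(Aut_F(Q)). Then G is p-stable in the normalizer form (for every p-subgroup Q and x ∈ N_G(Q) with [Q, x, x] = 1, the image of x lies in O_p(N_G(Q)/C_G(Q))) if and only if the fusion system of G on P is p-stable. -/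
theorem result {Ω : Type*} [Group Ω] [Finite Ω] {p : ℕ} [Fact p.Prime] (hp : p ≠ 2) (P : Sylow p Ω) : Cfsg.IsNormalizerPStable p Ω ↔ (∀ Q : Subgroup Ω, (Cfsg.groupFusionSystem (P : Subgroup Ω)).IsFullyNormalized Q → ∀ χ : MulAut ↥Q, χ ∈ (Cfsg.groupFusionSystem (P : Subgroup Ω)).autGroup Q → (∀ a : ↥Q, (χ a⁻¹) * a * (χ a⁻¹) * (χ (χ a)) = 1) → χ ∈ ((Cfsg.pCore p ↥((Cfsg.groupFusionSystem (P : Subgroup Ω)).autGroup Q)).map ((Cfsg.groupFusionSystem (P : Subgroup Ω)).autGroup Q).subtype : Subgroup (MulAut ↥Q))) := by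
  have hFaut : ∀ {Q : Subgroup Ω}, Q ≤ (P : Subgroup Ω) → (Cfsg.groupFusionSystem (P : Subgroup Ω)).autGroup Q = autInducedBy ⊤ Q :=
    fun hQ => autGroup_eq hQ
  constructor
  · intro hst Q hQ χ hχ hq
    have hQP : Q ≤ (P : Subgroup Ω) := hQ.1
    rw [hFaut hQP] at hχ
    obtain ⟨g, -, hg⟩ := mem_autInducedBy_iff.1 hχ
    have hn := mem_normalizer_of_aut χ hg
    have hQuad : IsQuad Q g := (quad_iff hg).1 hq
    have hc := (isQuad_iff_commutator hn).1 hQuad
    have h1 := hst Q (pgroup_of_le P hQP) g hn hc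
    have hn' : 1 * g * 1⁻¹ ∈ Subgroup.normalizer ((Q : Subgroup Ω) : Set Ω) := by simpa using hn
    have h2 := (key_core (p := p) Q Q 1 (map_conj_one Q).symm g hn hn').1 h1
    rw [mem_map_pCore_iff (hFaut hQP)]
    refine ⟨_, h2, ?_⟩
    ext x
    show (1 * g * 1⁻¹) * (x : Ω) * (1 * g * 1⁻¹)⁻¹ = ((χ x : Q) : Ω)
    rw [hg x]
    simp
  · intro hst Q hQp g hg hc
    obtain ⟨h, hh⟩ := exists_conj_le_sylow P hQp
    obtain ⟨k, hk, hkf⟩ := exists_fullyNormalized P hh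
    rw [map_conj_map_conj] at hk hkf
    set R := Q.map (MulAut.conj (k * h)).toMonoidHom with hR
    have hg' : (k * h) * g * (k * h)⁻¹ ∈ Subgroup.normalizer ((R : Subgroup Ω) : Set Ω) :=
      conj_mem_normalizer_map (k * h) hg
    refine (key_core (p := p) Q R (k * h) hR g hg hg').2 ?_
    have hQuad : IsQuad Q g := (isQuad_iff_commutator hg).2 hc
    have hQuad' : IsQuad R ((k * h) * g * (k * h)⁻¹) := isQuad_map _ hQuad
    have hv : ∀ x : R, (((autOf R ⟨_, hg'⟩ : MulAut R) x : R) : Ω) = ((k * h) * g * (k * h)⁻¹) * (x : Ω) * ((k * h) * g * (k * h)⁻¹)⁻¹ := fun _ => rfl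
    have h3 := hst R hkf (autOf R ⟨_, hg'⟩) (by
      rw [hFaut hk]
      exact mem_autInducedBy_iff.2 ⟨_, trivial, hv⟩) ((quad_iff hv).2 hQuad')
    rw [mem_map_pCore_iff (hFaut hk)] at h3
    obtain ⟨a, ha, hae⟩ := h3
    have e : a = autTo R ⟨_, hg'⟩ := Subtype.ext hae
    rwa [← e]


end Cfsg.Agent.S5246
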