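import Cfsg.Statements.S5247
import Mathlib
import Cfsg.Agent.Lib.FusStable
import Cfsg.Agent.Lib.FusSat
import Cfsg.Agent.S5096

set_option autoImplicit false
open Cfsg

namespace Cfsg.Agent.S5247


open Cfsg.Agent.Lib.H1Core Cfsg.Agent.Lib.FusBasic Cfsg.Agent.Lib.FusAut Cfsg.Agent.Lib.FusSat Cfsg.Agent.Lib.FusStable Cfsg.FusionSystem

variable {Ω : Type*} [Group Ω] {S : Subgroup Ω}

theorem quad_congr {Q P : Type*} [Group Q] [Group P] (e : Q ≃* P) {χ : MulAut Q}
    (h : ∀ a : Q, (χ a⁻¹) * a * (χ a⁻¹) * (χ (χ a)) = 1) :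
    ∀ a : P, (MulAut.congr e χ a⁻¹) * a * (MulAut.congr e χ a⁻¹) * (MulAut.congr e χ (MulAut.congr e χ a)) = 1 := by
  intro a
  obtain ⟨b, rfl⟩ := e.surjective a
  have h1 : ∀ c : Q, MulAut.congr e χ (e c) = e (χ c) := by
    intro c
    simp [MulAut.congr]
  have h2 := congrArg e (h b)
  simp only [map_mul, map_one, map_inv] at h2
  rw [← map_inv, h1, h1, h1, map_inv]
  simpa using h2

/-- quadratic elements in abelian automizers of cyclic groups -/
theorem cyclic_case [Finite S] {p : ℕ} [Fact p.Prime] (hS : IsPGroup p S) (F : FusionSystem S) {Q : Subgroup Ω} (hQS : Q ≤ S)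
    (hc : IsCyclic Q) {χ : MulAut Q} (hχ : χ ∈ F.autGroup Q) (hq : ∀ a : Q, (χ a⁻¹) * a * (χ a⁻¹) * (χ (χ a)) = 1) :
    χ ∈ (pCore p (F.autGroup Q)).map (F.autGroup Q).subtype := by
  haveI : Finite Q := finite_of_le hQS
  have hQp : IsPGroup p Q := hS.to_le hQS
  obtain ⟨n, hn⟩ := IsPGroup.iff_card.1 hQp
  have hpow : χ ^ (p ^ n) = 1 := by
    apply quad_pow (fun x => ?_) hq
    rw [← hn]
    exact pow_card_eq_one'
  have hcomm : ∀ a b : MulAut Q, a * b = b * a := by
    intro a b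
    obtain ⟨i, hi⟩ := MonoidHom.map_cyclic a.toMonoidHom
    obtain ⟨j, hj⟩ := MonoidHom.map_cyclic b.toMonoidHom
    refine MulEquiv.ext (fun x => ?_)
    show a (b x) = b (a x)
    have hi' : ∀ g : Q, a g = g ^ i := hi
    have hj' : ∀ g : Q, b g = g ^ j := hj
    rw [hi', hj', hj', hi', ← zpow_mul, ← zpow_mul, mul_comm]
  let c : F.autGroup Q := ⟨χ, hχ⟩
  have hnorm : (Subgroup.zpowers c).Normal := by
    constructor
    intro x hx g
    have : g * x * g⁻¹ = x := by
      apply Subtype.ext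
      show (g : MulAut Q) * x * (g : MulAut Q)⁻¹ = x
      rw [hcomm (g : MulAut Q) x]
      group
    rwa [this]
  have hpg : IsPGroup p (Subgroup.zpowers c) := by
    rintro ⟨x, i, rfl⟩
    refine ⟨n, ?_⟩
    apply Subtype.ext
    apply Subtype.ext
    show ((χ ^ i : MulAut Q)) ^ (p ^ n) = 1
    rw [← zpow_natCast, ← zpow_mul, mul_comm, zpow_mul, zpow_natCast, hpow, one_zpow]
  exact ⟨c, le_pCore hnorm hpg (Subgroup.mem_zpowers c), rfl⟩

/-- Let p be an odd prime and F a saturated fusion system over a finite p-group S. Call a fusion system E (over any subgroup) p-stable when, for every fully E-normalized subgroup Q and every χ ∈ Aut_E(Q) with χ(a⁻¹)·a·χ(a⁻¹)·χ(χ(a)) = 1 for all a ∈ Q (χ acts quadratically), χ lies in O_p(Aut_E(Q)). Then F is p-stable if and only if every normalizer fusion system N_F(R) of every non-cyclic fully F-normalized subgroup R of S is p-stable. -/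
theorem result {Ω : Type*} [Group Ω] {S : Subgroup Ω} [Finite S] (p : ℕ) [Fact p.Prime] (hS : IsPGroup p S) (F : Cfsg.FusionSystem S) (hF : F.IsSaturated p) (hp : p ≠ 2) : (∀ Q : Subgroup Ω, F.IsFullyNormalized Q → ∀ χ : MulAut ↥Q, χ ∈ F.autGroup Q → (∀ a : ↥Q, (χ a⁻¹) * a * (χ a⁻¹) * (χ (χ a)) = 1) → χ ∈ ((Cfsg.pCore p ↥(F.autGroup Q)).map (F.autGroup Q).subtype : Subgroup (MulAut ↥Q))) ↔ ∀ R : Subgroup Ω, F.IsFullyNormalized R → ¬ IsCyclic ↥R → ∀ N : Cfsg.FusionSystem (Cfsg.FusionSystem.normalizerIn S R), F.IsNormalizerSystem R N → (∀ Q : Subgroup Ω, N.IsFullyNormalized Q → ∀ χ : MulAut ↥Q, χ ∈ N.autGroup Q → (∀ a : ↥Q, (χ a⁻¹) * a * (χ a⁻¹) * (χ (χ a)) = 1) → χ ∈ ((Cfsg.pCore p ↥(N.autGroup Q)).map (N.autGroup Q).subtype : Subgroup (MulAut ↥Q))) := by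
  constructor
  · intro hst R hRfn hRc N hN Q hQN χ hχ hq
    have hQ1 : Q ≤ normalizerIn S R := hQN.1
    have hQS : Q ≤ S := hQ1.trans inf_le_left
    haveI : Finite Q := finite_of_le hQS
    obtain ⟨Q', ⟨φ, hφ, hr⟩, hQ'⟩ := exists_fullyNormalized_conj F hQS
    have hQ'S : Q' ≤ S := hQ'.1
    haveI : Finite Q' := finite_of_le hQ'S
    have hle : N.autGroup Q ≤ F.autGroup Q := by
      rw [autGroup, autGroup]
      apply Subgroup.closure_mono
      intro α hα
      have hα' : Q.subtype.comp α.toMonoidHom ∈ N.Hom Q := hα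
      rw [hN Q] at hα'
      exact hα'.1
    have h1 := congr_mem_autGroup F hφ hr (hle hχ)
    have h2 := hst Q' hQ' _ h1 (quad_congr _ hq)
    have hmem : ∀ a ∈ N.autGroup Q, MulAut.congr (isoOf φ (inj F hφ) hr) a ∈ F.autGroup Q' :=
      fun a ha => congr_mem_autGroup F hφ hr (hle ha)
    exact pCore_comap (MulAut.congr (isoOf φ (inj F hφ) hr)).toMonoidHom (MulEquiv.injective _) hmem hχ h2
  · intro hall Q hQ χ hχ hq
    have hQS : Q ≤ S := hQ.1
    by_cases hc : IsCyclic Q
    · exact cyclic_case hS F hQS hc hχ hq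
    obtain ⟨N, hN⟩ := Cfsg.Agent.S5096.result F Q hQS
    have hQN : Q ≤ normalizerIn S Q := le_inf hQS (Subgroup.le_normalizer)
    have hsup : Q ≤ Q ⊔ Q := le_sup_left
    have hsup' : Q ⊔ Q ≤ Q := sup_le le_rfl le_rfl
    -- automorphisms of `Q` in the two systems agree
    have hautEq : N.autGroup Q = F.autGroup Q := by
      apply le_antisymm
      · rw [autGroup, autGroup]
        apply Subgroup.closure_mono
        intro α hα
        have hα' : Q.subtype.comp α.toMonoidHom ∈ N.Hom Q := hα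
        rw [hN Q] at hα'
        exact hα'.1
      · intro α hα
        apply Subgroup.subset_closure
        show Q.subtype.comp α.toMonoidHom ∈ N.Hom Q
        rw [hN Q]
        have hαF := (mem_autGroup_iff F hQS).1 hα
        refine ⟨hαF, hQN, fun x => hQN (α x).2, (Q.subtype.comp α.toMonoidHom).comp (Subgroup.inclusion hsup'), res_mem F hsup' hαF, fun x => rfl, ?_⟩
        ext y
        constructor
        · rintro ⟨x, -, rfl⟩
          exact (α ⟨x, hsup' x.2⟩).2
        · intro hy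
          obtain ⟨x, hx⟩ := α.surjective ⟨y, hy⟩
          refine ⟨⟨x, hsup x.2⟩, x.2, ?_⟩
          show ((α ⟨x, _⟩ : Q) : Ω) = y
          rw [show (⟨x, hsup' (hsup x.2)⟩ : Q) = x from rfl, hx]
    have hQfn : N.IsFullyNormalized Q := by
      refine ⟨hQN, fun Q₂ h => ?_⟩
      obtain ⟨φ, hφ, hr⟩ := h
      have hφ' := N.injective_of_mem hφ
      rw [hN Q] at hφ
      obtain ⟨-, -, -, ψ, hψ, hψ1, hψ2⟩ := hφ
      have : Q₂ = Q := by
        haveI : Finite Q := finite_of_le hQS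
        have hle : Q₂ ≤ Q := by
          rw [← hr]
          rintro _ ⟨x, rfl⟩
          rw [← hψ1 x]
          have h5 : ψ (Subgroup.inclusion le_sup_left x) ∈ (Q.subgroupOf (Q ⊔ Q)).map ψ :=
            ⟨_, Subgroup.mem_subgroupOf.2 x.2, rfl⟩
          rwa [hψ2] at h5
        have hinj : Function.Injective φ := hφ'
        have hcard : Nat.card Q₂ = Nat.card Q := by
          rw [← hr]
          exact (Nat.card_congr (MonoidHom.ofInjective hinj).toEquiv).symm
        exact Subgroup.eq_of_le_of_card_ge hle hcard.ge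
      rw [this]
    have h1 := hall Q hQ hc N hN Q hQfn χ (hautEq ▸ hχ) hq
    exact (mem_map_pCore_iff hautEq).1 h1


end Cfsg.Agent.S5247
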