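import Cfsg.Statements.S5251
import Mathlib
import Cfsg.Agent.Lib.FusLift
import Cfsg.Agent.Lib.FusAlp

set_option autoImplicit false
open Cfsg

namespace Cfsg.Agent.S5251


open Cfsg.FusionSystem Cfsg.Agent.Lib.FusBasic Cfsg.Agent.Lib.FusAut Cfsg.Agent.Lib.FusSat Cfsg.Agent.Lib.FusAlp Cfsg.Agent.Lib.FusNorm

section
variable {Ω : Type*} [Group Ω] {S : Subgroup Ω} [Finite S] {p : ℕ} [Fact p.Prime]

/-- automorphisms stabilizing the chain `1 ≤ W ⊓ T ≤ W` lie in the `p`-core. -/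
theorem core_of_chain (hS : IsPGroup p S) (F : Cfsg.FusionSystem S) {T W : Subgroup Ω} (hT : F.StronglyClosed T) (hWS : W ≤ S)
    {κ : MulAut W} (hκ : κ ∈ F.autGroup W) (h1 : ∀ y : W, (y : Ω)⁻¹ * ((κ y : W) : Ω) ∈ T) (h2 : ∀ u : W, (u : Ω) ∈ T → κ u = u) :
    κ ∈ ((Cfsg.pCore p ↥(F.autGroup W)).map (F.autGroup W).subtype : Subgroup (MulAut W)) := by
  haveI : Finite W := finite_of_le hWS
  have hWp : IsPGroup p W := hS.to_le hWS
  let K : Subgroup (MulAut W) := stabPair W (T ⊓ W) ⊤ le_top ⊓ stabPair W ⊥ (T ⊓ W) bot_le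
  have hKp : IsPGroup p K := by
    apply isPGroup_of_coprime_one
    rintro c ⟨hc1, hc2⟩ hco
    apply MulEquiv.ext
    intro x
    have h3 := hc1 x trivial
    have h4 := hc2 ⟨_, h3.2⟩ h3
    have h5 : c ((x : W)⁻¹ * c x) = x⁻¹ * c x := by
      have h6 := Subgroup.mem_bot.1 h4
      have h7 : ((c ⟨_, h3.2⟩ : W) : Ω) = (x : Ω)⁻¹ * ((c x : W) : Ω) := by
        have := inv_mul_eq_one.1 h6
        exact this.symm
      apply Subtype.ext
      have e : ((x : W)⁻¹ * c x) = ⟨_, h3.2⟩ := rfl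
      rw [e]
      exact h7
    exact aut_fix_step hWp hco h5
  have hA : ∀ γ ∈ F.autGroup W, ∀ c ∈ K, γ * c * γ⁻¹ ∈ K := by
    rintro γ hγ c ⟨hc1, hc2⟩
    refine ⟨?_, ?_⟩
    · refine stabPair_conj (fun _ _ => trivial) (fun x hx => ⟨sc_aut F hT hWS hγ x hx.1, (γ x).2⟩) hc1
    · refine stabPair_conj (fun x hx => ⟨sc_aut F hT hWS (Subgroup.inv_mem _ hγ) x hx.1, Subtype.coe_prop _⟩) (fun x hx => ?_) hc2
      have hx1 : x = 1 := Subtype.ext (Subgroup.mem_bot.1 hx)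
      rw [hx1, map_one]
      exact Subgroup.one_mem _
  have hκK : κ ∈ K := by
    refine ⟨fun y _ => ⟨h1 y, ?_⟩, fun u hu => ?_⟩
    · exact W.mul_mem (W.inv_mem y.2) (Subtype.coe_prop _)
    · rw [h2 u hu.1]
      simp
  exact mem_core_of_pgroup F K hKp hA hκK hκ

end

/-- Let F be a saturated fusion system over a finite p-group S, E a normal subsystem of F over T, and P an F-centric subgroup of S such that P ∩ T is not E-centric. Then some F-conjugate P* of P satisfies Out_S(P*) ∩ O_p(Out_F(P*)) ≠ 1: there is an element of N_S(P*) outside P* whose conjugation action on P* lies in O_p(Aut_F(P*)). In particular P is not both centric and radical in F. -/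
theorem result {Ω : Type*} [Group Ω] {S : Subgroup Ω} [Finite S] (p : ℕ) [Fact p.Prime] (hS : IsPGroup p S) (F : Cfsg.FusionSystem S) (hF : F.IsSaturated p) {T : Subgroup Ω} (E : Cfsg.FusionSystem T) (hE : E.IsNormalIn F p) (P : Subgroup Ω) (hP : F.IsCentric P) (hPT : ¬ E.IsCentric (P ⊓ T)) : (∃ φ ∈ F.Hom P, ∃ x ∈ S ⊓ Subgroup.normalizer (φ.range : Set Ω), x ∉ φ.range ∧ ∃ α ∈ ((Cfsg.pCore p ↥(F.autGroup φ.range)).map (F.autGroup φ.range).subtype : Subgroup (MulAut ↥φ.range)), ∀ y : ↥φ.range, ((α y : ↥φ.range) : Ω) = x * (y : Ω) * x⁻¹) ∧ ¬ F.IsRadical p P := by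
  classical
  obtain ⟨⟨hEs, -, hsub, hTc, -, -⟩, -⟩ := hE
  have hTS : T ≤ S := hTc.1
  have hPS : P ≤ S := hP.1
  haveI : Finite P := finite_of_le hPS
  -- a conjugate of `P ⊓ T` with a noncentral centralizer element
  have hne : ∃ R : Subgroup Ω, E.IsConj (P ⊓ T) R ∧ ¬ Cfsg.FusionSystem.centralizerIn T R ≤ R := by
    by_contra hc
    push_neg at hc
    exact hPT ⟨inf_le_right, hc⟩
  obtain ⟨R, ⟨ψ, hψ, hψr⟩, hR⟩ := hne
  have hψF : ψ ∈ F.Hom (P ⊓ T) := hsub _ hψ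
  have hRT : R ≤ T := by
    rw [← hψr]
    rintro _ ⟨x, rfl⟩
    exact val_mem E hψ x
  have hconj1 : F.IsConj (P ⊓ T) R := ⟨ψ, hψF, hψr⟩
  obtain ⟨U, hRU, hU⟩ := exists_fullyNormalized_conj F (hRT.trans hTS)
  have hUrec := receptive_of_fullyNormalized hS F hF hU
  have hUFA := fullyAutomized_of_fullyNormalized hS F hF hU
  have hconj2 : F.IsConj (P ⊓ T) U := isConj_trans F hconj1 hRU
  have hUS : U ≤ S := hU.1
  have hUT : U ≤ T := by
    obtain ⟨ξ, hξ, hr⟩ := hconj2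
    rw [← hr]
    rintro _ ⟨x, rfl⟩
    exact hTc.2 _ inf_le_right ξ hξ x
  obtain ⟨y₀, hy₀C, hy₀R⟩ := SetLike.not_le_iff_exists.1 hR
  obtain ⟨ξ₀, hξ₀, hξ₀r⟩ := hRU
  obtain ⟨ξ₁, hξ₁, eξ₁⟩ := hUrec.2 R ξ₀ hξ₀ hξ₀r
  have hy₀S : y₀ ∈ S := hTS hy₀C.1
  have hCe : Cfsg.FusionSystem.centralizerIn S R ≤ extender S R ξ₀ := centralizerIn_le_extender ξ₀
  have hRe : R ≤ extender S R ξ₀ := le_extender (hRT.trans hTS) ξ₀ (fun x => val_mem F hξ₀ x)
  have hy₀e : y₀ ∈ extender S R ξ₀ := hCe ⟨hy₀S, hy₀C.2⟩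
  -- the image of `y₀`
  set y₁ : Ω := ξ₁ ⟨y₀, hy₀e⟩ with hy₁
  have hy₁T : y₁ ∈ T := by
    have hz : (⟨y₀, hy₀e⟩ : ↥(extender S R ξ₀)) ∈ (T.subgroupOf (extender S R ξ₀)) := Subgroup.mem_subgroupOf.2 hy₀C.1
    have h1 := hTc.2 (T ⊓ extender S R ξ₀) inf_le_left (ξ₁.comp (Subgroup.inclusion inf_le_right)) (res_mem F inf_le_right hξ₁) ⟨y₀, hy₀C.1, hy₀e⟩
    exact h1
  have hy₁C : y₁ ∈ Cfsg.FusionSystem.centralizerIn T U := by
    refine ⟨hy₁T, Subgroup.mem_centralizer_iff.2 fun u hu => ?_⟩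
    rw [← hξ₀r] at hu
    obtain ⟨r, rfl⟩ := hu
    have e1 : ξ₀ r = ξ₁ ⟨r, hRe r.2⟩ := (eξ₁ r r.2 (hRe r.2)).symm
    rw [e1, hy₁, ← map_mul, ← map_mul]
    congr 1
    apply Subtype.ext
    exact (Subgroup.mem_centralizer_iff.1 hy₀C.2) r r.2
  have hy₁U : y₁ ∉ U := by
    intro h
    rw [← hξ₀r] at h
    obtain ⟨r, hr⟩ := h
    have e1 : ξ₀ r = ξ₁ ⟨r, hRe r.2⟩ := (eξ₁ r r.2 (hRe r.2)).symm
    rw [e1] at hr
    have h2 := inj F hξ₁ hr
    apply hy₀R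
    have h3 : (r : Ω) = y₀ := congrArg Subtype.val h2
    rw [← h3]
    exact r.2
  -- extension to `P`
  obtain ⟨ξ, hξ, hξv, hξi⟩ := exists_map_normalizer hS F hUFA hUrec hconj2
  have hPN : P ≤ Cfsg.FusionSystem.normalizerIn S (P ⊓ T) := by
    intro x hx
    refine ⟨hPS hx, Subgroup.mem_normalizer_iff.2 fun y => ?_⟩
    have h1 := Subgroup.mem_normalizer_iff.1 (sc_normalizer F hTc (hPS hx)) y
    have h2 : y ∈ P ↔ x * y * x⁻¹ ∈ P := by
      constructor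
      · intro hy
        exact P.mul_mem (P.mul_mem hx hy) (P.inv_mem hx)
      · intro hy
        have e : y = x⁻¹ * (x * y * x⁻¹) * x := by group
        rw [e]
        exact P.mul_mem (P.mul_mem (P.inv_mem hx) hy) hx
    simp only [Subgroup.mem_inf]
    rw [h1, h2]
  have hφ : ξ.comp (Subgroup.inclusion hPN) ∈ F.Hom P := res_mem F hPN hξ
  set φ : ↥P →* Ω := ξ.comp (Subgroup.inclusion hPN) with hφd
  set W : Subgroup Ω := φ.range with hW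
  have hWS : W ≤ S := by
    rintro _ ⟨x, rfl⟩
    exact val_mem F hφ x
  haveI : Finite W := finite_of_le hWS
  obtain ⟨ω, hω, hωr, eω⟩ := exists_inv F hφ rfl
  have hφinj := inj F hφ
  have hφU : ∀ x : P, (x : Ω) ∈ T → φ x ∈ U := by
    intro x hx
    rw [← hξi]
    exact ⟨Subgroup.inclusion hPN x, Subgroup.mem_subgroupOf.2 ⟨x.2, hx⟩, rfl⟩
  have hωT : ∀ w : W, (w : Ω) ∈ T → ω w ∈ T := by
    intro w hw
    have := hTc.2 (W ⊓ T) inf_le_right (ω.comp (Subgroup.inclusion inf_le_left)) (res_mem F inf_le_left hω) ⟨w, w.2, hw⟩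
    exact this
  have hWT : W ⊓ T = U := by
    apply le_antisymm
    · rintro _ ⟨⟨x, rfl⟩, hxT⟩
      apply hφU
      have h1 := hωT ⟨φ x, ⟨x, rfl⟩⟩ hxT
      rw [eω x ⟨x, rfl⟩] at h1
      exact h1
    · intro u hu
      refine ⟨?_, hUT hu⟩
      rw [← hξi] at hu
      obtain ⟨q, hq, rfl⟩ := hu
      have hq' := Subgroup.mem_subgroupOf.1 hq
      exact ⟨⟨q, hq'.1⟩, rfl⟩
  have hy₁W : y₁ ∉ W := by
    intro h
    apply hy₁U
    rw [← hWT]
    exact ⟨h, hy₁T⟩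
  -- find an element normalizing `W`
  have hUnW : W ≤ Subgroup.normalizer ((Cfsg.FusionSystem.centralizerIn T U : Subgroup Ω) : Set Ω) := by
    have key : ∀ w ∈ W, ∀ c ∈ Cfsg.FusionSystem.centralizerIn T U, w * c * w⁻¹ ∈ Cfsg.FusionSystem.centralizerIn T U := by
      intro w hw c hc
      have hwS := hWS hw
      refine ⟨(Subgroup.mem_normalizer_iff.1 (sc_normalizer F hTc hwS) c).1 hc.1, Subgroup.mem_centralizer_iff.2 fun u hu => ?_⟩
      have hu' : w⁻¹ * u * w⁻¹⁻¹ ∈ U := by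
        rw [← hWT] at hu ⊢
        exact ⟨W.mul_mem (W.mul_mem (W.inv_mem hw) hu.1) (W.inv_mem (W.inv_mem hw)),
          (Subgroup.mem_normalizer_iff.1 (sc_normalizer F hTc (S.inv_mem hwS)) u).1 hu.2⟩
      have h4 := (Subgroup.mem_centralizer_iff.1 hc.2) _ hu'
      simp only [inv_inv] at h4
      calc u * (w * c * w⁻¹) = w * ((w⁻¹ * u * w) * c) * w⁻¹ := by group
        _ = w * (c * (w⁻¹ * u * w)) * w⁻¹ := by rw [h4]
        _ = _ := by group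
    intro w hw
    rw [Subgroup.mem_normalizer_iff]
    intro c
    refine ⟨key w hw c, fun h => ?_⟩
    have := key w⁻¹ (W.inv_mem hw) _ h
    have e : w⁻¹ * (w * c * w⁻¹) * w⁻¹⁻¹ = c := by group
    rwa [e] at this
  have hXS : W ⊔ Cfsg.FusionSystem.centralizerIn T U ≤ S := sup_le hWS (inf_le_left.trans hTS)
  haveI : Finite ↥(W ⊔ Cfsg.FusionSystem.centralizerIn T U) := finite_of_le hXS
  have hlt : W < W ⊔ Cfsg.FusionSystem.centralizerIn T U := by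
    refine lt_of_le_of_ne le_sup_left ?_
    intro e
    apply hy₁W
    rw [e]
    exact (le_sup_right : _ ≤ W ⊔ Cfsg.FusionSystem.centralizerIn T U) hy₁C
  obtain ⟨g, hgN, hgW⟩ := SetLike.exists_of_lt (normalizerIn_gt (S := W ⊔ Cfsg.FusionSystem.centralizerIn T U) (hS.to_le hXS) hlt)
  obtain ⟨a, ha, x, hx, e⟩ := Cfsg.Agent.Lib.FusGroup.mem_sup_of_le_normalizer hUnW hgN.1
  have hxn : x ∈ Subgroup.normalizer (W : Set Ω) := by
    have : x = a⁻¹ * g := by rw [← e]; group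
    rw [this]
    exact Subgroup.mul_mem _ (Subgroup.inv_mem _ (Subgroup.le_normalizer ha)) hgN.2
  have hxW : x ∉ W := by
    intro h
    apply hgW
    rw [← e]
    exact W.mul_mem ha h
  have hxT : x ∈ T := hx.1
  have hxS : x ∈ S := hTS hxT
  have hκS : cAut W ⟨x, hxn⟩ ∈ autInducedBy S W := mem_autInducedBy'.2 ⟨x, hxS, fun y => rfl⟩
  have hκA : cAut W ⟨x, hxn⟩ ∈ F.autGroup W := autInduced_le_autGroup F hWS hκS
  have hκ1 : ∀ y : W, (y : Ω)⁻¹ * ((cAut W ⟨x, hxn⟩ y : W) : Ω) ∈ T := fun y => (conj_in_sc_inf F hTc hWS hxT hxn y).1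
  have hκ2 : ∀ u : W, (u : Ω) ∈ T → cAut W ⟨x, hxn⟩ u = u := by
    intro u hu
    apply Subtype.ext
    have hu' : (u : Ω) ∈ U := by
      rw [← hWT]
      exact ⟨u.2, hu⟩
    have h1 := (Subgroup.mem_centralizer_iff.1 hx.2) u hu'
    show x * (u : Ω) * x⁻¹ = u
    rw [← h1]
    group
  refine ⟨⟨φ, hφ, x, ⟨hxS, hxn⟩, hxW, cAut W ⟨x, hxn⟩, core_of_chain hS F hTc hWS hκA hκ1 hκ2, fun y => rfl⟩, ?_⟩
  -- `P` is not radical
  intro hrad
  have hωinj := inj F hω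
  set e' : ↥W ≃* ↥P := isoOf ω hωinj hωr with he'
  have he's : ∀ q : P, e'.symm q = ⟨φ q, ⟨q, rfl⟩⟩ := by
    intro q
    apply e'.injective
    rw [e'.apply_symm_apply]
    apply Subtype.ext
    exact (eω q ⟨q, rfl⟩).symm
  set κ' : MulAut ↥P := MulAut.congr e' (cAut W ⟨x, hxn⟩) with hκ'
  have hκ'A : κ' ∈ F.autGroup P := congr_mem_autGroup F hω hωr hκA
  have hκ'v : ∀ q : P, ((κ' q : P) : Ω) = ω (cAut W ⟨x, hxn⟩ ⟨φ q, ⟨q, rfl⟩⟩) := by
    intro q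
    show ((e' (cAut W ⟨x, hxn⟩ (e'.symm q)) : P) : Ω) = _
    rw [he's]
    rfl
  have hκ'1 : ∀ q : P, (q : Ω)⁻¹ * ((κ' q : P) : Ω) ∈ T := by
    intro q
    rw [hκ'v]
    have hu := hκ1 ⟨φ q, ⟨q, rfl⟩⟩
    have h2 := hωT ((⟨φ q, ⟨q, rfl⟩⟩ : W)⁻¹ * cAut W ⟨x, hxn⟩ ⟨φ q, ⟨q, rfl⟩⟩) hu
    rw [map_mul, map_inv, eω q ⟨q, rfl⟩] at h2
    exact h2
  have hκ'2 : ∀ q : P, (q : Ω) ∈ T → κ' q = q := by
    intro q hq
    apply Subtype.ext
    rw [hκ'v, hκ2]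
    · exact eω q ⟨q, rfl⟩
    · have := hφU q hq
      exact hUT this
  have hcore := core_of_chain hS F hTc hPS hκ'A hκ'1 hκ'2
  rw [hrad.2] at hcore
  obtain ⟨p₀, hp₀⟩ := hcore
  -- the element `φ p₀⁻¹ x` centralizes `W`
  have hc : (φ p₀)⁻¹ * x ∈ Cfsg.FusionSystem.centralizerIn S W := by
    refine ⟨S.mul_mem (S.inv_mem (hWS ⟨p₀, rfl⟩)) hxS, Subgroup.mem_centralizer_iff.2 ?_⟩
    rintro _ ⟨q, rfl⟩
    have h1 : κ' q = p₀ * q * p₀⁻¹ := by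
      rw [← hp₀]
      rfl
    have h2 : φ (κ' q) = x * φ q * x⁻¹ := by
      have h3 : (⟨φ (κ' q), ⟨_, rfl⟩⟩ : W) = e'.symm (κ' q) := (he's _).symm
      have h4 : e'.symm (κ' q) = cAut W ⟨x, hxn⟩ ⟨φ q, ⟨q, rfl⟩⟩ := by
        rw [hκ']
        show e'.symm (e' (cAut W ⟨x, hxn⟩ (e'.symm q))) = _
        rw [e'.symm_apply_apply, he's]
      rw [h4] at h3
      exact congrArg Subtype.val h3
    rw [h1, map_mul, map_mul, map_inv] at h2
    have h5 : φ q * ((φ p₀)⁻¹ * x) = ((φ p₀)⁻¹ * x) * φ q := by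
      have h6 : x * φ q = φ p₀ * φ q * (φ p₀)⁻¹ * x := by
        rw [h2]
        group
      calc φ q * ((φ p₀)⁻¹ * x) = (φ p₀)⁻¹ * (φ p₀ * φ q * (φ p₀)⁻¹ * x) := by group
        _ = (φ p₀)⁻¹ * (x * φ q) := by rw [h6]
        _ = _ := by group
    exact h5
  have h7 := hP.2 W ⟨φ, hφ, rfl⟩ hc
  apply hxW
  have e9 : x = φ p₀ * ((φ p₀)⁻¹ * x) := by group
  rw [e9]
  exact W.mul_mem ⟨p₀, rfl⟩ h7

end Cfsg.Agent.S5251
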