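import Cfsg.Statements.S5256
import Mathlib
import Cfsg.Agent.Lib.FusSurj
import Cfsg.Agent.Lib.FusHyp

set_option autoImplicit false
open Cfsg

namespace Cfsg.Agent.S5256


open Cfsg.FusionSystem Cfsg.Agent.Lib.FusBasic Cfsg.Agent.Lib.FusAut Cfsg.Agent.Lib.FusSat Cfsg.Agent.Lib.FusFactor Cfsg.Agent.Lib.FusSurj Cfsg.Agent.Lib.FusHyp

/-- elements of prime-to-`p` order lift along surjections -/
theorem exists_lift_coprime {G H : Type*} [Group G] [Group H] [Finite G] {p : ℕ} [Fact p.Prime] (f : G →* H) (hf : Function.Surjective f) (h : H)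
    (hh : Nat.Coprime (orderOf h) p) : ∃ g : G, Nat.Coprime (orderOf g) p ∧ f g = h := by
  by_cases h1 : orderOf h = 1
  · refine ⟨1, by simp, ?_⟩
    rw [map_one]
    exact (orderOf_eq_one_iff.1 h1).symm
  obtain ⟨g, rfl⟩ := hf h
  have hord : 0 < orderOf g := orderOf_pos g
  obtain ⟨a, m, hm, hg⟩ := Nat.exists_eq_pow_mul_and_not_dvd hord.ne' p (Fact.out : p.Prime).ne_one
  have hco : Nat.Coprime (p ^ a) (orderOf (f g)) := Nat.Coprime.pow_left _ hh.symm
  have hlt : 1 < orderOf (f g) := by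
    have : 0 < orderOf (f g) := orderOf_pos_iff.2 (isOfFinOrder_iff_pow_eq_one.2 ⟨orderOf g, hord, by rw [← map_pow, pow_orderOf_eq_one, map_one]⟩)
    omega
  obtain ⟨u, -, hu⟩ := Nat.exists_mul_mod_eq_one_of_coprime hco hlt
  refine ⟨g ^ (p ^ a * u), ?_, ?_⟩
  · have h2 : (g ^ (p ^ a * u)) ^ m = 1 := by
      rw [← pow_mul, show p ^ a * u * m = (p ^ a * m) * u by ring, ← hg, pow_mul, pow_orderOf_eq_one, one_pow]
    have h3 := orderOf_dvd_of_pow_eq_one h2
    exact Nat.Coprime.coprime_dvd_left h3 (((Fact.out : p.Prime).coprime_iff_not_dvd.2 hm).symm)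
  · rw [map_pow]
    rw [← Nat.div_add_mod (p ^ a * u) (orderOf (f g)), hu, pow_add, pow_mul, pow_orderOf_eq_one, one_pow, one_mul, pow_one]

theorem pResidual_le_map {G H : Type*} [Group G] [Group H] [Finite G] {p : ℕ} [Fact p.Prime] (f : G →* H) (hf : Function.Surjective f) :
    Cfsg.pResidual p H ≤ (Cfsg.pResidual p G).map f := by
  rw [Cfsg.pResidual, Subgroup.closure_le]
  intro h hh
  obtain ⟨g, hg, rfl⟩ := exists_lift_coprime f hf h hh
  exact ⟨g, Subgroup.subset_closure hg, rfl⟩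

/-- Let F be a saturated fusion system over a finite p-group S, T a subgroup of S strongly closed in F, and E a factor system F/T realised along a homomorphism θ of S with kernel T. Then the hyperfocal subgroup of E is the image under θ of the hyperfocal subgroup of F (hyp(F/T) = T·hyp(F)/T). -/
theorem result {Ω : Type*} [Group Ω] {S : Subgroup Ω} [Finite S] (p : ℕ) [Fact p.Prime] (hS : IsPGroup p S) (F : Cfsg.FusionSystem S) (hF : F.IsSaturated p) (T : Subgroup Ω) (hT : F.StronglyClosed T) {Ω' : Type*} [Group Ω'] {S' : Subgroup Ω'} (θ : ↥S →* Ω') (E : Cfsg.FusionSystem S') (hE : F.IsFactorSystem T θ E) : E.hyperfocalSubgroup p = ((F.hyperfocalSubgroup p).subgroupOf S).map θ := by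
  have hmor := Cfsg.Agent.Lib.FusLift.factor_morphism hS F hF hT θ E hE
  have hker : kerT θ = T := by
    apply le_antisymm
    · intro x hx
      obtain ⟨h0, h1⟩ := (mem_kerT θ).1 hx
      exact (hE.2.1 ⟨x, h0⟩).1 h1
    · intro x hx
      exact (mem_kerT θ).2 ⟨hT.1 hx, (hE.2.1 ⟨x, hT.1 hx⟩).2 hx⟩
  apply le_antisymm
  · rw [hyperfocalSubgroup, Subgroup.closure_le]
    rintro _ ⟨P', β, y, hP', hβ, rfl⟩
    have hPS : preimageAlong θ P' ≤ S := preimage_le θ _
    have hT' : kerT θ ≤ preimageAlong θ P' := by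
      intro t ht
      obtain ⟨h0, h1⟩ := (mem_kerT θ).1 ht
      exact mem_preimage.2 ⟨h0, by rw [h1]; exact P'.one_mem⟩
    have eP := image_pre F E θ hmor hP'
    revert β y
    rw [← eP]
    intro β y hβ
    haveI : Finite (preimageAlong θ P') := finite_of_le hPS
    let f : F.autGroup (preimageAlong θ P') →* E.autGroup (imageAlong θ (preimageAlong θ P')) :=
      (piQ F E θ hPS hmor).codRestrict _ (piQ_mem F E θ hPS hmor)
    have hf : Function.Surjective f := by
      rintro ⟨b, hb⟩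
      obtain ⟨a, ha⟩ := piQ_surj F E θ hPS hmor hT' hb
      exact ⟨a, Subtype.ext ha⟩
    obtain ⟨α, hα, rfl⟩ := pResidual_le_map f hf hβ
    obtain ⟨x, rfl⟩ := aQ_surj θ hPS y
    have h1 := mem_hyper F p hPS α hα x
    refine ⟨⟨_, S.mul_mem (S.inv_mem (hPS x.2)) (hPS ((α : MulAut (preimageAlong θ P')) x).2)⟩, Subgroup.mem_subgroupOf.2 h1, ?_⟩
    have e1 : (⟨(x : Ω)⁻¹ * (((α : MulAut (preimageAlong θ P')) x : (preimageAlong θ P')) : Ω), S.mul_mem (S.inv_mem (hPS x.2)) (hPS ((α : MulAut (preimageAlong θ P')) x).2)⟩ : S) = (⟨x, hPS x.2⟩ : S)⁻¹ * ⟨(((α : MulAut (preimageAlong θ P')) x : (preimageAlong θ P')) : Ω), hPS ((α : MulAut (preimageAlong θ P')) x).2⟩ := rfl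
    rw [e1, map_mul, map_inv]
    have e2 := piQ_spec F E θ hPS hmor α x
    have e3 := congrArg Subtype.val e2
    show _ = (θ ⟨x, hPS x.2⟩)⁻¹ * ((piQ F E θ hPS hmor α (aQ θ hPS x) : imageAlong θ (preimageAlong θ P')) : Ω')
    rw [e3]
    rfl
  · have key : ∀ y ∈ F.hyperfocalSubgroup p, ∀ h : y ∈ S, θ ⟨y, h⟩ ∈ E.hyperfocalSubgroup p := by
      intro y hy
      refine Subgroup.closure_induction (p := fun y _ => ∀ h : y ∈ S, θ ⟨y, h⟩ ∈ E.hyperfocalSubgroup p) ?_ ?_ ?_ ?_ hy
      · rintro _ ⟨P, α, x, hP, hα, rfl⟩ h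
        haveI : Finite P := finite_of_le hP
        let f : F.autGroup P →* E.autGroup (imageAlong θ P) :=
          (piQ F E θ hP hmor).codRestrict _ (piQ_mem F E θ hP hmor)
        have h1 := mem_hyper E p (image_le F E θ hmor) (f α) (map_pResidual f hα) (aQ θ hP x)
        have e1 : (⟨(x : Ω)⁻¹ * (((α : MulAut P) x : P) : Ω), h⟩ : S) = (⟨x, hP x.2⟩ : S)⁻¹ * ⟨(((α : MulAut P) x : P) : Ω), hP ((α : MulAut P) x).2⟩ := rfl
        rw [e1, map_mul, map_inv]
        have e2 := piQ_spec F E θ hP hmor α x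
        have e3 := congrArg Subtype.val e2
        have e4 : (((f α : E.autGroup (imageAlong θ P)) : MulAut (imageAlong θ P)) (aQ θ hP x) : imageAlong θ P) = aQ θ hP ((α : MulAut P) x) := e2
        rw [e4] at h1
        exact h1
      · intro h
        have : (⟨1, h⟩ : S) = 1 := rfl
        rw [this, map_one]
        exact Subgroup.one_mem _
      · intro a b ha hb iha ihb h
        have h3 := hyper_le F p ha
        have h4 := hyper_le F p hb
        have : (⟨a * b, h⟩ : S) = ⟨a, h3⟩ * ⟨b, h4⟩ := rfl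
        rw [this, map_mul]
        exact Subgroup.mul_mem _ (iha h3) (ihb h4)
      · intro a ha iha h
        have h3 := hyper_le F p ha
        have : (⟨a⁻¹, h⟩ : S) = (⟨a, h3⟩ : S)⁻¹ := rfl
        rw [this, map_inv]
        exact Subgroup.inv_mem _ (iha h3)
    rintro _ ⟨a, ha, rfl⟩
    exact key a ha a.2


end Cfsg.Agent.S5256
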