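import Cfsg.Statements.S5283
import Mathlib
import Cfsg.Agent.Lib.FusSemi
import Cfsg.Agent.Lib.FusSuper
import Cfsg.Agent.Lib.FusFrat
import Cfsg.Agent.Lib.FusNorm

set_option autoImplicit false
open Cfsg

namespace Cfsg.Agent.S5283


open Cfsg.FusionSystem Cfsg.Agent.Lib.FusBasic Cfsg.Agent.Lib.FusAut Cfsg.Agent.Lib.FusSat Cfsg.Agent.Lib.FusNorm Cfsg.Agent.Lib.FusFrat Cfsg.Agent.Lib.FusSemi Cfsg.Agent.Lib.FusSuper

section
variable {Ω : Type*} [Group Ω] {S : Subgroup Ω} [Finite S] {p : ℕ} [Fact p.Prime]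

theorem sc_top (F : Cfsg.FusionSystem S) : F.StronglyClosed S :=
  ⟨le_rfl, fun _ _ _ hφ x => val_mem F hφ x⟩

theorem chain_normal' (hS : IsPGroup p S) (F : Cfsg.FusionSystem S) (hF : F.IsSaturated p) {m : ℕ} {c : Fin (m + 1) → Subgroup Ω}
    (h0 : c 0 = ⊥) (hl : c (Fin.last m) = S) (hsc : ∀ i, F.StronglyClosed (c i))
    (hst : ∀ i : Fin m, c i.castSucc ≤ c i.succ ∧ ∃ x ∈ S, c i.succ = c i.castSucc ⊔ Subgroup.zpowers x) : F.IsNormal S := by
  rw [normal_iff_sc_radical hS F hF]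
  refine ⟨sc_top F, fun P hc hr => ?_⟩
  have hPS : P ≤ S := hr.1
  haveI : Finite P := finite_of_le hPS
  have hcent := hc.2 P (isConj_refl F hPS)
  apply le_of_conj_mem_core hS F hr hcent le_rfl Subgroup.le_normalizer
  intro v hv hvn
  have hle := fun i => (hst i).1
  have hfin : ∀ i, Finite (c i) := fun i => finite_of_le (hsc i).1
  have hN : ∀ i : Fin m, c i.succ ≤ Subgroup.normalizer (c i.castSucc : Set Ω) := fun i => (hsc i.succ).1.trans (sc_normalizer F (hsc i.castSucc))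
  have hz : ∀ i : Fin m, ∃ z, c i.succ = c i.castSucc ⊔ Subgroup.zpowers z := fun i => by
    obtain ⟨x, -, hx⟩ := (hst i).2
    exact ⟨x, hx⟩
  have hind : cAut P ⟨v, hvn⟩ ∈ autInducedBy S P := mem_autInducedBy'.2 ⟨v, hv, fun x => rfl⟩
  have htA : cAut P ⟨v, hvn⟩ ∈ F.autGroup P := autInduced_le_autGroup F hPS hind
  have htp : IsPGroup p (Subgroup.zpowers (cAut P ⟨v, hvn⟩)) := (isPGroup_autInduced hS P).to_le (Subgroup.zpowers_le.2 hind)
  have hpres : ∀ γ ∈ F.autGroup P, ∀ (i : Fin (m + 1)) (x : P), (x : Ω) ∈ c i → ((γ x : P) : Ω) ∈ c i :=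
    fun γ hγ i x hx => sc_aut F (hsc i) hPS hγ x hx
  have hSt : IsPGroup p (St P c hle) := St_pgroup (hS.to_le hPS) h0 (hl ▸ hPS)
  have hnorm : Subgroup.zpowers (cAut P ⟨v, hvn⟩) ≤ Subgroup.normalizer (St P c hle : Set (MulAut P)) :=
    Subgroup.zpowers_le.2 (mem_normalizer_of_conj_le' (fun κ hκ => St_conj (hpres _ htA) (hpres _ (Subgroup.inv_mem _ htA)) hκ))
  have hKp : IsPGroup p ↥(Subgroup.zpowers (cAut P ⟨v, hvn⟩) ⊔ St P c hle) := IsPGroup.to_sup_of_normal_right' htp hSt hnorm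
  apply mem_core_of_pgroup F _ hKp ?_ (Subgroup.mem_sup_left (Subgroup.mem_zpowers _)) htA
  intro γ hγ κ hκ
  have hle2 : Subgroup.zpowers (cAut P ⟨v, hvn⟩) ⊔ St P c hle ≤ (Subgroup.zpowers (cAut P ⟨v, hvn⟩) ⊔ St P c hle).comap (MulAut.conj γ).toMonoidHom := by
    apply sup_le
    · apply Subgroup.zpowers_le.2
      show γ * cAut P ⟨v, hvn⟩ * γ⁻¹ ∈ Subgroup.zpowers (cAut P ⟨v, hvn⟩) ⊔ St P c hle
      have h1 := comm_St (hle := hle) hfin hN hz (hpres _ hγ) (hpres _ htA) (hpres _ (Subgroup.inv_mem _ hγ)) (hpres _ (Subgroup.inv_mem _ htA))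
      have h2 : γ * cAut P ⟨v, hvn⟩ * γ⁻¹ = (cAut P ⟨v, hvn⟩) * ((cAut P ⟨v, hvn⟩)⁻¹ * (γ * cAut P ⟨v, hvn⟩ * γ⁻¹)) := by group
      have h3 : γ * cAut P ⟨v, hvn⟩ * γ⁻¹ = (γ * cAut P ⟨v, hvn⟩ * γ⁻¹ * (cAut P ⟨v, hvn⟩)⁻¹) * cAut P ⟨v, hvn⟩ := by group
      rw [h3]
      exact Subgroup.mul_mem _ (Subgroup.mem_sup_right h1) (Subgroup.mem_sup_left (Subgroup.mem_zpowers _))
    · intro κ' hκ'
      exact Subgroup.mem_sup_right (St_conj (hpres _ hγ) (hpres _ (Subgroup.inv_mem _ hγ)) hκ')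
  exact hle2 hκ

theorem aut_props (hS : IsPGroup p S)
    (hch : ∀ F : Cfsg.FusionSystem S, F.IsSaturated p → (∃ (m : ℕ) (c : Fin (m + 1) → Subgroup Ω), c 0 = ⊥ ∧ c (Fin.last m) = S ∧ (∀ i : Fin (m + 1), F.StronglyClosed (c i)) ∧ ∀ i : Fin m, c i.castSucc ≤ c i.succ ∧ ∃ x ∈ S, c i.succ = c i.castSucc ⊔ Subgroup.zpowers x))
    (H : Subgroup (MulAut S)) (hco : (Nat.card H).Coprime p) : IsMulCommutative H ∧ ∀ h ∈ H, h ^ (p - 1) = 1 := by
  obtain ⟨m, c, h0, hl, hsc, hst⟩ := hch (autSys (Inn S ⊔ H) le_sup_left) (autSys_saturated hS H hco)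
  have hAaut := autGroup_autSys (Inn S ⊔ H) le_sup_left
  have hle := fun i => (hst i).1
  have hfin : ∀ i, Finite (c i) := fun i => finite_of_le (hsc i).1
  have hN : ∀ i : Fin m, c i.succ ≤ Subgroup.normalizer (c i.castSucc : Set Ω) := fun i => (hsc i.succ).1.trans (sc_normalizer _ (hsc i.castSucc))
  have hz : ∀ i : Fin m, ∃ z, c i.succ = c i.castSucc ⊔ Subgroup.zpowers z := fun i => by
    obtain ⟨x, -, hx⟩ := (hst i).2
    exact ⟨x, hx⟩
  have hpres : ∀ γ ∈ H, ∀ (i : Fin (m + 1)) (x : S), (x : Ω) ∈ c i → ((γ x : S) : Ω) ∈ c i :=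
    fun γ hγ i x hx => sc_aut _ (hsc i) le_rfl (by rw [hAaut]; exact Subgroup.mem_sup_right hγ) x hx
  have hcoH : ∀ h ∈ H, (orderOf h).Coprime p := fun h hh => Nat.Coprime.coprime_dvd_left (Subgroup.orderOf_dvd_natCard H hh) hco
  have hone : ∀ g ∈ H, g ∈ St S c hle → g = 1 := fun g hg hg' => St_one hS h0 hl.ge hg' (hcoH g hg)
  constructor
  · refine ⟨⟨fun a b => Subtype.ext ?_⟩⟩
    have h1 : (a : MulAut S) * b * (a : MulAut S)⁻¹ * (b : MulAut S)⁻¹ = 1 := by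
      apply hone
      · exact H.mul_mem (H.mul_mem (H.mul_mem a.2 b.2) (H.inv_mem a.2)) (H.inv_mem b.2)
      · exact comm_St hfin hN hz (hpres _ a.2) (hpres _ b.2) (hpres _ (H.inv_mem a.2)) (hpres _ (H.inv_mem b.2))
    have h2 : (a : MulAut S) * b * (a : MulAut S)⁻¹ = b := by
      rwa [mul_inv_eq_one] at h1
    have h3 : (a : MulAut S) * b = b * a := by
      rwa [mul_inv_eq_iff_eq_mul] at h2
    exact h3
  · intro h hh
    apply hone _ (H.pow_mem hh _)
    apply mem_St.2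
    intro i x hx
    haveI := hfin i.succ
    haveI : ((c i.castSucc).subgroupOf (c i.succ)).Normal := (Subgroup.normal_subgroupOf_iff_le_normalizer (hle i)).2 (hN i)
    obtain ⟨z, hz'⟩ := hz i
    haveI : IsCyclic (↥(c i.succ) ⧸ (c i.castSucc).subgroupOf (c i.succ)) := cyc_quot hz' (hN i)
    obtain ⟨n, hn⟩ := pow_action h (hpres h hh i.succ) (hpres h hh i.castSucc)
    have hpk : ∀ (k : ℕ) (u : S), (u : Ω) ∈ c i.succ → (((h ^ k) u : S) : Ω) ∈ c i.succ := fun k u hu =>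
      hpres _ (H.pow_mem hh k) _ u hu
    have hk : ∀ (k : ℕ) (u : S) (hu : (u : Ω) ∈ c i.succ),
        QuotientGroup.mk' ((c i.castSucc).subgroupOf (c i.succ)) ⟨(((h ^ k) u : S) : Ω), hpk k u hu⟩ = (QuotientGroup.mk' ((c i.castSucc).subgroupOf (c i.succ)) ⟨u, hu⟩) ^ (n ^ k) := by
      intro k
      induction k with
      | zero =>
        intro u hu
        simp only [pow_zero, pow_one]
        rfl
      | succ k ih =>
        intro u hu
        have e1 : (((h ^ (k + 1)) u : S) : Ω) = ((h ((h ^ k) u) : S) : Ω) := by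
          rw [pow_succ']
          rfl
        have e2 : (⟨(((h ^ (k + 1)) u : S) : Ω), hpk (k + 1) u hu⟩ : c i.succ) = ⟨((h ((h ^ k) u) : S) : Ω), hpres h hh _ _ (hpk k u hu)⟩ := Subtype.ext e1
        rw [e2, hn _ (hpk k u hu), ih u hu, ← pow_mul, pow_succ, mul_comm]
    set y := QuotientGroup.mk' ((c i.castSucc).subgroupOf (c i.succ)) ⟨(x : Ω), hx⟩ with hy
    have hqp : IsPGroup p (↥(c i.succ) ⧸ (c i.castSucc).subgroupOf (c i.succ)) := (hS.to_le (hsc i.succ).1).to_quotient _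
    obtain ⟨b, hb⟩ := (IsPGroup.iff_orderOf.1 hqp) y
    have e3 : y ^ (n ^ orderOf h) = y := by
      have h1 := hk (orderOf h) x hx
      have h0 : (((h ^ orderOf h) x : S) : Ω) = x := by
        rw [pow_orderOf_eq_one]
        rfl
      have h2 : (⟨(((h ^ orderOf h) x : S) : Ω), hpk _ x hx⟩ : c i.succ) = ⟨(x : Ω), hx⟩ := Subtype.ext h0
      rw [h2] at h1
      exact h1.symm
    have e4 := exp_lemma hb (hcoH h hh) e3
    have h5 := hk (p - 1) x hx
    rw [← hy, e4] at h5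
    exact Subgroup.mem_subgroupOf.1 (QuotientGroup.eq.1 h5.symm)

theorem sc_of_inv {F : Cfsg.FusionSystem S} (hN : F.IsNormal S) {U : Subgroup S} (hU : Inv (F.autGroup S) U) : F.StronglyClosed (U.map S.subtype) := by
  refine ⟨by
    rintro _ ⟨u, -, rfl⟩
    exact u.2, fun R hR φ hφ x => ?_⟩
  obtain ⟨ψ, hψ, e, -⟩ := hN.2 R φ hφ
  have hRS : R ≤ S := src_le F hφ
  obtain ⟨a, ha, ea⟩ := aut_of (sc_top F) (res_mem F (le_sup_right : S ≤ R ⊔ S) hψ)
  obtain ⟨u, hu, ex⟩ := hR x.2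
  have h1 := hU a ha u hu
  refine ⟨a u, h1, ?_⟩
  have h2 := ea u
  have h3 : Subgroup.inclusion (le_sup_right : S ≤ R ⊔ S) u = Subgroup.inclusion (le_sup_left : R ≤ R ⊔ S) x := Subtype.ext ex
  show ((a u : S) : Ω) = _
  rw [h2, ← e x, ← h3]
  rfl

theorem chain_of (hS : IsPGroup p S) (hres : ∀ F : Cfsg.FusionSystem S, F.IsSaturated p → F.IsNormal S)
    (hH : ∀ H : Subgroup (MulAut S), (Nat.card H).Coprime p → IsMulCommutative H ∧ ∀ h ∈ H, h ^ (p - 1) = 1)
    (F : Cfsg.FusionSystem S) (hF : F.IsSaturated p) :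
    ∃ (m : ℕ) (c : Fin (m + 1) → Subgroup Ω), c 0 = ⊥ ∧ c (Fin.last m) = S ∧ (∀ i : Fin (m + 1), F.StronglyClosed (c i)) ∧ ∀ i : Fin m, c i.castSucc ≤ c i.succ ∧ ∃ x ∈ S, c i.succ = c i.castSucc ⊔ Subgroup.zpowers x := by
  have hp : p.Prime := Fact.out
  have hN := hres F hF
  have hInn : Inn S ≤ F.autGroup S := inn_le_autGroup F le_rfl
  obtain ⟨-, R, hR⟩ := fullyAutomized_of_fullyNormalized hS F hF (fullyNormalized_top hS F)
  have hInd : autInducedBy S S = Inn S := by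
    ext α
    rw [mem_autInducedBy']
    constructor
    · rintro ⟨g, hg, e⟩
      refine ⟨⟨g, hg⟩, ?_⟩
      ext x
      exact (e x).symm
    · rintro ⟨g, rfl⟩
      exact ⟨g, g.2, fun x => rfl⟩
  have hNR : (R : Subgroup (F.autGroup S)) = (Inn S).subgroupOf (F.autGroup S) := by
    rw [hR, hInd]
  haveI : (Inn S).Normal := inn_normal S
  haveI hnn : ((Inn S).subgroupOf (F.autGroup S)).Normal := inferInstance
  have hco : (Nat.card ((Inn S).subgroupOf (F.autGroup S))).Coprime ((Inn S).subgroupOf (F.autGroup S)).index := by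
    rw [← hNR]
    exact R.card_coprime_index
  obtain ⟨H', hH'⟩ := Subgroup.exists_right_complement'_of_coprime hco
  have hcard : (Nat.card (H'.map (F.autGroup S).subtype)).Coprime p := by
    rw [Subgroup.card_map_of_injective (Subgroup.subtype_injective _), ← hH'.symm.index_eq_card, ← hNR]
    exact ((Nat.Prime.coprime_iff_not_dvd hp).2 R.not_dvd_index).symm
  obtain ⟨hcomm, hexp⟩ := hH _ hcard
  have hHA : H'.map (F.autGroup S).subtype ≤ F.autGroup S := by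
    rintro _ ⟨h, -, rfl⟩
    exact h.2
  have hAH : ∀ a ∈ F.autGroup S, ∃ g : S, ∃ h ∈ H'.map (F.autGroup S).subtype, a = MulAut.conj g * h := by
    intro a ha
    obtain ⟨⟨n, h⟩, e⟩ := hH'.2 ⟨a, ha⟩
    obtain ⟨g, hg⟩ := (n.2 : (n : F.autGroup S) ∈ (Inn S).subgroupOf (F.autGroup S))
    refine ⟨g, _, ⟨h, h.2, rfl⟩, ?_⟩
    have e2 : a = (((n : F.autGroup S) * (h : F.autGroup S) : F.autGroup S) : MulAut S) := (congrArg Subtype.val e).symm
    rw [e2]
    have hg' : ((n : F.autGroup S) : MulAut S) = MulAut.conj g := hg.symm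
    simp only [Subgroup.coe_mul]
    rw [hg']
    rfl
  have hcm : ∀ h ∈ H'.map (F.autGroup S).subtype, ∀ k ∈ H'.map (F.autGroup S).subtype, h * k = k * h := by
    intro h hh k hk
    have := hcomm.is_comm.comm ⟨h, hh⟩ ⟨k, hk⟩
    exact congrArg Subtype.val this
  obtain ⟨m, d, h0, hm, hinv, hstep⟩ := chain_exists hS hInn hHA hAH hcm hexp ⊥ (by
    intro a ha x hx
    rw [Subgroup.mem_bot] at hx ⊢
    rw [hx, map_one])
  refine ⟨m, fun i => (d i.val).map S.subtype, ?_, ?_, fun i => sc_of_inv hN (hinv _), fun i => ⟨Subgroup.map_mono (hstep i.val).1, ?_⟩⟩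
  · show (d 0).map S.subtype = ⊥
    rw [h0, Subgroup.map_bot]
  · show (d m).map S.subtype = S
    rw [hm, ← MonoidHom.range_eq_map, Subgroup.range_subtype]
  · obtain ⟨x, hx⟩ := (hstep i.val).2
    refine ⟨x, x.2, ?_⟩
    show (d (i.val + 1)).map S.subtype = (d i.val).map S.subtype ⊔ Subgroup.zpowers (x : Ω)
    rw [hx, Subgroup.map_sup, MonoidHom.map_zpowers]
    rfl

end

/-- Call a saturated fusion system F over a finite p-group S supersoluble when S has a chain of subgroups 1 = S_0 ≤ S_1 ≤ … ≤ S_m = S, each strongly closed in F, with each S_{i+1} generated by S_i together with one further element (cyclic steps). Then every saturated fusion system over S is supersoluble if and only if S is normal in every saturated fusion system over S (S is resistant) and every subgroup of Aut(S) of order prime to p is abelian of exponent dividing p − 1. -/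
theorem result {Ω : Type*} [Group Ω] {S : Subgroup Ω} [Finite S] (p : ℕ) [Fact p.Prime] (hS : IsPGroup p ↥S) : (∀ F : Cfsg.FusionSystem S, F.IsSaturated p → (∃ (m : ℕ) (c : Fin (m + 1) → Subgroup Ω), c 0 = ⊥ ∧ c (Fin.last m) = S ∧ (∀ i : Fin (m + 1), F.StronglyClosed (c i)) ∧ ∀ i : Fin m, c i.castSucc ≤ c i.succ ∧ ∃ x ∈ S, c i.succ = c i.castSucc ⊔ Subgroup.zpowers x)) ↔ (∀ F : Cfsg.FusionSystem S, F.IsSaturated p → F.IsNormal S) ∧ ∀ H : Subgroup (MulAut ↥S), (Nat.card ↥H).Coprime p → IsMulCommutative ↥H ∧ ∀ h ∈ H, h ^ (p - 1) = 1 := by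
  constructor
  · intro h
    refine ⟨fun F hF => ?_, aut_props hS h⟩
    obtain ⟨m, c, h0, hl, hsc, hst⟩ := h F hF
    exact chain_normal' hS F hF h0 hl hsc hst
  · rintro ⟨hres, hH⟩ F hF
    exact chain_of hS hres hH F hF


end Cfsg.Agent.S5283
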