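import Cfsg.Statements.S5284
import Mathlib
import Cfsg.Agent.S5283
import Cfsg.Agent.Lib.FusSolv

set_option autoImplicit false
open Cfsg

namespace Cfsg.Agent.S5284


open Cfsg.FusionSystem Cfsg.Agent.Lib.FusBasic Cfsg.Agent.Lib.FusAut Cfsg.Agent.Lib.FusSat Cfsg.Agent.Lib.FusNorm Cfsg.Agent.Lib.FusFrat Cfsg.Agent.Lib.FusSemi Cfsg.Agent.Lib.FusSuper

section groups

variable {X : Type*} [CommGroup X]

/-- `X ^ (p ^ j)` -/
def U (X : Type*) [CommGroup X] (p j : ℕ) : Subgroup X := (powMonoidHom (p ^ j) : X →* X).range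
/-- elements killed by `p ^ k` -/
def Om (X : Type*) [CommGroup X] (p k : ℕ) : Subgroup X := (powMonoidHom (p ^ k) : X →* X).ker
/-- the intermediate subgroups -/
def D (X : Type*) [CommGroup X] (p j k : ℕ) : Subgroup X := U X p (j + 1) ⊔ (U X p j ⊓ Om X p k)

theorem mem_U {p j : ℕ} {x : X} : x ∈ U X p j ↔ ∃ g : X, g ^ (p ^ j) = x := Iff.rfl
theorem mem_Om {p k : ℕ} {x : X} : x ∈ Om X p k ↔ x ^ (p ^ k) = 1 := Iff.rfl

/-- invariance under all automorphisms -/
def CharSub (c : Subgroup X) : Prop := ∀ a : MulAut X, ∀ y ∈ c, a y ∈ c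

theorem U_char (p j : ℕ) : CharSub (U X p j) := by
  rintro a _ ⟨g, rfl⟩
  exact ⟨a g, by simp⟩

theorem Om_char (p k : ℕ) : CharSub (Om X p k) := by
  intro a y hy
  have h : y ^ (p ^ k) = 1 := hy
  show (a y) ^ (p ^ k) = 1
  rw [← map_pow, h, map_one]

theorem D_char (p j k : ℕ) : CharSub (D X p j k) := by
  intro a y hy
  have hle : D X p j k ≤ (D X p j k).comap a.toMonoidHom := by
    apply sup_le
    · intro z hz
      exact Subgroup.mem_sup_left (U_char p (j + 1) a z hz)
    · rintro z ⟨hz1, hz2⟩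
      exact Subgroup.mem_sup_right ⟨U_char p j a z hz1, Om_char p k a z hz2⟩
  exact hle hy

theorem Om_mono (p k : ℕ) : Om X p k ≤ Om X p (k + 1) := by
  intro y hy
  have h : y ^ (p ^ k) = 1 := hy
  show y ^ (p ^ (k + 1)) = 1
  rw [pow_succ, pow_mul, h, one_pow]

theorem D_mono (p j k : ℕ) : D X p j k ≤ D X p j (k + 1) :=
  sup_le_sup_left (inf_le_inf_left _ (Om_mono p k)) _

theorem U_step (p j : ℕ) : U X p (j + 1) ≤ U X p j := by
  rintro _ ⟨g, rfl⟩
  refine ⟨g ^ p, ?_⟩
  show (g ^ p) ^ (p ^ j) = g ^ (p ^ (j + 1))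
  rw [pow_succ', pow_mul]

theorem D_zero {p : ℕ} (j : ℕ) : D X p j 0 = U X p (j + 1) := by
  have h : Om X p 0 = ⊥ := by
    ext y
    rw [mem_Om, Subgroup.mem_bot, pow_zero, pow_one]
  unfold D
  rw [h, inf_bot_eq, sup_bot_eq]

theorem D_top {p : ℕ} {E : ℕ} (hE : ∀ x : X, x ^ (p ^ E) = 1) (j : ℕ) : D X p j E = U X p j := by
  have h : Om X p E = ⊤ := by
    ext y
    simp [mem_Om, hE y]
  unfold D
  rw [h, inf_top_eq, sup_eq_right.2 (U_step p j)]

theorem U_zero {p : ℕ} : U X p 0 = ⊤ := by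
  ext y
  simp only [Subgroup.mem_top, iff_true]
  exact ⟨y, by simp⟩

theorem U_top {p : ℕ} {E : ℕ} (hE : ∀ x : X, x ^ (p ^ E) = 1) : U X p E = ⊥ := by
  ext y
  rw [mem_U, Subgroup.mem_bot]
  constructor
  · rintro ⟨g, rfl⟩
    exact hE g
  · rintro rfl
    exact ⟨1, one_pow _⟩

/-- one step of the chain -/
def Rs (c c' : Subgroup X) : Prop := CharSub c' ∧ c ≤ c' ∧ ∃ x, c' = c ⊔ Subgroup.zpowers x

theorem chain_of_rtg {c : Subgroup X} (hc : CharSub c) (h : Relation.ReflTransGen Rs c ⊤) :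
    ∃ (m : ℕ) (d : ℕ → Subgroup X), d 0 = c ∧ d m = ⊤ ∧ (∀ i, CharSub (d i)) ∧ ∀ i, d i ≤ d (i + 1) ∧ ∃ x, d (i + 1) = d i ⊔ Subgroup.zpowers x := by
  induction h using Relation.ReflTransGen.head_induction_on with
  | refl =>
    refine ⟨0, fun _ => ⊤, rfl, rfl, fun _ => fun a y _ => Subgroup.mem_top _, fun i => ⟨le_rfl, 1, ?_⟩⟩
    simp
  | @head c c₁ h1 _ ih =>
    obtain ⟨m, d, h0, hm, hinv, hstep⟩ := ih h1.1
    refine ⟨m + 1, fun i => Nat.casesOn i c d, rfl, hm, ?_, ?_⟩
    · intro i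
      cases i with
      | zero => exact hc
      | succ i => exact hinv i
    · intro i
      cases i with
      | zero =>
        obtain ⟨-, h2, x, h3⟩ := h1
        refine ⟨?_, x, ?_⟩
        · show c ≤ d 0
          rw [h0]
          exact h2
        · show d 0 = c ⊔ Subgroup.zpowers x
          rw [h0, h3]
      | succ i => exact hstep i

theorem rtg_of_steps {p E : ℕ} (hE : ∀ x : X, x ^ (p ^ E) = 1) (hstep : ∀ j k, ∃ x, D X p j (k + 1) = D X p j k ⊔ Subgroup.zpowers x) :
    Relation.ReflTransGen (Rs (X := X)) ⊥ ⊤ := by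
  have h1 : ∀ j k, Relation.ReflTransGen (Rs (X := X)) (D X p j 0) (D X p j k) := by
    intro j k
    induction k with
    | zero => exact Relation.ReflTransGen.refl
    | succ k ih =>
      refine ih.tail ⟨D_char p j (k + 1), D_mono p j k, hstep j k⟩
  have h2 : ∀ j, Relation.ReflTransGen (Rs (X := X)) (U X p (j + 1)) (U X p j) := by
    intro j
    have := h1 j E
    rwa [D_zero, D_top hE] at this
  have h3 : ∀ i, i ≤ E → Relation.ReflTransGen (Rs (X := X)) (U X p E) (U X p (E - i)) := by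
    intro i
    induction i with
    | zero =>
      intro _
      exact Relation.ReflTransGen.refl
    | succ i ih =>
      intro hi
      have h4 := h2 (E - (i + 1))
      have h5 : E - (i + 1) + 1 = E - i := by omega
      rw [h5] at h4
      exact (ih (by omega)).trans h4
  have h4 := h3 E le_rfl
  rwa [Nat.sub_self, U_zero, U_top hE] at h4

end groups

section coord

variable {p : ℕ} [Fact p.Prime]

theorem zmod_pow_one {A b : ℕ} (hb : A ≤ b) (y : Multiplicative (ZMod (p ^ A))) : y ^ (p ^ b) = 1 := by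
  have hp : p.Prime := Fact.out
  haveI : NeZero (p ^ A) := ⟨pow_ne_zero _ hp.ne_zero⟩
  have h1 : y ^ (p ^ A) = 1 := by
    have h2 := pow_card_eq_one' (x := y)
    rwa [Nat.card_congr Multiplicative.toAdd, Nat.card_zmod] at h2
  obtain ⟨c, rfl⟩ : ∃ c, b = A + c := ⟨b - A, by omega⟩
  rw [pow_add, pow_mul, h1, one_pow]

theorem zmod_div {A b : ℕ} (hb : b < A) (y : Multiplicative (ZMod (p ^ A))) (h : y ^ (p ^ b) = 1) : ∃ z : Multiplicative (ZMod (p ^ A)), y = z ^ p := by
  have hp : p.Prime := Fact.out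
  haveI : NeZero (p ^ A) := ⟨pow_ne_zero _ hp.ne_zero⟩
  set c : ℕ := (Multiplicative.toAdd y).val with hc
  have hy : y = Multiplicative.ofAdd ((c : ℕ) : ZMod (p ^ A)) := by
    rw [hc, ZMod.natCast_zmod_val]
    rfl
  have h1 : ((p ^ b * c : ℕ) : ZMod (p ^ A)) = 0 := by
    rw [hy, ← ofAdd_nsmul] at h
    have := congrArg Multiplicative.toAdd h
    simpa using this
  have h2 : p ^ A ∣ p ^ b * c := (ZMod.natCast_eq_zero_iff _ _).1 h1
  obtain ⟨d, rfl⟩ : ∃ d, A = b + 1 + d := ⟨A - (b + 1), by omega⟩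
  have h3 : p ^ (b + 1 + d) = p ^ b * (p * p ^ d) := by ring
  rw [h3] at h2
  have h4 : p * p ^ d ∣ c := Nat.dvd_of_mul_dvd_mul_left (pow_pos hp.pos b) h2
  obtain ⟨e, he⟩ : p ∣ c := (Dvd.dvd.mul_right (dvd_refl p) _).trans h4
  refine ⟨Multiplicative.ofAdd ((e : ℕ) : ZMod (p ^ (b + 1 + d))), ?_⟩
  rw [hy, he, ← ofAdd_nsmul]
  congr 1
  simp

abbrev Gr (p : ℕ) {ι : Type} (a : ι → ℕ) := (l : ι) → Multiplicative (ZMod (p ^ a l))

variable {ι : Type} [Fintype ι] {a : ι → ℕ}

theorem step_coord (hinj : Function.Injective a) (j k : ℕ) :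
    ∃ x : Gr p a, D (Gr p a) p j (k + 1) = D (Gr p a) p j k ⊔ Subgroup.zpowers x := by
  classical
  have hp : p.Prime := Fact.out
  -- choice of the new generator
  obtain ⟨x, hxD, hdecomp⟩ : ∃ x : Gr p a, x ∈ D (Gr p a) p j (k + 1) ∧
      ∀ g : Gr p a, (fun l => if a l = j + k + 1 then (g l) ^ (p ^ j) else 1 : Gr p a) ∈ Subgroup.zpowers x := by
    by_cases hi : ∃ i, a i = j + k + 1
    · obtain ⟨i, hi⟩ := hi
      have hne : NeZero (p ^ a i) := ⟨pow_ne_zero _ hp.ne_zero⟩
      let e : Gr p a := Pi.mulSingle i (Multiplicative.ofAdd (1 : ZMod (p ^ a i)))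
      have hel : ∀ l, l ≠ i → e l = 1 := fun l hl => Pi.mulSingle_eq_of_ne hl _
      have hei : e i = Multiplicative.ofAdd (1 : ZMod (p ^ a i)) := Pi.mulSingle_eq_same _ _
      refine ⟨e ^ (p ^ j), ?_, fun g => ?_⟩
      · apply Subgroup.mem_sup_right
        refine ⟨⟨e, rfl⟩, ?_⟩
        show (e ^ (p ^ j)) ^ (p ^ (k + 1)) = 1
        ext l
        show (((e l) ^ (p ^ j)) ^ (p ^ (k + 1))) = 1
        by_cases hl : l = i
        · subst hl
          rw [← pow_mul, ← pow_add, zmod_pow_one (by rw [hi]; omega)]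
        · rw [hel l hl, one_pow, one_pow]
      · refine ⟨((Multiplicative.toAdd (g i)).val : ℕ), ?_⟩
        ext l
        show (((e ^ (p ^ j)) ^ (((Multiplicative.toAdd (g i)).val : ℕ) : ℤ)) l) = _
        rw [zpow_natCast]
        show (((e l) ^ (p ^ j)) ^ ((Multiplicative.toAdd (g i)).val)) = _
        by_cases hl : l = i
        · subst hl
          rw [if_pos hi, hei]
          have h1 : g l = (Multiplicative.ofAdd (1 : ZMod (p ^ a l))) ^ ((Multiplicative.toAdd (g l)).val) := by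
            rw [← ofAdd_nsmul]
            have h2 : (Multiplicative.toAdd (g l)).val • (1 : ZMod (p ^ a l)) = Multiplicative.toAdd (g l) := by
              simp
            rw [h2]
            rfl
          rw [pow_right_comm, ← h1]
          rfl
        · have h3 : a l ≠ j + k + 1 := fun h => hl (hinj (h.trans hi.symm))
          rw [if_neg h3, hel l hl, one_pow, one_pow]
          rfl
    · refine ⟨1, Subgroup.one_mem _, fun g => ?_⟩
      have : (fun l => if a l = j + k + 1 then (g l) ^ (p ^ j) else 1 : Gr p a) = (1 : Gr p a) := by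
        ext l
        rw [if_neg (fun h => hi ⟨l, h⟩)]
        rfl
      rw [this]
      exact Subgroup.one_mem _
  refine ⟨x, le_antisymm ?_ (sup_le (D_mono p j k) (Subgroup.zpowers_le.2 hxD))⟩
  apply sup_le
  · exact le_sup_of_le_left le_sup_left
  · rintro w ⟨⟨g, rfl⟩, hw⟩
    have hw' : ∀ l, (g l) ^ (p ^ (j + k + 1)) = 1 := by
      intro l
      have h1 : (((g ^ (p ^ j)) ^ (p ^ (k + 1))) l) = 1 := congrFun hw l
      have h2 : ((g ^ (p ^ j)) ^ (p ^ (k + 1))) l = ((g l) ^ (p ^ j)) ^ (p ^ (k + 1)) := rfl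
      rw [h2, ← pow_mul, ← pow_add] at h1
      have e1 : j + (k + 1) = j + k + 1 := by omega
      rwa [e1] at h1
    have hz : ∀ l, ∃ z : Multiplicative (ZMod (p ^ a l)), j + k + 2 ≤ a l → g l = z ^ p := by
      intro l
      by_cases hl : j + k + 2 ≤ a l
      · obtain ⟨z, hz⟩ := zmod_div (by omega : j + k + 1 < a l) (g l) (hw' l)
        exact ⟨z, fun _ => hz⟩
      · exact ⟨1, fun h => absurd h hl⟩
    choose z hz using hz
    let P : Gr p a := fun l => if a l ≤ j + k then g l else 1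
    let Q : Gr p a := fun l => if j + k + 2 ≤ a l then z l else 1
    have hdec : g ^ p ^ j = P ^ p ^ j * Q ^ p ^ (j + 1) * (fun l => if a l = j + k + 1 then (g l) ^ (p ^ j) else 1 : Gr p a) := by
      ext l
      show (g l) ^ p ^ j = (P l) ^ p ^ j * (Q l) ^ p ^ (j + 1) * (if a l = j + k + 1 then (g l) ^ (p ^ j) else 1)
      have hPl : P l = if a l ≤ j + k then g l else 1 := rfl
      have hQl : Q l = if j + k + 2 ≤ a l then z l else 1 := rfl
      rcases lt_trichotomy (a l) (j + k + 1) with h | h | h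
      · rw [hPl, hQl, if_pos (by omega), if_neg (by omega), if_neg (by omega), one_pow, mul_one, mul_one]
      · rw [hPl, hQl, if_neg (by omega), if_neg (by omega), if_pos h, one_pow, one_pow, one_mul, one_mul]
      · rw [hPl, hQl, if_neg (by omega), if_pos (by omega), if_neg (by omega), one_pow, one_mul, mul_one, hz l (by omega), pow_succ', pow_mul]
    show g ^ p ^ j ∈ _
    rw [hdec]
    refine Subgroup.mul_mem _ (Subgroup.mul_mem _ ?_ ?_) (Subgroup.mem_sup_right (hdecomp g))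
    · apply Subgroup.mem_sup_left
      apply Subgroup.mem_sup_right
      refine ⟨⟨P, rfl⟩, ?_⟩
      show (P ^ p ^ j) ^ p ^ k = 1
      ext l
      show ((P l) ^ p ^ j) ^ p ^ k = 1
      have hPl : P l = if a l ≤ j + k then g l else 1 := rfl
      rw [hPl]
      by_cases h : a l ≤ j + k
      · rw [if_pos h, ← pow_mul, ← pow_add, zmod_pow_one h]
      · rw [if_neg h, one_pow, one_pow]
    · apply Subgroup.mem_sup_left
      apply Subgroup.mem_sup_left
      exact ⟨Q, rfl⟩

/-- a chain of characteristic subgroups when the invariants are distinct -/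
theorem chain_coord (hinj : Function.Injective a) :
    ∃ (m : ℕ) (d : ℕ → Subgroup (Gr p a)), d 0 = ⊥ ∧ d m = ⊤ ∧ (∀ i, CharSub (d i)) ∧ ∀ i, d i ≤ d (i + 1) ∧ ∃ x, d (i + 1) = d i ⊔ Subgroup.zpowers x := by
  apply chain_of_rtg (fun a y hy => by
    rw [Subgroup.mem_bot] at hy ⊢
    rw [hy, map_one])
  refine rtg_of_steps (p := p) (E := Finset.univ.sup a) (fun x => ?_) (step_coord hinj)
  ext l
  exact zmod_pow_one (Finset.le_sup (Finset.mem_univ l)) (x l)

/-- splitting off two factors -/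
def splitEquiv {i i' : ι} [DecidableEq ι] (hii : i ≠ i') (ψ : Multiplicative (ZMod (p ^ a i')) ≃* Multiplicative (ZMod (p ^ a i))) :
    Gr p a ≃* (Multiplicative (ZMod (p ^ a i)) × Multiplicative (ZMod (p ^ a i))) × ((l : {l // l ≠ i ∧ l ≠ i'}) → Multiplicative (ZMod (p ^ a l.1))) where
  toFun f := ((f i, ψ (f i')), fun l => f l.1)
  invFun u := Function.update (Function.update (fun l => if h : l ≠ i ∧ l ≠ i' then u.2 ⟨l, h⟩ else 1) i u.1.1) i' (ψ.symm u.1.2)
  left_inv f := by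
    ext l
    by_cases h1 : l = i'
    · subst h1
      simp
    · by_cases h2 : l = i
      · subst h2
        simp [Function.update_of_ne h1]
      · simp [Function.update_of_ne h1, Function.update_of_ne h2, h1, h2]
  right_inv u := by
    obtain ⟨⟨u1, u2⟩, g⟩ := u
    refine Prod.ext (Prod.ext ?_ ?_) ?_
    · simp [Function.update_of_ne hii]
    · simp
    · ext l
      have hl := l.2
      simp [Function.update_of_ne hl.1, Function.update_of_ne hl.2, hl.1, hl.2]
  map_mul' f g := by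
    refine Prod.ext (Prod.ext rfl ?_) rfl
    show ψ ((f * g) i') = ψ (f i') * ψ (g i')
    rw [Pi.mul_apply, map_mul]

end coord

theorem exists_cast {p A B : ℕ} (h : A = B) : Nonempty (Multiplicative (ZMod (p ^ A)) ≃* Multiplicative (ZMod (p ^ B))) := by
  subst h
  exact ⟨MulEquiv.refl _⟩

section main

variable {Ω : Type*} [Group Ω] {S : Subgroup Ω} [Finite S] {p : ℕ} [Fact p.Prime]

theorem chain_of_no_factor (hS : IsPGroup p S) (hab : IsMulCommutative S)
    (hno : ¬ ∃ (n : ℕ) (H : Type) (_ : CommGroup H), 0 < n ∧ Nonempty (↥S ≃* (Multiplicative (ZMod (p ^ n)) × Multiplicative (ZMod (p ^ n))) × H))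
    (F : Cfsg.FusionSystem S) (hF : F.IsSaturated p) :
    ∃ (m : ℕ) (c : Fin (m + 1) → Subgroup Ω), c 0 = ⊥ ∧ c (Fin.last m) = S ∧ (∀ i : Fin (m + 1), F.StronglyClosed (c i)) ∧ ∀ i : Fin m, c i.castSucc ≤ c i.succ ∧ ∃ x ∈ S, c i.succ = c i.castSucc ⊔ Subgroup.zpowers x := by
  classical
  have hp : p.Prime := Fact.out
  have hcomm : ∀ a b : S, a * b = b * a := fun a b => hab.is_comm.comm a b
  letI inst : CommGroup S := { (inferInstance : Group S) with mul_comm := hcomm }
  obtain ⟨ι, hι, n, hn, ⟨e⟩⟩ := CommGroup.equiv_prod_multiplicative_zmod_of_finite S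
  obtain ⟨K, hK⟩ := IsPGroup.iff_card.1 hS
  have hpow : ∀ l, ∃ A, 1 ≤ A ∧ n l = p ^ A := by
    intro l
    haveI : ∀ l, NeZero (n l) := fun l => ⟨by have := hn l; omega⟩
    have h1 : Nat.card S = ∏ l, n l := by
      rw [Nat.card_congr e.toEquiv, Nat.card_pi]
      refine Finset.prod_congr rfl fun l _ => ?_
      rw [Nat.card_congr Multiplicative.toAdd, Nat.card_zmod]
    have h2 : n l ∣ p ^ K := by
      rw [← hK, h1]
      exact Finset.dvd_prod_of_mem _ (Finset.mem_univ l)
    obtain ⟨A, -, hA⟩ := (Nat.dvd_prime_pow hp).1 h2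
    refine ⟨A, ?_, hA⟩
    rcases Nat.eq_zero_or_pos A with rfl | h
    · have := hn l
      rw [hA, pow_zero] at this
      omega
    · exact h
  choose a ha hna using hpow
  obtain rfl : n = fun l => p ^ a l := funext hna
  have hinj : Function.Injective a := by
    intro i i' h
    by_contra hne
    apply hno
    obtain ⟨ψ⟩ := exists_cast (p := p) h.symm
    exact ⟨a i, _, inferInstance, ha i, ⟨e.trans (splitEquiv hne ψ)⟩⟩
  obtain ⟨m, d, h0, hm, hinv, hstep⟩ := chain_coord (p := p) hinj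
  have hN : F.IsNormal S := by
    apply Cfsg.Agent.Lib.FusSolv.normal_of_abelian_sc hS hF (Cfsg.Agent.S5283.sc_top F)
    rw [Subgroup.commutator_le]
    intro x hx y hy
    have h1 := hcomm ⟨x, hx⟩ ⟨y, hy⟩
    have h2 : x * y = y * x := congrArg Subtype.val h1
    rw [commutatorElement_def, h2]
    simp
  have hmapeq : ∀ i, (d i).map (S.subtype.comp e.symm.toMonoidHom) = ((d i).map e.symm.toMonoidHom).map S.subtype := by
    intro i
    rw [Subgroup.map_map]
  refine ⟨m, fun i => (d i.val).map (S.subtype.comp e.symm.toMonoidHom), ?_, ?_, fun i => ?_, fun i => ⟨Subgroup.map_mono (hstep i.val).1, ?_⟩⟩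
  · show (d 0).map _ = ⊥
    rw [h0, Subgroup.map_bot]
  · show (d m).map _ = S
    rw [hm, ← MonoidHom.range_eq_map]
    ext y
    constructor
    · rintro ⟨z, rfl⟩
      exact Subtype.coe_prop _
    · intro hy
      exact ⟨e ⟨y, hy⟩, by simp⟩
  · show F.StronglyClosed ((d i.val).map (S.subtype.comp e.symm.toMonoidHom))
    rw [hmapeq]
    apply Cfsg.Agent.S5283.sc_of_inv hN
    rintro b hb _ ⟨z, hz, rfl⟩
    refine ⟨(e.symm.trans b).trans e z, hinv _ _ z hz, ?_⟩
    show e.symm (e (b (e.symm z))) = _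
    simp
  · obtain ⟨x, hx⟩ := (hstep i.val).2
    refine ⟨e.symm x, Subtype.coe_prop _, ?_⟩
    show (d (i.val + 1)).map _ = (d i.val).map _ ⊔ Subgroup.zpowers ((e.symm x : S) : Ω)
    rw [hx, Subgroup.map_sup, MonoidHom.map_zpowers]
    rfl

theorem no_factor (hH : ∀ H : Subgroup (MulAut S), (Nat.card H).Coprime p → IsMulCommutative H ∧ ∀ h ∈ H, h ^ (p - 1) = 1) {n : ℕ} {H : Type} [CommGroup H] (hn : 0 < n)
    (e : ↥S ≃* (Multiplicative (ZMod (p ^ n)) × Multiplicative (ZMod (p ^ n))) × H) : False := by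
  have hp : p.Prime := Fact.out
  haveI : Finite ((Multiplicative (ZMod (p ^ n)) × Multiplicative (ZMod (p ^ n))) × H) := Finite.of_equiv _ e.toEquiv
  have hX : ∀ X : Subgroup (MulAut ((Multiplicative (ZMod (p ^ n)) × Multiplicative (ZMod (p ^ n))) × H)), (Nat.card X).Coprime p →
      (∀ a ∈ X, ∀ b ∈ X, a * b = b * a) ∧ ∀ h ∈ X, h ^ (p - 1) = 1 := by
    intro X hco
    have hφ : Function.Injective (MulAut.congr e.symm).toMonoidHom := (MulAut.congr e.symm).injective
    obtain ⟨h1, h2⟩ := hH (X.map (MulAut.congr e.symm).toMonoidHom) (by rwa [Subgroup.card_map_of_injective hφ])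
    constructor
    · intro a ha b hb
      apply hφ
      rw [map_mul, map_mul]
      have := h1.is_comm.comm ⟨_, ⟨a, ha, rfl⟩⟩ ⟨_, ⟨b, hb, rfl⟩⟩
      exact congrArg Subtype.val this
    · intro h hh
      apply hφ
      rw [map_pow, map_one]
      exact h2 _ ⟨h, hh, rfl⟩
  by_cases hp2 : p = 2
  · subst hp2
    let τ : MulAut ((Multiplicative (ZMod (2 ^ n)) × Multiplicative (ZMod (2 ^ n))) × H) :=
      { toFun := fun u => ((u.1.2, (u.1.1 * u.1.2)⁻¹), u.2)
        invFun := fun u => (((u.1.1 * u.1.2)⁻¹, u.1.1), u.2)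
        left_inv := by
          rintro ⟨⟨x, y⟩, h⟩
          simp
        right_inv := by
          rintro ⟨⟨x, y⟩, h⟩
          simp
        map_mul' := by
          rintro ⟨⟨x, y⟩, h⟩ ⟨⟨x', y'⟩, h'⟩
          simp [mul_comm, mul_left_comm, mul_assoc] }
    have hτ3 : τ ^ 3 = 1 := by
      apply MulEquiv.ext
      rintro ⟨⟨x, y⟩, h⟩
      show τ (τ (τ ((x, y), h))) = ((x, y), h)
      have h1 : y * (x * y)⁻¹ = x⁻¹ := by
        rw [mul_inv_eq_iff_eq_mul]
        group
      refine Prod.ext (Prod.ext ?_ ?_) rfl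
      · show (y * (x * y)⁻¹)⁻¹ = x
        rw [h1, inv_inv]
      · show ((x * y)⁻¹ * (y * (x * y)⁻¹)⁻¹)⁻¹ = y
        rw [h1]
        group
    have hord : orderOf τ ∣ 3 := orderOf_dvd_of_pow_eq_one hτ3
    have hco : (Nat.card (Subgroup.zpowers τ)).Coprime 2 := by
      rw [Nat.card_zpowers]
      exact Nat.Coprime.coprime_dvd_left hord (by norm_num)
    have h1 := (hX _ hco).2 τ (Subgroup.mem_zpowers τ)
    have h2 : τ = 1 := by simpa using h1
    have h3 := congrArg (fun σ : MulAut ((Multiplicative (ZMod (2 ^ n)) × Multiplicative (ZMod (2 ^ n))) × H) => (σ ((Multiplicative.ofAdd 1, 1), 1)).1.1) h2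
    haveI : Fact (1 < 2 ^ n) := ⟨Nat.one_lt_pow hn.ne' (by norm_num)⟩
    have h4 : (0 : ZMod (2 ^ n)) = 1 := h3
    exact zero_ne_one h4
  · let s : MulAut ((Multiplicative (ZMod (p ^ n)) × Multiplicative (ZMod (p ^ n))) × H) := MulEquiv.prodCongr MulEquiv.prodComm (MulEquiv.refl H)
    let t : MulAut ((Multiplicative (ZMod (p ^ n)) × Multiplicative (ZMod (p ^ n))) × H) := MulEquiv.prodCongr (MulEquiv.prodCongr (MulEquiv.inv _) (MulEquiv.refl _)) (MulEquiv.refl H)
    let t' : MulAut ((Multiplicative (ZMod (p ^ n)) × Multiplicative (ZMod (p ^ n))) × H) := MulEquiv.prodCongr (MulEquiv.prodCongr (MulEquiv.refl _) (MulEquiv.inv _)) (MulEquiv.refl H)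
    have hs2 : s ^ 2 = 1 := by
      apply MulEquiv.ext
      rintro ⟨⟨x, y⟩, h⟩
      rfl
    have ht2 : t ^ 2 = 1 := by
      apply MulEquiv.ext
      rintro ⟨⟨x, y⟩, h⟩
      show (((x⁻¹)⁻¹, y), h) = ((x, y), h)
      rw [inv_inv]
    have ht'2 : t' ^ 2 = 1 := by
      apply MulEquiv.ext
      rintro ⟨⟨x, y⟩, h⟩
      show ((x, (y⁻¹)⁻¹), h) = ((x, y), h)
      rw [inv_inv]
    have htt' : t * t' = t' * t := by
      apply MulEquiv.ext
      rintro ⟨⟨x, y⟩, h⟩
      rfl
    have hst : s * t = t' * s := by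
      apply MulEquiv.ext
      rintro ⟨⟨x, y⟩, h⟩
      rfl
    have hst' : s * t' = t * s := by
      apply MulEquiv.ext
      rintro ⟨⟨x, y⟩, h⟩
      rfl
    have pg : ∀ x : MulAut ((Multiplicative (ZMod (p ^ n)) × Multiplicative (ZMod (p ^ n))) × H), x ^ 2 = 1 → IsPGroup 2 (Subgroup.zpowers x) := by
      rintro x hx ⟨_, j, rfl⟩
      refine ⟨1, Subtype.ext ?_⟩
      show (x ^ j) ^ 2 ^ 1 = 1
      rw [pow_one, ← zpow_natCast, ← zpow_mul, mul_comm, zpow_mul, zpow_natCast, hx, one_zpow]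
    have hcommn : Subgroup.zpowers t ≤ Subgroup.normalizer (Subgroup.zpowers t' : Set _) := by
      apply Subgroup.zpowers_le.2
      apply mem_normalizer_of_conj_le'
      rintro _ ⟨j, rfl⟩
      have h1 : Commute t (t' ^ j) := Commute.zpow_right htt' j
      show t * t' ^ j * t⁻¹ ∈ _
      rw [h1.eq, mul_assoc, mul_inv_cancel, mul_one]
      exact Subgroup.zpow_mem_zpowers _ _
    have h2g : IsPGroup 2 ↥(Subgroup.zpowers t ⊔ Subgroup.zpowers t') := IsPGroup.to_sup_of_normal_right' (pg t ht2) (pg t' ht'2) hcommn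
    have hsn : Subgroup.zpowers s ≤ Subgroup.normalizer ((Subgroup.zpowers t ⊔ Subgroup.zpowers t' : Subgroup _) : Set _) := by
      apply Subgroup.zpowers_le.2
      apply mem_normalizer_of_conj_le'
      intro y hy
      have hle : Subgroup.zpowers t ⊔ Subgroup.zpowers t' ≤ (Subgroup.zpowers t ⊔ Subgroup.zpowers t').comap (MulAut.conj s).toMonoidHom := by
        apply sup_le
        · apply Subgroup.zpowers_le.2
          show s * t * s⁻¹ ∈ Subgroup.zpowers t ⊔ Subgroup.zpowers t'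
          rw [hst, mul_assoc, mul_inv_cancel, mul_one]
          exact Subgroup.mem_sup_right (Subgroup.mem_zpowers _)
        · apply Subgroup.zpowers_le.2
          show s * t' * s⁻¹ ∈ Subgroup.zpowers t ⊔ Subgroup.zpowers t'
          rw [hst', mul_assoc, mul_inv_cancel, mul_one]
          exact Subgroup.mem_sup_left (Subgroup.mem_zpowers _)
      exact hle hy
    have h3g : IsPGroup 2 ↥(Subgroup.zpowers s ⊔ (Subgroup.zpowers t ⊔ Subgroup.zpowers t')) := IsPGroup.to_sup_of_normal_right' (pg s hs2) h2g hsn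
    obtain ⟨k, hk⟩ := IsPGroup.iff_card.1 h3g
    have hco : (Nat.card ↥(Subgroup.zpowers s ⊔ (Subgroup.zpowers t ⊔ Subgroup.zpowers t'))).Coprime p := by
      rw [hk]
      exact Nat.Coprime.pow_left k ((Nat.coprime_primes Nat.prime_two hp).2 (Ne.symm hp2))
    have h4 := (hX _ hco).1 s (Subgroup.mem_sup_left (Subgroup.mem_zpowers s)) t (Subgroup.mem_sup_right (Subgroup.mem_sup_left (Subgroup.mem_zpowers t)))
    have h5 := congrArg (fun σ : MulAut ((Multiplicative (ZMod (p ^ n)) × Multiplicative (ZMod (p ^ n))) × H) => (σ ((Multiplicative.ofAdd 1, 1), 1)).1.2) h4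
    have h6 : (-1 : ZMod (p ^ n)) = 1 := by
      have h7 : ((Multiplicative.ofAdd 1 : Multiplicative (ZMod (p ^ n))))⁻¹ = Multiplicative.ofAdd 1 := h5
      exact h7
    have h8 : ((2 : ℕ) : ZMod (p ^ n)) = 0 := by
      have : (1 : ZMod (p ^ n)) + 1 = 0 := by
        nth_rewrite 1 [← h6]
        ring
      push_cast
      rw [← this]
      ring
    have h9 : p ^ n ∣ 2 := (ZMod.natCast_eq_zero_iff _ _).1 h8
    have h10 : p ∣ 2 := (dvd_pow_self p hn.ne').trans h9
    exact hp2 ((Nat.prime_dvd_prime_iff_eq hp Nat.prime_two).1 h10)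

end main

/-- Let S be a finite abelian p-group. Every saturated fusion system over S is supersoluble (S has a chain of F-strongly closed subgroups from 1 to S with cyclic steps) if and only if the invariants of S are pairwise distinct, that is, S is not isomorphic to a direct product (Z/p^n × Z/p^n) × H with n ≥ 1. -/
theorem result {Ω : Type*} [Group Ω] {S : Subgroup Ω} [Finite S] (p : ℕ) [Fact p.Prime] (hS : IsPGroup p ↥S) (hab : IsMulCommutative ↥S) : (∀ F : Cfsg.FusionSystem S, F.IsSaturated p → (∃ (m : ℕ) (c : Fin (m + 1) → Subgroup Ω), c 0 = ⊥ ∧ c (Fin.last m) = S ∧ (∀ i : Fin (m + 1), F.StronglyClosed (c i)) ∧ ∀ i : Fin m, c i.castSucc ≤ c i.succ ∧ ∃ x ∈ S, c i.succ = c i.castSucc ⊔ Subgroup.zpowers x)) ↔ ¬ ∃ (n : ℕ) (H : Type) (_ : CommGroup H), 0 < n ∧ Nonempty (↥S ≃* (Multiplicative (ZMod (p ^ n)) × Multiplicative (ZMod (p ^ n))) × H) := by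
  constructor
  · rintro hch ⟨n, H, inst, hn, ⟨e⟩⟩
    exact no_factor (Cfsg.Agent.S5283.aut_props hS hch) hn e
  · intro hno F hF
    exact chain_of_no_factor hS hab hno F hF


end Cfsg.Agent.S5284
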