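import Cfsg.Statements.S5290
import Mathlib
import Cfsg.Agent.Lib.FusNorm2
import Cfsg.Agent.Lib.FusAb

set_option autoImplicit false
open Cfsg

namespace Cfsg.Agent.S5290

open Cfsg.FusionSystem Cfsg.Agent.Lib.FusBasic Cfsg.Agent.Lib.FusAut Cfsg.Agent.Lib.FusSat Cfsg.Agent.Lib.FusNorm Cfsg.Agent.Lib.FusNorm2

/-- Let F be a saturated fusion system over a finite p-group S and Q a subgroup of S. Then Q is normal in F (F = N_F(Q)) if and only if the inner fusion system of Q, consisting of the conjugations by elements of Q on subgroups of Q, is a weakly normal subsystem of F (both saturated, Q strongly closed, invariant under F-conjugation, with the Frattini property). -/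
theorem result {Ω : Type*} [Group Ω] {S : Subgroup Ω} [Finite S] (p : ℕ) [Fact p.Prime] (hS : IsPGroup p S)
    (F : Cfsg.FusionSystem S) (hF : F.IsSaturated p)
    (Q : Subgroup Ω) (hQ : Q ≤ S) :
    F.IsNormal Q ↔ (Cfsg.innerFusionSystem Q).IsWeaklyNormalIn F p := by
  haveI : Finite Q := finite_of_le hQ
  have hQp : IsPGroup p Q := hS.to_le hQ
  constructor
  · intro hN
    have hsc := stronglyClosed_of_normal F hN
    refine ⟨Cfsg.Agent.Lib.FusAb.inner_saturated hQp, hF, ?_, hsc, ?_, ?_⟩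
    · rintro P φ ⟨hP, g, hg, he⟩
      have := F.conj_mem (hP.trans hQ) (hQ hg)
      exact hom_congr F this he
    · rintro P hPQ φ ⟨-, g, hg, he⟩ α hα
      refine ⟨conjHom _ ((α ⟨g, hg⟩ : Q) : Ω), ⟨?_, _, (α ⟨g, hg⟩).2, fun x => rfl⟩, fun x hφx hαx => ?_⟩
      · rintro _ ⟨y, hy, rfl⟩
        exact (α y).2
      · show ((α ⟨g, hg⟩ : Q) : Ω) * ((α ⟨x, hPQ x.2⟩ : Q) : Ω) * ((α ⟨g, hg⟩ : Q) : Ω)⁻¹ = _
        have e1 : (⟨φ x, hφx⟩ : Q) = ⟨g, hg⟩ * ⟨x, hPQ x.2⟩ * (⟨g, hg⟩ : Q)⁻¹ := Subtype.ext (he x)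
        rw [e1, map_mul, map_mul, map_inv]
        rfl
    · intro P hPQ φ hφ
      obtain ⟨α, hα, hαe⟩ := (normal_iff_ext hS F hF hQ).1 hN P hPQ φ hφ
      refine ⟨α, hα, P.subtype, ⟨hPQ, 1, Q.one_mem, fun x => by simp⟩, fun x hx => ?_⟩
      rw [← hαe x]
      rfl
  · rintro ⟨-, -, hinv⟩
    refine (normal_iff_ext hS F hF hQ).2 (fun P hPQ φ hφ => ?_)
    obtain ⟨α, hα, φ₀, ⟨-, g, hg, he⟩, hαe⟩ := hinv.2.2.2 P hPQ φ hφ
    have hc : (MulAut.conj (⟨g, hg⟩ : Q) : MulAut Q) ∈ F.autGroup Q := inn_le_autGroup F hQ ⟨⟨g, hg⟩, rfl⟩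
    refine ⟨α * MulAut.conj (⟨g, hg⟩ : Q), Subgroup.mul_mem _ hα hc, fun x => ?_⟩
    have hv : φ₀ x ∈ Q := by
      rw [he]
      exact Q.mul_mem (Q.mul_mem hg (hPQ x.2)) (Q.inv_mem hg)
    rw [hαe x hv]
    show ((α _ : Q) : Ω) = _
    congr 2
    apply Subtype.ext
    exact (he x).symm


end Cfsg.Agent.S5290
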