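import Cfsg.Statements.S5291
import Mathlib
import Cfsg.Agent.Lib.FusNorm2
import Cfsg.Agent.Lib.FusSolv

set_option autoImplicit false
open Cfsg

namespace Cfsg.Agent.S5291

open Cfsg.FusionSystem Cfsg.Agent.Lib.FusBasic Cfsg.Agent.Lib.FusAut Cfsg.Agent.Lib.FusSat Cfsg.Agent.Lib.FusNorm Cfsg.Agent.Lib.FusNorm2

/-- transport of maps of `E` along `α ∈ Aut_F(T)`, in an opaque form -/
theorem transport_map {Ω : Type*} [Group Ω] {S : Subgroup Ω} {F : Cfsg.FusionSystem S} {T : Subgroup Ω} {E : Cfsg.FusionSystem T}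
    (hinv : E.IsInvariantIn F) {α : MulAut T} (hα : α ∈ F.autGroup T) {X : Subgroup Ω} (hXT : X ≤ T) {ω : X →* Ω} (hω : ω ∈ E.Hom X) :
    ∃ (X' : Subgroup Ω) (χ : X' →* Ω), χ ∈ E.Hom X' ∧ (∀ y : Ω, y ∈ X' ↔ ∃ x : X, y = α ⟨x, hXT x.2⟩) ∧
      ∀ (x : X) (hv : ω x ∈ T) (hy : ((α ⟨x, hXT x.2⟩ : T) : Ω) ∈ X'), χ ⟨_, hy⟩ = ((α ⟨ω x, hv⟩ : T) : Ω) := by
  obtain ⟨χ, hχ, he⟩ := hinv.2.2.1 X hXT ω hω α hα
  refine ⟨_, χ, hχ, fun y => ?_, he⟩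
  constructor
  · rintro ⟨t, ht, rfl⟩
    exact ⟨⟨t, ht⟩, rfl⟩
  · rintro ⟨x, rfl⟩
    exact ⟨⟨x, hXT x.2⟩, x.2, rfl⟩

/-- transport of a normal subgroup of `E` along `α ∈ Aut_F(T)` -/
theorem normal_transport {Ω : Type*} [Group Ω] {S : Subgroup Ω} {F : Cfsg.FusionSystem S} {T : Subgroup Ω} {E : Cfsg.FusionSystem T}
    (hinv : E.IsInvariantIn F) {R : Subgroup Ω} (hR : E.IsNormal R) {α : MulAut T} (hα : α ∈ F.autGroup T) :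
    E.IsNormal ((R.subgroupOf T).map (T.subtype.comp α.toMonoidHom)) := by
  have hRT : R ≤ T := hR.1
  obtain ⟨R', hR'⟩ : ∃ R', R' = (R.subgroupOf T).map (T.subtype.comp α.toMonoidHom) := ⟨_, rfl⟩
  rw [← hR']
  have hmemR' : ∀ y : Ω, y ∈ R' ↔ ∃ hy : y ∈ T, ((α⁻¹ ⟨y, hy⟩ : T) : Ω) ∈ R := by
    intro y
    rw [hR']
    constructor
    · rintro ⟨t, ht, rfl⟩
      refine ⟨(α t).2, ?_⟩
      have : α⁻¹ (α t) = t := by
        show (α⁻¹ * α) t = t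
        simp
      show ((α⁻¹ (α t) : T) : Ω) ∈ R
      rw [this]
      exact ht
    · rintro ⟨hy, h⟩
      refine ⟨α⁻¹ ⟨y, hy⟩, h, ?_⟩
      show ((α (α⁻¹ ⟨y, hy⟩) : T) : Ω) = y
      have : α (α⁻¹ ⟨y, hy⟩) = ⟨y, hy⟩ := by
        show (α * α⁻¹) _ = _
        simp
      rw [this]
  have hR'T : R' ≤ T := fun y hy => ((hmemR' y).1 hy).1
  have hαmem : ∀ t : T, (t : Ω) ∈ R → ((α t : T) : Ω) ∈ R' := by
    intro t ht
    rw [hR']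
    exact ⟨t, ht, rfl⟩
  have hinvα : ∀ t : T, α (α⁻¹ t) = t := fun t => by
    show (α * α⁻¹) t = t
    simp
  have hinvα' : ∀ t : T, α⁻¹ (α t) = t := fun t => by
    show (α⁻¹ * α) t = t
    simp
  refine ⟨hR'T, fun X ω hω => ?_⟩
  have hXT : X ≤ T := src_le E hω
  have hvT : ∀ x : X, ω x ∈ T := val_mem E hω
  -- transport `ω` by `α⁻¹`
  obtain ⟨X₀, χ, hχ, hX₀m, hχe⟩ := transport_map hinv (Subgroup.inv_mem _ hα) hXT hω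
  have hX₀T : X₀ ≤ T := by
    intro y hy
    obtain ⟨x, rfl⟩ := (hX₀m y).1 hy
    exact (α⁻¹ _).2
  obtain ⟨ψ, hψ, hψe, hψm⟩ := hR.2 X₀ χ hχ
  have hU : X₀ ⊔ R ≤ T := sup_le hX₀T hRT
  -- transport `ψ` by `α`
  obtain ⟨X₂, χ₃, hχ₃, hX₂m, hχ₃e⟩ := transport_map hinv hα hU hψ
  have hX₂eq : X₂ = X ⊔ R' := by
    apply le_antisymm
    · intro y hy
      obtain ⟨z, rfl⟩ := (hX₂m y).1 hy
      have hle : X₀ ⊔ R ≤ (((X ⊔ R').subgroupOf T).comap α.toMonoidHom).map T.subtype := by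
        refine sup_le ?_ ?_
        · intro r hr
          obtain ⟨x, rfl⟩ := (hX₀m r).1 hr
          refine ⟨α⁻¹ ⟨x, hXT x.2⟩, ?_, rfl⟩
          show ((α (α⁻¹ ⟨x, hXT x.2⟩) : T) : Ω) ∈ X ⊔ R'
          rw [hinvα]
          exact le_sup_left (b := R') x.2
        · intro r hr
          refine ⟨⟨r, hRT hr⟩, ?_, rfl⟩
          exact le_sup_right (a := X) (hαmem ⟨r, hRT hr⟩ hr)
      obtain ⟨w, hw, e⟩ := hle z.2
      have e2 : w = ⟨z, hU z.2⟩ := Subtype.ext e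
      rw [e2] at hw
      exact hw
    · refine sup_le (fun x hx => ?_) (fun r' hr' => ?_)
      · have h1 : ((α⁻¹ ⟨x, hXT hx⟩ : T) : Ω) ∈ X₀ := (hX₀m _).2 ⟨⟨x, hx⟩, rfl⟩
        refine (hX₂m x).2 ⟨⟨_, (le_sup_left : X₀ ≤ X₀ ⊔ R) h1⟩, ?_⟩
        show x = ((α (α⁻¹ ⟨x, hXT hx⟩) : T) : Ω)
        rw [hinvα]
      · obtain ⟨hy, h⟩ := (hmemR' r').1 hr'
        refine (hX₂m r').2 ⟨⟨_, (le_sup_right : R ≤ X₀ ⊔ R) h⟩, ?_⟩
        show r' = ((α (α⁻¹ ⟨r', hy⟩) : T) : Ω)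
        rw [hinvα]
  subst hX₂eq
  have hvψ : ∀ z : ↥(X₀ ⊔ R), ψ z ∈ T := val_mem E hψ
  have hRψ : ∀ z : ↥(X₀ ⊔ R), (z : Ω) ∈ R → ψ z ∈ R := fun z hz => hψm.le ⟨z, hz, rfl⟩
  refine ⟨χ₃, hχ₃, fun x => ?_, ?_⟩
  · -- agreement on `X`
    have hxX₀ : ((α⁻¹ ⟨x, hXT x.2⟩ : T) : Ω) ∈ X₀ := (hX₀m _).2 ⟨x, rfl⟩
    have h1 := hχe x (hvT x) hxX₀
    have h2 := hψe ⟨_, hxX₀⟩
    have hy : ((α ⟨(Subgroup.inclusion le_sup_left (⟨_, hxX₀⟩ : X₀) : ↥(X₀ ⊔ R)), hU (Subgroup.inclusion le_sup_left (⟨_, hxX₀⟩ : X₀) : ↥(X₀ ⊔ R)).2⟩ : T) : Ω) ∈ X ⊔ R' := by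
      show ((α (α⁻¹ ⟨x, hXT x.2⟩) : T) : Ω) ∈ X ⊔ R'
      rw [hinvα]
      exact le_sup_left (b := R') x.2
    have h3 := hχ₃e (Subgroup.inclusion le_sup_left (⟨_, hxX₀⟩ : X₀)) (hvψ _) hy
    have e1 : (⟨((α ⟨(Subgroup.inclusion le_sup_left (⟨_, hxX₀⟩ : X₀) : ↥(X₀ ⊔ R)), hU (Subgroup.inclusion le_sup_left (⟨_, hxX₀⟩ : X₀) : ↥(X₀ ⊔ R)).2⟩ : T) : Ω), hy⟩ : ↥(X ⊔ R')) = Subgroup.inclusion le_sup_left x := by
      apply Subtype.ext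
      show ((α (α⁻¹ ⟨x, hXT x.2⟩) : T) : Ω) = x
      rw [hinvα]
    rw [e1] at h3
    rw [h3]
    have e2 : (⟨ψ (Subgroup.inclusion le_sup_left (⟨_, hxX₀⟩ : X₀)), hvψ _⟩ : T) = α⁻¹ ⟨ω x, hvT x⟩ := by
      apply Subtype.ext
      exact h2.trans h1
    rw [e2, hinvα]
  · -- `R'` is preserved
    have hval : ∀ (r : R), χ₃ ⟨((α ⟨r, hRT r.2⟩ : T) : Ω), le_sup_right (a := X) (hαmem ⟨r, hRT r.2⟩ r.2)⟩ = ((α ⟨ψ (Subgroup.inclusion le_sup_right r), hvψ _⟩ : T) : Ω) := by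
      intro r
      exact hχ₃e (Subgroup.inclusion le_sup_right r) (hvψ _) _
    apply le_antisymm
    · rintro _ ⟨z, hz, rfl⟩
      have hz' : (z : Ω) ∈ R' := hz
      obtain ⟨hzT, hzR⟩ := (hmemR' _).1 hz'
      have h1 := hval ⟨_, hzR⟩
      have e1 : (⟨((α ⟨((⟨_, hzR⟩ : R) : Ω), hRT hzR⟩ : T) : Ω), le_sup_right (a := X) (hαmem ⟨((⟨_, hzR⟩ : R) : Ω), hRT hzR⟩ hzR)⟩ : ↥(X ⊔ R')) = z := by
        apply Subtype.ext
        show ((α (α⁻¹ ⟨z, hzT⟩) : T) : Ω) = z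
        rw [hinvα]
      rw [e1] at h1
      rw [h1]
      exact hαmem _ (hRψ _ hzR)
    · intro y hy
      obtain ⟨hyT, hyR⟩ := (hmemR' _).1 hy
      have hy2 : ((α⁻¹ ⟨y, hyT⟩ : T) : Ω) ∈ (R.subgroupOf (X₀ ⊔ R)).map ψ := hψm.ge hyR
      obtain ⟨z, hz, e⟩ := hy2
      have hzR : (z : Ω) ∈ R := hz
      have h1 := hval ⟨z, hzR⟩
      refine ⟨⟨((α ⟨z, hRT hzR⟩ : T) : Ω), le_sup_right (a := X) (hαmem ⟨z, hRT hzR⟩ hzR)⟩, hαmem ⟨z, hRT hzR⟩ hzR, ?_⟩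
      refine h1.trans ?_
      have e2 : (⟨ψ (Subgroup.inclusion le_sup_right (⟨z, hzR⟩ : R)), hvψ _⟩ : T) = α⁻¹ ⟨y, hyT⟩ := by
        apply Subtype.ext
        exact e
      rw [e2, hinvα]

/-- Let F be a saturated fusion system over a finite p-group S and E a weakly normal subsystem of F over a subgroup T. Suppose a subgroup R of T is normal in E (E = N_E(R)), and let R* be the subgroup of T generated by the images of R under all maps of F with source R. Then R* is normal in F (F = N_F(R*)). -/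
theorem result {Ω : Type*} [Group Ω] {S : Subgroup Ω} [Finite S] (p : ℕ) [Fact p.Prime] (hS : IsPGroup p S)
    (F : Cfsg.FusionSystem S) (hF : F.IsSaturated p)
    {T : Subgroup Ω} (E : Cfsg.FusionSystem T) (hE : E.IsWeaklyNormalIn F p)
    (R : Subgroup Ω) (hR : E.IsNormal R) :
    F.IsNormal (Subgroup.closure {x : Ω | ∃ φ ∈ F.Hom R, ∃ r : R, x = φ r}) := by
  have hinv := hE.2.2
  have hsc := hinv.2.1
  have hTS : T ≤ S := hsc.1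
  haveI : Finite T := finite_of_le hTS
  have hTp : IsPGroup p T := hS.to_le hTS
  have hEs := hE.1
  have hRT : R ≤ T := hR.1
  set Rs := Subgroup.closure {x : Ω | ∃ φ ∈ F.Hom R, ∃ r : R, x = φ r} with hRs
  have hRsT : Rs ≤ T := by
    rw [hRs, Subgroup.closure_le]
    rintro _ ⟨φ, hφ, r, rfl⟩
    exact hsc.2 R hRT φ hφ r
  have hαR : ∀ α ∈ F.autGroup T, (R.subgroupOf T).map (T.subtype.comp α.toMonoidHom) ≤ Rs := by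
    rintro α hα _ ⟨t, ht, rfl⟩
    refine Subgroup.subset_closure ⟨(T.subtype.comp α.toMonoidHom).comp (Subgroup.inclusion hRT), res_mem F hRT ((mem_autGroup_iff F hTS).1 hα), ⟨t, ht⟩, rfl⟩
  have hgen : ∀ (φ : R →* Ω), φ ∈ F.Hom R → ∀ r : R, ∃ α ∈ F.autGroup T, φ r ∈ (R.subgroupOf T).map (T.subtype.comp α.toMonoidHom) := by
    intro φ hφ r
    obtain ⟨α, hα, φ₀, hφ₀, he⟩ := hinv.2.2.2 R hRT φ hφ
    have hR0 : φ₀ r ∈ R := (stronglyClosed_of_normal E hR).2 R le_rfl φ₀ hφ₀ r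
    have hv : φ₀ r ∈ T := hRT hR0
    refine ⟨α, hα, ⟨φ₀ r, hv⟩, hR0, ?_⟩
    exact (he r hv).symm
  -- `Rs` is normal in `E`
  let 𝒞 : Set (Subgroup Ω) := {Q | E.IsNormal Q ∧ Q ≤ Rs}
  have hfin : 𝒞.Finite := finite_subgroups_le (S := T).subset (fun Q hQ => hQ.2.trans hRsT)
  have hsup := sSup_mem_of_sup_closed hfin ⟨⊥, normal_bot E, bot_le⟩ (fun A hA B hB => ⟨normal_sup E hA.1 hB.1, sup_le hA.2 hB.2⟩)
  have hRseq : sSup 𝒞 = Rs := by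
    apply le_antisymm hsup.2
    rw [hRs, Subgroup.closure_le]
    rintro _ ⟨φ, hφ, r, rfl⟩
    obtain ⟨α, hα, hm⟩ := hgen φ hφ r
    have : (R.subgroupOf T).map (T.subtype.comp α.toMonoidHom) ≤ sSup 𝒞 := le_sSup ⟨normal_transport hinv hR hα, hαR α hα⟩
    exact this hm
  have hRsn : E.IsNormal Rs := by
    rw [← hRseq]
    exact hsup.1
  have hRsE := stronglyClosed_of_normal E hRsn
  -- `Aut_F(T)` preserves `Rs`
  have hαRs : ∀ α ∈ F.autGroup T, ∀ x : T, (x : Ω) ∈ Rs → ((α x : T) : Ω) ∈ Rs := by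
    intro α hα x hx
    have hle : Rs ≤ ((Rs.subgroupOf T).comap α.toMonoidHom).map T.subtype := by
      rw [hRs, Subgroup.closure_le]
      rintro _ ⟨φ, hφ, r, rfl⟩
      have hv : ∀ y : R, φ y ∈ T := fun y => hsc.2 R hRT φ hφ y
      refine ⟨⟨φ r, hv r⟩, ?_, rfl⟩
      refine Subgroup.subset_closure ⟨_, F.comp_mem hφ ((mem_autGroup_iff F hTS).1 hα) hv, r, rfl⟩
    obtain ⟨w, hw, e⟩ := hle hx
    have : w = x := Subtype.ext e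
    rw [← this]
    exact hw
  have hRsF : F.StronglyClosed Rs := by
    refine ⟨hRsT.trans hTS, fun X hX φ hφ x => ?_⟩
    obtain ⟨α, hα, φ₀, hφ₀, he⟩ := hinv.2.2.2 X (hX.trans hRsT) φ hφ
    have h0 := hRsE.2 X hX φ₀ hφ₀ x
    rw [he x (hRsT h0)]
    exact hαRs α hα ⟨_, hRsT h0⟩ h0
  refine (normal_iff_ext hS F hF (hRsT.trans hTS)).2 (fun X hX φ hφ => ?_)
  obtain ⟨α, hα, φ₀, hφ₀, he⟩ := hinv.2.2.2 X (hX.trans hRsT) φ hφ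
  obtain ⟨α₁, hα₁, hα₁e⟩ := (normal_iff_ext hTp E hEs hRsE.1).1 hRsn X hX φ₀ hφ₀
  have hα₁F : α₁ ∈ F.autGroup Rs := mem_autGroup_of F (hinv.1 _ ((mem_autGroup_iff E hRsE.1).1 hα₁))
  obtain ⟨α₂, hα₂, hα₂e⟩ := restrict_aut F hRsF hRsT hTS hα
  refine ⟨α₂ * α₁, Subgroup.mul_mem _ hα₂ hα₁F, fun x => ?_⟩
  have h0 := hRsE.2 X hX φ₀ hφ₀ x
  rw [he x (hRsT h0)]
  have e2 := hα₁e x
  have e3 : (⟨φ₀ x, hRsT h0⟩ : T) = ⟨(α₁ (Subgroup.inclusion hX x) : Rs), hRsT (α₁ _).2⟩ := Subtype.ext e2.symm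
  rw [e3]
  exact hα₂e _


end Cfsg.Agent.S5291
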