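import Cfsg.Statements.S5292
import Mathlib
import Cfsg.Agent.Lib.PSolv
import Cfsg.Agent.Lib.FusReal
import Cfsg.Agent.Lib.FusFree
import Cfsg.Agent.Lib.FusNorm
import Cfsg.Agent.Lib.FusLift
import Cfsg.Agent.Lib.H1PLen
import Cfsg.Agent.Lib.FusAut

set_option autoImplicit false
universe u
open Cfsg

namespace Cfsg.Agent.S5292


open Subgroup Cfsg Cfsg.FusionSystem Cfsg.Agent.Lib.FusBasic Cfsg.Agent.Lib.FusSat Cfsg.Agent.Lib.FusAut Cfsg.Agent.Lib.FusNorm Cfsg.Agent.Lib.FusReal Cfsg.Agent.Lib.PSolv Cfsg.Agent.Lib.H1Core Cfsg.Agent.Lib.H1PLen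

theorem psolv_of_ker {X Y : Type*} [Group X] [Finite X] [Group Y] {p : ℕ} [hp : Fact p.Prime] (f : X →* Y)
    (hf : Function.Surjective f) (hk : IsPGroup p f.ker) (h : IsPSolvable p Y) : IsPSolvable p X := by
  obtain ⟨n, H, h0, hl, hm, hn, hi⟩ := h
  refine ⟨n + 1, fun i => Fin.cases ⊥ (fun j => (H j).comap f) i, rfl, ?_, ?_, ?_, ?_⟩
  · show Fin.cases (motive := fun _ => Subgroup X) ⊥ (fun j => (H j).comap f) (Fin.last (n + 1)) = ⊤
    rw [← Fin.succ_last, Fin.cases_succ, hl, Subgroup.comap_top]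
  · intro i j hij
    induction i using Fin.cases with
    | zero => exact bot_le
    | succ i =>
      induction j using Fin.cases with
      | zero => exact absurd hij (by simp)
      | succ j => exact Subgroup.comap_mono (hm (Fin.succ_le_succ_iff.1 hij))
  · intro i
    induction i using Fin.cases with
    | zero => exact Subgroup.normal_bot
    | succ i => exact Subgroup.Normal.comap (hn i) _
  · intro i
    induction i using Fin.cases with
    | zero =>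
      left
      simp only [Fin.castSucc_zero, Fin.cases_zero, Fin.cases_succ]
      rw [h0, Subgroup.relIndex_bot_left]
      have : (Subgroup.comap f (⊥ : Subgroup Y)) = f.ker := rfl
      rw [this]
      exact IsPGroup.iff_card.1 hk
    | succ i =>
      have h1 : ((H i.castSucc).comap f).relIndex ((H i.succ).comap f) = (H i.castSucc).relIndex (H i.succ) := by
        rw [Subgroup.relIndex_comap, Subgroup.map_comap_eq_self_of_surjective hf]
      simp only [← Fin.succ_castSucc, Fin.cases_succ]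
      rw [h1]
      exact hi i

section aut

variable {Ω : Type u} [Group Ω] {S : Subgroup Ω} [Finite S] {F : Cfsg.FusionSystem S} {G : Type u} [Group G] [Finite G] {ι : S →* G}

noncomputable def eQ (hr : F.IsRealizedBy ι) {Q : Subgroup Ω} (hQ : Q ≤ S) : Q ≃* ((Q.subgroupOf S).map ι : Subgroup G) :=
  (Subgroup.subgroupOfEquivOfLe hQ).symm.trans (Subgroup.equivMapOfInjective _ ι hr.1)

theorem eQ_apply (hr : F.IsRealizedBy ι) {Q : Subgroup Ω} (hQ : Q ≤ S) (x : Q) :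
    ((eQ hr hQ x : ((Q.subgroupOf S).map ι : Subgroup G)) : G) = ι ⟨x, hQ x.2⟩ := rfl

noncomputable def aH (hr : F.IsRealizedBy ι) {Q : Subgroup Ω} (hQ : Q ≤ S) :
    ↥(Subgroup.normalizer (((Q.subgroupOf S).map ι : Subgroup G) : Set G)) →* MulAut Q :=
  (MulAut.congr (eQ hr hQ).symm).toMonoidHom.comp (cAut ((Q.subgroupOf S).map ι : Subgroup G))

theorem aH_spec (hr : F.IsRealizedBy ι) {Q : Subgroup Ω} (hQ : Q ≤ S)
    (n : ↥(Subgroup.normalizer (((Q.subgroupOf S).map ι : Subgroup G) : Set G))) (x : Q) :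
    ι ⟨(aH hr hQ n x : Q), hQ (aH hr hQ n x).2⟩ = (n : G) * ι ⟨x, hQ x.2⟩ * (n : G)⁻¹ := by
  have h1 : eQ hr hQ (aH hr hQ n x) = cAut ((Q.subgroupOf S).map ι : Subgroup G) n (eQ hr hQ x) := by
    show eQ hr hQ ((eQ hr hQ).symm (cAut ((Q.subgroupOf S).map ι : Subgroup G) n ((eQ hr hQ).symm.symm x))) = _
    rw [MulEquiv.apply_symm_apply]
    rfl
  exact congrArg Subtype.val h1

theorem aH_range (hr : F.IsRealizedBy ι) {Q : Subgroup Ω} (hQ : Q ≤ S) :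
    (aH hr hQ).range = F.autGroup Q := by
  apply le_antisymm
  · rintro _ ⟨n, rfl⟩
    rw [mem_autGroup_iff F hQ]
    refine mem_of_conj hr hQ (fun x => hQ (aH hr hQ n x).2) (n : G) ?_
    intro x
    exact aH_spec hr hQ n x
  · intro a ha
    rw [mem_autGroup_iff F hQ] at ha
    obtain ⟨hP, hv, g, hg⟩ := exists_conj_of_mem hr ha
    have hg' : ∀ x : Q, ι ⟨(a x : Q), hQ (a x).2⟩ = g * ι ⟨x, hQ x.2⟩ * g⁻¹ := hg
    have hgn : g ∈ Subgroup.normalizer (((Q.subgroupOf S).map ι : Subgroup G) : Set G) := by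
      apply mem_normalizer_of_conj_le'
      rintro _ ⟨⟨x, hxS⟩, hx, rfl⟩
      have hxQ : x ∈ Q := hx
      refine ⟨⟨(a ⟨x, hxQ⟩ : Q), hQ (a ⟨x, hxQ⟩).2⟩, (a ⟨x, hxQ⟩).2, ?_⟩
      exact hg' ⟨x, hxQ⟩
    refine ⟨⟨g, hgn⟩, ?_⟩
    ext x
    have h1 := aH_spec hr hQ ⟨g, hgn⟩ x
    have h2 := hg' x
    have h3 : ι ⟨(aH hr hQ ⟨g, hgn⟩ x : Q), hQ (aH hr hQ ⟨g, hgn⟩ x).2⟩ = ι ⟨(a x : Q), hQ (a x).2⟩ := by
      rw [h1, h2]
    have h4 := hr.1 h3
    exact Subtype.mk.inj h4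

theorem aut_psolv {p : ℕ} [Fact p.Prime] (hr : F.IsRealizedBy ι) {Q : Subgroup Ω} (hQ : Q ≤ S)
    (h : IsPSolvable p G) : IsPSolvable p (F.autGroup Q) := by
  have h1 := isPSolvable_subgroup h (Subgroup.normalizer (((Q.subgroupOf S).map ι : Subgroup G) : Set G))
  have h2 := isPSolvable_of_surjective (aH hr hQ).rangeRestrict (aH hr hQ).rangeRestrict_surjective h1
  rw [aH_range hr hQ] at h2
  exact h2

end aut

section back

variable {Ω : Type u} [Group Ω] {S : Subgroup Ω} [Finite S] {p : ℕ} [hp : Fact p.Prime]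

theorem backward (hS : IsPGroup p S) (F : Cfsg.FusionSystem S) (hF : F.IsSaturated p) (hc : F.IsConstrained p)
    (hsol : IsPSolvable p ↥(F.autGroup F.core)) :
    ∃ (G : Type u) (_ : Group G) (_ : Finite G) (ι : S →* G), IsPSolvable p G ∧ F.IsRealizedBy ι ∧
        ∃ T : Sylow p G, (T : Subgroup G) = ι.range := by
  classical
  obtain ⟨-, Q, hQn, hQc⟩ := hc
  have hCn : F.IsNormal F.core := core_normal F
  have hQC : Q ≤ F.core := le_sSup hQn
  have hcen : centralizerIn S F.core ≤ F.core := by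
    intro x hx
    rw [mem_centralizerIn] at hx
    apply hQC
    apply hQc.2 Q (isConj_refl F hQc.1)
    rw [mem_centralizerIn]
    exact ⟨hx.1, fun y hy => hx.2 y (hQC hy)⟩
  obtain ⟨L, iL, ι, ⟨hfin, hr, hT, -⟩, hnorm, hcent⟩ := Cfsg.Agent.Lib.FusFree.exists_model_core hS hF hCn hcen
  haveI := hfin
  refine ⟨L, iL, hfin, ι, ?_, hr, hT⟩
  have hQS : F.core ≤ S := hCn.1
  have htop : ∀ g : L, g ∈ Subgroup.normalizer (((F.core.subgroupOf S).map ι : Subgroup L) : Set L) := by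
    intro g
    rw [Subgroup.normalizer_eq_top ((F.core.subgroupOf S).map ι : Subgroup L)]
    trivial
  let j : L →* F.autGroup F.core :=
    ((aH hr hQS).comp (MonoidHom.mk' (fun g : L => (⟨g, htop g⟩ : ↥(Subgroup.normalizer (((F.core.subgroupOf S).map ι : Subgroup L) : Set L)))) (fun _ _ => rfl))).codRestrict _ (fun g => by
      rw [← aH_range hr hQS]
      exact ⟨_, rfl⟩)
  have hj : Function.Surjective j := by
    rintro ⟨a, ha⟩
    rw [← aH_range hr hQS] at ha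
    obtain ⟨n, rfl⟩ := ha
    exact ⟨n, Subtype.ext rfl⟩
  have hker : j.ker ≤ ((F.core.subgroupOf S).map ι : Subgroup L) := by
    intro g hg
    apply hcent
    rw [Subgroup.mem_centralizer_iff]
    rintro _ ⟨⟨x, hxS⟩, hx, rfl⟩
    have hxQ : x ∈ F.core := hx
    have h1 := aH_spec hr hQS ⟨g, htop g⟩ ⟨x, hxQ⟩
    have h2 : aH hr hQS ⟨g, htop g⟩ = 1 := congrArg Subtype.val ((MonoidHom.mem_ker).1 hg)
    rw [h2] at h1
    have h3 : ι ⟨x, hxS⟩ = g * ι ⟨x, hxS⟩ * g⁻¹ := h1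
    show ι ⟨x, hxS⟩ * g = g * ι ⟨x, hxS⟩
    rw [eq_mul_inv_iff_mul_eq] at h3
    exact h3
  have hQp : IsPGroup p ((F.core.subgroupOf S).map ι : Subgroup L) := by
    apply IsPGroup.map
    exact hS.to_subgroup _
  exact psolv_of_ker j hj (hQp.to_le hker) hsol

end back


section fwd

variable {Ω : Type u} [Group Ω] {S : Subgroup Ω} [Finite S] {p : ℕ} [hp : Fact p.Prime]

theorem M_pow {G : Type u} [Group G] [Finite G] {m : G} (hm : m ∈ pPrimePCore p G) :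
    ∃ a, m ^ (p ^ a) ∈ pPrimeCore p G := by
  obtain ⟨a, ha⟩ := (pCore_isPGroup (G := G ⧸ pPrimeCore p G) p) ⟨QuotientGroup.mk' _ m, hm⟩
  refine ⟨a, ?_⟩
  have h1 : (QuotientGroup.mk' (pPrimeCore p G) m) ^ (p ^ a) = 1 := congrArg Subtype.val ha
  rw [← map_pow, ← MonoidHom.mem_ker, QuotientGroup.ker_mk'] at h1
  exact h1

theorem K_triv (hS : IsPGroup p S) {F : Cfsg.FusionSystem S} {G : Type u} [Group G] [Finite G] {ι : S →* G} (hr : F.IsRealizedBy ι) {s : S}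
    (h : ι s ∈ pPrimeCore p G) : s = 1 := by
  obtain ⟨a, ha⟩ := IsPGroup.iff_orderOf.1 hS s
  have h1 : orderOf (ι s) ∣ Nat.card (pPrimeCore p G) := by
    have := Subgroup.orderOf_dvd_natCard (pPrimeCore p G) h
    exact this
  have h2 : orderOf (ι s) ∣ p ^ a := by
    rw [← ha]
    exact orderOf_map_dvd ι s
  have h3 : orderOf (ι s) = 1 := by
    apply Nat.eq_one_of_dvd_coprimes ((pPrimeCore_coprime (G := G) p).pow_right a) h1 h2
  rw [orderOf_eq_one_iff] at h3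
  exact hr.1 (by rw [h3, map_one])

variable {F : Cfsg.FusionSystem S} {G : Type u} [Group G] [Finite G] {ι : S →* G}

def KA (hr : F.IsRealizedBy ι) {P : Subgroup Ω} (hP : P ≤ S) : Subgroup (MulAut P) where
  carrier := {κ | ∃ m ∈ pPrimePCore p G, ∀ x : P, ι ⟨(κ x : P), hP (κ x).2⟩ = m * ι ⟨x, hP x.2⟩ * m⁻¹}
  mul_mem' := by
    rintro κ₁ κ₂ ⟨m₁, hm₁, h₁⟩ ⟨m₂, hm₂, h₂⟩
    refine ⟨m₁ * m₂, mul_mem hm₁ hm₂, fun x => ?_⟩
    have := h₁ (κ₂ x)
    have h2 := h₂ x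
    show ι ⟨(κ₁ (κ₂ x) : P), _⟩ = _
    rw [this, h2]
    group
  one_mem' := ⟨1, one_mem _, fun x => by simp⟩
  inv_mem' := by
    rintro κ ⟨m, hm, h⟩
    refine ⟨m⁻¹, inv_mem hm, fun x => ?_⟩
    have h1 := h (κ⁻¹ x)
    have h2 : κ (κ⁻¹ x) = x := by simp
    rw [h2] at h1
    rw [h1]
    group

theorem KA_pow (hr : F.IsRealizedBy ι) {P : Subgroup Ω} (hP : P ≤ S) {κ : MulAut P} {m : G}
    (h : ∀ x : P, ι ⟨(κ x : P), hP (κ x).2⟩ = m * ι ⟨x, hP x.2⟩ * m⁻¹) (n : ℕ) (x : P) :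
    ι ⟨((κ ^ n) x : P), hP ((κ ^ n) x).2⟩ = m ^ n * ι ⟨x, hP x.2⟩ * (m ^ n)⁻¹ := by
  induction n with
  | zero => simp
  | succ n ih =>
    have h1 : (κ ^ (n + 1)) x = κ ((κ ^ n) x) := by
      rw [pow_succ']; rfl
    have h2 : ι ⟨((κ ^ (n + 1)) x : P), hP ((κ ^ (n + 1)) x).2⟩ = ι ⟨(κ ((κ ^ n) x) : P), hP (κ ((κ ^ n) x)).2⟩ := by
      congr 2
      rw [h1]
    rw [h2, h ((κ ^ n) x), ih, pow_succ']
    group

theorem KA_pgroup (hS : IsPGroup p S) (hr : F.IsRealizedBy ι) {P : Subgroup Ω} (hP : P ≤ S) :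
    IsPGroup p (KA (p := p) hr hP) := by
  rintro ⟨κ, m, hm, h⟩
  obtain ⟨a, ha⟩ := M_pow hm
  refine ⟨a, Subtype.ext ?_⟩
  show κ ^ (p ^ a) = 1
  ext x
  have h1 := KA_pow hr hP h (p ^ a) x
  set k := m ^ (p ^ a) with hk
  have h2 : ((κ ^ (p ^ a)) x : P) = x := by
    set y := (κ ^ (p ^ a)) x with hy
    have h3 : ι (⟨(y : P), hP y.2⟩ * (⟨x, hP x.2⟩ : S)⁻¹) ∈ pPrimeCore p G := by
      rw [map_mul, map_inv, h1]
      have h4 : k * ι ⟨x, hP x.2⟩ * k⁻¹ * (ι ⟨x, hP x.2⟩)⁻¹ = k * (ι ⟨x, hP x.2⟩ * k⁻¹ * (ι ⟨x, hP x.2⟩)⁻¹) := by group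
      rw [h4]
      exact mul_mem ha ((pPrimeCore_normal p G).conj_mem _ (inv_mem ha) _)
    have h5 := K_triv hS hr h3
    rw [mul_inv_eq_one] at h5
    exact Subtype.ext (Subtype.mk.inj h5)
  exact congrArg Subtype.val h2

theorem KA_conj (hr : F.IsRealizedBy ι) {P : Subgroup Ω} (hP : P ≤ S) :
    ∀ γ ∈ F.autGroup P, ∀ κ ∈ KA (p := p) hr hP, γ * κ * γ⁻¹ ∈ KA (p := p) hr hP := by
  rintro γ hγ κ ⟨m, hm, h⟩
  rw [mem_autGroup_iff F hP] at hγ
  obtain ⟨hP', hv', g, hg⟩ := exists_conj_of_mem hr hγ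
  have hg' : ∀ x : P, ι ⟨(γ x : P), hP (γ x).2⟩ = g * ι ⟨x, hP x.2⟩ * g⁻¹ := hg
  refine ⟨g * m * g⁻¹, (pPrimePCore_normal' (p := p) (G := G)).conj_mem m hm g, fun x => ?_⟩
  show ι ⟨(γ (κ (γ⁻¹ x)) : P), _⟩ = _
  rw [hg', h]
  have h1 := hg' (γ⁻¹ x)
  have h2 : γ (γ⁻¹ x) = x := by simp
  rw [h2] at h1
  rw [h1]
  group

theorem R_mem {x : Ω} : x ∈ ((pPrimePCore p G).comap ι).map S.subtype ↔ ∃ hx : x ∈ S, ι ⟨x, hx⟩ ∈ pPrimePCore p G := by
  constructor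
  · rintro ⟨⟨s, hs⟩, h, rfl⟩
    exact ⟨hs, h⟩
  · rintro ⟨hx, h⟩
    exact ⟨⟨x, hx⟩, h, rfl⟩

theorem R_le (hS : IsPGroup p S) (hr : F.IsRealizedBy ι) {P : Subgroup Ω} (hc : F.IsCentric P) (hrad : F.IsRadical p P) :
    ((pPrimePCore p G).comap ι).map S.subtype ≤ P := by
  have hPS : P ≤ S := hc.1
  haveI : Finite P := finite_of_le hPS
  haveI : Finite (((pPrimePCore p G).comap ι).map S.subtype : Subgroup Ω) := finite_of_le (Subgroup.map_subtype_le _)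
  apply le_of_conj_mem_core hS F hrad (hc.2 P (isConj_refl F hPS)) (Subgroup.map_subtype_le _)
  · intro s hs
    apply mem_normalizer_of_conj_le'
    intro x hx
    obtain ⟨hxS, hxM⟩ := R_mem.1 hx
    refine R_mem.2 ⟨S.mul_mem (S.mul_mem hs hxS) (S.inv_mem hs), ?_⟩
    have h1 : ι ⟨s * x * s⁻¹, S.mul_mem (S.mul_mem hs hxS) (S.inv_mem hs)⟩ = ι ⟨s, hs⟩ * ι ⟨x, hxS⟩ * (ι ⟨s, hs⟩)⁻¹ := by
      rw [← map_inv, ← map_mul, ← map_mul]
      rfl
    rw [h1]
    exact (pPrimePCore_normal' (p := p) (G := G)).conj_mem _ hxM _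
  · intro v hvR hv
    obtain ⟨hvS, hvM⟩ := R_mem.1 hvR
    apply mem_core_of_pgroup F (KA (p := p) hr hPS) (KA_pgroup hS hr hPS) (KA_conj hr hPS)
    · refine ⟨ι ⟨v, hvS⟩, hvM, fun x => ?_⟩
      have h1 : ι ⟨(cAut P ⟨v, hv⟩ x : P), hPS (cAut P ⟨v, hv⟩ x).2⟩ = ι (⟨v, hvS⟩ * ⟨x, hPS x.2⟩ * (⟨v, hvS⟩ : S)⁻¹) := rfl
      rw [h1, map_mul, map_mul, map_inv]
    · rw [mem_autGroup_iff F hPS]
      refine mem_of_conj hr hPS (fun x => hPS (cAut P ⟨v, hv⟩ x).2) (ι ⟨v, hvS⟩) ?_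
      intro x
      have h1 : ι ⟨(cAut P ⟨v, hv⟩ x : P), hPS (cAut P ⟨v, hv⟩ x).2⟩ = ι (⟨v, hvS⟩ * ⟨x, hPS x.2⟩ * (⟨v, hvS⟩ : S)⁻¹) := rfl
      show ι ⟨(cAut P ⟨v, hv⟩ x : P), _⟩ = _
      rw [h1, map_mul, map_mul, map_inv]

theorem R_sc (hr : F.IsRealizedBy ι) : F.StronglyClosed (((pPrimePCore p G).comap ι).map S.subtype) := by
  refine ⟨Subgroup.map_subtype_le _, ?_⟩
  intro Q hQ φ hφ x
  obtain ⟨hP, hv, g, hg⟩ := exists_conj_of_mem hr hφ
  refine R_mem.2 ⟨hv x, ?_⟩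
  rw [hg x]
  obtain ⟨hx0, hxM⟩ := R_mem.1 (hQ x.2)
  exact (pPrimePCore_normal' (p := p) (G := G)).conj_mem _ hxM _

theorem R_cent (hG : IsPSolvable p G) (hr : F.IsRealizedBy ι) {T : Sylow p G} (hT : (T : Subgroup G) = ι.range) :
    F.IsCentric (((pPrimePCore p G).comap ι).map S.subtype) := by
  have hsc := R_sc (p := p) hr
  set R := ((pPrimePCore p G).comap ι).map S.subtype with hR
  have hRS : R ≤ S := hsc.1
  refine ⟨hRS, ?_⟩
  rintro Q ⟨φ, hφ, rfl⟩ x hx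
  haveI : Finite R := finite_of_le hRS
  have hle : φ.range ≤ R := by
    rintro _ ⟨y, rfl⟩
    exact hsc.2 R le_rfl φ hφ y
  have hcard : Nat.card R = Nat.card φ.range := isConj_card F ⟨φ, hφ, rfl⟩
  have heq : φ.range = R := Subgroup.eq_of_le_of_card_ge hle (by rw [hcard])
  rw [heq] at hx ⊢
  rw [mem_centralizerIn] at hx
  obtain ⟨hxS, hxc⟩ := hx
  haveI hMn := pPrimePCore_normal' (p := p) (G := G)
  obtain ⟨P, hP⟩ := Cfsg.Agent.Lib.FusLift.sylow_inf_normal T (pPrimePCore p G)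
  have hcon : IsPConstrained p G := pconstrained_of_centralizer_isPSolvable P (isPSolvable_subgroup hG _)
  have h1 : ι ⟨x, hxS⟩ ∈ pPrimePCore p G := by
    apply hcon P
    rw [Subgroup.mem_centralizer_iff]
    rintro _ ⟨w, hw, rfl⟩
    have hw' : (w : G) ∈ (T : Subgroup G) := by
      rw [hP] at hw
      exact hw
    rw [hT] at hw'
    obtain ⟨s, hs⟩ := hw'
    have hsR : (s : Ω) ∈ R := R_mem.2 ⟨s.2, by
      show ι ⟨s, s.2⟩ ∈ _
      have : ι ⟨s, s.2⟩ = (w : G) := hs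
      rw [this]
      exact w.2⟩
    have h2 := hxc _ hsR
    have h3 : s * ⟨x, hxS⟩ = ⟨x, hxS⟩ * s := Subtype.ext h2
    have h4 := congrArg ι h3
    rw [map_mul, map_mul, hs] at h4
    exact h4
  exact R_mem.2 ⟨hxS, h1⟩

theorem forward (hS : IsPGroup p S) (F : Cfsg.FusionSystem S) (hF : F.IsSaturated p) {G : Type u} [Group G] [Finite G] {ι : S →* G}
    (hG : IsPSolvable p G) (hr : F.IsRealizedBy ι) {T : Sylow p G} (hT : (T : Subgroup G) = ι.range) :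
    F.IsConstrained p ∧ IsPSolvable p ↥(F.autGroup F.core) := by
  classical
  have hcore : IsPSolvable p ↥(F.autGroup F.core) := aut_psolv hr (core_normal F).1 hG
  refine ⟨?_, hcore⟩
  refine ⟨hF, ((pPrimePCore p G).comap ι).map S.subtype, ?_, R_cent hG hr hT⟩
  rw [normal_iff_sc_radical hS F hF]
  exact ⟨R_sc hr, fun P hc hrad => R_le hS hr hc hrad⟩

end fwd

/-- Let F be a saturated fusion system over a finite p-group S. Then F is the fusion system of some finite p-solvable group on a Sylow p-subgroup if and only if F is constrained (some subgroup normal in F is centric in F) and the group of automorphisms that F induces on its largest normal subgroup O_p(F) is p-solvable. -/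
theorem result {Ω : Type u} [Group Ω] {S : Subgroup Ω} [Finite S] (p : ℕ) [Fact p.Prime] (hS : IsPGroup p S)
    (F : Cfsg.FusionSystem S) (hF : F.IsSaturated p) :
    (∃ (G : Type u) (_ : Group G) (_ : Finite G) (ι : S →* G), Cfsg.IsPSolvable p G ∧ F.IsRealizedBy ι ∧
        ∃ T : Sylow p G, (T : Subgroup G) = ι.range) ↔
      (F.IsConstrained p ∧ Cfsg.IsPSolvable p ↥(F.autGroup F.core)) := by
  classical
  constructor
  · rintro ⟨G, _, _, ι, hG, hr, T, hT⟩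
    exact forward hS F hF hG hr hT
  · rintro ⟨hc, hsol⟩
    exact backward hS F hF hc hsol

end Cfsg.Agent.S5292
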