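import Cfsg.Statements.S5297
import Mathlib
import Cfsg.Agent.Lib.FusSmall2

set_option autoImplicit false
universe u
open Cfsg

namespace Cfsg.Agent.S5297

open Cfsg.FusionSystem Cfsg.Agent.Lib.FusBasic Cfsg.Agent.Lib.FusAut Cfsg.Agent.Lib.FusSat Cfsg.Agent.Lib.FusNorm Cfsg.Agent.Lib.FusHyp Cfsg.Agent.Lib.FusGT Cfsg.Agent.Lib.FusSmall

/-- Let F be a saturated fusion system over a finite p-group S. If every map of F between cyclic subgroups of the hyperfocal subgroup of F of order p or 4 is a map of the normalizer system of S (it extends to a map of F defined on all of S), then S is normal in F. -/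
theorem result {Ω : Type u} [Group Ω] {S : Subgroup Ω} [Finite S] (p : ℕ) [Fact p.Prime] (hS : IsPGroup p S)
    (F : Cfsg.FusionSystem S) (hF : F.IsSaturated p)
    (h : ∀ A B : Subgroup Ω, A ≤ (F.hyperfocalSubgroup p) → B ≤ (F.hyperfocalSubgroup p) → IsCyclic ↥A → (Nat.card ↥A = p ∨ Nat.card ↥A = 4) → IsCyclic ↥B → (Nat.card ↥B = p ∨ Nat.card ↥B = 4) →
      F.homSet A B ⊆ F.normalizerHom S A) :
    F.IsNormal S := by
  have hp := (Fact.out : p.Prime)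
  obtain ⟨e, he⟩ : ∃ e : ℕ, (p ≠ 2 ∧ e = p) ∨ (p = 2 ∧ e = 4) := by
    by_cases h2 : p = 2
    · exact ⟨4, Or.inr ⟨h2, rfl⟩⟩
    · exact ⟨p, Or.inl ⟨h2, rfl⟩⟩
  have hsc := hyper_stronglyClosed hS F hF
  refine (normal_iff_sc_radical hS F hF S).2 ⟨⟨le_rfl, fun R hR φ hφ x => val_mem F hφ x⟩, fun R hc hr => ?_⟩
  have hRS : R ≤ S := hc.1
  haveI : Finite R := finite_of_le hRS
  refine radical_small hS F hr (hc.2 R (isConj_refl F hc.1)) (F.hyperfocalSubgroup p)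
    (fun a ha x hx => sc_aut F hsc hRS ha x hx)
    (fun κ hκ hco x => mem_hyper F p hRS ⟨κ, hκ⟩ (Subgroup.subset_closure (by
        show (orderOf (⟨κ, hκ⟩ : F.autGroup R)).Coprime p
        rw [Subgroup.orderOf_mk]
        exact hco)) x) he ?_
  intro D hDM hDA hDe
  -- automorphisms preserve the layers of `D`
  have hlay : ∀ γ ∈ F.autGroup R, ∀ j, ∀ x ∈ D, (x : Ω) ∈ ZS S j → ((γ x : R) : Ω) ∈ ZS S j := by
    intro γ hγ j x hx hxZ
    by_cases hx1 : x = 1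
    · rw [hx1, map_one]
      exact (ZS S j).one_mem
    have hxH : (x : Ω) ∈ F.hyperfocalSubgroup p := hDM hx
    have hyH : ((γ x : R) : Ω) ∈ F.hyperfocalSubgroup p := hDM (hDA γ hγ x hx)
    obtain ⟨φ, hφ, hφx⟩ := exists_small_map F hRS he (fun A => F.normalizerHom S A) h hγ x hxH hyH hx1 (hDe x hx)
    obtain ⟨-, -, -, ψ, hψ, h1, h2⟩ := hφ
    have hle : S ≤ Subgroup.zpowers (x : Ω) ⊔ S := le_sup_right
    have h3 := ZS_map hle ψ h2 j x hxZ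
    have h4 := h1 ⟨x, Subgroup.mem_zpowers _⟩
    rw [hφx] at h4
    have h5 : (Subgroup.inclusion (le_sup_left : Subgroup.zpowers (x : Ω) ≤ Subgroup.zpowers (x : Ω) ⊔ S) ⟨x, Subgroup.mem_zpowers _⟩) =
      ⟨x, hle (ZS_le j hxZ)⟩ := Subtype.ext rfl
    rw [h5] at h4
    rw [← h4]
    exact h3
  let D' : Subgroup Ω := D.map R.subtype
  have hD' : ∀ x : R, (x : Ω) ∈ D' ↔ x ∈ D := by
    intro x
    constructor
    · rintro ⟨y, hy, e⟩
      have : y = x := Subtype.ext e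
      rwa [← this]
    · intro hx
      exact ⟨x, hx, rfl⟩
  have hU : ∀ i, D' ⊓ ZS S i ≤ D' ⊓ ZS S (i + 1) := fun i => inf_le_inf_left _ (ZS_mono i)
  let KK : Subgroup (MulAut R) := ⨅ i : ℕ, stabPair R (D' ⊓ ZS S i) (D' ⊓ ZS S (i + 1)) (hU i)
  have hKK : ∀ ψ, ψ ∈ KK ↔ ∀ i, ψ ∈ stabPair R (D' ⊓ ZS S i) (D' ⊓ ZS S (i + 1)) (hU i) := fun ψ => Subgroup.mem_iInf
  refine ⟨KK, ?_, ?_, ?_⟩
  · intro γ hγ ψ hψ
    refine (hKK _).2 fun i => stabPair_conj ?_ ?_ ((hKK ψ).1 hψ i)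
    · rintro x ⟨hx1, hx2⟩
      have hx1' := (hD' x).1 hx1
      exact ⟨(hD' _).2 (hDA _ (Subgroup.inv_mem _ hγ) x hx1'), hlay _ (Subgroup.inv_mem _ hγ) _ x hx1' hx2⟩
    · rintro x ⟨hx1, hx2⟩
      have hx1' := (hD' x).1 hx1
      exact ⟨(hD' _).2 (hDA _ hγ x hx1'), hlay _ hγ _ x hx1' hx2⟩
  · intro v hv hvn
    have hAv : cAut R ⟨v, hvn⟩ ∈ F.autGroup R :=
      autInduced_le_autGroup F hRS (mem_autInducedBy'.2 ⟨v, hv, fun x => rfl⟩)
    refine (hKK _).2 fun i x hx => ?_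
    have hx1' := (hD' x).1 hx.1
    have h2 : ((cAut R ⟨v, hvn⟩ x : R) : Ω) = v * x * v⁻¹ := rfl
    refine ⟨?_, ?_⟩
    · exact D'.mul_mem (D'.inv_mem hx.1) ((hD' _).2 (hDA _ hAv x hx1'))
    · rw [h2]
      exact ZS_conj hx.2 hv
  · intro κ hκ hκA hco
    have hpres : ∀ x ∈ D, κ x ∈ D := fun x hx => hDA κ hκA x hx
    apply fix_chain hS hRS hco D hpres
    intro i x hx hxZ
    exact ((hKK κ).1 hκ i x ⟨(hD' x).2 hx, hxZ⟩).2

end Cfsg.Agent.S5297
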