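import Cfsg.Statements.S5298
import Mathlib
import Cfsg.Agent.Lib.FusSmall2

set_option autoImplicit false
universe u
open Cfsg

namespace Cfsg.Agent.S5298

open Cfsg.FusionSystem Cfsg.Agent.Lib.FusBasic Cfsg.Agent.Lib.FusAut Cfsg.Agent.Lib.FusNorm Cfsg.Agent.Lib.FusHyp Cfsg.Agent.Lib.FusGT Cfsg.Agent.Lib.FusSmall

/-- Let F be a saturated fusion system over a finite p-group S. If every map of F between cyclic subgroups of the hyperfocal subgroup of F of order p or 4 is conjugation by an element of S, then F is the inner fusion system of S. -/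
theorem result {Ω : Type u} [Group Ω] {S : Subgroup Ω} [Finite S] (p : ℕ) [Fact p.Prime] (hS : IsPGroup p S)
    (F : Cfsg.FusionSystem S) (hF : F.IsSaturated p)
    (h : ∀ A B : Subgroup Ω, A ≤ (F.hyperfocalSubgroup p) → B ≤ (F.hyperfocalSubgroup p) → IsCyclic ↥A → (Nat.card ↥A = p ∨ Nat.card ↥A = 4) → IsCyclic ↥B → (Nat.card ↥B = p ∨ Nat.card ↥B = 4) →
      F.homSet A B ⊆ (Cfsg.innerFusionSystem S).Hom A) :
    ∀ P : Subgroup Ω, F.Hom P = (Cfsg.innerFusionSystem S).Hom P := by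
  have hp := (Fact.out : p.Prime)
  obtain ⟨e, he⟩ : ∃ e : ℕ, (p ≠ 2 ∧ e = p) ∨ (p = 2 ∧ e = 4) := by
    by_cases h2 : p = 2
    · exact ⟨4, Or.inr ⟨h2, rfl⟩⟩
    · exact ⟨p, Or.inl ⟨h2, rfl⟩⟩
  refine inner_of_pgroups hS hF (fun R hR hFN => ?_)
  have hRS : R ≤ S := hFN.1
  haveI : Finite R := finite_of_le hRS
  have hRp : IsPGroup p R := hS.to_le hRS
  have hsc := hyper_stronglyClosed hS F hF
  apply isPGroup_of_coprime_one
  intro κ hκ hco
  -- the fixed points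
  have hfix := small_fix hRp e he (F.autGroup R) (fun g => inn_le_autGroup F hRS ⟨g, rfl⟩)
    {κ | κ ∈ F.autGroup R ∧ (orderOf κ).Coprime p} (fun κ hκ => hκ.1)
    (fun a ha κ hκ => ⟨Subgroup.mul_mem _ (Subgroup.mul_mem _ ha hκ.1) (Subgroup.inv_mem _ ha), by
      rw [orderOf_conj_aut]
      exact hκ.2⟩) (fun κ hκ => hκ.2)
    ((F.hyperfocalSubgroup p).subgroupOf R)
    (fun a ha x hx => sc_aut F hsc hRS ha x hx) ?_ κ ⟨hκ, hco⟩
  · apply MulEquiv.ext
    intro x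
    have h1 : (x : Ω)⁻¹ * ((κ x : R) : Ω) ∈ F.hyperfocalSubgroup p :=
      mem_hyper F p hRS ⟨κ, hκ⟩ (Subgroup.subset_closure (by
        show (orderOf (⟨κ, hκ⟩ : F.autGroup R)).Coprime p
        rw [Subgroup.orderOf_mk]
        exact hco)) x
    have h2 : x⁻¹ * κ x ∈ (F.hyperfocalSubgroup p).subgroupOf R := by
      rw [Subgroup.mem_subgroupOf]
      exact h1
    exact aut_fix_step hRp hco (hfix _ h2)
  · rintro D hDM hDA hDe κ ⟨hκ, hco⟩
    apply fix_chain hS hRS hco D (fun x hx => hDA κ hκ x hx)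
    intro i x hx hxZ
    by_cases hx1 : x = 1
    · rw [hx1, map_one]
      simpa using (ZS S i).one_mem
    have hxH : (x : Ω) ∈ F.hyperfocalSubgroup p := hDM hx
    have hyH : ((κ x : R) : Ω) ∈ F.hyperfocalSubgroup p := hDM (hDA κ hκ x hx)
    obtain ⟨φ, hφ, hφx⟩ := exists_small_map F hRS he (fun A => (Cfsg.innerFusionSystem S).Hom A) h hκ x hxH hyH hx1 (hDe x hx)
    obtain ⟨-, s, hs, hsφ⟩ := hφ
    have h1 := hsφ ⟨x, Subgroup.mem_zpowers _⟩
    rw [hφx] at h1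
    rw [h1]
    exact ZS_conj hxZ hs

end Cfsg.Agent.S5298
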