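import Cfsg.Statements.S5300
import Mathlib
import Cfsg.Agent.Lib.FusSmall2

set_option autoImplicit false
universe u
open Cfsg

namespace Cfsg.Agent.S5300

open Cfsg.FusionSystem Cfsg.Agent.Lib.FusBasic Cfsg.Agent.Lib.FusAut Cfsg.Agent.Lib.FusSat Cfsg.Agent.Lib.FusNorm Cfsg.Agent.Lib.FusHyp Cfsg.Agent.Lib.FusGT Cfsg.Agent.Lib.FusSmall

/-- a `p`-element normalizing a cyclic group of order `p` centralizes it -/
theorem fix_of_prime_order {G : Type*} [Group G] {p : ℕ} [Fact p.Prime] {x v : G} (hx : x ^ p = 1) {t : ℕ} (hv : v ^ (p ^ t) = 1)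
    (h : v * x * v⁻¹ ∈ Subgroup.zpowers x) : v * x * v⁻¹ = x := by
  have hfin : IsOfFinOrder x := isOfFinOrder_iff_pow_eq_one.2 ⟨p, (Fact.out : p.Prime).pos, hx⟩
  obtain ⟨k, hk⟩ : ∃ k : ℕ, x ^ k = v * x * v⁻¹ := by
    have h1 := (hfin.mem_powers_iff_mem_zpowers).2 h
    exact h1
  have hpow : ∀ j : ℕ, v ^ j * x * (v ^ j)⁻¹ = x ^ (k ^ j) := by
    intro j
    induction j with
    | zero => simp
    | succ j ih =>
      calc v ^ (j + 1) * x * (v ^ (j + 1))⁻¹ = v * (v ^ j * x * (v ^ j)⁻¹) * v⁻¹ := by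
            rw [pow_succ']
            group
        _ = v * x ^ (k ^ j) * v⁻¹ := by rw [ih]
        _ = (v * x * v⁻¹) ^ (k ^ j) := by rw [conj_pow]
        _ = (x ^ k) ^ (k ^ j) := by rw [hk]
        _ = x ^ (k ^ (j + 1)) := by
            rw [← pow_mul, pow_succ']
  have h1 := hpow (p ^ t)
  rw [hv] at h1
  simp only [one_mul, inv_one, mul_one] at h1
  have h2 : x ^ (k ^ (p ^ t)) = x ^ k := by
    have hd : ((k ^ (p ^ t) : ℕ) : ZMod p) = (k : ZMod p) := by
      push_cast
      exact ZMod.pow_card_pow (n := t) (k : ZMod p)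
    have hm : k ^ (p ^ t) ≡ k [MOD p] := (ZMod.natCast_eq_natCast_iff _ _ _).1 hd
    have ho : orderOf x ∣ p := orderOf_dvd_of_pow_eq_one hx
    exact (pow_eq_pow_iff_modEq).2 (hm.of_dvd ho)
  rw [← h2, ← h1] at hk
  exact hk.symm


/-- Let F be a saturated fusion system over a finite p-group S. If every cyclic subgroup of the focal subgroup of F of order p (of order 2 or 4 when p = 2) is normal in S, then S is normal in F. -/
theorem result {Ω : Type u} [Group Ω] {S : Subgroup Ω} [Finite S] (p : ℕ) [Fact p.Prime] (hS : IsPGroup p S)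
    (F : Cfsg.FusionSystem S) (hF : F.IsSaturated p)
    (hnorm : ∀ x ∈ F.focalSubgroup, (x ^ p = 1 ∨ (p = 2 ∧ x ^ 4 = 1)) → ∀ s ∈ S, s * x * s⁻¹ ∈ Subgroup.zpowers x) :
    F.IsNormal S := by
  have hp := (Fact.out : p.Prime)
  obtain ⟨e, he⟩ : ∃ e : ℕ, (p ≠ 2 ∧ e = p) ∨ (p = 2 ∧ e = 4) := by
    by_cases h2 : p = 2
    · exact ⟨4, Or.inr ⟨h2, rfl⟩⟩
    · exact ⟨p, Or.inl ⟨h2, rfl⟩⟩
  refine (normal_iff_sc_radical hS F hF S).2 ⟨⟨le_rfl, fun R hR φ hφ x => val_mem F hφ x⟩, fun R hc hr => ?_⟩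
  have hRS : R ≤ S := hc.1
  haveI : Finite R := finite_of_le hRS
  have hfoc : ∀ a ∈ F.autGroup R, ∀ x : R, (x : Ω)⁻¹ * ((a x : R) : Ω) ∈ F.focalSubgroup := by
    intro a ha x
    exact Subgroup.subset_closure ⟨R, _, x, (mem_autGroup_iff F hRS).1 ha, rfl⟩
  refine radical_small hS F hr (hc.2 R (isConj_refl F hc.1)) F.focalSubgroup
    (fun a ha x hx => ?_)
    (fun κ hκ hco x => hfoc κ hκ x) he ?_
  · have h1 := hfoc a ha x
    have : ((a x : R) : Ω) = (x : Ω) * ((x : Ω)⁻¹ * ((a x : R) : Ω)) := by group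
    rw [this]
    exact Subgroup.mul_mem _ hx h1
  intro D hDM hDA hDe
  -- the elements of order `p` of `D`
  let V₀ : Subgroup R := Subgroup.closure {x | x ∈ D ∧ x ^ p = 1}
  have hV₀D : V₀ ≤ D := by
    rw [Subgroup.closure_le]
    exact fun x hx => hx.1
  have hV₀A : ∀ a ∈ F.autGroup R, ∀ x ∈ V₀, a x ∈ V₀ := by
    intro a ha x hx
    refine Subgroup.closure_induction (p := fun x _ => a x ∈ V₀) ?_ ?_ ?_ ?_ hx
    · rintro y ⟨hy, hy'⟩
      apply Subgroup.subset_closure
      refine ⟨hDA a ha y hy, ?_⟩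
      rw [← map_pow, hy', map_one]
    · rw [map_one]
      exact V₀.one_mem
    · intro y z _ _ hy hz
      rw [map_mul]
      exact V₀.mul_mem hy hz
    · intro y _ hy
      rw [map_inv]
      exact V₀.inv_mem hy
  let D' : Subgroup Ω := D.map R.subtype
  let V' : Subgroup Ω := V₀.map R.subtype
  have hD' : ∀ x : R, (x : Ω) ∈ D' ↔ x ∈ D := by
    intro x
    constructor
    · rintro ⟨y, hy, e⟩
      have : y = x := Subtype.ext e
      rwa [← this]
    · intro hx
      exact ⟨x, hx, rfl⟩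
  have hV' : ∀ x : R, (x : Ω) ∈ V' ↔ x ∈ V₀ := by
    intro x
    constructor
    · rintro ⟨y, hy, e⟩
      have : y = x := Subtype.ext e
      rwa [← this]
    · intro hx
      exact ⟨x, hx, rfl⟩
  have hle1 : (⊥ : Subgroup Ω) ≤ V' := bot_le
  have hle2 : V' ≤ D' := Subgroup.map_mono hV₀D
  refine ⟨stabPair R ⊥ V' hle1 ⊓ stabPair R V' D' hle2, ?_, ?_, ?_⟩
  · intro γ hγ ψ hψ
    refine ⟨stabPair_conj ?_ ?_ hψ.1, stabPair_conj ?_ ?_ hψ.2⟩
    · intro x hx
      exact (hV' _).2 (hV₀A _ (Subgroup.inv_mem _ hγ) x ((hV' x).1 hx))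
    · intro x hx
      have : x = 1 := Subtype.ext (Subgroup.mem_bot.1 hx)
      rw [this, map_one]
      exact Subgroup.one_mem _
    · intro x hx
      exact (hD' _).2 (hDA _ (Subgroup.inv_mem _ hγ) x ((hD' x).1 hx))
    · intro x hx
      exact (hV' _).2 (hV₀A _ hγ x ((hV' x).1 hx))
  · intro v hv hvn
    have hAv : cAut R ⟨v, hvn⟩ ∈ F.autGroup R :=
      autInduced_le_autGroup F hRS (mem_autInducedBy'.2 ⟨v, hv, fun x => rfl⟩)
    obtain ⟨t, ht⟩ : ∃ t : ℕ, v ^ (p ^ t) = 1 := by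
      obtain ⟨t, ht⟩ := hS ⟨v, hv⟩
      exact ⟨t, congrArg Subtype.val ht⟩
    have hval : ∀ x : R, ((cAut R ⟨v, hvn⟩ x : R) : Ω) = v * x * v⁻¹ := fun x => rfl
    -- generators are fixed
    have hgen : ∀ x ∈ D, x ^ p = 1 → cAut R ⟨v, hvn⟩ x = x := by
      intro x hx hxp
      apply Subtype.ext
      rw [hval]
      apply fix_of_prime_order (p := p) (t := t) _ ht
      · exact hnorm _ (hDM hx) (Or.inl (by
          have := congrArg (fun z : R => (z : Ω)) hxp
          simpa using this)) v hv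
      · have := congrArg (fun z : R => (z : Ω)) hxp
        simpa using this
    have hfix : ∀ x ∈ V₀, cAut R ⟨v, hvn⟩ x = x := by
      intro x hx
      refine Subgroup.closure_induction (p := fun x _ => cAut R ⟨v, hvn⟩ x = x) ?_ ?_ ?_ ?_ hx
      · rintro y ⟨hy, hy'⟩
        exact hgen y hy hy'
      · exact map_one _
      · intro y z _ _ hy hz
        rw [map_mul, hy, hz]
      · intro y _ hy
        rw [map_inv, hy]
    refine ⟨?_, ?_⟩
    · intro x hx
      rw [hfix x ((hV' x).1 hx)]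
      simp
    · intro x hx
      have hx' := (hD' x).1 hx
      by_cases hxp : x ^ p = 1
      · rw [hgen x hx' hxp]
        simp only [inv_mul_cancel]
        exact V'.one_mem
      · -- the case `p = 2`, elements of order 4
        rcases he with ⟨-, rfl⟩ | ⟨hp2, rfl⟩
        · exact absurd (hDe x hx') hxp
        subst hp2
        have hx4 := hDe x hx'
        have hx2V : x ^ 2 ∈ V₀ := by
          apply Subgroup.subset_closure
          refine ⟨D.pow_mem hx' 2, ?_⟩
          rw [← pow_mul]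
          exact hx4
        have hfin : IsOfFinOrder (x : Ω) := isOfFinOrder_iff_pow_eq_one.2 ⟨4, by norm_num, by
          have := congrArg (fun z : R => (z : Ω)) hx4
          simpa using this⟩
        have hx4' : (x : Ω) ^ 4 = 1 := by
          have := congrArg (fun z : R => (z : Ω)) hx4
          simpa using this
        have hm := hnorm _ (hDM hx') (Or.inr ⟨rfl, hx4'⟩) v hv
        obtain ⟨k, hk⟩ : ∃ k : ℕ, (x : Ω) ^ k = v * x * v⁻¹ := (hfin.mem_powers_iff_mem_zpowers).2 hm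
        rw [hval, ← hk]
        rcases Nat.even_or_odd' k with ⟨m, rfl | rfl⟩
        · -- even powers: the element has order at most two
          exfalso
          apply hxp
          have h1 : (v * x * v⁻¹) ^ 2 = 1 := by
            rw [← hk, ← pow_mul]
            have : 2 * m * 2 = 4 * m := by ring
            rw [this, pow_mul, hx4', one_pow]
          rw [conj_pow] at h1
          have h2 : (x : Ω) ^ 2 = 1 := by
            have : (x : Ω) ^ 2 = v⁻¹ * (v * (x : Ω) ^ 2 * v⁻¹) * v := by group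
            rw [this, h1]
            group
          apply Subtype.ext
          simpa using h2
        · have h1 : (x : Ω)⁻¹ * (x : Ω) ^ (2 * m + 1) = ((x ^ 2 : R) : Ω) ^ m := by
            rw [pow_succ', inv_mul_cancel_left]
            simp [pow_mul]
          rw [h1]
          exact V'.pow_mem ((hV' _).2 hx2V) m
  · rintro κ ⟨hκ1, hκ2⟩ hκA hco x hx
    have hRp : IsPGroup p R := hS.to_le hRS
    have h1 := hκ2 x ((hD' x).2 hx)
    apply aut_fix_step hRp hco
    have h2 : x⁻¹ * κ x ∈ V₀ := (hV' _).1 h1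
    have h3 := hκ1 _ ((hV' _).2 h2)
    have h4 : (((x⁻¹ * κ x : R) : Ω))⁻¹ * ((κ (x⁻¹ * κ x) : R) : Ω) = 1 := Subgroup.mem_bot.1 h3
    apply Subtype.ext
    rw [inv_mul_eq_one] at h4
    exact h4.symm

end Cfsg.Agent.S5300
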