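import Cfsg.Statements.S5301
import Mathlib
import Cfsg.Agent.Lib.FusNorm2
import Cfsg.Agent.Lib.H1Core

set_option autoImplicit false
universe u
open Cfsg

namespace Cfsg.Agent.S5301

open Cfsg.FusionSystem Cfsg.Agent.Lib.FusBasic Cfsg.Agent.Lib.FusAut Cfsg.Agent.Lib.FusSat Cfsg.Agent.Lib.FusNorm Cfsg.Agent.Lib.FusNorm2

/-- Let F be a saturated fusion system over a finite p-group S. If for every subgroup P of S that is fully normalized, centric and radical in F the automorphism group that F induces on P has a normal Sylow p-subgroup, then S is normal in F. -/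
theorem result {Ω : Type u} [Group Ω] {S : Subgroup Ω} [Finite S] (p : ℕ) [Fact p.Prime] (hS : IsPGroup p S)
    (F : Cfsg.FusionSystem S) (hF : F.IsSaturated p)
    (hcl : ∀ P : Subgroup Ω, F.IsFullyNormalized P → F.IsCentric P → F.IsRadical p P →
      ∃ R : Sylow p ↥(F.autGroup P), (R : Subgroup ↥(F.autGroup P)).Normal) :
    F.IsNormal S := by
  apply normal_of_invariant hS F hF
  rintro P (rfl | hP)
  · exact ⟨le_rfl, fun α _ x _ => (α x).2⟩
  · exfalso
    have hrad := essential_radical hS F hP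
    obtain ⟨hc, hfn, hN, E, hdvd, -, -⟩ := hP
    obtain ⟨R, hR⟩ := hcl P hfn hc hrad
    have hPS : P ≤ S := hc.1
    haveI : Finite P := finite_of_le hPS
    have hle : (R : Subgroup ↥(F.autGroup P)) ≤ (Cfsg.Inn ↥P).subgroupOf (F.autGroup P) := by
      intro x hx
      have h1 : x ∈ Cfsg.pCore p ↥(F.autGroup P) := Cfsg.Agent.Lib.H1Core.le_pCore hR R.isPGroup' hx
      have h2 : (x : MulAut P) ∈ (Cfsg.pCore p ↥(F.autGroup P)).map (F.autGroup P).subtype := ⟨x, h1, rfl⟩
      rw [hrad.2] at h2
      exact h2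
    have h3 : ((Cfsg.Inn ↥P).subgroupOf (F.autGroup P)).index ∣ (R : Subgroup ↥(F.autGroup P)).index := Subgroup.index_dvd_of_le hle
    have h4 : p ∣ ((Cfsg.Inn ↥P).subgroupOf (F.autGroup P)).index := hdvd
    exact R.not_dvd_index (h4.trans h3)


end Cfsg.Agent.S5301
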