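import Cfsg.Statements.S5331
import Mathlib
import Cfsg.Agent.Lib.FusAb

set_option autoImplicit false
open Cfsg

namespace Cfsg.Agent.S5331


open Cfsg.Agent.Lib.FusBasic Cfsg.Agent.Lib.FusAut Cfsg.Agent.Lib.FusSat Cfsg.Agent.Lib.FusAb Cfsg.FusionSystem

section zmod

theorem zmod_two_mul {a : ℕ} (ha : 1 ≤ a) {t : ZMod (2 ^ a)} (h : 2 * t = 0) :
    ∃ c : ZMod (2 ^ a), t = (2 : ZMod (2 ^ a)) ^ (a - 1) * c := by
  haveI : NeZero (2 ^ a) := ⟨by positivity⟩
  have h1 : ((2 * t.val : ℕ) : ZMod (2 ^ a)) = 0 := by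
    push_cast
    rw [ZMod.natCast_zmod_val]
    exact h
  rw [ZMod.natCast_eq_zero_iff] at h1
  obtain ⟨k, hk⟩ := h1
  have e : (2 : ℕ) ^ a = 2 * 2 ^ (a - 1) := by
    rw [← pow_succ', show a - 1 + 1 = a by omega]
  have hk' : 2 * t.val = 2 * (2 ^ (a - 1) * k) := by
    rw [← mul_assoc, ← e]
    exact hk
  have hk2 : t.val = 2 ^ (a - 1) * k := Nat.eq_of_mul_eq_mul_left (by norm_num) hk'
  refine ⟨(k : ZMod (2 ^ a)), ?_⟩
  rw [← ZMod.natCast_zmod_val t, hk2]
  push_cast
  ring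

theorem zmod_unique {j : ℕ} {t s : ZMod (2 ^ (j + 1))} (ht : 2 * t = 0) (hs : 2 * s = 0) (ht0 : t ≠ 0) (hs0 : s ≠ 0) : t = s := by
  haveI : NeZero (2 ^ (j + 1)) := ⟨by positivity⟩
  have key : ∀ u : ZMod (2 ^ (j + 1)), 2 * u = 0 → u ≠ 0 → u.val = 2 ^ j := by
    intro u hu hu0
    have h1 : ((2 * u.val : ℕ) : ZMod (2 ^ (j + 1))) = 0 := by
      push_cast
      rw [ZMod.natCast_zmod_val]
      exact hu
    rw [ZMod.natCast_eq_zero_iff] at h1
    obtain ⟨k, hk⟩ := h1
    have hk' : 2 * u.val = 2 * (2 ^ j * k) := by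
      rw [hk, pow_succ', mul_assoc]
    have hk2 : u.val = 2 ^ j * k := Nat.eq_of_mul_eq_mul_left (by norm_num) hk'
    have hlt : u.val < 2 ^ (j + 1) := ZMod.val_lt u
    have hpos : 0 < u.val := by
      rw [Nat.pos_iff_ne_zero]
      intro h0
      exact hu0 ((ZMod.val_eq_zero u).1 h0)
    replace hlt : u.val < 2 * 2 ^ j := lt_of_lt_of_eq hlt (pow_succ' 2 j)
    have hk1 : k = 1 := by
      have hp : 0 < 2 ^ j := by positivity
      rw [hk2] at hlt hpos
      have h2 : k < 2 := by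
        by_contra hcon
        have : 2 ^ j * 2 ≤ 2 ^ j * k := Nat.mul_le_mul_left _ (by omega)
        omega
      have h3 : k ≠ 0 := by
        rintro rfl
        simp at hpos
      omega
    rw [hk2, hk1, mul_one]
  apply ZMod.val_injective
  rw [key t ht ht0, key s hs hs0]

theorem crit {N j : ℕ} (h : N = j + 1) (t s : ZMod (2 ^ N)) (ht : 2 * t = 0) (hs : 2 * s = 0) (h0 : t ≠ 0) (h1 : s ≠ 0) : -t + s = 0 := by
  subst h
  rw [zmod_unique ht hs h0 h1]
  simp

end zmod

section main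

variable {n : ℕ} {a : Fin n → ℕ}

/-- the group -/
abbrev XX (a : Fin n → ℕ) := Multiplicative ((i : Fin n) → ZMod (2 ^ a i))

/-- coordinates -/
def co (x : XX a) (i : Fin n) : ZMod (2 ^ a i) := Multiplicative.toAdd x i

theorem co_mul (x y : XX a) (i : Fin n) : co (x * y) i = co x i + co y i := rfl
theorem co_inv (x : XX a) (i : Fin n) : co x⁻¹ i = - co x i := rfl
theorem co_one (i : Fin n) : co (1 : XX a) i = 0 := rfl
theorem co_pow (x : XX a) (k : ℕ) (i : Fin n) : co (x ^ k) i = (k : ZMod (2 ^ a i)) * co x i := by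
  induction k with
  | zero => simp [co_one]
  | succ k ih =>
    rw [pow_succ, co_mul, ih]
    push_cast
    ring
theorem xx_ext {x y : XX a} (h : ∀ i, co x i = co y i) : x = y := by
  apply Multiplicative.toAdd.injective
  funext i
  exact h i

/-- the filtration -/
def WW (j : ℕ) (x : XX a) : Prop := x ^ 2 = 1 ∧ ∃ u : XX a, x = u ^ (2 ^ j)

theorem WW_mul {j : ℕ} {x y : XX a} (hx : WW j x) (hy : WW j y) : WW j (x⁻¹ * y) := by
  obtain ⟨hx1, u, rfl⟩ := hx
  obtain ⟨hy1, v, rfl⟩ := hy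
  refine ⟨?_, u⁻¹ * v, ?_⟩
  · rw [mul_pow, inv_pow, hx1, hy1]
    simp
  · rw [mul_pow, inv_pow]

theorem WW_map (β : MulAut (XX a)) {j : ℕ} {x : XX a} (hx : WW j x) : WW j (β x) := by
  obtain ⟨h, u, rfl⟩ := hx
  refine ⟨?_, β u, ?_⟩
  · rw [← map_pow, h, map_one]
  · rw [map_pow]

theorem WW_zero {j : ℕ} {x : XX a} (hx : WW j x) {i : Fin n} (hi : a i ≤ j) : co x i = 0 := by
  obtain ⟨-, u, rfl⟩ := hx
  rw [co_pow]
  have h : ((2 ^ j : ℕ) : ZMod (2 ^ a i)) = 0 := by
    rw [ZMod.natCast_eq_zero_iff]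
    exact pow_dvd_pow 2 hi
  rw [h, zero_mul]

theorem two_co {x : XX a} (hx : x ^ 2 = 1) (i : Fin n) : 2 * co x i = 0 := by
  have h := congrArg (fun y => co y i) hx
  simp only [co_pow, co_one] at h
  simpa using h

theorem WW_succ (ha1 : ∀ i, 1 ≤ a i) {j : ℕ} {x : XX a} (hx : WW j x) (h0 : ∀ i, a i = j + 1 → co x i = 0) : WW (j + 1) x := by
  refine ⟨hx.1, ?_⟩
  have hco : ∀ i, ∃ c : ZMod (2 ^ a i), co x i = (2 : ZMod (2 ^ a i)) ^ (j + 1) * c := by
    intro i
    by_cases h1 : a i ≤ j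
    · exact ⟨0, by rw [WW_zero hx h1, mul_zero]⟩
    by_cases h2 : a i = j + 1
    · exact ⟨0, by rw [h0 i h2, mul_zero]⟩
    obtain ⟨c, hc⟩ := zmod_two_mul (ha1 i) (two_co hx.1 i)
    refine ⟨(2 : ZMod (2 ^ a i)) ^ (a i - 1 - (j + 1)) * c, ?_⟩
    rw [hc, ← mul_assoc, ← pow_add]
    congr 2
    omega
  choose c hc using hco
  refine ⟨Multiplicative.ofAdd c, xx_ext (fun i => ?_)⟩
  rw [co_pow, hc i]
  push_cast
  rfl

/-- a non-identity fixed-point argument -/
theorem step_fix (β : MulAut (XX a)) {m : ℕ} (hm : Odd m) (hβ : β ^ m = 1) {x y : XX a} (hy2 : y ^ 2 = 1) (hyβ : β y = y) (hx : β x = x * y) :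
    y = 1 := by
  have hit : ∀ k : ℕ, (β ^ k) x = x * y ^ k := by
    intro k
    induction k with
    | zero => simp
    | succ k ih =>
      rw [pow_succ', MulAut.mul_apply, ih, map_mul, map_pow, hyβ, hx, pow_succ', mul_assoc]
  have h1 := hit m
  rw [hβ] at h1
  have h2 : y ^ m = 1 := by
    have h3 : (1 : MulAut (XX a)) x = x := rfl
    rw [h3] at h1
    exact mul_eq_left.1 h1.symm
  have h4 := pow_gcd_eq_one.2 ⟨h2, hy2⟩
  have h5 : Nat.gcd m 2 = 1 := Nat.coprime_two_right.2 hm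
  rwa [h5, pow_one] at h4

theorem WW_fix (ha : StrictMono a) (ha1 : ∀ i, 1 ≤ a i) (β : MulAut (XX a)) {m : ℕ} (hm : Odd m) (hβ : β ^ m = 1) (J : ℕ) (hJ : ∀ i, a i ≤ J) :
    ∀ k j : ℕ, j + k = J → ∀ x : XX a, WW j x → β x = x := by
  intro k
  induction k with
  | zero =>
    intro j hj x hx
    have : x = 1 := xx_ext (fun i => WW_zero hx (by have := hJ i; omega))
    rw [this, map_one]
  | succ k ih =>
    intro j hj x hx
    have hih := ih (j + 1) (by omega)
    by_cases hx1 : WW (j + 1) x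
    · exact hih x hx1
    -- some coordinate at the critical index is nonzero
    have h1 : ∃ i, a i = j + 1 ∧ co x i ≠ 0 := by
      by_contra hcon
      push_neg at hcon
      exact hx1 (WW_succ ha1 hx hcon)
    obtain ⟨i₀, hi₀, hc₀⟩ := h1
    have hβx := WW_map β hx
    have hβx1 : ¬ WW (j + 1) (β x) := by
      intro h
      have h2 := hih _ h
      have h3 : β x = x := β.injective h2
      rw [h3] at h
      exact hx1 h
    have h1' : ∃ i, a i = j + 1 ∧ co (β x) i ≠ 0 := by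
      by_contra hcon
      push_neg at hcon
      exact hβx1 (WW_succ ha1 hβx hcon)
    obtain ⟨i₁, hi₁, hc₁⟩ := h1'
    have hii : i₀ = i₁ := ha.injective (hi₀.trans hi₁.symm)
    subst hii
    -- the quotient
    have hy := WW_mul hx hβx
    have hy1 : WW (j + 1) (x⁻¹ * β x) := by
      apply WW_succ ha1 hy
      intro i hi
      have : i = i₀ := ha.injective (hi.trans hi₀.symm)
      subst this
      rw [co_mul, co_inv]
      have e1 := two_co hx.1 i
      have e2 := two_co hβx.1 i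
      exact crit hi _ _ e1 e2 hc₀ hc₁
    have hfix := hih _ hy1
    have hone := step_fix β hm hβ hy1.1 hfix (x := x) (by simp)
    have : β x = x := by
      rw [inv_mul_eq_one] at hone
      exact hone.symm
    exact this

theorem aut_trivial (ha : StrictMono a) (ha1 : ∀ i, 1 ≤ a i) (β : MulAut (XX a)) {m : ℕ} (hm : Odd m) (hβ : β ^ m = 1) : β = 1 := by
  obtain ⟨J, hJ⟩ : ∃ J, ∀ i, a i ≤ J := ⟨∑ i, a i, fun i => Finset.single_le_sum (f := a) (fun _ _ => Nat.zero_le _) (Finset.mem_univ i)⟩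
  have hW0 := WW_fix ha ha1 β hm hβ J hJ J 0 (by omega)
  have hinv : ∀ x : XX a, x ^ 2 = 1 → β x = x := fun x hx => hW0 x ⟨hx, x, by simp⟩
  have hall : ∀ t : ℕ, ∀ x : XX a, x ^ (2 ^ t) = 1 → β x = x := by
    intro t
    induction t with
    | zero =>
      intro x hx
      have : x = 1 := by simpa using hx
      rw [this, map_one]
    | succ t ih =>
      intro x hx
      have h1 : β (x ^ 2) = x ^ 2 := ih _ (by rw [← pow_mul, ← pow_succ']; exact hx)
      have hy2 : (x⁻¹ * β x) ^ 2 = 1 := by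
        have hcomm : Commute x⁻¹ (β x) := Commute.all _ _
        rw [hcomm.mul_pow, inv_pow, ← map_pow, h1, inv_mul_cancel]
      have hyfix := hinv _ hy2
      have := step_fix β hm hβ hy2 hyfix (x := x) (by simp)
      rw [inv_mul_eq_one] at this
      exact this.symm
  ext1 x
  refine hall J x ?_
  refine xx_ext (fun i => ?_)
  rw [co_pow, co_one]
  have h : ((2 ^ J : ℕ) : ZMod (2 ^ a i)) = 0 := by
    rw [ZMod.natCast_eq_zero_iff]
    exact pow_dvd_pow 2 (hJ i)
  rw [h, zero_mul]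

end main

/-- Let S be a finite abelian 2-group that is a direct product of cyclic groups of pairwise distinct orders 2^{a_1} < 2^{a_2} < ⋯ < 2^{a_n} (all a_i ≥ 1). Then every saturated fusion system over S is the inner one: its maps are exactly the conjugations by elements of S. -/
theorem result {Ω : Type*} [Group Ω] {S : Subgroup Ω} [Finite S] (n : ℕ) (a : Fin n → ℕ) (ha : StrictMono a) (ha1 : ∀ i, 1 ≤ a i) (e : ↥S ≃* Multiplicative ((i : Fin n) → ZMod (2 ^ a i))) (F : Cfsg.FusionSystem S) (hF : F.IsSaturated 2) (P : Subgroup Ω) : F.Hom P = (Cfsg.innerFusionSystem S).Hom P := by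
  haveI : Fact (Nat.Prime 2) := ⟨Nat.prime_two⟩
  have hab : ∀ x ∈ S, ∀ y ∈ S, x * y = y * x := by
    intro x hx y hy
    have h1 : e (⟨x, hx⟩ * ⟨y, hy⟩) = e (⟨y, hy⟩ * ⟨x, hx⟩) := by
      rw [map_mul, map_mul]
      exact mul_comm _ _
    exact congrArg Subtype.val (e.injective h1)
  have hS : IsPGroup 2 S := by
    intro x
    refine ⟨∑ i, a i, e.injective ?_⟩
    rw [map_pow, map_one]
    refine xx_ext (a := a) (fun i => ?_)
    rw [co_pow, co_one]
    have h : ((2 ^ (∑ i, a i) : ℕ) : ZMod (2 ^ a i)) = 0 := by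
      rw [ZMod.natCast_eq_zero_iff]
      exact pow_dvd_pow 2 (Finset.single_le_sum (f := a) (fun _ _ => Nat.zero_le _) (Finset.mem_univ i))
    rw [h, zero_mul]
  have hcop := aut_coprime hS F hab hF
  have hfix : ∀ α ∈ F.autGroup S, α = 1 := by
    intro α hα
    have hd : orderOf (⟨α, hα⟩ : F.autGroup S) ∣ Nat.card (F.autGroup S) := orderOf_dvd_natCard _
    have hodd : Odd (orderOf α) := by
      have h1 : orderOf α = orderOf (⟨α, hα⟩ : F.autGroup S) := (Subgroup.orderOf_mk α hα).symm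
      rw [h1, ← Nat.coprime_two_right]
      exact Nat.Coprime.coprime_dvd_left hd hcop
    have hβ : (MulAut.congr e α) ^ (orderOf α) = 1 := by
      rw [← map_pow, pow_orderOf_eq_one, map_one]
    have h2 := aut_trivial ha ha1 (MulAut.congr e α) hodd hβ
    exact (MulAut.congr e).injective (by rw [h2, map_one])
  ext φ
  constructor
  · intro hφ
    have hP : P ≤ S := src_le F hφ
    obtain ⟨α, hα, hαx⟩ := ext_to_aut hS F hab hF hφ
    refine ⟨hP, 1, S.one_mem, fun x => ?_⟩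
    rw [← hαx x (hP x.2), hfix α hα]
    simp
  · rintro ⟨hP, g, hg, hgx⟩
    exact hom_congr F (F.conj_mem hP hg) hgx


end Cfsg.Agent.S5331
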