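import Cfsg.Statements.S5332
import Mathlib
import Cfsg.Agent.Lib.FusGT5

set_option autoImplicit false
open Cfsg

namespace Cfsg.Agent.S5332


open Cfsg.FusionSystem Cfsg.Agent.Lib.FusBasic Cfsg.Agent.Lib.FusSat Cfsg.Agent.Lib.FusGT Cfsg.Agent.Lib.FusReal2

/-- Let p be odd and F a saturated fusion system over a finite p-group S that is not the inner system of S. Then F contains a saturated constrained subsystem over S that is itself not the inner system. -/
theorem result {Ω : Type*} [Group Ω] {S : Subgroup Ω} [Finite S] (p : ℕ) [Fact p.Prime] (hS : IsPGroup p S) (F : Cfsg.FusionSystem S) (hF : F.IsSaturated p) (hp : p ≠ 2) (hne : ∃ P : Subgroup Ω, F.Hom P ≠ (Cfsg.innerFusionSystem S).Hom P) : ∃ E : Cfsg.FusionSystem S, E ≤ F ∧ E.IsConstrained p ∧ ∃ P : Subgroup Ω, E.Hom P ≠ (Cfsg.innerFusionSystem S).Hom P := by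
  classical
  have hI : ¬ Inner F := by
    intro h
    obtain ⟨P, hP⟩ := hne
    exact hP (h P)
  obtain ⟨Q, hQ1, hQS, hSN, hQb, hC⟩ := exists_core_odd hp hS hF hI
  obtain ⟨E, hE⟩ := Cfsg.Agent.S5096.result F Q hQS
  have hFN : F.IsFullyNormalized Q := fn_of_normalized hQS hSN
  haveI hTfin : Finite ↥(normalizerIn S Q) := finite_normalizerIn Q
  have hEsat : E.IsSaturated p := Cfsg.Agent.Lib.FusKNorm.saturated_normalizer hS hF hFN hE
  have hN : E.IsNormal Q := normal_in_normalizer hQS hE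
  have hcT : centralizerIn (normalizerIn S Q) Q ≤ Q := by
    intro x hx
    have h := mem_centralizerIn.1 hx
    exact hC (mem_centralizerIn.2 ⟨(mem_normalizerIn.1 h.1).1, h.2⟩)
  have hCen : E.IsCentric Q := by
    refine ⟨hN.1, fun Q' hQ' => ?_⟩
    rw [Cfsg.Agent.Lib.FusSolv.normal_conj_eq hN hQ']
    exact hcT
  have hcon : E.IsConstrained p := ⟨hEsat, Q, hN, hCen⟩
  have hnI : ¬ Inner E := not_inner_of_bad hS hE hQb
  have hsub : ∀ P : Subgroup Ω, E.Hom P ⊆ F.Hom P := normalizerSystem_sub hE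
  have key : ∀ (T : Subgroup Ω) (e : T = S) (E₀ : FusionSystem T), E₀.IsConstrained p → (∀ P : Subgroup Ω, E₀.Hom P ⊆ F.Hom P) → ¬ Inner E₀ →
      ∃ E : Cfsg.FusionSystem S, E ≤ F ∧ E.IsConstrained p ∧ ∃ P : Subgroup Ω, E.Hom P ≠ (Cfsg.innerFusionSystem S).Hom P := by
    intro T e E₀ h1 h2 h3
    subst e
    refine ⟨E₀, h2, h1, ?_⟩
    by_contra hcon
    push_neg at hcon
    exact h3 hcon
  exact key _ (normalizerIn_eq hSN) E hcon hsub hnI

end Cfsg.Agent.S5332
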