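import Cfsg.Statements.S5422
import Mathlib
import Cfsg.Agent.Lib.LargeXS
import Cfsg.Agent.S5421

set_option autoImplicit false
open Cfsg

namespace Cfsg.Agent.S5422


open Cfsg.Agent.S5595 Cfsg.Agent.Lib.LargeXS

theorem mem_map_conj {G : Type*} [Group G] (Q : Subgroup G) (g x : G) :
    x ∈ Q.map (MulAut.conj g).toMonoidHom ↔ g⁻¹ * x * g ∈ Q := by
  constructor
  · rintro ⟨y, hy, rfl⟩
    have : g⁻¹ * ((MulAut.conj g).toMonoidHom y) * g = y := by
      simp [MulAut.conj_apply]
      group
    rwa [this]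
  · intro h
    refine ⟨_, h, ?_⟩
    simp [MulAut.conj_apply]
    group

theorem xs_map {G : Type*} [Group G] {Q : Subgroup G} {z : G} (hXa : XS Q z) (g : G) :
    XS (Q.map (MulAut.conj g).toMonoidHom) (g * z * g⁻¹) := by
  obtain ⟨b, hbdef⟩ : ∃ b, b = g * z * g⁻¹ := ⟨_, rfl⟩
  rw [← hbdef]
  have hsurj : ∀ y ∈ Q.map (MulAut.conj g).toMonoidHom, g⁻¹ * y * g ∈ Q := fun y hy => (mem_map_conj Q g y).1 hy
  have hinto : ∀ y ∈ Q, g * y * g⁻¹ ∈ Q.map (MulAut.conj g).toMonoidHom := by
    intro y hy
    rw [mem_map_conj]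
    have : g⁻¹ * (g * y * g⁻¹) * g = y := by group
    rwa [this]
  have hz2 := hXa.z2
  have hb2 : b * b = 1 := by
    rw [hbdef]
    calc g * z * g⁻¹ * (g * z * g⁻¹) = g * (z * z) * g⁻¹ := by group
      _ = 1 := by rw [hz2]; group
  have hb1 : b ≠ 1 := by
    intro h
    apply hXa.z1
    rw [hbdef] at h
    have : z = g⁻¹ * (g * z * g⁻¹) * g := by group
    rw [this, h]
    group
  have hbQ : b ∈ Q.map (MulAut.conj g).toMonoidHom := by
    rw [hbdef]
    exact hinto z hXa.zQ
  refine ⟨hb2, hb1, hbQ, ?_, ?_, ?_, ?_, ?_⟩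
  · intro x hx
    have h1 := hXa.zc _ (hsurj x hx)
    calc x * b = g * ((g⁻¹ * x * g) * z) * g⁻¹ := by rw [hbdef]; group
      _ = g * (z * (g⁻¹ * x * g)) * g⁻¹ := by rw [h1]
      _ = b * x := by rw [hbdef]; group
  · intro x hx y hy
    rcases hXa.comm _ (hsurj x hx) _ (hsurj y hy) with h | h
    · left
      calc x * y = g * ((g⁻¹ * x * g) * (g⁻¹ * y * g)) * g⁻¹ := by group
        _ = g * ((g⁻¹ * y * g) * (g⁻¹ * x * g)) * g⁻¹ := by rw [h]
        _ = y * x := by group
    · right
      calc x * y = g * ((g⁻¹ * x * g) * (g⁻¹ * y * g)) * g⁻¹ := by group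
        _ = g * (z * ((g⁻¹ * y * g) * (g⁻¹ * x * g))) * g⁻¹ := by rw [h]
        _ = b * (y * x) := by rw [hbdef]; group
  · intro x hx
    rcases hXa.sq _ (hsurj x hx) with h | h
    · left
      calc x * x = g * ((g⁻¹ * x * g) * (g⁻¹ * x * g)) * g⁻¹ := by group
        _ = 1 := by rw [h]; group
    · right
      calc x * x = g * ((g⁻¹ * x * g) * (g⁻¹ * x * g)) * g⁻¹ := by group
        _ = g * z * g⁻¹ := by rw [h]
        _ = b := hbdef.symm
  · intro x hx hc
    have h1 : ∀ y ∈ Q, (g⁻¹ * x * g) * y = y * (g⁻¹ * x * g) := by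
      intro y hy
      have h2 := hc _ (hinto y hy)
      calc (g⁻¹ * x * g) * y = g⁻¹ * (x * (g * y * g⁻¹)) * g := by group
        _ = g⁻¹ * ((g * y * g⁻¹) * x) * g := by rw [h2]
        _ = y * (g⁻¹ * x * g) := by group
    rcases hXa.cen _ (hsurj x hx) h1 with h | h
    · left
      calc x = g * (g⁻¹ * x * g) * g⁻¹ := by group
        _ = 1 := by rw [h]; group
    · right
      calc x = g * (g⁻¹ * x * g) * g⁻¹ := by group
        _ = b := by rw [h, hbdef]
  · intro c hc x hx
    have h1 : (g⁻¹ * c * g) * z = z * (g⁻¹ * c * g) := by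
      calc (g⁻¹ * c * g) * z = g⁻¹ * (c * b) * g := by rw [hbdef]; group
        _ = g⁻¹ * (b * c) * g := by rw [hc]
        _ = z * (g⁻¹ * c * g) := by rw [hbdef]; group
    have h2 := hXa.nor _ h1 _ (hsurj x hx)
    rw [mem_map_conj]
    have h3 : g⁻¹ * (c * x * c⁻¹) * g = (g⁻¹ * c * g) * (g⁻¹ * x * g) * (g⁻¹ * c * g)⁻¹ := by group
    rwa [h3]

theorem nor_of {G : Type*} [Group G] [Finite G] (V : Subgroup G) (n : G) (hn : ∀ v ∈ V, n * v * n⁻¹ ∈ V) :
    n ∈ Subgroup.normalizer (V : Set G) := by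
  rw [Subgroup.mem_normalizer_iff]
  intro x
  refine ⟨hn x, ?_⟩
  intro hx
  let f : V → V := fun v => ⟨n * v * n⁻¹, hn v v.2⟩
  have hf : Function.Injective f := by
    intro a b h
    have h1 : n * (a : G) * n⁻¹ = n * b * n⁻¹ := congrArg Subtype.val h
    apply Subtype.ext
    simpa using h1
  obtain ⟨v, hv⟩ := (Finite.injective_iff_surjective.1 hf) ⟨n * x * n⁻¹, hx⟩
  have h1 : n * (v : G) * n⁻¹ = n * x * n⁻¹ := congrArg Subtype.val hv
  have h2 : (v : G) = x := by simpa using h1
  rw [← h2]
  exact v.2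

theorem idx6 {G : Type*} [Group G] [Finite G] (z b : G) (V : Subgroup G)
    (hV : ∀ x, x ∈ V ↔ x = 1 ∨ x = z ∨ x = b ∨ x = z * b)
    (hzz : z * z = 1) (hbb : b * b = 1) (hzb : z * b = b * z) (hz1 : z ≠ 1) (hb1 : b ≠ 1) (hne : z ≠ b)
    (q p : G) (hqz : q * z * q⁻¹ = z) (hqb : q * b * q⁻¹ = z * b)
    (hpz : p * z * p⁻¹ = z * b) (hpb : p * b * p⁻¹ = b) :
    (Subgroup.centralizer (V : Set G)).relIndex (Subgroup.normalizer (V : Set G)) = 6 := by
  classical
  let N := Subgroup.normalizer (V : Set G)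
  have hNV : ∀ n : N, ∀ x ∈ V, (n : G) * x * (n : G)⁻¹ ∈ V := fun n x hx =>
    (Subgroup.mem_normalizer_iff.1 n.2 x).1 hx
  have hNV' : ∀ n : N, ∀ x ∈ V, (n : G)⁻¹ * x * (n : G) ∈ V := by
    intro n x hx
    have h1 := (Subgroup.mem_normalizer_iff.1 (N.inv_mem n.2) x).1 hx
    rwa [inv_inv] at h1
  let Ω : Type _ := {x : G // x ∈ V ∧ x ≠ 1}
  haveI hfin : Finite Ω := by
    dsimp only [Ω]
    infer_instance
  letI : Fintype Ω := Fintype.ofFinite Ω
  let ρ₀ : N → Equiv.Perm Ω := fun n =>
    { toFun := fun x => ⟨(n : G) * x.1 * (n : G)⁻¹, hNV n _ x.2.1, by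
        intro h
        apply x.2.2
        have h2 : x.1 = (n : G)⁻¹ * ((n : G) * x.1 * (n : G)⁻¹) * n := by group
        rw [h2, h]
        group⟩
      invFun := fun x => ⟨(n : G)⁻¹ * x.1 * (n : G), hNV' n _ x.2.1, by
        intro h
        apply x.2.2
        have h2 : x.1 = (n : G) * ((n : G)⁻¹ * x.1 * n) * (n : G)⁻¹ := by group
        rw [h2, h]
        group⟩
      left_inv := by
        intro x
        apply Subtype.ext
        show (n : G)⁻¹ * ((n : G) * x.1 * (n : G)⁻¹) * n = x.1
        group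
      right_inv := by
        intro x
        apply Subtype.ext
        show (n : G) * ((n : G)⁻¹ * x.1 * n) * (n : G)⁻¹ = x.1
        group }
  let ρ : N →* Equiv.Perm Ω := MonoidHom.mk' ρ₀ (by
    intro a b
    apply Equiv.ext
    intro x
    apply Subtype.ext
    show ((a * b : N) : G) * x.1 * ((a * b : N) : G)⁻¹ = (a : G) * ((b : G) * x.1 * (b : G)⁻¹) * (a : G)⁻¹
    push_cast
    group)
  have hρ : ∀ (n : N) (x : Ω), ((ρ n x : Ω) : G) = (n : G) * x.1 * (n : G)⁻¹ := fun n x => rfl
  have hker : (Subgroup.centralizer (V : Set G)).subgroupOf N = ρ.ker := by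
    ext n
    rw [Subgroup.mem_subgroupOf, MonoidHom.mem_ker]
    constructor
    · intro hn
      apply Equiv.ext
      intro x
      apply Subtype.ext
      rw [hρ]
      have h1 := Subgroup.mem_centralizer_iff.1 hn x.1 x.2.1
      show (n : G) * x.1 * (n : G)⁻¹ = x.1
      rw [← h1]
      group
    · intro hn
      rw [Subgroup.mem_centralizer_iff]
      intro v hv
      by_cases hv1 : v = 1
      · rw [hv1, one_mul, mul_one]
      · have h1 : ((ρ n ⟨v, hv, hv1⟩ : Ω) : G) = v := by
          rw [hn]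
          rfl
        rw [hρ] at h1
        have h2 : (n : G) * v * (n : G)⁻¹ = v := h1
        calc v * (n : G) = ((n : G) * v * (n : G)⁻¹) * n := by rw [h2]
          _ = (n : G) * v := by group
  -- the points
  have hzV : z ∈ V := (hV z).2 (Or.inr (Or.inl rfl))
  have hbV : b ∈ V := (hV b).2 (Or.inr (Or.inr (Or.inl rfl)))
  have hzbV : z * b ∈ V := V.mul_mem hzV hbV
  have hzb1 : z * b ≠ 1 := by
    intro h
    apply hne
    have := eq_inv_of_mul_eq_one_left h
    rw [this]
    exact inv_eq_of_mul_eq_one_left hbb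
  let x₁ : Ω := ⟨z, hzV, hz1⟩
  let x₂ : Ω := ⟨b, hbV, hb1⟩
  let x₃ : Ω := ⟨z * b, hzbV, hzb1⟩
  have hΩ : ∀ x : Ω, x = x₁ ∨ x = x₂ ∨ x = x₃ := by
    rintro ⟨x, hx, hx1⟩
    rcases (hV x).1 hx with h | h | h | h
    · exact absurd h hx1
    · exact Or.inl (Subtype.ext h)
    · exact Or.inr (Or.inl (Subtype.ext h))
    · exact Or.inr (Or.inr (Subtype.ext h))
  have h12 : x₁ ≠ x₂ := fun h => hne (congrArg Subtype.val h)
  have h13 : x₁ ≠ x₃ := by
    intro h
    have h2 : z = z * b := congrArg Subtype.val h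
    exact hb1 (by simpa using h2)
  have h23 : x₂ ≠ x₃ := by
    intro h
    have h2 : b = z * b := congrArg Subtype.val h
    exact hz1 (by simpa using h2)
  have hcardΩ : Fintype.card Ω = 3 := by
    have : (Finset.univ : Finset Ω) = {x₁, x₂, x₃} := by
      ext x
      simp only [Finset.mem_univ, Finset.mem_insert, Finset.mem_singleton, true_iff]
      exact hΩ x
    rw [← Finset.card_univ, this]
    exact Finset.card_eq_three.2 ⟨x₁, x₂, x₃, h12, h13, h23, rfl⟩
  -- the normalizer elements
  have hzz' : ∀ y, z * (z * y) = y := fun y => by rw [← mul_assoc, hzz, one_mul]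
  have hq3 : q * (z * b) * q⁻¹ = b := by
    have : q * (z * b) * q⁻¹ = (q * z * q⁻¹) * (q * b * q⁻¹) := by group
    rw [this, hqz, hqb, hzz']
  have hp3 : p * (z * b) * p⁻¹ = z := by
    have : p * (z * b) * p⁻¹ = (p * z * p⁻¹) * (p * b * p⁻¹) := by group
    rw [this, hpz, hpb, mul_assoc, hbb, mul_one]
  have hqN : q ∈ N := by
    apply nor_of
    intro v hv
    rcases (hV v).1 hv with h | h | h | h <;> rw [h]
    · simpa using V.one_mem
    · rw [hqz]; exact hzV
    · rw [hqb]; exact hzbV
    · rw [hq3]; exact hbV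
  have hpN : p ∈ N := by
    apply nor_of
    intro v hv
    rcases (hV v).1 hv with h | h | h | h <;> rw [h]
    · simpa using V.one_mem
    · rw [hpz]; exact hzbV
    · rw [hpb]; exact hbV
    · rw [hp3]; exact hzV
  obtain ⟨s, hs⟩ : ∃ s, s = ρ ⟨q, hqN⟩ := ⟨_, rfl⟩
  obtain ⟨t, ht⟩ : ∃ t, t = ρ ⟨p, hpN⟩ := ⟨_, rfl⟩
  have hs1 : s x₁ = x₁ := by rw [hs]; exact Subtype.ext hqz
  have hs2 : s x₂ = x₃ := by rw [hs]; exact Subtype.ext hqb
  have hs3 : s x₃ = x₂ := by rw [hs]; exact Subtype.ext hq3
  have ht1 : t x₁ = x₃ := by rw [ht]; exact Subtype.ext hpz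
  have hsr : s ∈ ρ.range := ⟨_, hs.symm⟩
  have htr : t ∈ ρ.range := ⟨_, ht.symm⟩
  have hsurj : Function.Surjective ρ := by
    intro σ
    have hfix : ∀ a : Ω, ∃ h ∈ ρ.range, h x₁ = a := by
      intro a
      rcases hΩ a with rfl | rfl | rfl
      · exact ⟨1, Subgroup.one_mem _, rfl⟩
      · exact ⟨s * t, Subgroup.mul_mem _ hsr htr, by
          rw [Equiv.Perm.mul_apply, ht1, hs3]⟩
      · exact ⟨t, htr, ht1⟩
    obtain ⟨h₁, hh₁, he⟩ := hfix (σ x₁)
    have hτ : (h₁⁻¹ * σ) x₁ = x₁ := by
      rw [Equiv.Perm.mul_apply, ← he]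
      simp
    obtain ⟨τ, hτdef⟩ : ∃ τ, τ = h₁⁻¹ * σ := ⟨_, rfl⟩
    rw [← hτdef] at hτ
    have hσ : σ = h₁ * τ := by
      rw [hτdef]
      group
    have hτ2 : τ ∈ ρ.range := by
      have h2 : τ x₂ ≠ x₁ := by
        intro h
        exact h12 (τ.injective (hτ.trans h.symm))
      have h3 : τ x₃ ≠ x₁ := by
        intro h
        exact h13 (τ.injective (hτ.trans h.symm))
      have h4 : τ x₂ ≠ τ x₃ := fun h => h23 (τ.injective h)
      rcases hΩ (τ x₂) with e | e | e
      · exact absurd e h2
      · rcases hΩ (τ x₃) with e' | e' | e'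
        · exact absurd e' h3
        · exact absurd (e.trans e'.symm) h4
        · have : τ = 1 := by
            apply Equiv.ext
            intro x
            rcases hΩ x with rfl | rfl | rfl
            · exact hτ
            · exact e
            · exact e'
          rw [this]
          exact Subgroup.one_mem _
      · rcases hΩ (τ x₃) with e' | e' | e'
        · exact absurd e' h3
        · have : τ = s := by
            apply Equiv.ext
            intro x
            rcases hΩ x with rfl | rfl | rfl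
            · rw [hτ, hs1]
            · rw [e, hs2]
            · rw [e', hs3]
          rw [this]
          exact hsr
        · exact absurd (e.trans e'.symm) h4
    have : σ ∈ ρ.range := by
      rw [hσ]
      exact Subgroup.mul_mem _ hh₁ hτ2
    exact this
  show ((Subgroup.centralizer (V : Set G)).subgroupOf N).index = 6
  rw [hker, Subgroup.index_ker, MonoidHom.range_eq_top.2 hsurj]
  rw [Nat.card_congr Subgroup.topEquiv.toEquiv, Nat.card_eq_fintype_card, Fintype.card_perm, hcardΩ]
  rfl

/-- Let Q be an extraspecial 2-subgroup of the finite group G whose centralizer in G is its centre Z and which is normal in the centralizer of Z; suppose Q has width at least 2 (order 2^(2w+1) with w ≥ 2) and g is an element of G not normalizing Z with g Z g⁻¹ inside Q. Then Z lies inside g Q g⁻¹; writing V for the subgroup generated by Z and g Z g⁻¹ (a four-group), the normalizer of V induces on V its full automorphism group, that is, the centralizer of V has index 6 in the normalizer of V; and Q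 is a large extraspecial 2-subgroup of G. -/
theorem result {G : Type*} [Group G] [Finite G] (Q : Subgroup G) (hL1 : Cfsg.IsExtraspecial 2 ↥Q) (hL2 : Subgroup.centralizer (Q : Set G) = ((Subgroup.center ↥Q).map Q.subtype)) (hL3 : Subgroup.centralizer (((Subgroup.center ↥Q).map Q.subtype) : Set G) ≤ Subgroup.normalizer (Q : Set G)) (w : ℕ) (hw : 2 ≤ w) (hcard : Nat.card ↥Q = 2 ^ (2 * w + 1)) (g : G) (hg : g ∉ Subgroup.normalizer (((Subgroup.center ↥Q).map Q.subtype) : Set G)) (hZg : (((Subgroup.center ↥Q).map Q.subtype)).map (MulAut.conj g).toMonoidHom ≤ Q) : ((Subgroup.center ↥Q).map Q.subtype) ≤ (Q).map (MulAut.conj g).toMonoidHom ∧ (Subgroup.centralizer ((((Subgroup.center ↥Q).map Q.subtype) ⊔ (((Subgroup.center ↥Q).map Q.subtype)).map (MulAut.conj g).toMonoidHom : Subgroup G) : Set G)).relIndex (Subgroup.normalizer ((((Subgroup.center ↥Q).map Q.subtype) ⊔ (((Subgroup.center ↥Q).map Q.subtype)).map (MulAut.conj g).toMonoidHom : Subgroup G) : Set G)) = 6 ∧ Cfsg.IsLargeExtraspecial Q := by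
  classical
  haveI : Fact (Nat.Prime 2) := ⟨Nat.prime_two⟩
  obtain ⟨z₀, hz₀, huniq⟩ := (Nat.card_eq_two_iff' (1 : Subgroup.center Q)).1 hL1.2
  obtain ⟨z, hzdef⟩ : ∃ z : G, z = ((z₀ : Q) : G) := ⟨_, rfl⟩
  have hz1 : z ≠ 1 := fun h => hz₀ (Subtype.ext (Subtype.ext (hzdef ▸ h)))
  have hzQ : z ∈ Q := hzdef ▸ (z₀ : Q).2
  have hzZ : ∀ u : Subgroup.center Q, u = 1 ∨ u = z₀ := by
    intro u
    by_cases hu : u = 1
    · exact Or.inl hu
    · exact Or.inr (huniq u hu)
  have hZmem : ∀ x, x ∈ (Subgroup.center Q).map Q.subtype ↔ x = 1 ∨ x = z := by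
    intro x
    constructor
    · rintro ⟨u, hu, rfl⟩
      rcases hzZ ⟨u, hu⟩ with h | h
      · left
        exact congrArg (fun u : Subgroup.center Q => ((u : Q) : G)) h
      · right
        rw [hzdef]
        exact congrArg (fun u : Subgroup.center Q => ((u : Q) : G)) h
    · rintro (rfl | rfl)
      · exact Subgroup.one_mem _
      · rw [hzdef]
        exact ⟨z₀, z₀.2, rfl⟩
  have hzz : z * z = 1 := by
    have h1 : z₀ * z₀ = 1 := by
      rcases hzZ (z₀ * z₀) with h | h
      · exact h
      · exfalso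
        apply hz₀
        exact mul_eq_left.1 h
    rw [hzdef]
    exact congrArg (fun u : Subgroup.center Q => ((u : Q) : G)) h1
  have hzc : ∀ y ∈ Q, y * z = z * y := by
    intro y hy
    have := (Subgroup.mem_center_iff.1 z₀.2) ⟨y, hy⟩
    rw [hzdef]
    exact congrArg Subtype.val this
  have hcz : ∀ c, c * z = z * c → c ∈ Subgroup.normalizer (Q : Set G) := by
    intro c hc
    apply hL3
    rw [Subgroup.mem_centralizer_iff]
    intro x hx
    rcases (hZmem x).1 hx with rfl | rfl
    · rw [one_mul, mul_one]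
    · exact hc.symm
  have hXa : XS Q z := xs_of Q z hL1 hzz hz1 hzQ hzc (by
    intro c hc x hx
    exact (Subgroup.mem_normalizer_iff.1 (hcz c hc) x).1 hx)
  obtain ⟨b, hbdef⟩ : ∃ b, b = g * z * g⁻¹ := ⟨_, rfl⟩
  have hbQ : b ∈ Q := by
    apply hZg
    exact ⟨z, (hZmem z).2 (Or.inr rfl), by rw [hbdef]; simp [MulAut.conj_apply]⟩
  have hXb := xs_map hXa g
  rw [← hbdef] at hXb
  have hbz : z ≠ b := by
    intro h
    apply hg
    rw [Subgroup.mem_normalizer_iff]
    intro x
    constructor
    · intro hx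
      rcases (hZmem x).1 hx with rfl | rfl
      · simpa using Subgroup.one_mem _
      · rw [← hbdef, ← h]
        exact hx
    · intro hx
      rcases (hZmem _).1 hx with h1 | h1
      · have : x = 1 := by
          have h2 : x = g⁻¹ * (g * x * g⁻¹) * g := by group
          rw [h2, h1]
          group
        rw [this]
        exact Subgroup.one_mem _
      · have : x = z := by
          have h2 : g * x * g⁻¹ = g * z * g⁻¹ := by rw [h1, ← hbdef, ← h]
          simpa using h2
        rw [this]
        exact (hZmem z).2 (Or.inr rfl)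
  have hCb : ∀ c, (∀ x ∈ Q.map (MulAut.conj g).toMonoidHom, c * x = x * c) → c ∈ Q.map (MulAut.conj g).toMonoidHom := by
    intro c hc
    rw [mem_map_conj]
    have h1 : g⁻¹ * c * g ∈ Subgroup.centralizer (Q : Set G) := by
      rw [Subgroup.mem_centralizer_iff]
      intro y hy
      have h2 : g * y * g⁻¹ ∈ Q.map (MulAut.conj g).toMonoidHom := by
        rw [mem_map_conj]
        have : g⁻¹ * (g * y * g⁻¹) * g = y := by group
        rwa [this]
      have h3 := hc _ h2
      calc y * (g⁻¹ * c * g) = g⁻¹ * ((g * y * g⁻¹) * c) * g := by group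
        _ = g⁻¹ * (c * (g * y * g⁻¹)) * g := by rw [h3]
        _ = (g⁻¹ * c * g) * y := by group
    rw [hL2] at h1
    rcases (hZmem _).1 h1 with h | h
    · rw [h]
      exact Q.one_mem
    · rw [h]
      exact hzQ
  have hconj : ∀ g', g' * z * g'⁻¹ = b → ∀ x ∈ Q, g' * x * g'⁻¹ ∈ Q.map (MulAut.conj g).toMonoidHom := by
    intro g' hg' x hx
    rw [mem_map_conj]
    have h1 : (g⁻¹ * g') * z = z * (g⁻¹ * g') := by
      have h2 : g' * z = b * g' := by
        rw [← hg']
        group
      calc (g⁻¹ * g') * z = g⁻¹ * (g' * z) := by group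
        _ = g⁻¹ * (b * g') := by rw [h2]
        _ = z * (g⁻¹ * g') := by rw [hbdef]; group
    have h3 := hXa.nor _ h1 x hx
    have h4 : g⁻¹ * (g' * x * g'⁻¹) * g = (g⁻¹ * g') * x * (g⁻¹ * g')⁻¹ := by group
    rwa [h4]
  have hcard : Nat.card Q = Nat.card (Q.map (MulAut.conj g).toMonoidHom) :=
    Nat.card_congr (Q.equivMapOfInjective _ (MulAut.conj g).injective).toEquiv
  have hzb := core Q _ z b hXa hXb hbz hbQ hCb hconj hcard
  have hZle : ((Subgroup.center ↥Q).map Q.subtype) ≤ Q.map (MulAut.conj g).toMonoidHom := by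
    intro x hx
    rcases (hZmem x).1 hx with rfl | rfl
    · exact Subgroup.one_mem _
    · exact hzb
  refine ⟨hZle, ?_, ?_⟩
  · -- the index
    have hbb := hXb.z2
    have hcomm : z * b = b * z := (hXa.zc b hbQ).symm
    have hb1 := hXb.z1
    have hzz' : ∀ y, z * (z * y) = y := fun y => by rw [← mul_assoc, hzz, one_mul]
    have hbb' : ∀ y, b * (b * y) = y := fun y => by rw [← mul_assoc, hbb, one_mul]
    have hbz' : ∀ y, b * (z * y) = z * (b * y) := fun y => by
      rw [← mul_assoc, ← hcomm, mul_assoc]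
    let K : Subgroup G :=
      { carrier := {x | x = 1 ∨ x = z ∨ x = b ∨ x = z * b}
        one_mem' := Or.inl rfl
        mul_mem' := by
          rintro x y hx hy
          simp only [Set.mem_setOf_eq] at hx hy ⊢
          rcases hx with rfl | rfl | rfl | rfl <;> rcases hy with rfl | rfl | rfl | rfl <;>
            simp [mul_assoc, hzz, hbb, hzz', hbb', hbz', hcomm.symm]
        inv_mem' := by
          rintro x hx
          simp only [Set.mem_setOf_eq] at hx ⊢
          have hzi : z⁻¹ = z := inv_eq_of_mul_eq_one_left hzz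
          have hbi : b⁻¹ = b := inv_eq_of_mul_eq_one_left hbb
          rcases hx with rfl | rfl | rfl | rfl
          · simp
          · simp [hzi]
          · simp [hbi]
          · right; right; right
            rw [mul_inv_rev, hzi, hbi, hcomm] }
    have hVeq : ∀ x, x ∈ ((Subgroup.center ↥Q).map Q.subtype ⊔ ((Subgroup.center ↥Q).map Q.subtype).map (MulAut.conj g).toMonoidHom : Subgroup G) ↔ x = 1 ∨ x = z ∨ x = b ∨ x = z * b := by
      intro x
      constructor
      · intro hx
        have hle : ((Subgroup.center ↥Q).map Q.subtype ⊔ ((Subgroup.center ↥Q).map Q.subtype).map (MulAut.conj g).toMonoidHom : Subgroup G) ≤ K := by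
          refine sup_le ?_ ?_
          · intro y hy
            rcases (hZmem y).1 hy with rfl | rfl
            · exact Or.inl rfl
            · exact Or.inr (Or.inl rfl)
          · rintro _ ⟨y, hy, rfl⟩
            rcases (hZmem y).1 hy with rfl | rfl
            · left
              simp
            · right; right; left
              rw [hbdef]
              simp [MulAut.conj_apply]
        exact hle hx
      · have h1 : z ∈ ((Subgroup.center ↥Q).map Q.subtype ⊔ ((Subgroup.center ↥Q).map Q.subtype).map (MulAut.conj g).toMonoidHom : Subgroup G) :=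
          Subgroup.mem_sup_left ((hZmem z).2 (Or.inr rfl))
        have h2 : b ∈ ((Subgroup.center ↥Q).map Q.subtype ⊔ ((Subgroup.center ↥Q).map Q.subtype).map (MulAut.conj g).toMonoidHom : Subgroup G) := by
          apply Subgroup.mem_sup_right
          exact ⟨z, (hZmem z).2 (Or.inr rfl), by rw [hbdef]; simp [MulAut.conj_apply]⟩
        rintro (rfl | rfl | rfl | rfl)
        · exact Subgroup.one_mem _
        · exact h1
        · exact h2
        · exact Subgroup.mul_mem _ h1 h2
    -- the element `q`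
    have hnc : ¬ ∀ y ∈ Q, b * y = y * b := by
      intro hc
      rcases hXa.cen b hbQ hc with h | h
      · exact hb1 h
      · exact hbz h.symm
    push_neg at hnc
    obtain ⟨q, hq, hqb⟩ := hnc
    have hq1 : q * b * q⁻¹ = z * b := conj_form hXa hq hbQ (fun h => hqb h.symm)
    have hq2 : q * z * q⁻¹ = z := by
      rw [hzc q hq]
      group
    have hnc' : ¬ ∀ y ∈ Q.map (MulAut.conj g).toMonoidHom, z * y = y * z := by
      intro hc
      rcases hXb.cen z hzb hc with h | h
      · exact hz1 h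
      · exact hbz h
    push_neg at hnc'
    obtain ⟨p, hp, hpz⟩ := hnc'
    have hp1 : p * z * p⁻¹ = z * b := by
      rw [conj_form hXb hp hzb (fun h => hpz h.symm)]
      exact hcomm.symm
    have hp2 : p * b * p⁻¹ = b := by
      rw [hXb.zc p hp]
      group
    exact idx6 z b _ hVeq hzz hbb hcomm hz1 hb1 hbz q p hq2 hq1 hp1 hp2
  · -- largeness
    have hbN : b ∉ ((Subgroup.center ↥Q).map Q.subtype) := by
      intro h
      rcases (hZmem b).1 h with h | h
      · exact hXb.z1 h
      · exact hbz h.symm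
    have hbo : orderOf b = 2 := by
      apply orderOf_eq_prime
      · rw [pow_two]
        exact hXb.z2
      · exact hXb.z1
    apply Cfsg.Agent.S5421.result Q hL1 hL2 hL3 b hbQ hbN hbo
    intro x hx
    have hxb := hZle hx
    let C := Subgroup.centralizer ({b} : Set G)
    have hxC : x ∈ C := Subgroup.mem_centralizer_singleton_iff.2 (hXb.zc x hxb)
    let N : Subgroup C := (Q.map (MulAut.conj g).toMonoidHom).subgroupOf C
    have hN : N.Normal := by
      constructor
      intro n hn c
      rw [Subgroup.mem_subgroupOf] at hn ⊢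
      exact hXb.nor c (Subgroup.mem_centralizer_singleton_iff.1 c.2) n hn
    have hP : IsPGroup 2 N := by
      intro y
      refine ⟨2, ?_⟩
      apply Subtype.ext
      apply Subtype.ext
      have hy : ((y : C) : G) ∈ Q.map (MulAut.conj g).toMonoidHom := Subgroup.mem_subgroupOf.1 y.2
      show ((y : C) : G) ^ (2 ^ 2) = 1
      have h4 : ((y : C) : G) ^ (2 ^ 2) = (((y : C) : G) * ((y : C) : G)) * (((y : C) : G) * ((y : C) : G)) := by
        norm_num
        simp only [pow_succ, pow_zero, one_mul, mul_assoc]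
      rw [h4]
      rcases hXb.sq _ hy with h | h
      · rw [h, one_mul]
      · rw [h, hXb.z2]
    exact ⟨⟨x, hxC⟩, Cfsg.Agent.Lib.H1Core.le_pCore hN hP (Subgroup.mem_subgroupOf.2 hxb), rfl⟩


end Cfsg.Agent.S5422
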