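import Cfsg.Statements.S5431
import Mathlib
import Cfsg.Agent.S5422

set_option autoImplicit false
open Cfsg

namespace Cfsg.Agent.S5431


open Cfsg.Agent.S5595 Cfsg.Agent.Lib.LargeXS Cfsg.Agent.S5422

theorem za {G : Type*} [Group G] {Q : Subgroup G} {z b : G} (h : XS Q z) (hbQ : b ∈ Q) (hbb : b * b = 1)
    {x : G} (hx : x ∈ Q) (hc : ∀ a ∈ Q, a * b = b * a → x * a = a * x) :
    x = 1 ∨ x = z ∨ x = b ∨ x = z * b := by
  have binv : b⁻¹ = b := inv_eq_of_mul_eq_one_left hbb
  have zz : ∀ y, z * (z * y) = y := fun y => by rw [← mul_assoc, h.z2, one_mul]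
  have hyP : ∀ y ∈ Q, y * b = b * y ∨ b * y = z * (y * b) := by
    intro y hy
    rcases h.comm b hbQ y hy with h1 | h1
    · exact Or.inl h1.symm
    · exact Or.inr h1
  by_cases hall : ∀ y ∈ Q, x * y = y * x
  · rcases h.cen x hx hall with h1 | h1
    · exact Or.inl h1
    · exact Or.inr (Or.inl h1)
  · have hout : ∀ y ∈ Q, ¬ y * b = b * y → x * y = z * (y * x) := by
      intro y hy hyb
      rcases h.comm x hx y hy with h1 | h1
      · exfalso
        apply hall
        intro y' hy'
        by_cases hy'b : y' * b = b * y'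
        · exact hc y' hy' hy'b
        · have h0 : ∀ u ∈ Q, ¬ u * b = b * u → ¬ b * u = u * b := fun u _ hu h2 => hu h2.symm
          have h3 := hc (y * y') (Q.mul_mem hy hy') (nc2 h hbQ hy hy' (h0 y hy hyb) (h0 y' hy' hy'b)).symm
          have h4 : y * (x * y') = y * (y' * x) := by
            calc y * (x * y') = (y * x) * y' := by group
              _ = (x * y) * y' := by rw [h1]
              _ = x * (y * y') := by group
              _ = (y * y') * x := h3
              _ = y * (y' * x) := by group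
          exact mul_left_cancel h4
      · exact h1
    have hcen : ∀ y ∈ Q, (x * b) * y = y * (x * b) := by
      intro y hy
      by_cases hyb : y * b = b * y
      · calc (x * b) * y = x * (b * y) := by group
          _ = x * (y * b) := by rw [hyb]
          _ = (x * y) * b := by group
          _ = (y * x) * b := by rw [hc y hy hyb]
          _ = y * (x * b) := by group
      · have e1 := (hyP y hy).resolve_left hyb
        calc (x * b) * y = x * (b * y) := by group
          _ = x * (z * (y * b)) := by rw [e1]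
          _ = (x * z) * (y * b) := by group
          _ = z * (x * (y * b)) := by rw [h.zc x hx]; group
          _ = z * ((x * y) * b) := by group
          _ = z * ((z * (y * x)) * b) := by rw [hout y hy hyb]
          _ = z * (z * (y * x * b)) := by group
          _ = y * (x * b) := by rw [zz]; group
    rcases h.cen (x * b) (Q.mul_mem hx hbQ) hcen with h1 | h1
    · right; right; left
      exact (eq_inv_of_mul_eq_one_left h1).trans binv
    · right; right; right
      rw [← h1, mul_assoc, hbb, mul_one]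

theorem tr_lemma {G : Type*} [Group G] [Finite G] {Q : Subgroup G} {z b : G} (h : XS Q z) (hbQ : b ∈ Q)
    (hbb : b * b = 1) (hC : ∀ c, (∀ x ∈ Q, c * x = x * c) → c ∈ Q) {c : G}
    (hcz : c * z = z * c) (hcb : c * b = b * c)
    (hc : ∀ a ∈ Q, a * b = b * a → c * a * c⁻¹ = a ∨ c * a * c⁻¹ = z * a) : c ∈ Q := by
  classical
  have zz : ∀ y, z * (z * y) = y := fun y => by rw [← mul_assoc, h.z2, one_mul]
  have hstep : ∀ y ∈ Q, c * y * c⁻¹ = y ∨ c * y * c⁻¹ = z * y := by
    intro y hy
    by_cases hyb : y * b = b * y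
    · exact hc y hy hyb
    obtain ⟨y', hy'⟩ : ∃ y', y' = c * y * c⁻¹ := ⟨_, rfl⟩
    have hy'Q : y' ∈ Q := by
      rw [hy']
      exact h.nor c hcz y hy
    obtain ⟨d, hd⟩ : ∃ d, d = y' * y⁻¹ := ⟨_, rfl⟩
    have hdQ : d ∈ Q := by
      rw [hd]
      exact Q.mul_mem hy'Q (Q.inv_mem hy)
    have hy'd : y' = d * y := by
      rw [hd]
      group
    have hdc : ∀ a ∈ Q, a * b = b * a → d * a = a * d := by
      intro a ha hab
      obtain ⟨ε, hε, hya⟩ : ∃ ε, (ε = 1 ∨ ε = z) ∧ y * a = ε * (a * y) := by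
        rcases h.comm y hy a ha with h1 | h1
        · exact ⟨1, Or.inl rfl, by rw [h1, one_mul]⟩
        · exact ⟨z, Or.inr rfl, h1⟩
      have hεc : c * ε = ε * c := by
        rcases hε with rfl | rfl
        · rw [mul_one, one_mul]
        · exact hcz
      have hεQ : ∀ u ∈ Q, u * ε = ε * u := by
        intro u hu
        rcases hε with rfl | rfl
        · rw [mul_one, one_mul]
        · exact h.zc u hu
      have h1 : y' * (c * a * c⁻¹) = ε * ((c * a * c⁻¹) * y') := by
        calc y' * (c * a * c⁻¹) = c * (y * a) * c⁻¹ := by rw [hy']; group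
          _ = c * (ε * (a * y)) * c⁻¹ := by rw [hya]
          _ = (c * ε) * (a * y) * c⁻¹ := by group
          _ = (ε * c) * (a * y) * c⁻¹ := by rw [hεc]
          _ = ε * ((c * a * c⁻¹) * y') := by rw [hy']; group
      have h2 : y' * a = ε * (a * y') := by
        rcases hc a ha hab with e | e
        · rwa [e] at h1
        · rw [e] at h1
          have h3 : z * (y' * a) = z * (ε * (a * y')) := by
            calc z * (y' * a) = (z * y') * a := by group
              _ = (y' * z) * a := by rw [h.zc y' hy'Q]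
              _ = y' * (z * a) := by group
              _ = ε * (z * a * y') := h1
              _ = (ε * z) * (a * y') := by group
              _ = (z * ε) * (a * y') := by rw [hεQ z h.zQ]
              _ = z * (ε * (a * y')) := by group
          exact mul_left_cancel h3
      rw [hy'd] at h2
      have h3 : ε * (d * (a * y)) = ε * (a * (d * y)) := by
        calc ε * (d * (a * y)) = (ε * d) * (a * y) := by group
          _ = (d * ε) * (a * y) := by rw [hεQ d hdQ]
          _ = d * (ε * (a * y)) := by group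
          _ = d * (y * a) := by rw [hya]
          _ = d * y * a := by group
          _ = ε * (a * (d * y)) := h2
      have h4 := mul_left_cancel h3
      have h5 : (d * a) * y = (a * d) * y := by
        calc (d * a) * y = d * (a * y) := by group
          _ = a * (d * y) := h4
          _ = (a * d) * y := by group
      exact mul_right_cancel h5
    have hsq : y' * y' = y * y := by
      have h1 : y' * y' = c * (y * y) * c⁻¹ := by
        rw [hy']
        group
      rw [h1]
      rcases h.sq y hy with h2 | h2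
      · rw [h2]
        group
      · rw [h2, hcz]
        group
    have hby : b * y = z * (y * b) := by
      rcases h.comm b hbQ y hy with h1 | h1
      · exact absurd h1.symm hyb
      · exact h1
    have hbysq : (b * y) * (b * y) = z * (y * y) := by
      calc (b * y) * (b * y) = (z * (y * b)) * (b * y) := by rw [hby]
        _ = z * (y * (b * b) * y) := by group
        _ = z * (y * y) := by rw [hbb, mul_one]
    have hzne : ∀ u, u = z * u → False := by
      intro u hu
      apply h.z1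
      have h2 : 1 * u = z * u := by rw [one_mul]; exact hu
      exact (mul_right_cancel h2).symm
    rcases za h hbQ hbb hdQ hdc with e | e | e | e
    · left
      rw [← hy', hy'd, e, one_mul]
    · right
      rw [← hy', hy'd, e]
    · exfalso
      rw [e] at hy'd
      rw [hy'd, hbysq] at hsq
      exact hzne _ hsq.symm
    · exfalso
      rw [e] at hy'd
      have h1 : (z * b * y) * (z * b * y) = z * (y * y) := by
        calc (z * b * y) * (z * b * y) = z * (b * y * z) * (b * y) := by group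
          _ = z * (z * (b * y)) * (b * y) := by
            rw [h.zc (b * y) (Q.mul_mem hbQ hy)]
          _ = (b * y) * (b * y) := by rw [zz]
          _ = z * (y * y) := hbysq
      rw [hy'd, h1] at hsq
      exact hzne _ hsq.symm
  by_cases hK : ∀ y ∈ Q, c * y = y * c
  · exact hC c hK
  push_neg at hK
  obtain ⟨y₀, hy₀, hcy₀⟩ := hK
  let K : Subgroup G := Q ⊓ Subgroup.centralizer ({c} : Set G)
  have hKmem : ∀ y, y ∈ K ↔ y ∈ Q ∧ c * y = y * c := by
    intro y
    rw [Subgroup.mem_inf, Subgroup.mem_centralizer_singleton_iff]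
    exact and_congr_right fun _ => eq_comm
  have hcy₀' : c * y₀ * c⁻¹ = z * y₀ := by
    rcases hstep y₀ hy₀ with e | e
    · exfalso
      apply hcy₀
      calc c * y₀ = (c * y₀ * c⁻¹) * c := by group
        _ = y₀ * c := by rw [e]
    · exact e
  obtain ⟨g, hg, hgK, hgn⟩ := good_sub h K inf_le_left ((hKmem z).2 ⟨h.zQ, hcz⟩) hy₀
    (fun hy => hcy₀ ((hKmem _).1 hy).2)
  have hgy₀ : g * y₀ * g⁻¹ = z * y₀ := conj_form h hg hy₀ hgn
  have hcomm : ∀ y ∈ Q, (g⁻¹ * c) * y = y * (g⁻¹ * c) := by
    have hK' : ∀ k ∈ K, (g⁻¹ * c) * k = k * (g⁻¹ * c) := by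
      intro k hk
      have h1 := ((hKmem k).1 hk).2
      have h2 := hgK k hk
      have h3 : g⁻¹ * k = k * g⁻¹ := by
        have h4 : Commute g k := h2
        exact h4.inv_left
      calc (g⁻¹ * c) * k = g⁻¹ * (c * k) := by group
        _ = g⁻¹ * (k * c) := by rw [h1]
        _ = (g⁻¹ * k) * c := by group
        _ = (k * g⁻¹) * c := by rw [h3]
        _ = k * (g⁻¹ * c) := by group
    intro y hy
    by_cases hyK : y ∈ K
    · exact hK' y hyK
    · have hy' : c * y * c⁻¹ = z * y := by
        rcases hstep y hy with e | e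
        · exfalso
          apply hyK
          refine (hKmem y).2 ⟨hy, ?_⟩
          calc c * y = (c * y * c⁻¹) * c := by group
            _ = y * c := by rw [e]
        · exact e
      have hk : y₀⁻¹ * y ∈ K := by
        refine (hKmem _).2 ⟨Q.mul_mem (Q.inv_mem hy₀) hy, ?_⟩
        have h1 : c * (y₀⁻¹ * y) * c⁻¹ = y₀⁻¹ * y := by
          calc c * (y₀⁻¹ * y) * c⁻¹ = (c * y₀ * c⁻¹)⁻¹ * (c * y * c⁻¹) := by group
            _ = (z * y₀)⁻¹ * (z * y) := by rw [hcy₀', hy']
            _ = y₀⁻¹ * y := by group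
        calc c * (y₀⁻¹ * y) = (c * (y₀⁻¹ * y) * c⁻¹) * c := by group
          _ = (y₀⁻¹ * y) * c := by rw [h1]
      have hy₀c : (g⁻¹ * c) * y₀ = y₀ * (g⁻¹ * c) := by
        have h1 : c * y₀ = z * y₀ * c := by
          rw [← hcy₀']
          group
        have h2 : g⁻¹ * (z * y₀) = y₀ * g⁻¹ := by
          rw [← hgy₀]
          group
        calc (g⁻¹ * c) * y₀ = g⁻¹ * (c * y₀) := by group
          _ = g⁻¹ * (z * y₀ * c) := by rw [h1]
          _ = (g⁻¹ * (z * y₀)) * c := by group
          _ = (y₀ * g⁻¹) * c := by rw [h2]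
          _ = y₀ * (g⁻¹ * c) := by group
      have hyd : y = y₀ * (y₀⁻¹ * y) := by group
      rw [hyd]
      calc (g⁻¹ * c) * (y₀ * (y₀⁻¹ * y)) = ((g⁻¹ * c) * y₀) * (y₀⁻¹ * y) := by group
        _ = (y₀ * (g⁻¹ * c)) * (y₀⁻¹ * y) := by rw [hy₀c]
        _ = y₀ * ((g⁻¹ * c) * (y₀⁻¹ * y)) := by group
        _ = y₀ * ((y₀⁻¹ * y) * (g⁻¹ * c)) := by rw [hK' _ hk]
        _ = y₀ * (y₀⁻¹ * y) * (g⁻¹ * c) := by group
  have h1 := hC _ hcomm
  have h2 : c = g * (g⁻¹ * c) := by group
  rw [h2]
  exact Q.mul_mem hg h1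

/-- Let Q be a large extraspecial 2-subgroup of the finite group G (extraspecial; centralizer equal to its centre; normal in the centralizer of its centre; normalizing no non-trivial subgroup of odd order) with centre generated by z, an involution, of width w ≥ 2 (order 2^(2w+1)); let g be an element outside the centralizer H of z with g z g⁻¹ in Q; write V for the subgroup generated by z and g z g⁻¹, X for the subgroup generated by Q and g Q g⁻¹, R for the subgroup generated by the centralizer of z in g Q g⁻¹ and the centralizer of g z g⁻¹ in Q, and E for the intersection of Q and g Q g⁻¹. Then V is the centre of R, E lies in the second centre of R, R is nilpotent of class at most 3, E and R/E are elementary abelian, R/E is the direct product of the images of the centralizer of g z g⁻¹ in Q and of the centralizer of z in g Q g⁻¹ (R is their product and they meet in E), and the commutator subgroup of X and E lies in V. -/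
theorem result {G : Type*} [Group G] [Finite G] (Q : Subgroup G) (hQ : Cfsg.IsLargeExtraspecial Q) (z : G) (hz : ((Subgroup.center ↥Q).map Q.subtype) = Subgroup.zpowers z) (hz2 : orderOf z = 2) (w : ℕ) (hw : 2 ≤ w) (hcard : Nat.card ↥Q = 2 ^ (2 * w + 1)) (g : G) (hgH : g ∉ Subgroup.centralizer ({z} : Set G)) (hgQ : g * z * g⁻¹ ∈ Q) (V X R E : Subgroup G) (hV : V = Subgroup.closure ({z, g * z * g⁻¹} : Set G)) (hX : X = Q ⊔ (Q).map (MulAut.conj g).toMonoidHom) (hR : R = ((Q).map (MulAut.conj g).toMonoidHom ⊓ Subgroup.centralizer ({z} : Set G)) ⊔ (Q ⊓ Subgroup.centralizer ({g * z * g⁻¹} : Set G))) (hE : E = Q ⊓ (Q).map (MulAut.conj g).toMonoidHom) : (Subgroup.center ↥R).map R.subtype = V ∧ E ≤ (Subgroup.upperCentralSeries ↥R 2).map R.subtype ∧ Subgroup.upperCentralSeries ↥R 3 = ⊤ ∧ Cfsg.IsElementaryAbelian 2 E ∧ (∀ x ∈ R, ∀ y ∈ R, x * y * x⁻¹ * y⁻¹ ∈ E ∧ x ^ 2 ∈ E) ∧ ((Q).map (MulAut.conj g).toMonoidHom ⊓ Subgroup.centralizer ({z} : Set G)) ⊓ (Q ⊓ Subgroup.centralizer ({g * z * g⁻¹}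 : Set G)) = E ∧ ⁅X, E⁆ ≤ V := by
  classical
  haveI : Fact (Nat.Prime 2) := ⟨Nat.prime_two⟩
  obtain ⟨hL1, hL2, hL3, -⟩ := hQ
  have hzz : z * z = 1 := by
    rw [← pow_two, ← hz2]
    exact pow_orderOf_eq_one z
  have hz1 : z ≠ 1 := by
    rintro rfl
    simp at hz2
  have hzinv : z⁻¹ = z := inv_eq_of_mul_eq_one_left hzz
  have hZmem : ∀ x, x ∈ (Subgroup.center ↥Q).map Q.subtype ↔ x = 1 ∨ x = z := by
    intro x
    rw [hz]
    constructor
    · intro hx
      obtain ⟨k, rfl⟩ := Subgroup.mem_zpowers_iff.1 hx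
      obtain ⟨m, rfl | rfl⟩ := Int.even_or_odd' k
      · left
        rw [zpow_mul, zpow_two, hzz, one_zpow]
      · right
        rw [zpow_add, zpow_mul, zpow_two, hzz, one_zpow, one_mul, zpow_one]
    · rintro (rfl | rfl)
      · exact Subgroup.one_mem _
      · exact Subgroup.mem_zpowers _
  obtain ⟨u₀, hu₀, hu₀e⟩ : z ∈ (Subgroup.center ↥Q).map Q.subtype := (hZmem z).2 (Or.inr rfl)
  have hzQ : z ∈ Q := by
    rw [← hu₀e]
    exact u₀.2
  have hzc : ∀ y ∈ Q, y * z = z * y := by
    intro y hy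
    have := (Subgroup.mem_center_iff.1 hu₀) ⟨y, hy⟩
    rw [← hu₀e]
    exact congrArg Subtype.val this
  have hcz : ∀ c, c * z = z * c → c ∈ Subgroup.normalizer (Q : Set G) := by
    intro c hc
    apply hL3
    rw [Subgroup.mem_centralizer_iff]
    intro x hx
    rcases (hZmem x).1 hx with rfl | rfl
    · rw [one_mul, mul_one]
    · exact hc.symm
  have hXa : XS Q z := xs_of Q z hL1 hzz hz1 hzQ hzc (by
    intro c hc x hx
    exact (Subgroup.mem_normalizer_iff.1 (hcz c hc) x).1 hx)
  obtain ⟨b, hbdef⟩ : ∃ b, b = g * z * g⁻¹ := ⟨_, rfl⟩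
  have hbQ : b ∈ Q := hbdef ▸ hgQ
  have hXb := xs_map hXa g
  rw [← hbdef] at hXb
  have hbz : z ≠ b := by
    intro h
    apply hgH
    rw [Subgroup.mem_centralizer_singleton_iff]
    rw [hbdef] at h
    calc g * z = (g * z * g⁻¹) * g := by group
      _ = z * g := by rw [← h]
  have hCa : ∀ c, (∀ x ∈ Q, c * x = x * c) → c ∈ Q := by
    intro c hc
    have h1 : c ∈ Subgroup.centralizer (Q : Set G) :=
      Subgroup.mem_centralizer_iff.2 fun y hy => (hc y hy).symm
    rw [hL2] at h1
    rcases (hZmem _).1 h1 with h | h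
    · rw [h]
      exact Q.one_mem
    · rw [h]
      exact hzQ
  have hCb : ∀ c, (∀ x ∈ Q.map (MulAut.conj g).toMonoidHom, c * x = x * c) → c ∈ Q.map (MulAut.conj g).toMonoidHom := by
    intro c hc
    rw [mem_map_conj]
    apply hCa
    intro y hy
    have h2 : g * y * g⁻¹ ∈ Q.map (MulAut.conj g).toMonoidHom := by
      rw [mem_map_conj]
      have : g⁻¹ * (g * y * g⁻¹) * g = y := by group
      rwa [this]
    have h3 := hc _ h2
    calc (g⁻¹ * c * g) * y = g⁻¹ * (c * (g * y * g⁻¹)) * g := by group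
      _ = g⁻¹ * ((g * y * g⁻¹) * c) * g := by rw [h3]
      _ = y * (g⁻¹ * c * g) := by group
  have hconj : ∀ g', g' * z * g'⁻¹ = b → ∀ x ∈ Q, g' * x * g'⁻¹ ∈ Q.map (MulAut.conj g).toMonoidHom := by
    intro g' hg' x hx
    rw [mem_map_conj]
    have h1 : (g⁻¹ * g') * z = z * (g⁻¹ * g') := by
      have h2 : g' * z = b * g' := by
        rw [← hg']
        group
      calc (g⁻¹ * g') * z = g⁻¹ * (g' * z) := by group
        _ = g⁻¹ * (b * g') := by rw [h2]
        _ = z * (g⁻¹ * g') := by rw [hbdef]; group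
    have h3 := hXa.nor _ h1 x hx
    have h4 : g⁻¹ * (g' * x * g'⁻¹) * g = (g⁻¹ * g') * x * (g⁻¹ * g')⁻¹ := by group
    rwa [h4]
  have hcard' : Nat.card Q = Nat.card (Q.map (MulAut.conj g).toMonoidHom) :=
    Nat.card_congr (Q.equivMapOfInjective _ (MulAut.conj g).injective).toEquiv
  have hzb := core Q _ z b hXa hXb hbz hbQ hCb hconj hcard'
  obtain ⟨Qb, hQbdef⟩ : ∃ Qb, Qb = Q.map (MulAut.conj g).toMonoidHom := ⟨_, rfl⟩
  rw [← hQbdef] at hX hR hE hXb hCb hzb ⊢
  rw [← hbdef] at hV hR ⊢
  have hbb := hXb.z2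
  have hb1 := hXb.z1
  have hcomm : z * b = b * z := (hzc b hbQ).symm
  have hbinv : b⁻¹ = b := inv_eq_of_mul_eq_one_left hbb
  have hmemA : ∀ x, x ∈ Q ⊓ Subgroup.centralizer ({b} : Set G) ↔ x ∈ Q ∧ x * b = b * x := by
    intro x
    rw [Subgroup.mem_inf, Subgroup.mem_centralizer_singleton_iff]
  have hmemB : ∀ x, x ∈ Qb ⊓ Subgroup.centralizer ({z} : Set G) ↔ x ∈ Qb ∧ x * z = z * x := by
    intro x
    rw [Subgroup.mem_inf, Subgroup.mem_centralizer_singleton_iff]
  have hmemE : ∀ x, x ∈ E ↔ x ∈ Q ∧ x ∈ Qb := by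
    intro x
    rw [hE, Subgroup.mem_inf]
  have hzE : z ∈ E := (hmemE z).2 ⟨hzQ, hzb⟩
  have hbE : b ∈ E := (hmemE b).2 ⟨hbQ, hXb.zQ⟩
  have hnE : ∀ c, c * z = z * c → c * b = b * c → ∀ e ∈ E, c * e * c⁻¹ ∈ E := by
    intro c h1 h2 e he
    obtain ⟨h3, h4⟩ := (hmemE e).1 he
    exact (hmemE _).2 ⟨hXa.nor c h1 e h3, hXb.nor c h2 e h4⟩
  -- elements of `R`
  have hRC : ∀ x ∈ R, x * z = z * x ∧ x * b = b * x := by
    have h1 : R ≤ Subgroup.centralizer ({z} : Set G) ⊓ Subgroup.centralizer ({b} : Set G) := by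
      rw [hR]
      refine sup_le ?_ ?_
      · intro x hx
        obtain ⟨h2, h3⟩ := (hmemB x).1 hx
        exact ⟨Subgroup.mem_centralizer_singleton_iff.2 h3, Subgroup.mem_centralizer_singleton_iff.2 (hXb.zc x h2)⟩
      · intro x hx
        obtain ⟨h2, h3⟩ := (hmemA x).1 hx
        exact ⟨Subgroup.mem_centralizer_singleton_iff.2 (hzc x h2), Subgroup.mem_centralizer_singleton_iff.2 h3⟩
    intro x hx
    exact ⟨Subgroup.mem_centralizer_singleton_iff.1 (h1 hx).1, Subgroup.mem_centralizer_singleton_iff.1 (h1 hx).2⟩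
  let D : Subgroup G :=
    { carrier := {x | ∃ a β, a ∈ Q ∧ a * b = b * a ∧ β ∈ Qb ∧ β * z = z * β ∧ x = a * β}
      one_mem' := ⟨1, 1, Q.one_mem, by simp, Qb.one_mem, by simp, by simp⟩
      mul_mem' := by
        rintro x y ⟨a₁, β₁, h1, h2, h3, h4, rfl⟩ ⟨a₂, β₂, h5, h6, h7, h8, rfl⟩
        have hβb : β₁ * b = b * β₁ := hXb.zc β₁ h3
        refine ⟨a₁ * (β₁ * a₂ * β₁⁻¹), β₁ * β₂, Q.mul_mem h1 (hXa.nor β₁ h4 a₂ h5), ?_, Qb.mul_mem h3 h7, ?_, by group⟩
        · have h9 : (β₁ * a₂ * β₁⁻¹) * b = b * (β₁ * a₂ * β₁⁻¹) := by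
            have h10 : Commute β₁ b := hβb
            have h11 : β₁⁻¹ * b = b * β₁⁻¹ := h10.inv_left
            calc (β₁ * a₂ * β₁⁻¹) * b = β₁ * a₂ * (β₁⁻¹ * b) := by group
              _ = β₁ * a₂ * (b * β₁⁻¹) := by rw [h11]
              _ = β₁ * (a₂ * b) * β₁⁻¹ := by group
              _ = β₁ * (b * a₂) * β₁⁻¹ := by rw [h6]
              _ = (β₁ * b) * a₂ * β₁⁻¹ := by group
              _ = (b * β₁) * a₂ * β₁⁻¹ := by rw [hβb]
              _ = b * (β₁ * a₂ * β₁⁻¹) := by group
          calc a₁ * (β₁ * a₂ * β₁⁻¹) * b = a₁ * ((β₁ * a₂ * β₁⁻¹) * b) := by group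
            _ = a₁ * (b * (β₁ * a₂ * β₁⁻¹)) := by rw [h9]
            _ = (a₁ * b) * (β₁ * a₂ * β₁⁻¹) := by group
            _ = (b * a₁) * (β₁ * a₂ * β₁⁻¹) := by rw [h2]
            _ = b * (a₁ * (β₁ * a₂ * β₁⁻¹)) := by group
        · calc β₁ * β₂ * z = β₁ * (β₂ * z) := by group
            _ = β₁ * (z * β₂) := by rw [h8]
            _ = (β₁ * z) * β₂ := by group
            _ = (z * β₁) * β₂ := by rw [h4]
            _ = z * (β₁ * β₂) := by group
      inv_mem' := by
        rintro x ⟨a, β, h1, h2, h3, h4, rfl⟩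
        have h5 : Commute β z := h4
        have h6 : β⁻¹ * z = z * β⁻¹ := h5.inv_left
        have hβb : β * b = b * β := hXb.zc β h3
        have h7 : Commute β b := hβb
        have h8 : β⁻¹ * b = b * β⁻¹ := h7.inv_left
        have h9 : Commute a b := h2
        have h10 : a⁻¹ * b = b * a⁻¹ := h9.inv_left
        refine ⟨β⁻¹ * a⁻¹ * β, β⁻¹, ?_, ?_, Qb.inv_mem h3, h6, by group⟩
        · have := hXa.nor β⁻¹ h6 a⁻¹ (Q.inv_mem h1)
          rwa [inv_inv] at this
        · calc β⁻¹ * a⁻¹ * β * b = β⁻¹ * a⁻¹ * (β * b) := by group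
            _ = β⁻¹ * a⁻¹ * (b * β) := by rw [hβb]
            _ = β⁻¹ * (a⁻¹ * b) * β := by group
            _ = β⁻¹ * (b * a⁻¹) * β := by rw [h10]
            _ = (β⁻¹ * b) * a⁻¹ * β := by group
            _ = (b * β⁻¹) * a⁻¹ * β := by rw [h8]
            _ = b * (β⁻¹ * a⁻¹ * β) := by group }
  have hRD : R ≤ D := by
    rw [hR]
    refine sup_le ?_ ?_
    · intro x hx
      obtain ⟨h2, h3⟩ := (hmemB x).1 hx
      exact ⟨1, x, Q.one_mem, by simp, h2, h3, by simp⟩
    · intro x hx
      obtain ⟨h2, h3⟩ := (hmemA x).1 hx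
      exact ⟨x, 1, h2, h3, Qb.one_mem, by simp, by simp⟩
  have hAR : ∀ a ∈ Q, a * b = b * a → a ∈ R := by
    intro a h1 h2
    rw [hR]
    exact Subgroup.mem_sup_right ((hmemA a).2 ⟨h1, h2⟩)
  have hBR : ∀ β ∈ Qb, β * z = z * β → β ∈ R := by
    intro β h1 h2
    rw [hR]
    exact Subgroup.mem_sup_left ((hmemB β).2 ⟨h1, h2⟩)
  have hRsq : ∀ x ∈ R, x * x ∈ E := by
    intro x hx
    obtain ⟨a, β, h1, h2, h3, h4, rfl⟩ := hRD hx
    have hβb : β * b = b * β := hXb.zc β h3
    have he : β * a * β⁻¹ * a⁻¹ ∈ E := by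
      refine (hmemE _).2 ⟨?_, ?_⟩
      · exact Q.mul_mem (hXa.nor β h4 a h1) (Q.inv_mem h1)
      · have h5 : β * a * β⁻¹ * a⁻¹ = β * (a * β⁻¹ * a⁻¹) := by group
        rw [h5]
        exact Qb.mul_mem h3 (hXb.nor a h2 _ (Qb.inv_mem h3))
    have h6 : a * β * (a * β) = (a * (β * a * β⁻¹ * a⁻¹) * a⁻¹) * (a * a) * (β * β) := by group
    rw [h6]
    refine E.mul_mem (E.mul_mem (hnE a (hzc a h1) h2 _ he) ?_) ?_
    · rcases hXa.sq a h1 with h | h <;> rw [h]
      · exact E.one_mem
      · exact hzE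
    · rcases hXb.sq β h3 with h | h <;> rw [h]
      · exact E.one_mem
      · exact hbE
  have hRcomm : ∀ x ∈ R, ∀ y ∈ R, x * y * x⁻¹ * y⁻¹ ∈ E := by
    intro x hx y hy
    have h1 : x * y * x⁻¹ * y⁻¹ = ((x * y) * (x * y)) * (y⁻¹ * (x * x)⁻¹ * y) * (y * y)⁻¹ := by group
    rw [h1]
    refine E.mul_mem (E.mul_mem (hRsq _ (R.mul_mem hx hy)) ?_) (E.inv_mem (hRsq y hy))
    have h2 := hnE y⁻¹ (hRC _ (R.inv_mem hy)).1 (hRC _ (R.inv_mem hy)).2 _ (E.inv_mem (hRsq x hx))
    rwa [inv_inv] at h2
  have hEab : ∀ e ∈ E, ∀ e' ∈ E, e * e' = e' * e := by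
    intro e he e' he'
    obtain ⟨h1, h2⟩ := (hmemE e).1 he
    obtain ⟨h3, h4⟩ := (hmemE e').1 he'
    rcases hXa.comm e h1 e' h3 with h | h
    · exact h
    · rcases hXb.comm e h2 e' h4 with h' | h'
      · exact h'
      · exfalso
        apply hbz
        exact mul_right_cancel (h.symm.trans h')
  have hEsq : ∀ e ∈ E, e * e = 1 := by
    intro e he
    obtain ⟨h1, h2⟩ := (hmemE e).1 he
    rcases hXa.sq e h1 with h | h
    · exact h
    · rcases hXb.sq e h2 with h' | h'
      · exact h'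
      · exact absurd (h.symm.trans h') hbz
  have hVmem : ∀ v ∈ V, v ∈ Q ∧ v ∈ Qb := by
    have h1 : V ≤ Q ⊓ Qb := by
      rw [hV]
      refine (Subgroup.closure_le _).2 ?_
      rintro x (rfl | rfl)
      · exact ⟨hzQ, hzb⟩
      · exact ⟨hbQ, hXb.zQ⟩
    intro v hv
    exact h1 hv
  have hzV : z ∈ V := by
    rw [hV]
    exact Subgroup.subset_closure (Or.inl rfl)
  have hbV : b ∈ V := by
    rw [hV]
    exact Subgroup.subset_closure (Or.inr rfl)
  -- the action on `E`
  have hXE : ∀ x ∈ X, ∀ e ∈ E, x * e * x⁻¹ * e⁻¹ ∈ V := by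
    let M : Submonoid G :=
      { carrier := {g | (∀ v ∈ V, g * v * g⁻¹ ∈ V) ∧ ∀ x ∈ E, g * x * g⁻¹ * x⁻¹ ∈ V}
        one_mem' := by
          constructor
          · intro v hv
            simpa using hv
          · intro x hx
            simp
        mul_mem' := by
          rintro g₁ g₂ ⟨h1, h2⟩ ⟨h3, h4⟩
          constructor
          · intro v hv
            have : g₁ * g₂ * v * (g₁ * g₂)⁻¹ = g₁ * (g₂ * v * g₂⁻¹) * g₁⁻¹ := by group
            rw [this]
            exact h1 _ (h3 v hv)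
          · intro x hx
            have : g₁ * g₂ * x * (g₁ * g₂)⁻¹ * x⁻¹ = g₁ * (g₂ * x * g₂⁻¹ * x⁻¹) * g₁⁻¹ * (g₁ * x * g₁⁻¹ * x⁻¹) := by group
            rw [this]
            exact V.mul_mem (h1 _ (h4 x hx)) (h2 x hx) }
    let L : Subgroup G :=
      { M with
        inv_mem' := by
          intro g hg
          have h1 : g⁻¹ = g ^ (orderOf g - 1) := by
            apply inv_eq_of_mul_eq_one_right
            rw [← pow_succ', Nat.sub_add_cancel (orderOf_pos g), pow_orderOf_eq_one]
          rw [h1]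
          exact M.pow_mem hg _ }
    have hle : X ≤ L := by
      rw [hX]
      refine sup_le ?_ ?_
      · intro q hq
        refine ⟨?_, ?_⟩
        · intro v hv
          rcases conj_cases hXa hq (hVmem v hv).1 with h1 | h1
          · rwa [h1]
          · rw [h1]
            exact V.mul_mem hzV hv
        · intro e he
          rcases conj_cases hXa hq ((hmemE e).1 he).1 with h1 | h1
          · rw [h1, mul_inv_cancel]
            exact V.one_mem
          · rw [h1, mul_inv_cancel_right]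
            exact hzV
      · intro q hq
        refine ⟨?_, ?_⟩
        · intro v hv
          rcases conj_cases hXb hq (hVmem v hv).2 with h1 | h1
          · rwa [h1]
          · rw [h1]
            exact V.mul_mem hbV hv
        · intro e he
          rcases conj_cases hXb hq ((hmemE e).1 he).2 with h1 | h1
          · rw [h1, mul_inv_cancel]
            exact V.one_mem
          · rw [h1, mul_inv_cancel_right]
            exact hbV
    intro x hx e he
    exact (hle hx).2 e he
  have hRX : R ≤ X := by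
    rw [hR, hX]
    refine sup_le ?_ ?_
    · exact inf_le_left.trans le_sup_right
    · exact inf_le_left.trans le_sup_left
  -- the centre of `R`
  have hVR : V ≤ R := by
    rw [hV]
    refine (Subgroup.closure_le _).2 ?_
    rintro x (rfl | rfl)
    · exact hBR _ hzb rfl
    · exact hAR _ hbQ rfl
  have hVcen : ∀ v ∈ V, ∀ y ∈ R, y * v = v * y := by
    intro v hv y hy
    rw [hV] at hv
    refine comm_closure y _ ?_ v hv
    rintro a (rfl | rfl)
    · exact (hRC y hy).1
    · exact (hRC y hy).2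
  have hZR : (Subgroup.center ↥R).map R.subtype = V := by
    ext x
    constructor
    · rintro ⟨⟨x', hxR⟩, hc, rfl⟩
      have hcx : ∀ y ∈ R, y * x' = x' * y := by
        intro y hy
        have := (Subgroup.mem_center_iff.1 hc) ⟨y, hy⟩
        exact congrArg Subtype.val this
      show x' ∈ V
      have hxQ : x' ∈ Q := by
        obtain ⟨a, β, h1, h2, h3, h4, e⟩ := hRD hxR
        have hβb : β * b = b * β := hXb.zc β h3
        have hβQ : β ∈ Q := by
          refine tr_lemma hXa hbQ hbb hCa h4 hβb ?_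
          intro a' ha' hab'
          have h5 := hcx a' (hAR a' ha' hab')
          rw [e] at h5
          have h6 : β * a' * β⁻¹ = a⁻¹ * a' * a := by
            have h7 : β * a' = a⁻¹ * a' * a * β := by
              calc β * a' = a⁻¹ * (a * β * a') := by group
                _ = a⁻¹ * (a' * (a * β)) := by rw [h5]
                _ = a⁻¹ * a' * a * β := by group
            rw [h7]
            group
          rw [h6]
          have h8 := conj_cases hXa (Q.inv_mem h1) ha'
          rwa [inv_inv] at h8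
        rw [e]
        exact Q.mul_mem h1 hβQ
      have hxQb : x' ∈ Qb := by
        obtain ⟨a, β, h1, h2, h3, h4, e⟩ := hRD (R.inv_mem hxR)
        have e' : x' = β⁻¹ * a⁻¹ := by
          have h5 : x' = (x'⁻¹)⁻¹ := by group
          rw [h5, e]
          group
        have hβ' : Commute β z := h4
        have hab' : Commute a b := h2
        have haz : a * z = z * a := hzc a h1
        have haz' : Commute a z := haz
        have haiQ : a⁻¹ ∈ Qb := by
          refine tr_lemma hXb hzb hzz hCb hab'.inv_left haz'.inv_left ?_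
          intro β' hβ'Q hβ'z
          have h5 := hcx β' (hBR β' hβ'Q hβ'z)
          rw [e'] at h5
          have h6 : a⁻¹ * β' * a⁻¹⁻¹ = β * β' * β⁻¹ := by
            have h7 : a⁻¹ * β' = β * β' * β⁻¹ * a⁻¹ := by
              calc a⁻¹ * β' = β * (β⁻¹ * a⁻¹ * β') := by group
                _ = β * (β' * (β⁻¹ * a⁻¹)) := by rw [h5]
                _ = β * β' * β⁻¹ * a⁻¹ := by group
            rw [h7]
            group
          rw [h6]
          exact conj_cases hXb h3 hβ'Q
        rw [e']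
        exact Qb.mul_mem (Qb.inv_mem h3) haiQ
      have hfin := za hXa hbQ hbb hxQ (fun a ha hab' => (hcx a (hAR a ha hab')).symm)
      rcases hfin with h | h | h | h
      · rw [h]
        exact V.one_mem
      · rw [h]
        exact hzV
      · rw [h]
        exact hbV
      · rw [h]
        exact V.mul_mem hzV hbV
    · intro hx
      exact ⟨⟨x, hVR hx⟩, Subgroup.mem_center_iff.2 (fun y => Subtype.ext (hVcen x hx y y.2)), rfl⟩
  have hER : ∀ e ∈ E, e ∈ R := by
    intro e he
    obtain ⟨h1, h2⟩ := (hmemE e).1 he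
    exact hAR e h1 (hXb.zc e h2)
  have hE2 : ∀ e (he : e ∈ R), e ∈ E → (⟨e, he⟩ : ↥R) ∈ Subgroup.upperCentralSeries ↥R 2 := by
    intro e he heE
    rw [Subgroup.mem_upperCentralSeries_succ_iff]
    intro y
    rw [Subgroup.upperCentralSeries_one, Subgroup.mem_center_iff]
    intro y'
    apply Subtype.ext
    have h1 : e * (y : G) * e⁻¹ * (y : G)⁻¹ ∈ V := by
      have h2 := hXE y (hRX y.2) e heE
      have h3 : e * (y : G) * e⁻¹ * (y : G)⁻¹ = ((y : G) * e * (y : G)⁻¹ * e⁻¹)⁻¹ := by group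
      rw [h3]
      exact V.inv_mem h2
    exact hVcen _ h1 y' y'.2
  refine ⟨hZR, ?_, ?_, ?_, ?_, ?_, ?_⟩
  · intro e he
    exact ⟨⟨e, hER e he⟩, hE2 e (hER e he) he, rfl⟩
  · rw [Subgroup.eq_top_iff']
    intro x
    rw [Subgroup.mem_upperCentralSeries_succ_iff]
    intro y
    exact hE2 _ _ (hRcomm x x.2 y y.2)
  · refine ⟨⟨⟨fun a c => Subtype.ext (hEab a a.2 c c.2)⟩⟩, ?_⟩
    intro a ha
    rw [pow_two]
    exact hEsq a ha
  · intro x hx y hy
    refine ⟨hRcomm x hx y hy, ?_⟩
    rw [pow_two]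
    exact hRsq x hx
  · ext x
    rw [Subgroup.mem_inf, hmemA, hmemB, hmemE]
    constructor
    · rintro ⟨⟨h1, -⟩, h3, -⟩
      exact ⟨h3, h1⟩
    · rintro ⟨h1, h2⟩
      exact ⟨⟨h2, hzc x h1⟩, h1, hXb.zc x h2⟩
  · rw [Subgroup.commutator_le]
    intro x hx e he
    exact hXE x hx e he


end Cfsg.Agent.S5431
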