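import Cfsg.Statements.S5562
import Mathlib
import Cfsg.Agent.Lib.Dih

set_option autoImplicit false
open Cfsg

namespace Cfsg.Agent.S5562

open Cfsg.Agent.Lib.Dih

/-- Let G be a finite group, d an involution of G whose conjugates pairwise have products of odd order, and x any involution of G. Then the conjugacy class of d is the disjoint union, over the conjugates a of d commuting with x, of the sets of conjugates of d commuting with ax: every conjugate of d commutes with ax for exactly one conjugate a of d that commutes with x. -/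
theorem result {G : Type*} [Group G] [Finite G] (d : G) (hd : orderOf d = 2)
    (hodd : ∀ a ∈ conjugatesOf d, ∀ b ∈ conjugatesOf d, Odd (orderOf (a * b)))
    (x : G) (hx : orderOf x = 2) :
    ∀ e ∈ conjugatesOf d,
      ∃! a : G, a ∈ conjugatesOf d ∧ Commute a x ∧ Commute e (a * x) := by
  intro e he
  have hd2 : d * d = 1 := sq_of_order hd
  have hx2 : x * x = 1 := sq_of_order hx
  have hsq : ∀ a ∈ conjugatesOf d, a * a = 1 := by
    intro a ha
    obtain ⟨c, rfl⟩ := isConj_iff.1 ha
    calc c * d * c⁻¹ * (c * d * c⁻¹) = c * (d * d) * c⁻¹ := by group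
      _ = 1 := by rw [hd2]; group
  have hconjD : ∀ g : G, ∀ a ∈ conjugatesOf d, g * a * g⁻¹ ∈ conjugatesOf d := by
    intro g a ha
    exact IsConj.trans ha (isConj_iff.2 ⟨g, rfl⟩)
  have he2 := hsq e he
  have huniq : ∀ a b, a ∈ conjugatesOf d → Commute a x → Commute e (a * x) →
      b ∈ conjugatesOf d → Commute b x → Commute e (b * x) → a = b := by
    intro a b ha hax heax hb hbx hebx
    have ha2 := hsq a ha
    have hb2 := hsq b hb
    set w := a * b with hw
    -- `e` commutes with `w`
    have h1 : (a * x) * (b * x) = w := by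
      calc (a * x) * (b * x) = a * (x * b) * x := by simp only [mul_assoc]
        _ = a * (b * x) * x := by rw [hbx.eq]
        _ = a * b * (x * x) := by simp only [mul_assoc]
        _ = w := by rw [hx2, mul_one]
    have hew : Commute e w := by
      rw [← h1]
      exact heax.mul_right hebx
    have hinv : a * w * a = w⁻¹ := by
      rw [hw, mul_inv_rev, inv_of_sq ha2, inv_of_sq hb2, ← mul_assoc, ha2, one_mul]
    set v := e * a with hv
    have hvw : v * w * v⁻¹ = w⁻¹ := by
      rw [hv, mul_inv_rev, inv_of_sq ha2, inv_of_sq he2]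
      calc e * a * w * (a * e) = e * (a * w * a) * e := by simp only [mul_assoc]
        _ = e * w⁻¹ * e := by rw [hinv]
        _ = w⁻¹ * (e * e) := by
          rw [(hew.inv_right).eq, mul_assoc]
        _ = w⁻¹ := by rw [he2, mul_one]
    have hv2 : Commute (v * v) w := by
      show v * v * w = w * (v * v)
      have h2 : v * w = w⁻¹ * v := mul_inv_eq_iff_eq_mul.1 hvw
      have h3 : v * w⁻¹ = w * v := by
        have h4 : v * w⁻¹ * v⁻¹ = w := by
          have := congrArg (fun u => u⁻¹) hvw
          simpa [mul_assoc] using this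
        exact mul_inv_eq_iff_eq_mul.1 h4
      calc v * v * w = v * (v * w) := mul_assoc v v w
        _ = v * (w⁻¹ * v) := by rw [h2]
        _ = (v * w⁻¹) * v := (mul_assoc v w⁻¹ v).symm
        _ = w * v * v := by rw [h3]
        _ = w * (v * v) := mul_assoc w v v
    obtain ⟨r, hr⟩ := hodd e he a ha
    have hvr : v ^ (2 * r + 1) = 1 := by rw [← hr, pow_orderOf_eq_one]
    have hvv : v = (v * v) ^ (r + 1) := by
      rw [← pow_two, ← pow_mul, show 2 * (r + 1) = (2 * r + 1) + 1 by ring, pow_succ, hvr, one_mul]
    have hvc : Commute v w := by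
      rw [hvv]
      exact hv2.pow_left _
    have hww : w = w⁻¹ := by
      rw [← hvw, hvc.eq]
      simp
    have hw2 : w ^ 2 = 1 := by
      rw [pow_two]
      nth_rewrite 1 [hww]
      simp
    obtain ⟨s, hs⟩ := hodd a ha b hb
    have hws : w ^ (2 * s + 1) = 1 := by rw [← hs, pow_orderOf_eq_one]
    have hco : Nat.Coprime 2 (2 * s + 1) := by
      rw [Nat.coprime_two_left]
      exact ⟨s, rfl⟩
    have hw1 : w = 1 := by
      have := pow_gcd_eq_one.2 ⟨hw2, hws⟩
      rwa [hco.gcd_eq_one, pow_one] at this
    have := eq_inv_of_mul_eq_one_left hw1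
    rwa [inv_of_sq hb2] at this
  -- existence
  have hexists : ∃ a, a ∈ conjugatesOf d ∧ Commute a x ∧ Commute e (a * x) := by
    by_cases ho : Odd (orderOf (e * x))
    · obtain ⟨g, hg⟩ := exists_conj_of_odd he2 hx2 ho
      have hxD : x ∈ conjugatesOf d := by
        rw [← hg]
        exact hconjD g e he
      refine ⟨x, hxD, Commute.refl x, ?_⟩
      rw [hx2]
      exact Commute.one_right e
    · obtain ⟨m, hm⟩ := Nat.not_odd_iff_even.1 ho
      have hpos : 0 < orderOf (e * x) := orderOf_pos _
      have hm0 : 0 < m := by omega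
      set t := (e * x) ^ m with ht
      have ht2 : t * t = 1 := by
        rw [ht, ← pow_add, ← hm, pow_orderOf_eq_one]
      have ht1 : t ≠ 1 := by
        intro h1
        have := orderOf_le_of_pow_eq_one hm0 h1
        omega
      have het : e * t * e = t := by
        rw [ht, dinv he2 hx2, ← ht, inv_of_sq ht2]
      have hxt : x * t * x = t := by
        rw [ht, dinv' he2 hx2, ← ht, inv_of_sq ht2]
      have hcet : e * t = t * e := by
        calc e * t = e * t * e * e := by rw [mul_assoc _ e e, he2, mul_one]
          _ = t * e := by rw [het]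
      have hcxt : x * t = t * x := by
        calc x * t = x * t * x * x := by rw [mul_assoc _ x x, hx2, mul_one]
          _ = t * x := by rw [hxt]
      rcases Nat.even_or_odd m with hme | hmo
      · exfalso
        obtain ⟨l, hl⟩ := hme
        have hl2 : m = 2 * l := by omega
        have h1 : e * t ∈ conjugatesOf d := by
          rw [ht, hl2, ← conj_even he2 hx2]
          have := hconjD ((e * x) ^ l)⁻¹ e he
          rwa [inv_inv] at this
        have h2 := hodd e he _ h1
        have h3 : e * (e * t) = t := by rw [← mul_assoc, he2, one_mul]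
        rw [h3] at h2
        have h4 : orderOf t = 2 := by
          apply orderOf_eq_prime
          · rw [pow_two]; exact ht2
          · exact ht1
        rw [h4] at h2
        exact absurd h2 (by decide)
      · obtain ⟨l, hl⟩ := hmo
        refine ⟨x * t, ?_, ?_, ?_⟩
        · have h1 : x * t = e * (e * x) ^ (2 * (l + 1)) := by
            rw [show 2 * (l + 1) = 1 + m by omega, pow_add, pow_one, ← ht, ← mul_assoc, ← mul_assoc, he2, one_mul]
          rw [h1, ← conj_even he2 hx2]
          have := hconjD ((e * x) ^ (l + 1))⁻¹ e he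
          rwa [inv_inv] at this
        · show x * t * x = x * (x * t)
          rw [hxt, ← mul_assoc, hx2, one_mul]
        · have h1 : x * t * x = t := hxt
          rw [h1]
          exact hcet
  obtain ⟨a, ha, hax, heax⟩ := hexists
  exact ⟨a, ⟨ha, hax, heax⟩, fun b ⟨hb, hbx, hebx⟩ => huniq b a hb hbx hebx ha hax heax⟩


end Cfsg.Agent.S5562
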