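import Cfsg.Statements.S5595
import Mathlib
import Cfsg.Agent.Lib.FusStable
import Cfsg.Agent.Lib.PGrp2
import Cfsg.Agent.Lib.H1Core

set_option autoImplicit false
open Cfsg

namespace Cfsg.Agent.S5595


/-- element-level shape of an extraspecial 2-subgroup with centre generated by `z`, normal in the centralizer of `z` -/
structure XS {G : Type*} [Group G] (Q : Subgroup G) (z : G) : Prop where
  z2 : z * z = 1
  z1 : z ≠ 1
  zQ : z ∈ Q
  zc : ∀ x ∈ Q, x * z = z * x
  comm : ∀ x ∈ Q, ∀ y ∈ Q, x * y = y * x ∨ x * y = z * (y * x)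
  sq : ∀ x ∈ Q, x * x = 1 ∨ x * x = z
  cen : ∀ x ∈ Q, (∀ y ∈ Q, x * y = y * x) → x = 1 ∨ x = z
  nor : ∀ c, c * z = z * c → ∀ x ∈ Q, c * x * c⁻¹ ∈ Q

theorem xs_of {G : Type*} [Group G] [Finite G] (Q : Subgroup G) (z : G) (hE : IsExtraspecial 2 ↥Q)
    (hz2 : z * z = 1) (hz1 : z ≠ 1) (hzQ : z ∈ Q) (hzc : ∀ x ∈ Q, x * z = z * x)
    (hnor : ∀ c, c * z = z * c → ∀ x ∈ Q, c * x * c⁻¹ ∈ Q) : XS Q z := by
  classical
  haveI : Fact (Nat.Prime 2) := ⟨Nat.prime_two⟩
  have hQ2 : IsPGroup 2 Q := hE.1.1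
  have hz0 : (⟨⟨z, hzQ⟩, by
      rw [Subgroup.mem_center_iff]
      intro y
      exact Subtype.ext (hzc y y.2)⟩ : Subgroup.center Q) ≠ 1 := by
    intro h
    exact hz1 (congrArg (fun u : Subgroup.center Q => ((u : Q) : G)) h)
  obtain ⟨z₀, hz₀, huniq⟩ := (Nat.card_eq_two_iff' (1 : Subgroup.center Q)).1 hE.2
  have hzeq := huniq _ hz0
  have hcen : ∀ x : Q, x ∈ Subgroup.center Q → (x : G) = 1 ∨ (x : G) = z := by
    intro x hx
    by_cases hu : (⟨x, hx⟩ : Subgroup.center Q) = 1
    · left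
      exact congrArg (fun u : Subgroup.center Q => ((u : Q) : G)) hu
    · right
      have h1 := huniq _ hu
      rw [← hzeq] at h1
      exact congrArg (fun u : Subgroup.center Q => ((u : Q) : G)) h1
  refine ⟨hz2, hz1, hzQ, hzc, ?_, ?_, ?_, hnor⟩
  · intro x hx y hy
    have h1 : (⟨x, hx⟩ : Q) * (⟨y, hy⟩ : Q) * (⟨x, hx⟩ : Q)⁻¹ * (⟨y, hy⟩ : Q)⁻¹ ∈ commutator Q :=
      Subgroup.commutator_mem_commutator (Subgroup.mem_top _) (Subgroup.mem_top _)
    rw [hE.1.2.2] at h1
    have h2 : x * y * x⁻¹ * y⁻¹ = 1 ∨ x * y * x⁻¹ * y⁻¹ = z := hcen _ h1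
    rcases h2 with h | h
    · left
      calc x * y = (x * y * x⁻¹ * y⁻¹) * (y * x) := by group
        _ = y * x := by rw [h, one_mul]
    · right
      calc x * y = (x * y * x⁻¹ * y⁻¹) * (y * x) := by group
        _ = z * (y * x) := by rw [h]
  · intro x hx
    have h1 := Cfsg.Agent.Lib.PGrp.pow_mem_frattini hQ2 (⟨x, hx⟩ : Q)
    rw [hE.1.2.1] at h1
    have h2 : x ^ 2 = 1 ∨ x ^ 2 = z := hcen _ h1
    rwa [pow_two] at h2
  · intro x hx h
    apply hcen ⟨x, hx⟩
    rw [Subgroup.mem_center_iff]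
    intro y
    exact Subtype.ext (h y y.2).symm

theorem core {G : Type*} [Group G] [Finite G] (Qa Qb : Subgroup G) (a b : G) (ha : XS Qa a) (hb : XS Qb b)
    (hne : a ≠ b) (hbQ : b ∈ Qa)
    (hC : ∀ c, (∀ x ∈ Qb, c * x = x * c) → c ∈ Qb)
    (hconj : ∀ g, g * a * g⁻¹ = b → ∀ x ∈ Qa, g * x * g⁻¹ ∈ Qb)
    (hcard : Nat.card Qa = Nat.card Qb) : a ∈ Qb := by
  classical
  by_contra hna
  have ainv : a⁻¹ = a := inv_eq_of_mul_eq_one_left ha.z2
  have binv : b⁻¹ = b := inv_eq_of_mul_eq_one_left hb.z2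
  have aa : ∀ x, a * (a * x) = x := fun x => by rw [← mul_assoc, ha.z2, one_mul]
  have bb : ∀ x, b * (b * x) = x := fun x => by rw [← mul_assoc, hb.z2, one_mul]
  have hab : a * b = b * a := (ha.zc b hbQ).symm
  obtain ⟨q, hq, hqb⟩ : ∃ q ∈ Qa, b * q = a * (q * b) := by
    by_contra hcon
    push_neg at hcon
    have h1 : ∀ y ∈ Qa, b * y = y * b := fun y hy =>
      (ha.comm b hbQ y hy).resolve_right (hcon y hy)
    rcases ha.cen b hbQ h1 with h | h
    · exact hb.z1 h
    · exact hne h.symm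
  have hqb' : q * b = a * b * q := by
    rw [mul_assoc, hqb, aa]
  have hqa : q * a = a * q := ha.zc q hq
  have hnA : ∀ x ∈ Qb, a * x * a ∈ Qb := by
    intro x hx
    have := hb.nor a hab x hx
    rwa [ainv] at this
  have hnB : ∀ p, p * b = b * p → ∀ x ∈ Qb, p * x * p⁻¹ ∈ Qb := hb.nor
  have hS2 : ∀ w ∈ Qb, w * a ≠ a * b * w := by
    intro w hw h
    have hwb : w * b = b * w := hb.zc w hw
    have e1 : (q * w) * a * (q * w)⁻¹ = b := by
      calc (q * w) * a * (q * w)⁻¹ = q * (w * a) * w⁻¹ * q⁻¹ := by group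
        _ = q * (a * b * w) * w⁻¹ * q⁻¹ := by rw [h]
        _ = (q * a) * b * q⁻¹ := by group
        _ = a * (q * b) * q⁻¹ := by rw [hqa]; group
        _ = a * (a * b * q) * q⁻¹ := by rw [hqb']
        _ = (a * a) * b := by group
        _ = b := by rw [ha.z2, one_mul]
    have e2 : (q * w) * b * (q * w)⁻¹ = a * b := by
      calc (q * w) * b * (q * w)⁻¹ = q * (w * b) * w⁻¹ * q⁻¹ := by group
        _ = q * (b * w) * w⁻¹ * q⁻¹ := by rw [hwb]
        _ = (q * b) * q⁻¹ := by group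
        _ = a * b * q * q⁻¹ := by rw [hqb']
        _ = a * b := by group
    have h4 := hconj (q * w) e1 b hbQ
    rw [e2] at h4
    apply hna
    have h5 : a = a * b * b⁻¹ := by group
    rw [h5]
    exact Qb.mul_mem h4 (Qb.inv_mem hb.zQ)
  have hS3 : ∀ w ∈ Qb, (w * a * w⁻¹ * a) * a = a * (w * a * w⁻¹ * a) ∧
      (w * a * w⁻¹ * a) * (w * a * w⁻¹ * a) = 1 := by
    intro w hw
    obtain ⟨u, hu⟩ : ∃ u, u = w * a * w⁻¹ * a := ⟨_, rfl⟩
    rw [← hu]
    have huQ : u ∈ Qb := by
      have : u = w * (a * w⁻¹ * a) := by rw [hu]; group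
      rw [this]
      exact Qb.mul_mem hw (hnA _ (Qb.inv_mem hw))
    have hrel : u * a * u = a := by
      rw [hu]
      simp only [mul_assoc, aa, mul_inv_cancel_left, inv_mul_cancel_left]
    rcases hb.sq u huQ with h | h
    · refine ⟨?_, h⟩
      calc u * a = u * a * (u * u) := by rw [h, mul_one]
        _ = (u * a * u) * u := by group
        _ = a * u := by rw [hrel]
    · exfalso
      apply hS2 u huQ
      calc u * a = u * a * (b * b) := by rw [hb.z2, mul_one]
        _ = u * a * ((u * u) * (u * u)) := by rw [h]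
        _ = (u * a * u) * (u * u) * u := by group
        _ = a * b * u := by rw [hrel, h]
  have hcommOf : ∀ w ∈ Qb, (w * a * w⁻¹ * a = 1 ∨ w * a * w⁻¹ * a = b) → w * a = a * w := by
    intro w hw h
    have h0 : w * a = (w * a * w⁻¹ * a) * (a * w) := by
      simp only [mul_assoc, aa, inv_mul_cancel, mul_one]
    rcases h with h | h
    · rw [h, one_mul] at h0
      exact h0
    · exfalso
      apply hS2 w hw
      rw [h] at h0
      rw [h0, ← mul_assoc, hab]
  have hyP : ∀ y ∈ Qa, y * b = b * y ∨ b * y = a * (y * b) := by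
    intro y hy
    rcases ha.comm b hbQ y hy with h | h
    · exact Or.inl h.symm
    · exact Or.inr h
  have hprod : ∀ y ∈ Qa, ∀ y' ∈ Qa, ¬ y * b = b * y → ¬ y' * b = b * y' →
      (y * y') * b = b * (y * y') := by
    intro y hy y' hy' h1 h2
    have e1 := (hyP y hy).resolve_left h1
    have e2 := (hyP y' hy').resolve_left h2
    calc (y * y') * b = y * (y' * b) := by group
      _ = y * (a * (b * y')) := by rw [e2, aa]
      _ = (y * a) * (b * y') := by group
      _ = a * (y * b) * y' := by rw [ha.zc y hy]; group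
      _ = (b * y) * y' := by rw [e1]
      _ = b * (y * y') := by group
  have hEP : ∀ e ∈ Qa, e ∈ Qb → ∀ p ∈ Qa, p * b = b * p → e * p = p * e := by
    intro e he he' p hp hpb
    rcases ha.comm e he p hp with h | h
    · exact h
    · exfalso
      apply hna
      have h2 : a = e * (p * e⁻¹ * p⁻¹) := by
        have : e * (p * e⁻¹ * p⁻¹) = (e * p) * (p * e)⁻¹ := by group
        rw [this, h]
        group
      rw [h2]
      exact Qb.mul_mem he' (hnB p hpb _ (Qb.inv_mem he'))
  have hE : ∀ e ∈ Qa, e ∈ Qb → e = 1 ∨ e = b := by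
    intro e he he'
    by_cases hall : ∀ y ∈ Qa, e * y = y * e
    · rcases ha.cen e he hall with h | h
      · exact Or.inl h
      · exact absurd (h ▸ he') hna
    · have hout : ∀ y ∈ Qa, ¬ y * b = b * y → e * y = a * (y * e) := by
        intro y hy hyb
        rcases ha.comm e he y hy with h | h
        · exfalso
          apply hall
          intro y' hy'
          by_cases hy'b : y' * b = b * y'
          · exact hEP e he he' y' hy' hy'b
          · have h3 := hEP e he he' (y * y') (Qa.mul_mem hy hy') (hprod y hy y' hy' hyb hy'b)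
            have h4 : y * (e * y') = y * (y' * e) := by
              calc y * (e * y') = (y * e) * y' := by group
                _ = (e * y) * y' := by rw [h]
                _ = e * (y * y') := by group
                _ = (y * y') * e := h3
                _ = y * (y' * e) := by group
            exact mul_left_cancel h4
        · exact h
      have hcen : ∀ y ∈ Qa, (e * b) * y = y * (e * b) := by
        intro y hy
        by_cases hyb : y * b = b * y
        · calc (e * b) * y = e * (b * y) := by group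
            _ = e * (y * b) := by rw [hyb]
            _ = (e * y) * b := by group
            _ = (y * e) * b := by rw [hEP e he he' y hy hyb]
            _ = y * (e * b) := by group
        · have e1 := (hyP y hy).resolve_left hyb
          calc (e * b) * y = e * (b * y) := by group
            _ = e * (a * (y * b)) := by rw [e1]
            _ = (e * a) * (y * b) := by group
            _ = a * (e * (y * b)) := by rw [ha.zc e he]; group
            _ = a * ((e * y) * b) := by group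
            _ = a * ((a * (y * e)) * b) := by rw [hout y hy hyb]
            _ = a * (a * (y * e * b)) := by group
            _ = y * (e * b) := by rw [aa]; group
      rcases ha.cen (e * b) (Qa.mul_mem he hbQ) hcen with h | h
      · right
        exact (eq_inv_of_mul_eq_one_left h).trans binv
      · exfalso
        apply hna
        rw [← h]
        exact Qb.mul_mem he' hb.zQ
  have hFP : ∀ f ∈ Qb, f * a = a * f → ∀ p ∈ Qa, p * b = b * p →
      p * f * p⁻¹ * f⁻¹ = 1 ∨ p * f * p⁻¹ * f⁻¹ = b := by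
    intro f hf hfa p hp hpb
    apply hE
    · have : p * f * p⁻¹ * f⁻¹ = p * (f * p⁻¹ * f⁻¹) := by group
      rw [this]
      exact Qa.mul_mem hp (ha.nor f hfa _ (Qa.inv_mem hp))
    · exact Qb.mul_mem (hnB p hpb f hf) (Qb.inv_mem hf)
  have hS6 : ∀ w ∈ Qb, ∀ p ∈ Qa, p * b = b * p →
      (w * p * w⁻¹ * p⁻¹) * a = a * (w * p * w⁻¹ * p⁻¹) := by
    intro w hw p hp hpb
    obtain ⟨u, hu⟩ : ∃ u, u = w⁻¹ * a * w * a := ⟨_, rfl⟩
    have hu' := hS3 w⁻¹ (Qb.inv_mem hw)
    rw [inv_inv, ← hu] at hu'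
    have huQ : u ∈ Qb := by
      have : u = w⁻¹ * (a * w * a) := by rw [hu]; group
      rw [this]
      exact Qb.mul_mem (Qb.inv_mem hw) (hnA _ hw)
    have hpa : p * a = a * p := ha.zc p hp
    have hc : w * p * w⁻¹ * p⁻¹ ∈ Qb := by
      have : w * p * w⁻¹ * p⁻¹ = w * (p * w⁻¹ * p⁻¹) := by group
      rw [this]
      exact Qb.mul_mem hw (hnB p hpb _ (Qb.inv_mem hw))
    apply hcommOf _ hc
    have h5 : p⁻¹ * a * p = a := by
      rw [mul_assoc, ← hpa]
      group
    have h6 : a * p⁻¹ * a⁻¹ = p⁻¹ := by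
      have : a * p⁻¹ = p⁻¹ * a := by
        rw [eq_inv_mul_iff_mul_eq, ← mul_assoc, hpa]
        group
      rw [this]
      group
    have hid : (w * p * w⁻¹ * p⁻¹) * a * (w * p * w⁻¹ * p⁻¹)⁻¹ * a = w * (p * u * p⁻¹ * u⁻¹) * w⁻¹ := by
      calc (w * p * w⁻¹ * p⁻¹) * a * (w * p * w⁻¹ * p⁻¹)⁻¹ * a
          = w * p * w⁻¹ * (p⁻¹ * a * p) * w * p⁻¹ * w⁻¹ * a := by group
        _ = w * p * w⁻¹ * a * w * p⁻¹ * w⁻¹ * a := by rw [h5]
        _ = w * p * w⁻¹ * a * w * (a * p⁻¹ * a⁻¹) * w⁻¹ * a⁻¹ := by rw [h6, ainv]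
        _ = w * (p * u * p⁻¹ * u⁻¹) * w⁻¹ := by rw [hu]; group
    rw [hid]
    rcases hFP u huQ hu'.1 p hp hpb with h | h
    · left
      rw [h]
      group
    · right
      rw [h, hb.zc w hw]
      group
  have hS7 : ∀ p₁ ∈ Qa, ∀ p₂ ∈ Qa, p₁ * b = b * p₁ → p₂ * b = b * p₂ → p₁ * p₂ = p₂ * p₁ := by
    intro p₁ hp₁ p₂ hp₂ h1b h2b
    rcases ha.comm p₁ hp₁ p₂ hp₂ with h | hcomm
    · exact h
    · exfalso
      apply hna
      apply hC
      intro X hX
      have hrb : (p₂ * p₁)⁻¹ * b = b * (p₂ * p₁)⁻¹ := by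
        have h3 : (p₂ * p₁) * b = b * (p₂ * p₁) := by
          rw [mul_assoc, h1b, ← mul_assoc, h2b, mul_assoc]
        have h4 : Commute (p₂ * p₁) b := h3
        exact h4.inv_left
      obtain ⟨w, hw⟩ : ∃ w, w = (p₂ * p₁)⁻¹ * X * (p₂ * p₁) := ⟨_, rfl⟩
      have hwQ : w ∈ Qb := by
        have := hnB _ hrb X hX
        rwa [inv_inv, ← hw] at this
      have hXw : X = p₂ * p₁ * w * p₁⁻¹ * p₂⁻¹ := by
        rw [hw]
        group
      obtain ⟨f₁, hf₁⟩ : ∃ f, f = p₁ * w * p₁⁻¹ * w⁻¹ := ⟨_, rfl⟩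
      obtain ⟨f₂, hf₂⟩ : ∃ f, f = p₂ * w * p₂⁻¹ * w⁻¹ := ⟨_, rfl⟩
      have hf₁Q : f₁ ∈ Qb := by
        rw [hf₁]
        exact Qb.mul_mem (hnB p₁ h1b w hwQ) (Qb.inv_mem hwQ)
      have hf₂Q : f₂ ∈ Qb := by
        rw [hf₂]
        exact Qb.mul_mem (hnB p₂ h2b w hwQ) (Qb.inv_mem hwQ)
      have hf₁a : f₁ * a = a * f₁ := by
        have h3 : Commute (w * p₁ * w⁻¹ * p₁⁻¹) a := hS6 w hwQ p₁ hp₁ h1b
        have h4 : f₁ = (w * p₁ * w⁻¹ * p₁⁻¹)⁻¹ := by rw [hf₁]; group
        rw [h4]
        exact h3.inv_left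
      have hf₂a : f₂ * a = a * f₂ := by
        have h3 : Commute (w * p₂ * w⁻¹ * p₂⁻¹) a := hS6 w hwQ p₂ hp₂ h2b
        have h4 : f₂ = (w * p₂ * w⁻¹ * p₂⁻¹)⁻¹ := by rw [hf₂]; group
        rw [h4]
        exact h3.inv_left
      have hE1 := hFP f₁ hf₁Q hf₁a p₂ hp₂ h2b
      have hE2 := hFP f₂ hf₂Q hf₂a p₁ hp₁ h1b
      have hD : f₁ * f₂ * f₁⁻¹ * f₂⁻¹ = 1 ∨ f₁ * f₂ * f₁⁻¹ * f₂⁻¹ = b := by
        rcases hb.comm f₁ hf₁Q f₂ hf₂Q with h | h
        · left
          rw [h]
          group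
        · right
          rw [h]
          group
      obtain ⟨Y, hY⟩ : ∃ Y, Y = p₁ * p₂ * w * p₂⁻¹ * p₁⁻¹ := ⟨_, rfl⟩
      have id1 : X * Y⁻¹ = (p₂ * f₁ * p₂⁻¹ * f₁⁻¹) * (f₁ * f₂ * f₁⁻¹ * f₂⁻¹) * (p₁ * f₂ * p₁⁻¹ * f₂⁻¹)⁻¹ := by
        rw [hXw, hY, hf₁, hf₂]
        group
      have id2 : Y = a * X * a := by
        calc Y = (p₁ * p₂) * w * (p₁ * p₂)⁻¹ := by rw [hY]; group
          _ = (a * (p₂ * p₁)) * w * (a * (p₂ * p₁))⁻¹ := by rw [hcomm]
          _ = a * (p₂ * p₁ * w * p₁⁻¹ * p₂⁻¹) * a⁻¹ := by group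
          _ = a * X * a := by rw [← hXw, ainv]
      have id3 : X * a * X⁻¹ * a = X * Y⁻¹ := by
        rw [id2, mul_inv_rev, mul_inv_rev, ainv]
        group
      have hfin : X * a * X⁻¹ * a = 1 ∨ X * a * X⁻¹ * a = b := by
        rw [id3, id1]
        rcases hE1 with h1 | h1 <;> rcases hD with h2 | h2 <;> rcases hE2 with h3 | h3 <;>
          rw [h1, h2, h3] <;> simp [binv, hb.z2]
      exact (hcommOf X hX hfin).symm
  -- the remaining case: the centralizer of `b` in `Qa` is abelian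
  have hqnot : ¬ q * b = b * q := by
    intro h
    have h2 : a * (q * b) = 1 * (q * b) := by rw [← hqb, ← h, one_mul]
    exact ha.z1 (mul_right_cancel h2)
  have hcenP : ∀ t ∈ Qa, t * b = b * t → t * q = q * t → t = 1 ∨ t = a := by
    intro t ht htb htq
    apply ha.cen t ht
    intro y hy
    by_cases hyb : y * b = b * y
    · exact hS7 t ht y hy htb hyb
    · have h3 := hS7 t ht (y * q) (Qa.mul_mem hy hq) htb (hprod y hy q hq hyb hqnot)
      have h4 : (t * y) * q = (y * t) * q := by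
        calc (t * y) * q = t * (y * q) := by group
          _ = (y * q) * t := h3
          _ = y * (q * t) := by group
          _ = y * (t * q) := by rw [htq]
          _ = (y * t) * q := by group
      exact mul_right_cancel h4
  have hPsub : ∀ x ∈ Qa, x * b = b * x → x = 1 ∨ x = a ∨ x = b ∨ x = a * b := by
    intro x hx hxb
    rcases ha.comm x hx q hq with h | h
    · rcases hcenP x hx hxb h with h1 | h1
      · exact Or.inl h1
      · exact Or.inr (Or.inl h1)
    · have h2 : (x * b) * q = q * (x * b) := by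
        calc (x * b) * q = x * (b * q) := by group
          _ = x * (a * (q * b)) := by rw [hqb]
          _ = (x * a) * (q * b) := by group
          _ = a * (x * (q * b)) := by rw [ha.zc x hx]; group
          _ = a * ((x * q) * b) := by group
          _ = a * ((a * (q * x)) * b) := by rw [h]
          _ = a * (a * (q * x * b)) := by group
          _ = q * (x * b) := by rw [aa]; group
      have h3 : (x * b) * b = b * (x * b) := by
        rw [mul_assoc, ← mul_assoc b x b, ← hxb, mul_assoc]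
      rcases hcenP (x * b) (Qa.mul_mem hx hbQ) h3 h2 with h1 | h1
      · right; right; left
        exact (eq_inv_of_mul_eq_one_left h1).trans binv
      · right; right; right
        rw [← h1, mul_assoc, hb.z2, mul_one]
  have hcardQ : Nat.card Qa ≤ 8 := by
    let S : Finset G := {1, a, b, a * b, q⁻¹, a * q⁻¹, b * q⁻¹, a * b * q⁻¹}
    have hS : S.card ≤ 8 := by
      refine (Finset.card_insert_le _ _).trans ?_
      refine Nat.succ_le_succ ((Finset.card_insert_le _ _).trans ?_)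
      refine Nat.succ_le_succ ((Finset.card_insert_le _ _).trans ?_)
      refine Nat.succ_le_succ ((Finset.card_insert_le _ _).trans ?_)
      refine Nat.succ_le_succ ((Finset.card_insert_le _ _).trans ?_)
      refine Nat.succ_le_succ ((Finset.card_insert_le _ _).trans ?_)
      refine Nat.succ_le_succ ((Finset.card_insert_le _ _).trans ?_)
      simp
    have hsub : (Qa : Set G) ⊆ (S : Set G) := by
      intro x hx
      have hx' : x ∈ Qa := hx
      by_cases hxb : x * b = b * x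
      · rcases hPsub x hx' hxb with h | h | h | h <;> simp [S, h]
      · have h2 := hprod x hx' q hq hxb hqnot
        have h3 : x = (x * q) * q⁻¹ := by group
        rcases hPsub (x * q) (Qa.mul_mem hx' hq) h2 with h | h | h | h <;> rw [h3, h] <;> simp [S]
    have h1 : Nat.card Qa = (Qa : Set G).ncard := Nat.card_coe_set_eq _
    rw [h1]
    refine (Set.ncard_le_ncard hsub (Finset.finite_toSet S)).trans ?_
    rw [Set.ncard_coe_finset]
    exact hS
  -- an element of `Qb` not commuting with `a`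
  obtain ⟨w, hw, hwa⟩ : ∃ w ∈ Qb, w * a ≠ a * w := by
    by_contra hcon
    push_neg at hcon
    exact hna (hC a fun x hx => (hcon x hx).symm)
  obtain ⟨u, hu⟩ : ∃ u, u = w * a * w⁻¹ * a := ⟨_, rfl⟩
  have huQ : u ∈ Qb := by
    have : u = w * (a * w⁻¹ * a) := by rw [hu]; group
    rw [this]
    exact Qb.mul_mem hw (hnA _ (Qb.inv_mem hw))
  have huu : u * u = 1 := by
    rw [hu]
    exact (hS3 w hw).2
  have hu1 : u ≠ 1 := fun h => hwa (hcommOf w hw (Or.inl (hu ▸ h)))
  have hub : u ≠ b := fun h => hwa (hcommOf w hw (Or.inr (hu ▸ h)))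
  have hw1 : w ≠ 1 := by
    rintro rfl
    simp at hwa
  have hwb : w ≠ b := by
    rintro rfl
    exact hwa (ha.zc w hbQ)
  have hrel : a * w⁻¹ * a = w⁻¹ * u := by
    rw [hu]
    group
  have hsqx : (a * w⁻¹ * a) * (a * w⁻¹ * a) = w⁻¹ * w⁻¹ := by
    have h2 : (a * w⁻¹ * a) * (a * w⁻¹ * a) = a * (w⁻¹ * w⁻¹) * a := by
      simp only [mul_assoc, aa]
    rw [h2]
    rcases hb.sq w⁻¹ (Qb.inv_mem hw) with h | h
    · rw [h, mul_one, ha.z2]
    · rw [h, hab, mul_assoc, ha.z2, mul_one]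
  have huw : u * w = w * u := by
    rw [hrel] at hsqx
    have h2 : w⁻¹ * u * (w⁻¹ * u) = w⁻¹ * (u * w⁻¹ * u) := by group
    rw [h2] at hsqx
    have h3 : u * w⁻¹ * u = w⁻¹ := mul_left_cancel hsqx
    have h4 : u * w⁻¹ = w⁻¹ * u := by
      calc u * w⁻¹ = u * w⁻¹ * (u * u) := by rw [huu, mul_one]
        _ = (u * w⁻¹ * u) * u := by group
        _ = w⁻¹ * u := by rw [h3]
    have h5 : Commute u w⁻¹ := h4
    exact (Commute.inv_right_iff.1 h5)
  have huw1 : u ≠ w := by
    intro h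
    have h2 := hrel
    rw [h, inv_mul_cancel] at h2
    have h3 : w⁻¹ = 1 := by
      calc w⁻¹ = a * (a * w⁻¹ * a) * a := by simp only [mul_assoc, aa, ha.z2, mul_one]
        _ = 1 := by rw [h2, mul_one, ha.z2]
    exact hw1 (inv_eq_one.1 h3)
  have huw2 : u ≠ w * b := by
    intro h
    have h2 := hrel
    rw [h, inv_mul_cancel_left] at h2
    have h3 : w⁻¹ = b := by
      calc w⁻¹ = a * (a * w⁻¹ * a) * a := by simp only [mul_assoc, aa, ha.z2, mul_one]
        _ = a * b * a := by rw [h2]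
        _ = b := by rw [hab, mul_assoc, ha.z2, mul_one]
    exact hwb ((inv_eq_iff_eq_inv.1 h3).trans binv)
  let H : Subgroup G := Qb ⊓ Subgroup.centralizer ({w} : Set G)
  have hHmem : ∀ x, x ∈ Qb → x * w = w * x → x ∈ H := by
    intro x hx hxw
    exact ⟨hx, Subgroup.mem_centralizer_singleton_iff.2 hxw⟩
  let T : Finset G := {1, b, w, w * b, u}
  have hT : T.card = 5 := by
    have h1 : (1 : G) ∉ ({b, w, w * b, u} : Finset G) := by
      simp only [Finset.mem_insert, Finset.mem_singleton, not_or]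
      refine ⟨hb.z1.symm, hw1.symm, ?_, hu1.symm⟩
      intro h
      apply hwb
      exact (eq_inv_of_mul_eq_one_left h.symm).trans binv
    have h2 : b ∉ ({w, w * b, u} : Finset G) := by
      simp only [Finset.mem_insert, Finset.mem_singleton, not_or]
      refine ⟨hwb.symm, ?_, hub.symm⟩
      intro h
      exact hw1 (by simpa using h.symm)
    have h3 : w ∉ ({w * b, u} : Finset G) := by
      simp only [Finset.mem_insert, Finset.mem_singleton, not_or]
      refine ⟨?_, huw1.symm⟩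
      intro h
      exact hb.z1 (by simpa using h.symm)
    have h4 : w * b ∉ ({u} : Finset G) := by
      simp only [Finset.mem_singleton]
      exact fun h => huw2 h.symm
    simp only [T]
    rw [Finset.card_insert_of_notMem h1, Finset.card_insert_of_notMem h2,
      Finset.card_insert_of_notMem h3, Finset.card_insert_of_notMem h4, Finset.card_singleton]
  have hTsub : (T : Set G) ⊆ (H : Set G) := by
    intro x hx
    have hx' : x ∈ T := hx
    simp only [T, Finset.mem_insert, Finset.mem_singleton] at hx'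
    rcases hx' with rfl | rfl | rfl | rfl | rfl
    · exact H.one_mem
    · exact hHmem _ hb.zQ (hb.zc w hw).symm
    · exact hHmem _ hw rfl
    · refine hHmem _ (Qb.mul_mem hw hb.zQ) ?_
      rw [mul_assoc, ← hb.zc w hw]
    · exact hHmem _ huQ huw
  have hH5 : 5 ≤ Nat.card H := by
    have h1 : Nat.card H = (H : Set G).ncard := Nat.card_coe_set_eq _
    rw [h1, ← hT, ← Set.ncard_coe_finset]
    exact Set.ncard_le_ncard hTsub (Set.toFinite _)
  have hHle : H ≤ Qb := inf_le_left
  have hdvd : Nat.card H ∣ Nat.card Qb := Subgroup.card_dvd_of_le hHle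
  have hQb8 : Nat.card Qb ≤ 8 := hcard ▸ hcardQ
  have hHeq : Nat.card H = Nat.card Qb := by
    obtain ⟨k, hk⟩ := hdvd
    have hk0 : k ≠ 0 := by
      rintro rfl
      have : 0 < Nat.card Qb := Nat.card_pos
      omega
    have hk1 : k = 1 := by
      by_contra hk1
      have : 2 ≤ k := by omega
      have : 2 * 5 ≤ k * Nat.card H := Nat.mul_le_mul this hH5
      rw [mul_comm] at hk
      omega
    rw [hk, hk1, mul_one]
  have hHQ : H = Qb := Subgroup.eq_of_le_of_card_ge hHle hHeq.symm.le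
  have hwc : ∀ y ∈ Qb, w * y = y * w := by
    intro y hy
    have h1 : y ∈ H := hHQ ▸ hy
    exact (Subgroup.mem_centralizer_singleton_iff.1 h1.2).symm
  rcases hb.cen w hw hwc with h | h
  · exact hw1 h
  · exact hwb h

/-- the conjugation isomorphism of centralizers -/
def conjC {G : Type*} [Group G] (g x : G) :
    Subgroup.centralizer ({x} : Set G) ≃* Subgroup.centralizer ({g * x * g⁻¹} : Set G) where
  toFun y := ⟨g * y * g⁻¹, by
    rw [Subgroup.mem_centralizer_singleton_iff]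
    have h := Subgroup.mem_centralizer_singleton_iff.1 y.2
    calc g * (y : G) * g⁻¹ * (g * x * g⁻¹) = g * ((y : G) * x) * g⁻¹ := by group
      _ = g * (x * (y : G)) * g⁻¹ := by rw [h]
      _ = g * x * g⁻¹ * (g * y * g⁻¹) := by group⟩
  invFun y := ⟨g⁻¹ * y * g, by
    rw [Subgroup.mem_centralizer_singleton_iff]
    have h := Subgroup.mem_centralizer_singleton_iff.1 y.2
    have h2 : (y : G) * (g * x * g⁻¹) = g * x * g⁻¹ * y := h
    calc g⁻¹ * (y : G) * g * x = g⁻¹ * ((y : G) * (g * x * g⁻¹)) * g := by group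
      _ = g⁻¹ * (g * x * g⁻¹ * y) * g := by rw [h2]
      _ = x * (g⁻¹ * y * g) := by group⟩
  left_inv y := by
    apply Subtype.ext
    show g⁻¹ * (g * (y : G) * g⁻¹) * g = y
    group
  right_inv y := by
    apply Subtype.ext
    show g * (g⁻¹ * (y : G) * g) * g⁻¹ = y
    group
  map_mul' y y' := by
    apply Subtype.ext
    show g * ((y : G) * y') * g⁻¹ = (g * y * g⁻¹) * (g * y' * g⁻¹)
    group

theorem Q_conj {G : Type*} [Group G] [Finite G] (Q : G → Subgroup G)
    (hQ : ∀ x : G, Q x = (Cfsg.pCore 2 ↥(Subgroup.centralizer ({x} : Set G))).map (Subgroup.centralizer ({x} : Set G)).subtype)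
    (g x y : G) (hy : y ∈ Q x) : g * y * g⁻¹ ∈ Q (g * x * g⁻¹) := by
  haveI : Fact (Nat.Prime 2) := ⟨Nat.prime_two⟩
  rw [hQ] at hy ⊢
  obtain ⟨y', hy', rfl⟩ := hy
  exact ⟨conjC g x y', Cfsg.Agent.Lib.FusStable.pCore_equiv_of (conjC g x) hy', rfl⟩

theorem Q_mem_C {G : Type*} [Group G] [Finite G] (Q : G → Subgroup G)
    (hQ : ∀ x : G, Q x = (Cfsg.pCore 2 ↥(Subgroup.centralizer ({x} : Set G))).map (Subgroup.centralizer ({x} : Set G)).subtype)
    (x y : G) (hy : y ∈ Q x) : y * x = x * y := by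
  rw [hQ] at hy
  obtain ⟨y', -, rfl⟩ := hy
  exact Subgroup.mem_centralizer_singleton_iff.1 y'.2

theorem Q_nor {G : Type*} [Group G] [Finite G] (Q : G → Subgroup G)
    (hQ : ∀ x : G, Q x = (Cfsg.pCore 2 ↥(Subgroup.centralizer ({x} : Set G))).map (Subgroup.centralizer ({x} : Set G)).subtype)
    (x c y : G) (hc : c * x = x * c) (hy : y ∈ Q x) : c * y * c⁻¹ ∈ Q x := by
  rw [hQ] at hy ⊢
  obtain ⟨y', hy', rfl⟩ := hy
  have hc' : c ∈ Subgroup.centralizer ({x} : Set G) := Subgroup.mem_centralizer_singleton_iff.2 hc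
  refine ⟨⟨c, hc'⟩ * y' * ⟨c, hc'⟩⁻¹, ?_, rfl⟩
  exact (Cfsg.Agent.Lib.H1Core.pCore_normal 2 _).conj_mem _ hy' _

theorem Q_self {G : Type*} [Group G] [Finite G] (Q : G → Subgroup G)
    (hQ : ∀ x : G, Q x = (Cfsg.pCore 2 ↥(Subgroup.centralizer ({x} : Set G))).map (Subgroup.centralizer ({x} : Set G)).subtype)
    (x : G) (hx : x * x = 1) : x ∈ Q x := by
  rw [hQ]
  have hc' : x ∈ Subgroup.centralizer ({x} : Set G) := Subgroup.mem_centralizer_singleton_iff.2 rfl
  refine ⟨⟨x, hc'⟩, ?_, rfl⟩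
  have hz : ∀ y : Subgroup.centralizer ({x} : Set G), y * ⟨x, hc'⟩ = ⟨x, hc'⟩ * y := by
    intro y
    exact Subtype.ext (Subgroup.mem_centralizer_singleton_iff.1 y.2)
  let N : Subgroup (Subgroup.centralizer ({x} : Set G)) := Subgroup.zpowers ⟨x, hc'⟩
  have hN : N.Normal := by
    constructor
    intro n hn c
    obtain ⟨k, rfl⟩ := Subgroup.mem_zpowers_iff.1 hn
    have h2 : Commute c (⟨x, hc'⟩ : Subgroup.centralizer ({x} : Set G)) := hz c
    have h3 : c * (⟨x, hc'⟩ : Subgroup.centralizer ({x} : Set G)) ^ k * c⁻¹ = (⟨x, hc'⟩ : Subgroup.centralizer ({x} : Set G)) ^ k := by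
      rw [(h2.zpow_right k).eq, mul_assoc, mul_inv_cancel, mul_one]
    rw [h3]
    exact Subgroup.zpow_mem_zpowers _ _
  have h5 : (⟨x, hc'⟩ : Subgroup.centralizer ({x} : Set G)) ^ 2 = 1 := by
    apply Subtype.ext
    show x ^ 2 = 1
    rw [pow_two, hx]
  have hP : IsPGroup 2 N := by
    intro n
    obtain ⟨n, hn⟩ := n
    obtain ⟨k, rfl⟩ := Subgroup.mem_zpowers_iff.1 hn
    refine ⟨1, ?_⟩
    apply Subtype.ext
    show ((⟨x, hc'⟩ : Subgroup.centralizer ({x} : Set G)) ^ k) ^ (2 ^ 1) = 1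
    rw [pow_one, ← zpow_natCast, ← zpow_mul, mul_comm, zpow_mul, zpow_natCast, h5, one_zpow]
  exact Cfsg.Agent.Lib.H1Core.le_pCore hN hP (Subgroup.mem_zpowers _)

/-- Setting: `z` is an involution of the finite group `G`; for each element `x`, `Q x` denotes the largest normal 2-subgroup of the centralizer of `x`; `Q z` is extraspecial and contains its own centralizer in `G` (a large extraspecial 2-subgroup in this sense). Call the conjugates of `z` singular, and say that singular `x` is orthogonal to singular `y` when `x ∈ Q y`. Then orthogonality is symmetric: if a conjugate `x` of `z` lies in `Q z`, then `z` lies in `Q x`. -/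
theorem result {G : Type*} [Group G] [Finite G]
    (Q : G → Subgroup G)
    (hQ : ∀ x : G, Q x = (Cfsg.pCore 2 ↥(Subgroup.centralizer ({x} : Set G))).map (Subgroup.centralizer ({x} : Set G)).subtype)
    (z : G) (hz : orderOf z = 2) (hE : Cfsg.IsExtraspecial 2 ↥(Q z))
    (hC : Subgroup.centralizer ((Q z : Subgroup G) : Set G) ≤ Q z)
    (g : G) (hx : g * z * g⁻¹ ∈ Q z) : z ∈ Q (g * z * g⁻¹) := by
  classical
  by_cases hb : g * z * g⁻¹ = z
  · rw [hb]
    apply Q_self Q hQ
    rw [← pow_two, ← hz]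
    exact pow_orderOf_eq_one z
  have hz2 : z * z = 1 := by
    rw [← pow_two, ← hz]
    exact pow_orderOf_eq_one z
  have hz1 : z ≠ 1 := by
    rintro rfl
    simp at hz
  have hXa : XS (Q z) z := xs_of _ _ hE hz2 hz1 (Q_self Q hQ z hz2) (fun x hx => Q_mem_C Q hQ z x hx)
    (fun c hc x hx => Q_nor Q hQ z c x hc hx)
  -- transport
  obtain ⟨b, hbdef⟩ : ∃ b, b = g * z * g⁻¹ := ⟨_, rfl⟩
  rw [← hbdef] at hb hx ⊢
  have hsurj : ∀ y ∈ Q b, g⁻¹ * y * g ∈ Q z := by
    intro y hy
    have := Q_conj Q hQ g⁻¹ b y hy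
    have h2 : g⁻¹ * b * g⁻¹⁻¹ = z := by
      rw [hbdef]
      group
    rwa [h2, inv_inv] at this
  have hinto : ∀ y ∈ Q z, g * y * g⁻¹ ∈ Q b := by
    intro y hy
    have := Q_conj Q hQ g z y hy
    rwa [← hbdef] at this
  have hXb : XS (Q b) b := by
    have hb2 : b * b = 1 := by
      rw [hbdef]
      calc g * z * g⁻¹ * (g * z * g⁻¹) = g * (z * z) * g⁻¹ := by group
        _ = 1 := by rw [hz2]; group
    have hb1 : b ≠ 1 := by
      intro h
      apply hz1
      rw [hbdef] at h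
      have : z = g⁻¹ * (g * z * g⁻¹) * g := by group
      rw [this, h]
      group
    refine ⟨hb2, hb1, Q_self Q hQ b hb2, fun x hx => Q_mem_C Q hQ b x hx, ?_, ?_, ?_, fun c hc x hx => Q_nor Q hQ b c x hc hx⟩
    · intro x hx y hy
      rcases hXa.comm _ (hsurj x hx) _ (hsurj y hy) with h | h
      · left
        calc x * y = g * ((g⁻¹ * x * g) * (g⁻¹ * y * g)) * g⁻¹ := by group
          _ = g * ((g⁻¹ * y * g) * (g⁻¹ * x * g)) * g⁻¹ := by rw [h]
          _ = y * x := by group
      · right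
        calc x * y = g * ((g⁻¹ * x * g) * (g⁻¹ * y * g)) * g⁻¹ := by group
          _ = g * (z * ((g⁻¹ * y * g) * (g⁻¹ * x * g))) * g⁻¹ := by rw [h]
          _ = b * (y * x) := by rw [hbdef]; group
    · intro x hx
      rcases hXa.sq _ (hsurj x hx) with h | h
      · left
        calc x * x = g * ((g⁻¹ * x * g) * (g⁻¹ * x * g)) * g⁻¹ := by group
          _ = 1 := by rw [h]; group
      · right
        calc x * x = g * ((g⁻¹ * x * g) * (g⁻¹ * x * g)) * g⁻¹ := by group
          _ = g * z * g⁻¹ := by rw [h]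
          _ = b := hbdef.symm
    · intro x hx hc
      have h1 : ∀ y ∈ Q z, (g⁻¹ * x * g) * y = y * (g⁻¹ * x * g) := by
        intro y hy
        have h2 := hc _ (hinto y hy)
        calc (g⁻¹ * x * g) * y = g⁻¹ * (x * (g * y * g⁻¹)) * g := by group
          _ = g⁻¹ * ((g * y * g⁻¹) * x) * g := by rw [h2]
          _ = y * (g⁻¹ * x * g) := by group
      rcases hXa.cen _ (hsurj x hx) h1 with h | h
      · left
        calc x = g * (g⁻¹ * x * g) * g⁻¹ := by group
          _ = 1 := by rw [h]; group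
      · right
        calc x = g * (g⁻¹ * x * g) * g⁻¹ := by group
          _ = b := by rw [h, hbdef]
  have hCb : ∀ c, (∀ x ∈ Q b, c * x = x * c) → c ∈ Q b := by
    intro c hc
    have h1 : g⁻¹ * c * g ∈ Subgroup.centralizer ((Q z : Subgroup G) : Set G) := by
      rw [Subgroup.mem_centralizer_iff]
      intro y hy
      have h2 := hc _ (hinto y hy)
      calc y * (g⁻¹ * c * g) = g⁻¹ * ((g * y * g⁻¹) * c) * g := by group
        _ = g⁻¹ * (c * (g * y * g⁻¹)) * g := by rw [h2]
        _ = (g⁻¹ * c * g) * y := by group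
    have h3 := hinto _ (hC h1)
    have h4 : g * (g⁻¹ * c * g) * g⁻¹ = c := by group
    rwa [h4] at h3
  have hcard : Nat.card (Q z) = Nat.card (Q b) := by
    refine Nat.card_congr (Equiv.ofBijective (fun y : Q z => (⟨g * y * g⁻¹, hinto y y.2⟩ : Q b)) ⟨?_, ?_⟩)
    · intro y y' h
      have h2 : g * (y : G) * g⁻¹ = g * y' * g⁻¹ := congrArg Subtype.val h
      apply Subtype.ext
      simpa using h2
    · intro y
      refine ⟨⟨g⁻¹ * y * g, hsurj y y.2⟩, ?_⟩
      apply Subtype.ext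
      show g * (g⁻¹ * (y : G) * g) * g⁻¹ = y
      group
  refine core (Q z) (Q b) z b hXa hXb (fun h => hb h.symm) hx hCb ?_ hcard
  intro g' hg' x hx'
  have := Q_conj Q hQ g' z x hx'
  rwa [hg'] at this


end Cfsg.Agent.S5595
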