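import Cfsg.Statements.S5596
import Mathlib
import Cfsg.Agent.Lib.LargeXS

set_option autoImplicit false
open Cfsg

namespace Cfsg.Agent.S5596


open Cfsg.Agent.S5595 Cfsg.Agent.Lib.LargeXS

/-- Setting: `z` is an involution of the finite group `G`; for each element `x`, `Q x` is the largest normal 2-subgroup of the centralizer of `x`; `Q z` is extraspecial and contains its own centralizer in `G`. A subgroup `U` is singular when it is elementary abelian, every non-identity element of `U` is conjugate to `z`, and any two non-identity elements `u`, `v` of `U` are orthogonal (`v ∈ Q u`). Write `QU` for the intersection of the `Q u` and `LU` for the join of the `Q u` over the non-identity `u` in `U`. If `U` is singular of order `2 ^ n` with `n ≥ 2`, then `U ≤ QU ≤ LU`, `LU` normalizes `U`, and `LU` induces on `U` its full automorphism group (the general linear group of dimension `n` over the field with two elements): every automorphism of `U` is conjugation by some element of `LU`. -/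
theorem result {G : Type*} [Group G] [Finite G]
    (Q : G → Subgroup G)
    (hQ : ∀ x : G, Q x = (Cfsg.pCore 2 ↥(Subgroup.centralizer ({x} : Set G))).map (Subgroup.centralizer ({x} : Set G)).subtype)
    (z : G) (hz : orderOf z = 2) (hE : Cfsg.IsExtraspecial 2 ↥(Q z))
    (hC : Subgroup.centralizer ((Q z : Subgroup G) : Set G) ≤ Q z)
    (U : Subgroup G) (hU2 : ∀ u ∈ U, u * u = 1)
    (hS : ∀ u ∈ U, u ≠ 1 → ∃ g : G, g * z * g⁻¹ = u)
    (hO : ∀ u ∈ U, ∀ v ∈ U, u ≠ 1 → v ≠ 1 → v ∈ Q u)
    (QU LU : Subgroup G) (hQU : QU = ⨅ u ∈ ((U : Set G) \ {1}), Q u) (hLU : LU = ⨆ u ∈ ((U : Set G) \ {1}), Q u)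
    (n : ℕ) (hn : 2 ≤ n) (hcard : Nat.card ↥U = 2 ^ n) :
    U ≤ QU ∧ QU ≤ LU ∧ LU ≤ Subgroup.normalizer (U : Set G) ∧
      ∀ φ : ↥U ≃* ↥U, ∃ g ∈ LU, ∀ u : ↥U, g * (u : G) * g⁻¹ = ((φ u : ↥U) : G) := by
  classical
  have hs := sing_of Q hQ z hz hE U hU2 hS hO
  have hprops := hs.lu_props QU LU hQU hLU
  have hinv : ∀ u ∈ U, u⁻¹ = u := fun u hu => inv_eq_of_mul_eq_one_left (hU2 u hu)
  have hQle : ∀ u ∈ U, u ≠ 1 → Q u ≤ LU := by
    intro u hu hu1
    rw [hLU]
    exact le_iSup₂_of_le u ⟨hu, hu1⟩ le_rfl
  have hmemQU : ∀ x ∈ QU, ∀ u ∈ U, u ≠ 1 → x ∈ Q u := by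
    intro x hx u hu hu1
    rw [hQU] at hx
    simp only [Subgroup.mem_iInf] at hx
    exact hx u ⟨hu, hu1⟩
  refine ⟨?_, ?_, ?_, ?_⟩
  · intro v hv
    rw [hQU]
    simp only [Subgroup.mem_iInf]
    rintro u ⟨hu, hu1⟩
    exact hs.mem u hu hu1 v hv
  · obtain ⟨u, hu, hu1⟩ : ∃ u ∈ U, u ≠ 1 := by
      by_contra hcon
      push_neg at hcon
      have h1 : U = ⊥ := (Subgroup.eq_bot_iff_forall _).2 hcon
      rw [h1] at hcard
      simp only [Subgroup.card_bot] at hcard
      have h2 : 2 ^ 2 ≤ 2 ^ n := Nat.pow_le_pow_right (by norm_num) hn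
      omega
    intro x hx
    exact hQle u hu hu1 (hmemQU x hx u hu hu1)
  · intro g hg
    rw [Subgroup.mem_normalizer_iff]
    intro h
    constructor
    · intro hh
      exact (hprops g hg).1 h hh
    · intro hh
      have h1 := (hprops g⁻¹ (LU.inv_mem hg)).1 _ hh
      have h2 : g⁻¹ * (g * h * g⁻¹) * g⁻¹⁻¹ = h := by group
      rwa [h2] at h1
  · intro φ
    have hagree : ∀ g : G, ∀ S : Set G, (∀ v ∈ S, ∃ hv : v ∈ U, g * v * g⁻¹ = ((φ ⟨v, hv⟩ : ↥U) : G)) →
        ∀ v ∈ Subgroup.closure S, ∃ hv : v ∈ U, g * v * g⁻¹ = ((φ ⟨v, hv⟩ : ↥U) : G) := by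
      intro g S hS' v hv
      let E : Subgroup G :=
        { carrier := {v | ∃ hv : v ∈ U, g * v * g⁻¹ = ((φ ⟨v, hv⟩ : ↥U) : G)}
          one_mem' := by
            refine ⟨U.one_mem, ?_⟩
            have h1 : (⟨1, U.one_mem⟩ : ↥U) = 1 := rfl
            rw [h1, map_one]
            simp
          mul_mem' := by
            rintro a b ⟨ha, ha'⟩ ⟨hb, hb'⟩
            refine ⟨U.mul_mem ha hb, ?_⟩
            have h1 : (⟨a * b, U.mul_mem ha hb⟩ : ↥U) = ⟨a, ha⟩ * ⟨b, hb⟩ := rfl
            rw [h1, map_mul]
            have h2 : g * (a * b) * g⁻¹ = (g * a * g⁻¹) * (g * b * g⁻¹) := by group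
            rw [h2, ha', hb']
            rfl
          inv_mem' := by
            rintro a ⟨ha, ha'⟩
            refine ⟨U.inv_mem ha, ?_⟩
            have h1 : (⟨a⁻¹, U.inv_mem ha⟩ : ↥U) = (⟨a, ha⟩ : ↥U)⁻¹ := rfl
            rw [h1, map_inv]
            have h2 : g * a⁻¹ * g⁻¹ = (g * a * g⁻¹)⁻¹ := by group
            rw [h2, ha']
            rfl }
      have hle : Subgroup.closure S ≤ E := (Subgroup.closure_le _).2 hS'
      exact hle hv
    have hmain : ∀ s : Finset G, (s : Set G) ⊆ U → ∃ g ∈ LU, ∀ v ∈ (s : Set G), ∃ hv : v ∈ U, g * v * g⁻¹ = ((φ ⟨v, hv⟩ : ↥U) : G) := by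
      intro s
      induction s using Finset.induction_on with
      | empty =>
        intro _
        exact ⟨1, LU.one_mem, by simp⟩
      | insert a s ha ih =>
        intro hsU
        rw [Finset.coe_insert] at hsU
        have haU : a ∈ U := hsU (Set.mem_insert _ _)
        obtain ⟨g, hg, hgs⟩ := ih fun y hy => hsU (Set.mem_insert_of_mem _ hy)
        rw [Finset.coe_insert]
        have hB := hagree g _ hgs
        obtain ⟨B, hBdef⟩ : ∃ B, B = Subgroup.closure (s : Set G) := ⟨_, rfl⟩
        rw [← hBdef] at hB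
        have hBU : B ≤ U := by
          rw [hBdef]
          exact (Subgroup.closure_le _).2 fun y hy => hsU (Set.mem_insert_of_mem _ hy)
        by_cases haB : a ∈ B
        · refine ⟨g, hg, ?_⟩
          intro v hv
          rcases hv with rfl | hv
          · exact hB v haB
          · exact hgs v hv
        obtain ⟨v', hv'⟩ : ∃ v', v' = g * a * g⁻¹ := ⟨_, rfl⟩
        obtain ⟨w, hw⟩ : ∃ w : G, w = ((φ ⟨a, haU⟩ : ↥U) : G) := ⟨_, rfl⟩
        have hv'U : v' ∈ U := by
          rw [hv']
          exact (hprops g hg).1 a haU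
        have hwU : w ∈ U := by
          rw [hw]
          exact (φ ⟨a, haU⟩).2
        by_cases hvw : v' = w
        · refine ⟨g, hg, ?_⟩
          intro v hv
          rcases hv with rfl | hv
          · exact ⟨haU, by rw [← hv', hvw, hw]⟩
          · exact hgs v hv
        obtain ⟨u, hu⟩ : ∃ u, u = v' * w := ⟨_, rfl⟩
        have huU : u ∈ U := by
          rw [hu]
          exact U.mul_mem hv'U hwU
        have hu1 : u ≠ 1 := by
          intro h1
          apply hvw
          rw [hu] at h1
          calc v' = v' * w * w⁻¹ := by group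
            _ = w⁻¹ := by rw [h1, one_mul]
            _ = w := hinv w hwU
        have huv : u * v' = w := by
          rw [hu, hs.comm hv'U hwU, mul_assoc, hU2 v' hv'U, mul_one]
        -- the image of `B`
        let A' : Set G := {y | ∃ b ∈ B, y = g * b * g⁻¹}
        have hA'U : ∀ y ∈ A', y ∈ U := by
          rintro y ⟨b, hb, rfl⟩
          exact (hprops g hg).1 b (hBU hb)
        have hA'1 : (1 : G) ∈ A' := ⟨1, B.one_mem, by simp⟩
        have hA'm : ∀ y ∈ A', ∀ y' ∈ A', y * y' ∈ A' := by
          rintro y ⟨b, hb, rfl⟩ y' ⟨b', hb', rfl⟩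
          exact ⟨b * b', B.mul_mem hb hb', by group⟩
        let S : Subgroup G :=
          { carrier := {y | y ∈ U ∧ (y ∈ A' ∨ u * y ∈ A')}
            one_mem' := ⟨U.one_mem, Or.inl hA'1⟩
            mul_mem' := by
              rintro y y' ⟨hy, h1⟩ ⟨hy', h2⟩
              refine ⟨U.mul_mem hy hy', ?_⟩
              rcases h1 with h1 | h1 <;> rcases h2 with h2 | h2
              · exact Or.inl (hA'm _ h1 _ h2)
              · right
                have h3 : u * (y * y') = y * (u * y') := by
                  rw [← mul_assoc, hs.comm huU hy, mul_assoc]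
                rw [h3]
                exact hA'm _ h1 _ h2
              · right
                have h3 : u * (y * y') = (u * y) * y' := by group
                rw [h3]
                exact hA'm _ h1 _ h2
              · left
                have h3 : y * y' = (u * y) * (u * y') := by
                  have h4 : (u * y) * (u * y') = (u * u) * (y * y') := by
                    rw [mul_assoc u y, ← mul_assoc y u, ← hs.comm huU hy]
                    group
                  rw [h4, hU2 u huU, one_mul]
                rw [h3]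
                exact hA'm _ h1 _ h2
            inv_mem' := by
              rintro y ⟨hy, h1⟩
              rw [hinv y hy]
              exact ⟨hy, h1⟩ }
        have hv'S : v' ∉ S := by
          rintro ⟨-, h1 | h1⟩
          · obtain ⟨b, hb, hb'⟩ := h1
            apply haB
            rw [hv'] at hb'
            have h2 : g * a = g * b := mul_right_cancel hb'
            rw [mul_left_cancel h2]
            exact hb
          · rw [huv] at h1
            obtain ⟨b, hb, hb'⟩ := h1
            apply haB
            obtain ⟨hbU, hb2⟩ := hB b hb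
            rw [← hb', hw] at hb2
            have h3 : (φ ⟨a, haU⟩ : ↥U) = φ ⟨b, hbU⟩ := Subtype.ext hb2
            have h4 : (⟨a, haU⟩ : ↥U) = ⟨b, hbU⟩ := φ.injective h3
            have h5 : a = b := congrArg Subtype.val h4
            rw [h5]
            exact hb
        have hX := hs.xs u huU hu1
        have hSQ : S ≤ Q u := fun y hy => hs.mem u huU hu1 y hy.1
        have huS : u ∈ S := ⟨huU, Or.inr (by rw [hU2 u huU]; exact hA'1)⟩
        obtain ⟨h, hh, hc, hn⟩ := good_sub hX S hSQ huS (hs.mem u huU hu1 v' hv'U) hv'S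
        refine ⟨h * g, LU.mul_mem (hQle u huU hu1 hh) hg, ?_⟩
        intro v hv
        rcases hv with rfl | hv
        · refine ⟨haU, ?_⟩
          have h1 : h * g * v * (h * g)⁻¹ = h * (g * v * g⁻¹) * h⁻¹ := by group
          rw [h1, ← hv', conj_form hX hh (hs.mem u huU hu1 v' hv'U) hn, huv, hw]
        · obtain ⟨hvU, hv2⟩ := hgs v hv
          refine ⟨hvU, ?_⟩
          have h1 : h * g * v * (h * g)⁻¹ = h * (g * v * g⁻¹) * h⁻¹ := by group
          rw [h1]
          have hin : g * v * g⁻¹ ∈ S := by
            refine ⟨(hprops g hg).1 v hvU, Or.inl ⟨v, ?_, rfl⟩⟩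
            rw [hBdef]
            exact Subgroup.subset_closure hv
          rw [hc _ hin, mul_inv_cancel_right, hv2]
    let s₀ : Finset G := (Set.toFinite (U : Set G)).toFinset
    have hs₀ : (s₀ : Set G) = U := by
      simp [s₀]
    obtain ⟨g, hg, hgs⟩ := hmain s₀ (by rw [hs₀])
    refine ⟨g, hg, ?_⟩
    intro u
    obtain ⟨_, h1⟩ := hgs u (by rw [hs₀]; exact u.2)
    exact h1


end Cfsg.Agent.S5596
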