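import Cfsg.Statements.S5597
import Mathlib
import Cfsg.Agent.Lib.LargeXS

set_option autoImplicit false
open Cfsg

namespace Cfsg.Agent.S5597


open Cfsg.Agent.S5595 Cfsg.Agent.Lib.LargeXS

/-- Setting: `z` is an involution of the finite group `G`; for each element `x`, `Q x` is the largest normal 2-subgroup of the centralizer of `x`; `Q z` is extraspecial and contains its own centralizer in `G`. A subgroup `U` is singular when it is elementary abelian, every non-identity element of `U` is conjugate to `z`, and any two non-identity elements `u`, `v` of `U` are orthogonal (`v ∈ Q u`). Write `QU` for the intersection of the `Q u` and `LU` for the join of the `Q u` over the non-identity `u` in `U`. If `U` is a non-trivial singular subgroup, then `LU` acts trivially on `QU / U` (every commutator of an element of `LU` with an element of `QU` lies in `U`), and for every `x` in `QU` outside `U` the centralizer of `U` in `LU` permutes the coset `x U` transitively: each `x u` with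 `u ∈ U` is a conjugate of `x` by an element of `LU` centralizing `U`. -/
theorem result {G : Type*} [Group G] [Finite G]
    (Q : G → Subgroup G)
    (hQ : ∀ x : G, Q x = (Cfsg.pCore 2 ↥(Subgroup.centralizer ({x} : Set G))).map (Subgroup.centralizer ({x} : Set G)).subtype)
    (z : G) (hz : orderOf z = 2) (hE : Cfsg.IsExtraspecial 2 ↥(Q z))
    (hC : Subgroup.centralizer ((Q z : Subgroup G) : Set G) ≤ Q z)
    (U : Subgroup G) (hU2 : ∀ u ∈ U, u * u = 1)
    (hS : ∀ u ∈ U, u ≠ 1 → ∃ g : G, g * z * g⁻¹ = u)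
    (hO : ∀ u ∈ U, ∀ v ∈ U, u ≠ 1 → v ≠ 1 → v ∈ Q u)
    (QU LU : Subgroup G) (hQU : QU = ⨅ u ∈ ((U : Set G) \ {1}), Q u) (hLU : LU = ⨆ u ∈ ((U : Set G) \ {1}), Q u)
    (hU : U ≠ ⊥) :
    (∀ g ∈ LU, ∀ x ∈ QU, g * x * g⁻¹ * x⁻¹ ∈ U) ∧
      ∀ x ∈ QU, x ∉ U → ∀ u ∈ U, ∃ g ∈ LU ⊓ Subgroup.centralizer (U : Set G), g * x * g⁻¹ = x * u := by
  classical
  have hs := sing_of Q hQ z hz hE U hU2 hS hO
  have hprops := hs.lu_props QU LU hQU hLU
  refine ⟨fun g hg => (hprops g hg).2, ?_⟩
  intro x hx hxU u hu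
  by_cases hu1 : u = 1
  · exact ⟨1, Subgroup.one_mem _, by simp [hu1]⟩
  have hxu : x ∈ Q u := by
    rw [hQU] at hx
    simp only [Subgroup.mem_iInf] at hx
    exact hx u ⟨hu, hu1⟩
  have hX := hs.xs u hu hu1
  have hUQ : U ≤ Q u := fun v hv => hs.mem u hu hu1 v hv
  obtain ⟨g, hg, hc, hn⟩ := good_sub hX U hUQ hu hxu hxU
  refine ⟨g, ⟨?_, ?_⟩, ?_⟩
  · rw [hLU]
    have h1 : Q u ≤ ⨆ u ∈ ((U : Set G) \ {1}), Q u :=
      le_iSup₂_of_le u ⟨hu, hu1⟩ le_rfl
    exact h1 hg
  · exact Subgroup.mem_centralizer_iff.2 fun a ha => (hc a ha).symm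
  · rw [conj_form hX hg hxu hn, hX.zc x hxu]


end Cfsg.Agent.S5597
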