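import Cfsg.Statements.S5598
import Mathlib
import Cfsg.Agent.Lib.LargeXS

set_option autoImplicit false
open Cfsg

namespace Cfsg.Agent.S5598


open Cfsg.Agent.S5595 Cfsg.Agent.Lib.LargeXS

/-- Setting: `z` is an involution of the finite group `G`; for each element `x`, `Q x` is the largest normal 2-subgroup of the centralizer of `x`; `Q z` is extraspecial and contains its own centralizer in `G`. A subgroup `U` is singular when it is elementary abelian, every non-identity element of `U` is conjugate to `z`, and any two non-identity elements `u`, `v` of `U` are orthogonal (`v ∈ Q u`). Write `QU` for the intersection of the `Q u` and `LU` for the join of the `Q u` over the non-identity `u` in `U`. If the singular subgroup `U` is generated by a set `T` of non-identity elements, then `QU` is already the intersection of the `Q t` over `t ∈ T`. -/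
theorem result {G : Type*} [Group G] [Finite G]
    (Q : G → Subgroup G)
    (hQ : ∀ x : G, Q x = (Cfsg.pCore 2 ↥(Subgroup.centralizer ({x} : Set G))).map (Subgroup.centralizer ({x} : Set G)).subtype)
    (z : G) (hz : orderOf z = 2) (hE : Cfsg.IsExtraspecial 2 ↥(Q z))
    (hC : Subgroup.centralizer ((Q z : Subgroup G) : Set G) ≤ Q z)
    (U : Subgroup G) (hU2 : ∀ u ∈ U, u * u = 1)
    (hS : ∀ u ∈ U, u ≠ 1 → ∃ g : G, g * z * g⁻¹ = u)
    (hO : ∀ u ∈ U, ∀ v ∈ U, u ≠ 1 → v ≠ 1 → v ∈ Q u)
    (QU LU : Subgroup G) (hQU : QU = ⨅ u ∈ ((U : Set G) \ {1}), Q u) (hLU : LU = ⨆ u ∈ ((U : Set G) \ {1}), Q u)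
    (T : Set G) (hT : Subgroup.closure T = U) (hT1 : (1 : G) ∉ T) :
    QU = ⨅ t ∈ T, Q t := by
  classical
  have hs := sing_of Q hQ z hz hE U hU2 hS hO
  have hTU : ∀ t ∈ T, t ∈ U := fun t ht => hT ▸ Subgroup.subset_closure ht
  subst hQU
  apply le_antisymm
  · refine le_iInf₂ ?_
    intro t ht
    refine iInf₂_le t ⟨hTU t ht, ?_⟩
    intro h1
    exact hT1 (by rw [← show t = 1 from h1]; exact ht)
  · intro x hx
    simp only [Subgroup.mem_iInf] at hx
    have hinv : ∀ u ∈ U, u⁻¹ = u := fun u hu => inv_eq_of_mul_eq_one_left (hU2 u hu)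
    let H : Subgroup G :=
      { carrier := {u | u ∈ U ∧ (u = 1 ∨ x ∈ Q u)}
        one_mem' := ⟨U.one_mem, Or.inl rfl⟩
        mul_mem' := by
          rintro u v ⟨hu, hu'⟩ ⟨hv, hv'⟩
          refine ⟨U.mul_mem hu hv, ?_⟩
          by_cases hu1 : u = 1
          · rw [hu1, one_mul]
            exact hv'
          by_cases hv1 : v = 1
          · rw [hv1, mul_one]
            exact hu'
          by_cases huv : u = v
          · left
            rw [huv]
            exact hU2 v hv
          · right
            exact hs.inter hu hv hu1 hv1 huv (hu'.resolve_left hu1) (hv'.resolve_left hv1)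
        inv_mem' := by
          rintro u ⟨hu, hu'⟩
          rw [hinv u hu]
          exact ⟨hu, hu'⟩ }
    have hle : U ≤ H := by
      rw [← hT]
      refine (Subgroup.closure_le _).2 ?_
      intro t ht
      exact ⟨hTU t ht, Or.inr (hx t ht)⟩
    simp only [Subgroup.mem_iInf]
    rintro u ⟨hu, hu1⟩
    exact ((hle hu).2).resolve_left hu1


end Cfsg.Agent.S5598
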