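import Cfsg.Statements.S5729
-- import your own Cfsg.Agent.* helpers here

set_option autoImplicit false
open Cfsg

namespace Cfsg.Agent.S5729

/-- Let a finite group G act faithfully and transitively on a set with n ≥ 3 points. Then either G is a Frobenius permutation group (Frobenius as a permutation group: transitive, some non-identity element fixes a point, and no non-identity element fixes two points) of order n(n − 1) and exactly |G|/n of its elements are derangements (fix no point), or the number of derangements is greater than |G|/n. -/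
theorem result {G Ω : Type*} [Group G] [Finite G] [MulAction G Ω] [FaithfulSMul G Ω] [Fintype Ω] (htr : MulAction.IsPretransitive G Ω) (hn : 3 ≤ Fintype.card Ω) :
    ((MulAction.IsPretransitive G Ω ∧ (∃ g : G, g ≠ 1 ∧ ∃ ω : Ω, g • ω = ω) ∧ ∀ g : G, g ≠ 1 → Nat.card (MulAction.fixedBy Ω g) ≤ 1) ∧ Nat.card G = Fintype.card Ω * (Fintype.card Ω - 1) ∧ Fintype.card Ω * Nat.card {g : G // ∀ ω : Ω, g • ω ≠ ω} = Nat.card G) ∨
    Nat.card G < Fintype.card Ω * Nat.card {g : G // ∀ ω : Ω, g • ω ≠ ω} := by
  classical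
  haveI : Fintype G := Fintype.ofFinite G
  obtain ⟨n, hn'⟩ : ∃ n, n = Fintype.card Ω := ⟨_, rfl⟩
  rw [← hn'] at hn ⊢
  have hpos : 0 < Fintype.card Ω := by omega
  haveI : Nonempty Ω := Fintype.card_pos_iff.1 hpos
  obtain ⟨ω₀⟩ := ‹Nonempty Ω›
  haveI : Nontrivial Ω := by
    apply Fintype.one_lt_card_iff_nontrivial.1
    omega
  obtain ⟨ω₁, hω₁⟩ := exists_ne ω₀
  let π : G → ℕ := fun g => Nat.card (MulAction.fixedBy Ω g)
  have hπle : ∀ g, π g ≤ n := fun g => by
    rw [hn', ← Nat.card_eq_fintype_card]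
    exact Nat.card_le_card_of_injective _ Subtype.val_injective
  have hπ0 : ∀ g, π g = 0 ↔ ∀ ω : Ω, g • ω ≠ ω := by
    intro g
    simp only [π]
    rw [Nat.card_eq_zero]
    constructor
    · rintro (h | h)
      · intro ω hω
        exact h.false ⟨ω, hω⟩
      · exact absurd h (not_infinite_iff_finite.2 inferInstance)
    · intro h
      left
      exact ⟨fun x => h x.1 x.2⟩
  have hπn : ∀ g, π g = n → g = 1 := by
    intro g hg
    apply FaithfulSMul.eq_of_smul_eq_smul (α := Ω)
    intro x
    rw [one_smul]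
    have h1 : (MulAction.fixedBy Ω g) = Set.univ := by
      rw [Set.eq_univ_iff_ncard, ← Nat.card_coe_set_eq, Nat.card_eq_fintype_card (α := Ω), ← hn']
      exact hg
    have h2 : x ∈ MulAction.fixedBy Ω g := h1 ▸ Set.mem_univ x
    exact h2
  have hπone : π 1 = n := by
    simp only [π]
    rw [hn', ← Nat.card_eq_fintype_card]
    apply Nat.card_congr
    exact (Equiv.subtypeUnivEquiv (fun x => by simp))
  -- Burnside
  have hb1 : ∑ g : G, π g = Fintype.card G := by
    haveI : Fintype (MulAction.orbitRel.Quotient G Ω) := Fintype.ofFinite _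
    have h1 := MulAction.sum_card_fixedBy_eq_card_orbits_mul_card_group G Ω
    haveI := (MulAction.pretransitive_iff_subsingleton_quotient G Ω).1 htr
    haveI : Nonempty (MulAction.orbitRel.Quotient G Ω) := ⟨Quotient.mk'' ω₀⟩
    have hone : Fintype.card (Quotient (MulAction.orbitRel G Ω)) = 1 :=
      Fintype.card_eq_one_iff.2 ⟨Quotient.mk'' ω₀, fun y => Subsingleton.elim _ _⟩
    rw [hone, one_mul] at h1
    rw [← h1]
    exact Finset.sum_congr rfl fun g _ => Nat.card_eq_fintype_card
  obtain ⟨r, hr2, hb2⟩ : ∃ r : ℕ, 2 ≤ r ∧ ∑ g : G, (π g) ^ 2 = r * Fintype.card G := by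
    haveI : Fintype (MulAction.orbitRel.Quotient G (Ω × Ω)) := Fintype.ofFinite _
    refine ⟨Fintype.card (MulAction.orbitRel.Quotient G (Ω × Ω)), ?_, ?_⟩
    · have hne : (Quotient.mk'' (ω₀, ω₀) : MulAction.orbitRel.Quotient G (Ω × Ω)) ≠ Quotient.mk'' (ω₀, ω₁) := by
        intro h
        rw [Quotient.eq''] at h
        obtain ⟨g, hg⟩ := h
        have h1 : g • (ω₀, ω₁) = (ω₀, ω₀) := hg
        simp only [Prod.smul_mk, Prod.mk.injEq] at h1
        exact hω₁ (smul_left_cancel g (h1.2.trans h1.1.symm))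
      exact Nat.succ_le_of_lt (Fintype.one_lt_card_iff.2 ⟨_, _, hne⟩)
    · rw [← MulAction.sum_card_fixedBy_eq_card_orbits_mul_card_group G (Ω × Ω)]
      apply Finset.sum_congr rfl
      intro g _
      rw [← Nat.card_eq_fintype_card, sq, ← Nat.card_prod]
      apply Nat.card_congr
      let e : MulAction.fixedBy (Ω × Ω) g ≃ MulAction.fixedBy Ω g × MulAction.fixedBy Ω g := {
        toFun := fun x => (⟨x.1.1, by
          have h1 : g • (x.1 : Ω × Ω) = x.1 := x.2
          exact congrArg Prod.fst h1⟩, ⟨x.1.2, by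
          have h1 : g • (x.1 : Ω × Ω) = x.1 := x.2
          exact congrArg Prod.snd h1⟩)
        invFun := fun y => ⟨(y.1.1, y.2.1), by
          show g • ((y.1.1, y.2.1) : Ω × Ω) = _
          rw [Prod.smul_mk]
          exact Prod.ext y.1.2 y.2.2⟩
        left_inv := fun x => rfl
        right_inv := fun y => rfl }
      exact e.symm
  have hD : Nat.card {g : G // ∀ ω : Ω, g • ω ≠ ω} = (Finset.univ.filter (fun g : G => π g = 0)).card := by
    rw [Nat.card_eq_fintype_card, Fintype.card_subtype]
    congr 1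
    ext g
    simp only [Finset.mem_filter, Finset.mem_univ, true_and, hπ0]
  rw [hD, Nat.card_eq_fintype_card]
  obtain ⟨D, hDdef⟩ : ∃ D, D = (Finset.univ.filter (fun g : G => π g = 0)).card := ⟨_, rfl⟩
  rw [← hDdef]
  obtain ⟨N, hN⟩ : ∃ N, N = Fintype.card G := ⟨_, rfl⟩
  rw [← hN] at hb1 hb2 ⊢
  by_cases hlt : N < n * D
  · exact Or.inr hlt
  left
  push Not at hlt
  let φ : G → ℤ := fun g => ((π g : ℤ) - 1) * ((π g : ℤ) - n)
  let d : G → ℤ := fun g => if π g = 0 then (n : ℤ) else 0
  have hφsum : ∑ g : G, φ g = ((r : ℤ) - 1) * N := by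
    have e1 : ∀ g : G, φ g = (π g : ℤ) ^ 2 - (n + 1) * (π g : ℤ) + n := fun g => by
      simp only [φ]
      ring
    rw [Finset.sum_congr rfl fun g _ => e1 g, Finset.sum_add_distrib, Finset.sum_sub_distrib, ← Finset.mul_sum, Finset.sum_const]
    have e2 : (∑ g : G, (π g : ℤ)) = N := by exact_mod_cast hb1
    have e3 : (∑ g : G, (π g : ℤ) ^ 2) = r * N := by exact_mod_cast hb2
    rw [e2, e3, Finset.card_univ, ← hN]
    simp only [nsmul_eq_mul]
    ring
  have hdsum : ∑ g : G, d g = n * D := by
    simp only [d]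
    rw [Finset.sum_ite, Finset.sum_const, Finset.sum_const_zero, add_zero, ← hDdef]
    simp only [nsmul_eq_mul]
    ring
  have hterm : ∀ g, φ g ≤ d g := by
    intro g
    simp only [φ, d]
    split_ifs with h0
    · rw [h0]
      simp
    · have h1 : (1 : ℤ) ≤ π g := by exact_mod_cast Nat.one_le_iff_ne_zero.2 h0
      have h2 : (π g : ℤ) ≤ n := by exact_mod_cast hπle g
      exact mul_nonpos_of_nonneg_of_nonpos (by linarith) (by linarith)
  have hle1 : ((r : ℤ) - 1) * N ≤ n * D := by
    rw [← hφsum, ← hdsum]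
    exact Finset.sum_le_sum fun g _ => hterm g
  have hr2' : (2 : ℤ) ≤ r := by exact_mod_cast hr2
  have hNpos : (0 : ℤ) ≤ N := by positivity
  have hlt' : ((n : ℤ) * D) ≤ N := by exact_mod_cast hlt
  have heq : (n : ℤ) * D = N := by nlinarith
  have hall : ∀ g, φ g = d g := by
    have h0 : ∑ g : G, (d g - φ g) = 0 := by
      rw [Finset.sum_sub_distrib, hφsum, hdsum]
      nlinarith
    have h1 := (Finset.sum_eq_zero_iff_of_nonneg (fun g _ => sub_nonneg.2 (hterm g))).1 h0
    intro g
    linarith [h1 g (Finset.mem_univ g)]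
  have hvals : ∀ g : G, g ≠ 1 → π g = 0 ∨ π g = 1 := by
    intro g hg
    by_cases h0 : π g = 0
    · exact Or.inl h0
    right
    have h1 := hall g
    simp only [φ, d, if_neg h0] at h1
    rcases mul_eq_zero.1 h1 with h2 | h2
    · have : (π g : ℤ) = 1 := by linarith
      exact_mod_cast this
    · have : (π g : ℤ) = n := by linarith
      exact absurd (hπn g (by exact_mod_cast this)) hg
  -- count
  have hDn : D + 1 = n := by
    have e : ∀ g : G, (π g : ℤ) = 1 - (if π g = 0 then 1 else 0) + (if g = 1 then (n : ℤ) - 1 else 0) := by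
      intro g
      by_cases hg : g = 1
      · subst hg
        rw [hπone, if_pos rfl, if_neg (by omega)]
        ring
      · rw [if_neg hg]
        rcases hvals g hg with h | h
        · rw [h]
          simp
        · rw [h]
          simp
    have e2 : (∑ g : G, (π g : ℤ)) = N := by exact_mod_cast hb1
    rw [Finset.sum_congr rfl fun g _ => e g, Finset.sum_add_distrib, Finset.sum_sub_distrib, Finset.sum_const, Finset.card_univ, ← hN] at e2
    simp only [Finset.sum_boole, Finset.sum_ite_eq', Finset.mem_univ, if_true, nsmul_eq_mul, mul_one] at e2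
    rw [← hDdef] at e2
    have : (D : ℤ) + 1 = n := by linarith
    exact_mod_cast this
  have hNval : N = n * (n - 1) := by
    have h1 : n - 1 = D := by omega
    rw [h1]
    exact_mod_cast heq.symm
  refine ⟨⟨htr, ?_, ?_⟩, hNval, by exact_mod_cast heq⟩
  · -- non-identity element with a fixed point
    have h1 : Nat.card (MulAction.orbit G ω₀) * Nat.card (MulAction.stabilizer G ω₀) = N := by
      rw [hN, ← Nat.card_eq_fintype_card]
      have := Subgroup.card_mul_index (MulAction.stabilizer G ω₀)
      rw [MulAction.index_stabilizer, ← Nat.card_coe_set_eq] at this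
      rw [mul_comm]
      exact this
    have h2 : Nat.card (MulAction.orbit G ω₀) = n := by
      rw [MulAction.orbit_eq_univ, Nat.card_coe_set_eq, Set.ncard_univ, Nat.card_eq_fintype_card, hn']
    rw [h2, hNval] at h1
    have h3 : Nat.card (MulAction.stabilizer G ω₀) = n - 1 := Nat.eq_of_mul_eq_mul_left (by omega) h1
    have h4 : 1 < Nat.card (MulAction.stabilizer G ω₀) := by omega
    haveI := Finite.one_lt_card_iff_nontrivial.1 h4
    obtain ⟨⟨g, hg⟩, hg1⟩ := exists_ne (1 : MulAction.stabilizer G ω₀)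
    exact ⟨g, fun h => hg1 (Subtype.ext h), ω₀, hg⟩
  · intro g hg
    show π g ≤ 1
    rcases hvals g hg with h | h <;> omega


end Cfsg.Agent.S5729
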