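import Cfsg.Statements.S5738
-- import your own Cfsg.Agent.* helpers here

set_option autoImplicit false
open Cfsg

namespace Cfsg.Agent.S5738

/-- Let F ⊆ K be finite fields with |F| = q and [K : F] = n ≥ 2, so |K| = q^n. Regard K as an n-dimensional F-vector space; the multiplications by non-zero elements of K form a cyclic subgroup of GL_F(K) of order q^n − 1 acting regularly on the non-zero vectors (a Singer group). Its normaliser in GL_F(K) has order n·(q^n − 1). -/
theorem result {F K : Type*} [Field F] [Fintype F] [Field K] [Fintype K] [Algebra F K] (n : ℕ) (hn : 2 ≤ n) (hdim : Module.finrank F K = n) :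
    Nat.card (Subgroup.normalizer (((Units.map ((Algebra.lmul F K : K →ₐ[F] Module.End F K) : K →* Module.End F K)).range : Subgroup (Module.End F K)ˣ) : Set (Module.End F K)ˣ)) = n * (Fintype.card K - 1) := by
  classical
  obtain ⟨m, hm⟩ : ∃ m : Kˣ →* (Module.End F K)ˣ, m = Units.map ((Algebra.lmul F K : K →ₐ[F] Module.End F K) : K →* Module.End F K) := ⟨_, rfl⟩
  rw [← hm]
  have hmv : ∀ (u : Kˣ) (x : K), ((m u : (Module.End F K)ˣ) : Module.End F K) x = (u : K) * x := by
    intro u x
    rw [hm]
    rfl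
  have hinj : Function.Injective m := by
    intro u v huv
    apply Units.ext
    have := congrArg (fun h : (Module.End F K)ˣ => (h : Module.End F K) 1) huv
    simpa [hmv] using this
  -- the semilinear units
  let S : (K ≃ₐ[F] K) → (Module.End F K)ˣ := fun σ => LinearMap.GeneralLinearGroup.ofLinearEquiv σ.toLinearEquiv
  have hSv : ∀ (σ : K ≃ₐ[F] K) (x : K), ((S σ : (Module.End F K)ˣ) : Module.End F K) x = σ x := fun σ x => rfl
  have hSinv : ∀ (σ : K ≃ₐ[F] K) (x : K), (((S σ)⁻¹ : (Module.End F K)ˣ) : Module.End F K) x = σ.symm x := fun σ x => rfl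
  have hconj : ∀ (σ : K ≃ₐ[F] K) (v : Kˣ), S σ * m v = m (Units.map (σ : K →* K) v) * S σ := by
    intro σ v
    apply Units.ext
    apply LinearMap.ext
    intro x
    simp only [Units.val_mul, Module.End.mul_apply, hmv, hSv, map_mul]
    rfl
  let Φ : Kˣ × (K ≃ₐ[F] K) → Subgroup.normalizer ((m.range : Subgroup (Module.End F K)ˣ) : Set (Module.End F K)ˣ) := fun p =>
    ⟨m p.1 * S p.2, by
      rw [Subgroup.mem_normalizer_iff]
      intro h
      have e : ∀ v : Kˣ, (m p.1 * S p.2) * m v * (m p.1 * S p.2)⁻¹ = m (Units.map (p.2 : K →* K) v) := by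
        intro v
        calc (m p.1 * S p.2) * m v * (m p.1 * S p.2)⁻¹ = m p.1 * (S p.2 * m v) * (S p.2)⁻¹ * (m p.1)⁻¹ := by group
          _ = m p.1 * (m (Units.map (p.2 : K →* K) v) * S p.2) * (S p.2)⁻¹ * (m p.1)⁻¹ := by rw [hconj]
          _ = m p.1 * m (Units.map (p.2 : K →* K) v) * (m p.1)⁻¹ := by group
          _ = m (Units.map (p.2 : K →* K) v) := by
            rw [← map_mul, mul_comm, map_mul, mul_inv_cancel_right]
      constructor
      · rintro ⟨v, rfl⟩
        rw [e]
        exact ⟨_, rfl⟩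
      · rintro ⟨w, hw⟩
        refine ⟨Units.map (p.2.symm : K →* K) w, ?_⟩
        have h1 := e (Units.map (p.2.symm : K →* K) w)
        have h2 : Units.map (p.2 : K →* K) (Units.map (p.2.symm : K →* K) w) = w := by
          apply Units.ext
          simp
        rw [h2, hw] at h1
        exact mul_left_cancel (mul_right_cancel h1)⟩
  have hΦv : ∀ (p : Kˣ × (K ≃ₐ[F] K)) (x : K), (((Φ p : (Module.End F K)ˣ)) : Module.End F K) x = (p.1 : K) * p.2 x := by
    intro p x
    show ((m p.1 * S p.2 : (Module.End F K)ˣ) : Module.End F K) x = _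
    rw [Units.val_mul, Module.End.mul_apply, hmv, hSv]
  have hΦinj : Function.Injective Φ := by
    rintro ⟨u, σ⟩ ⟨u', σ'⟩ he
    have h1 : ∀ x, (u : K) * σ x = (u' : K) * σ' x := by
      intro x
      have := hΦv (u, σ) x
      rw [he, hΦv] at this
      exact this.symm
    have h2 : u = u' := by
      apply Units.ext
      simpa using h1 1
    subst h2
    have h3 : σ = σ' := by
      ext x
      exact mul_left_cancel₀ u.ne_zero (h1 x)
    rw [h3]
  have hΦsurj : Function.Surjective Φ := by
    rintro ⟨g, hg⟩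
    rw [Subgroup.mem_normalizer_iff] at hg
    have hy : (g : Module.End F K) 1 ≠ 0 := by
      intro h0
      have h2 : ((g⁻¹ : (Module.End F K)ˣ) : Module.End F K) ((g : Module.End F K) 1) = 1 := by
        rw [← Module.End.mul_apply, Units.inv_mul]
        rfl
      rw [h0, map_zero] at h2
      exact zero_ne_one h2
    obtain ⟨y, hyd⟩ : ∃ y, y = (g : Module.End F K) 1 := ⟨_, rfl⟩
    rw [← hyd] at hy
    let l : K →ₗ[F] K := (LinearMap.mulLeft F y⁻¹) ∘ₗ (g : Module.End F K)
    have hl : ∀ x, l x = y⁻¹ * (g : Module.End F K) x := fun x => rfl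
    have hτ : ∀ v : Kˣ, ∃ τ : Kˣ, g * m v * g⁻¹ = m τ ∧ (τ : K) = l v := by
      intro v
      obtain ⟨τ, hτ⟩ := (hg (m v)).1 ⟨v, rfl⟩
      refine ⟨τ, hτ.symm, ?_⟩
      have h1 : g * m v = m τ * g := by
        rw [hτ]
        group
      have h2 := congrArg (fun h : (Module.End F K)ˣ => (h : Module.End F K) 1) h1
      simp only [Units.val_mul, Module.End.mul_apply, hmv, mul_one] at h2
      rw [hl, h2, ← hyd]
      field_simp
    have hone : l 1 = 1 := by
      rw [hl, ← hyd, inv_mul_cancel₀ hy]
    have hmul : ∀ a b, l (a * b) = l a * l b := by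
      intro a b
      by_cases ha : a = 0
      · rw [ha, zero_mul, map_zero, zero_mul]
      by_cases hb : b = 0
      · rw [hb, mul_zero, map_zero, mul_zero]
      obtain ⟨τa, h1a, h2a⟩ := hτ (Units.mk0 a ha)
      obtain ⟨τb, h1b, h2b⟩ := hτ (Units.mk0 b hb)
      obtain ⟨τc, h1c, h2c⟩ := hτ (Units.mk0 a ha * Units.mk0 b hb)
      have h3 : m τc = m τa * m τb := by
        rw [← h1c, ← h1a, ← h1b, map_mul]
        group
      have h4 : τc = τa * τb := by
        apply hinj
        rw [h3, map_mul]
      simp only [Units.val_mk0, Units.val_mul] at h2a h2b h2c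
      rw [← h2a, ← h2b, ← h2c, h4, Units.val_mul]
    let A : K →ₐ[F] K := AlgHom.ofLinearMap l hone hmul
    have hA : ∀ x, A x = l x := fun x => rfl
    let σ : K ≃ₐ[F] K := AlgEquiv.ofBijective A ⟨A.toRingHom.injective, Finite.injective_iff_surjective.1 A.toRingHom.injective⟩
    have hσ : ∀ x, σ x = l x := fun x => rfl
    refine ⟨(Units.mk0 y hy, σ), ?_⟩
    apply Subtype.ext
    apply Units.ext
    apply LinearMap.ext
    intro x
    rw [hΦv]
    simp only [Units.val_mk0]
    rw [hσ, hl]
    field_simp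
  have hcard := Nat.card_congr (Equiv.ofBijective Φ ⟨hΦinj, hΦsurj⟩)
  rw [← hcard, Nat.card_prod, IsGalois.card_aut_eq_finrank, hdim, Nat.card_eq_fintype_card, Fintype.card_units, mul_comm]


end Cfsg.Agent.S5738
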