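import Cfsg.Statements.S5739


set_option autoImplicit false
open Cfsg

namespace Cfsg.Agent.S5739




/-- Let F ⊆ K be finite fields with |F| = q and [K : F] = n ≥ 2, and let M ≤ GL_F(K) be the Singer group of multiplications by non-zero elements of K. If g ∈ GL_F(K) does not normalise M, then the order of M ∩ gMg⁻¹ divides q^r − 1 for some proper divisor r of n. In particular, when n is prime, that order divides q − 1. -/
theorem result {F K : Type*} [Field F] [Fintype F] [Field K] [Fintype K] [Algebra F K] (n : ℕ) (hn : 2 ≤ n) (hdim : Module.finrank F K = n)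
    (g : (Module.End F K)ˣ) (hg : ((Units.map ((Algebra.lmul F K : K →ₐ[F] Module.End F K) : K →* Module.End F K)).range).map (MulAut.conj g).toMonoidHom ≠ (Units.map ((Algebra.lmul F K : K →ₐ[F] Module.End F K) : K →* Module.End F K)).range) :
    ∃ r : ℕ, 1 ≤ r ∧ r ∣ n ∧ r < n ∧ Nat.card ↥(((Units.map ((Algebra.lmul F K : K →ₐ[F] Module.End F K) : K →* Module.End F K)).range).map (MulAut.conj g).toMonoidHom ⊓ (Units.map ((Algebra.lmul F K : K →ₐ[F] Module.End F K) : K →* Module.End F K)).range) ∣ Fintype.card F ^ r - 1 := by
  classical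
  set φ : Kˣ →* (Module.End F K)ˣ := Units.map ((Algebra.lmul F K : K →ₐ[F] Module.End F K) : K →* Module.End F K) with hφ
  have hφa : ∀ (a : Kˣ) (x : K), ((φ a : (Module.End F K)ˣ) : Module.End F K) x = (a : K) * x := fun a x => rfl
  have hφinj : Function.Injective φ := by
    intro a b hab
    have := hφa a 1
    rw [hab, hφa b 1, mul_one, mul_one] at this
    exact Units.ext this.symm
  set M : Subgroup (Module.End F K)ˣ := φ.range with hM
  set gM : Subgroup (Module.End F K)ˣ := M.map (MulAut.conj g).toMonoidHom with hgM
  let S : Subgroup Kˣ := gM.comap φ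
  let A : Set K := {x | ∃ a ∈ S, (a : K) = x}
  let L : IntermediateField F K := IntermediateField.adjoin F A
  -- every element of `gM` commutes with the Singer elements in `S`
  have hcomm : ∀ h ∈ gM, ∀ a ∈ S, h * φ a = φ a * h := by
    rintro h ⟨_, ⟨b, rfl⟩, rfl⟩ a ha
    obtain ⟨_, ⟨c, rfl⟩, hc⟩ := (show φ a ∈ gM from ha)
    rw [← hc]
    simp only [MulEquiv.coe_toMonoidHom, map_mul, ← map_mul]
    congr 1
    rw [mul_comm]
  -- extension to all of `L`
  have hL : ∀ h ∈ gM, ∀ k ∈ L, ∀ x : K, ((h : (Module.End F K)ˣ) : Module.End F K) (k * x) = k * ((h : (Module.End F K)ˣ) : Module.End F K) x := by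
    intro h hh k hk
    induction hk using IntermediateField.adjoin_induction with
    | mem k hk =>
      obtain ⟨a, ha, rfl⟩ := hk
      intro x
      have := congrArg (fun u : (Module.End F K)ˣ => (u : Module.End F K) x) (hcomm h hh a ha)
      simpa [hφa] using this
    | algebraMap c =>
      intro x
      rw [← Algebra.smul_def, map_smul, Algebra.smul_def]
    | add u v _ _ hu hv =>
      intro x
      rw [add_mul, map_add, hu, hv, add_mul]
    | mul u v _ _ hu hv =>
      intro x
      rw [mul_assoc, hu, hv, mul_assoc]
    | inv u _ hu =>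
      intro x
      by_cases h0 : u = 0
      · subst h0
        simp
      · have := hu (u⁻¹ * x)
        rw [mul_inv_cancel_left₀ h0] at this
        rw [this, inv_mul_cancel_left₀ h0]
  -- the degree
  refine ⟨Module.finrank F L, Module.finrank_pos, ?_, ?_, ?_⟩
  · rw [← hdim]
    exact ⟨_, (Module.finrank_mul_finrank F L K).symm⟩
  · have hle : Module.finrank F L ≤ n := by
      rw [← hdim]
      exact Nat.le_of_dvd (by rw [hdim]; omega) ⟨_, (Module.finrank_mul_finrank F L K).symm⟩
    refine lt_of_le_of_ne hle ?_
    intro hr
    have hLtop : L = ⊤ := by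
      apply IntermediateField.eq_of_le_of_finrank_eq le_top
      rw [hr, IntermediateField.finrank_top', hdim]
    apply hg
    have hle2 : gM ≤ M := by
      intro h hh
      have hlin : ∀ k x : K, ((h : (Module.End F K)ˣ) : Module.End F K) (k * x) = k * ((h : (Module.End F K)ˣ) : Module.End F K) x :=
        fun k x => hL h hh k (by rw [hLtop]; trivial) x
      set c : K := ((h : (Module.End F K)ˣ) : Module.End F K) 1 with hc
      have hform : ∀ x, ((h : (Module.End F K)ˣ) : Module.End F K) x = c * x := by
        intro x
        have := hlin x 1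
        rw [mul_one] at this
        rw [this, mul_comm]
      have hc0 : c ≠ 0 := by
        intro h0
        have h1 : ((h⁻¹ : (Module.End F K)ˣ) : Module.End F K) (((h : (Module.End F K)ˣ) : Module.End F K) 1) = 1 := by
          have h2 : (((h⁻¹ : (Module.End F K)ˣ) : Module.End F K) * ((h : (Module.End F K)ˣ) : Module.End F K)) 1 = (1 : Module.End F K) 1 := by
            rw [Units.inv_mul]
          exact h2
        rw [← hc, h0, map_zero] at h1
        exact zero_ne_one h1
      refine ⟨Units.mk0 c hc0, ?_⟩
      apply Units.ext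
      ext x
      rw [hφa, Units.val_mk0, hform]
    have hcard : Nat.card gM = Nat.card M := by
      exact Subgroup.card_map_of_injective (MulAut.conj g).injective
    exact Subgroup.eq_of_le_of_card_ge hle2 (le_of_eq hcard.symm)
  · -- the order
    have h1 : gM ⊓ M = S.map φ := by
      rw [Subgroup.map_comap_eq, inf_comm]
    rw [h1, Subgroup.card_map_of_injective hφinj]
    let U : Subgroup Kˣ := (Units.map ((L.val : L →ₐ[F] K) : L →* K)).range
    have hSU : S ≤ U := by
      intro a ha
      have haL : (a : K) ∈ L := IntermediateField.subset_adjoin F A ⟨a, ha, rfl⟩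
      have haL' : (a⁻¹ : Kˣ).val ∈ L := IntermediateField.subset_adjoin F A ⟨a⁻¹, S.inv_mem ha, rfl⟩
      refine ⟨⟨⟨_, haL⟩, ⟨_, haL'⟩, Subtype.ext (by simp), Subtype.ext (by simp)⟩, ?_⟩
      apply Units.ext
      rfl
    have hUcard : Nat.card U = Fintype.card F ^ Module.finrank F L - 1 := by
      have hinj : Function.Injective (Units.map ((L.val : L →ₐ[F] K) : L →* K)) := by
        intro a b hab
        apply Units.ext
        apply Subtype.ext
        exact congrArg Units.val hab
      rw [show Nat.card U = Nat.card Lˣ from Nat.card_congr (MonoidHom.ofInjective hinj).toEquiv.symm]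
      rw [Nat.card_eq_fintype_card, Fintype.card_units, Module.card_eq_pow_finrank (K := F) (V := L)]
    rw [← hUcard]
    exact Subgroup.card_dvd_of_le hSU

end Cfsg.Agent.S5739
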