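import Cfsg.Statements.S5747


set_option autoImplicit false
open Cfsg

namespace Cfsg.Agent.S5747


section
variable {G Ω : Type*} [Group G] [MulAction G Ω]

/-- Pointwise fixer of a finset is trivial. -/
def IsBase (G : Type*) {Ω : Type*} [Group G] [MulAction G Ω] (A : Finset Ω) : Prop :=
  ∀ g : G, (∀ x ∈ A, g • x = x) → g = 1

/-- An irredundant base, as a function. -/
def Irred (G : Type*) {Ω : Type*} [Group G] [MulAction G Ω] {t : ℕ} (f : Fin t → Ω) : Prop :=
  (∀ g : G, (∀ i : Fin t, g • f i = f i) → g = 1) ∧
    ∀ i : Fin t, ∃ g : G, (∀ j : Fin t, j < i → g • f j = f j) ∧ g • f i ≠ f i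

theorem Irred.injective {t : ℕ} {f : Fin t → Ω} (h : Irred G f) : Function.Injective f := by
  intro i j hij
  by_contra hne
  wlog hlt : i < j generalizing i j
  · exact this hij.symm (Ne.symm hne) (lt_of_le_of_ne (not_lt.1 hlt) (Ne.symm hne))
  obtain ⟨g, h1, h2⟩ := h.2 j
  exact h2 (by rw [← hij]; exact h1 i hlt)

/-- A minimal base. -/
def IsMinBase (G : Type*) {Ω : Type*} [Group G] [MulAction G Ω] [DecidableEq Ω] (A : Finset Ω) : Prop :=
  IsBase G A ∧ ∀ a ∈ A, ¬ IsBase G (A.erase a)

variable [DecidableEq Ω]

theorem IsMinBase.moves {A : Finset Ω} (h : IsMinBase G A) {a : Ω} (ha : a ∈ A) :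
    ∃ g : G, (∀ x ∈ A, x ≠ a → g • x = x) ∧ g • a ≠ a := by
  have := h.2 a ha
  unfold IsBase at this
  push Not at this
  obtain ⟨g, h1, h2⟩ := this
  refine ⟨g, fun x hx hxa => h1 x (Finset.mem_erase.2 ⟨hxa, hx⟩), ?_⟩
  intro hga
  apply h2
  apply h.1
  intro x hx
  by_cases hxa : x = a
  · rw [hxa]; exact hga
  · exact h1 x (Finset.mem_erase.2 ⟨hxa, hx⟩)

theorem exists_minBase {A : Finset Ω} (h : IsBase G A) : ∃ B ⊆ A, IsMinBase G B := by
  induction A using Finset.strongInduction with
  | H A ih =>
    by_cases hm : ∀ a ∈ A, ¬ IsBase G (A.erase a)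
    · exact ⟨A, subset_rfl, h, hm⟩
    · push Not at hm
      obtain ⟨a, ha, hb⟩ := hm
      obtain ⟨B, hB, hB'⟩ := ih _ (Finset.erase_ssubset ha) hb
      exact ⟨B, hB.trans (Finset.erase_subset _ _), hB'⟩

end

section
variable {G Ω : Type*} [Group G] [MulAction G Ω] [DecidableEq Ω]

/-- Irredundancy of a list. -/
theorem irred_of_list (l : List Ω) (hnd : l.Nodup) (hb : IsBase G l.toFinset)
    (hmove : ∀ i : Fin l.length, ∃ g : G, (∀ j : Fin l.length, j < i → g • l.get j = l.get j) ∧ g • l.get i ≠ l.get i) :
    Irred G l.get := by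
  refine ⟨fun g hg => hb g ?_, hmove⟩
  intro x hx
  rw [List.mem_toFinset] at hx
  obtain ⟨i, rfl⟩ := List.get_of_mem hx
  exact hg i

/-- The key device: a free set followed by an extra set which is minimal over it gives
an irredundant base. -/
theorem irred_ext (A S : Finset Ω) (hd : Disjoint A S)
    (hA : ∀ a ∈ A, ∃ g : G, (∀ x ∈ A, x ≠ a → g • x = x) ∧ g • a ≠ a)
    (hb : IsBase G (A ∪ S)) (hS : ∀ s ∈ S, ¬ IsBase G (A ∪ S.erase s)) :
    ∃ (t : ℕ) (f : Fin t → Ω), Irred G f ∧ t = (A ∪ S).card ∧ ∀ x, x ∈ A ∪ S ↔ ∃ i, f i = x := by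
  classical
  let l : List Ω := A.toList ++ S.toList
  have hnd : l.Nodup := by
    rw [List.nodup_append]
    refine ⟨A.nodup_toList, S.nodup_toList, ?_⟩
    intro a ha b hb hab
    rw [Finset.mem_toList] at ha hb
    subst hab
    exact Finset.disjoint_left.1 hd ha hb
  have hmem : ∀ x, x ∈ l ↔ x ∈ A ∪ S := by
    intro x
    simp [l]
  have hfin : l.toFinset = A ∪ S := by
    ext x
    rw [List.mem_toFinset, hmem]
  have hlen : l.length = (A ∪ S).card := by
    rw [← hfin, List.toFinset_card_of_nodup hnd]
  refine ⟨l.length, l.get, ?_, hlen, ?_⟩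
  · apply irred_of_list l hnd (by rw [hfin]; exact hb)
    intro i
    have hinj : ∀ j : Fin l.length, j ≠ i → l.get j ≠ l.get i := by
      intro j hj he
      exact hj (List.Nodup.get_inj_iff hnd |>.1 he)
    by_cases hi : (i : ℕ) < A.toList.length
    · have hi' : l.get i ∈ A := by
        have : l.get i = A.toList[(i : ℕ)] := by
          simp [l, List.getElem_append_left hi]
        rw [this, ← Finset.mem_toList]
        exact List.getElem_mem _
      obtain ⟨g, h1, h2⟩ := hA _ hi'
      refine ⟨g, fun j hj => h1 _ ?_ (hinj j (ne_of_lt hj)), h2⟩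
      have hj' : (j : ℕ) < A.toList.length := lt_trans hj hi
      have : l.get j = A.toList[(j : ℕ)] := by
        simp [l, List.getElem_append_left hj']
      rw [this, ← Finset.mem_toList]
      exact List.getElem_mem _
    · have hi' : l.get i ∈ S := by
        have hii : (i : ℕ) - A.toList.length < S.toList.length := by
          have := i.2
          simp only [l, List.length_append] at this
          omega
        have : l.get i = S.toList[(i : ℕ) - A.toList.length] := by
          simp only [List.get_eq_getElem, l]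
          rw [List.getElem_append_right (not_lt.1 hi)]
        rw [this, ← Finset.mem_toList]
        exact List.getElem_mem _
      have hns := hS _ hi'
      unfold IsBase at hns
      push Not at hns
      obtain ⟨g, h1, h2⟩ := hns
      refine ⟨g, fun j hj => h1 _ ?_, ?_⟩
      · have hjm : l.get j ∈ A ∪ S := (hmem _).1 (List.get_mem _ _)
        rw [Finset.mem_union] at hjm ⊢
        rcases hjm with h | h
        · exact Or.inl h
        · exact Or.inr (Finset.mem_erase.2 ⟨hinj j (ne_of_lt hj), h⟩)
      · intro hgi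
        apply h2
        apply hb
        intro x hx
        by_cases hxe : x = l.get i
        · rw [hxe]; exact hgi
        · apply h1
          rw [Finset.mem_union] at hx ⊢
          rcases hx with h | h
          · exact Or.inl h
          · exact Or.inr (Finset.mem_erase.2 ⟨hxe, h⟩)
  · intro x
    rw [← hmem]
    constructor
    · intro hx
      exact List.get_of_mem hx
    · rintro ⟨i, rfl⟩
      exact List.get_mem _ _

/-- Every ordering of a minimal base is irredundant. -/
theorem minBase_irred [Fintype Ω] {A : Finset Ω} (h : IsMinBase G A) :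
    ∃ f : Fin A.card → Ω, Irred G f ∧ ∀ x, x ∈ A ↔ ∃ i, f i = x := by
  classical
  let e := A.equivFin
  refine ⟨fun i => (e.symm i : Ω), ⟨fun g hg => h.1 g ?_, ?_⟩, ?_⟩
  · intro x hx
    have := hg (e ⟨x, hx⟩)
    simpa using this
  · intro i
    obtain ⟨g, h1, h2⟩ := h.moves (e.symm i).2
    refine ⟨g, fun j hj => h1 _ (e.symm j).2 ?_, h2⟩
    intro he
    have : e.symm j = e.symm i := Subtype.ext he
    exact (ne_of_lt hj) (e.symm.injective this)
  · intro x
    constructor
    · intro hx
      exact ⟨e ⟨x, hx⟩, by simp⟩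
    · rintro ⟨i, rfl⟩
      exact (e.symm i).2

/-- If a reordering-closed family: the underlying set of an irredundant base is a minimal base. -/
theorem minBase_of_reorder
    (hP : ∀ (t : ℕ) (f : Fin t → Ω) (σ : Equiv.Perm (Fin t)), Irred G f → Irred G (f ∘ σ))
    {t : ℕ} {f : Fin t → Ω} (hf : Irred G f) {A : Finset Ω} (hA : ∀ x, x ∈ A ↔ ∃ i, f i = x) :
    IsMinBase G A := by
  classical
  refine ⟨fun g hg => hf.1 g fun i => hg _ ((hA _).2 ⟨i, rfl⟩), ?_⟩
  intro a ha hbase
  obtain ⟨i, rfl⟩ := (hA a).1 ha
  have hpos : 0 < t := lt_of_le_of_lt (Nat.zero_le _) i.2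
  let last : Fin t := ⟨t - 1, by omega⟩
  have hirr := hP t f (Equiv.swap i last) hf
  obtain ⟨g, h1, h2⟩ := hirr.2 last
  simp only [Function.comp_apply, Equiv.swap_apply_right] at h1 h2
  apply h2
  have : g = 1 := by
    apply hbase
    intro x hx
    rw [Finset.mem_erase] at hx
    obtain ⟨k, rfl⟩ := (hA x).1 hx.2
    have hki : k ≠ i := fun h => hx.1 (by rw [h])
    by_cases hkl : k = last
    · -- the element at `last` has been swapped into position i
      have := h1 i (by
        have : i ≠ last := fun h => hki (by rw [hkl, h])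
        refine lt_of_le_of_ne ?_ this
        show (i : ℕ) ≤ t - 1
        have := i.2
        omega)
      rw [Equiv.swap_apply_left] at this
      rw [hkl]
      exact this
    · have := h1 k (by
        refine lt_of_le_of_ne ?_ hkl
        show (k : ℕ) ≤ t - 1
        have := k.2
        omega)
      rwa [Equiv.swap_apply_of_ne_of_ne hki hkl] at this
  rw [this, one_smul]

/-- Exchange: two minimal bases have the same size. -/
theorem card_eq_of_reorder [Fintype Ω]
    (hP : ∀ (t : ℕ) (f : Fin t → Ω) (σ : Equiv.Perm (Fin t)), Irred G f → Irred G (f ∘ σ))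
    (n : ℕ) : ∀ (B C : Finset Ω), (C \ B).card = n → IsMinBase G B → IsMinBase G C → B.card = C.card := by
  classical
  induction n with
  | zero =>
    intro B C hn hB hC
    have hsub : C ⊆ B := by
      rw [Finset.card_eq_zero, Finset.sdiff_eq_empty_iff_subset] at hn
      exact hn
    have : C = B := by
      apply Finset.Subset.antisymm hsub
      intro b hb
      by_contra hbc
      apply hB.2 b hb
      intro g hg
      apply hC.1 g
      intro x hx
      apply hg
      refine Finset.mem_erase.2 ⟨?_, hsub hx⟩
      rintro rfl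
      exact hbc hx
    rw [this]
  | succ n ih =>
    intro B C hn hB hC
    -- pick `c ∈ C \ B`
    obtain ⟨c, hc⟩ : (C \ B).Nonempty := by
      rw [← Finset.card_pos]; omega
    rw [Finset.mem_sdiff] at hc
    let I : Finset Ω := insert c (B ∩ C)
    have hIC : I ⊆ C := by
      intro x hx
      rw [Finset.mem_insert, Finset.mem_inter] at hx
      rcases hx with rfl | h
      · exact hc.1
      · exact h.2
    have hIfree : ∀ a ∈ I, ∃ g : G, (∀ x ∈ I, x ≠ a → g • x = x) ∧ g • a ≠ a := by
      intro a ha
      obtain ⟨g, h1, h2⟩ := hC.moves (hIC ha)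
      exact ⟨g, fun x hx hxa => h1 x (hIC hx) hxa, h2⟩
    have hbase0 : IsBase G (I ∪ (B \ C)) := by
      intro g hg
      apply hB.1
      intro x hx
      apply hg
      rw [Finset.mem_union, Finset.mem_sdiff]
      by_cases hxc : x ∈ C
      · exact Or.inl (Finset.mem_insert_of_mem (Finset.mem_inter.2 ⟨hx, hxc⟩))
      · exact Or.inr ⟨hx, hxc⟩
    -- choose `S ⊆ B \ C` minimal
    obtain ⟨S, hSsub, hSb, hSmin⟩ : ∃ S ⊆ B \ C, IsBase G (I ∪ S) ∧ ∀ s ∈ S, ¬ IsBase G (I ∪ S.erase s) := by
      have key : ∀ (T : Finset Ω), IsBase G (I ∪ T) → ∃ S ⊆ T, IsBase G (I ∪ S) ∧ ∀ s ∈ S, ¬ IsBase G (I ∪ S.erase s) := by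
        intro T
        induction T using Finset.strongInduction with
        | H T ih' =>
          intro hT
          by_cases hm : ∀ s ∈ T, ¬ IsBase G (I ∪ T.erase s)
          · exact ⟨T, subset_rfl, hT, hm⟩
          · push Not at hm
            obtain ⟨s, hs, hb⟩ := hm
            obtain ⟨S, hS, hS'⟩ := ih' _ (Finset.erase_ssubset hs) hb
            exact ⟨S, hS.trans (Finset.erase_subset _ _), hS'⟩
      exact key _ hbase0
    have hdIS : Disjoint I S := by
      rw [Finset.disjoint_left]
      intro x hx hxS
      have hx' := hSsub hxS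
      rw [Finset.mem_sdiff] at hx'
      exact hx'.2 (hIC hx)
    obtain ⟨t₁, f₁, hf₁, -, hm₁⟩ := irred_ext I S hdIS hIfree hSb hSmin
    have hB₁ : IsMinBase G (I ∪ S) := minBase_of_reorder hP hf₁ hm₁
    -- the removed points
    let T : Finset Ω := (B \ C) \ S
    have hBdecomp : ∀ x ∈ B, x ∈ B ∩ C ∨ x ∈ S ∨ x ∈ T := by
      intro x hx
      by_cases hxc : x ∈ C
      · exact Or.inl (Finset.mem_inter.2 ⟨hx, hxc⟩)
      · by_cases hxS : x ∈ S
        · exact Or.inr (Or.inl hxS)
        · exact Or.inr (Or.inr (Finset.mem_sdiff.2 ⟨Finset.mem_sdiff.2 ⟨hx, hxc⟩, hxS⟩))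
    have hSB : S ⊆ B := fun x hx => (Finset.mem_sdiff.1 (hSsub hx)).1
    have hTB : T ⊆ B := fun x hx => (Finset.mem_sdiff.1 (Finset.mem_sdiff.1 hx).1).1
    -- `T` is nonempty
    have hTne : T.Nonempty := by
      by_contra hTe
      rw [Finset.not_nonempty_iff_eq_empty] at hTe
      -- then `B ⊂ I ∪ S`, and `c` is redundant
      apply hB₁.2 c (Finset.mem_union_left _ (Finset.mem_insert_self _ _))
      intro g hg
      apply hB.1
      intro x hx
      apply hg
      have hxc : x ≠ c := fun h => hc.2 (h ▸ hx)
      refine Finset.mem_erase.2 ⟨hxc, ?_⟩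
      rcases hBdecomp x hx with h | h | h
      · exact Finset.mem_union_left _ (Finset.mem_insert_of_mem h)
      · exact Finset.mem_union_right _ h
      · rw [hTe] at h
        simp at h
    -- `T` has at most one element
    have hTsub : ∀ d₁ ∈ T, ∀ d₂ ∈ T, d₁ = d₂ := by
      intro d₁ hd₁ d₂ hd₂
      by_contra hne
      let A₀ : Finset Ω := insert d₁ ((B ∩ C) ∪ S)
      have hA₀B : A₀ ⊆ B := by
        intro x hx
        rw [Finset.mem_insert, Finset.mem_union, Finset.mem_inter] at hx
        rcases hx with rfl | h | h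
        · exact hTB hd₁
        · exact h.1
        · exact hSB h
      have hd₂A₀ : d₂ ∉ A₀ := by
        intro h
        rw [Finset.mem_insert, Finset.mem_union, Finset.mem_inter] at h
        have hd₂' := Finset.mem_sdiff.1 hd₂
        have hd₂'' := Finset.mem_sdiff.1 hd₂'.1
        rcases h with h | h | h
        · exact hne h.symm
        · exact hd₂''.2 h.2
        · exact hd₂'.2 h
      have hcA₀ : c ∉ A₀ := fun h => hc.2 (hA₀B h)
      have hA₀free : ∀ a ∈ A₀, ∃ g : G, (∀ x ∈ A₀, x ≠ a → g • x = x) ∧ g • a ≠ a := by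
        intro a ha
        obtain ⟨g, h1, h2⟩ := hB.moves (hA₀B ha)
        exact ⟨g, fun x hx hxa => h1 x (hA₀B hx) hxa, h2⟩
      have hbase1 : IsBase G (A₀ ∪ {c}) := by
        intro g hg
        apply hSb
        intro x hx
        apply hg
        rw [Finset.mem_union] at hx ⊢
        rw [Finset.mem_insert, Finset.mem_inter] at hx
        rcases hx with (rfl | h) | h
        · exact Or.inr (Finset.mem_singleton_self _)
        · exact Or.inl (Finset.mem_insert_of_mem (Finset.mem_union_left _ (Finset.mem_inter.2 h)))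
        · exact Or.inl (Finset.mem_insert_of_mem (Finset.mem_union_right _ h))
      have hmin1 : ∀ s ∈ ({c} : Finset Ω), ¬ IsBase G (A₀ ∪ ({c} : Finset Ω).erase s) := by
        intro s hs
        rw [Finset.mem_singleton] at hs
        subst hs
        have : ({s} : Finset Ω).erase s = ∅ := by simp
        rw [this, Finset.union_empty]
        intro hb'
        -- `A₀` inside `B.erase d₂` would be a base
        apply hB.2 d₂ (hTB hd₂)
        intro g hg
        apply hb' g
        intro x hx
        apply hg
        refine Finset.mem_erase.2 ⟨fun h => hd₂A₀ (h ▸ hx), hA₀B hx⟩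
      obtain ⟨t₂, f₂, hf₂, -, hm₂⟩ := irred_ext A₀ {c} (by simpa using hcA₀) hA₀free hbase1 hmin1
      have hB₂ := minBase_of_reorder hP hf₂ hm₂
      -- contains a proper base
      have hd₁mem : d₁ ∈ A₀ ∪ {c} := Finset.mem_union_left _ (Finset.mem_insert_self _ _)
      apply hB₂.2 d₁ hd₁mem
      intro g hg
      apply hSb
      intro x hx
      apply hg
      have hd₁' := Finset.mem_sdiff.1 hd₁
      have hd₁'' := Finset.mem_sdiff.1 hd₁'.1
      rw [Finset.mem_union, Finset.mem_insert, Finset.mem_inter] at hx
      refine Finset.mem_erase.2 ⟨?_, ?_⟩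
      · rintro rfl
        rcases hx with (h | h) | h
        · exact hd₁''.1 |> fun hh => hc.2 (h ▸ hh)
        · exact hd₁''.2 h.2
        · exact hd₁'.2 h
      · rw [Finset.mem_union]
        rcases hx with (rfl | h) | h
        · exact Or.inr (Finset.mem_singleton_self _)
        · exact Or.inl (Finset.mem_insert_of_mem (Finset.mem_union_left _ (Finset.mem_inter.2 h)))
        · exact Or.inl (Finset.mem_insert_of_mem (Finset.mem_union_right _ h))
    obtain ⟨d, hd⟩ := hTne
    have hTeq : T = {d} := by
      ext x
      rw [Finset.mem_singleton]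
      exact ⟨fun hx => hTsub x hx d hd, fun hx => hx ▸ hd⟩
    -- the exchanged base has the same size
    have hcard : (I ∪ S).card = B.card := by
      have hB' : B = insert d ((B ∩ C) ∪ S) := by
        ext x
        rw [Finset.mem_insert, Finset.mem_union]
        constructor
        · intro hx
          rcases hBdecomp x hx with h | h | h
          · exact Or.inr (Or.inl h)
          · exact Or.inr (Or.inr h)
          · rw [hTeq, Finset.mem_singleton] at h
            exact Or.inl h
        · rintro (rfl | h | h)
          · exact hTB hd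
          · exact (Finset.mem_inter.1 h).1
          · exact hSB h
      have hU : I ∪ S = insert c ((B ∩ C) ∪ S) := by
        simp only [I, Finset.insert_union]
      have hcn : c ∉ (B ∩ C) ∪ S := by
        rw [Finset.mem_union, Finset.mem_inter]
        rintro (h | h)
        · exact hc.2 h.1
        · exact hc.2 (hSB h)
      have hdn : d ∉ (B ∩ C) ∪ S := by
        have hd' := Finset.mem_sdiff.1 hd
        have hd'' := Finset.mem_sdiff.1 hd'.1
        rw [Finset.mem_union, Finset.mem_inter]
        rintro (h | h)
        · exact hd''.2 h.2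
        · exact hd'.2 h
      rw [hU, Finset.card_insert_of_notMem hcn]
      conv_rhs => rw [hB']
      rw [Finset.card_insert_of_notMem hdn]
    -- apply induction
    have hsd : (C \ (I ∪ S)).card = n := by
      have hsub : C \ (I ∪ S) = (C \ B).erase c := by
        ext x
        simp only [Finset.mem_sdiff, Finset.mem_union, Finset.mem_erase, I, Finset.mem_insert, Finset.mem_inter]
        constructor
        · rintro ⟨hxC, hx⟩
          push Not at hx
          refine ⟨hx.1.1, hxC, ?_⟩
          intro hxB
          exact hx.1.2 hxB hxC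
        · rintro ⟨hxc, hxC, hxB⟩
          refine ⟨hxC, ?_⟩
          rintro ((h | h) | h)
          · exact hxc h
          · exact hxB h.1
          · exact hxB (hSB h)
      rw [hsub, Finset.card_erase_of_mem (Finset.mem_sdiff.2 hc), hn]
      rfl
    rw [← hcard]
    exact ih _ _ hsd hB₁ hC

end


/-- Let a finite group G act on a finite set Ω. An irredundant base is a sequence of points ω₁, …, ω_t whose pointwise stabiliser is trivial and in which each ω_i is moved by some element fixing ω₁, …, ω_{i−1}. Then all irredundant bases have the same length if and only if every reordering of an irredundant base is again an irredundant base. -/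
theorem result {G Ω : Type*} [Group G] [Finite G] [MulAction G Ω] [Fintype Ω] :
    (∀ (t t' : ℕ) (f : Fin t → Ω) (f' : Fin t' → Ω), ((∀ g : G, (∀ i : Fin t, g • f i = f i) → g = 1) ∧ ∀ i : Fin t, ∃ g : G, (∀ j : Fin t, j < i → g • f j = f j) ∧ g • f i ≠ f i) → ((∀ g : G, (∀ i : Fin t', g • f' i = f' i) → g = 1) ∧ ∀ i : Fin t', ∃ g : G, (∀ j : Fin t', j < i → g • f' j = f' j) ∧ g • f' i ≠ f' i) → t = t') ↔
    (∀ (t : ℕ) (f : Fin t → Ω) (σ : Equiv.Perm (Fin t)), ((∀ g : G, (∀ i : Fin t, g • f i = f i) → g = 1) ∧ ∀ i : Fin t, ∃ g : G, (∀ j : Fin t, j < i → g • f j = f j) ∧ g • f i ≠ f i) → ((∀ g : G, (∀ i : Fin t, g • (f ∘ σ) i = (f ∘ σ) i) → g = 1) ∧ ∀ i : Fin t, ∃ g : G, (∀ j : Fin t, j < i → g • (f ∘ σ) j = (f ∘ σ) j) ∧ g • (f ∘ σ) i ≠ (f ∘ σ) i)) := by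
  classical
  constructor
  · -- all irredundant bases have the same length
    intro hall t f σ hf
    have hf' : Irred G f := hf
    refine ⟨fun g hg => hf.1 g fun i => ?_, ?_⟩
    · have := hg (σ⁻¹ i)
      simpa using this
    intro i
    by_contra hcon
    push Not at hcon
    -- `a` is redundant in the reordering
    let A : Finset Ω := Finset.univ.image f
    have hAcard : A.card = t := by
      rw [Finset.card_image_of_injective _ hf'.injective]
      simp
    let a : Ω := (f ∘ σ) i
    have ha : a ∈ A := Finset.mem_image_of_mem _ (Finset.mem_univ _)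
    have hb : IsBase G (A.erase a) := by
      intro g hg
      apply hf.1
      intro k
      by_cases hk : f k = a
      · rw [hk]
        apply hcon g
        intro j hj
        apply hg
        refine Finset.mem_erase.2 ⟨?_, Finset.mem_image_of_mem _ (Finset.mem_univ _)⟩
        intro he
        have : σ j = σ i := hf'.injective he
        exact (ne_of_lt hj) (σ.injective this)
      · exact hg _ (Finset.mem_erase.2 ⟨hk, Finset.mem_image_of_mem _ (Finset.mem_univ _)⟩)
    obtain ⟨B, hBsub, hB⟩ := exists_minBase hb
    obtain ⟨f₂, hf₂, -⟩ := minBase_irred hB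
    have hlen := hall t B.card f f₂ hf hf₂
    have hlt : B.card < t := by
      calc B.card ≤ (A.erase a).card := Finset.card_le_card hBsub
        _ < A.card := Finset.card_erase_lt_of_mem ha
        _ = t := hAcard
    omega
  · intro hP t t' f f' hf hf'
    have hP' : ∀ (t : ℕ) (f : Fin t → Ω) (σ : Equiv.Perm (Fin t)), Irred G f → Irred G (f ∘ σ) := hP
    have hf₁ : Irred G f := hf
    have hf₂ : Irred G f' := hf'
    have h1 := minBase_of_reorder hP' hf₁ (A := Finset.univ.image f) (by simp)
    have h2 := minBase_of_reorder hP' hf₂ (A := Finset.univ.image f') (by simp)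
    have := card_eq_of_reorder hP' _ _ _ rfl h1 h2
    rwa [Finset.card_image_of_injective _ hf₁.injective, Finset.card_image_of_injective _ hf₂.injective, Finset.card_univ, Finset.card_univ, Fintype.card_fin, Fintype.card_fin] at this

end Cfsg.Agent.S5747
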