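import Cfsg.Statements.S5754
-- import your own Cfsg.Agent.* helpers here

set_option autoImplicit false
open Cfsg

namespace Cfsg.Agent.S5754

variable {F V : Type*} [Field F] [AddCommGroup V] [Module F V]

/-- The reflection in an anisotropic vector, valid in all characteristics. -/
noncomputable def reflMap (Q : QuadraticForm F V) (w : V) : V →ₗ[F] V where
  toFun y := y - ((Q w)⁻¹ * QuadraticMap.polar Q y w) • w
  map_add' x y := by
    rw [QuadraticMap.polar_add_left]
    module
  map_smul' a x := by
    rw [QuadraticMap.polar_smul_left, smul_eq_mul, RingHom.id_apply]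
    module

theorem reflMap_apply (Q : QuadraticForm F V) (w y : V) : reflMap Q w y = y - ((Q w)⁻¹ * QuadraticMap.polar Q y w) • w := rfl

theorem reflMap_invol (Q : QuadraticForm F V) {w : V} (hw : Q w ≠ 0) : Function.Involutive (reflMap Q w) := by
  intro y
  rw [reflMap_apply, reflMap_apply, QuadraticMap.polar_sub_left, QuadraticMap.polar_smul_left, QuadraticMap.polar_self]
  simp only [smul_eq_mul, two_nsmul]
  have : (Q w)⁻¹ * (QuadraticMap.polar Q y w - (Q w)⁻¹ * QuadraticMap.polar Q y w * (Q w + Q w)) = - ((Q w)⁻¹ * QuadraticMap.polar Q y w) := by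
    field_simp
    ring
  rw [this]
  module

theorem reflMap_isom (Q : QuadraticForm F V) {w : V} (hw : Q w ≠ 0) (y : V) : Q (reflMap Q w y) = Q y := by
  rw [reflMap_apply]
  have hsub : ∀ y x : V, Q (y - x) = Q y + Q x - QuadraticMap.polar Q y x := fun y x => by
    simp only [QuadraticMap.polar, sub_eq_add_neg]
    have := QuadraticMap.polar_neg_right Q y x
    simp only [QuadraticMap.polar] at this
    rw [QuadraticMap.map_neg] at this
    linear_combination this
  rw [hsub, QuadraticMap.map_smul, QuadraticMap.polar_smul_right]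
  simp only [smul_eq_mul]
  field_simp
  ring

/-- The reflection as an isometry. -/
noncomputable def refl (Q : QuadraticForm F V) (w : V) (hw : Q w ≠ 0) : Q.IsometryEquiv Q :=
  { LinearEquiv.ofInvolutive (reflMap Q w) (reflMap_invol Q hw) with
    map_app' := reflMap_isom Q hw }

theorem refl_apply (Q : QuadraticForm F V) (w : V) (hw : Q w ≠ 0) (y : V) : refl Q w hw y = reflMap Q w y := rfl

/-- Let V be a finite-dimensional vector space over a finite field F carrying an anisotropic quadratic form Q (Q(v) = 0 only for v = 0). Then the group of all maps v ↦ φ(v) + c, with φ an isometry of Q and c ∈ V, acts on V as a binary permutation group: given n ≥ 2 and two n-tuples u, u' of vectors such that every pair of corresponding entries of u is carried to that of u' by such a map, one such map carries u to u'. -/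
theorem result {F V : Type*} [Field F] [Finite F] [AddCommGroup V] [Module F V] [Module.Finite F V]
    (Q : QuadraticForm F V) (hQ : Q.Anisotropic) (n : ℕ) (hn : 2 ≤ n) (u u' : Fin n → V)
    (h2 : ∀ i j : Fin n, i ≠ j → ∃ (φ : Q.IsometryEquiv Q) (c : V), φ (u i) + c = u' i ∧ φ (u j) + c = u' j) :
    ∃ (φ : Q.IsometryEquiv Q) (c : V), ∀ i, φ (u i) + c = u' i := by
  classical
  have hi0 : 0 < n := by omega
  let i₀ : Fin n := ⟨0, hi0⟩
  have hd : ∀ i j, Q (u' i - u' j) = Q (u i - u j) := by
    intro i j
    by_cases hij : i = j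
    · subst hij
      simp
    · obtain ⟨φ, c, h1, h2'⟩ := h2 i j hij
      rw [← h1, ← h2', add_sub_add_right_eq_sub, ← map_sub]
      exact φ.map_app _
  have hsub : ∀ y x : V, Q (y - x) = Q y + Q x - QuadraticMap.polar Q y x := fun y x => by
    simp only [QuadraticMap.polar, sub_eq_add_neg]
    have := QuadraticMap.polar_neg_right Q y x
    simp only [QuadraticMap.polar] at this
    rw [QuadraticMap.map_neg] at this
    linear_combination this
  have key : ∀ s : Finset (Fin n), ∃ φ : Q.IsometryEquiv Q, ∀ i ∈ s, φ (u i - u i₀) = u' i - u' i₀ := by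
    intro s
    induction s using Finset.induction_on with
    | empty => exact ⟨QuadraticMap.IsometryEquiv.refl Q, by simp⟩
    | insert k s hk ih =>
      obtain ⟨φ, hφ⟩ := ih
      obtain ⟨x, hx⟩ : ∃ x, x = φ (u k - u i₀) := ⟨_, rfl⟩
      obtain ⟨x', hx'⟩ : ∃ x', x' = u' k - u' i₀ := ⟨_, rfl⟩
      by_cases hxx : x = x'
      · refine ⟨φ, fun i hi => ?_⟩
        rcases Finset.mem_insert.1 hi with rfl | hi
        · rw [← hx, ← hx', hxx]
        · exact hφ i hi
      have hw : Q (x - x') ≠ 0 := fun h0 => hxx (sub_eq_zero.1 (hQ _ h0))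
      have hQx : Q x = Q x' := by
        rw [hx, hx', φ.map_app, hd]
      have hpol : QuadraticMap.polar Q x (x - x') = Q (x - x') := by
        rw [hsub, QuadraticMap.polar_sub_right, QuadraticMap.polar_self, hQx]
        simp only [two_nsmul]

      refine ⟨φ.trans (refl Q (x - x') hw), fun i hi => ?_⟩
      rcases Finset.mem_insert.1 hi with rfl | hi
      · show refl Q (x - x') hw (φ (u i - u i₀)) = _
        rw [← hx, refl_apply, reflMap_apply, hpol, inv_mul_cancel₀ hw, one_smul, ← hx']
        abel
      · show refl Q (x - x') hw (φ (u i - u i₀)) = _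
        rw [hφ i hi, refl_apply, reflMap_apply]
        have h0 : QuadraticMap.polar Q (u' i - u' i₀) (x - x') = 0 := by
          rw [QuadraticMap.polar_sub_right]
          have e1 : Q ((u' i - u' i₀) - x) = Q ((u' i - u' i₀) - x') := by
            rw [← hφ i hi, hx, ← map_sub, φ.map_app, hx', hφ i hi]
            have e2 : u i - u i₀ - (u k - u i₀) = u i - u k := by abel
            have e3 : u' i - u' i₀ - (u' k - u' i₀) = u' i - u' k := by abel
            rw [e2, e3, hd]
          rw [hsub (u' i - u' i₀) x, hsub (u' i - u' i₀) x', hQx] at e1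
          linear_combination -e1
        rw [h0, mul_zero, zero_smul, sub_zero]
  obtain ⟨φ, hφ⟩ := key Finset.univ
  refine ⟨φ, u' i₀ - φ (u i₀), fun i => ?_⟩
  have := hφ i (Finset.mem_univ i)
  rw [map_sub, sub_eq_iff_eq_add] at this
  rw [this]
  abel


end Cfsg.Agent.S5754
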