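import Cfsg.Statements.S5763
import Cfsg.Agent.Lib.S8Tree2

set_option autoImplicit false
open Cfsg

namespace Cfsg.Agent.S5763


open Equiv Cfsg.Agent.Lib.S8Tree

theorem all8_spec {p : ℕ → Bool} (h : all8 p = true) (a : ℕ) (ha : a < 8) : p a = true := by
  simp only [all8, Bool.and_eq_true] at h
  obtain ⟨⟨⟨⟨⟨⟨⟨h0, h1⟩, h2⟩, h3⟩, h4⟩, h5⟩, h6⟩, h7⟩ := h
  interval_cases a <;> assumption

theorem or_spec {b r : Bool} (hb : b = false) (h : (b || r) = true) : r = true := by
  subst hb; simpa using h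

/-- The tree-preserving permutations. -/
def treeP : Subgroup (Perm (Fin 8)) where
  carrier := {σ | ∀ a b : Fin 8, lev (σ a).val (σ b).val = lev a.val b.val}
  one_mem' := fun a b => rfl
  mul_mem' := fun {σ τ} hσ hτ a b => by
    show lev (σ (τ a)).val (σ (τ b)).val = _
    rw [hσ, hτ]
  inv_mem' := fun {σ} hσ a b => by
    have := hσ (σ⁻¹ a) (σ⁻¹ b)
    have e : ∀ c, σ (σ⁻¹ c) = c := fun c => by simp
    rw [e, e] at this
    exact this.symm

theorem mem_treeP {σ : Perm (Fin 8)} : σ ∈ treeP ↔ ∀ a b : Fin 8, lev (σ a).val (σ b).val = lev a.val b.val := Iff.rfl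

/-- The map recording the images of `0,2,4,6`. -/
def toC (σ : treeP) : {t // t ∈ Cset} :=
  ⟨((σ : Perm (Fin 8)) 0, (σ : Perm (Fin 8)) 2, (σ : Perm (Fin 8)) 4, (σ : Perm (Fin 8)) 6), by
    have h := σ.2
    rw [mem_treeP] at h
    simp only [Cset, Finset.mem_filter, Finset.mem_univ, true_and]
    refine ⟨h 0 2, h 4 6, h 0 4, h 0 6, h 2 4, h 2 6⟩⟩

theorem toC_bij : Function.Bijective toC := by
  constructor
  · intro σ τ hst
    have h := congrArg Subtype.val hst
    simp only [toC, Prod.mk.injEq] at h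
    obtain ⟨h0, h2, h4, h6⟩ := h
    have hσ := σ.2
    have hτ := τ.2
    rw [mem_treeP] at hσ hτ
    have hf : ∀ (ρ : Perm (Fin 8)), ρ ∈ treeP → ∀ a b : Fin 8, lev a.val b.val = 1 → ρ b = fl (ρ a) := by
      intro ρ hρ a b hab
      apply lev_one
      rw [hρ a b, hab]
    apply Subtype.ext
    ext1 x
    fin_cases x
    · exact h0
    · have e1 := hf _ σ.2 0 1 (by decide +kernel)
      have e2 := hf _ τ.2 0 1 (by decide +kernel)
      show (σ : Perm (Fin 8)) 1 = (τ : Perm (Fin 8)) 1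
      rw [e1, e2, h0]
    · exact h2
    · have e1 := hf _ σ.2 2 3 (by decide +kernel)
      have e2 := hf _ τ.2 2 3 (by decide +kernel)
      show (σ : Perm (Fin 8)) 3 = (τ : Perm (Fin 8)) 3
      rw [e1, e2, h2]
    · exact h4
    · have e1 := hf _ σ.2 4 5 (by decide +kernel)
      have e2 := hf _ τ.2 4 5 (by decide +kernel)
      show (σ : Perm (Fin 8)) 5 = (τ : Perm (Fin 8)) 5
      rw [e1, e2, h4]
    · exact h6
    · have e1 := hf _ σ.2 6 7 (by decide +kernel)
      have e2 := hf _ τ.2 6 7 (by decide +kernel)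
      show (σ : Perm (Fin 8)) 7 = (τ : Perm (Fin 8)) 7
      rw [e1, e2, h6]
  · rintro ⟨t, ht⟩
    have hp := ext8_pres t ht
    have hinj : Function.Injective (ext8 t) := by
      intro a b hab
      apply lev_zero
      rw [← hp a b, hab]
      have : ∀ c : Fin 8, lev c.val c.val = 0 := by decide +kernel
      exact this _
    have hbij := Finite.injective_iff_bijective.1 hinj
    refine ⟨⟨Equiv.ofBijective _ hbij, hp⟩, ?_⟩
    apply Subtype.ext
    rfl

theorem card_treeP : Nat.card treeP = 128 := by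
  rw [Nat.card_congr (Equiv.ofBijective _ toC_bij), Nat.card_eq_fintype_card, Fintype.card_coe, card_Cset]

theorem card_eq : Nat.card treeP = 2 ^ (Nat.card (Perm (Fin 8))).factorization 2 := by
  rw [card_treeP]
  have h1 : Nat.card (Perm (Fin 8)) = 40320 := by
    rw [Nat.card_eq_fintype_card, Fintype.card_perm, Fintype.card_fin]
    rfl
  rw [h1]
  have h2 : (40320 : ℕ).factorization 2 = 7 := by
    have h3 : (40320 : ℕ) = 2 ^ 7 * 315 := by norm_num
    rw [h3, Nat.factorization_mul (by norm_num) (by norm_num), Nat.Prime.factorization_pow Nat.prime_two]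
    have h4 : (315 : ℕ).factorization 2 = 0 := Nat.factorization_eq_zero_of_not_dvd (by norm_num)
    simp [h4]
  rw [h2]
  norm_num

/-- Candidates as permutations. -/
theorem qs_spec : ∀ q ∈ qs, (∀ a : Fin 8, q a.val < 8) ∧ (∀ a : Fin 8, q (q a.val) = a.val) ∧
    (∀ a b : Fin 8, lev (q a.val) (q b.val) = lev a.val b.val) ∧ (∃ a : Fin 8, q a.val ≠ a.val) := by
  decide +kernel

theorem exists_perm_of_mem {q : ℕ → ℕ} (hq : q ∈ qs) :
    ∃ q' : Perm (Fin 8), q' ∈ treeP ∧ q' ≠ 1 ∧ ∀ a : Fin 8, (q' a).val = q a.val := by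
  obtain ⟨h1, h2, h3, ⟨a, ha⟩⟩ := qs_spec q hq
  let f : Fin 8 → Fin 8 := fun a => ⟨q a.val, h1 a⟩
  have hf : Function.Involutive f := fun a => Fin.ext (h2 a)
  refine ⟨hf.toPerm, fun a b => h3 a b, ?_, fun a => rfl⟩
  intro he
  apply ha
  have := congrArg (fun s : Perm (Fin 8) => (s a).val) he
  exact this

theorem prs_spec : ∀ a b : Fin 8, a < b → (a.val, b.val) ∈ prs := by decide +kernel

theorem lev_self (a : ℕ) : lev a a = 0 := by
  unfold lev
  simp only [Nat.xor_self]
  rfl

theorem lev_comm : ∀ a b : ℕ, lev a b = lev b a := by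
  intro a b
  unfold lev
  rw [Nat.xor_comm]

theorem exists_q0 (y : Perm (Fin 8)) (h0 : y 0 = 0) :
    ∃ q ∈ treeP, q ≠ 1 ∧ ∀ a b : Fin 8, lev (y (q a)).val (y (q b)).val = lev (y a).val (y b).val := by
  have hd : ∀ i j : Fin 8, i ≠ j → (y i).val ≠ (y j).val := by
    intro i j hij he
    exact hij (y.injective (Fin.ext he))
  have h00 : (y 0).val = 0 := by rw [h0]; rfl
  have h10 : (y 1).val ≠ 0 := by rw [← h00]; exact hd _ _ (by decide)
  have h20 : (y 2).val ≠ 0 := by rw [← h00]; exact hd _ _ (by decide)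
  have h21 : (y 2).val ≠ (y 1).val := hd _ _ (by decide)
  have h30 : (y 3).val ≠ 0 := by rw [← h00]; exact hd _ _ (by decide)
  have h31 : (y 3).val ≠ (y 1).val := hd _ _ (by decide)
  have h32 : (y 3).val ≠ (y 2).val := hd _ _ (by decide)
  have h40 : (y 4).val ≠ 0 := by rw [← h00]; exact hd _ _ (by decide)
  have h41 : (y 4).val ≠ (y 1).val := hd _ _ (by decide)
  have h42 : (y 4).val ≠ (y 2).val := hd _ _ (by decide)
  have h43 : (y 4).val ≠ (y 3).val := hd _ _ (by decide)
  have h50 : (y 5).val ≠ 0 := by rw [← h00]; exact hd _ _ (by decide)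
  have h51 : (y 5).val ≠ (y 1).val := hd _ _ (by decide)
  have h52 : (y 5).val ≠ (y 2).val := hd _ _ (by decide)
  have h53 : (y 5).val ≠ (y 3).val := hd _ _ (by decide)
  have h54 : (y 5).val ≠ (y 4).val := hd _ _ (by decide)
  have h60 : (y 6).val ≠ 0 := by rw [← h00]; exact hd _ _ (by decide)
  have h61 : (y 6).val ≠ (y 1).val := hd _ _ (by decide)
  have h62 : (y 6).val ≠ (y 2).val := hd _ _ (by decide)
  have h63 : (y 6).val ≠ (y 3).val := hd _ _ (by decide)
  have h64 : (y 6).val ≠ (y 4).val := hd _ _ (by decide)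
  have h65 : (y 6).val ≠ (y 5).val := hd _ _ (by decide)
  have h70 : (y 7).val ≠ 0 := by rw [← h00]; exact hd _ _ (by decide)
  have h71 : (y 7).val ≠ (y 1).val := hd _ _ (by decide)
  have h72 : (y 7).val ≠ (y 2).val := hd _ _ (by decide)
  have h73 : (y 7).val ≠ (y 3).val := hd _ _ (by decide)
  have h74 : (y 7).val ≠ (y 4).val := hd _ _ (by decide)
  have h75 : (y 7).val ≠ (y 5).val := hd _ _ (by decide)
  have h76 : (y 7).val ≠ (y 6).val := hd _ _ (by decide)
  have hc := chk_true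
  unfold chk at hc
  have hc := all8_spec hc (y 1).val (y 1).2
  have hc := or_spec (by simp [*]) hc
  have hc := all8_spec hc (y 2).val (y 2).2
  have hc := or_spec (by simp [*]) hc
  have hc := all8_spec hc (y 3).val (y 3).2
  have hc := or_spec (by simp [*]) hc
  have hc := all8_spec hc (y 4).val (y 4).2
  have hc := or_spec (by simp [*]) hc
  have hc := all8_spec hc (y 5).val (y 5).2
  have hc := or_spec (by simp [*]) hc
  have hc := all8_spec hc (y 6).val (y 6).2
  have hc := or_spec (by simp [*]) hc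
  have hc := all8_spec hc (y 7).val (y 7).2
  have hc := or_spec (by simp [*]) hc
  rw [test, List.any_eq_true] at hc
  obtain ⟨q, hq, hall⟩ := hc
  rw [List.all_eq_true] at hall
  obtain ⟨q', hq'1, hq'2, hq'3⟩ := exists_perm_of_mem hq
  refine ⟨q', hq'1, hq'2, ?_⟩
  have hY : ∀ a : Fin 8, lk 0 (y 1).val (y 2).val (y 3).val (y 4).val (y 5).val (y 6).val (y 7).val a.val = (y a).val := by
    intro a
    fin_cases a
    · exact h00.symm
    all_goals rfl
  have key : ∀ a b : Fin 8, a < b → lev (y (q' a)).val (y (q' b)).val = lev (y a).val (y b).val := by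
    intro a b hab
    have h1 := hall _ (prs_spec a b hab)
    have h2 : lev (lk 0 (y 1).val (y 2).val (y 3).val (y 4).val (y 5).val (y 6).val (y 7).val (q a.val)) (lk 0 (y 1).val (y 2).val (y 3).val (y 4).val (y 5).val (y 6).val (y 7).val (q b.val)) = lev (lk 0 (y 1).val (y 2).val (y 3).val (y 4).val (y 5).val (y 6).val (y 7).val a.val) (lk 0 (y 1).val (y 2).val (y 3).val (y 4).val (y 5).val (y 6).val (y 7).val b.val) := by
      simpa using h1
    rw [← hq'3, ← hq'3, hY, hY, hY, hY] at h2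
    exact h2
  intro a b
  rcases lt_trichotomy a b with h | h | h
  · exact key a b h
  · rw [h, lev_self, lev_self]
  · rw [lev_comm, key b a h, lev_comm]

/-- bitwise translation -/
def xorF (a c : Fin 8) : Fin 8 := ⟨a.val ^^^ c.val, Nat.xor_lt_two_pow (n := 3) a.2 c.2⟩

theorem xorF_inv : ∀ a c : Fin 8, xorF (xorF a c) c = a := by decide +kernel
theorem xorF_self : ∀ c : Fin 8, xorF c c = 0 := by decide +kernel
theorem xorF_lev : ∀ a b c : Fin 8, lev (xorF a c).val (xorF b c).val = lev a.val b.val := by decide +kernel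

theorem exists_q (y : Perm (Fin 8)) :
    ∃ q ∈ treeP, q ≠ 1 ∧ ∀ a b : Fin 8, lev (y (q a)).val (y (q b)).val = lev (y a).val (y b).val := by
  have hf : Function.Involutive (fun a => xorF a (y 0)) := fun a => xorF_inv a _
  let u : Perm (Fin 8) := hf.toPerm
  have hu : ∀ a, u a = xorF a (y 0) := fun _ => rfl
  obtain ⟨q, h1, h2, h3⟩ := exists_q0 (u * y) (by
    show u (y 0) = 0
    rw [hu, xorF_self])
  refine ⟨q, h1, h2, fun a b => ?_⟩
  have := h3 a b
  simp only [Perm.coe_mul, Function.comp_apply, hu, xorF_lev] at this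
  exact this


/-- In the symmetric group on 8 letters any two Sylow 2-subgroups have non-trivial intersection: for a Sylow 2-subgroup H and every element x, H ∩ xHx⁻¹ ≠ 1. -/
theorem result (H : Sylow 2 (Equiv.Perm (Fin 8))) (x : Equiv.Perm (Fin 8)) :
    (H : Subgroup (Equiv.Perm (Fin 8))) ⊓ (H : Subgroup (Equiv.Perm (Fin 8))).map (MulAut.conj x).toMonoidHom ≠ ⊥ := by
  classical
  let P₀ : Sylow 2 (Perm (Fin 8)) := Sylow.ofCard treeP card_eq
  obtain ⟨g, hg⟩ := MulAction.exists_smul_eq (Perm (Fin 8)) P₀ H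
  have hH : ∀ e : Perm (Fin 8), e ∈ (H : Subgroup (Perm (Fin 8))) ↔ g⁻¹ * e * g ∈ treeP := by
    intro e
    rw [← hg, Sylow.coe_subgroup_smul, Subgroup.mem_smul_pointwise_iff_exists]
    constructor
    · rintro ⟨s, hs, rfl⟩
      have : g⁻¹ * (MulAut.conj g • s) * g = s := by
        simp [MulAut.smul_def, mul_assoc]
      rw [this]
      exact hs
    · intro h
      refine ⟨_, h, ?_⟩
      simp [MulAut.smul_def, mul_assoc]
  obtain ⟨q, hq1, hq2, hq3⟩ := exists_q (g⁻¹ * x * g)⁻¹
  set y : Perm (Fin 8) := (g⁻¹ * x * g)⁻¹ with hy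
  have hw : y * q * y⁻¹ ∈ treeP := by
    intro c d
    have := hq3 (y⁻¹ c) (y⁻¹ d)
    have e : ∀ c, y (y⁻¹ c) = c := fun c => by simp
    rw [e, e] at this
    exact this
  intro hb
  let e : Perm (Fin 8) := g * q * g⁻¹
  have he1 : e ∈ (H : Subgroup (Perm (Fin 8))) := by
    rw [hH]
    have : g⁻¹ * e * g = q := by simp [e, mul_assoc]
    rwa [this]
  have he2 : e ∈ (H : Subgroup (Perm (Fin 8))).map (MulAut.conj x).toMonoidHom := by
    refine ⟨x⁻¹ * e * x, ?_, ?_⟩
    · show x⁻¹ * e * x ∈ (H : Subgroup (Perm (Fin 8)))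
      rw [hH]
      have : g⁻¹ * (x⁻¹ * e * x) * g = y * q * y⁻¹ := by
        simp only [hy, e]
        group
      rwa [this]
    · simp [MulAut.conj_apply, mul_assoc]
  have he3 : e ∈ (⊥ : Subgroup (Perm (Fin 8))) := by
    rw [← hb]
    exact ⟨he1, he2⟩
  rw [Subgroup.mem_bot] at he3
  apply hq2
  have : q = g⁻¹ * e * g := by simp [e, mul_assoc]
  rw [this, he3]
  simp

end Cfsg.Agent.S5763
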