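import Cfsg.Statements.S5887


set_option autoImplicit false
open Cfsg

namespace Cfsg.Agent.S5887


open Matrix Cfsg Cfsg.Geo

section
variable {F : Type*} [Field F] {n : ℕ}

/-- A synonym for a subalgebra, carrying only the field structure. -/
def EE (A : Subalgebra F (Matrix (Fin n) (Fin n) F)) : Type _ := A

/-- The underlying matrix. -/
def EE.val {A : Subalgebra F (Matrix (Fin n) (Fin n) F)} (a : EE A) : Matrix (Fin n) (Fin n) F := Subtype.val (p := fun x => x ∈ A) a

theorem EE.mem {A : Subalgebra F (Matrix (Fin n) (Fin n) F)} (a : EE A) : a.val ∈ A := Subtype.property (p := fun x => x ∈ A) a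

/-- Constructor. -/
def EE.mk {A : Subalgebra F (Matrix (Fin n) (Fin n) F)} (a : Matrix (Fin n) (Fin n) F) (h : a ∈ A) : EE A := (⟨a, h⟩ : A)

/-- A field structure on a field subalgebra. -/
noncomputable def fieldOf (A : Subalgebra F (Matrix (Fin n) (Fin n) F)) (hn : 0 < n)
    (hc : ∀ x ∈ A, ∀ y ∈ A, x * y = y * x) (hi : ∀ x ∈ A, x ≠ 0 → ∃ y ∈ A, x * y = 1) : Field (EE A) :=
  IsField.toField (R := A)
    { exists_pair_ne := ⟨0, 1, by
        intro h
        haveI : Nonempty (Fin n) := ⟨⟨0, hn⟩⟩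
        have := congrArg Subtype.val h
        exact zero_ne_one this⟩
      mul_comm := fun a b => Subtype.ext (hc a a.2 b b.2)
      mul_inv_cancel := fun {a} ha => by
        obtain ⟨y, hy, h⟩ := hi a a.2 (fun h0 => ha (Subtype.ext h0))
        exact ⟨⟨y, hy⟩, Subtype.ext h⟩ }

theorem exists_tv [Fintype F] (hn : 0 < n) (A B : Subalgebra F (Matrix (Fin n) (Fin n) F))
    (hAc : ∀ x ∈ A, ∀ y ∈ A, x * y = y * x) (hAi : ∀ x ∈ A, x ≠ 0 → ∃ y ∈ A, x * y = 1)
    (hBi : ∀ x ∈ B, x ≠ 0 → ∃ y ∈ B, x * y = 1) (hAB : A ≤ B) (x : Matrix (Fin n) (Fin n) F)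
    (hxB : x ∈ B) (hxA : x ∉ A) (v₁ v₂ : Fin n → F) (hv₁ : v₁ ≠ 0) (hv₂ : ∀ b ∈ B, v₂ ≠ b *ᵥ v₁) :
    ∃ g : GL (Fin n) F, g ∈ specialLinear (Fin n) F ∧
      (∀ a ∈ A, (g : Matrix (Fin n) (Fin n) F) * a = a * (g : Matrix (Fin n) (Fin n) F)) ∧
      g ∉ subalgebraNormalizer B := by
  classical
  haveI : Nonempty (Fin n) := ⟨⟨0, hn⟩⟩
  letI fA : Field (EE A) := fieldOf A hn hAc hAi
  let ψ : EE A →+* Module.End F (Fin n → F) :=
    { toFun := fun a => Matrix.toLin' a.val
      map_one' := Matrix.toLin'_one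
      map_mul' := fun a b => Matrix.toLin'_mul _ _
      map_zero' := map_zero _
      map_add' := fun a b => map_add _ _ _ }
  letI : Module (EE A) (Fin n → F) := Module.compHom _ ψ
  have hsm : ∀ (a : EE A) (v : Fin n → F), a • v = a.val *ᵥ v := fun a v => rfl
  have hinvl : ∀ b : EE A, b ≠ 0 → (b⁻¹ : EE A).val * b.val = 1 := by
    intro b hb
    have := inv_mul_cancel₀ hb
    exact congrArg EE.val this
  have hy : x *ᵥ v₁ ∉ Submodule.span (EE A) {v₁, v₂} := by
    intro hmem
    obtain ⟨a, b, hab⟩ := Submodule.mem_span_pair.1 hmem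
    rw [hsm, hsm] at hab
    have hab' : b.val *ᵥ v₂ = (x - a.val) *ᵥ v₁ := by
      rw [Matrix.sub_mulVec, ← hab]
      abel
    by_cases hb : b = 0
    · have hb' : b.val = 0 := congrArg EE.val hb
      rw [hb', Matrix.zero_mulVec] at hab'
      by_cases hxa : x - a.val = 0
      · apply hxA
        rw [sub_eq_zero.1 hxa]
        exact a.mem
      · obtain ⟨c, -, hc1⟩ := hBi (x - a.val) (B.sub_mem hxB (hAB a.mem)) hxa
        apply hv₁
        have h1 : c * (x - a.val) = 1 := mul_eq_one_comm.1 hc1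
        have h2 : (c * (x - a.val)) *ᵥ v₁ = 0 := by
          rw [← Matrix.mulVec_mulVec, ← hab', Matrix.mulVec_zero]
        rwa [h1, Matrix.one_mulVec] at h2
    · apply hv₂ ((b⁻¹ : EE A).val * (x - a.val)) (B.mul_mem (hAB (b⁻¹ : EE A).mem) (B.sub_mem hxB (hAB a.mem)))
      rw [← Matrix.mulVec_mulVec, ← hab', Matrix.mulVec_mulVec, hinvl b hb, Matrix.one_mulVec]
  obtain ⟨φ, hφy, hφW⟩ := Submodule.exists_dual_map_eq_bot_of_notMem hy inferInstance
  have hφ0 : ∀ w ∈ Submodule.span (EE A) {v₁, v₂}, φ w = 0 := by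
    intro w hw
    have : φ w ∈ (Submodule.span (EE A) {v₁, v₂}).map φ := Submodule.mem_map_of_mem hw
    rw [hφW] at this
    exact this
  have hφv₁ : φ v₁ = 0 := hφ0 _ (Submodule.subset_span (by simp))
  have hφv₂ : φ v₂ = 0 := hφ0 _ (Submodule.subset_span (by simp))
  -- scalars from `F`
  let κ : F → EE A := fun c => EE.mk (c • 1) (A.smul_mem A.one_mem c)
  have hκ : ∀ (c : F) (u : Fin n → F), κ c • u = c • u := by
    intro c u
    rw [hsm]
    show (c • (1 : Matrix (Fin n) (Fin n) F)) *ᵥ u = _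
    rw [Matrix.smul_mulVec, Matrix.one_mulVec]
  have hφsm : ∀ (c : F) (u : Fin n → F), (φ (c • u)) • v₂ = c • ((φ u) • v₂) := by
    intro c u
    rw [← hκ c u, map_smul, smul_eq_mul, mul_smul, hκ]
  let T : (Fin n → F) →ₗ[F] (Fin n → F) :=
    { toFun := fun u => u + (φ u) • v₂
      map_add' := fun u w => by
        rw [map_add, add_smul]
        abel
      map_smul' := fun c u => by
        rw [hφsm, RingHom.id_apply, smul_add] }
  let S : (Fin n → F) →ₗ[F] (Fin n → F) :=
    { toFun := fun u => u - (φ u) • v₂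
      map_add' := fun u w => by
        rw [map_add, add_smul]
        abel
      map_smul' := fun c u => by
        rw [hφsm, RingHom.id_apply, smul_sub] }
  have hT : ∀ u, T u = u + (φ u) • v₂ := fun _ => rfl
  have hS : ∀ u, S u = u - (φ u) • v₂ := fun _ => rfl
  have hφw : ∀ u, φ ((φ u) • v₂) = 0 := by
    intro u
    rw [map_smul, hφv₂, smul_zero]
  have hTS : T ∘ₗ S = LinearMap.id := by
    apply LinearMap.ext
    intro u
    simp only [LinearMap.comp_apply, LinearMap.id_apply]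
    rw [hT, hS, map_sub, hφw, sub_zero]
    simp
  have hST : S ∘ₗ T = LinearMap.id := by
    apply LinearMap.ext
    intro u
    simp only [LinearMap.comp_apply, LinearMap.id_apply]
    rw [hS, hT, map_add, hφw, add_zero]
    simp
  let G := LinearMap.toMatrix' T
  let G' := LinearMap.toMatrix' S
  have hG : ∀ u, G *ᵥ u = T u := fun u => LinearMap.toMatrix'_mulVec T u
  have hG' : ∀ u, G' *ᵥ u = S u := fun u => LinearMap.toMatrix'_mulVec S u
  let g : GL (Fin n) F := ⟨G, G', by
      show LinearMap.toMatrix' T * LinearMap.toMatrix' S = 1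
      rw [← LinearMap.toMatrix'_comp, hTS, LinearMap.toMatrix'_id], by
      show LinearMap.toMatrix' S * LinearMap.toMatrix' T = 1
      rw [← LinearMap.toMatrix'_comp, hST, LinearMap.toMatrix'_id]⟩
  have hmat : ∀ M N : Matrix (Fin n) (Fin n) F, (∀ u, M *ᵥ u = N *ᵥ u) → M = N := by
    intro M N h
    apply Matrix.toLin'.injective
    apply LinearMap.ext
    intro u
    exact h u
  refine ⟨g, ?_, ?_, ?_⟩
  · -- determinant one
    obtain ⟨p, hp⟩ := CharP.exists F
    haveI : Fact p.Prime := ⟨CharP.char_is_prime F p⟩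
    have hpow : ∀ (k : ℕ) (u : Fin n → F), (G ^ k) *ᵥ u = u + k • ((φ u) • v₂) := by
      intro k u
      induction k with
      | zero => simp
      | succ k ih =>
        rw [pow_succ', ← Matrix.mulVec_mulVec, ih, hG, hT, map_add, map_nsmul, hφw, smul_zero, add_zero,
          succ_nsmul]
        abel
    have hGp : G ^ p = 1 := by
      apply hmat
      intro u
      rw [hpow, Matrix.one_mulVec, ← Nat.cast_smul_eq_nsmul F, CharP.cast_eq_zero F p, zero_smul, add_zero]
    have hd : G.det ^ p = 1 := by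
      rw [← Matrix.det_pow, hGp, Matrix.det_one]
    have hd1 : G.det = 1 := by
      have h1 : (G.det - 1) ^ p = 0 := by
        rw [sub_pow_char, hd, one_pow, sub_self]
      have := pow_eq_zero_iff (Fact.out : p.Prime).ne_zero |>.1 h1
      exact sub_eq_zero.1 this
    show Matrix.GeneralLinearGroup.det g = 1
    apply Units.ext
    exact hd1
  · -- commuting with `A`
    intro a ha
    apply hmat
    intro u
    rw [← Matrix.mulVec_mulVec, ← Matrix.mulVec_mulVec]
    show G *ᵥ (a *ᵥ u) = a *ᵥ (G *ᵥ u)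
    rw [hG, hG, hT, hT, Matrix.mulVec_add]
    have h1 : a *ᵥ u = (EE.mk a ha : EE A) • u := rfl
    rw [h1, map_smul, smul_eq_mul, mul_smul]
    rfl
  · -- not normalising `B`
    intro hN
    have hb := (hN x).1 hxB
    set b : Matrix (Fin n) (Fin n) F := (g : Matrix (Fin n) (Fin n) F) * x * ((g⁻¹ : GL (Fin n) F) : Matrix (Fin n) (Fin n) F) with hbdef
    have h1 : b *ᵥ v₁ = x *ᵥ v₁ + (φ (x *ᵥ v₁)) • v₂ := by
      rw [hbdef, ← Matrix.mulVec_mulVec, ← Matrix.mulVec_mulVec]
      show G *ᵥ (x *ᵥ (G' *ᵥ v₁)) = _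
      rw [hG', hS, hφv₁, zero_smul, sub_zero, hG, hT]
    have h2 : (φ (x *ᵥ v₁)).val *ᵥ v₂ = (b - x) *ᵥ v₁ := by
      rw [Matrix.sub_mulVec, h1, ← hsm]
      abel
    apply hv₂ ((φ (x *ᵥ v₁))⁻¹.val * (b - x)) (B.mul_mem (hAB (φ (x *ᵥ v₁))⁻¹.mem) (B.sub_mem hb hxB))
    rw [← Matrix.mulVec_mulVec, ← h2, Matrix.mulVec_mulVec, hinvl _ hφy, Matrix.one_mulVec]

end


/-- Let F be a finite field, n a positive integer and r a composite number (r > 1, not prime) that divides n with r < n. Let K be a subalgebra of the algebra of n × n matrices over F which is a field of degree r over F (commutative, every non-zero element invertible, of dimension r over F). Then the normaliser N of K in GL_n(F) (a group of type ΓL_{n/r}(F_{q^r})) is not a maximal subgroup of GL_n(F), and N ∩ SL_n(F) is not a maximal subgroup of SL_n(F): both lie properly inside the normaliser of an intermediate subfield of prime degree over F. -/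
theorem result {F : Type*} [Field F]
    [Fintype F] (n r : ℕ) (hr1 : 1 < r) (hrp : ¬ r.Prime) (hrn : r ∣ n) (hlt : r < n)
    (K : Subalgebra F (Matrix (Fin n) (Fin n) F)) (hK : Cfsg.Geo.IsFieldSubalgebra r K) :
    ¬ IsCoatom (Cfsg.Geo.subalgebraNormalizer K) ∧
      ¬ Cfsg.Geo.IsMaximalIn (Cfsg.Geo.specialLinear (Fin n) F)
        (Cfsg.Geo.subalgebraNormalizer K ⊓ Cfsg.Geo.specialLinear (Fin n) F) := by
  classical
  have hn : 0 < n := by omega
  haveI : Nonempty (Fin n) := ⟨⟨0, hn⟩⟩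
  -- sizes
  set q := Fintype.card F with hq
  have hq2 : 2 ≤ q := Fintype.one_lt_card
  let s := r.minFac
  have hs : s.Prime := Nat.minFac_prime (by omega)
  have hsr : s ∣ r := Nat.minFac_dvd r
  have hs2 : 2 ≤ s := hs.two_le
  have hslt : s < r := by
    refine lt_of_le_of_ne (Nat.le_of_dvd (by omega) hsr) ?_
    intro he
    apply hrp
    show r.Prime
    rw [← he]
    exact hs
  set Q := q ^ s with hQ
  have hQq : q < Q := by
    calc q = q ^ 1 := (pow_one q).symm
      _ < q ^ s := Nat.pow_lt_pow_right (by omega) (by omega)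
  have hQr : Q < q ^ r := Nat.pow_lt_pow_right (by omega) hslt
  -- characteristic
  obtain ⟨p, hpc⟩ := CharP.exists F
  haveI : Fact p.Prime := ⟨CharP.char_is_prime F p⟩
  obtain ⟨f', hp', hqp⟩ := FiniteField.card F p
  have hQp : Q = p ^ ((f' : ℕ) * s) := by
    rw [hQ, hq, hqp, pow_mul]
  have hmatc : CharP (Matrix (Fin n) (Fin n) F) p := inferInstance
  have hpowF : ∀ c : F, c ^ Q = c := by
    intro c
    rw [hQ, hq]
    exact FiniteField.pow_card_pow s c
  -- the intermediate field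
  let L : Subalgebra F (Matrix (Fin n) (Fin n) F) :=
    { carrier := {k | k ∈ K ∧ k ^ Q = k}
      mul_mem' := by
        rintro a b ⟨ha, ha'⟩ ⟨hb, hb'⟩
        refine ⟨K.mul_mem ha hb, ?_⟩
        rw [(show Commute a b from hK.comm a ha b hb).mul_pow, ha', hb']
      add_mem' := by
        rintro a b ⟨ha, ha'⟩ ⟨hb, hb'⟩
        refine ⟨K.add_mem ha hb, ?_⟩
        rw [hQp, add_pow_char_pow_of_commute p _ (show Commute a b from hK.comm a ha b hb), ← hQp, ha', hb']
      algebraMap_mem' := by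
        intro c
        refine ⟨K.algebraMap_mem c, ?_⟩
        rw [← map_pow, hpowF]
      }
  have hLmem : ∀ k, k ∈ L ↔ k ∈ K ∧ k ^ Q = k := fun k => Iff.rfl
  have hLK : L ≤ K := fun k hk => hk.1
  have hLc : ∀ x ∈ L, ∀ y ∈ L, x * y = y * x := fun x hx y hy => hK.comm x hx.1 y hy.1
  have hLi : ∀ x ∈ L, x ≠ 0 → ∃ y ∈ L, x * y = 1 := by
    intro x hx hx0
    obtain ⟨y, hy, hxy⟩ := hK.inv x hx.1 hx0
    refine ⟨y, ⟨hy, ?_⟩, hxy⟩
    have hyx : y * x = 1 := mul_eq_one_comm.1 hxy
    have h1 : x * y ^ Q = 1 := by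
      have := congrArg (fun m => m ^ Q) hxy
      simp only [one_pow] at this
      rw [(show Commute x y from hK.comm x hx.1 y hy).mul_pow, hx.2] at this
      exact this
    calc y ^ Q = (y * x) * y ^ Q := by rw [hyx, one_mul]
      _ = y * (x * y ^ Q) := mul_assoc _ _ _
      _ = y := by rw [h1, mul_one]
  -- the generator
  letI fK : Field (EE K) := fieldOf K hn hK.comm hK.inv
  haveI hKfin : Finite (EE K) := inferInstanceAs (Finite K)
  have hcardK0 : Nat.card K = q ^ r := by
    rw [← hK.finrank_eq, Nat.card_eq_fintype_card (α := K), ← Module.card_eq_pow_finrank (K := F) (V := K)]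
  have hcardK : Nat.card (EE K) = q ^ r := hcardK0
  letI : Fintype (EE K) := Fintype.ofFinite (EE K)
  obtain ⟨γ, hγ⟩ := IsCyclic.exists_generator (α := (EE K)ˣ)
  have hoγ : orderOf γ = q ^ r - 1 := by
    rw [orderOf_eq_card_of_forall_mem_zpowers hγ, Nat.card_eq_fintype_card, Fintype.card_units, ← Nat.card_eq_fintype_card, hcardK]
  have hpowval : ∀ (a : EE K) (m : ℕ), (a ^ m : EE K).val = a.val ^ m := by
    intro a m
    induction m with
    | zero => rfl
    | succ m ih =>
      rw [pow_succ, pow_succ, ← ih]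
      rfl
  have hunitval : ∀ (a : (EE K)ˣ) (m : ℕ), ((a ^ m : (EE K)ˣ) : EE K).val = (a : EE K).val ^ m := by
    intro a m
    rw [Units.val_pow_eq_pow_val, hpowval]
  have hdiv : Q - 1 ∣ q ^ r - 1 := by
    obtain ⟨t, ht⟩ := hsr
    have := Nat.sub_dvd_pow_sub_pow (q ^ s) 1 t
    rw [one_pow, ← pow_mul, ← ht] at this
    exact this
  obtain ⟨d, hd⟩ := hdiv
  have hQ1 : 0 < Q - 1 := by omega
  have hDpos : 0 < q ^ r - 1 := by omega
  have hd0 : d ≠ 0 := by
    rintro rfl
    simp at hd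
    omega
  let y : (EE K)ˣ := γ ^ d
  have hoy : orderOf y = Q - 1 := by
    rw [orderOf_pow_of_dvd hd0 ⟨Q - 1, by rw [hoγ, hd, mul_comm]⟩, hoγ, hd]
    exact Nat.mul_div_cancel _ (Nat.pos_of_ne_zero hd0)
  let X : Matrix (Fin n) (Fin n) F := (γ : EE K).val
  let Y : Matrix (Fin n) (Fin n) F := (y : EE K).val
  have hfermat : ∀ a : (EE K)ˣ, a ^ (Q - 1) = 1 → (a : EE K).val ^ Q = (a : EE K).val := by
    intro a ha
    have h1 : a ^ Q = a := by
      have h2 : Q = (Q - 1) + 1 := by omega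
      calc a ^ Q = a ^ ((Q - 1) + 1) := by rw [← h2]
        _ = a := by rw [pow_succ, ha, one_mul]
    rw [← hunitval, h1]
  have hYL : Y ∈ L := ⟨(y : EE K).mem, hfermat y (by rw [← hoy]; exact pow_orderOf_eq_one y)⟩
  have hXnL : X ∉ L := by
    rintro ⟨-, h⟩
    have h1 : γ ^ Q = γ := by
      apply Units.ext
      apply Subtype.ext (p := fun x => x ∈ K)
      have := hunitval γ Q
      exact this.trans h
    have h2 : γ ^ (Q - 1) = 1 := by
      have h3 : γ ^ ((Q - 1) + 1) = γ := by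
        rw [show (Q - 1) + 1 = Q by omega]
        exact h1
      rw [pow_succ] at h3
      simpa using h3
    have := orderOf_le_of_pow_eq_one hQ1 h2
    rw [hoγ] at this
    omega
  -- the prime field
  have hbot_c : ∀ x ∈ (⊥ : Subalgebra F (Matrix (Fin n) (Fin n) F)), ∀ y ∈ (⊥ : Subalgebra F (Matrix (Fin n) (Fin n) F)), x * y = y * x := by
    rintro _ ⟨a, rfl⟩ y _
    exact Algebra.commutes a y
  have hbot_i : ∀ x ∈ (⊥ : Subalgebra F (Matrix (Fin n) (Fin n) F)), x ≠ 0 → ∃ y ∈ (⊥ : Subalgebra F (Matrix (Fin n) (Fin n) F)), x * y = 1 := by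
    rintro _ ⟨a, rfl⟩ h0
    have ha : a ≠ 0 := by
      rintro rfl
      exact h0 (map_zero _)
    refine ⟨algebraMap F _ a⁻¹, ⟨a⁻¹, rfl⟩, ?_⟩
    show algebraMap F (Matrix (Fin n) (Fin n) F) a * algebraMap F _ a⁻¹ = 1
    rw [← map_mul, mul_inv_cancel₀ ha, map_one]
  have hYnb : Y ∉ (⊥ : Subalgebra F (Matrix (Fin n) (Fin n) F)) := by
    rintro ⟨c, hc⟩
    have hc' : algebraMap F (Matrix (Fin n) (Fin n) F) c = Y := hc
    have hc0 : c ≠ 0 := by
      rintro rfl
      rw [map_zero] at hc'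
      have h1 : (y : EE K) = 0 := Subtype.ext (p := fun x => x ∈ K) hc'.symm
      exact y.ne_zero h1
    have h1 : y ^ (q - 1) = 1 := by
      apply Units.ext
      apply Subtype.ext (p := fun x => x ∈ K)
      have h2 := hunitval y (q - 1)
      refine h2.trans ?_
      show Y ^ (q - 1) = 1
      rw [← hc', ← map_pow, hq, FiniteField.pow_card_sub_one_eq_one c hc0, map_one]
    have := orderOf_le_of_pow_eq_one (by omega) h1
    rw [hoy] at this
    omega
  -- vectors
  let v₁ : Fin n → F := Pi.single ⟨0, hn⟩ 1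
  have hv₁ : v₁ ≠ 0 := by
    intro h
    have := congrFun h ⟨0, hn⟩
    simp [v₁] at this
  obtain ⟨v₂, hv₂⟩ : ∃ v₂ : Fin n → F, ∀ b ∈ K, v₂ ≠ b *ᵥ v₁ := by
    by_contra hcon
    push Not at hcon
    have hsurj : Function.Surjective (fun b : K => (b : Matrix (Fin n) (Fin n) F) *ᵥ v₁) := by
      intro v
      obtain ⟨b, hb, h⟩ := hcon v
      exact ⟨⟨b, hb⟩, h.symm⟩
    have h1 := Nat.card_le_card_of_surjective _ hsurj
    rw [hcardK0, Nat.card_fun, Nat.card_fin, Nat.card_eq_fintype_card (α := F), ← hq] at h1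
    have h2 : q ^ r < q ^ n := Nat.pow_lt_pow_right (by omega) hlt
    omega
  obtain ⟨g₁, hg₁S, hg₁c, hg₁N⟩ := exists_tv hn L K hLc hLi hK.inv hLK X (γ : EE K).mem hXnL v₁ v₂ hv₁ hv₂
  obtain ⟨g₂, hg₂S, -, hg₂N⟩ := exists_tv hn ⊥ L hbot_c hbot_i hLi bot_le Y hYL hYnb v₁ v₂ hv₁
    (fun b hb => hv₂ b (hLK hb))
  have hg₁L : g₁ ∈ subalgebraNormalizer L := by
    intro k
    constructor
    · intro hk
      have h1 := hg₁c k hk
      rw [h1, Units.mul_inv_cancel_right]
      exact hk
    · intro hk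
      have h1 := hg₁c _ hk
      have h2 : (g₁ : Matrix (Fin n) (Fin n) F) * k * ((g₁⁻¹ : GL (Fin n) F) : Matrix (Fin n) (Fin n) F) = k := by
        apply (Units.mul_right_inj g₁).1
        rw [h1, Units.inv_mul_cancel_right]
      rwa [h2] at hk
  have hNN : subalgebraNormalizer K ≤ subalgebraNormalizer L := by
    intro g hg k
    constructor
    · rintro ⟨hk, hkQ⟩
      exact ⟨(hg k).1 hk, by rw [Units.conj_pow, hkQ]⟩
    · rintro ⟨hk, hkQ⟩
      refine ⟨(hg k).2 hk, ?_⟩
      rw [Units.conj_pow] at hkQ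
      exact (Units.mul_left_inj _).1 ((Units.mul_right_inj g).1 (by
        rwa [← mul_assoc, ← mul_assoc]))
  constructor
  · intro hco
    have hlt1 : subalgebraNormalizer K < subalgebraNormalizer L :=
      lt_of_le_of_ne hNN (fun he => hg₁N (he ▸ hg₁L))
    have := hco.2 _ hlt1
    exact hg₂N (by rw [this]; trivial)
  · rintro ⟨-, hmax⟩
    rcases hmax (subalgebraNormalizer L ⊓ specialLinear (Fin n) F) (inf_le_inf_right _ hNN) inf_le_right with h | h
    · have : g₁ ∈ subalgebraNormalizer K ⊓ specialLinear (Fin n) F := by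
        rw [← h]
        exact ⟨hg₁L, hg₁S⟩
      exact hg₁N this.1
    · have : g₂ ∈ subalgebraNormalizer L ⊓ specialLinear (Fin n) F := by
        rw [h]
        exact hg₂S
      exact hg₂N this.1

end Cfsg.Agent.S5887
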