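import Cfsg.Statements.S5895
import Cfsg.Agent.Lib.LeadAffine

set_option autoImplicit false
open Cfsg

namespace Cfsg.Agent.S5895


open Cfsg.Agent.Lib.LeadAffine

section
variable {k V : Type*} [Field k] [AddCommGroup V] [Module k V] [FiniteDimensional k V]

theorem li_pair {u v : V} (hu : u ≠ 0) (hv : ∀ c : k, v ≠ c • u) : LinearIndependent k ![u, v] := by
  rw [LinearIndependent.pair_iff]
  intro s t hst
  have ht : t = 0 := by
    by_contra h0
    apply hv (-(t⁻¹ * s))
    have h1 : t • v = (-s) • u := by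
      rw [neg_smul]
      exact eq_neg_of_add_eq_zero_right hst
    calc v = t⁻¹ • (t • v) := by rw [smul_smul, inv_mul_cancel₀ h0, one_smul]
      _ = _ := by rw [h1, smul_smul]; congr 1; ring
  subst ht
  rw [zero_smul, add_zero] at hst
  exact ⟨(smul_eq_zero.1 hst).resolve_right hu, rfl⟩

/-- The eigenvector stabiliser in `GL(V)`. -/
def Stab (u : V) (k : Type*) [Field k] [Module k V] : Subgroup (V ≃ₗ[k] V) where
  carrier := {A | ∃ c : k, c ≠ 0 ∧ A u = c • u}
  one_mem' := ⟨1, one_ne_zero, by simp⟩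
  mul_mem' := by
    rintro A B ⟨a, ha, hA⟩ ⟨b, hb, hB⟩
    refine ⟨a * b, mul_ne_zero ha hb, ?_⟩
    show A (B u) = _
    rw [hB, map_smul, hA, smul_smul, mul_comm]
  inv_mem' := by
    rintro A ⟨a, ha, hA⟩
    refine ⟨a⁻¹, inv_ne_zero ha, ?_⟩
    show A.symm u = _
    apply A.injective
    rw [LinearEquiv.apply_symm_apply, map_smul, hA, smul_smul, inv_mul_cancel₀ ha, one_smul]

theorem stab_coatom {u v₁ : V} (hu : u ≠ 0) (hv₁0 : v₁ ≠ 0) (hv₁ : ∀ c : k, v₁ ≠ c • u) : IsCoatom (Stab u k) := by
  constructor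
  · intro htop
    obtain ⟨A, hA⟩ := exists_linearEquiv_single (K := k) hu hv₁0
    have : A ∈ Stab u k := by rw [htop]; trivial
    obtain ⟨c, -, hc⟩ := this
    exact hv₁ c (hA.symm.trans hc)
  · intro L hL
    obtain ⟨B, hBL, hBS⟩ := SetLike.exists_of_lt hL
    rw [eq_top_iff]
    intro x _
    have hv : ∀ c : k, B u ≠ c • u := by
      intro c hc
      apply hBS
      refine ⟨c, ?_, hc⟩
      rintro rfl
      rw [zero_smul] at hc
      exact hu (B.map_eq_zero_iff.1 hc)
    by_cases hy : ∃ c : k, x u = c • u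
    · obtain ⟨c, hc⟩ := hy
      apply hL.le
      refine ⟨c, ?_, hc⟩
      rintro rfl
      rw [zero_smul] at hc
      exact hu (x.map_eq_zero_iff.1 hc)
    · push Not at hy
      obtain ⟨A, hA⟩ := exists_linearEquiv_of_linearIndependent (li_pair hu hv) (li_pair hu hy)
      have hA0 : A u = u := hA 0
      have hA1 : A (B u) = x u := hA 1
      have hAS : A ∈ L := hL.le ⟨1, one_ne_zero, by rw [hA0, one_smul]⟩
      have hAB : A * B ∈ L := L.mul_mem hAS hBL
      have h2 : (A * B)⁻¹ * x ∈ L := by
        apply hL.le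
        refine ⟨1, one_ne_zero, ?_⟩
        rw [one_smul]
        show (A * B).symm (x u) = u
        rw [LinearEquiv.symm_apply_eq]
        exact hA1.symm
      have h3 := L.mul_mem hAB h2
      rwa [mul_inv_cancel_left] at h3

end

section
variable {k V : Type*} [Field k] [AddCommGroup V] [Module k V] [FiniteDimensional k V]

/-- linear maps as affine maps -/
def iota (k V : Type*) [Field k] [AddCommGroup V] [Module k V] : (V ≃ₗ[k] V) →* (V ≃ᵃ[k] V) where
  toFun A := A.toAffineEquiv
  map_one' := by ext x; rfl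
  map_mul' A B := by ext x; rfl

theorem iota_apply (A : V ≃ₗ[k] V) (x : V) : iota k V A x = A x := rfl

theorem lin_iota (A : V ≃ₗ[k] V) : AffineEquiv.linearHom (iota k V A) = A := by
  ext x
  rfl

theorem aff_apply (g : V ≃ᵃ[k] V) (x : V) : g x = AffineEquiv.linearHom g x + g 0 := by
  have := g.map_vadd (0 : V) x
  simpa using this

/-- point stabiliser of zero -/
def Mz (k V : Type*) [Field k] [AddCommGroup V] [Module k V] : Subgroup (V ≃ᵃ[k] V) where
  carrier := {g | g 0 = 0}
  one_mem' := rfl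
  mul_mem' := by
    intro g h hg hh
    show g (h 0) = 0
    rw [hh]
    exact hg
  inv_mem' := by
    intro g hg
    show g.symm 0 = 0
    rw [AffineEquiv.symm_apply_eq]
    exact hg.symm

theorem mem_iota_of_Mz {g : V ≃ᵃ[k] V} (hg : g ∈ Mz k V) : iota k V (AffineEquiv.linearHom g) = g := by
  ext x
  rw [iota_apply, aff_apply g x]
  have : g 0 = 0 := hg
  rw [this, add_zero]

theorem iota_mem (A : V ≃ₗ[k] V) : iota k V A ∈ Mz k V := by
  show A 0 = 0
  exact map_zero A

/-- translations -/
def tr (k : Type*) {V : Type*} [Field k] [AddCommGroup V] [Module k V] (v : V) : V ≃ᵃ[k] V := AffineEquiv.constVAdd k V v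

theorem tr_apply (v x : V) : tr k v x = v + x := rfl

theorem lin_tr (v : V) : AffineEquiv.linearHom (tr k v) = 1 := by
  apply LinearEquiv.ext
  intro x
  have := aff_apply (tr k v) x
  rw [tr_apply, tr_apply, add_zero] at this
  have h3 : v + x = (AffineEquiv.linearHom (tr k v)) x + v := this
  have h4 : (AffineEquiv.linearHom (tr k v)) x + v = x + v := by rw [← h3, add_comm]
  exact add_right_cancel h4

theorem Mz_coatom [Nontrivial V] : IsCoatom (Mz k V) := by
  obtain ⟨u, hu⟩ := exists_ne (0 : V)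
  constructor
  · intro htop
    have : tr k u ∈ Mz k V := by rw [htop]; trivial
    have h2 : u + 0 = 0 := this
    rw [add_zero] at h2
    exact hu h2
  · intro L hL
    obtain ⟨g, hgL, hgM⟩ := SetLike.exists_of_lt hL
    rw [eq_top_iff]
    intro x _
    by_cases hx : x 0 = 0
    · exact hL.le hx
    · obtain ⟨A, hA⟩ := exists_linearEquiv_single (K := k) (u := g 0) (v := x 0) hgM hx
      have h1 : iota k V A ∈ L := hL.le (iota_mem A)
      have h2 := L.mul_mem h1 hgL
      have h3 : (iota k V A * g)⁻¹ * x ∈ L := by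
        apply hL.le
        show (iota k V A * g).symm (x 0) = 0
        rw [AffineEquiv.symm_apply_eq]
        show x 0 = A (g 0)
        rw [hA]
      have h4 := L.mul_mem h2 h3
      rwa [mul_inv_cancel_left] at h4

end

theorem main_exists {k V : Type} [Field k] [AddCommGroup V] [Module k V] [FiniteDimensional k V] [Finite V]
    (u v₁ : V) (hu : u ≠ 0) (hv₁0 : v₁ ≠ 0) (hv₁ : ∀ c : k, v₁ ≠ c • u) :
    ∃ (M H K : Subgroup (V ≃ᵃ[k] V)), IsCoatom M ∧ M.index = Nat.card V ∧ H ≤ M ∧
      IsCoatom (H.subgroupOf M) ∧ IsCoatom K ∧ H ≤ K ∧ ¬IsCoatom (H.subgroupOf K) := by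
  classical
  haveI : Nontrivial V := ⟨⟨u, 0, hu⟩⟩
  haveI : Finite (V ≃ᵃ[k] V) := Finite.of_injective (fun g => (g : V → V)) AffineEquiv.coeFn_injective
  have hS := stab_coatom hu hv₁0 hv₁
  let lam : (V ≃ᵃ[k] V) →* (V ≃ₗ[k] V) := AffineEquiv.linearHom
  let K : Subgroup (V ≃ᵃ[k] V) := (Stab u k).comap lam
  let M : Subgroup (V ≃ᵃ[k] V) := Mz k V
  let H : Subgroup (V ≃ᵃ[k] V) := M ⊓ K
  obtain ⟨B₀, hB₀⟩ : ∃ B₀ : V ≃ₗ[k] V, B₀ ∉ Stab u k := by
    by_contra hcon
    push Not at hcon
    exact hS.1 (eq_top_iff.2 fun x _ => hcon x)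
  refine ⟨M, H, K, Mz_coatom, ?_, inf_le_left, ?_, ?_, inf_le_right, ?_⟩
  · -- the index
    letI : MulAction (V ≃ᵃ[k] V) V :=
      { smul := fun g x => g x, one_smul := fun _ => rfl, mul_smul := fun _ _ _ => rfl }
    have h1 : MulAction.stabilizer (V ≃ᵃ[k] V) (0 : V) = M := by
      ext g
      rfl
    have h2 : MulAction.orbit (V ≃ᵃ[k] V) (0 : V) = Set.univ := by
      rw [Set.eq_univ_iff_forall]
      intro y
      refine ⟨tr k y, ?_⟩
      show tr k y 0 = y
      rw [tr_apply, add_zero]
    rw [← h1, MulAction.index_stabilizer, h2, Set.ncard_univ]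
  · -- `H` is maximal in `M`
    let ι' : (V ≃ₗ[k] V) →* M := (iota k V).codRestrict M iota_mem
    constructor
    · intro htop
      have : ι' B₀ ∈ H.subgroupOf M := by rw [htop]; trivial
      rw [Subgroup.mem_subgroupOf] at this
      have h2 : lam (iota k V B₀) ∈ Stab u k := this.2
      rw [show lam (iota k V B₀) = B₀ from lin_iota B₀] at h2
      exact hB₀ h2
    · intro b hb
      obtain ⟨y, hyb, hyH⟩ := SetLike.exists_of_lt hb
      have hL : b.comap ι' = ⊤ := by
        apply hS.2
        refine lt_of_le_of_ne ?_ ?_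
        · intro A hA
          apply hb.le
          rw [Subgroup.mem_subgroupOf]
          exact ⟨iota_mem A, by
            show lam (iota k V A) ∈ Stab u k
            rw [show lam (iota k V A) = A from lin_iota A]
            exact hA⟩
        · intro he
          have hy0 : ι' (lam (y : V ≃ᵃ[k] V)) = y := Subtype.ext (mem_iota_of_Mz y.2)
          have h1 : lam (y : V ≃ᵃ[k] V) ∈ b.comap ι' := by
            show ι' _ ∈ b
            rw [hy0]
            exact hyb
          rw [← he] at h1
          apply hyH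
          rw [Subgroup.mem_subgroupOf]
          exact ⟨y.2, h1⟩
      rw [eq_top_iff]
      intro x _
      have hx0 : ι' (lam (x : V ≃ᵃ[k] V)) = x := Subtype.ext (mem_iota_of_Mz x.2)
      have h1 : lam (x : V ≃ᵃ[k] V) ∈ b.comap ι' := by rw [hL]; trivial
      have h2 : ι' (lam (x : V ≃ᵃ[k] V)) ∈ b := h1
      rwa [hx0] at h2
  · -- `K` is maximal
    constructor
    · intro htop
      have : iota k V B₀ ∈ K := by rw [htop]; trivial
      have h2 : lam (iota k V B₀) ∈ Stab u k := this
      rw [show lam (iota k V B₀) = B₀ from lin_iota B₀] at h2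
      exact hB₀ h2
    · intro L hL
      obtain ⟨y, hyL, hyK⟩ := SetLike.exists_of_lt hL
      have hm : L.map lam = ⊤ := by
        apply hS.2
        refine lt_of_le_of_ne ?_ ?_
        · intro A hA
          refine ⟨iota k V A, hL.le ?_, lin_iota A⟩
          show lam (iota k V A) ∈ Stab u k
          rw [show lam (iota k V A) = A from lin_iota A]
          exact hA
        · intro he
          apply hyK
          show lam y ∈ Stab u k
          rw [he]
          exact ⟨y, hyL, rfl⟩
      rw [eq_top_iff]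
      intro x _
      have h1 : lam x ∈ L.map lam := by rw [hm]; trivial
      obtain ⟨l, hl, hlx⟩ := h1
      have h2 : l⁻¹ * x ∈ L := by
        apply hL.le
        show lam (l⁻¹ * x) ∈ Stab u k
        rw [map_mul, map_inv, ← hlx, inv_mul_cancel]
        exact (Stab u k).one_mem
      have h3 := L.mul_mem hl h2
      rwa [mul_inv_cancel_left] at h3
  · -- not maximal in `K`
    intro hco
    let W' : Subgroup (V ≃ᵃ[k] V) :=
      { carrier := {g | g ∈ K ∧ ∃ c : k, g 0 = c • u}
        one_mem' := ⟨K.one_mem, 0, by simp⟩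
        mul_mem' := by
          rintro g h ⟨hg, c, hc⟩ ⟨hh, d, hd⟩
          refine ⟨K.mul_mem hg hh, ?_⟩
          obtain ⟨e, -, he⟩ := (hg : lam g ∈ Stab u k)
          refine ⟨d * e + c, ?_⟩
          show g (h 0) = _
          rw [hd, aff_apply g, hc, map_smul]
          rw [show AffineEquiv.linearHom g u = e • u from he, smul_smul, add_smul]
        inv_mem' := by
          rintro g ⟨hg, c, hc⟩
          refine ⟨K.inv_mem hg, ?_⟩
          obtain ⟨e, he0, he⟩ := (K.inv_mem hg : lam g⁻¹ ∈ Stab u k)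
          refine ⟨- (c * e), ?_⟩
          have h1 : g⁻¹ (g 0) = 0 := g.symm_apply_apply 0
          rw [aff_apply g⁻¹, hc, map_smul, show AffineEquiv.linearHom g⁻¹ u = e • u from he, smul_smul] at h1
          rw [neg_smul]
          exact eq_neg_of_add_eq_zero_right h1 }
    have hle : H.subgroupOf K ≤ W'.subgroupOf K := by
      rintro ⟨g, hgK⟩ hg
      rw [Subgroup.mem_subgroupOf] at hg ⊢
      refine ⟨hgK, 0, ?_⟩
      rw [zero_smul]
      exact hg.1
    have htr : ∀ w : V, tr k w ∈ K := by
      intro w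
      show lam (tr k w) ∈ Stab u k
      rw [show lam (tr k w) = 1 from lin_tr w]
      exact (Stab u k).one_mem
    have hlt : H.subgroupOf K < W'.subgroupOf K := by
      refine lt_of_le_of_ne hle ?_
      intro he
      have h1 : (⟨tr k u, htr u⟩ : K) ∈ W'.subgroupOf K := by
        rw [Subgroup.mem_subgroupOf]
        refine ⟨htr u, 1, ?_⟩
        rw [one_smul, tr_apply, add_zero]
      rw [← he, Subgroup.mem_subgroupOf] at h1
      have h2 : u + 0 = 0 := h1.1
      rw [add_zero] at h2
      exact hu h2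
    have htop := hco.2 _ hlt
    have h3 : (⟨tr k v₁, htr v₁⟩ : K) ∈ W'.subgroupOf K := by rw [htop]; trivial
    rw [Subgroup.mem_subgroupOf] at h3
    obtain ⟨-, c, hc⟩ := h3
    rw [tr_apply, add_zero] at hc
    exact hv₁ c hc


/-- For every prime p and every d ≥ 2 there is a finite group G with a maximal subgroup M of index p^d and a maximal subgroup H of M that is not second maximal in G: some maximal subgroup K of G contains H without H being maximal in K. (One may take G the affine group V ⋊ GL(V) of V = 𝔽_p^d, M = GL(V), H the stabiliser in M of a line W of V, and K = V ⋊ H, with H < W ⋊ H < K.) So the prime-index hypothesis in the second-maximality criterion cannot be relaxed to prime-power index. -/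
theorem result (p d : ℕ) (hp : p.Prime)
    (hd : 2 ≤ d) :
    ∃ (G : Type) (_ : Group G) (_ : Finite G) (M H K : Subgroup G), IsCoatom M ∧ M.index = p ^ d ∧ H ≤ M ∧
      IsCoatom (H.subgroupOf M) ∧ IsCoatom K ∧ H ≤ K ∧ ¬ IsCoatom (H.subgroupOf K) := by
  haveI : Fact p.Prime := ⟨hp⟩
  let i₀ : Fin d := ⟨0, by omega⟩
  let i₁ : Fin d := ⟨1, by omega⟩
  have hi : i₁ ≠ i₀ := by simp [i₀, i₁, Fin.ext_iff]
  have hu : (Pi.single i₀ 1 : Fin d → ZMod p) ≠ 0 := by
    intro h
    have := congrFun h i₀
    simp at this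
  have hv₁0 : (Pi.single i₁ 1 : Fin d → ZMod p) ≠ 0 := by
    intro h
    have := congrFun h i₁
    simp at this
  have hv₁ : ∀ c : ZMod p, (Pi.single i₁ 1 : Fin d → ZMod p) ≠ c • (Pi.single i₀ 1 : Fin d → ZMod p) := by
    intro c h
    have := congrFun h i₁
    simp [Pi.single_apply, hi] at this
  obtain ⟨M, H, K, h1, h2, h3, h4, h5, h6, h7⟩ := main_exists (k := ZMod p) _ _ hu hv₁0 hv₁
  haveI : Finite ((Fin d → ZMod p) ≃ᵃ[ZMod p] (Fin d → ZMod p)) := Finite.of_injective (fun g => (g : (Fin d → ZMod p) → (Fin d → ZMod p))) AffineEquiv.coeFn_injective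
  refine ⟨(Fin d → ZMod p) ≃ᵃ[ZMod p] (Fin d → ZMod p), inferInstance, inferInstance, M, H, K, h1, ?_, h3, h4, h5, h6, h7⟩
  rw [h2, Nat.card_fun, Nat.card_zmod, Nat.card_fin]

end Cfsg.Agent.S5895
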