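import Cfsg.Statements.S5902
import Cfsg.Agent.Lib.LatCompl

set_option autoImplicit false
open Cfsg

namespace Cfsg.Agent.S5902

/-- Let G be a finite group, X a subgroup whose own subgroup lattice is complemented, and suppose X lies in exactly one maximal subgroup M of G. Then every subgroup H of G not contained in the normal core of M has a complement in the subgroup lattice of G (some C with H ⊔ C = G and H ⊓ C = 1); in particular the subgroup lattice of G modulo the normal core of M is complemented. -/
theorem result {G : Type*} [Group G] [Finite G] (X M : Subgroup G)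
    (hK : ComplementedLattice (Subgroup X))
    (hM : IsCoatom M) (hXM : X ≤ M) (huniq : ∀ M' : Subgroup G, IsCoatom M' → X ≤ M' → M' = M) :
    (∀ H : Subgroup G, ¬ H ≤ M.normalCore → ∃ C : Subgroup G, H ⊔ C = ⊤ ∧ H ⊓ C = ⊥) ∧
    ComplementedLattice (Subgroup (G ⧸ M.normalCore)) := by
  classical
  have ha : ∀ H : Subgroup G, ¬ H ≤ M.normalCore → ∃ C : Subgroup G, H ⊔ C = ⊤ ∧ H ⊓ C = ⊥ := by
    intro H hH
    -- find a conjugate not in `M`
    have h1 : ∃ b : G, ¬ H.map (MulAut.conj b).toMonoidHom ≤ M := by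
      by_contra hcon
      push Not at hcon
      apply hH
      intro h hh
      show ∀ b : G, b * h * b⁻¹ ∈ M
      intro b
      exact hcon b ⟨h, hh, rfl⟩
    obtain ⟨b, hb⟩ := h1
    apply Cfsg.Agent.Lib.LatCompl.compl_of_conj b
    apply Cfsg.Agent.Lib.LatCompl.exists_compl ⊥ X M ?_ bot_le huniq _ hb (inf_bot_eq _)
    intro Y _ hY
    obtain ⟨C', hC'⟩ := hK.exists_isCompl (Y.subgroupOf X)
    refine ⟨C'.map X.subtype, bot_le, ?_, ?_, ?_⟩
    · exact (Subgroup.map_le_range _ _).trans (by rw [Subgroup.range_subtype])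
    · have e := congrArg (Subgroup.map X.subtype) hC'.sup_eq_top
      rw [Subgroup.map_sup, Subgroup.map_subgroupOf_eq_of_le hY, ← MonoidHom.range_eq_map, Subgroup.range_subtype] at e
      exact e
    · have e := congrArg (Subgroup.map X.subtype) hC'.inf_eq_bot
      rw [Subgroup.map_inf _ _ _ X.subtype_injective, Subgroup.map_subgroupOf_eq_of_le hY, Subgroup.map_bot] at e
      exact e
  refine ⟨ha, ⟨fun Q => ?_⟩⟩
  by_cases hQ : Q.comap (QuotientGroup.mk' M.normalCore) ≤ M.normalCore
  · refine ⟨⊤, ?_⟩
    have hb : Q = ⊥ := by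
      rw [eq_bot_iff]
      intro x hx
      obtain ⟨y, rfl⟩ := QuotientGroup.mk'_surjective M.normalCore x
      have h1 : y ∈ M.normalCore := hQ hx
      rw [Subgroup.mem_bot]
      exact (QuotientGroup.eq_one_iff y).2 h1
    rw [hb]
    exact isCompl_bot_top
  · obtain ⟨C, h1, h2⟩ := ha _ hQ
    refine ⟨C.map (QuotientGroup.mk' M.normalCore), ?_⟩
    apply IsCompl.of_eq
    · rw [eq_bot_iff]
      rintro x ⟨hx, c, hc, rfl⟩
      have h3 : c ∈ Q.comap (QuotientGroup.mk' M.normalCore) ⊓ C := ⟨hx, hc⟩
      rw [h2, Subgroup.mem_bot] at h3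
      rw [h3, map_one]
      exact Subgroup.one_mem _
    · have e := congrArg (Subgroup.map (QuotientGroup.mk' M.normalCore)) h1
      rw [Subgroup.map_sup, Subgroup.map_comap_eq_self_of_surjective (QuotientGroup.mk'_surjective _), Subgroup.map_top_of_surjective _ (QuotientGroup.mk'_surjective _)] at e
      exact e

end Cfsg.Agent.S5902
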