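import Cfsg.Statements.S5903
import Cfsg.Agent.Lib.LatCompl

set_option autoImplicit false
open Cfsg

namespace Cfsg.Agent.S5903

/-- Let G be a finite simple group, X a subgroup lying in exactly one maximal subgroup M of G, and N a subgroup of prime order with N ≤ X that is central in M. If the subgroup lattice of X/N is complemented, then the subgroup lattice of G is complemented. -/
theorem result {G : Type*} [Group G] [Finite G] [IsSimpleGroup G] (X M N : Subgroup G)
    (hM : IsCoatom M) (hXM : X ≤ M) (huniq : ∀ M' : Subgroup G, IsCoatom M' → X ≤ M' → M' = M)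
    (hNX : N ≤ X) (hN : (Nat.card N).Prime) (hcen : ∀ n ∈ N, ∀ m ∈ M, m * n = n * m)
    [(N.subgroupOf X).Normal] (hK : ComplementedLattice (Subgroup (X ⧸ N.subgroupOf X))) :
    ComplementedLattice (Subgroup G) := by
  classical
  have hNne : N ≠ ⊥ := by
    rintro rfl
    simp at hN
    exact Nat.not_prime_one hN
  -- the interval `[N, X]` is complemented
  have hint : ∀ Y : Subgroup G, N ≤ Y → Y ≤ X → ∃ C : Subgroup G, N ≤ C ∧ C ≤ X ∧ Y ⊔ C = X ∧ Y ⊓ C = N := by
    intro Y hNY hYX
    let π := QuotientGroup.mk' (N.subgroupOf X)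
    have hπker : π.ker = N.subgroupOf X := QuotientGroup.ker_mk' _
    obtain ⟨C', hC'⟩ := hK.exists_isCompl ((Y.subgroupOf X).map π)
    have hker_le : π.ker ≤ Y.subgroupOf X := by
      rw [hπker]
      intro x hx
      exact hNY hx
    refine ⟨(C'.comap π).map X.subtype, ?_, ?_, ?_, ?_⟩
    · intro n hn
      refine ⟨⟨n, hNX hn⟩, ?_, rfl⟩
      show π ⟨n, hNX hn⟩ ∈ C'
      have : π ⟨n, hNX hn⟩ = 1 := by
        have h1 : (⟨n, hNX hn⟩ : X) ∈ π.ker := by
          rw [hπker]
          exact hn
        exact h1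
      rw [this]
      exact C'.one_mem
    · exact (Subgroup.map_le_range _ _).trans (by rw [Subgroup.range_subtype])
    · have hsurj : Function.Surjective π := QuotientGroup.mk'_surjective _
      have e1 : Y.subgroupOf X ⊔ C'.comap π = ⊤ := by
        have e2 := Subgroup.comap_sup_eq π ((Y.subgroupOf X).map π) C' hsurj
        rw [hC'.sup_eq_top, Subgroup.comap_top, Subgroup.comap_map_eq, sup_eq_left.2 hker_le] at e2
        exact e2
      have e3 := congrArg (Subgroup.map X.subtype) e1
      rw [Subgroup.map_sup, Subgroup.map_subgroupOf_eq_of_le hYX, ← MonoidHom.range_eq_map, Subgroup.range_subtype] at e3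
      exact e3
    · apply le_antisymm
      · rintro x ⟨hxY, c, hc, rfl⟩
        have h1 : π c ∈ (Y.subgroupOf X).map π ⊓ C' := ⟨⟨c, hxY, rfl⟩, hc⟩
        rw [hC'.inf_eq_bot, Subgroup.mem_bot] at h1
        have h2 : c ∈ π.ker := h1
        rw [hπker] at h2
        exact h2
      · intro n hn
        refine ⟨hNY hn, ⟨n, hNX hn⟩, ?_, rfl⟩
        show π ⟨n, hNX hn⟩ ∈ C'
        have : π ⟨n, hNX hn⟩ = 1 := by
          have h1 : (⟨n, hNX hn⟩ : X) ∈ π.ker := by
            rw [hπker]
            exact hn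
          exact h1
        rw [this]
        exact C'.one_mem
  refine ⟨fun H => ?_⟩
  by_cases hb : H = ⊥
  · rw [hb]
    exact ⟨⊤, isCompl_bot_top⟩
  by_cases ht : H = ⊤
  · rw [ht]
    exact ⟨⊥, isCompl_top_bot⟩
  have hex : ∃ g : G, ¬ H.map (MulAut.conj g⁻¹).toMonoidHom ≤ M ∧ ¬ N.map (MulAut.conj g).toMonoidHom ≤ H := by
    by_contra hcon
    push Not at hcon
    let Y₁ : Subgroup G := ⨆ g : {g : G // N.map (MulAut.conj g).toMonoidHom ≤ H}, N.map (MulAut.conj g.1).toMonoidHom
    have hY₁H : Y₁ ≤ H := iSup_le fun g => g.2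
    have hcomm : ∀ g : G, ∀ n ∈ N, ¬ N.map (MulAut.conj g).toMonoidHom ≤ H → ∀ y ∈ H, (g * n * g⁻¹) * y = y * (g * n * g⁻¹) := by
      intro g n hn hg y hy
      have h1 : H.map (MulAut.conj g⁻¹).toMonoidHom ≤ M := by
        by_contra h
        exact hg (hcon g h)
      have h2 : g⁻¹ * y * g ∈ M := by
        have := h1 ⟨y, hy, rfl⟩
        simpa [MulAut.conj_apply] using this
      have h3 := hcen n hn _ h2
      have h4 : y = g * (g⁻¹ * y * g) * g⁻¹ := by group
      calc (g * n * g⁻¹) * y = g * (n * (g⁻¹ * y * g)) * g⁻¹ := by group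
        _ = g * ((g⁻¹ * y * g) * n) * g⁻¹ := by rw [h3]
        _ = y * (g * n * g⁻¹) := by group
    have hnorm : ∀ g : G, ∀ n ∈ N, g * n * g⁻¹ ∈ Subgroup.normalizer (Y₁ : Set G) := by
      intro g n hn
      by_cases hg : N.map (MulAut.conj g).toMonoidHom ≤ H
      · apply Subgroup.le_normalizer
        apply (le_iSup (fun g : {g : G // N.map (MulAut.conj g).toMonoidHom ≤ H} => N.map (MulAut.conj g.1).toMonoidHom) ⟨g, hg⟩)
        exact ⟨n, hn, rfl⟩
      · rw [Subgroup.mem_normalizer_iff]
        intro h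
        constructor
        · intro hh
          have e := hcomm g n hn hg h (hY₁H hh)
          rw [e, mul_assoc, mul_inv_cancel, mul_one]
          exact hh
        · intro hh
          have e := hcomm g n hn hg _ (hY₁H hh)
          have e2 : h = g * n * g⁻¹ * h * (g * n * g⁻¹)⁻¹ := by
            have e3 : (g * n * g⁻¹) * (g * n * g⁻¹ * h * (g * n * g⁻¹)⁻¹) = (g * n * g⁻¹) * h := by
              rw [e]
              group
            exact (mul_left_cancel e3).symm
          rw [e2]
          exact hh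
    have hcl : Subgroup.normalClosure (N : Set G) ≤ Subgroup.normalizer (Y₁ : Set G) := by
      rw [Subgroup.normalClosure, Subgroup.closure_le]
      intro z hz
      rw [Group.mem_conjugatesOfSet_iff] at hz
      obtain ⟨a, ha, hc⟩ := hz
      obtain ⟨c, rfl⟩ := isConj_iff.1 hc
      exact hnorm c a ha
    have htop : Subgroup.normalClosure (N : Set G) = ⊤ := by
      rcases (Subgroup.normalClosure_normal (s := (N : Set G))).eq_bot_or_eq_top with h | h
      · exfalso
        apply hNne
        rw [eq_bot_iff, ← h]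
        exact Subgroup.le_normalClosure
      · exact h
    rw [htop, top_le_iff, Subgroup.normalizer_eq_top_iff] at hcl
    rcases hcl.eq_bot_or_eq_top with h | h
    · -- no conjugate of `N` lies in `H`
      have hcore : H ≤ M.normalCore := by
        intro y hy
        show ∀ b : G, b * y * b⁻¹ ∈ M
        intro b
        by_cases hb : H.map (MulAut.conj b).toMonoidHom ≤ M
        · exact hb ⟨y, hy, rfl⟩
        · exfalso
          have h1 := hcon b⁻¹ (by simpa using hb)
          have h2 : N.map (MulAut.conj b⁻¹).toMonoidHom ≤ Y₁ := le_iSup (fun g : {g : G // N.map (MulAut.conj g).toMonoidHom ≤ H} => N.map (MulAut.conj g.1).toMonoidHom) ⟨b⁻¹, h1⟩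
          rw [h, le_bot_iff] at h2
          apply hNne
          rw [eq_bot_iff]
          intro n hn
          have h3 : MulAut.conj b⁻¹ n ∈ N.map (MulAut.conj b⁻¹).toMonoidHom := ⟨n, hn, rfl⟩
          rw [h2, Subgroup.mem_bot] at h3
          have h4 : b⁻¹ * n * b = 1 := by simpa using h3
          have h5 : n = b * (b⁻¹ * n * b) * b⁻¹ := by group
          rw [h5, h4, mul_one, mul_inv_cancel]
          exact Subgroup.one_mem _
      have hnc : M.normalCore.Normal := Subgroup.normalCore_normal M
      rcases hnc.eq_bot_or_eq_top with h1 | h1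
      · rw [h1, le_bot_iff] at hcore
        exact hb hcore
      · apply hM.1
        rw [eq_top_iff, ← h1]
        exact Subgroup.normalCore_le M
    · apply ht
      rw [eq_top_iff, ← h]
      exact hY₁H
  obtain ⟨g, hg1, hg2⟩ := hex
  have hNinf : H.map (MulAut.conj g⁻¹).toMonoidHom ⊓ N = ⊥ := by
    haveI : Fact (Nat.card N).Prime := ⟨hN⟩
    rcases Subgroup.eq_bot_or_eq_top_of_prime_card ((H.map (MulAut.conj g⁻¹).toMonoidHom).subgroupOf N) with h | h
    · rw [eq_bot_iff]
      rintro x ⟨hx1, hx2⟩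
      have h1 : (⟨x, hx2⟩ : N) ∈ (H.map (MulAut.conj g⁻¹).toMonoidHom).subgroupOf N := hx1
      rw [h, Subgroup.mem_bot] at h1
      rw [Subgroup.mem_bot]
      exact congrArg Subtype.val h1
    · exfalso
      apply hg2
      rintro _ ⟨n, hn, rfl⟩
      have h1 : (⟨n, hn⟩ : N) ∈ (H.map (MulAut.conj g⁻¹).toMonoidHom).subgroupOf N := h ▸ Subgroup.mem_top _
      obtain ⟨y, hy, e⟩ := h1
      have e2 : g⁻¹ * y * g = n := by simpa [MulAut.conj_apply] using e
      have e3 : g * n * g⁻¹ = y := by rw [← e2]; group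
      show g * n * g⁻¹ ∈ H
      rw [e3]
      exact hy
  obtain ⟨C, h1, h2⟩ := Cfsg.Agent.Lib.LatCompl.compl_of_conj g⁻¹ H (Cfsg.Agent.Lib.LatCompl.exists_compl N X M hint hNX huniq _ hg1 hNinf)
  exact ⟨C, IsCompl.of_eq h2 h1⟩

end Cfsg.Agent.S5903
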