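import Cfsg.Statements.S5904
-- import your own Cfsg.Agent.* helpers here

set_option autoImplicit false
open scoped Pointwise
open Cfsg

namespace Cfsg.Agent.S5904

variable {Ω : Type*}

/-- The stabiliser of the partition `{O, Oᶜ}`. -/
def K (O : Set Ω) : Subgroup (Equiv.Perm Ω) where
  carrier := {g | g • O = O ∨ g • O = Oᶜ}
  mul_mem' := by
    rintro g h (hg | hg) (hh | hh)
    · left
      rw [mul_smul, hh, hg]
    · right
      rw [mul_smul, hh, Set.smul_set_compl, hg]
    · right
      rw [mul_smul, hh, hg]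
    · left
      rw [mul_smul, hh, Set.smul_set_compl, hg, compl_compl]
  one_mem' := Or.inl (one_smul _ _)
  inv_mem' := by
    rintro g (hg | hg)
    · left
      rw [inv_smul_eq_iff, hg]
    · right
      rw [inv_smul_eq_iff, Set.smul_set_compl, hg, compl_compl]

/-- Let Ω be a finite set with more than two elements and O ⊆ Ω a subset with exactly as many elements as its complement. Then the setwise stabilizer of O in the symmetric group on Ω is not a maximal subgroup (it is properly contained in the stabilizer of the partition {O, Ω ∖ O}, which is proper). -/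
theorem result {Ω : Type*} [Fintype Ω] [DecidableEq Ω] (hΩ : 2 < Fintype.card Ω)
    (O : Set Ω) (hO : Nat.card O = Nat.card ↥Oᶜ) :
    ¬ IsCoatom (MulAction.stabilizer (Equiv.Perm Ω) O) := by
  classical
  intro hco
  have hcard : Nat.card O + Nat.card ↥Oᶜ = Fintype.card Ω := by
    rw [← Nat.card_eq_fintype_card, ← Nat.card_sum]
    exact Nat.card_congr (Equiv.Set.sumCompl O)
  have hO2 : 1 < Nat.card O := by omega
  have hO3 : 0 < Nat.card ↥Oᶜ := by omega
  haveI := Finite.one_lt_card_iff_nontrivial.1 hO2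
  obtain ⟨⟨x, hx⟩, ⟨y, hy⟩, hxy⟩ := exists_pair_ne O
  obtain ⟨⟨z, hz⟩⟩ := (Nat.card_pos_iff.1 hO3).1
  have hxy' : x ≠ y := fun h => hxy (Subtype.ext h)
  have hxz : x ≠ z := fun h => hz (h ▸ hx)
  have hyz : y ≠ z := fun h => hz (h ▸ hy)
  have hlt : MulAction.stabilizer (Equiv.Perm Ω) O < K O := by
    refine lt_of_le_of_ne (fun g hg => Or.inl hg) ?_
    intro he
    let e : O ≃ ↥Oᶜ := Fintype.equivOfCardEq (by rw [← Nat.card_eq_fintype_card, ← Nat.card_eq_fintype_card]; exact hO)
    let g0 : Equiv.Perm Ω := (Equiv.Set.sumCompl O).symm.trans ((Equiv.sumComm _ _).trans ((Equiv.sumCongr e.symm e).trans (Equiv.Set.sumCompl O)))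
    have h1 : g0 x ∈ Oᶜ := by
      simp only [g0, Equiv.trans_apply, Equiv.Set.sumCompl_symm_apply_of_mem hx, Equiv.sumComm_apply, Sum.swap_inl, Equiv.sumCongr_apply, Sum.map_inr, Equiv.Set.sumCompl_apply_inr]
      exact (e ⟨x, hx⟩).2
    have h2 : g0 ∈ MulAction.stabilizer (Equiv.Perm Ω) O := by
      rw [he]
      right
      ext w
      rw [Set.mem_smul_set]
      constructor
      · rintro ⟨w', hw', rfl⟩
        show g0 w' ∈ Oᶜ
        simp only [g0, Equiv.trans_apply, Equiv.Set.sumCompl_symm_apply_of_mem hw', Equiv.sumComm_apply, Sum.swap_inl, Equiv.sumCongr_apply, Sum.map_inr, Equiv.Set.sumCompl_apply_inr]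
        exact (e ⟨w', hw'⟩).2
      · intro hw
        refine ⟨(e.symm ⟨w, hw⟩ : O), (e.symm ⟨w, hw⟩).2, ?_⟩
        show g0 _ = w
        simp only [g0, Equiv.trans_apply, Equiv.Set.sumCompl_symm_apply_of_mem (e.symm ⟨w, hw⟩).2, Equiv.sumComm_apply, Sum.swap_inl, Equiv.sumCongr_apply, Sum.map_inr, Equiv.Set.sumCompl_apply_inr]
        simp
    have h3 : g0 • O = O := h2
    have h4 : g0 x ∈ g0 • O := Set.smul_mem_smul_set hx
    rw [h3] at h4
    exact h1 h4
  have h1 := hco.2 _ hlt
  have h2 : Equiv.swap y z ∈ K O := h1 ▸ Subgroup.mem_top _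
  rcases h2 with h2 | h2
  · have h3 : z ∈ (Equiv.swap y z) • O := by
      rw [Set.mem_smul_set]
      exact ⟨y, hy, Equiv.swap_apply_left _ _⟩
    rw [h2] at h3
    exact hz h3
  · have h3 : x ∈ (Equiv.swap y z) • O := by
      rw [Set.mem_smul_set]
      exact ⟨x, hx, Equiv.swap_apply_of_ne_of_ne hxy' hxz⟩
    rw [h2] at h3
    exact h3 hx


end Cfsg.Agent.S5904
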