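import Cfsg.Statements.S5908
import Cfsg.Agent.Lib.U32c

set_option autoImplicit false
open Cfsg

namespace Cfsg.Agent.S5908

/-- The subgroup lattice of PSU₃(2) (the solvable group of order 72, realised over the field with 4 elements) is not complemented: some subgroup H has no subgroup X with H ⊔ X = ⊤ and H ⊓ X = ⊥. -/
theorem result {F : Type*} [Field F] [Fintype F] (hF : Fintype.card F = 4) :
    ¬ ComplementedLattice (Subgroup (Cfsg.PSU 3 F 2)) := by
  classical
  intro hc
  obtain ⟨N, hN, h9, -, ⟨e⟩⟩ := Cfsg.Agent.Lib.U32c.main hF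
  let φ : Cfsg.PSU 3 F 2 →* QuaternionGroup 2 := e.toMonoidHom.comp (QuotientGroup.mk' N)
  have hφs : Function.Surjective φ := e.surjective.comp (QuotientGroup.mk'_surjective N)
  have hdec : ∀ x : QuaternionGroup 2, x = 1 ∨ x = QuaternionGroup.a 2 ∨ x ^ 2 = QuaternionGroup.a 2 := by decide
  have hcen : ∀ y : QuaternionGroup 2, y * QuaternionGroup.a 2 = QuaternionGroup.a 2 * y := by decide
  have hne : (QuaternionGroup.a 2 : QuaternionGroup 2) ≠ 1 := by decide
  have hnc : (QuaternionGroup.a 1 : QuaternionGroup 2) * QuaternionGroup.xa 0 ≠ QuaternionGroup.xa 0 * QuaternionGroup.a 1 := by decide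
  let Z : Subgroup (QuaternionGroup 2) := Subgroup.center _
  have hZ2 : (QuaternionGroup.a 2 : QuaternionGroup 2) ∈ Z := Subgroup.mem_center_iff.2 hcen
  obtain ⟨C, hC⟩ := hc.exists_isCompl (Z.comap φ)
  have hCbot : C ≠ ⊥ := by
    intro hb
    have h1 := hC.sup_eq_top
    rw [hb, sup_bot_eq] at h1
    obtain ⟨x, hx⟩ := hφs (QuaternionGroup.a 1)
    have h2 : x ∈ Z.comap φ := h1 ▸ Subgroup.mem_top x
    have h3 : φ x ∈ Z := h2
    rw [hx] at h3
    exact hnc (Subgroup.mem_center_iff.1 h3 _).symm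
  obtain ⟨c, hcC, hc1⟩ := (Subgroup.ne_bot_iff_exists_ne_one ..).1 hCbot |> fun ⟨c, hc1⟩ => (⟨c.1, c.2, fun h => hc1 (Subtype.ext h)⟩ : ∃ c ∈ C, c ≠ 1)
  have hinf : ∀ y ∈ C, φ y ∈ Z → y = 1 := by
    intro y hy hz
    have : y ∈ Z.comap φ ⊓ C := ⟨hz, hy⟩
    rw [hC.inf_eq_bot, Subgroup.mem_bot] at this
    exact this
  rcases hdec (φ c) with h | h | h
  · -- the element lies in `N`, which maps to the identity
    exact hc1 (hinf c hcC (by rw [h]; exact Z.one_mem))
  · have := hinf c hcC (by rw [h]; exact hZ2)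
    rw [this, map_one] at h
    exact hne h.symm
  · have h1 : φ (c ^ 2) ∈ Z := by
      rw [map_pow, h]
      exact hZ2
    have h2 := hinf (c ^ 2) (C.pow_mem hcC 2) h1
    rw [← map_pow, h2, map_one] at h
    exact hne h.symm

end Cfsg.Agent.S5908
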