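import Cfsg.Statements.S5910


set_option autoImplicit false
open Cfsg

namespace Cfsg.Agent.S5910


open Equiv

abbrev X8 := Fin 4 × Fin 2

/-- bitwise sum -/
def xr (a b : Fin 4) : Fin 4 := ⟨a.val ^^^ b.val, Nat.xor_lt_two_pow (n := 2) a.2 b.2⟩

/-- four points of `F₂³` summing to zero -/
def zs (x y z w : X8) : Prop := xr (xr x.1 y.1) (xr z.1 w.1) = 0 ∧ x.2 + y.2 + z.2 + w.2 = 0

instance : ∀ x y z w, Decidable (zs x y z w) := fun _ _ _ _ => by unfold zs; infer_instance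

theorem zs_unique : ∀ x y z w w', zs x y z w → zs x y z w' → w = w' := by decide +kernel

theorem zs_exists : ∀ x y z, ∃ w, zs x y z w := by decide +kernel

/-- the affine group -/
def K₀ : Subgroup (Perm X8) where
  carrier := {g | ∀ x y z w, zs x y z w ↔ zs (g x) (g y) (g z) (g w)}
  one_mem' := fun x y z w => Iff.rfl
  mul_mem' := fun {g h} hg hh x y z w => by
    show _ ↔ zs (g (h x)) (g (h y)) (g (h z)) (g (h w))
    rw [hh, hg]
  inv_mem' := fun {g} hg x y z w => by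
    have := hg (g⁻¹ x) (g⁻¹ y) (g⁻¹ z) (g⁻¹ w)
    have e : ∀ c, g (g⁻¹ c) = c := fun c => by simp
    rw [e, e, e, e] at this
    exact this.symm

/-- the partition stabiliser -/
def P₀ : Subgroup (Perm X8) where
  carrier := {g | ∀ x y : X8, x.1 = y.1 ↔ (g x).1 = (g y).1}
  one_mem' := fun x y => Iff.rfl
  mul_mem' := fun {g h} hg hh x y => by
    show _ ↔ (g (h x)).1 = (g (h y)).1
    rw [hh, hg]
  inv_mem' := fun {g} hg x y => by
    have := hg (g⁻¹ x) (g⁻¹ y)
    have e : ∀ c, g (g⁻¹ c) = c := fun c => by simp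
    rw [e, e] at this
    exact this.symm

theorem perm4_aff : ∀ (π : Perm (Fin 4)) (a b c d : Fin 4), xr (xr a b) (xr c d) = 0 → xr (xr (π a) (π b)) (xr (π c) (π d)) = 0 := by
  decide +kernel

theorem fun4_aff : ∀ (ψ : Fin 4 → Fin 2), ψ 0 + ψ 1 + ψ 2 + ψ 3 = 0 → ∀ (a b c d : Fin 4), xr (xr a b) (xr c d) = 0 → ψ a + ψ b + ψ c + ψ d = 0 := by
  decide +kernel

theorem perm2_add : ∀ (p : Perm (Fin 2)) (b : Fin 2), p b = b + p 0 := by decide +kernel

theorem perm2_sign : ∀ (p : Perm (Fin 2)), Perm.sign p = if p 0 = 0 then 1 else -1 := by decide +kernel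

theorem sign_prod4 : ∀ (ψ : Fin 4 → Fin 2), (∏ a, (if ψ a = 0 then (1 : ℤˣ) else -1)) = 1 → ψ 0 + ψ 1 + ψ 2 + ψ 3 = 0 := by
  decide +kernel

theorem add_shift : ∀ (b₁ b₂ b₃ b₄ c₁ c₂ c₃ c₄ : Fin 2), b₁ + b₂ + b₃ + b₄ = 0 → c₁ + c₂ + c₃ + c₄ = 0 →
    (b₁ + c₁) + (b₂ + c₂) + (b₃ + c₃) + (b₄ + c₄) = 0 := by decide +kernel

/-- Even elements of the partition stabiliser are affine. -/
theorem even_aff (g : Perm X8) (hg : g ∈ P₀) (hs : Perm.sign g = 1) : g ∈ K₀ := by
  classical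
  have hg' : ∀ x y : X8, x.1 = y.1 ↔ (g x).1 = (g y).1 := hg
  let π₀ : Fin 4 → Fin 4 := fun a => (g (a, 0)).1
  have hπ : ∀ (a : Fin 4) (b : Fin 2), (g (a, b)).1 = π₀ a := fun a b => (hg' (a, b) (a, 0)).1 rfl
  have hπinj : Function.Injective π₀ := by
    intro a a' h
    exact (hg' (a, 0) (a', 0)).2 h
  let π : Perm (Fin 4) := Equiv.ofBijective π₀ (Finite.injective_iff_bijective.1 hπinj)
  have hFinj : ∀ a : Fin 4, Function.Injective (fun b : Fin 2 => (g (a, b)).2) := by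
    intro a b b' h
    have h1 : g (a, b) = g (a, b') := Prod.ext (by rw [hπ, hπ]) h
    exact congrArg Prod.snd (g.injective h1)
  let F : Fin 4 → Perm (Fin 2) := fun a => Equiv.ofBijective _ (Finite.injective_iff_bijective.1 (hFinj a))
  have hF : ∀ a b, F a b = (g (a, b)).2 := fun a b => rfl
  have hdec : g = Equiv.prodCongrLeft (fun _ : Fin 2 => π) * Equiv.prodCongrRight F := by
    ext1 x
    obtain ⟨a, b⟩ := x
    show g (a, b) = (π₀ a, F a b)
    exact Prod.ext (hπ a b) rfl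
  have h1 : Perm.sign g = ∏ a, Perm.sign (F a) := by
    rw [hdec, Perm.sign_mul, Perm.sign_prodCongrLeft, Perm.sign_prodCongrRight, Fin.prod_univ_two,
      Int.units_mul_self, one_mul]
  let ψ : Fin 4 → Fin 2 := fun a => F a 0
  have hψsum : ψ 0 + ψ 1 + ψ 2 + ψ 3 = 0 := by
    apply sign_prod4
    have h2 : (∏ a, (if ψ a = 0 then (1 : ℤˣ) else -1)) = ∏ a, Perm.sign (F a) :=
      Finset.prod_congr rfl fun a _ => (perm2_sign (F a)).symm
    rw [h2, ← h1, hs]
  have hform : ∀ (a : Fin 4) (b : Fin 2), g (a, b) = (π a, b + ψ a) := by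
    intro a b
    apply Prod.ext
    · exact hπ a b
    · show (g (a, b)).2 = _
      rw [← hF, perm2_add]
  -- the sum of `ψ ∘ π⁻¹`: directly on `ψ`
  have hforward : ∀ x y z w, zs x y z w → zs (g x) (g y) (g z) (g w) := by
    rintro ⟨a₁, b₁⟩ ⟨a₂, b₂⟩ ⟨a₃, b₃⟩ ⟨a₄, b₄⟩ ⟨h1, h2⟩
    simp only at h1 h2
    rw [hform, hform, hform, hform]
    refine ⟨perm4_aff π _ _ _ _ h1, ?_⟩
    exact add_shift _ _ _ _ _ _ _ _ h2 (fun4_aff ψ hψsum _ _ _ _ h1)
  intro x y z w
  refine ⟨hforward x y z w, fun h => ?_⟩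
  obtain ⟨w', hw'⟩ := zs_exists x y z
  have h2 := zs_unique _ _ _ _ _ h (hforward _ _ _ _ hw')
  rw [g.injective h2]
  exact hw'

def cc : Perm X8 := swap (0, 1) (1, 0) * swap (2, 1) (3, 0)

theorem cc_mem : cc ∈ K₀ := by
  show ∀ x y z w, zs x y z w ↔ zs (cc x) (cc y) (cc z) (cc w)
  decide +kernel

theorem cc_sign : Perm.sign cc = 1 := by
  rw [cc, Perm.sign_mul, Perm.sign_swap (by decide), Perm.sign_swap (by decide)]
  rfl

theorem cc_not : cc ∉ P₀ := by
  intro h
  have h1 := (h (0, 0) (0, 1)).1 rfl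
  revert h1
  decide +kernel

def dd : Perm X8 := swap (0, 0) (0, 1) * swap (0, 1) (1, 0)

theorem dd_sign : Perm.sign dd = 1 := by
  rw [dd, Perm.sign_mul, Perm.sign_swap (by decide), Perm.sign_swap (by decide)]
  rfl

theorem dd_not : dd ∉ K₀ := by
  intro h
  have h1 := (h (0, 0) (0, 1) (2, 0) (2, 1)).1 (by decide +kernel)
  revert h1
  decide +kernel


/-- Let Ω be a set with 8 elements and f : Ω → Fin 4 a labelling whose four fibres all have size 2 (a partition of the 8 points into 4 pairs). Then the group of even permutations preserving this partition, (S₂ ≀ S₄) ∩ A₈, is not a maximal subgroup of the alternating group A₈ (it lies in a subgroup isomorphic to the affine group AGL₃(2)). -/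
theorem result {Ω : Type*} [Fintype Ω] [DecidableEq Ω] (h8 : Fintype.card Ω = 8)
    (f : Ω → Fin 4) (hf : ∀ i : Fin 4, Nat.card {x : Ω // f x = i} = 2) :
    ¬ IsCoatom ((Subgroup.closure {g : Equiv.Perm Ω | ∀ x y : Ω, f x = f y ↔ f (g x) = f (g y)} ⊓ alternatingGroup Ω).subgroupOf (alternatingGroup Ω)) := by
  classical
  -- coordinates
  let ei : ∀ i : Fin 4, {x : Ω // f x = i} ≃ Fin 2 := fun i => Finite.equivFinOfCardEq (hf i)
  let e : Ω ≃ X8 := (Equiv.sigmaFiberEquiv f).symm.trans ((Equiv.sigmaCongrRight ei).trans (Equiv.sigmaEquivProd (Fin 4) (Fin 2)))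
  have he : ∀ x, (e x).1 = f x := fun x => rfl
  let Φ : Perm Ω ≃* Perm X8 := e.permCongrHom
  have hΦ : ∀ (g : Perm Ω) (x : Ω), Φ g (e x) = e (g x) := by
    intro g x
    show e (g (e.symm (e x))) = _
    rw [Equiv.symm_apply_apply]
  have hΦs : ∀ g : Perm Ω, Perm.sign (Φ g) = Perm.sign g := fun g => Perm.sign_permCongr e g
  -- the closure is no bigger than the set
  let S : Subgroup (Perm Ω) := P₀.comap Φ.toMonoidHom
  have hSmem : ∀ g, g ∈ S ↔ ∀ x y : Ω, f x = f y ↔ f (g x) = f (g y) := by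
    intro g
    constructor
    · intro h x y
      have := h (e x) (e y)
      simp only [MulEquiv.coe_toMonoidHom] at this
      rw [hΦ, hΦ] at this
      simpa [he] using this
    · intro h x y
      have h1 := h (e.symm x) (e.symm y)
      have h2 := hΦ g (e.symm x)
      have h3 := hΦ g (e.symm y)
      rw [Equiv.apply_symm_apply] at h2 h3
      show _ ↔ (Φ g x).1 = (Φ g y).1
      rw [h2, h3, he, he, ← h1, ← he, ← he, Equiv.apply_symm_apply, Equiv.apply_symm_apply]
  have hcl : Subgroup.closure {g : Perm Ω | ∀ x y : Ω, f x = f y ↔ f (g x) = f (g y)} = S := by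
    apply le_antisymm
    · rw [Subgroup.closure_le]
      intro g hg
      exact (hSmem g).2 hg
    · intro g hg
      exact Subgroup.subset_closure ((hSmem g).1 hg)
  rw [hcl]
  intro hco
  let M : Subgroup (alternatingGroup Ω) := (K₀.comap Φ.toMonoidHom).subgroupOf (alternatingGroup Ω)
  have hle : (S ⊓ alternatingGroup Ω).subgroupOf (alternatingGroup Ω) ≤ M := by
    rintro ⟨g, hgA⟩ hg
    rw [Subgroup.mem_subgroupOf] at hg ⊢
    apply even_aff _ hg.1
    show Perm.sign (Φ g) = 1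
    rw [hΦs]
    exact Perm.mem_alternatingGroup.1 hgA
  have hA : ∀ g : Perm X8, Perm.sign g = 1 → Φ.symm g ∈ alternatingGroup Ω := by
    intro g hg
    rw [Perm.mem_alternatingGroup, ← hΦs, MulEquiv.apply_symm_apply]
    exact hg
  have hlt : (S ⊓ alternatingGroup Ω).subgroupOf (alternatingGroup Ω) < M := by
    refine lt_of_le_of_ne hle ?_
    intro heq
    have h1 : (⟨Φ.symm cc, hA cc cc_sign⟩ : alternatingGroup Ω) ∈ M := by
      rw [Subgroup.mem_subgroupOf]
      show Φ (Φ.symm cc) ∈ K₀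
      rw [MulEquiv.apply_symm_apply]
      exact cc_mem
    rw [← heq, Subgroup.mem_subgroupOf] at h1
    have h2 : Φ (Φ.symm cc) ∈ P₀ := h1.1
    rw [MulEquiv.apply_symm_apply] at h2
    exact cc_not h2
  have htop := hco.2 M hlt
  have h3 : (⟨Φ.symm dd, hA dd dd_sign⟩ : alternatingGroup Ω) ∈ M := by
    rw [htop]
    trivial
  rw [Subgroup.mem_subgroupOf] at h3
  have h4 : Φ (Φ.symm dd) ∈ K₀ := h3
  rw [MulEquiv.apply_symm_apply] at h4
  exact dd_not h4

end Cfsg.Agent.S5910
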