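import Cfsg.Statements.S5911
import Mathlib

set_option autoImplicit false
open Cfsg

namespace Cfsg.Agent.S5911

open Equiv Equiv.Perm

section aux
variable {Ω : Type*} [Fintype Ω] [DecidableEq Ω]

theorem final_eq {H : Subgroup (Equiv.Perm Ω)} {x : Ω} (hx : H ≤ MulAction.stabilizer (Equiv.Perm Ω) x)
    (hH : H.index = Fintype.card Ω) : H = MulAction.stabilizer (Equiv.Perm Ω) x := by
  apply Subgroup.eq_of_le_of_card_ge hx
  have h1 := H.card_mul_index
  have h2 := (MulAction.stabilizer (Equiv.Perm Ω) x).card_mul_index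
  have h3 : (MulAction.stabilizer (Equiv.Perm Ω) x).index = Fintype.card Ω := by
    rw [MulAction.index_stabilizer_of_transitive, Nat.card_eq_fintype_card]
  rw [hH] at h1
  rw [h3] at h2
  have hpos : 0 < Fintype.card Ω := by
    have : Nonempty Ω := ⟨x⟩
    exact Fintype.card_pos
  have h4 : Nat.card H * Fintype.card Ω = Nat.card (MulAction.stabilizer (Equiv.Perm Ω) x) * Fintype.card Ω := by rw [h1, h2]
  exact (Nat.eq_of_mul_eq_mul_right hpos h4).ge

end aux

theorem big_ineq (j : ℕ) : 2 ^ (j + 4) * Nat.factorial (j + 4) < 2 * Nat.factorial (2 * j + 6) := by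
  induction j with
  | zero => decide
  | succ j ih =>
    have e1 : 2 * (j + 1) + 6 = (2 * j + 7) + 1 := by ring
    have e2 : j + 1 + 4 = (j + 4) + 1 := by ring
    rw [e1, e2, Nat.factorial_succ (2 * j + 7), Nat.factorial_succ (2 * j + 6), Nat.factorial_succ (j + 4), pow_succ]
    have h1 : 2 ^ (j + 4) * 2 * ((j + 4 + 1) * Nat.factorial (j + 4)) = (2 * (j + 5)) * (2 ^ (j + 4) * Nat.factorial (j + 4)) := by ring
    rw [h1]
    have h2 : (2 * (j + 5)) * (2 ^ (j + 4) * Nat.factorial (j + 4)) < (2 * (j + 5)) * (2 * Nat.factorial (2 * j + 6)) :=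
      Nat.mul_lt_mul_of_pos_left ih (by omega)
    have h3 : (2 * (j + 5)) * (2 * Nat.factorial (2 * j + 6)) ≤ 2 * ((2 * j + 7 + 1) * ((2 * j + 6 + 1) * Nat.factorial (2 * j + 6))) := by
      have h4 : (2 * (j + 5)) * 2 ≤ 2 * ((2 * j + 7 + 1) * (2 * j + 6 + 1)) := by nlinarith
      calc (2 * (j + 5)) * (2 * Nat.factorial (2 * j + 6)) = ((2 * (j + 5)) * 2) * Nat.factorial (2 * j + 6) := by ring
        _ ≤ (2 * ((2 * j + 7 + 1) * (2 * j + 6 + 1))) * Nat.factorial (2 * j + 6) := Nat.mul_le_mul_right _ h4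
        _ = _ := by ring
    exact lt_of_lt_of_le h2 h3

theorem invol_count {n k : ℕ} (hn : n ≠ 6) (hk : 1 ≤ k) (h2k : 2 * k ≤ n)
    (h : 2 * Nat.factorial (n - 2) = Nat.factorial (n - 2 * k) * 2 ^ k * Nat.factorial k) : k = 1 := by
  by_contra hk1
  obtain ⟨m, rfl⟩ : ∃ m, n = m + 2 * k := ⟨n - 2 * k, by omega⟩
  have hm : m + 2 * k - 2 * k = m := by omega
  rw [hm] at h
  have hfpos := Nat.factorial_pos m
  by_cases h2 : k = 2
  · subst h2
    have e : m + 2 * 2 - 2 = m + 1 + 1 := by omega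
    rw [e, Nat.factorial_succ (m + 1), Nat.factorial_succ m] at h
    have h3 : 2 * ((m + 1 + 1) * (m + 1)) = 2 ^ 2 * Nat.factorial 2 := by
      apply Nat.eq_of_mul_eq_mul_right hfpos
      calc _ = 2 * ((m + 1 + 1) * ((m + 1) * Nat.factorial m)) := by ring
        _ = Nat.factorial m * 2 ^ 2 * Nat.factorial 2 := h
        _ = _ := by ring
    norm_num [Nat.factorial] at h3
    rcases m with _ | m
    · norm_num at h3
    · nlinarith
  · by_cases h3 : k = 3
    · subst h3
      have e : m + 2 * 3 - 2 = m + 1 + 1 + 1 + 1 := by omega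
      rw [e, Nat.factorial_succ (m + 1 + 1 + 1), Nat.factorial_succ (m + 1 + 1), Nat.factorial_succ (m + 1), Nat.factorial_succ m] at h
      have h4 : 2 * ((m + 1 + 1 + 1 + 1) * ((m + 1 + 1 + 1) * ((m + 1 + 1) * (m + 1)))) = 2 ^ 3 * Nat.factorial 3 := by
        apply Nat.eq_of_mul_eq_mul_right hfpos
        calc _ = 2 * ((m + 1 + 1 + 1 + 1) * ((m + 1 + 1 + 1) * ((m + 1 + 1) * ((m + 1) * Nat.factorial m)))) := by ring
          _ = Nat.factorial m * 2 ^ 3 * Nat.factorial 3 := h
          _ = _ := by ring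
      norm_num [Nat.factorial] at h4
      rcases m with _ | m
      · exact hn (by norm_num)
      · have h5 : (m + 1 + 1 + 1 + 1 + 1) * ((m + 1 + 1 + 1 + 1) * ((m + 1 + 1 + 1) * (m + 1 + 1))) ≥ 5 * (4 * (3 * 2)) := by
          apply Nat.mul_le_mul (by omega)
          apply Nat.mul_le_mul (by omega)
          apply Nat.mul_le_mul (by omega) (by omega)
        omega
    · obtain ⟨j, rfl⟩ : ∃ j, k = j + 4 := ⟨k - 4, by omega⟩
      have h4 := big_ineq j
      have e : m + 2 * (j + 4) - 2 = m + (2 * j + 6) := by omega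
      rw [e] at h
      have h5 : Nat.factorial m * Nat.factorial (2 * j + 6) ≤ Nat.factorial (m + (2 * j + 6)) :=
        Nat.le_of_dvd (Nat.factorial_pos _) (Nat.factorial_mul_factorial_dvd_factorial_add _ _)
      have h6 : Nat.factorial m * (2 ^ (j + 4) * Nat.factorial (j + 4)) < Nat.factorial m * (2 * Nat.factorial (2 * j + 6)) :=
        Nat.mul_lt_mul_of_pos_left h4 hfpos
      nlinarith

section perm
variable {β : Type*} [Fintype β] [DecidableEq β]

theorem invol_centralizer (g : Equiv.Perm β) (hg : g ^ 2 = 1) (hg1 : g ≠ 1) :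
    ∃ k, 1 ≤ k ∧ 2 * k ≤ Fintype.card β ∧ g.cycleType = Multiset.replicate k 2 ∧
      Nat.card (Subgroup.centralizer ({g} : Set (Equiv.Perm β))) = Nat.factorial (Fintype.card β - 2 * k) * 2 ^ k * Nat.factorial k := by
  haveI : Fact (Nat.Prime 2) := ⟨Nat.prime_two⟩
  have hc := cycleType_of_pow_prime_eq_one hg
  set k := Multiset.card g.cycleType with hk
  have hk1 : 1 ≤ k := by
    by_contra h0
    have h00 : k = 0 := by omega
    rw [hk, Multiset.card_eq_zero, cycleType_eq_zero] at h00
    exact hg1 h00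
  have hsum : g.cycleType.sum = 2 * k := by
    rw [hc, Multiset.sum_replicate, smul_eq_mul]
    ring
  have hle : 2 * k ≤ Fintype.card β := by
    rw [← hsum]
    exact sum_cycleType_le g
  refine ⟨k, hk1, hle, hc, ?_⟩
  rw [nat_card_centralizer, hsum, hc, Multiset.prod_replicate]
  have ht : (Multiset.replicate k 2).toFinset = {2} := by
    ext a
    simp only [Multiset.mem_toFinset, Multiset.mem_replicate, Finset.mem_singleton]
    constructor
    · exact fun h => h.2
    · exact fun h => ⟨by omega, h⟩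
  rw [ht, Finset.prod_singleton, Multiset.count_replicate_self]

/-- The transpositions are recognised by the order of the centraliser. -/
theorem swap_of_iso {Ω X : Type*} [Fintype Ω] [DecidableEq Ω] [Fintype X] [DecidableEq X] (hn : Fintype.card Ω ≠ 6)
    (hX : Fintype.card X = Fintype.card Ω) (ρ : Equiv.Perm Ω ≃* Equiv.Perm X) {t : Equiv.Perm Ω} (ht : t.IsSwap) : (ρ t).IsSwap := by
  have h1 : (ρ t) ^ 2 = 1 := by
    rw [← map_pow]
    have h2 : t ^ 2 = 1 := by
      obtain ⟨a, b, -, rfl⟩ := ht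
      rw [pow_two, swap_mul_self]
    rw [h2, map_one]
  have h0 : ρ t ≠ 1 := by
    intro h
    have h2 : t = 1 := ρ.injective (by rw [h, map_one])
    obtain ⟨a, b, hab, rfl⟩ := ht
    exact hab ((Equiv.swap_eq_one_iff).1 h2)
  obtain ⟨k, hk1, hk2, hc, hcard⟩ := invol_centralizer (ρ t) h1 h0
  obtain ⟨kt, hkt1, hkt2, hct, hcardt⟩ := invol_centralizer t (by
    obtain ⟨a, b, -, rfl⟩ := ht
    rw [pow_two, swap_mul_self]) (by
    obtain ⟨a, b, hab, rfl⟩ := ht
    intro h
    exact hab ((Equiv.swap_eq_one_iff).1 h))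
  have hkt : kt = 1 := by
    have h3 := isSwap_iff_cycleType.1 ht
    rw [hct] at h3
    have := congrArg Multiset.card h3
    simpa using this
  subst hkt
  have heq : Nat.card (Subgroup.centralizer ({t} : Set (Equiv.Perm Ω))) = Nat.card (Subgroup.centralizer ({ρ t} : Set (Equiv.Perm X))) := by
    refine Nat.card_congr (Equiv.subtypeEquiv ρ.toEquiv ?_)
    intro a
    rw [Subgroup.mem_centralizer_singleton_iff, Subgroup.mem_centralizer_singleton_iff]
    constructor
    · intro h
      have := congrArg ρ h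
      simpa using this
    · intro h
      apply ρ.injective
      simpa using h
  rw [hcard, hcardt, hX] at heq
  have hk : k = 1 := by
    apply invol_count hn hk1 (by rw [← hX]; exact hk2)
    rw [← heq]
    simp [Nat.factorial]
    ring
  subst hk
  rw [isSwap_iff_cycleType, hc]
  rfl

theorem swap_comm_eq {x p q p' q' : β} (hm1 : x = p ∨ x = q) (hm2 : x = p' ∨ x = q') (hpq : p ≠ q) (hpq' : p' ≠ q')
    (hcomm : swap p q (swap p' q' x) = swap p' q' (swap p q x)) : swap p q = swap p' q' := by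
  have hA : swap p q = swap x (swap p q x) := by
    rcases hm1 with rfl | rfl
    · rw [swap_apply_left]
    · rw [swap_apply_right, swap_comm]
  have hB : swap p' q' = swap x (swap p' q' x) := by
    rcases hm2 with rfl | rfl
    · rw [swap_apply_left]
    · rw [swap_apply_right, swap_comm]
  have hy : swap p q x ≠ x := by
    rw [Equiv.swap_apply_ne_self_iff]
    exact ⟨hpq, hm1⟩
  have hy' : swap p' q' x ≠ x := by
    rw [Equiv.swap_apply_ne_self_iff]
    exact ⟨hpq', hm2⟩
  obtain ⟨y, hyd⟩ : ∃ y, y = swap p q x := ⟨_, rfl⟩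
  obtain ⟨y', hyd'⟩ : ∃ y', y' = swap p' q' x := ⟨_, rfl⟩
  rw [← hyd] at hA hy hcomm
  rw [← hyd'] at hB hy' hcomm
  by_cases hyy : y' = y
  · rw [hA, hB, hyy]
  · exfalso
    rw [hA, hB, Equiv.swap_apply_of_ne_of_ne hy' hyy, Equiv.swap_apply_of_ne_of_ne hy (Ne.symm hyy)] at hcomm
    exact hyy hcomm

theorem triangle_fourth {a b c e f : β} (hef : e ≠ f) (hab : a ≠ b) (hbc : b ≠ c) (hac : a ≠ c)
    (h1 : e = a ∨ e = b ∨ f = a ∨ f = b) (h2 : e = b ∨ e = c ∨ f = b ∨ f = c) (h3 : e = a ∨ e = c ∨ f = a ∨ f = c) :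
    swap e f = swap a b ∨ swap e f = swap b c ∨ swap e f = swap a c := by
  rcases h1 with rfl | rfl | rfl | rfl <;> rcases h2 with h2 | h2 | h2 | h2 <;> rcases h3 with h3 | h3 | h3 | h3 <;>
    subst_vars <;>
    first
    | exact absurd rfl hef
    | exact absurd rfl hab
    | exact absurd rfl hbc
    | exact absurd rfl hac
    | exact Or.inl rfl
    | exact Or.inr (Or.inl rfl)
    | exact Or.inr (Or.inr rfl)
    | exact Or.inl (swap_comm _ _)
    | exact Or.inr (Or.inl (swap_comm _ _))
    | exact Or.inr (Or.inr (swap_comm _ _))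
    | (exfalso; omega)

/-- Four transpositions meeting pairwise have a common point. -/
theorem star_of_pairwise (T : Finset (Equiv.Perm β)) (hT : ∀ t ∈ T, t.IsSwap)
    (hpair : ∀ t ∈ T, ∀ t' ∈ T, t ≠ t' → ∃ x, t x ≠ x ∧ t' x ≠ x) (h4 : 4 ≤ T.card) : ∃ w, ∀ t ∈ T, t w ≠ w := by
  classical
  obtain ⟨t₁, ht₁⟩ : T.Nonempty := Finset.card_pos.1 (by omega)
  obtain ⟨a, b, hab, rfl⟩ := hT _ ht₁
  by_contra hne
  push Not at hne
  obtain ⟨t₂, ht₂, h2a⟩ := hne a
  obtain ⟨t₃, ht₃, h3b⟩ := hne b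
  obtain ⟨p, q, hpq, rfl⟩ := hT _ ht₂
  obtain ⟨r, s, hrs, rfl⟩ := hT _ ht₃
  have mv : ∀ {u v x : β}, u ≠ v → (swap u v x ≠ x ↔ x = u ∨ x = v) := fun h => by
    rw [Equiv.swap_apply_ne_self_iff]
    exact ⟨fun h' => h'.2, fun h' => ⟨h, h'⟩⟩
  have h2a' : a ≠ p ∧ a ≠ q := by
    constructor
    · rintro rfl
      exact ((mv hpq).2 (Or.inl rfl)) h2a
    · rintro rfl
      exact ((mv hpq).2 (Or.inr rfl)) h2a
  have h3b' : b ≠ r ∧ b ≠ s := by
    constructor
    · rintro rfl
      exact ((mv hrs).2 (Or.inl rfl)) h3b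
    · rintro rfl
      exact ((mv hrs).2 (Or.inr rfl)) h3b
  -- normalise: t₂ = swap b c, t₃ = swap a d
  have hne12 : swap a b ≠ swap p q := by
    intro h
    have h5 : swap p q a ≠ a := by
      rw [← h]
      exact (mv hab).2 (Or.inl rfl)
    exact h5 h2a
  obtain ⟨x, hx1, hx2⟩ := hpair _ ht₁ _ ht₂ hne12
  rw [mv hab] at hx1
  rw [mv hpq] at hx2
  obtain ⟨c, hc2⟩ : ∃ c, swap p q = swap b c ∧ b ≠ c ∧ a ≠ c := by
    rcases hx1 with rfl | rfl
    · rcases hx2 with rfl | rfl
      · exact absurd rfl h2a'.1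
      · exact absurd rfl h2a'.2
    · rcases hx2 with rfl | rfl
      · exact ⟨q, rfl, hpq, h2a'.2⟩
      · exact ⟨p, swap_comm _ _, hpq.symm, h2a'.1⟩
  have hne13 : swap a b ≠ swap r s := by
    intro h
    have h5 : swap r s b ≠ b := by
      rw [← h]
      exact (mv hab).2 (Or.inr rfl)
    exact h5 h3b
  obtain ⟨y, hy1, hy2⟩ := hpair _ ht₁ _ ht₃ hne13
  rw [mv hab] at hy1
  rw [mv hrs] at hy2
  obtain ⟨d, hd2⟩ : ∃ d, swap r s = swap a d ∧ a ≠ d ∧ b ≠ d := by
    rcases hy1 with rfl | rfl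
    · rcases hy2 with rfl | rfl
      · exact ⟨s, rfl, hrs, h3b'.2⟩
      · exact ⟨r, swap_comm _ _, hrs.symm, h3b'.1⟩
    · rcases hy2 with rfl | rfl
      · exact absurd rfl h3b'.1
      · exact absurd rfl h3b'.2
  obtain ⟨hc2, hbc, hac⟩ := hc2
  obtain ⟨hd2, had, hbd⟩ := hd2
  rw [hc2] at ht₂ h2a
  rw [hd2] at ht₃ h3b
  have hne23 : swap b c ≠ swap a d := by
    intro h
    have h5 : swap a d a ≠ a := (mv had).2 (Or.inl rfl)
    rw [← h] at h5
    exact h5 h2a
  obtain ⟨z, hz1, hz2⟩ := hpair _ ht₂ _ ht₃ hne23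
  rw [mv hbc] at hz1
  rw [mv had] at hz2
  have hcd : c = d := by
    rcases hz1 with rfl | rfl
    · rcases hz2 with h | h
      · exact absurd h hab.symm
      · exact absurd h hbd
    · rcases hz2 with h | h
      · exact absurd h.symm hac
      · exact h
  subst hcd
  -- a fourth transposition
  have hsub : ¬ T ⊆ {swap a b, swap b c, swap a c} := by
    intro h
    have := Finset.card_le_card h
    have h3 : ({swap a b, swap b c, swap a c} : Finset (Equiv.Perm β)).card ≤ 3 := Finset.card_le_three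
    omega
  obtain ⟨t₄, ht₄, h4n⟩ := Finset.not_subset.1 hsub
  obtain ⟨e, f, hef, rfl⟩ := hT _ ht₄
  simp only [Finset.mem_insert, Finset.mem_singleton, not_or] at h4n
  obtain ⟨n1, n2, n3⟩ := h4n
  obtain ⟨u1, hu11, hu12⟩ := hpair _ ht₁ _ ht₄ (Ne.symm n1)
  obtain ⟨u2, hu21, hu22⟩ := hpair _ ht₂ _ ht₄ (Ne.symm n2)
  obtain ⟨u3, hu31, hu32⟩ := hpair _ ht₃ _ ht₄ (Ne.symm n3)
  rw [mv hab] at hu11
  rw [mv hef] at hu12
  rw [mv hbc] at hu21
  rw [mv hef] at hu22
  rw [mv had] at hu31
  rw [mv hef] at hu32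
  have e1 : e = a ∨ e = b ∨ f = a ∨ f = b := by
    rcases hu11 with rfl | rfl <;> rcases hu12 with h | h <;> simp [h]
  have e2 : e = b ∨ e = c ∨ f = b ∨ f = c := by
    rcases hu21 with rfl | rfl <;> rcases hu22 with h | h <;> simp [h]
  have e3 : e = a ∨ e = c ∨ f = a ∨ f = c := by
    rcases hu31 with rfl | rfl <;> rcases hu32 with h | h <;> simp [h]
  rcases triangle_fourth hef hab hbc hac e1 e2 e3 with h | h | h
  · exact n1 h
  · exact n2 h
  · exact n3 h

end perm

section main
variable {Ω : Type*} [Fintype Ω] [DecidableEq Ω]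

theorem swap_count [DecidablePred fun t : Equiv.Perm Ω => t.IsSwap] : Fintype.card Ω * (Fintype.card Ω - 1) ≤ 2 * (Finset.univ.filter (fun t : Equiv.Perm Ω => t.IsSwap)).card := by
  classical
  let s : Finset (Ω × Ω) := (Finset.univ : Finset Ω).offDiag
  have hs : s.card = Fintype.card Ω * Fintype.card Ω - Fintype.card Ω := by
    rw [Finset.offDiag_card, Finset.card_univ]
  have hcard : s.card ≤ 2 * (s.image (fun p : Ω × Ω => swap p.1 p.2)).card := by
    apply Finset.card_le_mul_card_image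
    intro t ht
    obtain ⟨p, hp, rfl⟩ := Finset.mem_image.1 ht
    have hpne : p.1 ≠ p.2 := by
      have := Finset.mem_offDiag.1 hp
      exact this.2.2
    have hsub : (s.filter (fun q : Ω × Ω => swap q.1 q.2 = swap p.1 p.2)) ⊆ {p, (p.2, p.1)} := by
      intro q hq
      obtain ⟨hq1, hq2⟩ := Finset.mem_filter.1 hq
      have hqne : q.1 ≠ q.2 := (Finset.mem_offDiag.1 hq1).2.2
      have h1 : swap q.1 q.2 q.1 ≠ q.1 := by
        rw [Equiv.swap_apply_left]
        exact hqne.symm
      have h2 : swap q.1 q.2 q.2 ≠ q.2 := by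
        rw [Equiv.swap_apply_right]
        exact hqne
      rw [hq2, Equiv.swap_apply_ne_self_iff] at h1 h2
      simp only [Finset.mem_insert, Finset.mem_singleton]
      rcases h1.2 with h3 | h3 <;> rcases h2.2 with h4 | h4
      · exact absurd (h3.trans h4.symm) hqne
      · exact Or.inl (Prod.ext h3 h4)
      · exact Or.inr (Prod.ext h3 h4)
      · exact absurd (h3.trans h4.symm) hqne
    exact (Finset.card_le_card hsub).trans Finset.card_le_two
  have himg : (s.image (fun p : Ω × Ω => swap p.1 p.2)) ⊆ Finset.univ.filter (fun t : Equiv.Perm Ω => t.IsSwap) := by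
    intro t ht
    obtain ⟨p, hp, rfl⟩ := Finset.mem_image.1 ht
    simp only [Finset.mem_filter, Finset.mem_univ, true_and]
    exact ⟨p.1, p.2, (Finset.mem_offDiag.1 hp).2.2, rfl⟩
  have h5 := Finset.card_le_card himg
  have h6 : Fintype.card Ω * (Fintype.card Ω - 1) = s.card := by
    rw [hs, Nat.mul_sub, mul_one]
  omega

theorem main_big (h6 : Fintype.card Ω ≠ 6) (H : Subgroup (Equiv.Perm Ω)) (hH : H.index = Fintype.card Ω) (h5 : 5 ≤ Fintype.card Ω) :
    ∃ x : Ω, H ≤ MulAction.stabilizer (Equiv.Perm Ω) x := by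
  classical
  let X := Equiv.Perm Ω ⧸ H
  haveI : Fintype X := Fintype.ofFinite X
  have hXcard : Fintype.card X = Fintype.card Ω := by
    rw [← hH, Subgroup.index, Nat.card_eq_fintype_card]
  let ρ₀ : Equiv.Perm Ω →* Equiv.Perm X := MulAction.toPermHom (Equiv.Perm Ω) X
  have hker : ρ₀.ker = ⊥ := by
    rw [← Subgroup.normalCore_eq_ker]
    by_contra hne
    haveI hnorm : (H.normalCore).Normal := Subgroup.normalCore_normal H
    have hnt : Nontrivial H.normalCore := (Subgroup.nontrivial_iff_ne_bot _).2 hne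
    have hle := Equiv.Perm.alternatingGroup_le_of_normal (α := Ω) (N := H.normalCore) (by rw [Nat.card_eq_fintype_card]; exact h5) hnt
    have hle2 : alternatingGroup Ω ≤ H := hle.trans (Subgroup.normalCore_le H)
    haveI : Nontrivial Ω := Fintype.one_lt_card_iff_nontrivial.1 (by omega)
    have hdvd := Subgroup.index_dvd_of_le hle2
    rw [hH, alternatingGroup.index_eq_two] at hdvd
    have := Nat.le_of_dvd (by norm_num) hdvd
    omega
  have hinj : Function.Injective ρ₀ := (MonoidHom.ker_eq_bot_iff _).1 hker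
  have hbij : Function.Bijective ρ₀ := by
    rw [Fintype.bijective_iff_injective_and_card]
    refine ⟨hinj, ?_⟩
    rw [Fintype.card_perm, Fintype.card_perm, hXcard]
  let ρ : Equiv.Perm Ω ≃* Equiv.Perm X := MulEquiv.ofBijective ρ₀ hbij
  have hρ : ∀ t, ρ t = ρ₀ t := fun _ => rfl
  have hρa : ∀ (t : Equiv.Perm Ω) (x : X), ρ t x = t • x := fun _ _ => rfl
  have hswap : ∀ t : Equiv.Perm Ω, t.IsSwap → (ρ t).IsSwap := fun t ht => swap_of_iso h6 hXcard ρ ht
  let sw : Finset (Equiv.Perm Ω) := Finset.univ.filter (fun t : Equiv.Perm Ω => t.IsSwap)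
  let T : X → Finset (Equiv.Perm Ω) := fun x => sw.filter (fun t => t • x ≠ x)
  have hTmem : ∀ x t, t ∈ T x ↔ t.IsSwap ∧ t • x ≠ x := by
    intro x t
    simp only [T, sw, Finset.mem_filter, Finset.mem_univ, true_and]
  have hconjswap : ∀ (g t : Equiv.Perm Ω), t.IsSwap → (g * t * g⁻¹).IsSwap := by
    rintro g t ⟨a, b, hab, rfl⟩
    refine ⟨g a, g b, fun h => hab (g.injective h), ?_⟩
    rw [Equiv.swap_apply_apply g a b]
  have hTcard : ∀ x y : X, (T x).card = (T y).card := by
    intro x y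
    obtain ⟨g, rfl⟩ := MulAction.exists_smul_eq (Equiv.Perm Ω) x y
    refine Finset.card_nbij' (fun t => g * t * g⁻¹) (fun t => g⁻¹ * t * g) ?_ ?_ ?_ ?_
    · intro t ht
      have ht' := (hTmem x t).1 (by simpa using ht)
      have : g * t * g⁻¹ ∈ T (g • x) := by
        rw [hTmem]
        refine ⟨hconjswap g t ht'.1, ?_⟩
        intro h
        apply ht'.2
        have h1 : (g * t * g⁻¹) • g • x = g • (t • x) := by
          rw [smul_smul, smul_smul]
          congr 1
          group
        rw [h1] at h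
        exact smul_left_cancel g h
      simpa using this
    · intro t ht
      have ht' := (hTmem (g • x) t).1 (by simpa using ht)
      have : g⁻¹ * t * g ∈ T x := by
        rw [hTmem]
        refine ⟨by simpa using hconjswap g⁻¹ t ht'.1, ?_⟩
        intro h
        apply ht'.2
        have h1 : t • g • x = g • ((g⁻¹ * t * g) • x) := by
          rw [smul_smul, smul_smul]
          congr 1
          group
        rw [h1, h]
      simpa using this
    · intro t _
      group
    · intro t _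
      group
  -- double counting
  have hsum : ∑ x : X, (T x).card = 2 * sw.card := by
    have h1 : ∀ x : X, (T x).card = ∑ t ∈ sw, if t • x ≠ x then 1 else 0 := fun x => Finset.card_filter _ _
    simp only [h1]
    rw [Finset.sum_comm]
    have h2 : ∀ t ∈ sw, (∑ x : X, if t • x ≠ x then 1 else 0) = 2 := by
      intro t ht
      have ht' : t.IsSwap := (Finset.mem_filter.1 ht).2
      have h3 := card_support_eq_two.2 (hswap t ht')
      rw [← Finset.card_filter]
      rw [← h3]
      congr 1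
    rw [Finset.sum_congr rfl h2, Finset.sum_const, smul_eq_mul, mul_comm]
  let x₀ : X := ((1 : Equiv.Perm Ω) : X)
  have hTx₀ : Fintype.card Ω * (T x₀).card = 2 * sw.card := by
    rw [← hsum, Finset.sum_congr rfl (fun x _ => hTcard x x₀), Finset.sum_const, Finset.card_univ, hXcard, smul_eq_mul]
  have hcount := swap_count (Ω := Ω)
  have hT4 : 4 ≤ (T x₀).card := by
    have h7 : Fintype.card Ω * (Fintype.card Ω - 1) ≤ Fintype.card Ω * (T x₀).card := by
      rw [hTx₀]
      exact hcount
    have h8 := Nat.le_of_mul_le_mul_left h7 (by omega)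
    omega
  -- pairwise meeting
  have hpair : ∀ t ∈ T x₀, ∀ t' ∈ T x₀, t ≠ t' → ∃ x, t x ≠ x ∧ t' x ≠ x := by
    intro t ht t' ht' hne
    by_contra hall
    push Not at hall
    have hdis : Equiv.Perm.Disjoint t t' := by
      intro x
      by_cases hx : t x = x
      · exact Or.inl hx
      · exact Or.inr (hall x hx)
    have hcomm : t * t' = t' * t := hdis.commute
    obtain ⟨hts, htm⟩ := (hTmem _ _).1 ht
    obtain ⟨hts', htm'⟩ := (hTmem _ _).1 ht'
    obtain ⟨p, q, hpq, hρt⟩ := hswap t hts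
    obtain ⟨p', q', hpq', hρt'⟩ := hswap t' hts'
    have hcomm' : ρ t * ρ t' = ρ t' * ρ t := by
      rw [← map_mul, hcomm, map_mul]
    have hm1 : ρ t x₀ ≠ x₀ := htm
    have hm2 : ρ t' x₀ ≠ x₀ := htm'
    apply hne
    apply ρ.injective
    -- both swaps move x₀
    rw [hρt, Equiv.swap_apply_ne_self_iff] at hm1
    rw [hρt', Equiv.swap_apply_ne_self_iff] at hm2
    have hval := congrArg (fun f : Equiv.Perm X => f x₀) hcomm'
    simp only [Equiv.Perm.mul_apply] at hval
    rw [hρt, hρt'] at hval ⊢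
    exact swap_comm_eq hm1.2 hm2.2 hm1.1 hm2.1 hval
  obtain ⟨w, hw⟩ := star_of_pairwise (T x₀) (fun t ht => ((hTmem _ _).1 ht).1) hpair hT4
  refine ⟨w, ?_⟩
  intro g hg
  have hgx : g • x₀ = x₀ := by
    show ((g * 1 : Equiv.Perm Ω) : X) = ((1 : Equiv.Perm Ω) : X)
    rw [mul_one]
    exact QuotientGroup.eq.2 (by simpa using H.inv_mem hg)
  by_contra hgw
  have hgw' : g w ≠ w := hgw
  have hmove : ∀ t ∈ T x₀, t = swap w (g w) := by
    intro t ht
    obtain ⟨hts, htm⟩ := (hTmem _ _).1 ht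
    have h1 := hw t ht
    have hconj : g⁻¹ * t * g ∈ T x₀ := by
      rw [hTmem]
      refine ⟨by simpa using hconjswap g⁻¹ t hts, ?_⟩
      intro h
      apply htm
      have h2 : (g⁻¹ * t * g) • x₀ = g⁻¹ • (t • (g • x₀)) := by
        rw [smul_smul, smul_smul]
      rw [h2, hgx] at h
      have h3 := congrArg (fun y => g • y) h
      simp only [smul_inv_smul] at h3
      rw [h3, hgx]
    have h2 : t (g w) ≠ g w := by
      intro h
      apply hw _ hconj
      show g⁻¹ (t (g w)) = w
      rw [h]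
      simp
    obtain ⟨a, b, hab, rfl⟩ := hts
    rw [Equiv.swap_apply_ne_self_iff] at h1 h2
    rcases h1.2 with h3 | h3 <;> rcases h2.2 with h4 | h4
    · exact absurd (h4.trans h3.symm) hgw'
    · rw [h4, h3]
    · rw [h4, h3, Equiv.swap_comm]
    · exact absurd (h4.trans h3.symm) hgw'
  have hle1 : (T x₀).card ≤ 1 := by
    apply Finset.card_le_one.2
    intro a ha b hb
    rw [hmove a ha, hmove b hb]
  omega

theorem main_small (H : Subgroup (Equiv.Perm Ω)) (hH : H.index = Fintype.card Ω) (hn0 : Fintype.card Ω ≠ 0) (h5 : Fintype.card Ω ≤ 4) :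
    ∃ x : Ω, H ≤ MulAction.stabilizer (Equiv.Perm Ω) x := by
  classical
  haveI hne : Nonempty Ω := Fintype.card_pos_iff.1 (by omega)
  have hcardH : Nat.card H * Fintype.card Ω = Nat.factorial (Fintype.card Ω) := by
    have h0 := H.card_mul_index
    rw [hH] at h0
    rw [h0, Nat.card_eq_fintype_card, Fintype.card_perm]
  have hcases : Fintype.card Ω = 1 ∨ Fintype.card Ω = 2 ∨ Fintype.card Ω = 3 ∨ Fintype.card Ω = 4 := by omega
  rcases hcases with h1 | h2 | h3 | h4
  · obtain ⟨x⟩ := hne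
    refine ⟨x, fun g _ => ?_⟩
    haveI : Subsingleton Ω := Fintype.card_le_one_iff_subsingleton.1 (by omega)
    exact Subsingleton.elim _ _
  · rw [h2] at hcardH
    have h1H : Nat.card H = 1 := by
      have : Nat.factorial 2 = 2 := rfl
      omega
    have hbot : H = ⊥ := Subgroup.eq_bot_of_card_eq H h1H
    obtain ⟨x⟩ := hne
    exact ⟨x, by rw [hbot]; exact bot_le⟩
  · rw [h3] at hcardH
    have h2H : Nat.card H = 2 := by
      have : Nat.factorial 3 = 6 := rfl
      omega
    have hp : IsPGroup 2 H := IsPGroup.of_card (n := 1) (by rw [h2H, pow_one])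
    haveI : Fact (Nat.Prime 2) := ⟨Nat.prime_two⟩
    obtain ⟨x, hx⟩ := hp.nonempty_fixed_point_of_prime_not_dvd_card Ω (by rw [Nat.card_eq_fintype_card, h3]; norm_num)
    refine ⟨x, fun g hg => ?_⟩
    exact hx ⟨g, hg⟩
  · rw [h4] at hcardH
    have h6H : Nat.card H = 6 := by
      have : Nat.factorial 4 = 24 := rfl
      omega
    -- an element of order three
    haveI : Fact (Nat.Prime 3) := ⟨Nat.prime_three⟩
    obtain ⟨g, hg⟩ := exists_prime_orderOf_dvd_card' (G := H) 3 (by rw [h6H]; norm_num)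
    let P : Subgroup H := Subgroup.zpowers g
    have hPcard : Nat.card P = 3 := by
      rw [Nat.card_zpowers, hg]
    have hPindex : P.index = 2 := by
      have := P.card_mul_index
      rw [hPcard, h6H] at this
      omega
    haveI hPn : P.Normal := Subgroup.normal_of_index_eq_two hPindex
    let g₀ : Equiv.Perm Ω := (g : Equiv.Perm Ω)
    have hg3 : g₀ ^ 3 = 1 := by
      have : g ^ 3 = 1 := by rw [← hg]; exact pow_orderOf_eq_one g
      have h2 := congrArg (fun y : H => (y : Equiv.Perm Ω)) this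
      simpa using h2
    have hg1 : g₀ ≠ 1 := by
      intro h
      have : g = 1 := Subtype.ext h
      rw [this, orderOf_one] at hg
      omega
    have hc := cycleType_of_pow_prime_eq_one hg3
    have hcard1 : Multiset.card g₀.cycleType = 1 := by
      have hk1 : Multiset.card g₀.cycleType ≠ 0 := by
        intro h0
        rw [Multiset.card_eq_zero, cycleType_eq_zero] at h0
        exact hg1 h0
      have hsum : g₀.cycleType.sum = 3 * Multiset.card g₀.cycleType := by
        conv_lhs => rw [hc]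
        rw [Multiset.sum_replicate, smul_eq_mul]
        ring
      have hle := sum_cycleType_le g₀
      rw [h4] at hle
      omega
    have hsupp : g₀.support.card = 3 := by
      rw [← sum_cycleType]
      rw [hc, Multiset.sum_replicate, hcard1]
      rfl
    have hfix : (g₀.supportᶜ).card = 1 := by
      rw [Finset.card_compl, h4, hsupp]
    obtain ⟨w, hw⟩ := Finset.card_eq_one.1 hfix
    have hwfix : g₀ w = w := by
      have : w ∈ g₀.supportᶜ := by rw [hw]; exact Finset.mem_singleton_self w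
      simpa using this
    have huniq : ∀ y, g₀ y = y → y = w := by
      intro y hy
      have : y ∈ g₀.supportᶜ := by simpa using hy
      rw [hw] at this
      exact Finset.mem_singleton.1 this
    refine ⟨w, fun h hh => ?_⟩
    show h w = w
    apply huniq
    -- `h⁻¹ g h` lies in `P`, hence fixes `w`
    have hconj : (⟨h, hh⟩ : H)⁻¹ * g * (⟨h, hh⟩ : H)⁻¹⁻¹ ∈ P := hPn.conj_mem g (Subgroup.mem_zpowers g) _
    obtain ⟨k, hk⟩ := hconj
    have hz : ∀ k : ℤ, ((g ^ k : H) : Equiv.Perm Ω) w = w := by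
      intro k
      have : ((g ^ k : H) : Equiv.Perm Ω) = g₀ ^ k := by simp [g₀]
      rw [this]
      exact (Equiv.Perm.zpow_apply_eq_self_of_apply_eq_self hwfix k)
    have h1 := hz k
    simp only at hk
    rw [hk] at h1
    have h2 : (((⟨h, hh⟩ : H)⁻¹ * g * (⟨h, hh⟩ : H)⁻¹⁻¹ : H) : Equiv.Perm Ω) = h⁻¹ * g₀ * h := by
      simp [g₀]
    rw [h2] at h1
    have h3 : h⁻¹ (g₀ (h w)) = w := h1
    have h4' := congrArg h h3
    simpa using h4'

end main


/-- Let Ω be a finite set whose size n is not 6. Then every subgroup of the symmetric group on Ω of index n is the stabilizer of a point. -/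
theorem result {Ω : Type*} [Fintype Ω] [DecidableEq Ω] (h6 : Fintype.card Ω ≠ 6)
    (H : Subgroup (Equiv.Perm Ω)) (hH : H.index = Fintype.card Ω) :
    ∃ x : Ω, H = MulAction.stabilizer (Equiv.Perm Ω) x := by
  classical
  suffices hfix : ∃ x : Ω, H ≤ MulAction.stabilizer (Equiv.Perm Ω) x by
    obtain ⟨x, hx⟩ := hfix
    exact ⟨x, final_eq hx hH⟩
  have hn0 : Fintype.card Ω ≠ 0 := by
    intro h
    rw [← hH] at h
    exact Subgroup.index_ne_zero_of_finite h
  by_cases h5 : 5 ≤ Fintype.card Ω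
  · exact main_big h6 H hH h5
  · exact main_small H hH hn0 (by omega)

end Cfsg.Agent.S5911
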