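import Cfsg.Statements.S5913
-- import your own Cfsg.Agent.* helpers here

set_option autoImplicit false
open Cfsg

namespace Cfsg.Agent.S5913

/-- Let S be a non-abelian simple group and n a natural number. Every normal subgroup N of the direct power S^n (functions Fin n → S) is a subproduct: there is a set T of coordinates such that N consists exactly of the elements whose coordinates outside T are trivial. In particular the minimal normal subgroups of S^n are its n factors. -/
theorem result {S : Type*} [Group S] [IsSimpleGroup S] (hS : ¬ IsMulCommutative S) (n : ℕ)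
    (N : Subgroup (Fin n → S)) [N.Normal] :
    ∃ T : Finset (Fin n), ∀ x : Fin n → S, x ∈ N ↔ ∀ i, i ∉ T → x i = 1 := by
  classical
  have hcen : ∀ a : S, a ≠ 1 → ∃ s : S, a * s ≠ s * a := by
    intro a ha
    by_contra hcon
    push Not at hcon
    have h1 : a ∈ Subgroup.center S := Subgroup.mem_center_iff.2 fun g => (hcon g).symm
    rcases IsSimpleGroup.eq_bot_or_eq_top_of_normal (Subgroup.center S) inferInstance with h2 | h2
    · rw [h2, Subgroup.mem_bot] at h1
      exact ha h1
    · apply hS
      refine ⟨⟨fun a b => ?_⟩⟩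
      have : b ∈ Subgroup.center S := h2 ▸ Subgroup.mem_top b
      exact (Subgroup.mem_center_iff.1 this a)
  let T : Finset (Fin n) := Finset.univ.filter (fun i => ∃ x ∈ N, x i ≠ 1)
  have hsingle : ∀ i ∈ T, ∀ s : S, Pi.mulSingle i s ∈ N := by
    intro i hi s
    obtain ⟨x, hx, hxi⟩ := (Finset.mem_filter.1 hi).2
    let L : Subgroup S := N.comap (MonoidHom.mulSingle (fun _ : Fin n => S) i)
    have hL : L.Normal := by
      constructor
      intro n' hn' g
      show Pi.mulSingle i (g * n' * g⁻¹) ∈ N
      have h1 : (Pi.mulSingle i (g * n' * g⁻¹) : Fin n → S) = Pi.mulSingle i g * Pi.mulSingle i n' * (Pi.mulSingle i g)⁻¹ := by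
        rw [Pi.mulSingle_mul, Pi.mulSingle_mul, Pi.mulSingle_inv]
      rw [h1]
      exact ‹N.Normal›.conj_mem _ hn' _
    rcases IsSimpleGroup.eq_bot_or_eq_top_of_normal L hL with h2 | h2
    · exfalso
      obtain ⟨s', hs'⟩ := hcen _ hxi
      have hc : x * Pi.mulSingle i s' * x⁻¹ * (Pi.mulSingle i s')⁻¹ ∈ N := by
        have h3 : (Pi.mulSingle i s' * x⁻¹ * (Pi.mulSingle i s')⁻¹) ∈ N :=
          ‹N.Normal›.conj_mem _ (N.inv_mem hx) _
        have e : x * Pi.mulSingle i s' * x⁻¹ * (Pi.mulSingle i s')⁻¹ = x * (Pi.mulSingle i s' * x⁻¹ * (Pi.mulSingle i s')⁻¹) := by group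
        rw [e]
        exact N.mul_mem hx h3
      have hc2 : x * Pi.mulSingle i s' * x⁻¹ * (Pi.mulSingle i s')⁻¹ = Pi.mulSingle i (x i * s' * (x i)⁻¹ * s'⁻¹) := by
        ext j
        by_cases hj : j = i
        · subst hj
          simp
        · simp [Pi.mulSingle_eq_of_ne hj]
      rw [hc2] at hc
      have h4 : x i * s' * (x i)⁻¹ * s'⁻¹ ∈ L := hc
      rw [h2, Subgroup.mem_bot] at h4
      apply hs'
      have h5 : x i * s' * (x i)⁻¹ = s' := by
        rw [mul_inv_eq_one] at h4
        exact h4
      rw [mul_inv_eq_iff_eq_mul] at h5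
      exact h5
    · have : s ∈ L := h2 ▸ Subgroup.mem_top s
      exact this
  refine ⟨T, fun x => ⟨fun hx i hi => ?_, fun hx => ?_⟩⟩
  · by_contra hne
    exact hi (Finset.mem_filter.2 ⟨Finset.mem_univ i, x, hx, hne⟩)
  · have key : ∀ A : Finset (Fin n), (fun i => if i ∈ A then x i else 1) ∈ N := by
      intro A
      induction A using Finset.induction_on with
      | empty =>
        have : (fun i => if i ∈ (∅ : Finset (Fin n)) then x i else 1) = 1 := by
          ext i
          simp
        rw [this]
        exact N.one_mem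
      | insert k A hk ih =>
        have e : (fun i => if i ∈ insert k A then x i else 1) = (fun i => if i ∈ A then x i else 1) * Pi.mulSingle k (x k) := by
          ext i
          by_cases hi : i = k
          · subst hi
            simp [hk]
          · simp [hi, Pi.mulSingle_eq_of_ne hi]
        rw [e]
        apply N.mul_mem ih
        by_cases hkT : k ∈ T
        · exact hsingle k hkT _
        · rw [hx k hkT, Pi.mulSingle_one]
          exact N.one_mem
    have := key Finset.univ
    simpa using this


end Cfsg.Agent.S5913
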