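import Cfsg.Statements.S5914


set_option autoImplicit false
open Cfsg

namespace Cfsg.Agent.S5914


universe u

/-- Characteristically simple. -/
def CS (G : Type*) [Group G] : Prop := ∀ H : Subgroup G, H.Characteristic → H = ⊥ ∨ H = ⊤

/-- A copy of `Fin n` with no algebraic structure. -/
def Box (n : ℕ) : Type := Fin n

theorem transport_simple {G : Type u} [Group G] [Finite G] [IsSimpleGroup G] :
    ∃ (T : Type) (_ : Group T) (_ : IsSimpleGroup T), Nonempty (G ≃* T) := by
  obtain ⟨n, ⟨e⟩⟩ := Finite.exists_equiv_fin G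
  let f : Box n ≃ G := e.symm
  letI : Group (Box n) := f.group
  let e' : Box n ≃* G :=
    { f with map_mul' := fun x y => f.apply_symm_apply _ }
  exact ⟨Box n, inferInstance, e'.isSimpleGroup, ⟨e'.symm⟩⟩

/-- The `⇐` direction, for direct powers. -/
theorem charSimple_pi {S : Type*} [Group S] [IsSimpleGroup S] {n : ℕ} (K : Subgroup (Fin n → S))
    (hK : ∀ ψ : (Fin n → S) ≃* (Fin n → S), ∀ x ∈ K, ψ x ∈ K) : K = ⊥ ∨ K = ⊤ := by
  classical
  have hnorm : K.Normal := ⟨fun x hx g => hK (MulAut.conj g) x hx⟩
  rcases Subgroup.bot_or_exists_ne_one K with hb | ⟨h, hhK, hh1⟩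
  · exact Or.inl hb
  right
  obtain ⟨i, hi⟩ : ∃ i, h i ≠ 1 := by
    by_contra hcon
    push Not at hcon
    exact hh1 (funext hcon)
  -- step 1
  have step1 : ∃ (i : Fin n) (s₀ : S), s₀ ≠ 1 ∧ Pi.mulSingle i s₀ ∈ K := by
    by_cases hcomm : ∀ a b : S, a * b = b * a
    · by_cases hj : ∃ j, j ≠ i
      · obtain ⟨j, hj⟩ := hj
        let ψ : (Fin n → S) ≃* (Fin n → S) :=
          { toFun := fun x => x * Pi.mulSingle j (x i)
            invFun := fun x => x * (Pi.mulSingle j (x i))⁻¹
            left_inv := by
              intro x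
              funext l
              by_cases hl : l = j
              · subst hl
                simp [Pi.mulSingle_apply, hj.symm]
              · simp [Pi.mulSingle_apply, hl, hj.symm]
            right_inv := by
              intro x
              funext l
              by_cases hl : l = j
              · subst hl
                simp [Pi.mulSingle_apply, hj.symm]
              · simp [Pi.mulSingle_apply, hl, hj.symm]
            map_mul' := by
              intro x y
              funext l
              by_cases hl : l = j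
              · subst hl
                simp only [Pi.mul_apply, Pi.mulSingle_eq_same]
                rw [mul_assoc, mul_assoc, ← mul_assoc (y l), hcomm (y l) (x i)]
                simp [mul_assoc]
              · simp [Pi.mulSingle_apply, hl] }
        refine ⟨j, h i, hi, ?_⟩
        have h1 : ψ h * h⁻¹ ∈ K := K.mul_mem (hK ψ h hhK) (K.inv_mem hhK)
        have h2 : ψ h * h⁻¹ = Pi.mulSingle j (h i) := by
          funext l
          show h l * (Pi.mulSingle j (h i) : Fin n → S) l * (h l)⁻¹ = _
          rw [hcomm (h l) _]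
          simp
        rwa [h2] at h1
      · push Not at hj
        refine ⟨i, h i, hi, ?_⟩
        have : h = Pi.mulSingle i (h i) := by
          funext l
          rw [hj l]
          simp
        rwa [← this]
    · have hnc : (Subgroup.center S) ≠ ⊤ := by
        intro ht
        apply hcomm
        intro a b
        have : a ∈ Subgroup.center S := by rw [ht]; trivial
        exact (Subgroup.mem_center_iff.1 this b).symm
      have hbot := (IsSimpleGroup.eq_bot_or_eq_top_of_normal (Subgroup.center S) inferInstance).resolve_right hnc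
      have hnot : h i ∉ Subgroup.center S := by
        rw [hbot, Subgroup.mem_bot]
        exact hi
      rw [Subgroup.mem_center_iff] at hnot
      push Not at hnot
      obtain ⟨s, hs⟩ := hnot
      refine ⟨i, h i * s * (h i)⁻¹ * s⁻¹, ?_, ?_⟩
      · intro he
        apply hs
        rw [mul_inv_eq_one, mul_inv_eq_iff_eq_mul] at he
        exact he.symm
      · have h1 : h * (Pi.mulSingle i s * h⁻¹ * (Pi.mulSingle i s)⁻¹) ∈ K :=
          K.mul_mem hhK (hnorm.conj_mem _ (K.inv_mem hhK) _)
        have h2 : h * (Pi.mulSingle i s * h⁻¹ * (Pi.mulSingle i s)⁻¹) = Pi.mulSingle i (h i * s * (h i)⁻¹ * s⁻¹) := by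
          funext l
          by_cases hl : l = i
          · subst hl
            simp [mul_assoc]
          · simp [Pi.mulSingle_apply, hl]
        rwa [h2] at h1
  obtain ⟨i₀, s₀, hs₀, hmem⟩ := step1
  -- step 2
  have step2 : ∀ s : S, Pi.mulSingle i₀ s ∈ K := by
    have hn : (K.comap (MonoidHom.mulSingle (fun _ : Fin n => S) i₀)).Normal := hnorm.comap _
    rcases IsSimpleGroup.eq_bot_or_eq_top_of_normal _ hn with hb | ht
    · exfalso
      have : s₀ ∈ K.comap (MonoidHom.mulSingle (fun _ : Fin n => S) i₀) := hmem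
      rw [hb, Subgroup.mem_bot] at this
      exact hs₀ this
    · intro s
      have : s ∈ K.comap (MonoidHom.mulSingle (fun _ : Fin n => S) i₀) := by rw [ht]; trivial
      exact this
  -- step 3
  have step3 : ∀ (j : Fin n) (s : S), Pi.mulSingle j s ∈ K := by
    intro j s
    let σ : Equiv.Perm (Fin n) := Equiv.swap i₀ j
    let ψ : (Fin n → S) ≃* (Fin n → S) :=
      { toFun := fun x => x ∘ σ
        invFun := fun x => x ∘ σ.symm
        left_inv := fun x => by funext l; simp
        right_inv := fun x => by funext l; simp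
        map_mul' := fun x y => rfl }
    have h1 := hK ψ _ (step2 s)
    have h2 : ψ (Pi.mulSingle i₀ s) = Pi.mulSingle j s := by
      funext l
      show (Pi.mulSingle i₀ s : Fin n → S) (σ l) = _
      rw [Pi.mulSingle_apply, Pi.mulSingle_apply]
      have : σ l = i₀ ↔ l = j := by
        show Equiv.swap i₀ j l = i₀ ↔ _
        rw [Equiv.swap_apply_eq_iff, Equiv.swap_apply_left]
      simp only [this]
    rwa [h2] at h1
  -- step 4
  rw [eq_top_iff, ← Subgroup.pi_top Set.univ]
  rw [Subgroup.pi_le_iff]
  intro j
  rintro _ ⟨s, -, rfl⟩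
  exact step3 j s

/-- The extension step. -/
theorem ext_step {G : Type u} [Group G] (hCS : CS G) (N : Subgroup G) [hNn : N.Normal]
    (hmin : ∀ L : Subgroup G, L.Normal → L ≤ N → L = ⊥ ∨ L = N) (hN : N ≠ ⊥)
    {k : ℕ} (φ : (Fin k → N) →* G) (hinj : Function.Injective φ) (hnorm : φ.range.Normal)
    (hns : φ.range ≠ ⊤) :
    ∃ φ' : (Fin (k + 1) → N) →* G, Function.Injective φ' ∧ φ'.range.Normal := by
  classical
  have hex : ∃ σ : MulAut G, ¬ N.map σ.toMonoidHom ≤ φ.range := by
    by_contra hcon
    push Not at hcon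
    let C : Subgroup G := ⨆ σ : MulAut G, N.map σ.toMonoidHom
    have hC : C.Characteristic := by
      rw [Subgroup.characteristic_iff_map_le]
      intro ϕ
      show C.map ϕ.toMonoidHom ≤ C
      rw [Subgroup.map_iSup]
      apply iSup_le
      intro σ
      rw [Subgroup.map_map]
      exact le_iSup (fun σ : MulAut G => N.map σ.toMonoidHom) (σ.trans ϕ)
    have hCle : C ≤ φ.range := iSup_le hcon
    have hNC : N ≤ C := by
      intro x hx
      exact (le_iSup (fun σ : MulAut G => N.map σ.toMonoidHom) 1) ⟨x, hx, rfl⟩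
    rcases hCS C hC with hb | ht
    · exact hN (le_bot_iff.1 (hb ▸ hNC))
    · exact hns (top_le_iff.1 (ht ▸ hCle))
  obtain ⟨σ, hσ⟩ := hex
  have hL : (N ⊓ φ.range.comap σ.toMonoidHom) = ⊥ := by
    rcases hmin (N ⊓ φ.range.comap σ.toMonoidHom)
      (haveI := hnorm.comap σ.toMonoidHom; Subgroup.normal_inf_normal _ _) inf_le_left with hb | he
    · exact hb
    · exfalso
      apply hσ
      rintro _ ⟨x, hx, rfl⟩
      have : x ∈ N ⊓ φ.range.comap σ.toMonoidHom := by rw [he]; exact hx
      exact this.2
  have hσN : (N.map σ.toMonoidHom).Normal := hNn.map _ σ.surjective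
  have hdis : Disjoint φ.range (N.map σ.toMonoidHom) := by
    rw [Subgroup.disjoint_def]
    rintro _ hx ⟨y, hy, rfl⟩
    have : y ∈ N ⊓ φ.range.comap σ.toMonoidHom := ⟨hy, hx⟩
    rw [hL, Subgroup.mem_bot] at this
    rw [this, map_one]
  have hcomm : ∀ (u : Fin k → N) (v : N), Commute (φ u) (σ v) := by
    intro u v
    exact Subgroup.commute_of_normal_of_disjoint _ _ hnorm hσN hdis _ _ ⟨u, rfl⟩ ⟨v, v.2, rfl⟩
  let φ' : (Fin (k + 1) → N) →* G :=
    { toFun := fun x => φ (fun i => x i.succ) * σ (x 0)
      map_one' := by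
        show φ (1 : Fin k → N) * σ ((1 : N) : G) = 1
        simp
      map_mul' := by
        intro x y
        have h1 : (fun i : Fin k => (x * y) i.succ) = (fun i : Fin k => x i.succ) * (fun i : Fin k => y i.succ) := rfl
        rw [h1, map_mul]
        simp only [Pi.mul_apply, Subgroup.coe_mul, map_mul]
        have := (hcomm (fun i : Fin k => y i.succ) (x 0)).eq
        calc φ (fun i => x i.succ) * φ (fun i => y i.succ) * (σ (x 0) * σ (y 0))
            = φ (fun i => x i.succ) * (φ (fun i => y i.succ) * σ (x 0)) * σ (y 0) := by group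
          _ = φ (fun i => x i.succ) * (σ (x 0) * φ (fun i => y i.succ)) * σ (y 0) := by rw [this]
          _ = _ := by group }
  have hφ' : ∀ x, φ' x = φ (fun i => x i.succ) * σ (x 0) := fun _ => rfl
  refine ⟨φ', ?_, ?_⟩
  · rw [injective_iff_map_eq_one]
    intro x hx
    rw [hφ'] at hx
    have h1 : φ (fun i => x i.succ) ∈ φ.range := ⟨_, rfl⟩
    have h2 : φ (fun i => x i.succ) ∈ N.map σ.toMonoidHom := by
      rw [mul_eq_one_iff_eq_inv.1 hx]
      exact Subgroup.inv_mem _ ⟨x 0, (x 0).2, rfl⟩
    have h3 := Subgroup.disjoint_def.1 hdis h1 h2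
    have h4 : (fun i : Fin k => x i.succ) = 1 := hinj (by rw [h3, map_one])
    rw [h3, one_mul] at hx
    have h5 : x 0 = 1 := by
      have : ((x 0 : N) : G) = 1 := by
        apply σ.injective
        rw [hx, map_one]
      exact Subtype.ext this
    funext l
    refine Fin.cases h5 (fun j => ?_) l
    exact congrFun h4 j
  · constructor
    rintro _ ⟨x, rfl⟩ g
    rw [hφ']
    have hu : g * φ (fun i => x i.succ) * g⁻¹ ∈ φ.range := hnorm.conj_mem _ ⟨_, rfl⟩ g
    obtain ⟨u', hu'⟩ := hu
    have hv : σ⁻¹ g * (x 0 : G) * (σ⁻¹ g)⁻¹ ∈ N := hNn.conj_mem _ (x 0).2 _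
    refine ⟨Fin.cons (⟨_, hv⟩ : N) u', ?_⟩
    rw [hφ']
    simp only [Fin.cons_succ, Fin.cons_zero]
    have : σ (σ⁻¹ g * (x 0 : G) * (σ⁻¹ g)⁻¹) = g * σ (x 0) * g⁻¹ := by
      simp only [map_mul, map_inv, MulAut.apply_inv_self]
    have hu'' : φ (fun i => u' i) = g * φ (fun i => x i.succ) * g⁻¹ := hu'
    rw [hu'', this]
    group

/-- The `⇒` direction. -/
theorem main_rev : ∀ (n : ℕ) (G : Type u) [Group G] [Finite G] [Nontrivial G], Nat.card G = n → CS G →
    ∃ (T : Type) (_ : Group T) (_ : IsSimpleGroup T) (r : ℕ), 1 ≤ r ∧ Nonempty (G ≃* (Fin r → T)) := by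
  intro n
  induction n using Nat.strong_induction_on with
  | _ n ih =>
  intro G _ _ _ hcard hCS
  classical
  obtain ⟨N, hN⟩ : ∃ N : Subgroup G, Minimal (fun K : Subgroup G => K.Normal ∧ K ≠ ⊥) N :=
    exists_minimal_of_wellFoundedLT _ ⟨⊤, inferInstance, top_ne_bot⟩
  obtain ⟨hNn, hNb⟩ := hN.1
  have hmin : ∀ L : Subgroup G, L.Normal → L ≤ N → L = ⊥ ∨ L = N := by
    intro L hL hle
    by_cases hb : L = ⊥
    · exact Or.inl hb
    · exact Or.inr (le_antisymm hle (hN.2 ⟨hL, hb⟩ hle))
  by_cases hNt : N = ⊤
  · -- simple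
    have hs : IsSimpleGroup G := by
      refine ⟨fun H hH => ?_⟩
      rcases hmin (H ⊓ N) (Subgroup.normal_inf_normal _ _) inf_le_right with hb | he
      · rw [hNt, inf_top_eq] at hb
        exact Or.inl hb
      · rw [hNt, inf_top_eq] at he
        exact Or.inr he
    obtain ⟨T, i1, i2, ⟨e⟩⟩ := transport_simple (G := G)
    exact ⟨T, i1, i2, 1, le_rfl, ⟨e.trans (MulEquiv.funUnique (Fin 1) T).symm⟩⟩
  · -- the minimal normal subgroup is proper
    have hlt : Nat.card N < n := by
      rw [← hcard]
      refine lt_of_le_of_ne (Subgroup.card_le_card_group N) ?_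
      intro he
      exact hNt (Subgroup.eq_top_of_card_eq N he)
    haveI : Nontrivial N := (Subgroup.bot_or_nontrivial N).resolve_left hNb
    have hCSN : CS N := by
      intro K' hK'
      have hnorm : (K'.map N.subtype).Normal := by
        constructor
        rintro _ ⟨x, hx, rfl⟩ g
        refine ⟨MulAut.conjNormal g x, ?_, ?_⟩
        · have := (Subgroup.characteristic_iff_comap_eq.1 hK') (MulAut.conjNormal g⁻¹)
          rw [← this]
          show (MulAut.conjNormal g⁻¹) ((MulAut.conjNormal g) x) ∈ K'
          have he : (MulAut.conjNormal g⁻¹) ((MulAut.conjNormal g) x) = x := by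
            ext
            simp [MulAut.conjNormal_apply, mul_assoc]
          rwa [he]
        · simp [MulAut.conjNormal_apply]
      have hle : K'.map N.subtype ≤ N := by
        rintro _ ⟨x, -, rfl⟩
        exact x.2
      rcases hmin _ hnorm hle with hb | he
      · left
        exact (Subgroup.map_eq_bot_iff_of_injective _ N.subtype_injective).1 hb
      · right
        rw [eq_top_iff]
        intro x _
        have : (x : G) ∈ K'.map N.subtype := by rw [he]; exact x.2
        obtain ⟨y, hy, hyx⟩ := this
        have : y = x := Subtype.ext hyx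
        rwa [← this]
    obtain ⟨T, i1, i2, r, hr, ⟨eN⟩⟩ := ih _ hlt N rfl hCSN
    -- the product decomposition
    have hex : ∃ (k : ℕ) (φ : (Fin k → N) →* G), Function.Injective φ ∧ φ.range = ⊤ := by
      by_contra hcon
      push Not at hcon
      have hall : ∀ k, ∃ φ : (Fin k → N) →* G, Function.Injective φ ∧ φ.range.Normal := by
        intro k
        induction k with
        | zero =>
          refine ⟨1, Function.injective_of_subsingleton _, ?_⟩
          rw [MonoidHom.range_one]
          infer_instance
        | succ k ihk =>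
          obtain ⟨φ, h1, h2⟩ := ihk
          exact ext_step hCS N hmin hNb φ h1 h2 (hcon k φ h1)
      obtain ⟨φ, h1, -⟩ := hall (Nat.card G)
      have h2 := Nat.card_le_card_of_injective φ h1
      rw [Nat.card_fun, Nat.card_fin] at h2
      have h3 : 2 ≤ Nat.card N := Finite.one_lt_card
      have h4 : 2 ^ Nat.card G ≤ Nat.card N ^ Nat.card G := Nat.pow_le_pow_left h3 _
      have h5 := Nat.lt_two_pow_self (n := Nat.card G)
      omega
    obtain ⟨k, φ, hinj, hsurj⟩ := hex
    have hk : 1 ≤ k := by
      rcases Nat.eq_zero_or_pos k with rfl | h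
      · exfalso
        obtain ⟨x, hx⟩ := exists_ne (1 : G)
        have : x ∈ φ.range := by rw [hsurj]; trivial
        obtain ⟨y, hy⟩ := this
        apply hx
        rw [← hy, Subsingleton.elim y 1, map_one]
      · exact h
    let e1 : (Fin k → N) ≃* G := MulEquiv.ofBijective φ ⟨hinj, MonoidHom.range_eq_top.1 hsurj⟩
    let e2 : (Fin k → N) ≃* (Fin k → Fin r → T) := MulEquiv.piCongrRight (fun _ => eN)
    let E : Fin (k * r) ≃ Fin k × Fin r := finProdFinEquiv.symm
    let e3 : (Fin k → Fin r → T) ≃* (Fin (k * r) → T) :=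
      { toFun := fun x i => x (E i).1 (E i).2
        invFun := fun y a b => y (E.symm (a, b))
        left_inv := fun x => by funext a b; simp
        right_inv := fun y => by funext i; simp
        map_mul' := fun x y => rfl }
    exact ⟨T, i1, i2, k * r, Nat.mul_pos hk hr, ⟨e1.symm.trans (e2.trans e3)⟩⟩


/-- A non-trivial finite group G is characteristically simple (its only characteristic subgroups are 1 and G) if and only if G is isomorphic to a direct power S^n (n ≥ 1) of some simple group S (possibly cyclic of prime order). -/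
theorem result {G : Type*} [Group G] [Finite G] [Nontrivial G] :
    (∀ H : Subgroup G, H.Characteristic → H = ⊥ ∨ H = ⊤) ↔
    ∃ (S : Type) (_ : Group S) (_ : IsSimpleGroup S) (n : ℕ), 1 ≤ n ∧ Nonempty (G ≃* (Fin n → S)) := by
  classical
  constructor
  · intro h
    exact main_rev _ G rfl h
  · rintro ⟨S, i1, i2, n, hn, ⟨e⟩⟩ H hH
    have hK := charSimple_pi (H.map e.toMonoidHom) (by
      rintro ψ _ ⟨y, hy, rfl⟩
      have h1 := (Subgroup.characteristic_iff_comap_eq.1 hH) (e.trans (ψ.trans e.symm))
      have h2 : (e.trans (ψ.trans e.symm)) y ∈ H := by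
        have : y ∈ H.comap (e.trans (ψ.trans e.symm)).toMonoidHom := by rw [h1]; exact hy
        exact this
      refine ⟨_, h2, ?_⟩
      simp)
    rcases hK with hb | ht
    · left
      exact (Subgroup.map_eq_bot_iff_of_injective _ e.injective).1 hb
    · right
      rw [eq_top_iff]
      intro x _
      have : e x ∈ H.map e.toMonoidHom := by rw [ht]; trivial
      obtain ⟨y, hy, hyx⟩ := this
      have : y = x := e.injective hyx
      rwa [← this]

end Cfsg.Agent.S5914
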