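import Cfsg.Statements.S5946
-- import your own Cfsg.Agent.* helpers here

set_option autoImplicit false
open Cfsg

namespace Cfsg.Agent.S5946

/-- Let F ⊆ K be finite fields with [K : F] = n ≥ 2 and regard K as an n-dimensional F-vector space. The Singer group M ≤ GL_F(K) of multiplications by the non-zero elements of K is self-centralizing: every F-linear automorphism of K commuting with all of M lies in M. -/
theorem result {F K : Type*} [Field F] [Fintype F] [Field K] [Fintype K] [Algebra F K] (n : ℕ) (hn : 2 ≤ n) (hdim : Module.finrank F K = n) :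
    Subgroup.centralizer (((Units.map ((Algebra.lmul F K : K →ₐ[F] Module.End F K) : K →* Module.End F K)).range : Subgroup (Module.End F K)ˣ) : Set (Module.End F K)ˣ) = (Units.map ((Algebra.lmul F K : K →ₐ[F] Module.End F K) : K →* Module.End F K)).range := by
  classical
  obtain ⟨m, hm⟩ : ∃ m : Kˣ →* (Module.End F K)ˣ, m = Units.map ((Algebra.lmul F K : K →ₐ[F] Module.End F K) : K →* Module.End F K) := ⟨_, rfl⟩
  rw [← hm]
  have hmv : ∀ (u : Kˣ) (x : K), ((m u : (Module.End F K)ˣ) : Module.End F K) x = (u : K) * x := by
    intro u x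
    rw [hm]
    rfl
  apply le_antisymm
  · intro g hg
    rw [Subgroup.mem_centralizer_iff] at hg
    have h1 : ∀ u : Kˣ, (g : Module.End F K) (u : K) = (u : K) * (g : Module.End F K) 1 := by
      intro u
      have h2 := hg (m u) ⟨u, rfl⟩
      have h3 := congrArg (fun h : (Module.End F K)ˣ => (h : Module.End F K) 1) h2
      simp only [Units.val_mul, Module.End.mul_apply, hmv, mul_one] at h3
      exact h3.symm
    have hy : (g : Module.End F K) 1 ≠ 0 := by
      intro h0
      have h2 : ((g⁻¹ : (Module.End F K)ˣ) : Module.End F K) ((g : Module.End F K) 1) = 1 := by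
        rw [← Module.End.mul_apply, Units.inv_mul]
        rfl
      rw [h0, map_zero] at h2
      exact zero_ne_one h2
    refine ⟨Units.mk0 _ hy, ?_⟩
    apply Units.ext
    apply LinearMap.ext
    intro x
    rw [hmv, Units.val_mk0]
    by_cases hx : x = 0
    · rw [hx, mul_zero, map_zero]
    · rw [mul_comm]
      exact (h1 (Units.mk0 x hx)).symm
  · rintro _ ⟨u, rfl⟩
    rw [Subgroup.mem_centralizer_iff]
    rintro _ ⟨v, rfl⟩
    rw [← map_mul, ← map_mul, mul_comm]


end Cfsg.Agent.S5946
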