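import Cfsg.Statements.S5947
import Mathlib

set_option autoImplicit false
open Cfsg

namespace Cfsg.Agent.S5947

/-- Finite fields of the same size over a common subfield are isomorphic. -/
theorem algEquiv_card {F K L : Type*} [Field F] [Field K] [Fintype K] [Algebra F K] [Field L] [Fintype L] [Algebra F L]
    (hc : Fintype.card K = Fintype.card L) : Nonempty (K ≃ₐ[F] L) := by
  classical
  let f : Polynomial F := Polynomial.X ^ Fintype.card K - Polynomial.X
  haveI h1 : Polynomial.IsSplittingField F K f := FiniteField.isSplittingField_sub K F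
  haveI h2 : Polynomial.IsSplittingField F L f := by
    have := FiniteField.isSplittingField_sub L F
    rw [← hc] at this
    exact this
  exact ⟨(Polynomial.IsSplittingField.algEquiv K f).trans (Polynomial.IsSplittingField.algEquiv L f).symm⟩

/-- A subalgebra that is a field with `|K|` elements is a copy of `K`. -/
theorem exists_emb {F K E : Type*} [Field F] [Field K] [Fintype K] [Algebra F K] [Ring E] [Algebra F E] (R : Subalgebra F E)
    [Finite R] (hcard : Nat.card R = Nat.card K) (hfield : IsField R) :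
    ∃ φ : K → E, (∀ k, φ k ∈ R) ∧ (∀ x y, φ (x + y) = φ x + φ y) ∧ (∀ (c : F) x, φ (c • x) = c • φ x) ∧
      (∀ x y, φ (x * y) = φ x * φ y) ∧ (∀ r ∈ R, ∃ k, φ k = r) ∧ (∀ k, φ k = 0 → k = 0) := by
  classical
  let alg₀ : Algebra F R := inferInstance
  letI inst : Field R := hfield.toField
  letI alg : Algebra F R := alg₀
  haveI := Fintype.ofFinite R
  obtain ⟨e⟩ := algEquiv_card (F := F) (K := K) (L := R) (by
    rw [← Nat.card_eq_fintype_card, ← Nat.card_eq_fintype_card, hcard])
  refine ⟨fun k => ((e k : R) : E), fun k => (e k).2, ?_, ?_, ?_, ?_, ?_⟩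
  · intro x y
    show ((e (x + y) : R) : E) = _
    rw [map_add]
    rfl
  · intro c x
    show ((e (c • x) : R) : E) = _
    rw [map_smul]
    rfl
  · intro x y
    show ((e (x * y) : R) : E) = _
    rw [map_mul]
    rfl
  · intro r hr
    obtain ⟨k, hk⟩ := e.surjective ⟨r, hr⟩
    refine ⟨k, ?_⟩
    show ((e k : R) : E) = r
    rw [hk]
  · intro k hk
    have h0 : e k = 0 := Subtype.ext hk
    exact (map_eq_zero_iff e e.injective).1 h0

/-- An abelian group of linear maps whose order is invertible has a regular vector. -/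
theorem exists_regular {F V : Type*} [Field F] [AddCommGroup V] [Module F V] [Finite V] (U : Subgroup (Module.End F V)ˣ)
    (hU : ∀ a ∈ U, ∀ b ∈ U, (a : Module.End F V) * (b : Module.End F V) = b * a) (hcard : (Nat.card U : F) ≠ 0) :
    ∃ v : V, ∀ u ∈ U, (u : Module.End F V) v = v → u = 1 := by
  classical
  let S : V → Subgroup (Module.End F V)ˣ := fun v =>
    { carrier := {u | u ∈ U ∧ (u : Module.End F V) v = v}
      mul_mem' := by
        rintro a b ⟨ha, ha'⟩ ⟨hb, hb'⟩
        refine ⟨U.mul_mem ha hb, ?_⟩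
        rw [Units.val_mul, Module.End.mul_apply, hb', ha']
      one_mem' := ⟨U.one_mem, rfl⟩
      inv_mem' := by
        rintro a ⟨ha, ha'⟩
        refine ⟨U.inv_mem ha, ?_⟩
        have h : ((a⁻¹ : (Module.End F V)ˣ) : Module.End F V) ((a : Module.End F V) v) = v := by
          rw [← Module.End.mul_apply, Units.inv_mul]
          rfl
        rw [ha'] at h
        exact h }
  haveI hfinE : Finite (Module.End F V) := Finite.of_injective (fun f : V →ₗ[F] V => (f : V → V)) DFunLike.coe_injective
  obtain ⟨v, hv⟩ := Finite.exists_min (fun v => Nat.card (S v))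
  refine ⟨v, ?_⟩
  by_contra hne
  push Not at hne
  obtain ⟨s₀, hs₀U, hs₀v, hs₀1⟩ := hne
  have hSle : S v ≤ U := fun u hu => hu.1
  have hSF : (Nat.card (S v) : F) ≠ 0 := by
    obtain ⟨k, hk⟩ := Subgroup.card_dvd_of_le hSle
    intro h
    apply hcard
    rw [hk]
    push_cast
    rw [h, zero_mul]
  haveI := Fintype.ofFinite (S v)
  let P : Module.End F V := (Nat.card (S v) : F)⁻¹ • ∑ s : S v, ((s : (Module.End F V)ˣ) : Module.End F V)
  have hPdef : P = (Nat.card (S v) : F)⁻¹ • ∑ s : S v, ((s : (Module.End F V)ˣ) : Module.End F V) := rfl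
  have hPs : ∀ t ∈ S v, (t : Module.End F V) * P = P := by
    intro t ht
    rw [hPdef, mul_smul_comm, Finset.mul_sum]
    congr 1
    exact Fintype.sum_equiv (Equiv.mulLeft (⟨t, ht⟩ : S v)) _ _ (fun s => rfl)
  have hPv : P v = v := by
    have h1 : (∑ s : S v, ((s : (Module.End F V)ˣ) : Module.End F V)) v = (Nat.card (S v) : F) • v := by
      rw [LinearMap.sum_apply, Finset.sum_congr rfl (fun (s : S v) _ => s.2.2), Finset.sum_const, Finset.card_univ,
        ← Nat.card_eq_fintype_card, Nat.cast_smul_eq_nsmul]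
    rw [hPdef, LinearMap.smul_apply, h1, smul_smul, inv_mul_cancel₀ hSF, one_smul]
  have hPP : P * P = P := by
    conv_lhs => rw [hPdef]
    rw [smul_mul_assoc, Finset.sum_mul, Finset.sum_congr rfl (fun (s : S v) _ => hPs s.1 s.2), Finset.sum_const, Finset.card_univ,
      ← Nat.card_eq_fintype_card, ← Nat.cast_smul_eq_nsmul F, smul_smul, inv_mul_cancel₀ hSF, one_smul]
  have hPcomm : ∀ u ∈ U, (u : Module.End F V) * P = P * u := by
    intro u hu
    rw [hPdef, mul_smul_comm, smul_mul_assoc, Finset.mul_sum, Finset.sum_mul]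
    congr 1
    exact Finset.sum_congr rfl (fun (s : S v) _ => hU _ hu _ s.2.1)
  obtain ⟨w₀, hw₀⟩ : ∃ w₀ : V, (s₀ : Module.End F V) w₀ ≠ w₀ := by
    by_contra hall
    push Not at hall
    apply hs₀1
    apply Units.ext
    apply LinearMap.ext
    exact hall
  let w : V := w₀ - P w₀
  have hPw : P w = 0 := by
    have h1 : P (P w₀) = P w₀ := by rw [← Module.End.mul_apply, hPP]
    show P (w₀ - P w₀) = 0
    rw [map_sub, h1, sub_self]
  have hs₀P : (s₀ : Module.End F V) (P w₀) = P w₀ := by
    rw [← Module.End.mul_apply, hPs s₀ ⟨hs₀U, hs₀v⟩]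
  have hs₀w : (s₀ : Module.End F V) w ≠ w := by
    intro h
    have h1 : (s₀ : Module.End F V) (w₀ - P w₀) = w₀ - P w₀ := h
    rw [map_sub, hs₀P] at h1
    exact hw₀ (sub_left_injective h1)
  have hlt : (S (v + w) : Set (Module.End F V)ˣ) ⊂ (S v : Set (Module.End F V)ˣ) := by
    constructor
    · rintro u ⟨hu, hu'⟩
      refine ⟨hu, ?_⟩
      have h1 : (P * (u : Module.End F V)) (v + w) = P (v + w) := by
        rw [Module.End.mul_apply, hu']
      rw [← hPcomm u hu, Module.End.mul_apply, map_add, hPv, hPw, add_zero] at h1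
      exact h1
    · intro hsub
      have h1 : s₀ ∉ S (v + w) := by
        rintro ⟨-, h2⟩
        rw [map_add, hs₀v] at h2
        exact hs₀w (add_left_cancel h2)
      exact h1 (hsub ⟨hs₀U, hs₀v⟩)
  have h3 := Set.ncard_lt_ncard hlt (Set.toFinite _)
  rw [← Nat.card_coe_set_eq, ← Nat.card_coe_set_eq] at h3
  exact absurd (hv (v + w)) (not_le.2 h3)


/-- Let F ⊆ K be finite fields with |F| = q and [K : F] = n ≥ 2, regard K as an n-dimensional F-vector space, and let M ≤ GL_F(K) be the Singer group of multiplications by non-zero elements of K (cyclic of order q^n − 1). Assume (n, q) ≠ (6, 2), and that it is not the case that n = 2 with q a prime such that q + 1 is a power of 2. Then every abelian subgroup of GL_F(K) of order q^n − 1 is conjugate to M. -/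
theorem result {F K : Type*} [Field F] [Fintype F] [Field K] [Fintype K] [Algebra F K] (n : ℕ) (hn : 2 ≤ n) (hdim : Module.finrank F K = n)
    (hex1 : ¬ (n = 6 ∧ Fintype.card F = 2))
    (hex2 : ¬ (n = 2 ∧ (Fintype.card F).Prime ∧ ∃ a : ℕ, Fintype.card F + 1 = 2 ^ a))
    (U : Subgroup (Module.End F K)ˣ) (hU : IsMulCommutative U) (hcard : Nat.card U = Fintype.card K - 1) :
    ∃ g : (Module.End F K)ˣ, U.map (MulAut.conj g).toMonoidHom = (Units.map ((Algebra.lmul F K : K →ₐ[F] Module.End F K) : K →* Module.End F K)).range := by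
  classical
  have hcomm : ∀ a ∈ U, ∀ b ∈ U, (a : Module.End F K) * (b : Module.End F K) = b * a := by
    intro a ha b hb
    have h := hU.is_comm.comm ⟨a, ha⟩ ⟨b, hb⟩
    have h2 := congrArg (fun x : U => ((x : (Module.End F K)ˣ) : Module.End F K)) h
    simpa using h2
  have hq2 : 2 ≤ Fintype.card F := Fintype.one_lt_card
  have hKcard : Fintype.card K = Fintype.card F ^ n := by
    rw [← hdim]
    exact Module.card_eq_pow_finrank
  have hK4 : 4 ≤ Fintype.card K := by
    rw [hKcard]
    calc 4 = 2 ^ 2 := by norm_num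
      _ ≤ Fintype.card F ^ 2 := Nat.pow_le_pow_left hq2 2
      _ ≤ Fintype.card F ^ n := Nat.pow_le_pow_right (by omega) hn
  have hc : (Nat.card U : F) ≠ 0 := by
    rw [hcard, Nat.cast_sub (by omega), hKcard]
    push_cast
    have h0 : ((Fintype.card F : ℕ) : F) = 0 := FiniteField.cast_card_eq_zero F
    rw [h0, zero_pow (by omega)]
    simp
  obtain ⟨v₀, hv₀⟩ := exists_regular U hcomm hc
  have hv₀0 : v₀ ≠ 0 := by
    rintro rfl
    have hbot : U = ⊥ := by
      rw [eq_bot_iff]
      intro u hu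
      exact hv₀ u hu (map_zero _)
    rw [hbot] at hcard
    simp only [Subgroup.card_bot] at hcard
    omega
  have hunit : ∀ u : (Module.End F K)ˣ, ∀ x : K, (u : Module.End F K) x = 0 → x = 0 := by
    intro u x hx
    have h : ((u⁻¹ : (Module.End F K)ˣ) : Module.End F K) ((u : Module.End F K) x) = x := by
      rw [← Module.End.mul_apply, Units.inv_mul]
      rfl
    rw [hx, map_zero] at h
    exact h.symm
  let f : U → Kˣ := fun u => Units.mk0 (((u : (Module.End F K)ˣ) : Module.End F K) v₀) (fun h => hv₀0 (hunit _ _ h))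
  have hfinj : Function.Injective f := by
    intro a b hab
    have h1 : ((a : (Module.End F K)ˣ) : Module.End F K) v₀ = ((b : (Module.End F K)ˣ) : Module.End F K) v₀ := by
      have := congrArg (fun x : Kˣ => (x : K)) hab
      simpa [f] using this
    have h2 : ((b : (Module.End F K)ˣ)⁻¹ * (a : (Module.End F K)ˣ)) = 1 := by
      apply hv₀ _ (U.mul_mem (U.inv_mem b.2) a.2)
      rw [Units.val_mul, Module.End.mul_apply, h1, ← Module.End.mul_apply, Units.inv_mul]
      rfl
    apply Subtype.ext
    exact (inv_mul_eq_one.1 h2).symm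
  have hfbij : Function.Bijective f := by
    rw [Nat.bijective_iff_injective_and_card]
    refine ⟨hfinj, ?_⟩
    rw [hcard, Nat.card_eq_fintype_card, Fintype.card_units]
  have hsurj : ∀ w : K, w ≠ 0 → ∃ u ∈ U, (u : Module.End F K) v₀ = w := by
    intro w hw
    obtain ⟨u, hu⟩ := hfbij.2 (Units.mk0 w hw)
    refine ⟨u, u.2, ?_⟩
    have := congrArg (fun x : Kˣ => (x : K)) hu
    simpa [f] using this
  let R : Subalgebra F (Module.End F K) := Subalgebra.centralizer F ((fun u : (Module.End F K)ˣ => (u : Module.End F K)) '' (U : Set (Module.End F K)ˣ))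
  have hRmem : ∀ r : Module.End F K, r ∈ R ↔ ∀ u ∈ U, (u : Module.End F K) * r = r * u := by
    intro r
    rw [Subalgebra.mem_centralizer_iff]
    constructor
    · intro h u hu
      exact h _ ⟨u, hu, rfl⟩
    · rintro h _ ⟨u, hu, rfl⟩
      exact h u hu
  have hkill : ∀ r ∈ R, r v₀ = 0 → r = 0 := by
    intro r hr h0
    apply LinearMap.ext
    intro w
    by_cases hw : w = 0
    · rw [hw, map_zero, map_zero]
    · obtain ⟨u, hu, rfl⟩ := hsurj w hw
      have h1 := (hRmem r).1 hr u hu
      have h2 : (r * (u : Module.End F K)) v₀ = ((u : Module.End F K) * r) v₀ := by rw [h1]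
      rw [Module.End.mul_apply, Module.End.mul_apply, h0, map_zero] at h2
      exact h2
  have hUR : ∀ u ∈ U, (u : Module.End F K) ∈ R := fun u hu => (hRmem _).2 (fun u' hu' => hcomm u' hu' u hu)
  have hRU : ∀ r ∈ R, r ≠ 0 → ∃ u ∈ U, r = (u : Module.End F K) := by
    intro r hr hr0
    have h1 : r v₀ ≠ 0 := fun h => hr0 (hkill r hr h)
    obtain ⟨u, hu, hue⟩ := hsurj _ h1
    refine ⟨u, hu, ?_⟩
    have h2 : r - (u : Module.End F K) = 0 := by
      apply hkill _ (R.sub_mem hr (hUR u hu))
      rw [LinearMap.sub_apply, hue, sub_self]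
    exact sub_eq_zero.1 h2
  have hne01 : (0 : Module.End F K) ≠ 1 := by
    intro h
    have h1 := congrArg (fun r : Module.End F K => r v₀) h
    exact hv₀0 (h1.symm)
  have hfield : IsField R := by
    refine ⟨⟨0, 1, fun h => hne01 (congrArg Subtype.val h)⟩, ?_, ?_⟩
    · rintro ⟨x, hx⟩ ⟨y, hy⟩
      apply Subtype.ext
      show x * y = y * x
      exact ((hRmem y).1 hy |> fun _ => (by
        by_cases hx0 : x = 0
        · rw [hx0, zero_mul, mul_zero]
        · obtain ⟨u, hu, rfl⟩ := hRU x hx hx0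
          exact ((hRmem y).1 hy u hu)))
    · rintro ⟨x, hx⟩ hx0
      have hx0' : x ≠ 0 := fun h => hx0 (Subtype.ext h)
      obtain ⟨u, hu, rfl⟩ := hRU x hx hx0'
      refine ⟨⟨_, hUR u⁻¹ (U.inv_mem hu)⟩, Subtype.ext ?_⟩
      exact Units.mul_inv u
  haveI hfinE : Finite (Module.End F K) := Finite.of_injective (fun f : K →ₗ[F] K => (f : K → K)) DFunLike.coe_injective
  have hcardR : Nat.card R = Nat.card K := by
    refine Nat.card_congr (Equiv.ofBijective (fun r : R => (r : Module.End F K) v₀) ⟨?_, ?_⟩)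
    · intro a b hab
      apply Subtype.ext
      have h := hkill _ (R.sub_mem a.2 b.2) (by
        rw [LinearMap.sub_apply]
        exact sub_eq_zero.2 hab)
      exact sub_eq_zero.1 h
    · intro w
      by_cases hw : w = 0
      · exact ⟨0, by rw [hw]; rfl⟩
      · obtain ⟨u, hu, rfl⟩ := hsurj w hw
        exact ⟨⟨_, hUR u hu⟩, rfl⟩
  obtain ⟨φ, hφR, hφadd, hφsmul, hφmul, hφsurj, hφ0⟩ := exists_emb R hcardR hfield
  have hφzero : φ 0 = 0 := by
    have h := hφadd 0 0
    rw [add_zero] at h
    exact left_eq_add.1 h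
  let ψ : K →ₗ[F] K :=
    { toFun := fun k => φ k v₀
      map_add' := fun x y => by rw [hφadd]; rfl
      map_smul' := fun c x => by rw [hφsmul]; rfl }
  have hψinj : Function.Injective ψ := by
    rw [injective_iff_map_eq_zero]
    intro k hk
    exact hφ0 k (hkill _ (hφR k) hk)
  haveI : FiniteDimensional F K := Module.Finite.of_finite
  have hψsurj : Function.Surjective ψ := LinearMap.injective_iff_surjective.1 hψinj
  let Ψ : K ≃ₗ[F] K := LinearEquiv.ofBijective ψ ⟨hψinj, hψsurj⟩
  have hΨ : ∀ x, Ψ x = φ x v₀ := fun x => rfl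
  have hconj : ∀ k x, Ψ (k * x) = φ k (Ψ x) := by
    intro k x
    rw [hΨ, hΨ, hφmul, Module.End.mul_apply]
  let g : (Module.End F K)ˣ := ⟨Ψ.symm.toLinearMap, Ψ.toLinearMap,
    LinearMap.ext fun x => Ψ.symm_apply_apply x, LinearMap.ext fun x => Ψ.apply_symm_apply x⟩
  refine ⟨g, ?_⟩
  ext y
  simp only [Subgroup.mem_map, MonoidHom.mem_range]
  constructor
  · rintro ⟨u, hu, rfl⟩
    obtain ⟨k, hk⟩ := hφsurj u (hUR u hu)
    have hk0 : k ≠ 0 := by
      rintro rfl
      rw [hφzero] at hk
      exact u.ne_zero hk.symm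
    refine ⟨Units.mk0 k hk0, ?_⟩
    apply Units.ext
    apply LinearMap.ext
    intro x
    show k * x = Ψ.symm ((u : Module.End F K) (Ψ x))
    rw [← hk, ← hconj, Ψ.symm_apply_apply]
  · rintro ⟨k, rfl⟩
    obtain ⟨u, hu, hue⟩ := hRU (φ k) (hφR k) (fun h => k.ne_zero (hφ0 _ h))
    refine ⟨u, hu, ?_⟩
    apply Units.ext
    apply LinearMap.ext
    intro x
    show Ψ.symm ((u : Module.End F K) (Ψ x)) = (k : K) * x
    rw [← hue, ← hconj, Ψ.symm_apply_apply]

end Cfsg.Agent.S5947
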